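import Cfsg.Agent.Lib.BlockDef
import Cfsg.Agent.Lib.CharExtra2
import Cfsg.Agent.Lib.H4Real

/-! Blocks covering a principal block; Galois stable blocks. -/

set_option autoImplicit false

namespace Cfsg.Agent.Lib.BlockPair

open Cfsg Cfsg.Agent.Lib.IrrBasic Cfsg.Agent.Lib.LocRing Cfsg.Agent.Lib.CyclicWords Cfsg.Agent.Lib
open Cfsg.Agent.Lib.BlockCore Cfsg.Agent.Lib.BlockOrth Cfsg.Agent.Lib.BlockBrauer
open Cfsg.Agent.Lib.BlockFixed Cfsg.Agent.Lib.BlockDefect Cfsg.Agent.Lib.BlockInduce
open Cfsg.Agent.Lib.BlockMain Cfsg.Agent.Lib.BlockMain2 Cfsg.Agent.Lib.BlockMain3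
open Cfsg.Agent.Lib.BlockMain4 Cfsg.Agent.Lib.BlockNorm Cfsg.Agent.Lib.BlockQuot Cfsg.Agent.Lib.BlockInfl
open Cfsg.Agent.Lib.BlockOku Cfsg.Agent.Lib.BlockInd Cfsg.Agent.Lib.BlockFrob Cfsg.Agent.Lib.BlockFirst
open Cfsg.Agent.Lib.BlockFirst2 Cfsg.Agent.Lib.BlockFirst3 Cfsg.Agent.Lib.BlockHeight Cfsg.Agent.Lib.BlockCentral
open Cfsg.Agent.Lib.BlockCanon Cfsg.Agent.Lib.BlockCover Cfsg.Agent.Lib.BlockCount Cfsg.Agent.Lib.BlockReg
open Cfsg.Agent.Lib.BlockReg2 Cfsg.Agent.Lib.BlockRank Cfsg.Agent.Lib.BlockSub Cfsg.Agent.Lib.BlockSec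
open Cfsg.Agent.Lib.BlockMaj Cfsg.Agent.Lib.BlockFeit
open scoped ComplexConjugate
open MonoidAlgebra Relation

universe u


section Cov
variable {G : Type u} [Group G] [Fintype G] {M : Ideal AlgInt} {p : ℕ} [M.IsPrime] [Fact p.Prime]

theorem regSum_conjIrr (N : Subgroup G) [N.Normal] [Fintype N] (t : G) (θ : IrrCharacter N) :
    (by classical exact ∑ n : N, if ¬ p ∣ orderOf n then (conjIrr N t θ).1 n else 0) =
      (by classical exact ∑ n : N, if ¬ p ∣ orderOf n then θ.1 n else 0) := by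
  classical
  refine Fintype.sum_equiv (cN N t).toEquiv _ _ fun n => ?_
  simp [conjIrr_apply, MulEquiv.orderOf_eq]

theorem regInner_one_eq (N : Subgroup G) [N.Normal] [Fintype N] (θ : IrrCharacter N) :
    regInner p θ (oneIrr N) = (by classical exact ∑ n : N, if ¬ p ∣ orderOf n then θ.1 n else 0) := by
  classical
  simp only [regInner]
  refine Finset.sum_congr rfl fun n _ => ?_
  simp [oneIrr]

theorem regSum_principal_ne (hM : IsPModular p M) (N : Subgroup G) [N.Normal] [Fintype N]
    {θ : IrrCharacter N} (hθ : θ ∈ principalBlock M N) :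
    (by classical exact ∑ n : N, if ¬ p ∣ orderOf n then θ.1 n else 0) ≠ (0 : ℂ) := by
  classical
  rw [← regInner_one_eq N θ, regInner_eq]
  have h0 : blockHeight p (principalBlock M N) (oneIrr N).1 = 0 := by
    have h1 : charDegree (oneIrr N).1 = 1 := by
      rw [charDegree]
      simp [oneIrr]
    rw [blockHeight, h1]
    simp
  have h2 := (regN_unit hM (isPBlock_principal (M := M) (G := N)) (oneIrr_mem (M := M) (G := N)) hθ h0).1
  rw [regN_symm] at h2
  refine mul_ne_zero ?_ (by exact_mod_cast h2)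
  have hp : p ≠ 0 := (Fact.out : p.Prime).ne_zero
  have := Nat.ordCompl_pos (n := Nat.card N) p Nat.card_pos.ne'
  exact_mod_cast this.ne'

theorem regSum_res_ne (hM : IsPModular p M) (N : Subgroup G) [N.Normal] [Fintype N]
    {χ : IrrCharacter G} {θ : IrrCharacter N} (hθ : θ ∈ principalBlock M N)
    (hcon : classInner (fun n : N => χ.1 n) θ.1 ≠ 0) :
    (by classical exact ∑ n : N, if ¬ p ∣ orderOf n then χ.1 n else 0) ≠ (0 : ℂ) := by
  classical
  have hcl : IsClassFunction N (fun n : N => χ.1 n) := by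
    intro x t
    simp only [Subgroup.coe_mul, Subgroup.coe_inv]
    exact val_conj χ _ _
  have hexp := Cfsg.Agent.Lib.CharOrth.classFun_eq_sum (fun n : N => χ.1 n) hcl
  set s : ℂ := ∑ n : N, if ¬ p ∣ orderOf n then θ.1 n else 0 with hs
  have hsne : s ≠ 0 := regSum_principal_ne hM N hθ
  set c : IrrCharacter N → ℂ := fun ψ => classInner (fun n : N => χ.1 n) ψ.1 with hc
  have hrow : ∀ ψ : IrrCharacter N, c ψ * (∑ n : N, if ¬ p ∣ orderOf n then ψ.1 n else 0) = c ψ * s := by
    intro ψ
    by_cases hψ : c ψ = 0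
    · rw [hψ, zero_mul, zero_mul]
    · obtain ⟨t, rfl⟩ := constituents_conj N χ θ ψ hcon hψ
      congr 1
      have := regSum_conjIrr (p := p) N t θ
      convert this
  have hdeg : ∀ ψ : IrrCharacter N, c ψ * ψ.1 1 = c ψ * θ.1 1 := by
    intro ψ
    by_cases hψ : c ψ = 0
    · rw [hψ, zero_mul, zero_mul]
    · obtain ⟨t, rfl⟩ := constituents_conj N χ θ ψ hcon hψ
      congr 1
      rw [conjIrr_apply]
      congr 1
      simp
  have hsum : (∑ n : N, if ¬ p ∣ orderOf n then χ.1 n else 0) = (∑ ψ : IrrCharacter N, c ψ) * s := by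
    have h1 : ∀ n : N, χ.1 n = ∑ ψ : IrrCharacter N, c ψ * ψ.1 n := by
      intro n
      have := congrFun hexp n
      simpa [hc, Finset.sum_apply, Pi.smul_apply, smul_eq_mul] using this
    have h2 : (∑ n : N, if ¬ p ∣ orderOf n then χ.1 n else 0) =
        ∑ ψ : IrrCharacter N, c ψ * (∑ n : N, if ¬ p ∣ orderOf n then ψ.1 n else 0) := by
      simp only [Finset.mul_sum]
      rw [Finset.sum_comm]
      refine Finset.sum_congr rfl fun n _ => ?_
      by_cases hn : p ∣ orderOf n
      · simp [hn]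
      · simp only [hn, not_false_eq_true, if_true]
        exact h1 n
    rw [h2, Finset.sum_mul]
    exact Finset.sum_congr rfl fun ψ _ => hrow ψ
  have hone : χ.1 1 = (∑ ψ : IrrCharacter N, c ψ) * θ.1 1 := by
    have := congrFun hexp 1
    have h3 : χ.1 ((1 : N) : G) = ∑ ψ : IrrCharacter N, c ψ * ψ.1 1 := by
      simpa [hc, Finset.sum_apply, Pi.smul_apply, smul_eq_mul] using this
    rw [Subgroup.coe_one] at h3
    rw [h3, Finset.sum_mul]
    exact Finset.sum_congr rfl fun ψ _ => hdeg ψ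
  rw [hsum]
  refine mul_ne_zero ?_ hsne
  intro h0
  rw [h0, zero_mul] at hone
  exact val_one_ne_zero χ hone

/-- A block covering the principal block of `N` contains an inflated character from `G/N`. -/
theorem exists_infl_of_covers_principal (hM : IsPModular p M) (N : Subgroup G) [N.Normal] [Fintype N]
    {χ : IrrCharacter G} {θ : IrrCharacter N} (hθ : θ ∈ principalBlock M N)
    (hcon : classInner (fun n : N => χ.1 n) θ.1 ≠ 0) :
    ∃ l : IrrCharacter (G ⧸ N), SameBlock M χ.1 (inflIrr N l).1 := by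
  classical
  by_contra hno
  push Not at hno
  have := Fintype.ofFinite (G ⧸ N)
  have h0 : ∀ l : IrrCharacter (G ⧸ N), regInner p χ (inflIrr N l) = 0 := fun l =>
    regInner_eq_zero hM (hno l)
  have h1 : (∑ l : IrrCharacter (G ⧸ N), l.1 1 * regInner p χ (inflIrr N l)) = 0 := by
    simp [h0]
  have h2 : (∑ l : IrrCharacter (G ⧸ N), l.1 1 * regInner p χ (inflIrr N l)) =
      ∑ g : G, if ¬ p ∣ orderOf g then χ.1 g *
        (if IsConj (1 : G ⧸ N) (g : G ⧸ N) then (Nat.card (Subgroup.centralizer ({(g : G ⧸ N)} : Set (G ⧸ N))) : ℂ) else 0) else 0 := by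
    simp only [regInner, Finset.mul_sum]
    rw [Finset.sum_comm]
    refine Finset.sum_congr rfl fun g _ => ?_
    by_cases hg : p ∣ orderOf g
    · simp [hg]
    · simp only [hg, not_false_eq_true, if_true]
      have hs := sum_irr_val_mul_conj (1 : G ⧸ N) (g : G ⧸ N)
      trans χ.1 g * ∑ l : IrrCharacter (G ⧸ N), l.1 1 * conj (l.1 (g : G ⧸ N))
      · rw [Finset.mul_sum]
        refine Finset.sum_congr rfl fun l _ => ?_
        rw [inflIrr_apply]
        ring
      · congr 1
        convert hs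
  have h3 : (∑ g : G, if ¬ p ∣ orderOf g then χ.1 g *
        (if IsConj (1 : G ⧸ N) (g : G ⧸ N) then (Nat.card (Subgroup.centralizer ({(g : G ⧸ N)} : Set (G ⧸ N))) : ℂ) else 0) else 0) =
      (Nat.card (G ⧸ N) : ℂ) * ∑ n : N, if ¬ p ∣ orderOf n then χ.1 n else 0 := by
    have hsubt : (∑ n : N, if ¬ p ∣ orderOf n then χ.1 n else 0) =
        ∑ g : G, if g ∈ N then (if ¬ p ∣ orderOf g then χ.1 g else 0) else 0 := by
      have := Finset.sum_subtype (F := (inferInstance : Fintype N)) (Finset.univ.filter (· ∈ N)) (p := (· ∈ N)) (by simp) (fun g : G => if ¬ p ∣ orderOf g then χ.1 g else 0)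
      rw [Finset.sum_filter] at this
      rw [this]
      refine Finset.sum_congr rfl fun n _ => ?_
      rw [Subgroup.orderOf_coe]
    rw [hsubt, Finset.mul_sum]
    refine Finset.sum_congr rfl fun g _ => ?_
    by_cases hgN : g ∈ N
    · have hg1 : (g : G ⧸ N) = 1 := (QuotientGroup.eq_one_iff g).mpr hgN
      rw [if_pos hgN, hg1]
      rw [if_pos (IsConj.refl _)]
      have hc : Nat.card (Subgroup.centralizer ({(1 : G ⧸ N)} : Set (G ⧸ N))) = Nat.card (G ⧸ N) := by
        have : Subgroup.centralizer ({(1 : G ⧸ N)} : Set (G ⧸ N)) = ⊤ := by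
          ext x
          simp [Subgroup.mem_centralizer_iff]
        rw [this]
        simp
      rw [hc]
      by_cases hn : p ∣ orderOf g
      · simp [hn]
      · simp only [hn, not_false_eq_true, if_true]
        ring
    · have hg1 : (g : G ⧸ N) ≠ 1 := fun h => hgN ((QuotientGroup.eq_one_iff g).mp h)
      rw [if_neg hgN]
      have : ¬ IsConj (1 : G ⧸ N) (g : G ⧸ N) := by
        intro hc
        exact hg1 (isConj_one_right.mp hc)
      have h5 : ¬ (1 = (g : G ⧸ N)) := fun h => hg1 h.symm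
      simp [this, h5]
  have hne := regSum_res_ne hM N hθ hcon
  rw [h2, h3] at h1
  rcases mul_eq_zero.mp h1 with h4 | h4
  · exact (by exact_mod_cast Nat.card_pos.ne' : (Nat.card (G ⧸ N) : ℂ) ≠ 0) h4
  · exact hne (by convert h4)

end Cov

section Sigma
variable {G : Type u} [Group G] [Fintype G] {M : Ideal AlgInt}

theorem centralizer_pow_eq {k : ℕ} (hk : k.Coprime (Nat.card G)) (g : G) :
    Subgroup.centralizer ({g ^ k} : Set G) = Subgroup.centralizer ({g} : Set G) := by
  have hk' : k.Coprime (orderOf g) := Nat.Coprime.coprime_dvd_right (orderOf_dvd_natCard g) hk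
  obtain ⟨m, hm⟩ := exists_pow_eq_self_of_coprime hk'
  ext x
  simp only [Subgroup.mem_centralizer_singleton_iff]
  constructor
  · intro h
    have h1 : Commute x (g ^ k) := h
    have h2 : Commute x ((g ^ k) ^ m) := h1.pow_right m
    rw [hm] at h2
    exact h2
  · intro h
    have h1 : Commute x g := h
    exact h1.pow_right k

theorem centralChar_pw {k : ℕ} (hk : k.Coprime (Nat.card G)) (χ : G → ℂ) (g : G) :
    centralChar (fun x => χ (x ^ k)) g = centralChar χ (g ^ k) := by
  simp only [centralChar, one_pow]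
  rw [centralizer_pow_eq hk]

theorem sameBlock_pw {k : ℕ} (hk : k.Coprime (Nat.card G)) {χ ψ : G → ℂ} (h : SameBlock M χ ψ) :
    SameBlock M (fun x => χ (x ^ k)) (fun x => ψ (x ^ k)) := by
  intro g
  rw [centralChar_pw hk, centralChar_pw hk]
  exact h _

theorem exists_pw_mem_of_fixed {k : ℕ} (hk : k.Coprime (Nat.card G)) {B : Set (IrrCharacter G)}
    {χ : IrrCharacter G} (hB : B = blockOf M χ.1) (hχ : ∀ g : G, χ.1 (g ^ k) = χ.1 g) :
    ∀ ψ ∈ B, ∃ ψ' ∈ B, ∀ g : G, ψ'.1 g = ψ.1 (g ^ k) := by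
  intro ψ hψ
  refine ⟨⟨fun g => ψ.1 (g ^ k), Cfsg.Agent.Lib.CharExtra2.pw_irr hk ψ.2⟩, ?_, fun g => rfl⟩
  subst hB
  have h1 : SameBlock M χ.1 ψ.1 := hψ
  have h2 := sameBlock_pw hk h1
  have h3 : (fun x => χ.1 (x ^ k)) = χ.1 := funext hχ
  rw [h3] at h2
  exact h2

end Sigma

section Main
variable {G : Type u} [Group G] [Fintype G] {M : Ideal AlgInt} [M.IsPrime]

theorem s4520 (hM : IsPModular 2 M) (N : Subgroup G) [N.Normal] [Fintype N] (hidx : Odd N.index)
    (k : ℕ) (hk : Nat.Coprime k (Nat.card G)) (hk₂ : ∀ g : G, Odd (orderOf g) → g ^ k = g⁻¹)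
    (θ : IrrCharacter N) (χ : IrrCharacter G) (hχ : ∀ g : G, χ.1 (g ^ k) = χ.1 g)
    (hover : classInner (fun n : N => χ.1 n) θ.1 ≠ 0) :
    χ ∈ principalBlock M G ↔ θ ∈ principalBlock M N := by
  classical
  have hf2 : Fact (Nat.Prime 2) := ⟨Nat.prime_two⟩
  constructor
  · intro h
    have hone : classInner (fun n : N => (oneIrr G).1 (n : G)) (oneIrr N).1 ≠ 0 := by
      have : classInner (fun n : N => (oneIrr G).1 (n : G)) (oneIrr N).1 = 1 := by
        have h1 := classInner_irr (oneIrr N) (oneIrr N)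
        rw [if_pos rfl] at h1
        exact h1
      rw [this]
      exact one_ne_zero
    have h2 := covers_conj N hM (isPBlock_principal (M := M) (G := G)) (isPBlock_principal (M := M) (G := N))
      (oneIrr_mem (M := M) (G := G)) h (oneIrr_mem (M := M) (G := N)) hone hover
    obtain ⟨t, θ', hθ', rfl⟩ := h2
    have h3 : SameBlock M (oneIrr N).1 θ'.1 := hθ'
    have h4 := sameBlock_conjIrr N t h3
    rw [conjIrr_oneIrr] at h4
    exact h4
  · intro h
    obtain ⟨l, hl⟩ := exists_infl_of_covers_principal hM N h hover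
    set B := blockOf M χ.1 with hBdef
    have hB : IsPBlock M B := ⟨χ, rfl⟩
    have hlB : inflIrr N l ∈ B := hl
    have hdef : blockDefect 2 B = (Nat.card G).factorization 2 := by
      have h0 : sInf ((fun χ : IrrCharacter G => (charDegree (χ : G → ℂ)).factorization 2) '' B) = 0 := by
        refine Nat.le_zero.mp (le_trans (Nat.sInf_le ⟨inflIrr N l, hlB, rfl⟩) ?_)
        have hdeg : charDegree (inflIrr N l).1 = charDegree l.1 := by
          simp only [charDegree, inflIrr_apply]
          rfl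
        simp only [hdeg]
        have hd : charDegree l.1 ∣ Nat.card (G ⧸ N) := charDegree_dvd_card l
        have hodd : Odd (charDegree l.1) := by
          have h5 : Odd (Nat.card (G ⧸ N)) := by
            rw [← Subgroup.index_eq_card]
            exact hidx
          exact Odd.of_dvd_nat h5 hd
        rw [Nat.factorization_eq_zero_of_not_dvd hodd.not_two_dvd_nat]
      rw [blockDefect, h0]
      simp
    have hstab := exists_pw_mem_of_fixed hk (B := B) rfl hχ
    have h6 := Lib.H4Real.s4517 hM hk₂ hB hdef hstab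
    rw [← h6]
    exact mem_blockOf_self χ

end Main

end Cfsg.Agent.Lib.BlockPair
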