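import Cfsg.Agent.Lib.BlockE11

/-! An involution normalizing a Sylow subgroup. -/

set_option autoImplicit false

namespace Cfsg.Agent.Lib.BlockPair

open Cfsg Cfsg.Agent.Lib.IrrBasic Cfsg.Agent.Lib.LocRing Cfsg.Agent.Lib.CyclicWords Cfsg.Agent.Lib
open Cfsg.Agent.Lib.BlockCore Cfsg.Agent.Lib.BlockOrth Cfsg.Agent.Lib.BlockBrauer
open Cfsg.Agent.Lib.BlockFixed Cfsg.Agent.Lib.BlockDefect Cfsg.Agent.Lib.BlockInduce
open Cfsg.Agent.Lib.BlockMain Cfsg.Agent.Lib.BlockMain2 Cfsg.Agent.Lib.BlockMain3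
open Cfsg.Agent.Lib.BlockMain4 Cfsg.Agent.Lib.BlockNorm Cfsg.Agent.Lib.BlockQuot Cfsg.Agent.Lib.BlockInfl
open Cfsg.Agent.Lib.BlockOku Cfsg.Agent.Lib.BlockInd Cfsg.Agent.Lib.BlockFrob Cfsg.Agent.Lib.BlockFirst
open Cfsg.Agent.Lib.BlockFirst2 Cfsg.Agent.Lib.BlockFirst3 Cfsg.Agent.Lib.BlockHeight Cfsg.Agent.Lib.BlockCentral
open Cfsg.Agent.Lib.BlockCanon Cfsg.Agent.Lib.BlockCover Cfsg.Agent.Lib.BlockCount Cfsg.Agent.Lib.BlockReg
open Cfsg.Agent.Lib.BlockReg2 Cfsg.Agent.Lib.BlockRank Cfsg.Agent.Lib.BlockSub Cfsg.Agent.Lib.BlockSec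
open Cfsg.Agent.Lib.BlockMaj Cfsg.Agent.Lib.BlockFeit
open scoped ComplexConjugate
open MonoidAlgebra Relation

universe u


section E12
open scoped Pointwise
variable {G : Type u} [Group G] [Fintype G] {p : ℕ} [hpf : Fact p.Prime]

theorem exists_fixed_of_involutive {X : Type*} [Fintype X] (f : X → X) (hf : ∀ x, f (f x) = x)
    (hodd : Odd (Fintype.card X)) : ∃ x, f x = x := by
  classical
  by_contra hne
  push Not at hne
  have h := Finset.sum_involution (s := (Finset.univ : Finset X)) (f := fun _ => (1 : ZMod 2)) (fun a _ => f a)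
    (fun a _ => by decide) (fun a _ _ => hne a) (fun a _ => Finset.mem_univ _) (fun a _ => hf a)
  rw [Finset.sum_const, nsmul_one, Finset.card_univ, ZMod.natCast_eq_zero_iff] at h
  exact (Nat.not_even_iff_odd.mpr hodd) (even_iff_two_dvd.mpr h)

/-- A fixed point free involution inverts. -/
theorem invo_inverts {H : Subgroup G} {x : G} (hx : x * x = 1) (hn : ∀ t ∈ H, x * t * x⁻¹ ∈ H)
    (hfp : ∀ t ∈ H, x * t * x⁻¹ = t → t = 1) : (∀ t ∈ H, x * t * x⁻¹ = t⁻¹) ∧ ∀ a ∈ H, ∀ b ∈ H, a * b = b * a := by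
  classical
  have hxi : x⁻¹ = x := inv_eq_of_mul_eq_one_left hx
  obtain ⟨φ, hφ⟩ : ∃ φ : H →* H, ∀ t : H, ((φ t : H) : G) = x * t * x⁻¹ :=
    ⟨{ toFun := fun t => ⟨x * t * x⁻¹, hn t t.2⟩
       map_one' := Subtype.ext (by simp)
       map_mul' := fun a b => Subtype.ext (by
        change x * ((a : G) * b) * x⁻¹ = x * a * x⁻¹ * (x * b * x⁻¹)
        group) }, fun t => rfl⟩
  have h1 : MonoidHom.FixedPointFree φ := by
    intro t ht
    have h2 := congrArg (fun z : H => (z : G)) ht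
    simp only [hφ] at h2
    exact Subtype.ext (hfp t t.2 h2)
  have h2 : Function.Involutive φ := by
    intro t
    apply Subtype.ext
    rw [hφ, hφ, hxi]
    calc x * (x * (t : G) * x) * x = (x * x) * t * (x * x) := by group
      _ = t := by rw [hx]; group
  have h3 := MonoidHom.FixedPointFree.coe_eq_inv_of_involutive h1 h2
  have h4 := MonoidHom.FixedPointFree.commute_all_of_involutive h1 h2
  constructor
  · intro t ht
    have h5 := congrFun h3 ⟨t, ht⟩
    have h6 := congrArg (fun z : H => (z : G)) h5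
    simp only [hφ] at h6
    exact h6
  · intro a ha b hb
    have h5 := h4 ⟨a, ha⟩ ⟨b, hb⟩
    exact congrArg (fun z : H => (z : G)) h5

theorem no_fixed_of_odd (hC : ∀ g : G, g ≠ 1 → (∃ k : ℕ, orderOf g = p ^ k) →
      Odd (Nat.card (Subgroup.centralizer ({g} : Set G)))) {x : G} (hx : x * x = 1) (hx1 : x ≠ 1) {t : G}
    (ht : ∃ k : ℕ, orderOf t = p ^ k) (hc : x * t * x⁻¹ = t) : t = 1 := by
  by_contra ht1
  have h1 := hC t ht1 ht
  have hxm : x ∈ Subgroup.centralizer ({t} : Set G) := by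
    rw [Subgroup.mem_centralizer_singleton_iff]
    exact mul_inv_eq_iff_eq_mul.mp hc
  have h2 : orderOf x ∣ Nat.card (Subgroup.centralizer ({t} : Set G)) := by
    have h3 := orderOf_dvd_natCard (⟨x, hxm⟩ : Subgroup.centralizer ({t} : Set G))
    rwa [Subgroup.orderOf_mk] at h3
  have h3 : orderOf x = 2 := orderOf_eq_prime (by rw [pow_two, hx]) hx1
  rw [h3] at h2
  exact (Nat.not_even_iff_odd.mpr h1) (even_iff_two_dvd.mpr h2)

theorem orderOf_of_mem_pgroup {H : Subgroup G} (hH : IsPGroup p H) {t : G} (ht : t ∈ H) : ∃ k : ℕ, orderOf t = p ^ k := by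
  obtain ⟨k, hk⟩ := IsPGroup.iff_orderOf.mp hH ⟨t, ht⟩
  rw [Subgroup.orderOf_mk] at hk
  exact ⟨k, hk⟩

theorem sylow_of_max_invariant
    (hC : ∀ g : G, g ≠ 1 → (∃ k : ℕ, orderOf g = p ^ k) → Odd (Nat.card (Subgroup.centralizer ({g} : Set G))))
    {x : G} (hx : x * x = 1) (hx1 : x ≠ 1) {T : Subgroup G} (hTp : IsPGroup p T) (hT1 : T ≠ ⊥)
    (hxT : ∀ t ∈ T, x * t * x⁻¹ ∈ T)
    (hmax : ∀ T' : Subgroup G, IsPGroup p T' → (∀ t ∈ T', x * t * x⁻¹ ∈ T') → T ≤ T' → T' = T)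
    (P : Sylow p G) (hTP : T ≤ (P : Subgroup G)) : (P : Subgroup G) = T := by
  classical
  have hxi : x⁻¹ = x := inv_eq_of_mul_eq_one_left hx
  obtain ⟨hinv, hab⟩ := invo_inverts hx hxT (fun t ht hc =>
    no_fixed_of_odd hC hx hx1 (orderOf_of_mem_pgroup hTp ht) hc)
  obtain ⟨C, hCd⟩ : ∃ C : Subgroup G, C = Subgroup.centralizer (T : Set G) := ⟨_, rfl⟩
  have hCmem : ∀ c : G, c ∈ C ↔ ∀ t ∈ T, t * c = c * t := by
    intro c
    rw [hCd, Subgroup.mem_centralizer_iff]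
    rfl
  have hTC : T ≤ C := fun a ha => (hCmem a).2 (fun t ht => hab t ht a ha)
  have hCodd : Odd (Nat.card C) := by
    obtain ⟨t, ht, ht1⟩ := (Subgroup.bot_or_exists_ne_one T).resolve_left hT1
    have h1 := hC t ht1 (orderOf_of_mem_pgroup hTp ht)
    have h2 : C ≤ Subgroup.centralizer ({t} : Set G) := by
      intro c hc
      rw [Subgroup.mem_centralizer_singleton_iff]
      exact ((hCmem c).1 hc t ht).symm
    have h3 := Subgroup.card_dvd_of_le h2
    exact Odd.of_dvd_nat h1 h3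
  have hxC : ∀ c ∈ C, x * c * x⁻¹ ∈ C := by
    intro c hc
    rw [hCmem]
    intro t ht
    have h1 : x⁻¹ * t * x ∈ T := by
      have h0 := hxT t ht
      rw [hxi] at h0 ⊢
      exact h0
    have h2 := (hCmem c).1 hc _ h1
    calc t * (x * c * x⁻¹) = x * ((x⁻¹ * t * x) * c) * x⁻¹ := by group
      _ = x * (c * (x⁻¹ * t * x)) * x⁻¹ := by rw [h2]
      _ = x * c * x⁻¹ * t := by group
  have : Fintype C := Fintype.ofFinite _
  -- the fixed Sylow subgroup of `C`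
  obtain ⟨e, he⟩ : ∃ e : MulAut C, ∀ c : C, ((e c : C) : G) = x * c * x⁻¹ :=
    ⟨{ toFun := fun c => ⟨x * c * x⁻¹, hxC c c.2⟩
       invFun := fun c => ⟨x * c * x⁻¹, hxC c c.2⟩
       left_inv := fun c => Subtype.ext (by
        change x * (x * (c : G) * x⁻¹) * x⁻¹ = c
        rw [hxi]
        calc x * (x * (c : G) * x) * x = (x * x) * c * (x * x) := by group
          _ = c := by rw [hx]; group)
       right_inv := fun c => Subtype.ext (by
        change x * (x * (c : G) * x⁻¹) * x⁻¹ = c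
        rw [hxi]
        calc x * (x * (c : G) * x) * x = (x * x) * c * (x * x) := by group
          _ = c := by rw [hx]; group)
       map_mul' := fun a b => Subtype.ext (by
        change x * ((a : G) * b) * x⁻¹ = x * a * x⁻¹ * (x * b * x⁻¹)
        group) }, fun c => rfl⟩
  have hee : e * e = 1 := by
    ext c
    change (((e (e c)) : C) : G) = c
    rw [he, he, hxi]
    calc x * (x * (c : G) * x) * x = (x * x) * c * (x * x) := by group
      _ = c := by rw [hx]; group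
  obtain ⟨S₀⟩ : Nonempty (Sylow p C) := inferInstance
  have : Fintype (Sylow p C) := Fintype.ofFinite _
  have hSodd : Odd (Fintype.card (Sylow p C)) := by
    rw [← Nat.card_eq_fintype_card]
    exact Odd.of_dvd_nat hCodd ((Sylow.card_dvd_index S₀).trans (Subgroup.index_dvd_card _))
  obtain ⟨S, hS⟩ := exists_fixed_of_involutive (fun S : Sylow p C => e • S) (fun S => by
    change e • e • S = S
    rw [smul_smul, hee, one_smul]) hSodd
  have hSx : ∀ s ∈ (S : Subgroup C), ((x * (s : G) * x⁻¹ : G)) ∈ ((S : Subgroup C).map C.subtype) := by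
    intro s hs
    have h1 : e • (s : C) ∈ e • (S : Subgroup C) := Subgroup.smul_mem_pointwise_smul _ _ _ hs
    rw [← Sylow.pointwise_smul_def, hS] at h1
    exact ⟨e • s, h1, he s⟩
  have hTS : ∀ S' : Sylow p C, T.subgroupOf C ≤ (S' : Subgroup C) := by
    intro S'
    have hn : (T.subgroupOf C).Normal := by
      refine ⟨fun a ha c => ?_⟩
      rw [Subgroup.mem_subgroupOf] at ha ⊢
      change (c : G) * a * (c : G)⁻¹ ∈ T
      rw [show (c : G) * a = a * c from ((hCmem c).1 c.2 a ha).symm, mul_inv_cancel_right]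
      exact ha
    have hpg : IsPGroup p (T.subgroupOf C) := hTp.of_equiv (Subgroup.subgroupOfEquivOfLe hTC).symm
    exact (H1Core.le_pCore hn hpg).trans (H1Core.pCore_le_sylow p S')
  have hSmax := hmax ((S : Subgroup C).map C.subtype) (S.2.map _) (by
      rintro _ ⟨s, hs, rfl⟩
      exact hSx s hs) (by
      intro t ht
      exact ⟨⟨t, hTC ht⟩, hTS S (Subgroup.mem_subgroupOf.mpr ht), rfl⟩)
  have hSeq : (S : Subgroup C) = T.subgroupOf C := by
    rw [← hSmax]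
    exact (Subgroup.comap_map_eq_self_of_injective C.subtype_injective _).symm
  have hPC : ∀ w ∈ (P : Subgroup G), w ∈ C → w ∈ T := by
    intro w hw hwC
    have hQp : IsPGroup p ((P : Subgroup G).subgroupOf C) := P.2.comap_of_injective C.subtype C.subtype_injective
    obtain ⟨S', hS'⟩ := IsPGroup.exists_le_sylow hQp
    have h1 : T.subgroupOf C = (S' : Subgroup C) := by
      refine Subgroup.eq_of_le_of_card_ge (hTS S') ?_
      rw [Sylow.card_eq_multiplicity S', ← Sylow.card_eq_multiplicity S, hSeq]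
    have h2 : (⟨w, hwC⟩ : C) ∈ (P : Subgroup G).subgroupOf C := Subgroup.mem_subgroupOf.mpr hw
    have h3 := hS' h2
    rw [← h1] at h3
    exact Subgroup.mem_subgroupOf.mp h3
  by_contra hne
  have : Fintype (P : Subgroup G) := Fintype.ofFinite _
  have hnil : Group.IsNilpotent (P : Subgroup G) := P.2.isNilpotent
  have hlt : T.subgroupOf (P : Subgroup G) < ⊤ := by
    rw [lt_top_iff_ne_top]
    intro h
    apply hne
    exact le_antisymm (Subgroup.subgroupOf_eq_top.mp h) hTP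
  have hlt2 := normalizerCondition_of_isNilpotent _ hlt
  obtain ⟨w₀, hw₀n, hw₀⟩ := SetLike.exists_of_lt hlt2
  obtain ⟨w, hw⟩ : ∃ w : G, w = w₀ := ⟨_, rfl⟩
  have hwP : w ∈ (P : Subgroup G) := hw ▸ w₀.2
  have hwT : w ∉ T := by
    rw [hw]
    exact fun h => hw₀ (Subgroup.mem_subgroupOf.mpr h)
  have hwN : ∀ t ∈ T, w * t * w⁻¹ ∈ T := by
    intro t ht
    have h1 := (Subgroup.mem_normalizer_iff.mp hw₀n ⟨t, hTP ht⟩).1 (Subgroup.mem_subgroupOf.mpr ht)
    rw [hw]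
    exact Subgroup.mem_subgroupOf.mp h1
  have hwN' : ∀ t ∈ T, w⁻¹ * t * w ∈ T := by
    intro t ht
    have h1 := (Subgroup.mem_normalizer_iff.mp (inv_mem hw₀n) ⟨t, hTP ht⟩).1 (Subgroup.mem_subgroupOf.mpr ht)
    have h2 := Subgroup.mem_subgroupOf.mp h1
    rw [hw]
    simpa using h2
  have hwC : w ∉ C := fun h => hwT (hPC w hwP h)
  obtain ⟨d, hd⟩ : ∃ d : G, d = w⁻¹ * x * w * x⁻¹ := ⟨_, rfl⟩
  have hdC : d ∈ C := by
    rw [hCmem]
    intro t ht
    have h1 := hinv t ht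
    have h_a : x⁻¹ * t = t⁻¹ * x⁻¹ := by
      have h2 : x * t * x = t⁻¹ := by
        rw [← h1, hxi]
      rw [hxi]
      calc x * t = x * t * (x * x) := by rw [hx, mul_one]
        _ = (x * t * x) * x := by group
        _ = t⁻¹ * x := by rw [h2]
    have ht₁ := hwN t ht
    obtain ⟨t₁, ht₁d⟩ : ∃ t₁, t₁ = w * t * w⁻¹ := ⟨_, rfl⟩
    rw [← ht₁d] at ht₁
    have h_b : w * t⁻¹ = t₁⁻¹ * w := by
      rw [ht₁d]
      group
    have h_c : x * t₁⁻¹ = t₁ * x := by
      have h2 := hinv t₁ ht₁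
      have h3 : x * t₁ * x⁻¹ = t₁⁻¹ := h2
      calc x * t₁⁻¹ = x * (x * t₁ * x⁻¹) := by rw [h3]
        _ = (x * x) * t₁ * x⁻¹ := by group
        _ = t₁ * x := by rw [hx, one_mul, hxi]
    have h_d : w⁻¹ * t₁ = t * w⁻¹ := by
      rw [ht₁d]
      group
    symm
    rw [hd]
    calc w⁻¹ * x * w * x⁻¹ * t = w⁻¹ * x * w * (x⁻¹ * t) := by group
      _ = w⁻¹ * x * (w * t⁻¹) * x⁻¹ := by rw [h_a]; group
      _ = w⁻¹ * (x * t₁⁻¹) * w * x⁻¹ := by rw [h_b]; group
      _ = (w⁻¹ * t₁) * x * w * x⁻¹ := by rw [h_c]; group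
      _ = t * (w⁻¹ * x * w * x⁻¹) := by rw [h_d]; group
  have hdd : d * (x * d * x⁻¹) = 1 := by
    rw [hd]
    calc w⁻¹ * x * w * x⁻¹ * (x * (w⁻¹ * x * w * x⁻¹) * x⁻¹) = w⁻¹ * (x * x) * w * (x * x)⁻¹ := by group
      _ = 1 := by rw [hx]; group
  obtain ⟨c, hc⟩ := exists_fixed_of_involutive (X := C)
    (fun c => ⟨d * (x * c * x⁻¹), mul_mem hdC (hxC c c.2)⟩) (by
      intro c
      apply Subtype.ext
      change d * (x * (d * (x * (c : G) * x⁻¹)) * x⁻¹) = c
      have h1 : d * (x * (d * (x * (c : G) * x⁻¹)) * x⁻¹) = (d * (x * d * x⁻¹)) * ((x * x) * c * (x * x)⁻¹) := by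
        group
      rw [h1, hdd, hx]
      group) (by
      rw [← Nat.card_eq_fintype_card]
      exact hCodd)
  have hc' : d * (x * (c : G) * x⁻¹) = c := congrArg (fun z : C => (z : G)) hc
  obtain ⟨w', hw'⟩ : ∃ w', w' = w * c := ⟨_, rfl⟩
  have hw'x : x * w' * x⁻¹ = w' := by
    rw [hw']
    calc x * (w * c) * x⁻¹ = w * (w⁻¹ * x * w * x⁻¹) * (x * c * x⁻¹) := by group
      _ = w * (d * (x * c * x⁻¹)) := by rw [← hd]; group
      _ = w * c := by rw [hc']
  have hwCn : ∀ c ∈ C, w⁻¹ * c * w ∈ C := by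
    intro c hc
    rw [hCmem]
    intro t ht
    have h2 := (hCmem c).1 hc _ (hwN t ht)
    calc t * (w⁻¹ * c * w) = w⁻¹ * ((w * t * w⁻¹) * c) * w := by group
      _ = w⁻¹ * (c * (w * t * w⁻¹)) * w := by rw [h2]
      _ = w⁻¹ * c * w * t := by group
  have hpow : ∀ n : ℕ, ∃ c' ∈ C, w' ^ n = w ^ n * c' := by
    intro n
    induction n with
    | zero => exact ⟨1, one_mem _, by simp⟩
    | succ n ih =>
      obtain ⟨c', hc'C, hc'⟩ := ih
      refine ⟨(w⁻¹ * c' * w) * c, mul_mem (hwCn c' hc'C) c.2, ?_⟩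
      rw [pow_succ, hc', hw', pow_succ]
      group
  have hpo : p ∣ orderOf w' := by
    by_contra hpo
    obtain ⟨c', hc'C, hc'⟩ := hpow (orderOf w')
    rw [pow_orderOf_eq_one] at hc'
    have h1 : w ^ orderOf w' ∈ C := by
      rw [eq_inv_of_mul_eq_one_left hc'.symm]
      exact inv_mem hc'C
    obtain ⟨j, hj⟩ := orderOf_of_mem_pgroup P.2 hwP
    have h2 : (orderOf w').Coprime (orderOf w) := by
      rw [hj]
      exact Nat.Coprime.pow_right j ((Nat.Prime.coprime_iff_not_dvd hpf.out).2 hpo).symm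
    obtain ⟨m, hm⟩ := exists_pow_eq_self_of_coprime h2
    apply hwC
    rw [← hm]
    exact pow_mem h1 m
  have hw'o : orderOf (w' ^ (orderOf w' / p)) = p := orderOf_pow_orderOf_div (orderOf_pos w').ne' hpo
  have h9 : x * (w' ^ (orderOf w' / p)) * x⁻¹ = w' ^ (orderOf w' / p) := by
    rw [← conj_pow, hw'x]
  have h10 := no_fixed_of_odd hC hx hx1 ⟨1, by rw [hw'o, pow_one]⟩ h9
  rw [h10, orderOf_one] at hw'o
  exact hpf.out.one_lt.ne hw'o

theorem s4744 (h2G : 2 ∣ Nat.card G)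
    (hC : ∀ g : G, g ≠ 1 → (∃ k : ℕ, orderOf g = p ^ k) → Odd (Nat.card (Subgroup.centralizer ({g} : Set G)))) :
    (∃ χ : IrrCharacter G, (charDegree χ.1).factorization p = (Nat.card G).factorization p) ∨
      ∀ P : Sylow p G, Even (Nat.card (Subgroup.normalizer ((P : Subgroup G) : Set G))) ∧
        IsMulCommutative (P : Subgroup G) := by
  classical
  haveI : Fact (Nat.Prime 2) := ⟨Nat.prime_two⟩
  by_contra hne
  push Not at hne
  obtain ⟨hne1, P₁, hne2⟩ := hne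
  have hC' : ∀ g : G, g ≠ 1 → (∃ k : ℕ, orderOf g = p ^ k) → ¬ 2 ∣ Nat.card (Subgroup.centralizer ({g} : Set G)) :=
    fun g h1 h2 h3 => (Nat.not_even_iff_odd.mpr (hC g h1 h2)) (even_iff_two_dvd.mpr h3)
  obtain ⟨z, hz⟩ := exists_prime_orderOf_dvd_card' (G := G) 2 h2G
  have hz1 : z ≠ 1 := by
    intro h
    rw [h, orderOf_one] at hz
    omega
  obtain ⟨g, h, hg, hh, h1, k, hk⟩ := s4742_aux hC' hne1 z hz1 ⟨1, by rw [hz, pow_one]⟩
  have hzz : z * z = 1 := by
    rw [← pow_two, ← hz, pow_orderOf_eq_one]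
  have hconj : ∀ w : G, IsConj z w → w * w = 1 := by
    intro w hw
    obtain ⟨c, rfl⟩ := isConj_iff.mp hw
    calc c * z * c⁻¹ * (c * z * c⁻¹) = c * (z * z) * c⁻¹ := by group
      _ = 1 := by rw [hzz]; group
  have hgg := hconj g hg
  have hhh := hconj h hh
  have hg1 : g ≠ 1 := by
    rintro rfl
    exact hz1 (isConj_one_left.mp hg)
  obtain ⟨u, hu⟩ : ∃ u, u = g * h⁻¹ := ⟨_, rfl⟩
  have hgu : g * u * g⁻¹ = u⁻¹ := by
    have hgi : g⁻¹ = g := inv_eq_of_mul_eq_one_left hgg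
    have hhi : h⁻¹ = h := inv_eq_of_mul_eq_one_left hhh
    rw [hu, mul_inv_rev, inv_inv, hhi, hgi]
    calc g * (g * h) * g = (g * g) * h * g := by group
      _ = h * g := by rw [hgg, one_mul]
  have hT₀ : IsPGroup p (Subgroup.zpowers u) :=
    IsPGroup.of_card (n := k) (by rw [Nat.card_zpowers, hu, hk])
  have hT₀x : ∀ t ∈ Subgroup.zpowers u, g * t * g⁻¹ ∈ Subgroup.zpowers u := by
    rintro _ ⟨n, rfl⟩
    simp only
    rw [← conj_zpow, hgu]
    exact zpow_mem (inv_mem (Subgroup.mem_zpowers u)) n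
  obtain ⟨T, ⟨hTp, hT1, x, hx, hx1, hxT⟩, hTmax⟩ := Set.exists_max_image
    {T : Subgroup G | IsPGroup p T ∧ T ≠ ⊥ ∧ ∃ x : G, x * x = 1 ∧ x ≠ 1 ∧ ∀ t ∈ T, x * t * x⁻¹ ∈ T}
    (fun T => Nat.card T) (Set.toFinite _) ⟨Subgroup.zpowers u, hT₀, by
      intro h0
      apply h1
      rw [← hu]
      exact Subgroup.zpowers_eq_bot.mp h0, g, hgg, hg1, hT₀x⟩
  have hmax : ∀ T' : Subgroup G, IsPGroup p T' → (∀ t ∈ T', x * t * x⁻¹ ∈ T') → T ≤ T' → T' = T := by
    intro T' hT'p hT'x hle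
    have h2 := hTmax T' ⟨hT'p, fun h0 => hT1 (le_bot_iff.mp (h0 ▸ hle)), x, hx, hx1, hT'x⟩
    exact (Subgroup.eq_of_le_of_card_ge hle h2).symm
  obtain ⟨P, hP⟩ := IsPGroup.exists_le_sylow hTp
  have hPT := sylow_of_max_invariant hC hx hx1 hTp hT1 hxT hmax P hP
  obtain ⟨a, ha⟩ := MulAction.exists_smul_eq G P P₁
  have hP₁ : ∀ y : G, y ∈ (P₁ : Subgroup G) ↔ a⁻¹ * y * a ∈ T := by
    intro y
    rw [← ha, ← hPT, Sylow.coe_subgroup_smul, Subgroup.mem_smul_pointwise_iff_exists]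
    constructor
    · rintro ⟨s, hs, rfl⟩
      have h2 : a⁻¹ * (MulAut.conj a • s) * a = s := by
        change a⁻¹ * (a * s * a⁻¹) * a = s
        group
      rw [h2]
      exact hs
    · intro h2
      refine ⟨_, h2, ?_⟩
      change a * (a⁻¹ * y * a) * a⁻¹ = y
      group
  obtain ⟨x₁, hx₁⟩ : ∃ x₁, x₁ = a * x * a⁻¹ := ⟨_, rfl⟩
  have hx₁x₁ : x₁ * x₁ = 1 := by
    rw [hx₁]
    calc a * x * a⁻¹ * (a * x * a⁻¹) = a * (x * x) * a⁻¹ := by group
      _ = 1 := by rw [hx]; group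
  have hx₁1 : x₁ ≠ 1 := by
    rw [hx₁]
    intro h2
    apply hx1
    have h3 : x = a⁻¹ * (a * x * a⁻¹) * a := by group
    rw [h3, h2]
    group
  have hx₁n : ∀ t ∈ (P₁ : Subgroup G), x₁ * t * x₁⁻¹ ∈ (P₁ : Subgroup G) := by
    intro t ht
    rw [hP₁] at ht ⊢
    rw [hx₁]
    have h2 := hxT _ ht
    convert h2 using 1
    group
  have hfp : ∀ t ∈ (P₁ : Subgroup G), x₁ * t * x₁⁻¹ = t → t = 1 :=
    fun t ht hc => no_fixed_of_odd hC hx₁x₁ hx₁1 (orderOf_of_mem_pgroup P₁.2 ht) hc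
  obtain ⟨-, hab⟩ := invo_inverts hx₁x₁ hx₁n hfp
  apply hne2
  · have hxN : x₁ ∈ Subgroup.normalizer ((P₁ : Subgroup G) : Set G) := by
      rw [Subgroup.mem_normalizer_iff]
      intro t
      constructor
      · exact hx₁n t
      · intro ht
        have h2 := hx₁n _ ht
        have hxi : x₁⁻¹ = x₁ := inv_eq_of_mul_eq_one_left hx₁x₁
        have h3 : x₁ * (x₁ * t * x₁⁻¹) * x₁⁻¹ = t := by
          rw [hxi]
          calc x₁ * (x₁ * t * x₁) * x₁ = (x₁ * x₁) * t * (x₁ * x₁) := by group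
            _ = t := by rw [hx₁x₁]; group
        rwa [h3] at h2
    have h2 : orderOf x₁ ∣ Nat.card (Subgroup.normalizer ((P₁ : Subgroup G) : Set G)) := by
      have h3 := orderOf_dvd_natCard (⟨x₁, hxN⟩ : Subgroup.normalizer ((P₁ : Subgroup G) : Set G))
      rwa [Subgroup.orderOf_mk] at h3
    rw [orderOf_eq_prime (by rw [pow_two, hx₁x₁]) hx₁1] at h2
    exact even_iff_two_dvd.mpr h2
  · exact ⟨⟨fun a b => Subtype.ext (hab a a.2 b b.2)⟩⟩

end E12

end Cfsg.Agent.Lib.BlockPair
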