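import Cfsg.Agent.Lib.BlockE14
import Cfsg.Agent.Lib.CharGal
import Cfsg.Agent.Lib.CharClifford

/-! Galois conjugation and blocks. -/

set_option autoImplicit false

namespace Cfsg.Agent.Lib.BlockPair

open Cfsg Cfsg.Agent.Lib.IrrBasic Cfsg.Agent.Lib.LocRing Cfsg.Agent.Lib.CyclicWords Cfsg.Agent.Lib
open Cfsg.Agent.Lib.CharBasic Cfsg.Agent.Lib.CharOrth Cfsg.Agent.Lib.CharAlg
open Cfsg.Agent.Lib.BlockCore Cfsg.Agent.Lib.BlockOrth Cfsg.Agent.Lib.BlockBrauer
open Cfsg.Agent.Lib.BlockFixed Cfsg.Agent.Lib.BlockDefect Cfsg.Agent.Lib.BlockInduce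
open Cfsg.Agent.Lib.BlockMain Cfsg.Agent.Lib.BlockMain2 Cfsg.Agent.Lib.BlockMain3
open Cfsg.Agent.Lib.BlockMain4 Cfsg.Agent.Lib.BlockNorm Cfsg.Agent.Lib.BlockQuot Cfsg.Agent.Lib.BlockInfl
open scoped ComplexConjugate
open MonoidAlgebra Relation Polynomial

universe u

section E15
variable {G : Type u} [Group G] [Fintype G] {M : Ideal AlgInt} {p : ℕ} [M.IsPrime] [hpf : Fact p.Prime]

theorem s4518_aux (N : Subgroup G) [hN : N.Normal] [Fintype N] (hidx : ¬ p ∣ N.index) (k e : ℕ)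
    (hk : Nat.Coprime k (Nat.card G)) (hke : k ^ (p ^ e) ≡ 1 [MOD Nat.card G]) (χ : IrrCharacter G)
    (hχ : ∀ g : G, χ.1 (g ^ k) = χ.1 g) (θ : IrrCharacter N)
    (hθ : classInner (fun n : N => χ.1 n) θ.1 ≠ 0) : ∀ n : N, θ.1 (n ^ k) = θ.1 n := by
  classical
  have hkN : k.Coprime (Nat.card N) := Nat.Coprime.coprime_dvd_right (Subgroup.card_subgroup_dvd_card N) hk
  obtain ⟨τ, hτd⟩ : ∃ τ : Equiv.Perm (IrrCharacter N), τ = powIrr N k hkN := ⟨_, rfl⟩
  have hτa : ∀ θ n, (τ θ).1 n = θ.1 (n ^ k) := by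
    intro θ n
    rw [hτd]
    rfl
  have hτm : τ ^ (p ^ e) = 1 := by
    ext θ n
    show (((τ ^ (p ^ e)) θ)).1 n = θ.1 n
    rw [hτd, powIrr_pow]
    refine congrArg θ.1 (Subtype.ext ?_)
    have h1 : (n : G) ^ (k ^ (p ^ e)) = (n : G) ^ 1 :=
      pow_eq_pow_of_modEq hke (pow_card_eq_one')
    simpa using h1
  have hZp : IsPGroup p (Subgroup.zpowers τ) := by
    rintro ⟨z, hz⟩
    obtain ⟨i, rfl⟩ := Subgroup.mem_zpowers_iff.mp hz
    refine ⟨e, Subtype.ext ?_⟩
    show (τ ^ i) ^ (p ^ e) = 1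
    rw [← zpow_natCast, ← zpow_mul, mul_comm, zpow_mul, zpow_natCast, hτm, one_zpow]
  obtain ⟨C, hCd⟩ : ∃ C : IrrCharacter N → Prop, C = fun ψ => classInner (fun n : N => χ.1 n) ψ.1 ≠ 0 := ⟨_, rfl⟩
  have hCτ : ∀ ψ, C (τ ψ) ↔ C ψ := by
    intro ψ
    rw [hCd]
    have h1 := CharExtra2.pw_inner hkN (fun n : N => χ.1 n) ψ.1
    have h2 : (fun n : N => χ.1 ((n ^ k : N) : G)) = fun n : N => χ.1 n := by
      funext n
      have h3 : ((n ^ k : N) : G) = (n : G) ^ k := by simp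
      rw [h3, hχ]
    rw [h2] at h1
    have h3 : (τ ψ).1 = fun n => ψ.1 (n ^ k) := by
      funext n
      exact hτa ψ n
    simp only
    rw [h3, h1]
  have hcard : ¬ p ∣ (Finset.univ.filter C).card := by
    have h1 : (Finset.univ.filter C).card = (CharNormal.orbitF N θ.1).card := by
      refine Finset.card_bij (fun ψ _ => ψ.1) ?_ ?_ ?_
      · intro ψ hψ
        have h2 := (Finset.mem_filter.mp hψ).2
        rw [hCd] at h2
        obtain ⟨t, rfl⟩ := constituents_conj N χ θ ψ hθ h2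
        rw [CharNormal.mem_orbitF]
        refine ⟨t, ?_⟩
        funext n
        rw [conjIrr_apply']
        rfl
      · intro a _ b _ h
        exact Subtype.ext h
      · intro ψ hψ
        obtain ⟨t, rfl⟩ := (CharNormal.mem_orbitF N θ.1 ψ).mp hψ
        refine ⟨conjIrr N t θ, Finset.mem_filter.mpr ⟨Finset.mem_univ _, ?_⟩, ?_⟩
        · rw [hCd]
          simp only
          rw [classInner_res_conjIrr]
          exact hθ
        · funext n
          rw [conjIrr_apply']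
          rfl
    have h2 := CharClifford.card_orbit_eq_index N (CharClifford.inertia N θ.1) (θ := θ.1)
      (fun g => CharClifford.mem_inertia N θ.1 g)
    rw [h1, h2]
    intro h3
    apply hidx
    refine h3.trans (Subgroup.index_dvd_of_le ?_)
    exact CharClifford.le_inertia N (classFunction_of_isIrrCharacter θ.2)
  obtain ⟨ψ₀, hψ₀, hψ₀C⟩ : ∃ ψ₀, τ ψ₀ = ψ₀ ∧ C ψ₀ := by
    by_contra hno
    push Not at hno
    apply hcard
    have hs := sum_dvd_of_fixed (p := p) hZp (Subgroup.zpowers τ).subtype (fun ψ => if C ψ then (1 : ℤ) else 0)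
      (by
        rintro ⟨z, hz⟩ x
        obtain ⟨i, rfl⟩ := Subgroup.mem_zpowers_iff.mp hz
        exact comp_zpow_perm τ (fun ψ => if C ψ then (1 : ℤ) else 0) (fun y => by simp only [hCτ]) i x)
      (by
        intro x hx
        have h1 : τ x = x := hx ⟨τ, Subgroup.mem_zpowers τ⟩
        rw [if_neg (hno x h1)]
        exact dvd_zero _)
    rw [Finset.sum_boole] at hs
    exact_mod_cast hs
  have hψ₀' : C ψ₀ := hψ₀C
  rw [hCd] at hψ₀'
  obtain ⟨t, rfl⟩ := constituents_conj N χ ψ₀ θ hψ₀' hθ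
  intro n
  rw [conjIrr_apply', conjIrr_apply']
  have h1 : (τ ψ₀).1 ⟨t * n * t⁻¹, hN.conj_mem n n.2 t⟩ = ψ₀.1 ⟨t * n * t⁻¹, hN.conj_mem n n.2 t⟩ := by rw [hψ₀]
  rw [hτa] at h1
  rw [← h1]
  refine congrArg ψ₀.1 (Subtype.ext ?_)
  simp [conj_pow]


theorem mem_adjoin_of_fixed {n m : ℕ} (hn : 0 < n) {ξ η : ℂ} (hξ : IsPrimitiveRoot ξ n)
    (hη : IsPrimitiveRoot η m) (hm : m ∣ n) (x : ℚ[X])
    (h : ∀ j : ℕ, j.Coprime n → j ≡ 1 [MOD m] → aeval (ξ ^ j) x = aeval ξ x) :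
    aeval ξ x ∈ IntermediateField.adjoin ℚ ({η} : Set ℂ) := by
  classical
  haveI : NeZero n := ⟨hn.ne'⟩
  obtain ⟨F, hF⟩ : ∃ F : IntermediateField ℚ ℂ, F = IntermediateField.adjoin ℚ ({η} : Set ℂ) := ⟨_, rfl⟩
  rw [← hF]
  have hηF : η ∈ F := by
    rw [hF]
    exact IntermediateField.mem_adjoin_simple_self ℚ η
  have hint : IsIntegral F ξ := (hξ.isIntegral hn).tower_top
  have hcyc : IsCyclotomicExtension {n} F (IntermediateField.adjoin F ({ξ} : Set ℂ)) := by
    change IsCyclotomicExtension {n} F (IntermediateField.adjoin F ({ξ} : Set ℂ)).toSubalgebra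
    rw [IntermediateField.adjoin_simple_toSubalgebra_of_isAlgebraic hint.isAlgebraic]
    exact hξ.adjoin_isCyclotomicExtension F
  haveI : IsGalois F (IntermediateField.adjoin F ({ξ} : Set ℂ)) := IsCyclotomicExtension.isGalois {n} F _
  haveI : FiniteDimensional F (IntermediateField.adjoin F ({ξ} : Set ℂ)) := IntermediateField.adjoin.finiteDimensional hint
  obtain ⟨L, hL⟩ : ∃ L : IntermediateField F ℂ, L = IntermediateField.adjoin F ({ξ} : Set ℂ) := ⟨_, rfl⟩
  subst hL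
  have hξL : ξ ∈ IntermediateField.adjoin F ({ξ} : Set ℂ) := IntermediateField.mem_adjoin_simple_self F ξ
  obtain ⟨ξ', hξ'd⟩ : ∃ ξ' : IntermediateField.adjoin F ({ξ} : Set ℂ), (ξ' : ℂ) = ξ := ⟨⟨ξ, hξL⟩, rfl⟩
  have hξ' : IsPrimitiveRoot ξ' n := by
    have hz : IsPrimitiveRoot ((IntermediateField.adjoin F ({ξ} : Set ℂ)).val ξ') n := by
      change IsPrimitiveRoot (ξ' : ℂ) n
      rw [hξ'd]
      exact hξ
    exact IsPrimitiveRoot.of_map_of_injective hz (IntermediateField.adjoin F ({ξ} : Set ℂ)).val.injective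
  have hcoe : ∀ y : IntermediateField.adjoin F ({ξ} : Set ℂ),
      ((aeval y x : IntermediateField.adjoin F ({ξ} : Set ℂ)) : ℂ) = aeval (y : ℂ) x := by
    intro y
    exact (Polynomial.aeval_algHom_apply
      (((IntermediateField.adjoin F ({ξ} : Set ℂ)).val : IntermediateField.adjoin F ({ξ} : Set ℂ) →+* ℂ).toRatAlgHom) y x).symm
  have hm0 : 0 < m := Nat.pos_of_dvd_of_pos hm hn
  have hfix : ∀ f : (IntermediateField.adjoin F ({ξ} : Set ℂ)) ≃ₐ[F] (IntermediateField.adjoin F ({ξ} : Set ℂ)),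
      f (aeval ξ' x) = aeval ξ' x := by
    intro f
    have h1 : (f ξ') ^ n = 1 := by rw [← map_pow, hξ'.pow_eq_one, map_one]
    obtain ⟨j0, -, hj0⟩ := hξ'.eq_pow_of_pow_eq_one h1
    have hJ : ξ' ^ (j0 + n) = f ξ' := by rw [pow_add, hξ'.pow_eq_one, mul_one, hj0]
    have hprim : IsPrimitiveRoot (f ξ') n := hξ'.map_of_injective f.injective
    have hcop : (j0 + n).Coprime n := (hξ'.pow_iff_coprime hn _).mp (by rw [hJ]; exact hprim)
    -- the congruence
    have hηL : η ∈ IntermediateField.adjoin F ({ξ} : Set ℂ) :=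
      (IntermediateField.adjoin F ({ξ} : Set ℂ)).algebraMap_mem (⟨η, hηF⟩ : F)
    obtain ⟨η', hη'd⟩ : ∃ η' : IntermediateField.adjoin F ({ξ} : Set ℂ), (η' : ℂ) = η := ⟨⟨η, hηL⟩, rfl⟩
    have hfη : f η' = η' := by
      have h2 : η' = algebraMap F (IntermediateField.adjoin F ({ξ} : Set ℂ)) ⟨η, hηF⟩ := Subtype.ext hη'd
      rw [h2]
      exact f.commutes _
    have hηn : η' ^ n = 1 := by
      apply Subtype.ext
      obtain ⟨c, rfl⟩ := hm
      show ((η' : ℂ)) ^ (m * c) = 1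
      rw [hη'd, pow_mul, hη.pow_eq_one, one_pow]
    obtain ⟨s, -, hs⟩ := hξ'.eq_pow_of_pow_eq_one hηn
    have h3 : η' ^ (j0 + n) = η' := by
      calc η' ^ (j0 + n) = (ξ' ^ s) ^ (j0 + n) := by rw [hs]
        _ = (ξ' ^ (j0 + n)) ^ s := by rw [← pow_mul, ← pow_mul, mul_comm]
        _ = (f ξ') ^ s := by rw [hJ]
        _ = f (ξ' ^ s) := by rw [map_pow]
        _ = η' := by rw [hs, hfη]
    have h4 : η ^ (j0 + n) = η := by
      have := congrArg (fun z : IntermediateField.adjoin F ({ξ} : Set ℂ) => (z : ℂ)) h3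
      simpa [hη'd] using this
    have hmod : (j0 + n) ≡ 1 [MOD m] := by
      have h5 : η ≠ 0 := hη.ne_zero hm0.ne'
      have h6 : η ^ (j0 + n - 1) = 1 := by
        have h7 : η ^ (j0 + n - 1) * η = 1 * η := by
          rw [← pow_succ, Nat.sub_add_cancel (by omega), h4, one_mul]
        exact mul_right_cancel₀ h5 h7
      have h8 := hη.dvd_of_pow_eq_one _ h6
      exact ((Nat.modEq_iff_dvd' (by omega)).mpr h8).symm
    have h9 := h _ hcop hmod
    have h10 : f (aeval ξ' x) = aeval (f ξ') x :=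
      (Polynomial.aeval_algHom_apply (f.toAlgHom.toRingHom.toRatAlgHom) ξ' x).symm
    rw [h10, ← hJ]
    apply Subtype.ext
    rw [hcoe, hcoe]
    simp only [SubmonoidClass.coe_pow, hξ'd]
    exact h9
  have hbot := (IsGalois.mem_bot_iff_fixed (aeval ξ' x)).mpr hfix
  obtain ⟨c, hc⟩ := IntermediateField.mem_bot.mp hbot
  have h11 : (c : ℂ) = aeval ξ x := by
    have := congrArg (fun z : IntermediateField.adjoin F ({ξ} : Set ℂ) => (z : ℂ)) hc
    simp only [hcoe, hξ'd] at this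
    exact this
  rw [← h11]
  exact c.2



theorem powIrr_mem_block_iff (hM : IsPModular p M) {B : Set (IrrCharacter G)} (hB : IsPBlock M B) (k : ℕ)
    (hk : k.Coprime (Nat.card G)) (hk2 : ∀ g : G, ¬ p ∣ orderOf g → g ^ k = g) (θ : IrrCharacter G) :
    powIrr G k hk θ ∈ B ↔ θ ∈ B := by
  have h1 : SameBlock M θ.1 (powIrr G k hk θ).1 := by
    apply sameBlock_of_regular hM
    intro g hg
    have h2 : centralChar θ.1 g = centralChar (powIrr G k hk θ).1 g := by
      simp only [centralChar, powIrr_apply, hk2 g hg, one_pow]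
    rw [h2, sub_self]
    exact memLocalIdeal_zero
  obtain ⟨χ₀, rfl⟩ := hB
  constructor
  · intro h
    exact sameBlock_trans h (sameBlock_symm h1)
  · intro h
    exact sameBlock_trans h h1

theorem s4664_aux (hM : IsPModular p M) (B : Set (IrrCharacter G)) (hB : IsPBlock M B) (g : G) :
    blockCoeff B g ∈ IntermediateField.adjoin ℚ
      ({Complex.exp (2 * Real.pi * Complex.I / ((Nat.card G / p ^ (Nat.card G).factorization p : ℕ) : ℂ))} : Set ℂ) := by
  classical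
  have hp := hpf.out
  obtain ⟨n, hnd⟩ : ∃ n : ℕ, n = Nat.card G := ⟨_, rfl⟩
  have hn : 0 < n := by rw [hnd]; exact Nat.card_pos
  obtain ⟨m, hmd⟩ : ∃ m : ℕ, m = n / p ^ n.factorization p := ⟨_, rfl⟩
  rw [← hnd, ← hmd]
  have hnm : p ^ n.factorization p * m = n := by
    rw [hmd]
    exact Nat.ordProj_mul_ordCompl_eq_self n p
  have hmn : m ∣ n := Dvd.intro_left _ hnm
  have hm0 : m ≠ 0 := (Nat.pos_of_dvd_of_pos hmn hn).ne'
  have hη := Complex.isPrimitiveRoot_exp m hm0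
  haveI : NeZero n := ⟨hn.ne'⟩
  obtain ⟨ξ, -, -, -, hξ, -⟩ := CharGal.norm_package n
  have hξG : IsPrimitiveRoot ξ (Nat.card G) := by rw [← hnd]; exact hξ
  choose y hy using fun χ : IrrCharacter G => CharGal.exists_poly_char ξ hξG (rep χ) g⁻¹
  obtain ⟨c, hc⟩ : ∃ c : IrrCharacter G → ℚ, c = fun χ => if χ ∈ B then (dim χ : ℚ) / (n : ℚ) else 0 := ⟨_, rfl⟩
  obtain ⟨x, hx⟩ : ∃ x : ℚ[X], x = ∑ χ : IrrCharacter G, Polynomial.C (c χ) * y χ := ⟨_, rfl⟩
  have hval : ∀ j : ℕ, aeval (ξ ^ j) x = ∑ χ : IrrCharacter G, ((c χ : ℚ) : ℂ) * χ.1 ((g⁻¹) ^ j) := by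
    intro j
    rw [hx, map_sum]
    refine Finset.sum_congr rfl fun χ _ => ?_
    rw [map_mul, aeval_C, hy χ j, rep_char_apply]
    rfl
  have h1 : aeval ξ x = blockCoeff B g := by
    have h2 := hval 1
    rw [pow_one] at h2
    rw [h2, blockCoeff_eq_sum, Finset.mul_sum]
    refine Finset.sum_congr rfl fun χ _ => ?_
    rw [hc, pow_one]
    by_cases hχ : χ ∈ B
    · simp only [hχ, if_true]
      rw [val_one, val_inv, ← hnd]
      push_cast
      ring
    · simp [hχ]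
  rw [← h1]
  apply mem_adjoin_of_fixed hn hξ hη hmn
  intro j hj hjm
  have hjG : j.Coprime (Nat.card G) := by rw [← hnd]; exact hj
  have hk2 : ∀ g : G, ¬ p ∣ orderOf g → g ^ j = g := by
    intro t ht
    have h2 : orderOf t ∣ m := by
      have h3 : orderOf t ∣ p ^ n.factorization p * m := by
        rw [hnm, hnd]
        exact orderOf_dvd_natCard t
      exact (Nat.Coprime.pow_right _ ((Nat.Prime.coprime_iff_not_dvd hp).mpr ht).symm).dvd_of_dvd_mul_left h3
    have h3 : t ^ j = t ^ 1 := pow_eq_pow_of_modEq hjm (orderOf_dvd_iff_pow_eq_one.mp h2)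
    simpa using h3
  have h2 := hval j
  have h3 := hval 1
  rw [pow_one] at h3
  rw [h2, h3]
  simp only [pow_one]
  refine Fintype.sum_equiv (powIrr G j hjG) _ _ fun χ => ?_
  have h4 : c (powIrr G j hjG χ) = c χ := by
    rw [hc]
    simp only [powIrr_mem_block_iff hM hB j hjG hk2]
    by_cases hχ : χ ∈ B
    · simp only [hχ, if_true]
      have h5 : dim (powIrr G j hjG χ) = dim χ := by
        rw [← charDegree_eq, ← charDegree_eq]
        simp only [charDegree, powIrr_apply, one_pow]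
      rw [h5]
    · simp [hχ]
  rw [h4, powIrr_apply]


end E15

end Cfsg.Agent.Lib.BlockPair
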