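import Cfsg.Agent.Lib.BlockHeight
import Cfsg.Agent.Lib.BlockCentral

/-!
# Height-zero characters have linear constituents on defect groups
-/

set_option autoImplicit false
set_option linter.unusedSectionVars false
set_option linter.unusedVariables false
set_option linter.style.longLine false

namespace Cfsg.Agent.Lib.BlockMur

open Cfsg Cfsg.Agent.Lib.IrrBasic Cfsg.Agent.Lib.LocRing Cfsg.Agent.Lib.CyclicWords Cfsg.Agent.Lib
open Cfsg.Agent.Lib.BlockCore Cfsg.Agent.Lib.BlockOrth Cfsg.Agent.Lib.BlockBrauer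
open Cfsg.Agent.Lib.BlockFixed Cfsg.Agent.Lib.BlockDefect Cfsg.Agent.Lib.BlockInduce
open Cfsg.Agent.Lib.BlockMain Cfsg.Agent.Lib.BlockMain2 Cfsg.Agent.Lib.BlockMain3
open Cfsg.Agent.Lib.BlockMain4 Cfsg.Agent.Lib.BlockNorm Cfsg.Agent.Lib.BlockQuot Cfsg.Agent.Lib.BlockInfl
open Cfsg.Agent.Lib.BlockOku Cfsg.Agent.Lib.BlockInd Cfsg.Agent.Lib.BlockFrob Cfsg.Agent.Lib.BlockFirst
open Cfsg.Agent.Lib.BlockFirst2 Cfsg.Agent.Lib.BlockFirst3 Cfsg.Agent.Lib.BlockHeight
open Cfsg.Agent.Lib.CharBasic Cfsg.Agent.Lib.CharOrth Cfsg.Agent.Lib.CharAlg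
open scoped ComplexConjugate

universe u

variable {G : Type u} [Group G] [Fintype G] {p : ℕ} [hpf : Fact p.Prime] {M : Ideal AlgInt}

/-- A height-zero character has a constituent of degree prime to `p` on a defect group. -/
theorem exists_constituent_not_dvd (hM : IsPModular p M) {B : Set (IrrCharacter G)} (hB : IsPBlock M B)
    {D : Subgroup G} [Fintype D] (hD : IsDefectGroup p M B D) {χ : IrrCharacter G} (hχ : χ ∈ B)
    (h0 : blockHeight p B χ.1 = 0) :
    ∃ ν : IrrCharacter D, classInner (fun n : D => χ.1 n) ν.1 ≠ 0 ∧ ¬ p ∣ charDegree ν.1 := by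
  classical
  haveI : M.IsPrime := hM.2.1.isPrime
  by_contra hcon
  push Not at hcon
  obtain ⟨y, hy, S, hS⟩ := hD
  have hyc : y ∈ Subgroup.centralizer (D : Set G) := by
    rw [mem_centralizer_iff_le, hS]
    exact map_sylow_le S
  have hp0 : (p : ℂ) ≠ 0 := Nat.cast_ne_zero.mpr hpf.out.ne_zero
  have hsum := sum_degree_mul_f D χ y
  have hint : IsIntegral ℤ (χ.1 y / (p : ℂ)) := by
    rw [← hsum, Finset.sum_div]
    refine IsIntegral.sum _ fun ν _ => ?_
    by_cases h : classInner (fun n : D => χ.1 n) ν.1 = 0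
    · have h1 := f_eq_zero D χ ν hyc h
      rw [h1]
      simp [isIntegral_zero]
    · obtain ⟨t, ht⟩ := hcon ν h
      have h2 : ν.1 1 * ((Nat.card D : ℂ)⁻¹ * ∑ u : D, χ.1 (y * u) * conj (ν.1 u)) / (p : ℂ) =
          (t : ℂ) * ((Nat.card D : ℂ)⁻¹ * ∑ u : D, χ.1 (y * u) * conj (ν.1 u)) := by
        rw [val_one_eq_charDegree, ht]
        push_cast
        field_simp
      rw [h2]
      exact IsIntegral.mul (isIntegral_natCast t) (f_isIntegral D χ ν hyc)
  have hu := hy.2.2 χ hχ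
  rw [blockHeight, sInf_factorization_eq hM hB hy] at h0
  have h1 := factorization_index_le hM hy hχ
  have hidx : (Subgroup.centralizer ({y} : Set G)).index ≠ 0 := Subgroup.index_ne_zero_of_finite
  have hc0 : charDegree χ.1 ≠ 0 := charDegree_ne_zero' χ
  apply hu
  have hfac : (charDegree χ.1).factorization p <
      ((Subgroup.centralizer ({y} : Set G)).index * p).factorization p := by
    rw [Nat.factorization_mul hidx hpf.out.ne_zero, Finsupp.add_apply, hpf.out.factorization_self]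
    omega
  have h2 := memLocalIdeal_of_factorization_lt hM (mul_ne_zero hidx hpf.out.ne_zero) hc0 hfac
    (mem_locRing_of_isIntegral hint)
  convert h2 using 1
  rw [centralChar, val_one_eq_charDegree χ]
  have h4 : (charDegree χ.1 : ℂ) ≠ 0 := Nat.cast_ne_zero.mpr hc0
  push_cast
  field_simp

theorem s5001 (hM : IsPModular p M) {B : Set (IrrCharacter G)} (hB : IsPBlock M B)
    {D : Subgroup G} (hD : IsDefectGroup p M B D) (Z : Subgroup G) (hZc : Z ≤ Subgroup.center G)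
    (hZD : Z ≤ D) (lam : ↥Z →* ℂˣ) (χ : IrrCharacter G) (hχ : χ ∈ B)
    (hover : ∀ z : ↥Z, χ.1 z = χ.1 1 * (lam z : ℂ)) (h0 : blockHeight p B χ.1 = 0) :
    ∃ μ : ↥D →* ℂˣ, ∀ z : ↥Z, μ ⟨(z : G), hZD z.2⟩ = lam z := by
  classical
  haveI : M.IsPrime := hM.2.1.isPrime
  haveI : Fintype D := Fintype.ofFinite _
  obtain ⟨ν, hν, hpν⟩ := exists_constituent_not_dvd hM hB hD hχ h0
  have hDp : IsPGroup p D := by
    obtain ⟨g, -, S, rfl⟩ := hD
    exact isPGroup_map_sylow S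
  have hdeg : charDegree ν.1 = 1 := by
    obtain ⟨k, hk⟩ := IsPGroup.iff_card.mp hDp
    have h1 := charDegree_dvd_card ν
    rw [hk] at h1
    obtain ⟨j, hj, hj2⟩ := (Nat.dvd_prime_pow hpf.out).mp h1
    rcases j with _ | j
    · simpa using hj2
    · exact absurd (hj2 ▸ dvd_pow_self p (Nat.succ_ne_zero j)) hpν
  have h1 : ν.1 1 = 1 := by
    rw [val_one_eq_charDegree, hdeg]
    simp
  obtain ⟨μ, hμ⟩ := CharLin.exists_hom_of_linear (IsIrrCharacter.isCharacter ν.2) h1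
  refine ⟨μ, fun z => ?_⟩
  set z' : D := ⟨z, hZD z.2⟩ with hz'
  have hχ1 : χ.1 1 ≠ 0 := val_one_ne_zero χ
  have hcentral : ∀ n : D, χ.1 ((n * z' : D) : G) = (lam z : ℂ) * χ.1 n := by
    intro n
    have h2 : ((n * z' : D) : G) = (z : G) * (n : G) := by
      have h3 := (Subgroup.mem_center_iff.mp (hZc z.2)) (n : G)
      exact h3
    rw [h2, BlockCentral.val_central_mul χ (hZc z.2), hover]
    field_simp
  have hνm : ∀ n : D, ν.1 (n * z') = ν.1 n * (μ z' : ℂ) := by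
    intro n
    rw [hμ]
    simp
  have hconj : conj (ν.1 z') = ((μ z' : ℂ))⁻¹ := by
    rw [← val_inv ν z', hμ]
    simp
  have hsum : ∑ n : D, χ.1 n * conj (ν.1 n) = ∑ n : D, χ.1 ((n * z' : D) : G) * conj (ν.1 (n * z')) :=
    (Fintype.sum_equiv (Equiv.mulRight z') _ _ (fun n => rfl)).symm
  have hν0 : ∑ n : D, χ.1 n * conj (ν.1 n) ≠ 0 := by
    intro h
    apply hν
    simp only [classInner]
    rw [h, mul_zero]
  have hkey : ∑ n : D, χ.1 n * conj (ν.1 n) =
      ((lam z : ℂ) * ((μ z' : ℂ))⁻¹) * ∑ n : D, χ.1 n * conj (ν.1 n) := by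
    conv_lhs => rw [hsum]
    rw [Finset.mul_sum]
    refine Finset.sum_congr rfl fun n _ => ?_
    rw [hcentral, hνm, map_mul]
    have h3 : conj (μ z' : ℂ) = ((μ z' : ℂ))⁻¹ := by
      have h4 : ν.1 z' = (μ z' : ℂ) := by rw [hμ]
      rw [← h4, hconj, h4]
    rw [h3]
    ring
  have h5 : (lam z : ℂ) * ((μ z' : ℂ))⁻¹ = 1 := by
    have h6 : 1 * ∑ n : D, χ.1 n * conj (ν.1 n) = ((lam z : ℂ) * ((μ z' : ℂ))⁻¹) * ∑ n : D, χ.1 n * conj (ν.1 n) := by
      rw [one_mul]; exact hkey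
    exact (mul_right_cancel₀ hν0 h6).symm
  apply Units.ext
  have h7 : (μ z' : ℂ) ≠ 0 := (μ z').ne_zero
  field_simp at h5
  exact h5.symm

end Cfsg.Agent.Lib.BlockMur
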