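import Cfsg.Agent.Lib.BlockE10
import Cfsg.Agent.Lib.BlockInfl
import Cfsg.Agent.Lib.BlockMain4
import Cfsg.Agent.Lib.CharAbQ

/-! The principal block of a central product with p-group intersection. -/

set_option autoImplicit false
set_option linter.unusedVariables false
set_option linter.unusedSectionVars false

namespace Cfsg.Agent.Lib.CentProd

open Cfsg Cfsg.Agent.Lib.IrrBasic Cfsg.Agent.Lib.LocRing Cfsg.Agent.Lib.CyclicWords Cfsg.Agent.Lib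
open Cfsg.Agent.Lib.BlockCore Cfsg.Agent.Lib.BlockOrth Cfsg.Agent.Lib.BlockBrauer
open Cfsg.Agent.Lib.BlockFixed Cfsg.Agent.Lib.BlockDefect Cfsg.Agent.Lib.BlockInduce
open Cfsg.Agent.Lib.BlockMain Cfsg.Agent.Lib.BlockMain2 Cfsg.Agent.Lib.BlockMain3
open Cfsg.Agent.Lib.CharOrth

universe u

variable {G : Type u} [Group G]

lemma index_eq (C U : Subgroup G) (h : ∀ g, ∃ u ∈ U, ∃ c ∈ C, g = u * c) :
    (C.subgroupOf U).index = C.index := by
  let f : U ⧸ C.subgroupOf U → G ⧸ C := fun q => Quotient.liftOn' q (fun u => ((u : G) : G ⧸ C)) (by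
    intro a b hab
    rw [QuotientGroup.leftRel_apply] at hab
    exact QuotientGroup.eq.2 (by simpa [Subgroup.mem_subgroupOf] using hab))
  have hf : ∀ u : U, f (u : U ⧸ C.subgroupOf U) = ((u : G) : G ⧸ C) := fun u => rfl
  apply Nat.card_eq_of_bijective f
  constructor
  · intro x y
    obtain ⟨a, rfl⟩ := QuotientGroup.mk_surjective x
    obtain ⟨b, rfl⟩ := QuotientGroup.mk_surjective y
    intro hab
    rw [hf, hf] at hab
    have := QuotientGroup.eq.1 hab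
    exact QuotientGroup.eq.2 (by simpa [Subgroup.mem_subgroupOf] using this)
  · intro x
    obtain ⟨g, rfl⟩ := QuotientGroup.mk_surjective x
    obtain ⟨u, hu, c, hc, rfl⟩ := h g
    refine ⟨((⟨u, hu⟩ : U) : U ⧸ C.subgroupOf U), ?_⟩
    rw [hf]
    exact QuotientGroup.eq.2 (by simpa using hc)

lemma decomp (U₁ U₂ : Subgroup G) (hcomm : ∀ u ∈ U₁, ∀ v ∈ U₂, u * v = v * u)
    (hgen : U₁ ⊔ U₂ = ⊤) (g : G) : ∃ a ∈ U₁, ∃ b ∈ U₂, g = a * b := by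
  let S : Subgroup G :=
    { carrier := {g | ∃ a ∈ U₁, ∃ b ∈ U₂, g = a * b}
      mul_mem' := by
        rintro _ _ ⟨a, ha, b, hb, rfl⟩ ⟨a', ha', b', hb', rfl⟩
        refine ⟨a * a', U₁.mul_mem ha ha', b * b', U₂.mul_mem hb hb', ?_⟩
        have e : b * a' = a' * b := (hcomm a' ha' b hb).symm
        calc a * b * (a' * b') = a * (b * a') * b' := by group
          _ = a * a' * (b * b') := by rw [e]; group
      one_mem' := ⟨1, U₁.one_mem, 1, U₂.one_mem, by simp⟩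
      inv_mem' := by
        rintro _ ⟨a, ha, b, hb, rfl⟩
        refine ⟨a⁻¹, U₁.inv_mem ha, b⁻¹, U₂.inv_mem hb, ?_⟩
        rw [mul_inv_rev]
        have e := hcomm a⁻¹ (U₁.inv_mem ha) b⁻¹ (U₂.inv_mem hb)
        exact e.symm }
  have h1 : U₁ ≤ S := fun a ha => ⟨a, ha, 1, U₂.one_mem, by simp⟩
  have h2 : U₂ ≤ S := fun b hb => ⟨1, U₁.one_mem, b, hb, by simp⟩
  have : g ∈ U₁ ⊔ U₂ := by
    rw [hgen]
    exact Subgroup.mem_top g
  exact (sup_le h1 h2) this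

lemma conj_eq (a b n : G) (hc : b * n = n * b) : (a * b) * n * (a * b)⁻¹ = a * n * a⁻¹ := by
  have : (a * b) * n = a * n * b := by rw [mul_assoc a b n, hc, mul_assoc]
  rw [this]
  group

lemma normal_of (U₁ U₂ : Subgroup G) (hcomm : ∀ u ∈ U₁, ∀ v ∈ U₂, u * v = v * u)
    (hgen : U₁ ⊔ U₂ = ⊤) : U₁.Normal := by
  constructor
  intro n hn g
  obtain ⟨a, ha, b, hb, rfl⟩ := decomp U₁ U₂ hcomm hgen g
  rw [conj_eq a b n (hcomm n hn b hb).symm]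
  exact U₁.mul_mem (U₁.mul_mem ha hn) (U₁.inv_mem ha)

lemma index_res (U₁ U₂ : Subgroup G) (hcomm : ∀ u ∈ U₁, ∀ v ∈ U₂, u * v = v * u)
    (hgen : U₁ ⊔ U₂ = ⊤) (u : U₁) :
    (Subgroup.centralizer ({u} : Set U₁)).index =
      (Subgroup.centralizer ({(u : G)} : Set G)).index := by
  have e : Subgroup.centralizer ({u} : Set U₁) =
      (Subgroup.centralizer ({(u : G)} : Set G)).subgroupOf U₁ := by
    ext x
    rw [Subgroup.mem_subgroupOf, Subgroup.mem_centralizer_singleton_iff,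
      Subgroup.mem_centralizer_singleton_iff]
    exact Subtype.ext_iff
  rw [e]
  apply index_eq
  intro g
  obtain ⟨a, ha, b, hb, rfl⟩ := decomp U₁ U₂ hcomm hgen g
  exact ⟨a, ha, b, Subgroup.mem_centralizer_singleton_iff.2 (hcomm u u.2 b hb).symm, rfl⟩

section Fin

variable [Fintype G]

lemma cc_res (U₁ U₂ : Subgroup G) [Fintype U₁] (hcomm : ∀ u ∈ U₁, ∀ v ∈ U₂, u * v = v * u)
    (hgen : U₁ ⊔ U₂ = ⊤) (χ : IrrCharacter G) (ψ : IrrCharacter U₁)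
    (h₁ : classInner (fun u : U₁ => χ.1 u) ψ.1 ≠ 0) (u : U₁) :
    centralChar χ.1 u = centralChar ψ.1 u := by
  haveI hN : U₁.Normal := normal_of U₁ U₂ hcomm hgen
  have hinv : ∀ (g : G) (n : U₁), ψ.1 ⟨g * n * g⁻¹, hN.conj_mem n n.2 g⟩ = ψ.1 n := by
    intro g n
    obtain ⟨a, ha, b, hb, rfl⟩ := decomp U₁ U₂ hcomm hgen g
    have e : (⟨(a * b) * n * (a * b)⁻¹, hN.conj_mem n n.2 (a * b)⟩ : U₁) =
        (⟨a, ha⟩ : U₁) * n * (⟨a, ha⟩ : U₁)⁻¹ := by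
      apply Subtype.ext
      exact conj_eq a b n (hcomm n n.2 b hb).symm
    rw [e]
    exact classFunction_of_isIrrCharacter ψ.2 n _
  obtain ⟨e, he0, -, he⟩ := CharAbQ.res_eq_smul_of_inv U₁ ψ.2 hinv χ.2 h₁
  have hv : ∀ n : U₁, χ.1 n = (e : ℂ) * ψ.1 n := fun n => congrFun he n
  have h1 : χ.1 1 = (e : ℂ) * ψ.1 1 := hv 1
  have he' : (e : ℂ) ≠ 0 := by exact_mod_cast he0
  have hψ1 : ψ.1 1 ≠ 0 := val_one_ne_zero ψ
  unfold centralChar
  rw [hv u, h1, index_res U₁ U₂ hcomm hgen u]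
  field_simp

lemma cc_one_res (U₁ U₂ : Subgroup G) (hcomm : ∀ u ∈ U₁, ∀ v ∈ U₂, u * v = v * u)
    (hgen : U₁ ⊔ U₂ = ⊤) (u : U₁) :
    centralChar (fun _ : G => (1 : ℂ)) u = centralChar (fun _ : U₁ => (1 : ℂ)) u := by
  unfold centralChar
  rw [index_res U₁ U₂ hcomm hgen u]

lemma forward {M : Ideal AlgInt} (U₁ U₂ : Subgroup G) [Fintype U₁]
    (hcomm : ∀ u ∈ U₁, ∀ v ∈ U₂, u * v = v * u)
    (hgen : U₁ ⊔ U₂ = ⊤) (χ : IrrCharacter G) (ψ : IrrCharacter U₁)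
    (h₁ : classInner (fun u : U₁ => χ.1 u) ψ.1 ≠ 0) (h : χ ∈ principalBlock M G) :
    ψ ∈ principalBlock M U₁ := by
  intro u
  rw [← cc_res U₁ U₂ hcomm hgen χ ψ h₁ u, ← cc_one_res U₁ U₂ hcomm hgen u]
  exact h u

lemma cent_inf (p : ℕ) (hp : p.Prime) (U₁ U₂ : Subgroup G) (hcomm : ∀ u ∈ U₁, ∀ v ∈ U₂, u * v = v * u)
    (hgen : U₁ ⊔ U₂ = ⊤) (hZ : IsPGroup p ↥(U₁ ⊓ U₂)) (n : ℕ) (hn : Nat.Coprime p n)
    {u₁ u₂ : G} (h₁ : u₁ ∈ U₁) (h₂ : u₂ ∈ U₂) (hu₁ : u₁ ^ n = 1) :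
    Subgroup.centralizer ({u₁ * u₂} : Set G) =
      Subgroup.centralizer ({u₁} : Set G) ⊓ Subgroup.centralizer ({u₂} : Set G) := by
  apply le_antisymm
  · intro t ht
    rw [Subgroup.mem_centralizer_singleton_iff] at ht
    obtain ⟨a, ha, b, hb, rfl⟩ := decomp U₁ U₂ hcomm hgen t
    have hx : (a * b) * u₁ * (a * b)⁻¹ = a * u₁ * a⁻¹ := conj_eq a b u₁ (hcomm u₁ h₁ b hb).symm
    have hy : (a * b) * u₂ * (a * b)⁻¹ = b * u₂ * b⁻¹ := by
      have e : a * b = b * a := (hcomm a ha b hb)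
      rw [e]
      exact conj_eq b a u₂ (hcomm a ha u₂ h₂)
    have hxU : a * u₁ * a⁻¹ ∈ U₁ := U₁.mul_mem (U₁.mul_mem ha h₁) (U₁.inv_mem ha)
    have hyU : b * u₂ * b⁻¹ ∈ U₂ := U₂.mul_mem (U₂.mul_mem hb h₂) (U₂.inv_mem hb)
    have hprod : (a * u₁ * a⁻¹) * (b * u₂ * b⁻¹) = u₁ * u₂ := by
      rw [← hx, ← hy]
      have : (a * b) * u₁ * (a * b)⁻¹ * ((a * b) * u₂ * (a * b)⁻¹) =
          (a * b) * (u₁ * u₂) * (a * b)⁻¹ := by group
      rw [this, ht]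
      group
    obtain ⟨x, hxd⟩ : ∃ x, x = a * u₁ * a⁻¹ := ⟨_, rfl⟩
    obtain ⟨y, hyd⟩ : ∃ y, y = b * u₂ * b⁻¹ := ⟨_, rfl⟩
    rw [← hxd] at hprod hxU
    rw [← hyd] at hprod hyU
    obtain ⟨z, hzd⟩ : ∃ z, z = u₁⁻¹ * x := ⟨_, rfl⟩
    have hz1 : z ∈ U₁ := hzd ▸ U₁.mul_mem (U₁.inv_mem h₁) hxU
    have hz2 : z ∈ U₂ := by
      have e : z = u₂ * y⁻¹ := by
        rw [hzd]
        have : u₁⁻¹ * x = u₁⁻¹ * (x * y) * y⁻¹ := by group
        rw [this, hprod]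
        group
      rw [e]
      exact U₂.mul_mem h₂ (U₂.inv_mem hyU)
    have hxpow : x ^ n = 1 := by
      rw [hxd, conj_pow, hu₁]
      group
    have hxz : x = u₁ * z := by
      rw [hzd]
      group
    have hcz : Commute u₁ z := hcomm u₁ h₁ z hz2
    have hzn : z ^ n = 1 := by
      have := hxpow
      rw [hxz, hcz.mul_pow, hu₁, one_mul] at this
      exact this
    obtain ⟨k, hk⟩ := hZ ⟨z, hz1, hz2⟩
    have hzk : z ^ (p ^ k) = 1 := by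
      have := congrArg Subtype.val hk
      simpa using this
    have hz1' : z = 1 := by
      have h1 := orderOf_dvd_of_pow_eq_one hzn
      have h2 := orderOf_dvd_of_pow_eq_one hzk
      have h3 : Nat.Coprime (p ^ k) n := Nat.Coprime.pow_left k hn
      have h4 : orderOf z = 1 := Nat.eq_one_of_dvd_coprimes h3 h2 h1
      exact orderOf_eq_one_iff.1 h4
    have hxe : x = u₁ := by rw [hxz, hz1', mul_one]
    have hye : y = u₂ := by
      rw [hxe] at hprod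
      exact mul_left_cancel hprod
    refine Subgroup.mem_inf.2 ⟨?_, ?_⟩
    · rw [Subgroup.mem_centralizer_singleton_iff]
      have : (a * b) * u₁ * (a * b)⁻¹ = u₁ := by rw [hx, ← hxd, hxe]
      exact (mul_inv_eq_iff_eq_mul.1 this)
    · rw [Subgroup.mem_centralizer_singleton_iff]
      have : (a * b) * u₂ * (a * b)⁻¹ = u₂ := by rw [hy, ← hyd, hye]
      exact (mul_inv_eq_iff_eq_mul.1 this)
  · intro t ht
    obtain ⟨ht1, ht2⟩ := Subgroup.mem_inf.1 ht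
    rw [Subgroup.mem_centralizer_singleton_iff] at ht1 ht2 ⊢
    rw [← mul_assoc, ht1, mul_assoc, ht2, mul_assoc]

lemma index_mul (U₁ U₂ : Subgroup G) (hcomm : ∀ u ∈ U₁, ∀ v ∈ U₂, u * v = v * u)
    (hgen : U₁ ⊔ U₂ = ⊤) {u₁ u₂ : G} (h₁ : u₁ ∈ U₁) (h₂ : u₂ ∈ U₂) :
    (Subgroup.centralizer ({u₁} : Set G) ⊓ Subgroup.centralizer ({u₂} : Set G)).index =
      (Subgroup.centralizer ({u₁} : Set G)).index * (Subgroup.centralizer ({u₂} : Set G)).index := by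
  have h1 := Subgroup.relIndex_mul_index
    (inf_le_right : Subgroup.centralizer ({u₁} : Set G) ⊓ Subgroup.centralizer ({u₂} : Set G) ≤
      Subgroup.centralizer ({u₂} : Set G))
  rw [Subgroup.inf_relIndex_right] at h1
  rw [← h1]
  congr 1
  apply index_eq
  intro g
  obtain ⟨a, ha, b, hb, rfl⟩ := decomp U₁ U₂ hcomm hgen g
  refine ⟨a, Subgroup.mem_centralizer_singleton_iff.2 (hcomm a ha u₂ h₂),
    b, Subgroup.mem_centralizer_singleton_iff.2 (hcomm u₁ h₁ b hb).symm, rfl⟩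

lemma val_mul (U₁ U₂ : Subgroup G) (hcomm : ∀ u ∈ U₁, ∀ v ∈ U₂, u * v = v * u)
    (hgen : U₁ ⊔ U₂ = ⊤) (χ : IrrCharacter G) {u₁ u₂ : G} (h₁ : u₁ ∈ U₁) (h₂ : u₂ ∈ U₂) :
    χ.1 (u₁ * u₂) = χ.1 u₁ * χ.1 u₂ / χ.1 1 := by
  have h := BlockPair.sum_conj_mul_val χ u₁ u₂
  have hterm : ∀ t : G, χ.1 (t * u₁ * t⁻¹ * u₂) = χ.1 (u₁ * u₂) := by
    intro t
    obtain ⟨a, ha, b, hb, rfl⟩ := decomp U₁ U₂ hcomm hgen t
    rw [conj_eq a b u₁ (hcomm u₁ h₁ b hb).symm]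
    have hc : a * u₂ = u₂ * a := hcomm a ha u₂ h₂
    have e : a * u₁ * a⁻¹ * u₂ = a * (u₁ * u₂) * a⁻¹ := by
      have : a⁻¹ * u₂ = u₂ * a⁻¹ := (hcomm a⁻¹ (U₁.inv_mem ha) u₂ h₂)
      rw [mul_assoc (a * u₁), this]
      group
    rw [e]
    exact classFunction_of_isIrrCharacter χ.2 _ a
  simp_rw [hterm] at h
  rw [Finset.sum_const, Finset.card_univ, ← Nat.card_eq_fintype_card, nsmul_eq_mul] at h
  have hc : (Nat.card G : ℂ) ≠ 0 := by
    exact_mod_cast Nat.card_pos.ne'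
  have h1 : χ.1 1 ≠ 0 := val_one_ne_zero χ
  field_simp at h ⊢
  linear_combination h

lemma exists_reg (p : ℕ) (hp : p.Prime) (U₁ U₂ : Subgroup G)
    (hcomm : ∀ u ∈ U₁, ∀ v ∈ U₂, u * v = v * u) (hgen : U₁ ⊔ U₂ = ⊤) (g : G)
    (hg : ¬ p ∣ orderOf g) : ∃ n : ℕ, Nat.Coprime p n ∧ ∃ u₁ ∈ U₁, ∃ u₂ ∈ U₂, g = u₁ * u₂ ∧
      u₁ ^ n = 1 ∧ u₂ ^ n = 1 := by
  classical
  obtain ⟨a, ha, b, hb, rfl⟩ := decomp U₁ U₂ hcomm hgen g
  have hN : Nat.card G ≠ 0 := Nat.card_pos.ne'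
  obtain ⟨e, n, hpn, hNe⟩ := Nat.exists_eq_pow_mul_and_not_dvd hN p hp.ne_one
  have hcop : Nat.Coprime n (p ^ e) := (Nat.Coprime.pow_left e ((Nat.Prime.coprime_iff_not_dvd hp).2 hpn)).symm
  have hn0 : n ≠ 0 := by
    rintro rfl
    exact hN (by rw [hNe, mul_zero])
  let c := (Nat.chineseRemainder hcop 1 0).1
  have hc1 : c ≡ 1 [MOD n] := (Nat.chineseRemainder hcop 1 0).2.1
  have hc0 : c ≡ 0 [MOD p ^ e] := (Nat.chineseRemainder hcop 1 0).2.2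
  have hdc : p ^ e ∣ c := (Nat.modEq_zero_iff_dvd).1 hc0
  have hall : ∀ x : G, (x ^ c) ^ n = 1 := by
    intro x
    obtain ⟨c', hc'⟩ := hdc
    rw [← pow_mul, hc']
    have : p ^ e * c' * n = (p ^ e * n) * c' := by ring
    rw [this, ← hNe, pow_mul, pow_card_eq_one', one_pow]
  have hord : orderOf (a * b) ∣ n := by
    have h1 : orderOf (a * b) ∣ p ^ e * n := by
      rw [← hNe]
      exact orderOf_dvd_natCard _
    have h2 : Nat.Coprime (orderOf (a * b)) (p ^ e) :=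
      Nat.Coprime.pow_right e ((Nat.Prime.coprime_iff_not_dvd hp).2 hg).symm
    exact h2.dvd_of_dvd_mul_left h1
  have hgc : (a * b) ^ c = a * b := by
    have hm : c ≡ 1 [MOD orderOf (a * b)] := Nat.ModEq.of_dvd hord hc1
    have := (pow_eq_pow_iff_modEq (x := a * b)).2 hm
    rwa [pow_one] at this
  have hcm : Commute a b := hcomm a ha b hb
  refine ⟨n, (Nat.Prime.coprime_iff_not_dvd hp).2 hpn, a ^ c, U₁.pow_mem ha c, b ^ c,
    U₂.pow_mem hb c, ?_, hall a, hall b⟩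
  rw [← hcm.mul_pow, hgc]

lemma backward {M : Ideal AlgInt} [M.IsPrime] (p : ℕ) (hM : IsPModular p M) (U₁ U₂ : Subgroup G)
    [Fintype U₁] [Fintype U₂]
    (hcomm : ∀ u ∈ U₁, ∀ v ∈ U₂, u * v = v * u) (hgen : U₁ ⊔ U₂ = ⊤) (hZ : IsPGroup p ↥(U₁ ⊓ U₂))
    (χ : IrrCharacter G) (ψ₁ : IrrCharacter U₁) (ψ₂ : IrrCharacter U₂)
    (h₁ : classInner (fun u : U₁ => χ.1 u) ψ₁.1 ≠ 0) (h₂ : classInner (fun u : U₂ => χ.1 u) ψ₂.1 ≠ 0)
    (h1 : ψ₁ ∈ principalBlock M U₁) (h2 : ψ₂ ∈ principalBlock M U₂) : χ ∈ principalBlock M G := by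
  have hcomm' : ∀ u ∈ U₂, ∀ v ∈ U₁, u * v = v * u := fun u hu v hv => (hcomm v hv u hu).symm
  have hgen' : U₂ ⊔ U₁ = ⊤ := by rw [sup_comm]; exact hgen
  have hS : SameBlock M (BlockMain4.oneIrr G).1 χ.1 := by
    apply BlockInfl.sameBlock_of_regular hM
    intro g hg
    obtain ⟨n, hn, u₁, hu₁, u₂, hu₂, rfl, hp₁, hp₂⟩ := exists_reg p hM.1 U₁ U₂ hcomm hgen g hg
    have hone : (BlockMain4.oneIrr G).1 = fun _ : G => (1 : ℂ) := rfl
    have hi := index_mul U₁ U₂ hcomm hgen hu₁ hu₂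
    rw [← cent_inf p hM.1 U₁ U₂ hcomm hgen hZ n hn hu₁ hu₂ hp₁] at hi
    have hv := val_mul U₁ U₂ hcomm hgen χ hu₁ hu₂
    have hχ1 : χ.1 1 ≠ 0 := val_one_ne_zero χ
    have e1 : centralChar χ.1 (u₁ * u₂) = centralChar χ.1 u₁ * centralChar χ.1 u₂ := by
      unfold centralChar
      rw [hi, hv]
      push_cast
      field_simp
    have e2 : centralChar (BlockMain4.oneIrr G).1 (u₁ * u₂) =
        centralChar (BlockMain4.oneIrr G).1 u₁ * centralChar (BlockMain4.oneIrr G).1 u₂ := by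
      rw [hone]
      unfold centralChar
      rw [hi]
      push_cast
      simp
    rw [e1, e2]
    have d1 : MemLocalIdeal M (centralChar (BlockMain4.oneIrr G).1 u₁ - centralChar χ.1 u₁) := by
      have := h1 ⟨u₁, hu₁⟩
      rw [← cc_res U₁ U₂ hcomm hgen χ ψ₁ h₁ ⟨u₁, hu₁⟩,
        ← cc_one_res U₁ U₂ hcomm hgen ⟨u₁, hu₁⟩] at this
      exact this
    have d2 : MemLocalIdeal M (centralChar (BlockMain4.oneIrr G).1 u₂ - centralChar χ.1 u₂) := by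
      have := h2 ⟨u₂, hu₂⟩
      rw [← cc_res U₂ U₁ hcomm' hgen' χ ψ₂ h₂ ⟨u₂, hu₂⟩,
        ← cc_one_res U₂ U₁ hcomm' hgen' ⟨u₂, hu₂⟩] at this
      exact this
    have e3 : centralChar (BlockMain4.oneIrr G).1 u₁ * centralChar (BlockMain4.oneIrr G).1 u₂ -
        centralChar χ.1 u₁ * centralChar χ.1 u₂ =
        (centralChar (BlockMain4.oneIrr G).1 u₁ - centralChar χ.1 u₁) *
          centralChar (BlockMain4.oneIrr G).1 u₂ +
        centralChar χ.1 u₁ * (centralChar (BlockMain4.oneIrr G).1 u₂ - centralChar χ.1 u₂) := by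
      ring
    rw [e3]
    exact memLocalIdeal_add
      (memLocalIdeal_mul_right d1 (mem_locRing_of_isIntegral (centralChar_isIntegral _ _)))
      (memLocalIdeal_mul_left (mem_locRing_of_isIntegral (centralChar_isIntegral _ _)) d2)
  exact hS

end Fin

end Cfsg.Agent.Lib.CentProd
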