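import Cfsg.Agent.Lib.CharRelM
import Cfsg.Agent.Lib.PNilp

/-!
# Quasi-primitive characters: the relative form of Berger's theorem
-/

set_option autoImplicit false
set_option linter.unusedVariables false
set_option linter.unusedSectionVars false
set_option linter.style.longLine false

open Cfsg Module
open scoped ComplexConjugate commutatorElement Pointwise
open Cfsg.Agent.Lib.CharBasic Cfsg.Agent.Lib.CharOrth Cfsg.Agent.Lib.CharAlg Cfsg.Agent.Lib.CharInd
  Cfsg.Agent.Lib.CharLin Cfsg.Agent.Lib.CharProj Cfsg.Agent.Lib.CharGall Cfsg.Agent.Lib.CharRelM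

universe u

namespace Cfsg.Agent.Lib.CharBerger

section Norm

variable {G : Type u} [Group G] [Fintype G]

/-- Conjugation on a normal subgroup as a permutation. -/
def conjEquiv (N : Subgroup G) [hN : N.Normal] (x : G) : N ≃ N where
  toFun n := ⟨x⁻¹ * n * x, by simpa using hN.conj_mem n n.2 x⁻¹⟩
  invFun n := ⟨x * n * x⁻¹, hN.conj_mem n n.2 x⟩
  left_inv n := Subtype.ext (by simp; group)
  right_inv n := Subtype.ext (by simp; group)

theorem conjEquiv_coe (N : Subgroup G) [hN : N.Normal] (x : G) (n : N) :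
    ((conjEquiv N x n : N) : G) = x⁻¹ * n * x := rfl

/-- The norm of the restriction of an induced function to a normal subgroup. -/
theorem norm_formula (H : Subgroup G) (ϑ : H → ℂ) (N : Subgroup G) [hN : N.Normal] [Fintype N] :
    classInner (fun n : N => indFun H ϑ n) (fun n : N => indFun H ϑ n) =
      (Nat.card N : ℂ)⁻¹ * ((Nat.card H : ℂ)⁻¹ * ((Nat.card H : ℂ)⁻¹ * (Nat.card G : ℂ))) *
        ∑ g : G, ∑ n : N, extendByZero H ϑ n * conj (extendByZero H ϑ (g⁻¹ * n * g)) := by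
  have hcl := indFun_classFunction H ϑ
  have h1 : ∀ x : G, ∑ n : N, extendByZero H ϑ (x⁻¹ * n * x) * conj (indFun H ϑ n) =
      ∑ n : N, extendByZero H ϑ n * conj (indFun H ϑ n) := by
    intro x
    rw [← Equiv.sum_comp (conjEquiv N x) (fun n : N => extendByZero H ϑ n * conj (indFun H ϑ n))]
    apply Finset.sum_congr rfl
    intro n _
    have h2 := hcl n x⁻¹
    rw [inv_inv] at h2
    simp only [conjEquiv_coe]
    rw [h2]
  have h2 : ∑ n : N, indFun H ϑ n * conj (indFun H ϑ n) =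
      (Nat.card H : ℂ)⁻¹ * ((Nat.card G : ℂ) * ∑ n : N, extendByZero H ϑ n * conj (indFun H ϑ n)) := by
    have h3 : ∀ n : N, indFun H ϑ n * conj (indFun H ϑ n) =
        (Nat.card H : ℂ)⁻¹ * ∑ x : G, extendByZero H ϑ (x⁻¹ * n * x) * conj (indFun H ϑ n) := by
      intro n
      generalize conj (indFun H ϑ (n : G)) = z
      rw [indFun_apply, mul_assoc, Finset.sum_mul]
    simp only [h3]
    rw [← Finset.mul_sum, Finset.sum_comm]
    simp only [h1]
    rw [Finset.sum_const, Finset.card_univ, nsmul_eq_mul, ← Nat.card_eq_fintype_card]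
  have h4 : ∑ n : N, extendByZero H ϑ n * conj (indFun H ϑ n) =
      (Nat.card H : ℂ)⁻¹ * ∑ g : G, ∑ n : N, extendByZero H ϑ n * conj (extendByZero H ϑ (g⁻¹ * n * g)) := by
    rw [Finset.sum_comm, Finset.mul_sum]
    apply Finset.sum_congr rfl
    intro n _
    rw [indFun_apply, map_mul, map_inv₀, Complex.conj_natCast, map_sum, ← Finset.mul_sum]
    ring
  show (Nat.card N : ℂ)⁻¹ * ∑ n : N, indFun H ϑ n * conj (indFun H ϑ n) = _
  rw [h2, h4]
  ring

/-- The conjugate of a subgroup. -/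
def cg (g : G) (H : Subgroup G) : Subgroup G := H.map (MulAut.conj g).toMonoidHom

omit [Fintype G] in
theorem mem_cg {g x : G} {H : Subgroup G} : x ∈ cg g H ↔ g⁻¹ * x * g ∈ H := by
  constructor
  · rintro ⟨y, hy, rfl⟩
    have : g⁻¹ * ((MulAut.conj g).toMonoidHom y) * g = y := by
      simp [MulAut.conj_apply]
      group
    rw [this]
    exact hy
  · intro h
    refine ⟨_, h, ?_⟩
    simp [MulAut.conj_apply]
    group

omit [Fintype G] in
theorem card_cg (g : G) (H : Subgroup G) : Nat.card (cg g H) = Nat.card H :=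
  Subgroup.card_map_of_injective (MulAut.conj g).injective

open Classical in
/-- The norm of a sum over a subgroup. -/
theorem sum_ite_eq_card_of_irr (H T : Subgroup G) (ϑ : H → ℂ) (hTH : T ≤ H)
    (hT : IsIrrCharacter T (fun t : T => ϑ ⟨t, hTH t.2⟩)) :
    ∑ x : G, (if x ∈ T then ‖extendByZero H ϑ x‖ ^ 2 else 0) = (Nat.card T : ℝ) := by
  have := Fintype.ofFinite T
  have h1 := classInner_self_eq (fun t : T => ϑ ⟨t, hTH t.2⟩)
  rw [classInner_irr_self hT] at h1
  have hT0 : (Nat.card T : ℝ) ≠ 0 := by exact_mod_cast Nat.card_pos.ne'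
  have h2 : (Nat.card T : ℝ)⁻¹ * ∑ t : T, ‖ϑ ⟨t, hTH t.2⟩‖ ^ 2 = 1 := by
    exact_mod_cast h1.symm
  have h3 : ∑ t : T, ‖ϑ ⟨t, hTH t.2⟩‖ ^ 2 = (Nat.card T : ℝ) := by
    field_simp at h2
    linarith
  rw [← h3, ← Finset.sum_filter]
  rw [Finset.sum_subtype (p := fun x => x ∈ T) (Finset.univ.filter (fun x => x ∈ T)) (by simp)]
  apply Finset.sum_congr rfl
  intro t _
  rw [extendByZero_of_mem _ _ (hTH t.2)]

/-- The hypotheses on `ϑ`: irreducible on each subgroup between `L` and `H`. -/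
def IrrAbove (H L : Subgroup G) (ϑ : H → ℂ) : Prop :=
  ∀ (T : Subgroup G) (hLT : L ≤ T) (hTH : T ≤ H), IsIrrCharacter T (fun t : T => ϑ ⟨t, hTH t.2⟩)

/-- The intersection of `N ⊓ H` with a conjugate of `H`. -/
def TT (N H : Subgroup G) (g : G) : Subgroup G := (N ⊓ H) ⊓ cg g H

open Classical in
/-- Bound for one term of `norm_formula`. -/
theorem term_bound (H L : Subgroup G) [hL : L.Normal] (ϑ : H → ℂ) (hϑ : IrrAbove H L ϑ) (hLH : L ≤ H)
    (N : Subgroup G) [Fintype N] (hLN : L ≤ N) (g : G) :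
    ‖∑ n : N, extendByZero H ϑ n * conj (extendByZero H ϑ (g⁻¹ * n * g))‖ ≤ (Nat.card (TT N H g) : ℝ) := by
  set ex := extendByZero H ϑ with hex
  have hzero : ∀ x : G, x ∉ H → ex x = 0 := fun x hx => extendByZero_of_not_mem _ _ hx
  set T := TT N H g with hTdef
  have hmemT : ∀ x : G, x ∈ T ↔ (x ∈ N ∧ x ∈ H) ∧ g⁻¹ * x * g ∈ H := by
    intro x
    simp only [hTdef, TT, Subgroup.mem_inf, mem_cg]
  have hLT : L ≤ T := by
    intro l hl
    refine (hmemT l).mpr ⟨⟨hLN hl, hLH hl⟩, hLH ?_⟩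
    simpa using hL.conj_mem l hl g⁻¹
  have hTH : T ≤ H := fun x hx => ((hmemT x).mp hx).1.2
  let T' : Subgroup G := cg g⁻¹ T
  have hmemT' : ∀ y : G, y ∈ T' ↔ g * y * g⁻¹ ∈ T := by
    intro y
    simp only [T', mem_cg, inv_inv]
  have hLT' : L ≤ T' := by
    intro l hl
    exact (hmemT' l).mpr (hLT (hL.conj_mem l hl g))
  have hT'H : T' ≤ H := by
    intro y hy
    have h1 := ((hmemT _).mp ((hmemT' y).mp hy)).2
    have h2 : g⁻¹ * (g * y * g⁻¹) * g = y := by group
    rwa [h2] at h1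
  have hcardT' : Nat.card T' = Nat.card T := card_cg _ _
  have hS1 := sum_ite_eq_card_of_irr H T ϑ hTH (hϑ T hLT hTH)
  have hS2 := sum_ite_eq_card_of_irr H T' ϑ hT'H (hϑ T' hLT' hT'H)
  have hS3 : ∑ x : G, (if x ∈ T then ‖ex (g⁻¹ * x * g)‖ ^ 2 else 0) = (Nat.card T : ℝ) := by
    rw [← hcardT', ← hS2]
    let e : G ≃ G := (MulAut.conj g).toEquiv
    rw [← Equiv.sum_comp e]
    apply Finset.sum_congr rfl
    intro y _
    have e1 : g⁻¹ * (e y) * g = y := by
      simp [e, MulAut.conj_apply]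
      group
    have e2 : e y = g * y * g⁻¹ := by simp [e, MulAut.conj_apply]
    rw [e1]
    by_cases hy : y ∈ T'
    · rw [if_pos hy, if_pos (by rw [e2]; exact (hmemT' y).mp hy)]
    · rw [if_neg hy, if_neg (by rw [e2]; exact fun h => hy ((hmemT' y).mpr h))]
  have h1 : ∑ n : N, ex n * conj (ex (g⁻¹ * n * g)) =
      ∑ x : G, (if x ∈ T then ex x * conj (ex (g⁻¹ * x * g)) else 0) := by
    have h2 : ∀ x : G, (if x ∈ T then ex x * conj (ex (g⁻¹ * x * g)) else 0) =
        if x ∈ N then ex x * conj (ex (g⁻¹ * x * g)) else 0 := by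
      intro x
      by_cases hxT : x ∈ T
      · rw [if_pos hxT, if_pos ((hmemT x).mp hxT).1.1]
      · rw [if_neg hxT]
        by_cases hxN : x ∈ N
        · rw [if_pos hxN]
          by_cases hxH : x ∈ H
          · have h3 : g⁻¹ * x * g ∉ H := fun h => hxT ((hmemT x).mpr ⟨⟨hxN, hxH⟩, h⟩)
            rw [hzero _ h3]
            simp
          · rw [hzero _ hxH]
            simp
        · rw [if_neg hxN]
    simp only [h2]
    rw [← Finset.sum_filter]
    rw [Finset.sum_subtype (p := fun x => x ∈ N) (Finset.univ.filter (fun x => x ∈ N)) (by simp)]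
  rw [h1]
  calc ‖∑ x : G, (if x ∈ T then ex x * conj (ex (g⁻¹ * x * g)) else 0)‖
      ≤ ∑ x : G, ‖(if x ∈ T then ex x * conj (ex (g⁻¹ * x * g)) else 0)‖ := norm_sum_le _ _
    _ ≤ ∑ x : G, ((1 / 2 : ℝ) * (if x ∈ T then ‖ex x‖ ^ 2 else 0) + (1 / 2 : ℝ) * (if x ∈ T then ‖ex (g⁻¹ * x * g)‖ ^ 2 else 0)) := by
        apply Finset.sum_le_sum
        intro x _
        by_cases hx : x ∈ T
        · simp only [if_pos hx, norm_mul, RCLike.norm_conj]
          nlinarith [sq_nonneg (‖ex x‖ - ‖ex (g⁻¹ * x * g)‖)]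
        · simp [if_neg hx]
    _ = (Nat.card T : ℝ) := by
        rw [Finset.sum_add_distrib, ← Finset.mul_sum, ← Finset.mul_sum, hS3]
        rw [show ∑ x : G, (if x ∈ T then ‖ex x‖ ^ 2 else 0) = (Nat.card T : ℝ) from hS1]
        ring

/-- The main inequality. -/
theorem core_of_norm_eq (H L : Subgroup G) [hL : L.Normal] (ϑ : H → ℂ) (hϑ : IrrAbove H L ϑ) (hLH : L ≤ H)
    (N : Subgroup G) [hN : N.Normal] [Fintype N] (hLN : L ≤ N)
    (hcard : Nat.card N * Nat.card H = Nat.card (N ⊓ H : Subgroup G) * Nat.card G)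
    (hX : classInner (fun n : N => indFun H ϑ n) (fun n : N => indFun H ϑ n) = (Nat.card G : ℂ) * (Nat.card H : ℂ)⁻¹) :
    N ⊓ H ≤ H.normalCore := by
  classical
  by_contra hcon
  have hex : ∃ g : G, ¬ (N ⊓ H ≤ cg g H) := by
    by_contra h
    push Not at h
    apply hcon
    intro d hd b
    have := mem_cg.mp (h b⁻¹ hd)
    rwa [inv_inv] at this
  obtain ⟨g₀, hg₀⟩ := hex
  have hle : ∀ g : G, Nat.card (TT N H g) ≤ Nat.card (N ⊓ H : Subgroup G) :=
    fun g => Subgroup.card_le_of_le inf_le_left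
  have hlt : Nat.card (TT N H g₀) < Nat.card (N ⊓ H : Subgroup G) := by
    apply lt_of_le_of_ne (hle g₀)
    intro h
    have h2 : TT N H g₀ = N ⊓ H := Subgroup.eq_of_le_of_card_ge inf_le_left (le_of_eq h.symm)
    apply hg₀
    rw [← h2]
    exact inf_le_right
  have hsum : ∑ g : G, (Nat.card (TT N H g) : ℝ) < (Nat.card G : ℝ) * Nat.card (N ⊓ H : Subgroup G) := by
    have h1 : ∑ g : G, (Nat.card (TT N H g) : ℝ) < ∑ g : G, (Nat.card (N ⊓ H : Subgroup G) : ℝ) := by
      apply Finset.sum_lt_sum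
      · intro g _
        exact_mod_cast hle g
      · exact ⟨g₀, Finset.mem_univ _, by exact_mod_cast hlt⟩
    rw [Finset.sum_const, Finset.card_univ, nsmul_eq_mul, ← Nat.card_eq_fintype_card] at h1
    exact h1
  have hNpos : (0 : ℝ) < Nat.card N := by exact_mod_cast Nat.card_pos
  have hHpos : (0 : ℝ) < Nat.card H := by exact_mod_cast Nat.card_pos
  have hGpos : (0 : ℝ) < Nat.card G := by exact_mod_cast Nat.card_pos
  have hnorm : ‖classInner (fun n : N => indFun H ϑ n) (fun n : N => indFun H ϑ n)‖ ≤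
      (Nat.card N : ℝ)⁻¹ * ((Nat.card H : ℝ)⁻¹ * ((Nat.card H : ℝ)⁻¹ * (Nat.card G : ℝ))) * ∑ g : G, (Nat.card (TT N H g) : ℝ) := by
    rw [norm_formula, norm_mul]
    have h0 : ‖(Nat.card N : ℂ)⁻¹ * ((Nat.card H : ℂ)⁻¹ * ((Nat.card H : ℂ)⁻¹ * (Nat.card G : ℂ)))‖ =
        (Nat.card N : ℝ)⁻¹ * ((Nat.card H : ℝ)⁻¹ * ((Nat.card H : ℝ)⁻¹ * (Nat.card G : ℝ))) := by
      simp [norm_mul, norm_inv]
    rw [h0]
    apply mul_le_mul_of_nonneg_left _ (by positivity)
    calc _ ≤ ∑ g : G, ‖∑ n : N, extendByZero H ϑ n * conj (extendByZero H ϑ (g⁻¹ * n * g))‖ := norm_sum_le _ _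
      _ ≤ _ := Finset.sum_le_sum (fun g _ => term_bound H L ϑ hϑ hLH N hLN g)
  rw [hX] at hnorm
  have h1 : ‖(Nat.card G : ℂ) * (Nat.card H : ℂ)⁻¹‖ = (Nat.card G : ℝ) * (Nat.card H : ℝ)⁻¹ := by
    simp [norm_mul, norm_inv]
  rw [h1] at hnorm
  have h2 : (Nat.card N : ℝ) * Nat.card H = Nat.card (N ⊓ H : Subgroup G) * Nat.card G := by
    exact_mod_cast hcard
  have h3 : (Nat.card N : ℝ)⁻¹ * ((Nat.card H : ℝ)⁻¹ * ((Nat.card H : ℝ)⁻¹ * (Nat.card G : ℝ))) * ((Nat.card G : ℝ) * Nat.card (N ⊓ H : Subgroup G)) =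
      (Nat.card G : ℝ) * (Nat.card H : ℝ)⁻¹ := by
    field_simp
    nlinarith
  have h4 : (Nat.card N : ℝ)⁻¹ * ((Nat.card H : ℝ)⁻¹ * ((Nat.card H : ℝ)⁻¹ * (Nat.card G : ℝ))) * ∑ g : G, (Nat.card (TT N H g) : ℝ) <
      (Nat.card N : ℝ)⁻¹ * ((Nat.card H : ℝ)⁻¹ * ((Nat.card H : ℝ)⁻¹ * (Nat.card G : ℝ))) * ((Nat.card G : ℝ) * Nat.card (N ⊓ H : Subgroup G)) := by
    apply mul_lt_mul_of_pos_left hsum (by positivity)
  linarith

/-- The norm on a normal subgroup meeting `H` in a normal subgroup on which `ϑ` is invariant. -/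
theorem norm_of_inv (H L C M : Subgroup G) [hL : L.Normal] (ϑ : H → ℂ) (hϑ : IrrAbove H L ϑ) (hLC : L ≤ C) (hCH : C ≤ H)
    [hM : M.Normal] [Fintype M] (hMH : ∀ x ∈ M, x ∈ H → x ∈ C) (hCM : C ≤ M)
    (hinv : ∀ (g c : G), c ∈ C → extendByZero H ϑ (g⁻¹ * c * g) = extendByZero H ϑ c)
    (hcard : Nat.card M * Nat.card H = Nat.card C * Nat.card G) :
    classInner (fun n : M => indFun H ϑ n) (fun n : M => indFun H ϑ n) = (Nat.card G : ℂ) * (Nat.card H : ℂ)⁻¹ := by
  classical
  rw [norm_formula]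
  have hterm : ∀ g : G, ∑ n : M, extendByZero H ϑ n * conj (extendByZero H ϑ (g⁻¹ * n * g)) = (Nat.card C : ℂ) := by
    intro g
    have h1 := sum_ite_eq_card_of_irr H C ϑ hCH (hϑ C hLC hCH)
    have h2 : ∑ n : M, extendByZero H ϑ n * conj (extendByZero H ϑ (g⁻¹ * n * g)) =
        ∑ x : G, (((if x ∈ C then ‖extendByZero H ϑ x‖ ^ 2 else 0 : ℝ)) : ℂ) := by
      have h3 : ∀ x : G, (((if x ∈ C then ‖extendByZero H ϑ x‖ ^ 2 else 0 : ℝ)) : ℂ) =
          if x ∈ M then extendByZero H ϑ x * conj (extendByZero H ϑ (g⁻¹ * x * g)) else 0 := by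
        intro x
        by_cases hxC : x ∈ C
        · rw [if_pos hxC, if_pos (hCM hxC), hinv g x hxC, Complex.mul_conj, Complex.normSq_eq_norm_sq]
        · rw [if_neg hxC]
          by_cases hxM : x ∈ M
          · rw [if_pos hxM]
            have hxH : x ∉ H := fun h => hxC (hMH x hxM h)
            rw [extendByZero_of_not_mem _ _ hxH]
            simp
          · rw [if_neg hxM]
            simp
      simp only [h3]
      rw [← Finset.sum_filter]
      rw [Finset.sum_subtype (p := fun x => x ∈ M) (Finset.univ.filter (fun x => x ∈ M)) (by simp)]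
    rw [h2, ← Complex.ofReal_sum, h1]
    simp
  simp only [hterm]
  rw [Finset.sum_const, Finset.card_univ, nsmul_eq_mul, ← Nat.card_eq_fintype_card]
  have hMpos : (Nat.card M : ℂ) ≠ 0 := by exact_mod_cast Nat.card_pos.ne'
  have hHpos : (Nat.card H : ℂ) ≠ 0 := by exact_mod_cast Nat.card_pos.ne'
  have h2 : (Nat.card M : ℂ) * Nat.card H = Nat.card C * Nat.card G := by
    exact_mod_cast hcard
  have h3 : (Nat.card G : ℂ) * Nat.card C = Nat.card M * Nat.card H := by rw [h2]; ring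
  rw [h3]
  field_simp

/-- Invariance of the restriction to a normal subgroup over which the induced character is homogeneous. -/
theorem inv_of_homog (H C : Subgroup G) [hC : C.Normal] (hCH : C ≤ H) (ϑ : H → ℂ) [Fintype C]
    (hσ : IsIrrCharacter C (fun c : C => ϑ ⟨c, hCH c.2⟩))
    (φ : C → ℂ) (e : ℕ) (hφ : IsIrrCharacter C φ) (he : (fun c : C => indFun H ϑ c) = (e : ℂ) • φ) :
    ∀ (g c : G), c ∈ C → extendByZero H ϑ (g⁻¹ * c * g) = extendByZero H ϑ c := by
  classical
  let conjC : G → (C →* C) := fun g => (MulAut.conjNormal g⁻¹ : MulAut C).toMonoidHom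
  have hconjC : ∀ (g : G) (c : C), ((conjC g c : C) : G) = g⁻¹ * c * g := by
    intro g c
    simp [conjC, MulAut.conjNormal_apply]
  let s : G → C → ℂ := fun g c => ϑ ⟨(conjC g c : C), hCH (conjC g c).2⟩
  have hs : ∀ g : G, IsIrrCharacter C (s g) := by
    intro g
    have := IsIrrCharacter.comp_surjective hσ (conjC g) (MulEquiv.surjective _)
    exact this
  have hsval : ∀ (g : G) (c : C), s g c = extendByZero H ϑ (g⁻¹ * c * g) := by
    intro g c
    have hm : g⁻¹ * (c : G) * g ∈ H := by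
      rw [← hconjC]
      exact hCH (conjC g c).2
    rw [extendByZero_of_mem _ _ hm]
    simp only [s]
    congr 1
    exact Subtype.ext (hconjC g c)
  have hind : (fun c : C => indFun H ϑ c) = (Nat.card H : ℂ)⁻¹ • ∑ g : G, s g := by
    funext c
    rw [indFun_apply]
    simp only [Pi.smul_apply, Finset.sum_apply, smul_eq_mul, hsval]
  have hall : ∀ g₀ : G, φ = s g₀ := by
    intro g₀
    by_contra hne
    have h1 : classInner (fun c : C => indFun H ϑ c) (s g₀) = 0 := by
      rw [he, classInner_smul_left, classInner_irr hφ (hs g₀), if_neg hne, mul_zero]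
    rw [hind, classInner_smul_left, classInner_sum_left] at h1
    have hHne : (Nat.card H : ℂ)⁻¹ ≠ 0 := inv_ne_zero (by exact_mod_cast Nat.card_pos.ne')
    have h2 := (mul_eq_zero.mp h1).resolve_left hHne
    have h3 : ∀ g : G, classInner (s g) (s g₀) = ((if s g = s g₀ then 1 else 0 : ℕ) : ℂ) := by
      intro g
      rw [classInner_irr (hs g) (hs g₀)]
      split_ifs <;> simp
    simp only [h3] at h2
    have h4 : (∑ g : G, (if s g = s g₀ then 1 else 0 : ℕ)) = 0 := by
      exact_mod_cast h2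
    have h5 := (Finset.sum_eq_zero_iff.mp h4) g₀ (Finset.mem_univ _)
    rw [if_pos rfl] at h5
    exact one_ne_zero h5
  intro g c hc
  have h1 : s g = s 1 := (hall g).symm.trans (hall 1)
  have h2 := congrFun h1 ⟨c, hc⟩
  rw [hsval, hsval] at h2
  simpa using h2

end Norm

section Grp

variable {G : Type u} [Group G]

theorem eq_bot_of_le_comm {p : ℕ} [Fact p.Prime] [Finite G] (A B : Subgroup G) (hAB : A ≤ B) (hB : IsPGroup p B)
    (h : A ≤ ⁅A, B⁆) : A = ⊥ := by
  haveI : Group.IsNilpotent B := hB.isNilpotent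
  obtain ⟨n, hn⟩ := (Subgroup.isNilpotent_iff_lowerCentralSeries B).mp inferInstance
  have hall : ∀ k, A ≤ B.lowerCentralSeries k := by
    intro k
    induction k with
    | zero => exact hAB
    | succ k ih =>
      rw [Subgroup.lowerCentralSeries_succ]
      exact h.trans (Subgroup.commutator_mono ih le_rfl)
  have := hall n
  rw [hn] at this
  exact le_bot_iff.mp this

/-- A chief factor below a `p`-group quotient is central. -/
theorem comm_le [Finite G] (C M N : Subgroup G) [hC : C.Normal] [hM : M.Normal] [hN : N.Normal] (hCM : C < M) (hMN : M ≤ N)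
    (hmin : ∀ K : Subgroup G, K.Normal → C ≤ K → K ≤ M → K = C ∨ K = M) (p : ℕ) [Fact p.Prime]
    (hp : ∀ x ∈ N, ∃ k, x ^ (p ^ k) ∈ C) : ⁅M, N⁆ ≤ C := by
  haveI : (⁅M, N⁆ ⊔ C).Normal := Subgroup.sup_normal _ _
  have hK1 : ⁅M, N⁆ ⊔ C ≤ M := sup_le (Subgroup.commutator_le_left M N) hCM.le
  rcases hmin _ inferInstance le_sup_right hK1 with h | h
  · rw [← h]
    exact le_sup_left
  · exfalso
    let π : G →* G ⧸ C := QuotientGroup.mk' C
    have hbot : M.map π = ⊥ := by
      apply eq_bot_of_le_comm (p := p) (M.map π) (N.map π) (Subgroup.map_mono hMN)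
      · intro x
        obtain ⟨y, hy, hxy⟩ := x.2
        obtain ⟨k, hk⟩ := hp y hy
        refine ⟨k, Subtype.ext ?_⟩
        simp only [Subgroup.coe_pow, Subgroup.coe_one]
        rw [← hxy, ← map_pow]
        exact (QuotientGroup.eq_one_iff _).mpr hk
      · have h2 : M.map π = (⁅M, N⁆ ⊔ C).map π := by rw [h]
        have h3 : (⁅M, N⁆ ⊔ C).map π = ⁅M.map π, N.map π⁆ ⊔ C.map π := by
          rw [Subgroup.map_sup, Subgroup.map_commutator]
        have h4 : C.map π = ⊥ := QuotientGroup.map_mk'_self C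
        conv_lhs => rw [h2, h3, h4, sup_bot_eq]
    apply hCM.not_ge
    intro x hx
    have h1 : π x ∈ M.map π := ⟨x, hx, rfl⟩
    rw [hbot, Subgroup.mem_bot] at h1
    exact (QuotientGroup.eq_one_iff _).mp h1

end Grp

section Main

variable {G : Type u} [Group G] [Fintype G]

theorem irrAbove_of (H L : Subgroup G) (hLH : L ≤ H) (ϑ : H → ℂ) (hϑ : IsCharacter H ϑ)
    (hϑL : IsIrrCharacter L (fun x : L => ϑ ⟨x, hLH x.2⟩)) : IrrAbove H L ϑ := by
  intro T hLT hTH
  have hchar : IsCharacter T (fun t : T => ϑ ⟨t, hTH t.2⟩) := IsCharacter.comp hϑ (Subgroup.inclusion hTH)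
  obtain ⟨n, ρ, hρ⟩ := hchar
  let f : L →* T := Subgroup.inclusion hLT
  let r : Representation ℂ L (Fin n → ℂ) := ρ.comp f
  have hr : r.character = fun x : L => ϑ ⟨x, hLH x.2⟩ := by
    funext x
    exact congrFun hρ (f x)
  have hirr : r.IsIrreducible := isIrreducible_of_character r (by rw [hr]; exact hϑL)
  refine ⟨n, ρ, ?_, hρ⟩
  rw [isIrreducible_iff] at hirr ⊢
  exact ⟨hirr.1, fun U hU => hirr.2 U (fun l v hv => hU (f l) v hv)⟩

omit [Fintype G] in
theorem relIndex_pow_of_exp [Finite G] (A B : Subgroup G) [hA : A.Normal] (p : ℕ) [Fact p.Prime] (h : ∀ x ∈ B, ∃ k, x ^ (p ^ k) ∈ A) :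
    ∃ k, A.relIndex B = p ^ k := by
  have h1 : IsPGroup p (B ⧸ A.subgroupOf B) := by
    intro x
    obtain ⟨b, rfl⟩ := QuotientGroup.mk_surjective x
    obtain ⟨k, hk⟩ := h b b.2
    refine ⟨k, ?_⟩
    rw [← QuotientGroup.mk_pow]
    apply (QuotientGroup.eq_one_iff _).mpr
    exact hk
  obtain ⟨k, hk⟩ := IsPGroup.iff_card.mp h1
  exact ⟨k, by unfold Subgroup.relIndex; rw [Subgroup.index_eq_card]; exact hk⟩

theorem inner_smul_irr {Y : Type u} [Group Y] [Fintype Y] {φ : Y → ℂ} (hφ : IsIrrCharacter Y φ) (e : ℕ) :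
    classInner ((e : ℂ) • φ) ((e : ℂ) • φ) = (e : ℂ) ^ 2 := by
  rw [classInner_smul_left, classInner_smul_right, classInner_irr_self hφ, Complex.conj_natCast]
  ring

theorem classInner_of_forall_mem (M : Subgroup G) [Fintype M] (hM : ∀ x, x ∈ M) (F : G → ℂ) :
    classInner (fun n : M => F n) (fun n : M => F n) = classInner F F := by
  classical
  unfold classInner
  have h1 : Nat.card M = Nat.card G := Nat.card_congr (Equiv.subtypeUnivEquiv hM)
  rw [h1]
  congr 1
  exact Fintype.sum_equiv (Equiv.subtypeUnivEquiv hM) _ _ (fun x => rfl)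

/-- The relative form of Berger's theorem. -/
theorem s0890 (L H : Subgroup G) [hLn : L.Normal] (hLH : L ≤ H) (hmax : IsCoatom H) (hsolv : Group.IsSolvable (G ⧸ L))
    (ϑ : H → ℂ) (hϑ : IsIrrCharacter H ϑ) (hϑL : IsIrrCharacter L (fun x : L => ϑ ⟨(x : G), hLH x.2⟩))
    (hind : IsIrrCharacter G (indFun H ϑ)) :
    ∃ M : Subgroup G, M.Normal ∧ L ≤ M ∧ ¬ ∃ (φ : M → ℂ) (e : ℕ), IsIrrCharacter M φ ∧ (fun m : M => indFun H ϑ m) = (e : ℂ) • φ := by
  classical
  by_contra hcon
  have hqp : ∀ M : Subgroup G, M.Normal → L ≤ M → ∃ (φ : M → ℂ) (e : ℕ), IsIrrCharacter M φ ∧ (fun m : M => indFun H ϑ m) = (e : ℂ) • φ := by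
    intro M h1 h2
    by_contra h
    exact hcon ⟨M, h1, h2, h⟩
  have hA := irrAbove_of H L hLH ϑ (IsIrrCharacter.isCharacter hϑ) hϑL
  have hCn : H.normalCore.Normal := Subgroup.normalCore_normal H
  have hCH : H.normalCore ≤ H := Subgroup.normalCore_le H
  have hLC : L ≤ H.normalCore := Subgroup.normal_le_normalCore.mpr hLH
  generalize hCdef : H.normalCore = C at hCn hCH hLC
  haveI := hCn
  have hCtop : C < ⊤ := lt_of_le_of_lt hCH (lt_top_iff_ne_top.mpr hmax.1)
  have hsC : Group.IsSolvable (G ⧸ C) := solvable_quot_le hLC hsolv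
  obtain ⟨M, hMn, hCM, -, hmin, hMab, p, hp, hpexp⟩ := exists_chief_above C ⊤ hCtop hsC
  haveI := hMn
  haveI : Fact p.Prime := ⟨hp⟩
  obtain ⟨φC, eC, hφC, heC⟩ := hqp C hCn hLC
  haveI : Fintype C := Fintype.ofFinite C
  have hinv := inv_of_homog H C hCH ϑ (hA C hLC hCH) φC eC hφC heC
  have hMH : ¬ M ≤ H := fun h => hCM.not_ge (by rw [← hCdef]; exact Subgroup.normal_le_normalCore.mpr h)
  have hsup : H ⊔ M = ⊤ := hmax.2 _ (lt_of_le_of_ne le_sup_left (fun h => hMH (by rw [h]; exact le_sup_right)))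
  have hdec : ∀ g : G, ∃ m ∈ M, ∃ h ∈ H, g = m * h := by
    intro g
    have h1 : g ∈ (↑(M ⊔ H) : Set G) := by rw [sup_comm, hsup]; trivial
    rw [Subgroup.normal_mul] at h1
    obtain ⟨m, hm, h, hh, rfl⟩ := Set.mem_mul.mp h1
    exact ⟨m, hm, h, hh, rfl⟩
  have hMHC : M ⊓ H ≤ C := by
    rw [← hCdef]
    intro x hx b
    obtain ⟨m, hm, h, hh, rfl⟩ := hdec b
    have hyM : h * x * h⁻¹ ∈ M := hMn.conj_mem x hx.1 h
    have hyH : h * x * h⁻¹ ∈ H := H.mul_mem (H.mul_mem hh hx.2) (H.inv_mem hh)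
    have hc : ⁅m, h * x * h⁻¹⁆ ∈ C := hMab (Subgroup.commutator_mem_commutator hm hyM)
    have e1 : (m * h) * x * (m * h)⁻¹ = ⁅m, h * x * h⁻¹⁆ * (h * x * h⁻¹) := by
      simp only [commutatorElement_def]
      group
    rw [e1]
    exact H.mul_mem (hCH hc) hyH
  have hHM : H ⊓ M = C := le_antisymm (by rw [inf_comm]; exact hMHC) (le_inf hCH hCM.le)
  have hrel : C.relIndex M = H.index := by
    rw [← hHM, Subgroup.inf_relIndex_right, Cfsg.Agent.Lib.PNilp.relIndex_eq_relIndex_sup_of_normal H M, hsup,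
      Subgroup.relIndex_top_right]
  obtain ⟨k0, hk0⟩ := relIndex_pow_of_exp C M p (fun x hx => ⟨1, by rw [pow_one]; exact hpexp x hx⟩)
  have hHidx : Nat.card H * H.index = Nat.card G := H.card_mul_index
  have hcardM : Nat.card M * Nat.card H = Nat.card C * Nat.card G := by
    have h1 := Cfsg.Agent.Lib.PNilp.card_mul_relIndex' C M hCM.le
    rw [hrel] at h1
    rw [← h1, ← hHidx]
    ring
  haveI : Fintype M := Fintype.ofFinite M
  have hXM := norm_of_inv H L C M ϑ hA hLC hCH (fun x hx hxH => hMHC ⟨hx, hxH⟩) hCM.le hinv hcardM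
  have hHpos : (Nat.card H : ℂ) ≠ 0 := by exact_mod_cast Nat.card_pos.ne'
  have hidxC : (Nat.card G : ℂ) * (Nat.card H : ℂ)⁻¹ = (H.index : ℂ) := by
    rw [← hHidx]
    push_cast
    field_simp
  obtain ⟨η, f, hη, hf⟩ := hqp M hMn (hLC.trans hCM.le)
  have hfsq : f ^ 2 = H.index := by
    have h1 := hXM
    rw [hf, inner_smul_irr hη, hidxC] at h1
    exact_mod_cast h1
  by_cases hMtop : M = ⊤
  · exfalso
    have h1 := hXM
    rw [classInner_of_forall_mem M (fun x => by rw [hMtop]; trivial) (indFun H ϑ), classInner_irr_self hind, hidxC] at h1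
    have h2 : H.index = 1 := by exact_mod_cast h1.symm
    exact hmax.1 (Subgroup.index_eq_one.mp h2)
  have hMlt : M < ⊤ := lt_top_iff_ne_top.mpr hMtop
  have hsM : Group.IsSolvable (G ⧸ M) := solvable_quot_le hCM.le hsC
  obtain ⟨N, hNn, hMN, -, -, hNab, q, hq, hqexp⟩ := exists_chief_above M ⊤ hMlt hsM
  haveI := hNn
  haveI : Fact q.Prime := ⟨hq⟩
  have hfinish : N ⊓ H ≤ C → False := by
    intro hD
    apply hMN.not_ge
    intro x hx
    obtain ⟨m, hm, h, hh, rfl⟩ := hdec x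
    have h1 : h ∈ N := by
      have : h = m⁻¹ * (m * h) := by group
      rw [this]
      exact N.mul_mem (N.inv_mem (hMN.le hm)) hx
    exact M.mul_mem hm (hCM.le (hD ⟨h1, hh⟩))
  apply hfinish
  by_cases hpq : p = q
  · subst hpq
    have hcomm := comm_le C M N hCM hMN.le hmin p (fun x hx => ⟨2, by
      have h1 := hpexp _ (hqexp x hx)
      rw [pow_two, pow_mul]
      exact h1⟩)
    rw [← hCdef]
    intro d hd b
    obtain ⟨m, hm, h, hh, rfl⟩ := hdec b
    have hyN : h * d * h⁻¹ ∈ N := hNn.conj_mem d hd.1 h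
    have hyH : h * d * h⁻¹ ∈ H := H.mul_mem (H.mul_mem hh hd.2) (H.inv_mem hh)
    have hc : ⁅m, h * d * h⁻¹⁆ ∈ C := hcomm (Subgroup.commutator_mem_commutator hm hyN)
    have e1 : (m * h) * d * (m * h)⁻¹ = ⁅m, h * d * h⁻¹⁆ * (h * d * h⁻¹) := by
      simp only [commutatorElement_def]
      group
    rw [e1]
    exact H.mul_mem (hCH hc) hyH
  · haveI : Fintype N := Fintype.ofFinite N
    obtain ⟨ζ, a, hζ, ha⟩ := hqp N hNn (hLC.trans (hCM.le.trans hMN.le))
    have hχ1 : indFun H ϑ 1 ≠ 0 := IsIrrCharacter.ne_zero hind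
    have ha1 : (a : ℂ) ≠ 0 := by
      intro h0
      have h1 := congrFun ha 1
      simp only [Pi.smul_apply, smul_eq_mul, h0, zero_mul] at h1
      exact hχ1 h1
    have hf1 : (f : ℂ) ≠ 0 := by
      intro h0
      have h1 := congrFun hf 1
      simp only [Pi.smul_apply, smul_eq_mul, h0, zero_mul] at h1
      exact hχ1 h1
    let ζM : M → ℂ := fun m => ζ ⟨m, hMN.le m.2⟩
    have hζMc : IsCharacter M ζM := IsCharacter.comp (IsIrrCharacter.isCharacter hζ) (Subgroup.inclusion hMN.le)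
    obtain ⟨b, hb⟩ := IsCharacter.classInner_irr_nat hζMc hη
    have hrelζ : (a : ℂ) • ζM = (f : ℂ) • η := by
      funext m
      have h1 := congrFun ha ⟨m, hMN.le m.2⟩
      have h2 := congrFun hf m
      simp only [Pi.smul_apply, smul_eq_mul] at h1 h2 ⊢
      rw [← h1, ← h2]
    have hab : (a : ℂ) * b = f := by
      have h1 := congrArg (fun F => classInner F η) hrelζ
      simp only [classInner_smul_left, classInner_irr_self hη, hb, mul_one] at h1
      exact h1
    have habN : a * b = f := by exact_mod_cast hab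
    have hb0 : b ≠ 0 := by
      rintro rfl
      apply hf1
      rw [← hab]
      simp
    have hζM : ζM = (b : ℂ) • η := by
      funext m
      have h1 := congrFun hrelζ m
      simp only [Pi.smul_apply, smul_eq_mul] at h1 ⊢
      rw [← hab, mul_assoc] at h1
      exact mul_left_cancel₀ ha1 h1
    let M' : Subgroup N := M.subgroupOf N
    haveI hM' : M'.Normal := Subgroup.normal_subgroupOf
    let e' : M' ≃* M := Subgroup.subgroupOfEquivOfLe hMN.le
    haveI : Fintype M' := Fintype.ofFinite M'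
    let η' : M' → ℂ := η ∘ e'
    have hη' : IsIrrCharacter M' η' := IsIrrCharacter.comp_surjective hη e'.toMonoidHom e'.surjective
    have hres : (fun n : M' => ζ n) = ζM ∘ e' := by
      funext n
      rfl
    have hcon' : classInner (fun n : M' => ζ n) η' ≠ 0 := by
      rw [hres, Cfsg.Agent.Lib.CharNormal.classInner_comp_equiv e', hb]
      exact_mod_cast hb0
    obtain ⟨k, hk1, hk2⟩ := degree_quot_dvd_index M' hη' hζ hcon'
    have hη1 : η 1 ≠ 0 := IsIrrCharacter.ne_zero hη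
    have hkb : k = b := by
      have h1 : ζ 1 = (b : ℂ) * η 1 := by
        have h2 := congrFun hζM 1
        simp only [Pi.smul_apply, smul_eq_mul] at h2
        exact h2
      have h3 : η' 1 = η 1 := by
        simp [η']
      rw [h3, h1] at hk1
      have h4 := mul_right_cancel₀ hη1 hk1
      exact_mod_cast h4.symm
    rw [hkb] at hk2
    obtain ⟨r, hr⟩ := relIndex_pow_of_exp M N q (fun x hx => ⟨1, by rw [pow_one]; exact hqexp x hx⟩)
    have hk3 : b ∣ q ^ r := by
      rw [← hr]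
      exact hk2
    have hfd : f ∣ p ^ k0 := by
      rw [← hk0, hrel, ← hfsq]
      exact dvd_pow_self f (by norm_num)
    have hb1 : b = 1 := by
      have hc : Nat.Coprime (p ^ k0) (q ^ r) := Nat.coprime_pow_primes _ _ hp hq hpq
      exact Nat.eq_one_of_dvd_coprimes hc ((Dvd.intro_left a habN).trans hfd) hk3
    have haf : a = f := by
      rw [← habN, hb1, mul_one]
    have hXN : classInner (fun n : N => indFun H ϑ n) (fun n : N => indFun H ϑ n) = (Nat.card G : ℂ) * (Nat.card H : ℂ)⁻¹ := by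
      rw [ha, inner_smul_irr hζ, haf, hidxC, ← hfsq]
      push_cast
      ring
    have hsupN : H ⊔ N = ⊤ := by
      rw [eq_top_iff, ← hsup]
      exact sup_le_sup_left hMN.le H
    have hrelN : (N ⊓ H).relIndex N = H.index := by
      rw [inf_comm, Subgroup.inf_relIndex_right, Cfsg.Agent.Lib.PNilp.relIndex_eq_relIndex_sup_of_normal H N, hsupN,
        Subgroup.relIndex_top_right]
    have hcardN : Nat.card N * Nat.card H = Nat.card (N ⊓ H : Subgroup G) * Nat.card G := by
      have h1 := Cfsg.Agent.Lib.PNilp.card_mul_relIndex' (N ⊓ H) N inf_le_left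
      rw [hrelN] at h1
      rw [← h1, ← hHidx]
      ring
    rw [← hCdef]
    exact core_of_norm_eq H L ϑ hA hLH N (hLC.trans (hCM.le.trans hMN.le)) hcardN hXN

end Main

end Cfsg.Agent.Lib.CharBerger
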