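import Cfsg.Agent.Lib.CharBerger

/-!
# Berger's theorem on quasi-primitive characters of solvable groups
-/

set_option autoImplicit false
set_option linter.unusedVariables false
set_option linter.unusedSectionVars false
set_option linter.style.longLine false

open Cfsg Module
open scoped ComplexConjugate commutatorElement Pointwise TensorProduct
open Cfsg.Agent.Lib.CharBasic Cfsg.Agent.Lib.CharOrth Cfsg.Agent.Lib.CharAlg Cfsg.Agent.Lib.CharInd
  Cfsg.Agent.Lib.CharLin Cfsg.Agent.Lib.CharProj Cfsg.Agent.Lib.CharGall Cfsg.Agent.Lib.CharRelM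
  Cfsg.Agent.Lib.CharBerger Cfsg.Agent.Lib.CharMisc Cfsg.Agent.Lib.CharClifford

universe u v w

namespace Cfsg.Agent.Lib.CharBerger2

section Gen

variable {Y : Type u} [Group Y] [Fintype Y]

theorem sub_irr_isCharacter {X χ : Y → ℂ} (hX : IsCharacter Y X) (hχ : IsIrrCharacter Y χ)
    (hne : classInner X χ ≠ 0) : IsCharacter Y (X - χ) := by
  classical
  rw [isCharacter_iff]
  constructor
  · intro g h
    have h1 := classFunction_of_isCharacter hX g h
    have h2 := classFunction_of_isIrrCharacter hχ g h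
    simp only [Pi.sub_apply, h1, h2]
  · intro ψ hψ
    obtain ⟨n, hn⟩ := IsCharacter.classInner_irr_nat hX hψ
    rw [classInner_sub_left, hn, classInner_irr hχ hψ]
    by_cases h : χ = ψ
    · subst h
      rw [if_pos rfl]
      have hn0 : n ≠ 0 := by
        rintro rfl
        apply hne
        rw [hn]
        simp
      refine ⟨n - 1, ?_⟩
      have : 1 ≤ n := Nat.pos_of_ne_zero hn0
      push_cast [this]
      ring
    · rw [if_neg h]
      exact ⟨n, by simp⟩

theorem eq_of_inner_of_deg {X χ : Y → ℂ} (hX : IsCharacter Y X) (hχ : IsIrrCharacter Y χ)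
    (hne : classInner X χ ≠ 0) (hdeg : X 1 = χ 1) : X = χ := by
  have h1 := sub_irr_isCharacter hX hχ hne
  have h2 := IsCharacter.eq_zero_of_map_one h1 (by simp [hdeg])
  exact sub_eq_zero.mp h2

theorem inner_self_ne_zero {A : Y → ℂ} (hA0 : A 1 ≠ 0) : classInner A A ≠ 0 := by
  intro h
  have := eq_zero_of_classInner_self_eq_zero A h
  rw [this] at hA0
  exact hA0 rfl

theorem sum_irr {A B : Y → ℂ} (hA : IsCharacter Y A) (hB : IsCharacter Y B) (hX : IsIrrCharacter Y (A + B))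
    (hA0 : A 1 ≠ 0) : B = 0 := by
  have hne : classInner A (A + B) ≠ 0 := by
    rw [classInner_add_right]
    obtain ⟨n, hn⟩ := IsCharacter.classInner_nat hA hA
    obtain ⟨m, hm⟩ := IsCharacter.classInner_nat hA hB
    have hn0 : n ≠ 0 := by
      rintro rfl
      apply inner_self_ne_zero hA0
      rw [hn]
      simp
    rw [hn, hm]
    intro h
    have h1 : n + m = 0 := by exact_mod_cast h
    omega
  have h1 := sub_irr_isCharacter hA hX hne
  have h2 : A - (A + B) = -B := by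
    funext y
    simp
  rw [h2] at h1
  obtain ⟨k, hk⟩ := IsCharacter.map_one_nat h1
  obtain ⟨l, hl⟩ := IsCharacter.map_one_nat hB
  have h3 : ((k + l : ℕ) : ℂ) = 0 := by
    push_cast
    rw [← hk, ← hl]
    simp
  have h4 : k + l = 0 := by exact_mod_cast h3
  have h5 : l = 0 := by omega
  apply IsCharacter.eq_zero_of_map_one hB
  rw [hl, h5]
  simp

theorem irr_of_mul {α β : Y → ℂ} (hα : IsCharacter Y α) (hβ : IsCharacter Y β)
    (h : IsIrrCharacter Y (fun y => α y * β y)) : IsIrrCharacter Y α := by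
  have h1 : α 1 * β 1 ≠ 0 := IsIrrCharacter.ne_zero h
  have hα1 : α 1 ≠ 0 := left_ne_zero_of_mul h1
  have hβ1 : β 1 ≠ 0 := right_ne_zero_of_mul h1
  obtain ⟨α₀, hα₀, hc⟩ := exists_constituent hα hα1
  have hα' := sub_irr_isCharacter hα hα₀ hc
  have hsum : (fun y => α y * β y) = (fun y => α₀ y * β y) + (fun y => (α - α₀) y * β y) := by
    funext y
    simp only [Pi.add_apply, Pi.sub_apply]
    ring
  rw [hsum] at h
  have hB := sum_irr (IsCharacter.mul (IsIrrCharacter.isCharacter hα₀) hβ) (IsCharacter.mul hα' hβ) h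
    (mul_ne_zero (IsIrrCharacter.ne_zero hα₀) hβ1)
  have h2 := congrFun hB 1
  simp only [Pi.zero_apply] at h2
  have h3 : (α - α₀) 1 = 0 := (mul_eq_zero.mp h2).resolve_right hβ1
  have h4 := IsCharacter.eq_zero_of_map_one hα' h3
  have h5 : α = α₀ := sub_eq_zero.mp h4
  rw [h5]
  exact hα₀

theorem irr_of_ind (H : Subgroup Y) [Fintype H] {ϑ : H → ℂ} (hϑ : IsCharacter H ϑ)
    (h : IsIrrCharacter Y (indFun H ϑ)) : IsIrrCharacter H ϑ := by
  have h1 : indFun H ϑ 1 ≠ 0 := IsIrrCharacter.ne_zero h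
  rw [indFun_one_apply] at h1
  have hϑ1 : ϑ 1 ≠ 0 := right_ne_zero_of_mul h1
  have hidx : (H.index : ℂ) ≠ 0 := left_ne_zero_of_mul h1
  obtain ⟨ϑ₀, hϑ₀, hc⟩ := exists_constituent hϑ hϑ1
  have hϑ' := sub_irr_isCharacter hϑ hϑ₀ hc
  have hsum : indFun H ϑ = indFun H ϑ₀ + indFun H (ϑ - ϑ₀) := by
    rw [← indFun_add]
    congr 1
    funext y
    simp
  rw [hsum] at h
  have hB := sum_irr (IsCharacter.ind H (IsIrrCharacter.isCharacter hϑ₀)) (IsCharacter.ind H hϑ') h
    (by rw [indFun_one_apply]; exact mul_ne_zero hidx (IsIrrCharacter.ne_zero hϑ₀))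
  have h2 := congrFun hB 1
  rw [indFun_one_apply] at h2
  simp only [Pi.zero_apply] at h2
  have h3 : (ϑ - ϑ₀) 1 = 0 := (mul_eq_zero.mp h2).resolve_left hidx
  have h4 := IsCharacter.eq_zero_of_map_one hϑ' h3
  have h5 : ϑ = ϑ₀ := sub_eq_zero.mp h4
  rw [h5]
  exact hϑ₀

/-- The averaging identity. -/
theorem sum_norm_coset (A : Subgroup Y) [A.Normal] [Fintype A] {s : Y → ℂ} (hs : IsIrrCharacter Y s)
    (hsA : IsIrrCharacter A (fun a : A => s a)) (F : Y → ℂ) (hF : ∀ a ∈ A, ∀ z, F (a * z) = F z) :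
    ∑ z : Y, (s z * conj (s z)) * F z = ∑ z : Y, F z := by
  have h0 := (s0868 A s hs hsA s hs _ rfl).2.2 rfl
  have h1 : ∀ z : Y, ∑ a : A, s ((a : Y) * z) * conj (s ((a : Y) * z)) = (Nat.card A : ℂ) := by
    intro z
    have h2 : (Nat.card A : ℂ)⁻¹ * ∑ a : A, s ((a : Y) * z) * conj (s ((a : Y) * z)) = 1 := congrFun h0 z
    have h3 : (Nat.card A : ℂ) ≠ 0 := by exact_mod_cast Nat.card_pos.ne'
    field_simp at h2
    exact h2
  have hcardA : (Nat.card A : ℂ) ≠ 0 := by exact_mod_cast Nat.card_pos.ne'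
  have h2 : ∀ a : A, ∑ z : Y, (s ((a : Y) * z) * conj (s ((a : Y) * z))) * F z = ∑ z : Y, (s z * conj (s z)) * F z := by
    intro a
    rw [← Equiv.sum_comp (Equiv.mulLeft (a : Y)) (fun z => (s z * conj (s z)) * F z)]
    apply Finset.sum_congr rfl
    intro z _
    simp only [Equiv.coe_mulLeft]
    rw [hF a a.2]
  have h3 : (Nat.card A : ℂ) * ∑ z : Y, (s z * conj (s z)) * F z = (Nat.card A : ℂ) * ∑ z : Y, F z := by
    have h4 : (Nat.card A : ℂ) * ∑ z : Y, (s z * conj (s z)) * F z = ∑ a : A, ∑ z : Y, (s ((a : Y) * z) * conj (s ((a : Y) * z))) * F z := by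
      simp only [h2]
      rw [Finset.sum_const, Finset.card_univ, nsmul_eq_mul, Nat.card_eq_fintype_card]
    rw [h4, Finset.sum_comm, Finset.mul_sum]
    apply Finset.sum_congr rfl
    intro z _
    rw [← Finset.sum_mul, h1, ]
  exact mul_left_cancel₀ hcardA h3

end Gen

section Hom

variable {Y : Type u} [Group Y] [Fintype Y] {U : Type v} {W : Type w} [AddCommGroup U] [Module ℂ U] [FiniteDimensional ℂ U]
  [AddCommGroup W] [Module ℂ W] [FiniteDimensional ℂ W]

/-- A nonzero inner product produces an injective intertwiner. -/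
theorem exists_inj (r : Representation ℂ Y U) (hr : r.IsIrreducible) (r' : Representation ℂ Y W)
    (h : classInner r'.character r.character ≠ 0) :
    ∃ j : U →ₗ[ℂ] W, Function.Injective j ∧ ∀ y v, j (r y v) = r' y (j v) := by
  classical
  rw [classInner_character] at h
  have hpos : 0 < finrank ℂ (Representation.IntertwiningMap r r') := by
    apply Nat.pos_of_ne_zero
    intro h0
    apply h
    rw [h0]
    simp
  haveI : Nontrivial (Representation.IntertwiningMap r r') := Module.nontrivial_of_finrank_pos hpos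
  obtain ⟨f, hf⟩ := exists_ne (0 : Representation.IntertwiningMap r r')
  refine ⟨f.toLinearMap, ?_, fun y v => Representation.IntertwiningMap.isIntertwining r r' f y v⟩
  rw [← LinearMap.ker_eq_bot]
  have hk := ((isIrreducible_iff r).mp hr).2 (LinearMap.ker f.toLinearMap) (by
    intro y v hv
    rw [LinearMap.mem_ker] at hv ⊢
    rw [Representation.IntertwiningMap.toLinearMap_apply] at hv ⊢
    rw [Representation.IntertwiningMap.isIntertwining, hv, map_zero])
  rcases hk with hk | hk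
  · exact hk
  · exfalso
    apply hf
    apply Representation.IntertwiningMap.ext
    rw [LinearMap.ker_eq_top.mp hk]
    rfl

/-- Induced from an invariant subspace of the right dimension. -/
theorem induced_of_subspace (T : Subgroup Y) [Fintype T] (r : Representation ℂ Y W) (hr : r.IsIrreducible)
    (S : Submodule ℂ W) (hS : ∀ t ∈ T, ∀ v ∈ S, r t v ∈ S) (hdim : T.index * finrank ℂ S = finrank ℂ W)
    (hS0 : S ≠ ⊥) : ∃ β : T → ℂ, IsCharacter T β ∧ indFun T β = r.character := by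
  classical
  let r₀ : Representation ℂ T S :=
    { toFun := fun t => (r t).restrict (fun v hv => hS t t.2 v hv)
      map_one' := by
        ext v
        simp
      map_mul' := by
        intro a b
        ext v
        simp [Module.End.mul_apply] }
  have hr₀ : ∀ (t : T) (v : S), ((r₀ t v : S) : W) = r t v := fun t v => rfl
  refine ⟨r₀.character, isCharacter_character r₀, ?_⟩
  have hχ := isIrrCharacter_character r hr
  apply eq_of_inner_of_deg (IsCharacter.ind T (isCharacter_character r₀)) hχ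
  · rw [frobenius T _ _ (classFunction_of_isIrrCharacter hχ)]
    let rT : Representation ℂ T W := r.comp T.subtype
    have h1 : (fun t : T => r.character t) = rT.character := rfl
    rw [h1]
    intro h0
    have h2 : classInner rT.character r₀.character = 0 := by
      rw [← classInner_conj_symm, h0]
      simp
    rw [classInner_character] at h2
    have h3 : finrank ℂ (Representation.IntertwiningMap r₀ rT) = 0 := by exact_mod_cast h2
    haveI h4 : Subsingleton (Representation.IntertwiningMap r₀ rT) := finrank_zero_iff.mp h3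
    let f : Representation.IntertwiningMap r₀ rT := LinearMap.intertwiningMap_of_isIntertwiningMap r₀ rT S.subtype (fun t v => rfl)
    have h5 : f = 0 := Subsingleton.elim _ _
    apply hS0
    rw [eq_bot_iff]
    intro v hv
    have h6 : f ⟨v, hv⟩ = 0 := by rw [h5]; rfl
    have h7 : f ⟨v, hv⟩ = v := rfl
    rw [h7] at h6
    simpa using h6
  · rw [indFun_one_apply, Representation.char_one, Representation.char_one]
    exact_mod_cast hdim

end Hom

section GammaExt

variable {G : Type u} [Group G] (N : Subgroup G) [hN : N.Normal]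
  {V : Type v} [AddCommGroup V] [Module ℂ V] [FiniteDimensional ℂ V] (ρ : Representation ℂ N V)
  {W : Type w} [AddCommGroup W] [Module ℂ W] [FiniteDimensional ℂ W] (σ : Representation ℂ G W)

/-- The representation of `gamma` on the space of `ρ`. -/
noncomputable def sRep : Representation ℂ (gamma N ρ) V where
  toFun γ := ((γ : G × (Module.End ℂ V)ˣ).2 : Module.End ℂ V)
  map_one' := rfl
  map_mul' _ _ := rfl

theorem sRep_apply (γ : gamma N ρ) : sRep N ρ γ = ((γ : G × (Module.End ℂ V)ˣ).2 : Module.End ℂ V) := rfl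

/-- The evaluation map. -/
noncomputable def evL : TensorProduct ℂ (homN N ρ σ) V →ₗ[ℂ] W := TensorProduct.lift (homN N ρ σ).subtype

theorem evL_tmul (T : homN N ρ σ) (v : V) : evL N ρ σ (T ⊗ₜ[ℂ] v) = (T : V →ₗ[ℂ] W) v := by
  simp [evL]

variable [Fintype G]

variable (hρ : ρ.IsIrreducible) (hσ : σ.IsIrreducible) (hinv : ∀ (g : G) (n : N), ρ.character (cn N g n) = ρ.character n)
  (hne : finrank ℂ (homN N ρ σ) ≠ 0) (hdeg : finrank ℂ W = finrank ℂ (homN N ρ σ) * finrank ℂ V)

include hρ hσ hinv hne hdeg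

theorem evL_surjective [Fintype N] : Function.Surjective (evL N ρ σ) := by
  classical
  have hV : Nontrivial V := ((isIrreducible_iff ρ).mp hρ).1
  rw [← LinearMap.range_eq_top]
  have hinvR : ∀ g, ∀ w ∈ LinearMap.range (evL N ρ σ), σ g w ∈ LinearMap.range (evL N ρ σ) := by
    rintro g _ ⟨x, rfl⟩
    obtain ⟨X, hX⟩ := exists_gamma N ρ hinv g
    induction x using TensorProduct.induction_on with
    | zero => simp
    | tmul T v =>
      refine ⟨gammaRep N ρ σ ⟨(g, X), hX⟩ T ⊗ₜ[ℂ] ((X : Module.End ℂ V) v), ?_⟩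
      rw [evL_tmul, evL_tmul, gammaRep_apply]
      show σ g ((T : V →ₗ[ℂ] W) (((X⁻¹ : (Module.End ℂ V)ˣ) : Module.End ℂ V) ((X : Module.End ℂ V) v))) = _
      rw [← Module.End.mul_apply, Units.inv_mul]
      rfl
    | add a b ha hb =>
      rw [map_add, map_add]
      exact Submodule.add_mem _ ha hb
  rcases ((isIrreducible_iff σ).mp hσ).2 _ hinvR with h | h
  · exfalso
    haveI : Nontrivial (homN N ρ σ) := Module.finrank_pos_iff.mp (Nat.pos_of_ne_zero hne)
    obtain ⟨T, hT⟩ := exists_ne (0 : homN N ρ σ)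
    apply hT
    apply Subtype.ext
    ext v
    have h1 : (T : V →ₗ[ℂ] W) v ∈ LinearMap.range (evL N ρ σ) := ⟨T ⊗ₜ[ℂ] v, evL_tmul N ρ σ T v⟩
    rw [h] at h1
    simpa using h1
  · exact h

/-- The evaluation isomorphism. -/
noncomputable def evEquiv [Fintype N] : TensorProduct ℂ (homN N ρ σ) V ≃ₗ[ℂ] W := by
  classical
  refine LinearEquiv.ofBijective (evL N ρ σ) ⟨?_, evL_surjective N ρ σ hρ hσ hinv hne hdeg⟩
  have h : finrank ℂ (TensorProduct ℂ (homN N ρ σ) V) = finrank ℂ W := by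
    rw [hdeg]
    exact Module.finrank_tensorProduct
  exact (LinearMap.injective_iff_surjective_of_finrank_eq_finrank (V := TensorProduct ℂ (homN N ρ σ) V) (V₂ := W) (f := evL N ρ σ) h).mpr (evL_surjective N ρ σ hρ hσ hinv hne hdeg)

theorem trace_of_ev [Fintype N] (F : homN N ρ σ →ₗ[ℂ] homN N ρ σ) (G' : V →ₗ[ℂ] V) (A : W →ₗ[ℂ] W)
    (h : ∀ (T : homN N ρ σ) (v : V), ((F T : homN N ρ σ) : V →ₗ[ℂ] W) (G' v) = A ((T : V →ₗ[ℂ] W) v)) :
    LinearMap.trace ℂ W A = LinearMap.trace ℂ _ F * LinearMap.trace ℂ V G' := by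
  classical
  let e := evEquiv N ρ σ hρ hσ hinv hne hdeg
  have he : ∀ x, e x = evL N ρ σ x := fun x => rfl
  have h1 : e.conj (TensorProduct.map F G') = A := by
    ext w
    obtain ⟨x, rfl⟩ := e.surjective w
    rw [LinearEquiv.conj_apply_apply, LinearEquiv.symm_apply_apply]
    rw [he, he]
    induction x using TensorProduct.induction_on with
    | zero => simp
    | tmul T v =>
      rw [TensorProduct.map_tmul, evL_tmul, evL_tmul, h]
    | add a b ha hb =>
      rw [map_add, map_add, ha, hb, map_add, map_add]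
  have h2 : LinearMap.trace ℂ W (e.conj (TensorProduct.map F G')) = LinearMap.trace ℂ _ (TensorProduct.map F G') := by
    exact LinearMap.trace_conj' (R := ℂ) (M := TensorProduct ℂ (homN N ρ σ) V) (N := W) (TensorProduct.map F G') e
  rw [← h1, h2, LinearMap.trace_tensorProduct']

/-- The trace identity. -/
theorem trace_ident [Fintype N] (γ : gamma N ρ) :
    σ.character (piG N ρ γ) = (gammaRep N ρ σ).character γ * (sRep N ρ).character γ := by
  apply trace_of_ev N ρ σ hρ hσ hinv hne hdeg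
  intro T v
  rw [gammaRep_apply, sRep_apply]
  show σ (γ : G × (Module.End ℂ V)ˣ).1 _ = σ (γ : G × (Module.End ℂ V)ˣ).1 _
  rw [← Module.End.mul_apply, Units.inv_mul]
  rfl

end GammaExt

section Cover

variable {K : Type*} [Group K] {Y : Type*} [Group Y] {U : Type*} [AddCommGroup U] [Module ℂ U]
  [FiniteDimensional ℂ U]

theorem irr_of_cover (r : Representation ℂ K U) (hr : r.IsIrreducible) (r' : Representation ℂ Y U)
    (hcov : ∀ z : K, ∃ y : Y, ∃ c : ℂ, r z = c • r' y) : r'.IsIrreducible := by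
  rw [isIrreducible_iff] at hr ⊢
  refine ⟨hr.1, fun S hS => hr.2 S ?_⟩
  intro z v hv
  obtain ⟨y, c, h⟩ := hcov z
  rw [h]
  exact S.smul_mem c (hS y v hv)

theorem scalar_transfer {U' : Type*} [AddCommGroup U'] [Module ℂ U'] (r : Representation ℂ K U) (r' : Representation ℂ K U')
    (j : U →ₗ[ℂ] U') (hj : Function.Injective j) (hi : ∀ y v, j (r y v) = r' y (j v)) (a : K) (c : ℂ)
    (h : r' a = c • LinearMap.id) : r a = c • LinearMap.id := by
  ext1 v
  apply hj
  rw [hi, h]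
  simp

theorem character_mul_scalar (r : Representation ℂ K U) (a z : K) (c : ℂ) (h : r a = c • LinearMap.id) :
    r.character (a * z) = c * r.character z := by
  simp only [Representation.character, map_mul, h]
  rw [show (c • (LinearMap.id : U →ₗ[ℂ] U)) * r z = c • r z from by ext v; simp, map_smul, smul_eq_mul]

theorem scalar_norm_one [Finite K] (r : Representation ℂ K U) [Nontrivial U] (a : K) (c : ℂ) (h : r a = c • LinearMap.id) :
    ‖c‖ = 1 := by
  have h1 := (norm_character_eq_iff r a).mpr ⟨c, h⟩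
  have h2 : r.character a = c * (finrank ℂ U : ℂ) := by
    simp only [Representation.character, h]
    rw [map_smul, LinearMap.trace_id, smul_eq_mul]
  rw [h2, norm_mul, Complex.norm_natCast] at h1
  have h3 : (finrank ℂ U : ℝ) ≠ 0 := by exact_mod_cast (finrank_pos (R := ℂ) (M := U)).ne'
  exact mul_right_cancel₀ h3 (by rw [h1, one_mul])

end Cover

section Product

variable {Y : Type u} [Group Y] [Fintype Y]

open Cfsg.Agent.Lib.CharNormal in
theorem homog_of_product (A : Subgroup Y) [A.Normal] [Fintype A] {s t φ : Y → ℂ}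
    (hs : IsIrrCharacter Y s) (hsA : IsIrrCharacter A (fun a : A => s a)) (ht : IsCharacter Y t) (ht1 : t 1 ≠ 0)
    (hφ : IsIrrCharacter Y φ) (ε : ℕ) (hst : (fun y => s y * t y) = (ε : ℂ) • φ)
    (hc : ∀ a ∈ A, ∃ c : ℂ, ‖c‖ = 1 ∧ (∀ z, t (a * z) = c * t z) ∧
      ∀ ψ, IsIrrCharacter Y ψ → classInner t ψ ≠ 0 → ∀ z, ψ (a * z) = c * ψ z) :
    ∃ (e : ℕ) (ψ₀ : Y → ℂ), IsIrrCharacter Y ψ₀ ∧ classInner t ψ₀ ≠ 0 ∧ t = (e : ℂ) • ψ₀ := by
  classical
  have hiso : ∀ α β : Y → ℂ, (∀ a ∈ A, ∀ z, α (a * z) * conj (β (a * z)) = α z * conj (β z)) →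
      classInner (fun y => s y * α y) (fun y => s y * β y) = classInner α β := by
    intro α β hF
    unfold classInner
    congr 1
    rw [← sum_norm_coset A hs hsA (fun z => α z * conj (β z)) hF]
    apply Finset.sum_congr rfl
    intro z _
    rw [map_mul]
    ring
  have hF : ∀ (α β : Y → ℂ), (∀ a ∈ A, ∀ c : ℂ, ‖c‖ = 1 → (∀ z, t (a * z) = c * t z) →
      (∀ ψ, IsIrrCharacter Y ψ → classInner t ψ ≠ 0 → ∀ z, ψ (a * z) = c * ψ z) → (∀ z, α (a * z) = c * α z) ∧ ∀ z, β (a * z) = c * β z) →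
      ∀ a ∈ A, ∀ z, α (a * z) * conj (β (a * z)) = α z * conj (β z) := by
    intro α β h a ha z
    obtain ⟨c, hc1, hc2, hc3⟩ := hc a ha
    obtain ⟨h1, h2⟩ := h a ha c hc1 hc2 hc3
    rw [h1, h2, map_mul]
    have h3 : c * conj c = 1 := by
      rw [Complex.mul_conj, Complex.normSq_eq_norm_sq, hc1]
      simp
    calc c * α z * (conj c * conj (β z)) = (c * conj c) * (α z * conj (β z)) := by ring
      _ = _ := by rw [h3, one_mul]
  have hψφ : ∀ ψ, IsIrrCharacter Y ψ → classInner t ψ ≠ 0 → (fun y => s y * ψ y) = φ := by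
    intro ψ hψ hne
    have hirr : IsIrrCharacter Y (fun y => s y * ψ y) := by
      apply isIrrCharacter_of_norm_one (IsCharacter.mul (IsIrrCharacter.isCharacter hs) (IsIrrCharacter.isCharacter hψ))
      show classInner (fun y => s y * ψ y) (fun y => s y * ψ y) = 1
      rw [hiso ψ ψ (hF ψ ψ (fun a ha c h1 h2 h3 => ⟨h3 ψ hψ hne, h3 ψ hψ hne⟩)), classInner_irr_self hψ]
    by_contra hcon
    have h1 := hiso t ψ (hF t ψ (fun a ha c h1 h2 h3 => ⟨h2, h3 ψ hψ hne⟩))
    rw [hst, classInner_smul_left, classInner_irr hφ hirr, if_neg (fun h => hcon h.symm), mul_zero] at h1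
    exact hne h1.symm
  obtain ⟨ψ₀, hψ₀, hc₀⟩ := exists_constituent ht ht1
  have huniq : ∀ ψ, IsIrrCharacter Y ψ → classInner t ψ ≠ 0 → ψ = ψ₀ := by
    intro ψ hψ hne
    have h1 := hiso ψ ψ₀ (hF ψ ψ₀ (fun a ha c h1 h2 h3 => ⟨h3 ψ hψ hne, h3 ψ₀ hψ₀ hc₀⟩))
    rw [hψφ ψ hψ hne, hψφ ψ₀ hψ₀ hc₀, classInner_irr_self hφ, classInner_irr hψ hψ₀] at h1
    by_contra hcon
    rw [if_neg hcon] at h1
    exact one_ne_zero h1
  obtain ⟨n, hn⟩ := IsCharacter.classInner_irr_nat ht hψ₀
  refine ⟨n, ψ₀, hψ₀, hc₀, ?_⟩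
  have h2 := eq_smul_of_single_constituent (classFunction_of_isCharacter ht) hψ₀ (by
    intro ξ hξ hne
    by_contra h
    exact hne (huniq ξ hξ h))
  rw [hn] at h2
  exact h2

end Product

section Misc

variable {Y : Type u} [Group Y] [Fintype Y]

theorem to_coatom {χ : Y → ℂ} (hχ : IsIrrCharacter Y χ) (K : Subgroup Y) (hK : K ≠ ⊤) (ψ : K → ℂ) (hψ : IsCharacter K ψ)
    (h : indFun K ψ = χ) : ∃ (H : Subgroup Y) (ϑ : H → ℂ), IsCoatom H ∧ IsIrrCharacter H ϑ ∧ indFun H ϑ = χ := by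
  classical
  obtain ⟨H, hH, hKH⟩ := (eq_top_or_exists_le_coatom K).resolve_left hK
  have hϑ : IsCharacter H (indFun (K.subgroupOf H) (fun x => ψ ⟨(x : H), Subgroup.mem_subgroupOf.mp x.2⟩)) := by
    apply IsCharacter.ind
    exact IsCharacter.comp hψ (Subgroup.subgroupOfEquivOfLe hKH).toMonoidHom
  have h1 := indFun_trans K H hKH ψ
  refine ⟨H, _, hH, irr_of_ind H hϑ ?_, h1.trans h⟩
  rw [h1, h]
  exact hχ

theorem mem_of_norm_eq (H : Subgroup Y) {ϑ : H → ℂ} (hϑ : IsCharacter H ϑ) (h1 : ϑ 1 ≠ 0) (z : Y)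
    (hz : ‖indFun H ϑ z‖ = ‖indFun H ϑ 1‖) : z ∈ H := by
  classical
  by_contra hzH
  have hbd : ∀ y : Y, ‖extendByZero H ϑ y‖ ≤ ‖ϑ 1‖ := by
    intro y
    by_cases hy : y ∈ H
    · rw [extendByZero_of_mem _ _ hy]
      exact IsCharacter.norm_le hϑ _
    · rw [extendByZero_of_not_mem _ _ hy]
      simp
  have hlt : ∑ x : Y, ‖extendByZero H ϑ (x⁻¹ * z * x)‖ < ∑ x : Y, ‖ϑ 1‖ := by
    apply Finset.sum_lt_sum (fun x _ => hbd _)
    refine ⟨1, Finset.mem_univ _, ?_⟩
    have : ((1 : Y)⁻¹ * z * 1) = z := by simp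
    rw [this, extendByZero_of_not_mem _ _ hzH]
    simpa using h1
  have hHpos : (0 : ℝ) < Nat.card H := by exact_mod_cast Nat.card_pos
  have e1 : ‖indFun H ϑ z‖ ≤ (Nat.card H : ℝ)⁻¹ * ∑ x : Y, ‖extendByZero H ϑ (x⁻¹ * z * x)‖ := by
    rw [indFun_apply, norm_mul, norm_inv, Complex.norm_natCast]
    exact mul_le_mul_of_nonneg_left (norm_sum_le _ _) (by positivity)
  have e2 : ‖indFun H ϑ 1‖ = (Nat.card H : ℝ)⁻¹ * ∑ x : Y, ‖ϑ 1‖ := by
    rw [indFun_one_apply, norm_mul, Complex.norm_natCast, Finset.sum_const, Finset.card_univ, nsmul_eq_mul,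
      ← Nat.card_eq_fintype_card, ← H.card_mul_index]
    push_cast
    field_simp
  have e3 : (Nat.card H : ℝ)⁻¹ * ∑ x : Y, ‖extendByZero H ϑ (x⁻¹ * z * x)‖ < (Nat.card H : ℝ)⁻¹ * ∑ x : Y, ‖ϑ 1‖ :=
    mul_lt_mul_of_pos_left hlt (by positivity)
  rw [hz, e2] at e1
  linarith

end Misc

section Solv

variable {G : Type u} [Group G] (N : Subgroup G) [hN : N.Normal]
  {V : Type v} [AddCommGroup V] [Module ℂ V] [FiniteDimensional ℂ V] (ρ : Representation ℂ N V)

theorem gamma_solvable (hρ : ρ.IsIrreducible) (hs : Group.IsSolvable G) : Group.IsSolvable (gamma N ρ) := by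
  have hcomm : ∀ a b : (piG N ρ).ker, a * b = b * a := by
    intro a b
    have ha : (a : gamma N ρ).1.1 = 1 := a.2
    have hb : (b : gamma N ρ).1.1 = 1 := b.2
    obtain ⟨μ, hμ⟩ := gamma_over_N N ρ hρ (a : gamma N ρ).2 (by rw [ha]; exact N.one_mem)
    obtain ⟨ν, hν⟩ := gamma_over_N N ρ hρ (b : gamma N ρ).2 (by rw [hb]; exact N.one_mem)
    apply Subtype.ext
    apply Subtype.ext
    apply Prod.ext
    · show (a : gamma N ρ).1.1 * (b : gamma N ρ).1.1 = (b : gamma N ρ).1.1 * (a : gamma N ρ).1.1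
      rw [ha, hb]
    · apply Units.ext
      show ((a : gamma N ρ).1.2 : Module.End ℂ V) * ((b : gamma N ρ).1.2 : Module.End ℂ V) = ((b : gamma N ρ).1.2 : Module.End ℂ V) * ((a : gamma N ρ).1.2 : Module.End ℂ V)
      rw [hμ, hν]
      have e1 : ∀ (p : G × (Module.End ℂ V)ˣ) (hp : p.1 = 1) (hpN : p.1 ∈ N), ρ ⟨p.1, hpN⟩ = 1 := by
        intro p hp hpN
        have : (⟨p.1, hpN⟩ : N) = 1 := Subtype.ext hp
        rw [this, map_one]
      rw [e1 _ ha, e1 _ hb]
      ext v
      simp [smul_smul, mul_comm]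
  haveI : Group.IsSolvable (piG N ρ).ker := isSolvable_of_comm hcomm
  exact solvable_of_ker_le_range (piG N ρ).ker.subtype (piG N ρ) (by simp)

end Solv

section QP

variable {G : Type u} [Group G] [Fintype G] (N : Subgroup G) [hN : N.Normal] [Fintype N]
  {V : Type v} [AddCommGroup V] [Module ℂ V] [FiniteDimensional ℂ V] (ρ : Representation ℂ N V)
  {W : Type w} [AddCommGroup W] [Module ℂ W] [FiniteDimensional ℂ W] (σ : Representation ℂ G W)
  (hρ : ρ.IsIrreducible) (hσ : σ.IsIrreducible) (hinv : ∀ (g : G) (n : N), ρ.character (cn N g n) = ρ.character n)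
  (hne : finrank ℂ (homN N ρ σ) ≠ 0) (hdeg : finrank ℂ W = finrank ℂ (homN N ρ σ) * finrank ℂ V)

/-- The representation `ρ` at `n` is a scalar multiple of `ς` at any lift of `n`. -/
theorem rho_eq_smul_sRep (hρ : ρ.IsIrreducible) (a : gamma N ρ) (ha : piG N ρ a ∈ N) :
    ∃ c : ℂ, ρ ⟨piG N ρ a, ha⟩ = c • sRep N ρ a := by
  obtain ⟨μ, hμ⟩ := gamma_over_N N ρ hρ a.2 ha
  have hμ0 : μ ≠ 0 := by
    rintro rfl
    have hu := ((a : G × (Module.End ℂ V)ˣ).2).isUnit
    rw [hμ, zero_smul] at hu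
    haveI : Nontrivial V := ((isIrreducible_iff ρ).mp hρ).1
    exact not_isUnit_zero hu
  refine ⟨μ⁻¹, ?_⟩
  rw [sRep_apply, hμ, smul_smul, inv_mul_cancel₀ hμ0, one_smul]
  rfl

include hρ hσ hinv hne hdeg in
/-- Homogeneity of `τ` over the inverse image of a normal subgroup containing `N`. -/
theorem homog_Gamma [Fintype (gamma N ρ)] (N' : Subgroup G) [hN' : N'.Normal] (hNN' : N ≤ N') {φ₀ : N' → ℂ} (ε : ℕ)
    (hφ₀ : IsIrrCharacter N' φ₀) (hε : (fun n : N' => σ.character n) = (ε : ℂ) • φ₀)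
    [Fintype (N'.comap (piG N ρ))] :
    ∃ (e : ℕ) (ψ₀ : (N'.comap (piG N ρ)) → ℂ), IsIrrCharacter _ ψ₀ ∧
      classInner (Representation.character ((gammaRep N ρ σ).comp (N'.comap (piG N ρ)).subtype)) ψ₀ ≠ 0 ∧
      Representation.character ((gammaRep N ρ σ).comp (N'.comap (piG N ρ)).subtype) = (e : ℂ) • ψ₀ := by
  classical
  haveI hV : Nontrivial V := ((isIrreducible_iff ρ).mp hρ).1
  haveI hH : Nontrivial (homN N ρ σ) := Module.finrank_pos_iff.mp (Nat.pos_of_ne_zero hne)
  let π : gamma N ρ →* G := piG N ρ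
  have hπs : Function.Surjective π := piG_surjective N ρ hinv
  let K : Subgroup (gamma N ρ) := N'.comap π
  letI hKf : Fintype K := ‹Fintype (N'.comap (piG N ρ))›
  haveI hKn : K.Normal := Subgroup.Normal.comap hN' π
  let A : Subgroup (gamma N ρ) := N.comap π
  haveI hAn : A.Normal := Subgroup.Normal.comap hN π
  have hAK : ∀ a ∈ A, a ∈ K := fun a ha => hNN' ha
  let A' : Subgroup K := A.subgroupOf K
  haveI hA'n : A'.Normal := Subgroup.normal_subgroupOf
  haveI : Fintype A' := Fintype.ofFinite A'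
  let rS : Representation ℂ K V := (sRep N ρ).comp K.subtype
  let rT : Representation ℂ K (homN N ρ σ) := (gammaRep N ρ σ).comp K.subtype
  let f : K →* N' := π.subgroupComap N'
  have hfs : Function.Surjective f := π.subgroupComap_surjective_of_surjective N' hπs
  have hcover : ∀ n : N, ∃ a : gamma N ρ, ∃ ha : a ∈ A, ∃ c : ℂ, ρ n = c • sRep N ρ a := by
    intro n
    obtain ⟨a, ha⟩ := hπs (n : G)
    have haN : π a ∈ N := by rw [ha]; exact n.2
    obtain ⟨c, hc⟩ := rho_eq_smul_sRep N ρ hρ a haN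
    refine ⟨a, haN, c, ?_⟩
    rw [← hc]
    congr 1
    exact Subtype.ext ha.symm
  have hs : IsIrrCharacter K rS.character := by
    apply isIrrCharacter_character
    apply irr_of_cover ρ hρ
    intro n
    obtain ⟨a, ha, c, hc⟩ := hcover n
    exact ⟨⟨a, hAK a ha⟩, c, hc⟩
  have hsA : IsIrrCharacter A' (fun a : A' => rS.character a) := by
    apply isIrrCharacter_character (rS.comp A'.subtype)
    apply irr_of_cover ρ hρ
    intro n
    obtain ⟨a, ha, c, hc⟩ := hcover n
    exact ⟨⟨⟨a, hAK a ha⟩, ha⟩, c, hc⟩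
  have ht1 : rT.character 1 ≠ 0 := by
    rw [Representation.char_one]
    exact_mod_cast hne
  have hφ' : IsIrrCharacter K (φ₀ ∘ f) := IsIrrCharacter.comp_surjective hφ₀ f hfs
  have hst : (fun y => rS.character y * rT.character y) = (ε : ℂ) • (φ₀ ∘ f) := by
    funext y
    have h1 := trace_ident N ρ σ hρ hσ hinv hne hdeg (y : gamma N ρ)
    have h2 := congrFun hε (f y)
    simp only [Pi.smul_apply, smul_eq_mul, Function.comp] at h2 ⊢
    rw [← h2]
    show _ = σ.character (π y)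
    rw [h1, mul_comm]
    rfl
  have hc : ∀ a ∈ A', ∃ c : ℂ, ‖c‖ = 1 ∧ (∀ z, rT.character (a * z) = c * rT.character z) ∧
      ∀ ψ, IsIrrCharacter K ψ → classInner rT.character ψ ≠ 0 → ∀ z, ψ (a * z) = c * ψ z := by
    intro a ha
    obtain ⟨c, hc⟩ := gammaRep_scalar N ρ σ hρ (a : gamma N ρ) ha
    refine ⟨c, scalar_norm_one (gammaRep N ρ σ) _ c hc, fun z => character_mul_scalar rT a z c hc, ?_⟩
    rintro ψ ⟨n, r, hr, rfl⟩ hne' z
    obtain ⟨j, hj, hi⟩ := exists_inj r hr rT hne'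
    exact character_mul_scalar r a z c (scalar_transfer r rT j hj hi a c hc)
  exact homog_of_product A' hs hsA (isCharacter_character rT) ht1 hφ' ε hst hc

include hρ hσ hinv hne hdeg in
/-- Quasi-primitivity of `τ` along a covering homomorphism. -/
theorem qp_Y {Y : Type*} [Group Y] [Finite Y] [Finite (gamma N ρ)] (ι : Y →* gamma N ρ)
    (hcov : ∀ γ, ∃ y, ∃ a ∈ N.comap (piG N ρ), γ = ι y * a)
    (hqp : ∀ N' : Subgroup G, N'.Normal → ∃ (φ : N' → ℂ) (e : ℕ), IsIrrCharacter N' φ ∧ (fun n : N' => σ.character n) = (e : ℂ) • φ)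
    (K₁ : Subgroup Y) (hK₁ : K₁.Normal) :
    ∃ (φ : K₁ → ℂ) (e : ℕ), IsIrrCharacter K₁ φ ∧ (fun k : K₁ => (gammaRep N ρ σ).character (ι k)) = (e : ℂ) • φ := by
  classical
  haveI : Fintype (gamma N ρ) := Fintype.ofFinite _
  haveI hV : Nontrivial V := ((isIrreducible_iff ρ).mp hρ).1
  let π : gamma N ρ →* G := piG N ρ
  have hπs : Function.Surjective π := piG_surjective N ρ hinv
  let q : G →* G ⧸ N := QuotientGroup.mk' N
  let g : Y →* G ⧸ N := q.comp (π.comp ι)
  have hgs : Function.Surjective g := by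
    intro x
    obtain ⟨y₀, rfl⟩ := QuotientGroup.mk'_surjective N x
    obtain ⟨γ, rfl⟩ := hπs y₀
    obtain ⟨y, a, ha, rfl⟩ := hcov γ
    refine ⟨y, ?_⟩
    show q (π (ι y)) = q (π (ι y * a))
    rw [map_mul, map_mul]
    have : q (π a) = 1 := (QuotientGroup.eq_one_iff _).mpr ha
    rw [this, mul_one]
  haveI hgK : (K₁.map g).Normal := Subgroup.Normal.map hK₁ g hgs
  let N' : Subgroup G := (K₁.map g).comap q
  haveI hN' : N'.Normal := Subgroup.Normal.comap hgK q
  have hNN' : N ≤ N' := by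
    intro n hn
    show q n ∈ K₁.map g
    have : q n = 1 := (QuotientGroup.eq_one_iff _).mpr hn
    rw [this]
    exact Subgroup.one_mem _
  obtain ⟨φ₀, ε, hφ₀, hε⟩ := hqp N' hN'
  let K : Subgroup (gamma N ρ) := N'.comap π
  haveI : Fintype K := Fintype.ofFinite K
  obtain ⟨e, ψ₀, hψ₀, hc₀, ht⟩ := homog_Gamma N ρ σ hρ hσ hinv hne hdeg N' hNN' ε hφ₀ hε
  let rT : Representation ℂ K (homN N ρ σ) := (gammaRep N ρ σ).comp K.subtype
  have hιK : ∀ k : K₁, ι k ∈ K := fun k => ⟨k, k.2, rfl⟩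
  let f : K₁ →* K := (ι.comp K₁.subtype).codRestrict K hιK
  have hdec : ∀ z : K, ∃ k : K₁, ∃ a : K, (a : gamma N ρ) ∈ N.comap π ∧ z = f k * a := by
    intro z
    obtain ⟨k, hk, hkz⟩ := (z.2 : q (π z) ∈ K₁.map g)
    have hmem : (π (ι k))⁻¹ * π z ∈ N := by
      rw [← QuotientGroup.eq_one_iff, QuotientGroup.mk_mul, QuotientGroup.mk_inv]
      have e1 : ((π (ι k) : G) : G ⧸ N) = q (π z) := hkz
      rw [e1]
      exact inv_mul_cancel _
    have ha : ((f ⟨k, hk⟩)⁻¹ * z : K).1 ∈ N.comap π := by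
      show π ((ι k)⁻¹ * z) ∈ N
      rw [map_mul, map_inv]
      exact hmem
    exact ⟨⟨k, hk⟩, _, ha, by group⟩
  obtain ⟨n, r, hr, rfl⟩ := hψ₀
  obtain ⟨j, hj, hi⟩ := exists_inj r hr rT hc₀
  refine ⟨Representation.character (r.comp f), e, isIrrCharacter_character _ ?_, ?_⟩
  · apply irr_of_cover r hr
    intro z
    obtain ⟨k, a, ha, rfl⟩ := hdec z
    obtain ⟨c, hc⟩ := gammaRep_scalar N ρ σ hρ (a : gamma N ρ) ha
    have h2 := scalar_transfer r rT j hj hi a c hc
    refine ⟨k, c, ?_⟩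
    rw [map_mul, h2]
    ext v
    simp
  · funext k
    exact congrFun ht (f k)

end QP

end Cfsg.Agent.Lib.CharBerger2
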