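import Mathlib

/-! The `q`-power map on a finite field, as a ring automorphism, and its fixed points. -/

set_option autoImplicit false

namespace Cfsg.Agent.Lib.ChevFrob

variable {F : Type*} [Field F] [Fintype F]

theorem exists_frob {q d : ℕ} (hq : IsPrimePow q) (hd : d ≠ 0) (hF : Fintype.card F = q ^ d) :
    ∃ φ : F ≃+* F, ∀ a, φ a = a ^ q := by
  obtain ⟨p, e, hp, he, rfl⟩ := hq
  have hp' : p.Prime := Nat.prime_iff.mpr hp
  obtain ⟨p', hchar⟩ := CharP.exists F
  obtain ⟨n, hp2, hn⟩ := FiniteField.card F p'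
  have hpp : p' = p := by
    have h1 : p' ∣ Fintype.card F := by
      rw [hn]
      exact dvd_pow_self _ (Nat.pos_iff_ne_zero.mp n.2)
    rw [hF, ← pow_mul] at h1
    exact (Nat.prime_dvd_prime_iff_eq hp2 hp').mp (hp2.dvd_of_dvd_pow h1)
  subst hpp
  haveI : Fact p'.Prime := ⟨hp'⟩
  haveI : ExpChar F p' := ExpChar.prime hp'
  let f : F →+* F := iterateFrobenius F p' e
  have hf : Function.Bijective f := by
    have h1 : Function.Injective f := RingHom.injective f
    exact ⟨h1, Finite.injective_iff_surjective.mp h1⟩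
  refine ⟨RingEquiv.ofBijective f hf, fun a => ?_⟩
  show f a = _
  exact iterateFrobenius_def p' e a

theorem iterate_frob {q : ℕ} {φ : F ≃+* F} (h : ∀ a, φ a = a ^ q) (b : ℕ) (a : F) : φ^[b] a = a ^ (q ^ b) := by
  induction b with
  | zero => simp
  | succ b ih =>
    rw [Function.iterate_succ_apply', ih, h, ← pow_mul, pow_succ]

/-- Everything is fixed by the `d`-th iterate. -/
theorem iterate_top {q d : ℕ} {φ : F ≃+* F} (h : ∀ a, φ a = a ^ q) (hF : Fintype.card F = q ^ d) (a : F) : φ^[d] a = a := by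
  rw [iterate_frob h, ← hF, FiniteField.pow_card]

theorem count_top {q d : ℕ} {φ : F ≃+* F} (h : ∀ a, φ a = a ^ q) (hF : Fintype.card F = q ^ d) :
    Nat.card {a : F // φ^[d] a = a} = q ^ d := by
  rw [← hF, ← Nat.card_eq_fintype_card]
  exact Nat.card_congr (Equiv.subtypeUnivEquiv (iterate_top h hF))

/-- The number of solutions of `a ^ q = a`. -/
theorem count_one {q d : ℕ} (hq : IsPrimePow q) (hd : d ≠ 0) (hF : Fintype.card F = q ^ d) :
    Nat.card {a : F // a ^ q = a} = q := by
  classical
  have hq1 : 1 ≤ q := hq.one_lt.le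
  have hq2 := hq.one_lt
  -- units
  have hU : Nat.card (Fˣ) = q ^ d - 1 := by
    rw [Nat.card_eq_fintype_card, Fintype.card_units, hF]
  have hdvd : (q - 1) ∣ q ^ d - 1 := by
    exact Nat.sub_one_dvd_pow_sub_one q d
  have h2 : Nat.card (powMonoidHom (α := Fˣ) (q - 1)).ker = q - 1 := by
    rw [IsCyclic.card_powMonoidHom_ker, hU]
    exact Nat.gcd_eq_right hdvd
  let e : Option ↥(powMonoidHom (α := Fˣ) (q - 1)).ker → {a : F // a ^ q = a} := fun o =>
    match o with
    | none => ⟨0, by rw [zero_pow (by omega)]⟩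
    | some u => ⟨((u : Fˣ) : F), by
        have h3 : (u : Fˣ) ^ (q - 1) = 1 := u.2
        have h4 : ((u : Fˣ) : F) ^ (q - 1) = 1 := by
          have := congrArg (Units.val) h3
          simpa using this
        calc ((u : Fˣ) : F) ^ q = ((u : Fˣ) : F) ^ (q - 1) * ((u : Fˣ) : F) := by
              rw [← pow_succ, Nat.sub_add_cancel hq1]
          _ = _ := by rw [h4, one_mul]⟩
  have he : Function.Bijective e := by
    constructor
    · rintro (_ | a) (_ | b) h
      · rfl
      · exact absurd (congrArg Subtype.val h).symm (Units.ne_zero _)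
      · exact absurd (congrArg Subtype.val h) (Units.ne_zero _)
      · have h1 : ((a : Fˣ) : F) = ((b : Fˣ) : F) := congrArg Subtype.val h
        have h2 : (a : Fˣ) = (b : Fˣ) := Units.ext h1
        rw [Subtype.ext h2]
    · rintro ⟨a, ha⟩
      by_cases h0 : a = 0
      · exact ⟨none, Subtype.ext h0.symm⟩
      · refine ⟨some ⟨Units.mk0 a h0, ?_⟩, Subtype.ext rfl⟩
        show (Units.mk0 a h0) ^ (q - 1) = 1
        apply Units.ext
        rw [Units.val_pow_eq_pow_val, Units.val_mk0, Units.val_one]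
        have h5 : a ^ (q - 1) * a = 1 * a := by
          rw [← pow_succ, Nat.sub_add_cancel hq1, ha, one_mul]
        exact mul_right_cancel₀ h0 h5
  have h3 := Nat.card_congr (Equiv.ofBijective e he)
  rw [← h3, Finite.card_option, h2]
  omega

theorem count_fix_one {q d : ℕ} {φ : F ≃+* F} (h : ∀ a, φ a = a ^ q) (hq : IsPrimePow q) (hd : d ≠ 0) (hF : Fintype.card F = q ^ d) :
    Nat.card {a : F // φ^[1] a = a} = q := by
  rw [← count_one hq hd hF]
  apply Nat.card_congr
  apply Equiv.subtypeEquivRight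
  intro a
  show φ a = a ↔ _
  rw [h]

/-- The count of invertible fixed points. -/
theorem count_units (φ : F ≃+* F) (k : ℕ) :
    Nat.card {a : Fˣ // φ^[k] ((a : Fˣ) : F) = a} + 1 = Nat.card {a : F // φ^[k] a = a} := by
  classical
  have h0 : φ^[k] (0 : F) = 0 := Function.iterate_fixed (map_zero φ) k
  let e : Option {a : Fˣ // φ^[k] ((a : Fˣ) : F) = a} → {a : F // φ^[k] a = a} := fun o =>
    match o with
    | none => ⟨0, h0⟩
    | some u => ⟨((u.1 : Fˣ) : F), u.2⟩
  have he : Function.Bijective e := by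
    constructor
    · rintro (_ | a) (_ | b) h
      · rfl
      · exact absurd (congrArg Subtype.val h).symm (Units.ne_zero _)
      · exact absurd (congrArg Subtype.val h) (Units.ne_zero _)
      · have h1 : ((a.1 : Fˣ) : F) = ((b.1 : Fˣ) : F) := congrArg Subtype.val h
        have h2 : a.1 = b.1 := Units.ext h1
        rw [Subtype.ext h2]
    · rintro ⟨a, ha⟩
      by_cases h0' : a = 0
      · exact ⟨none, Subtype.ext h0'.symm⟩
      · exact ⟨some ⟨Units.mk0 a h0', ha⟩, Subtype.ext rfl⟩
  have h3 := Nat.card_congr (Equiv.ofBijective e he)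
  rw [← h3, Finite.card_option]

end Cfsg.Agent.Lib.ChevFrob
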