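import Cfsg.Agent.Lib.H4Cod
import Cfsg.Agent.Lib.BlockE14
import Cfsg.Agent.Lib.CharGal

/-! If the codegrees of a simple group are codegrees of `G` then `|S|` divides `|G|`. -/

set_option autoImplicit false

namespace Cfsg.Agent.Lib.CodS

open Cfsg Cfsg.Agent.Lib Cfsg.Agent.Lib.IrrBasic Cfsg.Agent.Lib.H4Cod Cfsg.Agent.Lib.BlockPair
open Cfsg.Agent.Lib.BlockNorm Cfsg.Agent.Lib.BlockOku

universe u

/-- Codegrees divide the order. -/
theorem cod_dvd {G : Type u} [Group G] [Fintype G] (ψ : IrrCharacter G) :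
    Nat.card G / (Nat.card {g : G // ψ.1 g = ψ.1 1} * charDegree ψ.1) ∣ Nat.card G := by
  classical
  obtain ⟨ψ', -, -, hdeg, hcard⟩ := exists_faithful ψ
  have h1 : charDegree ψ'.1 ∣ Nat.card (G ⧸ kerS ψ) := charDegree_dvd_card ψ'
  rw [hdeg] at h1
  have h2 : Nat.card {g : G // ψ.1 g = ψ.1 1} = Nat.card (kerS ψ) := rfl
  rw [h2]
  have h3 : Nat.card (kerS ψ) * charDegree ψ.1 ∣ Nat.card G := by
    rw [hcard]
    exact Nat.mul_dvd_mul_left _ h1
  exact Nat.div_dvd_of_dvd h3

theorem exists_nonprincipal (S : Type u) [Group S] [Fintype S] [Nontrivial S] :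
    ∃ χ : IrrCharacter S, χ.1 ≠ (fun _ => 1) := by
  classical
  by_contra hcon
  push Not at hcon
  have hone : ∀ χ : IrrCharacter S, χ = BlockMain4.oneIrr S := fun χ => Subtype.ext (hcon χ)
  have h1 := CharLin.sum_degree_sq (G := S)
  have h2 : ∑ χ : IrrCharacter S, χ.1 1 ^ 2 = 1 := by
    rw [Finset.sum_eq_single (BlockMain4.oneIrr S)]
    · simp [BlockMain4.oneIrr]
    · intro b _ hb
      exact absurd (hone b) hb
    · intro h
      exact absurd (Finset.mem_univ _) h
  rw [h2] at h1
  have h3 : Nat.card S = 1 := by exact_mod_cast h1.symm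
  have := Nat.card_eq_one_iff_unique.mp h3
  exact not_subsingleton S this.1

theorem s4801 {S : Type u} [Group S] [Fintype S] (hS : IsSimpleGroup S) {G : Type*} [Group G]
    [Fintype G]
    (hsub : ∀ χ : IrrCharacter S, ∃ ψ : IrrCharacter G,
      (Nat.card S / (Nat.card {g : S // χ.1 g = χ.1 1} * charDegree χ.1)) =
        (Nat.card G / (Nat.card {g : G // ψ.1 g = ψ.1 1} * charDegree ψ.1))) :
    Nat.card S ∣ Nat.card G := by
  classical
  rw [Nat.dvd_iff_prime_pow_dvd_dvd]
  intro q a hq ha
  by_cases ha0 : a = 0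
  · simp [ha0]
  have hqS : q ∣ Nat.card S := (dvd_pow_self q ha0).trans ha
  -- a nonprincipal character of degree prime to `q`
  have hex : ∃ χ : IrrCharacter S, χ.1 ≠ (fun _ => 1) ∧ ¬ q ∣ charDegree χ.1 := by
    by_contra hcon
    push Not at hcon
    haveI : Fact q.Prime := ⟨hq⟩
    have hdeg : ∀ χ : IrrCharacter S, charDegree χ.1 ≠ 1 → q ∣ charDegree χ.1 := by
      intro χ hχ
      apply hcon
      intro h
      apply hχ
      rw [h]
      simp [charDegree]
    obtain ⟨N, hNn, hNc, k, hk⟩ := s4456_aux hq hdeg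
    rcases hNn.eq_bot_or_eq_top with h | h
    · -- `S` is a `q`-group: abelian
      have hcard : Nat.card S = q ^ k := by
        subst h
        have := Subgroup.card_mul_index (⊥ : Subgroup S)
        rw [hk] at this
        simpa using this.symm
      have hPG : IsPGroup q S := IsPGroup.of_card hcard
      haveI : Nontrivial S := hS.toNontrivial
      haveI hnt := hPG.center_nontrivial
      have hcn : (Subgroup.center S).Normal := inferInstance
      rcases hcn.eq_bot_or_eq_top with hz | hz
      · rw [hz] at hnt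
        exact not_subsingleton (⊥ : Subgroup S) inferInstance
      · have hcomm : ∀ a b : S, a * b = b * a := by
          intro a b
          have : a ∈ Subgroup.center S := by rw [hz]; exact Subgroup.mem_top a
          exact (Subgroup.mem_center_iff.mp this b).symm
        obtain ⟨χ, hχ⟩ := exists_nonprincipal S
        have h1 := hcon χ hχ
        rw [show charDegree χ.1 = 1 from ?_] at h1
        · exact hq.one_lt.ne' (Nat.dvd_one.mp h1)
        · have h2 := CharLin.irr_degree_one_of_comm χ.2 hcomm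
          rw [val_one_eq_charDegree] at h2
          exact_mod_cast h2
    · subst h
      rw [Subgroup.card_top] at hNc
      exact hq.one_lt.ne' (Nat.Coprime.eq_one_of_dvd hNc.symm hqS)
  obtain ⟨χ, hχ1, hχq⟩ := hex
  obtain ⟨ψ, hψ⟩ := hsub χ
  -- `χ` is faithful
  have hk : Nat.card {g : S // χ.1 g = χ.1 1} = 1 := by
    have hnorm : (kerS χ).Normal := inferInstance
    rcases hnorm.eq_bot_or_eq_top with h | h
    · have : Nat.card {g : S // χ.1 g = χ.1 1} = Nat.card (kerS χ) := rfl
      rw [this, h]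
      simp
    · exfalso
      apply hχ1
      have hall : ∀ g, χ.1 g = χ.1 1 := by
        intro g
        have : g ∈ kerS χ := by rw [h]; exact Subgroup.mem_top g
        exact this
      have hsum := CharGal.sum_norm_sq_irr χ.2
      simp only [hall] at hsum
      rw [Finset.sum_const, Finset.card_univ, nsmul_eq_mul, ← Nat.card_eq_fintype_card] at hsum
      have hpos : (0 : ℝ) < Nat.card S := by exact_mod_cast Nat.card_pos
      have h1 : ‖χ.1 1‖ ^ 2 = 1 := by
        have : (Nat.card S : ℝ) * ‖χ.1 1‖ ^ 2 = (Nat.card S : ℝ) * 1 := by rw [hsum, mul_one]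
        exact mul_left_cancel₀ hpos.ne' this
      have h2 : χ.1 1 = 1 := by
        rw [val_one_eq_charDegree] at h1 ⊢
        rw [Complex.norm_natCast] at h1
        have h3 : (charDegree χ.1 : ℝ) = 1 := by
          have h4 : (0 : ℝ) ≤ (charDegree χ.1 : ℝ) := Nat.cast_nonneg _
          nlinarith
        have h5 : charDegree χ.1 = 1 := by exact_mod_cast h3
        rw [h5]
        simp
      funext g
      rw [hall g, h2]
  rw [hk, one_mul] at hψ
  have h1 : charDegree χ.1 ∣ Nat.card S := charDegree_dvd_card χ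
  have h2 : q ^ a ∣ Nat.card S / charDegree χ.1 := by
    have hcop : Nat.Coprime (q ^ a) (charDegree χ.1) :=
      Nat.Coprime.pow_left _ ((Nat.Prime.coprime_iff_not_dvd hq).mpr hχq)
    obtain ⟨m, hm⟩ := h1
    rw [hm, Nat.mul_div_cancel_left _ (Nat.pos_of_ne_zero (charDegree_ne_zero' χ))]
    rw [hm] at ha
    exact hcop.dvd_of_dvd_mul_left ha
  rw [hψ] at h2
  exact h2.trans (cod_dvd ψ)

end Cfsg.Agent.Lib.CodS
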