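import Cfsg.Agent.Lib.Lin70
import Cfsg.Agent.Lib.FSRoots
import Cfsg.Agent.Lib.H1Core

/-! A column condition: `χ(1) - χ(u) = c` or `χ(u) = 0`. -/

set_option autoImplicit false

namespace Cfsg.Agent.Lib.Col4757

open Cfsg Cfsg.Agent.Lib Cfsg.Agent.Lib.BlockOku Cfsg.Agent.Lib.IrrBasic
open Cfsg.Agent.Lib.CharBasic Cfsg.Agent.Lib.CharOrth Cfsg.Agent.Lib.CharAlg
open Cfsg.Agent.Lib.CharLin Cfsg.Agent.Lib.H1Core
open scoped ComplexConjugate commutatorElement Pointwise

universe u

variable {G : Type u} [Group G] [Fintype G]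

local notation "one" => BlockMain4.oneIrr G

theorem one_apply (g : G) : (BlockMain4.oneIrr G).1 g = 1 := rfl

theorem eq_one_of_fun (χ : IrrCharacter G) (h : ∀ g, χ.1 g = 1) : χ = BlockMain4.oneIrr G :=
  Subtype.ext (funext h)

theorem val_one_nat (χ : IrrCharacter G) : χ.1 1 = (charDegree χ.1 : ℂ) := val_one_eq_charDegree χ

theorem degree_pos (χ : IrrCharacter G) : 1 ≤ charDegree χ.1 :=
  Nat.pos_of_ne_zero (charDegree_ne_zero' χ)

theorem sum_t (u : G) (hu : u ≠ 1) : ∑ χ : IrrCharacter G, ((χ.1 1 * χ.1 u).re) = 0 := by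
  have h1 := sum_degree_mul u
  rw [if_neg hu] at h1
  have h2 := congrArg Complex.re h1
  rw [Complex.re_sum] at h2
  exact h2

/-- No positivity: some nontrivial character has negative `t`. -/
theorem exists_neg (u : G) (hu : u ≠ 1) :
    ∃ χ : IrrCharacter G, χ ≠ BlockMain4.oneIrr G ∧ (χ.1 1 * χ.1 u).re < 0 := by
  by_contra hcon
  push Not at hcon
  have h1 := sum_t u hu
  rw [← Finset.add_sum_erase _ _ (Finset.mem_univ (BlockMain4.oneIrr G))] at h1
  have h2 : 0 ≤ ∑ χ ∈ Finset.univ.erase (BlockMain4.oneIrr G), (χ.1 1 * χ.1 u).re :=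
    Finset.sum_nonneg fun χ hχ => hcon χ (Finset.mem_erase.mp hχ).1
  have h3 : ((BlockMain4.oneIrr G).1 1 * (BlockMain4.oneIrr G).1 u).re = 1 := by
    simp [one_apply]
  linarith

section hyp

variable (u : G) (hu : u ≠ 1) (c : ℂ)
  (hyp : ∀ χ : IrrCharacter G, (χ : G → ℂ) ≠ (fun _ => (1 : ℂ)) →
    ((χ : G → ℂ) 1 - (χ : G → ℂ) u = c ∨ (χ : G → ℂ) u = 0))

include hu hyp

theorem hyp' (χ : IrrCharacter G) (hχ : χ ≠ BlockMain4.oneIrr G) (h : χ.1 u ≠ 0) :
    χ.1 u = χ.1 1 - c := by
  rcases hyp χ (fun h0 => hχ (Subtype.ext h0)) with h1 | h1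
  · rw [← h1]; ring
  · exact absurd h1 h

/-- `c = 0` is impossible. -/
theorem c_ne_zero : c ≠ 0 := by
  rintro rfl
  obtain ⟨χ, hχ, hneg⟩ := exists_neg u hu
  by_cases h0 : χ.1 u = 0
  · rw [h0] at hneg
    simp at hneg
  · rw [hyp' u hu 0 hyp χ hχ h0, sub_zero, val_one_nat] at hneg
    rw [← Nat.cast_mul] at hneg
    simp only [Complex.natCast_re] at hneg
    have : (0 : ℝ) ≤ ((charDegree χ.1 * charDegree χ.1 : ℕ) : ℝ) := Nat.cast_nonneg _
    linarith

theorem perfect_of_two (h2 : c = 2) : commutator G ≠ ⊤ := by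
  intro htop
  have hlin : ∀ χ : IrrCharacter G, χ ≠ BlockMain4.oneIrr G → 2 ≤ charDegree χ.1 := by
    intro χ hχ
    by_contra hlt
    have h1 : charDegree χ.1 = 1 := by
      have := degree_pos χ
      omega
    have h2 : χ.1 1 = 1 := by rw [val_one_nat, h1, Nat.cast_one]
    apply hχ
    apply eq_one_of_fun
    intro g
    exact Lin70.val_eq_one_of_linear χ h2 g (by rw [htop]; exact Subgroup.mem_top g)
  obtain ⟨χ, hχ, hneg⟩ := exists_neg u hu
  by_cases h0 : χ.1 u = 0
  · rw [h0] at hneg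
    simp at hneg
  · rw [hyp' u hu c hyp χ hχ h0, h2, val_one_nat] at hneg
    have hd := hlin χ hχ
    obtain ⟨e, he⟩ : ∃ e, charDegree χ.1 = e + 2 := ⟨charDegree χ.1 - 2, by omega⟩
    rw [he] at hneg
    have h3 : (((e + 2 : ℕ) : ℂ) * (((e + 2 : ℕ) : ℂ) - 2)) = (((e + 2) * e : ℕ) : ℂ) := by
      push_cast
      ring
    rw [h3, Complex.natCast_re] at hneg
    have : (0 : ℝ) ≤ (((e + 2) * e : ℕ) : ℝ) := Nat.cast_nonneg _
    linarith

theorem norm_linear_val (χ : IrrCharacter G) (h1 : χ.1 1 = 1) (g : G) : ‖χ.1 g‖ = 1 := by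
  obtain ⟨lam, hlam⟩ := exists_hom_of_linear (IsIrrCharacter.isCharacter χ.2) h1
  have h2 : (χ.1 g) ^ orderOf g = 1 := by
    rw [hlam]
    show ((lam g : ℂˣ) : ℂ) ^ orderOf g = 1
    rw [← Units.val_pow_eq_pow_val, ← map_pow, pow_orderOf_eq_one, map_one, Units.val_one]
  exact Complex.norm_eq_one_of_pow_eq_one h2 (orderOf_pos g).ne'

theorem linear_val (hc : commutator G ≠ ⊤) (χ : IrrCharacter G) (hχ : χ ≠ BlockMain4.oneIrr G)
    (h1 : χ.1 1 = 1) : c = 2 ∧ χ.1 u = -1 := by
  have hn := norm_linear_val u hu c hyp χ h1 u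
  have hne : χ.1 u ≠ 0 := by
    intro h0
    rw [h0, norm_zero] at hn
    exact zero_ne_one hn
  have h2 := hyp' u hu c hyp χ hχ hne
  rw [h1] at h2
  -- the conjugate character
  have hcχ : CharPerm.conjIrr χ ≠ BlockMain4.oneIrr G := by
    intro h0
    apply hχ
    apply eq_one_of_fun
    intro g
    have h3 := congrFun (congrArg Subtype.val h0) g
    have h4 : conj (χ.1 g) = 1 := by
      rw [← CharPerm.conjIrr_apply]
      exact h3
    rw [← Complex.conj_conj (χ.1 g), h4, map_one]
  have h3 := hyp' u hu c hyp (CharPerm.conjIrr χ) hcχ (by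
    rw [CharPerm.conjIrr_apply]
    exact (map_ne_zero _).mpr hne)
  rw [CharPerm.conjIrr_apply, CharPerm.conjIrr_apply, h1, map_one] at h3
  have h4 : conj (χ.1 u) = χ.1 u := by rw [h3, h2]
  have h5 : (χ.1 u).im = 0 := Complex.conj_eq_iff_im.mp h4
  have h6 : χ.1 u = ((χ.1 u).re : ℂ) := by
    apply Complex.ext <;> simp [h5]
  have h7 : |(χ.1 u).re| = 1 := by
    rw [h6, Complex.norm_real, Real.norm_eq_abs] at hn
    exact hn
  rcases abs_eq (zero_le_one) |>.mp h7 with h8 | h8
  · exfalso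
    rw [h8] at h6
    have h9 : c = 0 := by
      rw [h6] at h2
      simp only [Complex.ofReal_one] at h2
      linear_combination h2
    exact c_ne_zero u hu c hyp h9
  · rw [h8] at h6
    simp only [Complex.ofReal_neg, Complex.ofReal_one] at h6
    refine ⟨?_, h6⟩
    rw [h6] at h2
    linear_combination h2

theorem exists_linear (hc : commutator G ≠ ⊤) :
    ∃ χ : IrrCharacter G, χ ≠ BlockMain4.oneIrr G ∧ χ.1 1 = 1 := by
  classical
  have h1 := card_linear (G := G)
  have h2 : (commutator G).index ≠ 1 := fun h => hc (Subgroup.index_eq_one.mp h)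
  rw [← h1] at h2
  haveI : Nonempty {χ : IrrCharacter G // (χ : G → ℂ) 1 = 1} := ⟨⟨BlockMain4.oneIrr G, rfl⟩⟩
  have h3 : Nontrivial {χ : IrrCharacter G // (χ : G → ℂ) 1 = 1} := by
    rw [← not_subsingleton_iff_nontrivial]
    intro hs
    exact h2 (Nat.card_of_subsingleton (⟨BlockMain4.oneIrr G, rfl⟩ : {χ : IrrCharacter G // (χ : G → ℂ) 1 = 1}))
  obtain ⟨a, b, hab⟩ := h3
  by_cases ha : a.1 = BlockMain4.oneIrr G
  · refine ⟨b.1, ?_, b.2⟩
    intro hb
    exact hab (Subtype.ext (ha.trans hb.symm))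
  · exact ⟨a.1, ha, a.2⟩

theorem linear_unique (hc : commutator G ≠ ⊤) (χ μ : IrrCharacter G)
    (hχ : χ ≠ BlockMain4.oneIrr G) (h1 : χ.1 1 = 1) (hμ : μ ≠ BlockMain4.oneIrr G) (h2 : μ.1 1 = 1) :
    χ = μ := by
  by_contra hne
  obtain ⟨lam, hlam⟩ := exists_hom_of_linear (IsIrrCharacter.isCharacter χ.2) h1
  obtain ⟨mu, hmu⟩ := exists_hom_of_linear (IsIrrCharacter.isCharacter μ.2) h2
  let ν : IrrCharacter G := ⟨fun g => ((lam * mu⁻¹) g : ℂˣ), isIrrCharacter_of_hom (lam * mu⁻¹)⟩
  have hν : ∀ g, ν.1 g = χ.1 g * (μ.1 g)⁻¹ := by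
    intro g
    rw [hlam, hmu]
    show (((lam * mu⁻¹) g : ℂˣ) : ℂ) = _
    simp
  have hν1 : ν.1 1 = 1 := by simp [hν, h1, h2]
  have hνne : ν ≠ BlockMain4.oneIrr G := by
    intro h0
    apply hne
    apply Subtype.ext
    funext g
    have h3 := hν g
    have h4 : ν.1 g = 1 := by rw [h0]; rfl
    rw [h4] at h3
    have h5 : μ.1 g ≠ 0 := by
      intro h6
      have := norm_linear_val u hu c hyp μ h2 g
      rw [h6, norm_zero] at this
      exact zero_ne_one this
    field_simp at h3
    exact h3.symm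
  have h3 := (linear_val u hu c hyp hc χ hχ h1).2
  have h4 := (linear_val u hu c hyp hc μ hμ h2).2
  have h5 := (linear_val u hu c hyp hc ν hνne hν1).2
  rw [hν, h3, h4] at h5
  norm_num at h5

/-- Only two characters are nonzero on `u`, so `|C(u)| = 2`. -/
theorem card_centralizer (hc : commutator G ≠ ⊤) :
    Nat.card (Subgroup.centralizer ({u} : Set G)) = 2 := by
  classical
  obtain ⟨l, hl, hl1⟩ := exists_linear u hu c hyp hc
  obtain ⟨h2, hlu⟩ := linear_val u hu c hyp hc l hl hl1
  have hzero : ∀ χ : IrrCharacter G, χ ≠ BlockMain4.oneIrr G → χ ≠ l → χ.1 u = 0 := by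
    have hnn : ∀ χ ∈ (Finset.univ.erase (BlockMain4.oneIrr G)).erase l, 0 ≤ (χ.1 1 * χ.1 u).re := by
      intro χ hχ
      have h3 := (Finset.mem_erase.mp hχ).1
      have h4 := (Finset.mem_erase.mp (Finset.mem_erase.mp hχ).2).1
      by_cases h0 : χ.1 u = 0
      · simp [h0]
      · rw [hyp' u hu c hyp χ h4 h0, h2, val_one_nat]
        have hd : 2 ≤ charDegree χ.1 := by
          by_contra hlt
          have h5 : charDegree χ.1 = 1 := by
            have := degree_pos χ
            omega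
          exact h3 (linear_unique u hu c hyp hc χ l h4 (by rw [val_one_nat, h5, Nat.cast_one]) hl hl1)
        obtain ⟨e, he⟩ : ∃ e, charDegree χ.1 = e + 2 := ⟨charDegree χ.1 - 2, by omega⟩
        rw [he]
        have h6 : (((e + 2 : ℕ) : ℂ) * (((e + 2 : ℕ) : ℂ) - 2)) = (((e + 2) * e : ℕ) : ℂ) := by
          push_cast
          ring
        rw [h6, Complex.natCast_re]
        exact Nat.cast_nonneg _
    have hsum := sum_t u hu
    rw [← Finset.add_sum_erase _ _ (Finset.mem_univ (BlockMain4.oneIrr G)),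
      ← Finset.add_sum_erase _ _ (Finset.mem_erase.mpr ⟨hl, Finset.mem_univ l⟩)] at hsum
    have h3 : ((BlockMain4.oneIrr G).1 1 * (BlockMain4.oneIrr G).1 u).re = 1 := by
      simp [one_apply]
    have h4 : (l.1 1 * l.1 u).re = -1 := by
      rw [hl1, hlu]
      simp
    rw [h3, h4] at hsum
    have h5 : ∑ χ ∈ (Finset.univ.erase (BlockMain4.oneIrr G)).erase l, (χ.1 1 * χ.1 u).re = 0 := by
      linarith
    have h6 := (Finset.sum_eq_zero_iff_of_nonneg hnn).mp h5
    intro χ hχ hχl
    by_contra h0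
    have h7 := h6 χ (Finset.mem_erase.mpr ⟨hχl, Finset.mem_erase.mpr ⟨hχ, Finset.mem_univ χ⟩⟩)
    have hval := hyp' u hu c hyp χ hχ h0
    rw [hval, h2, val_one_nat] at h7
    have hd : 2 ≤ charDegree χ.1 := by
      by_contra hlt
      have h8 : charDegree χ.1 = 1 := by
        have := degree_pos χ
        omega
      exact hχl (linear_unique u hu c hyp hc χ l hχ (by rw [val_one_nat, h8, Nat.cast_one]) hl hl1)
    obtain ⟨e, he⟩ : ∃ e, charDegree χ.1 = e + 2 := ⟨charDegree χ.1 - 2, by omega⟩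
    rw [he] at h7
    have h9 : (((e + 2 : ℕ) : ℂ) * (((e + 2 : ℕ) : ℂ) - 2)) = (((e + 2) * e : ℕ) : ℂ) := by
      push_cast
      ring
    rw [h9, Complex.natCast_re] at h7
    have h10 : (e + 2) * e = 0 := by exact_mod_cast h7
    have h11 : e = 0 := by
      rcases Nat.mul_eq_zero.mp h10 with h | h
      · omega
      · exact h
    apply h0
    rw [hval, h2, val_one_nat, he, h11]
    simp
  have h3 := sum_irr_val_mul_conj u u
  rw [if_pos (IsConj.refl u), ← Finset.add_sum_erase _ _ (Finset.mem_univ (BlockMain4.oneIrr G)),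
    ← Finset.add_sum_erase _ _ (Finset.mem_erase.mpr ⟨hl, Finset.mem_univ l⟩)] at h3
  have h4 : ∑ χ ∈ (Finset.univ.erase (BlockMain4.oneIrr G)).erase l, χ.1 u * conj (χ.1 u) = 0 := by
    apply Finset.sum_eq_zero
    intro χ hχ
    rw [hzero χ (Finset.mem_erase.mp (Finset.mem_erase.mp hχ).2).1 (Finset.mem_erase.mp hχ).1, zero_mul]
  rw [h4, hlu, one_apply] at h3
  have h5 : (Nat.card (Subgroup.centralizer ({u} : Set G)) : ℂ) = 2 := by
    rw [← h3]
    simp
    norm_num
  exact_mod_cast h5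

theorem structure_of_ne (hc : commutator G ≠ ⊤) :
    orderOf u = 2 ∧ Subgroup.zpowers u ⊔ oddCore G = ⊤ ∧
      Subgroup.centralizer ({u} : Set G) = Subgroup.zpowers u := by
  classical
  haveI : Fact (Nat.Prime 2) := ⟨Nat.prime_two⟩
  have hcard := card_centralizer u hu c hyp hc
  set C := Subgroup.centralizer ({u} : Set G) with hC
  have huC : u ∈ C := by rw [hC, Subgroup.mem_centralizer_singleton_iff]
  -- elements of `C`
  have hC2 : ∀ x ∈ C, x = 1 ∨ x = u := by
    intro x hx
    by_contra hne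
    push Not at hne
    have h1 : ({1, u, x} : Finset G).card ≤ Nat.card C := by
      have hfin : Nat.card C = (Finset.univ.filter (· ∈ C)).card := by
        rw [Nat.card_eq_fintype_card, Fintype.card_subtype]
      rw [hfin]
      apply Finset.card_le_card
      intro y hy
      simp only [Finset.mem_insert, Finset.mem_singleton] at hy
      simp only [Finset.mem_filter, Finset.mem_univ, true_and]
      rcases hy with rfl | rfl | rfl
      · exact C.one_mem
      · exact huC
      · exact hx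
    have h2 : ({1, u, x} : Finset G).card = 3 := by
      rw [Finset.card_insert_of_notMem, Finset.card_insert_of_notMem, Finset.card_singleton]
      · simpa using hne.2.symm
      · simp only [Finset.mem_insert, Finset.mem_singleton, not_or]
        exact ⟨hu.symm, hne.1.symm⟩
    rw [h2, hcard] at h1
    omega
  have hord : orderOf u = 2 := by
    apply orderOf_eq_prime _ hu
    rcases hC2 (u ^ 2) (C.pow_mem huC 2) with h | h
    · exact h
    · exfalso
      apply hu
      have : u * u = u * 1 := by rw [mul_one, ← sq, h]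
      exact mul_left_cancel this
  have hCz : C = Subgroup.zpowers u := by
    symm
    apply Subgroup.eq_of_le_of_card_ge
    · rw [Subgroup.zpowers_le]
      exact huC
    · rw [hcard, Nat.card_zpowers, hord]
  refine ⟨hord, ?_, hCz⟩
  -- the Sylow `2`-subgroup has order two
  have hzp : IsPGroup 2 (Subgroup.zpowers u) := by
    apply IsPGroup.of_card (n := 1)
    rw [Nat.card_zpowers, hord, pow_one]
  obtain ⟨P, hP⟩ := hzp.exists_le_sylow
  have huP : u ∈ (P : Subgroup G) := hP (Subgroup.mem_zpowers u)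
  haveI hPnt : Nontrivial (P : Subgroup G) :=
    ⟨⟨⟨u, huP⟩, 1, fun h => hu (congrArg Subtype.val h)⟩⟩
  haveI hcn := P.2.center_nontrivial
  obtain ⟨z, hz⟩ := exists_ne (1 : Subgroup.center (P : Subgroup G))
  have hzC : (((z : (P : Subgroup G)) : G)) ∈ C := by
    rw [hC, Subgroup.mem_centralizer_singleton_iff]
    have h1 := Subgroup.mem_center_iff.mp z.2 ⟨u, huP⟩
    exact (congrArg Subtype.val h1).symm
  have hzu : ((z : (P : Subgroup G)) : G) = u := by
    rcases hC2 _ hzC with h | h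
    · exfalso
      apply hz
      apply Subtype.ext
      apply Subtype.ext
      exact h
    · exact h
  have hPC : (P : Subgroup G) ≤ C := by
    intro y hy
    rw [hC, Subgroup.mem_centralizer_singleton_iff]
    have h1 := Subgroup.mem_center_iff.mp z.2 ⟨y, hy⟩
    have h2 := congrArg Subtype.val h1
    simp only [Subgroup.coe_mul, MulMemClass.coe_mul] at h2
    rw [hzu] at h2
    exact h2
  have hcardP : Nat.card (P : Subgroup G) = 2 := by
    have h1 : (P : Subgroup G) = C := by
      apply le_antisymm hPC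
      rw [hCz]
      exact hP
    rw [h1, hcard]
  -- no `4` divides the order
  have hno4 : ¬ 4 ∣ Nat.card G := by
    intro h4
    have h1 := Subgroup.index_mul_card (P : Subgroup G)
    rw [hcardP] at h1
    rw [← h1] at h4
    apply P.not_dvd_index
    omega
  -- the commutator subgroup has index two
  obtain ⟨l, hl, hl1⟩ := exists_linear u hu c hyp hc
  obtain ⟨-, hlu⟩ := linear_val u hu c hyp hc l hl hl1
  have hidx : (commutator G).index = 2 := by
    rw [← card_linear, Nat.card_eq_two_iff]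
    refine ⟨⟨BlockMain4.oneIrr G, rfl⟩, ⟨l, hl1⟩, ?_, ?_⟩
    · intro h
      exact hl (congrArg Subtype.val h).symm
    · ext a
      simp only [Set.mem_insert_iff, Set.mem_singleton_iff, Set.mem_univ, iff_true]
      by_cases ha : a.1 = BlockMain4.oneIrr G
      · left
        exact Subtype.ext ha
      · right
        exact Subtype.ext (linear_unique u hu c hyp hc a.1 l ha a.2 hl hl1)
  have hcardG : 2 * Nat.card (commutator G) = Nat.card G := by
    have := Subgroup.index_mul_card (commutator G)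
    rwa [hidx] at this
  have hodd : (Nat.card (commutator G)).Coprime 2 := by
    rw [Nat.coprime_two_right]
    rw [← Nat.not_even_iff_odd, even_iff_two_dvd]
    intro h2
    apply hno4
    rw [← hcardG]
    obtain ⟨k, hk⟩ := h2
    exact ⟨k, by rw [hk]; ring⟩
  have hcO : commutator G ≤ oddCore G := le_pPrimeCore inferInstance hodd
  have huG : u ∉ commutator G := by
    intro h
    have := Lin70.val_eq_one_of_linear l hl1 u h
    rw [hlu] at this
    norm_num at this
  set H := Subgroup.zpowers u ⊔ oddCore G with hH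
  have hGH : commutator G ≤ H := hcO.trans le_sup_right
  have huH : u ∈ H := Subgroup.mem_sup_left (Subgroup.mem_zpowers u)
  have hdvd : H.index ∣ 2 := by
    rw [← hidx]
    exact Subgroup.index_dvd_of_le hGH
  rcases (Nat.dvd_prime Nat.prime_two).mp hdvd with h | h
  · exact Subgroup.index_eq_one.mp h
  · exfalso
    apply huG
    have hcardH : 2 * Nat.card H = Nat.card G := by
      have := Subgroup.index_mul_card H
      rwa [h] at this
    have h1 : commutator G = H := by
      apply Subgroup.eq_of_le_of_card_ge hGH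
      omega
    rw [h1]
    exact huH

end hyp

theorem s4757 (u : G) (hu : u ≠ 1) (c : ℂ)
    (hyp : ∀ χ : IrrCharacter G, (χ : G → ℂ) ≠ (fun _ => (1 : ℂ)) →
      ((χ : G → ℂ) 1 - (χ : G → ℂ) u = c ∨ (χ : G → ℂ) u = 0)) :
    ((orderOf u = 2 ∧ Subgroup.zpowers u ⊔ oddCore G = ⊤ ∧
        Subgroup.centralizer ({u} : Set G) = Subgroup.zpowers u) ↔ commutator G ≠ ⊤) ∧
      (commutator G ≠ ⊤ ↔ c = 2) := by
  classical
  refine ⟨⟨?_, structure_of_ne u hu c hyp⟩, ⟨fun hc => ?_, perfect_of_two u hu c hyp⟩⟩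
  · rintro ⟨hord, hgen, -⟩ htop
    -- `G / O(G)` is generated by the image of `u`
    haveI hO : (oddCore G).Normal := pPrimeCore_normal 2 G
    have hle : commutator G ≤ oddCore G := by
      rw [commutator_def, Subgroup.commutator_le]
      intro a _ b _
      have hmem : ∀ g : G, ∃ k : ℤ, ((g : G ⧸ oddCore G)) = (u : G ⧸ oddCore G) ^ k := by
        intro g
        have h1 : g ∈ ((Subgroup.zpowers u : Set G) * (oddCore G : Set G)) := by
          rw [← Subgroup.mul_normal, hgen]
          trivial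
        obtain ⟨x, hx, o, ho, rfl⟩ := Set.mem_mul.mp h1
        obtain ⟨k, rfl⟩ := Subgroup.mem_zpowers_iff.mp hx
        refine ⟨k, ?_⟩
        have h2 : ((o : G) : G ⧸ oddCore G) = 1 := (QuotientGroup.eq_one_iff o).mpr ho
        show ((u ^ k * o : G) : G ⧸ oddCore G) = _
        rw [QuotientGroup.mk_mul, h2, mul_one, QuotientGroup.mk_zpow]
      obtain ⟨k, hk⟩ := hmem a
      obtain ⟨l, hl⟩ := hmem b
      rw [← QuotientGroup.eq_one_iff, commutatorElement_def, QuotientGroup.mk_mul, QuotientGroup.mk_mul,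
        QuotientGroup.mk_mul, QuotientGroup.mk_inv, QuotientGroup.mk_inv, hk, hl, ← zpow_neg, ← zpow_neg,
        ← zpow_add, ← zpow_add, ← zpow_add]
      convert zpow_zero _ using 2
      ring
    have h1 : oddCore G = ⊤ := top_le_iff.mp (htop ▸ hle)
    have h2 : (Nat.card (oddCore G)).Coprime 2 := pPrimeCore_coprime 2
    have h3 : u ∈ oddCore G := by rw [h1]; trivial
    have h4 := Subgroup.orderOf_dvd_natCard _ h3
    rw [hord] at h4
    have h5 := Nat.Coprime.eq_one_of_dvd h2.symm h4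
    omega
  · obtain ⟨l, hl, hl1⟩ := exists_linear u hu c hyp hc
    exact (linear_val u hu c hyp hc l hl hl1).1

end Cfsg.Agent.Lib.Col4757
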