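import Mathlib
/-!
Elementary facts on pairs of involutions.
-/
set_option autoImplicit false

namespace Cfsg.Agent.Lib.Dih

variable {G : Type*} [Group G] {a b : G}

theorem inv_of_sq {a : G} (h : a * a = 1) : a⁻¹ = a := inv_eq_of_mul_eq_one_left h

theorem sq_of_order {a : G} (h : orderOf a = 2) : a * a = 1 := by
  rw [← pow_two, ← h, pow_orderOf_eq_one]

/-- the two involutions invert the powers of their product -/
theorem dinv (ha : a * a = 1) (hb : b * b = 1) (j : ℕ) : a * (a * b) ^ j * a = ((a * b) ^ j)⁻¹ := by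
  have h1 : a * (a * b) * a = (a * b)⁻¹ := by
    rw [mul_inv_rev, inv_of_sq ha, inv_of_sq hb, ← mul_assoc, ha, one_mul]
  rw [show a * (a * b) ^ j * a = a * (a * b) ^ j * a⁻¹ by rw [inv_of_sq ha], ← conj_pow, inv_of_sq ha, h1,
    inv_pow]

theorem dinv' (ha : a * a = 1) (hb : b * b = 1) (j : ℕ) : b * (a * b) ^ j * b = ((a * b) ^ j)⁻¹ := by
  have h1 : b * (a * b) * b = (a * b)⁻¹ := by
    rw [mul_inv_rev, inv_of_sq ha, inv_of_sq hb, mul_assoc, mul_assoc, hb, mul_one]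
  rw [show b * (a * b) ^ j * b = b * (a * b) ^ j * b⁻¹ by rw [inv_of_sq hb], ← conj_pow, inv_of_sq hb, h1,
    inv_pow]

/-- the reflections in a conjugation closed set -/
theorem dih_mem {D : Set G} (hconj : ∀ g : G, ∀ d ∈ D, g * d * g⁻¹ ∈ D) (hDa : a ∈ D) (hDb : b ∈ D)
    (ha : a * a = 1) (hb : b * b = 1) : ∀ j : ℕ, a * (a * b) ^ j ∈ D := by
  intro j
  induction j using Nat.twoStepInduction with
  | zero => simpa using hDa
  | one =>
    rw [pow_one, ← mul_assoc, ha, one_mul]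
    exact hDb
  | more j ih _ =>
    have := hconj (a * b)⁻¹ _ ih
    have e : (a * b)⁻¹ * (a * (a * b) ^ j) * ((a * b)⁻¹)⁻¹ = a * (a * b) ^ (j + 2) := by
      have h1 : (a * b)⁻¹ = b * a := by rw [mul_inv_rev, inv_of_sq ha, inv_of_sq hb]
      rw [inv_inv, h1]
      have h2 : (a * b) ^ j * (a * b) = (a * b) * (a * b) ^ j := (pow_succ _ _).symm.trans (pow_succ' _ _)
      calc b * a * (a * (a * b) ^ j) * (a * b) = b * (a * a) * ((a * b) ^ j * (a * b)) := by simp only [mul_assoc]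
        _ = b * ((a * b) ^ j * (a * b)) := by rw [ha, mul_one]
        _ = (a * a) * b * ((a * b) ^ j * (a * b)) := by rw [ha, one_mul]
        _ = a * (a * b) * ((a * b) ^ j * (a * b)) := by rw [mul_assoc a a b]
        _ = a * ((a * b) * (a * b) ^ j * (a * b)) := by simp only [mul_assoc]
        _ = a * ((a * b) ^ j * (a * b) * (a * b)) := by rw [← h2]
        _ = a * (a * b) ^ (j + 2) := by rw [pow_succ, pow_succ, mul_assoc]
    rwa [e] at this

/-- conjugate involutions when the order of the product is odd -/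
theorem exists_conj_of_odd (ha : a * a = 1) (hb : b * b = 1) (h : Odd (orderOf (a * b))) :
    ∃ g : G, g * a * g⁻¹ = b := by
  obtain ⟨k, hk⟩ := h
  set x := a * b with hx
  refine ⟨(x ^ (k + 1))⁻¹, ?_⟩
  have h1 := dinv ha hb (k + 1)
  rw [← hx] at h1
  have h2 : x ^ (2 * k + 1) = 1 := by
    rw [← hk, pow_orderOf_eq_one]
  calc (x ^ (k + 1))⁻¹ * a * (x ^ (k + 1))⁻¹⁻¹ = (a * x ^ (k + 1) * a) * a * x ^ (k + 1) := by rw [inv_inv, h1]
    _ = a * x ^ (k + 1) * (a * a) * x ^ (k + 1) := by group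
    _ = a * (x ^ (k + 1) * x ^ (k + 1)) := by rw [ha]; group
    _ = a * (x ^ (2 * k + 1) * x) := by rw [← pow_add, ← pow_succ]; congr 2; ring
    _ = b := by rw [h2, one_mul, hx, ← mul_assoc, ha, one_mul]

theorem commute_of_sq (ha : a * a = 1) (hb : b * b = 1) (h : (a * b) ^ 2 = 1) : Commute a b := by
  show a * b = b * a
  have h1 : (a * b) * (a * b) = 1 := by rw [← pow_two, h]
  have h2 : a * b = (a * b)⁻¹ := (inv_of_sq h1).symm
  rw [h2, mul_inv_rev, inv_of_sq ha, inv_of_sq hb]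

theorem sq_of_commute (ha : a * a = 1) (hb : b * b = 1) (h : Commute a b) : (a * b) ^ 2 = 1 := by
  rw [h.mul_pow, pow_two, pow_two, ha, hb, one_mul]

theorem conj_even (ha : a * a = 1) (hb : b * b = 1) (j : ℕ) :
    ((a * b) ^ j)⁻¹ * a * (a * b) ^ j = a * (a * b) ^ (2 * j) := by
  rw [← dinv ha hb, two_mul, pow_add]
  calc a * (a * b) ^ j * a * a * (a * b) ^ j = a * (a * b) ^ j * (a * a) * (a * b) ^ j := by simp only [mul_assoc]
    _ = a * ((a * b) ^ j * (a * b) ^ j) := by rw [ha, mul_one, mul_assoc]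

theorem exists_conj_sylow {G : Type*} [Group G] [Finite G] {p : ℕ} [Fact p.Prime] (S₀ S : Sylow p G) :
    ∃ h : G, ∀ x, x ∈ (S : Subgroup G) ↔ h⁻¹ * x * h ∈ (S₀ : Subgroup G) := by
  obtain ⟨h, rfl⟩ := MulAction.exists_smul_eq G S₀ S
  refine ⟨h, fun x => ?_⟩
  rw [Sylow.coe_subgroup_smul, Subgroup.mem_pointwise_smul_iff_inv_smul_mem]
  show ((MulAut.conj h)⁻¹ x) ∈ _ ↔ _
  rw [MulAut.conj_inv_apply]

/-- every element of prime power order lies in a conjugate of a Sylow subgroup -/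
theorem exists_mem_sylow {G : Type*} [Group G] [Finite G] {p : ℕ} [Fact p.Prime] (x : G) {k : ℕ}
    (hx : x ^ p ^ k = 1) : ∃ S : Sylow p G, x ∈ (S : Subgroup G) := by
  have hp : IsPGroup p (Subgroup.zpowers x) := by
    rintro ⟨y, n, rfl⟩
    refine ⟨k, Subtype.ext ?_⟩
    show (x ^ n) ^ p ^ k = 1
    rw [← zpow_natCast, ← zpow_mul, mul_comm, zpow_mul, zpow_natCast, hx, one_zpow]
  obtain ⟨S, hS⟩ := hp.exists_le_sylow
  exact ⟨S, hS (Subgroup.mem_zpowers x)⟩

end Cfsg.Agent.Lib.Dih
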