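import Cfsg.Agent.Lib.Lin70
import Cfsg.Agent.Lib.CharExt

/-! Fully ramified characters: `H/Z` has no self-centralizing cyclic subgroup. -/

set_option autoImplicit false

namespace Cfsg.Agent.Lib.FR65

open Cfsg Cfsg.Agent.Lib Cfsg.Agent.Lib.BlockOku
open Cfsg.Agent.Lib.CharBasic Cfsg.Agent.Lib.CharOrth Cfsg.Agent.Lib.CharAlg
open Cfsg.Agent.Lib.CharInd Cfsg.Agent.Lib.CharLin Cfsg.Agent.Lib.CharClifford
open scoped ComplexConjugate

universe u

variable {H : Type u} [Group H] [Fintype H] (Z : Subgroup H) [hZ : Z.Normal]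

theorem fr_basic [Fintype Z] (χ : IrrCharacter H) (θ : IrrCharacter Z) (e : ℕ) (he : e ^ 2 = Z.index)
    (hχ : ∀ z : Z, χ.1 z = (e : ℂ) * θ.1 z) :
    (∀ g, g ∉ Z → χ.1 g = 0) ∧
    (∀ (g : H) (n : Z), θ.1 ⟨g * n * g⁻¹, hZ.conj_mem n n.2 g⟩ = θ.1 n) ∧
    (∀ ψ : IrrCharacter H, classInner (fun n : Z => ψ.1 n) θ.1 ≠ 0 → ψ = χ) := by
  classical
  have he0 : e ≠ 0 := by
    rintro rfl
    have h1 : Z.index ≠ 0 := Subgroup.index_ne_zero_of_finite
    rw [← he] at h1
    simp at h1
  have hf : (fun n : Z => χ.1 n) = (e : ℂ) • θ.1 := by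
    funext z
    simp [hχ z]
  have hcon : classInner (fun n : Z => χ.1 n) θ.1 ≠ 0 := by
    rw [hf, classInner_smul_left, classInner_irr_self θ.2, mul_one]
    exact_mod_cast he0
  obtain ⟨h1, h2⟩ := CharGall.s0900 Z χ.1 χ.2 θ.1 θ.2 hcon
  have h3 := h1.mp ⟨e, hf, he⟩
  have h4 := h2.mp ⟨e, hf, he⟩
  refine ⟨h3.1, h3.2, fun ψ hψ => ?_⟩
  apply Subtype.ext
  apply (h4 1 1).2 ψ.1 ψ.2
  rw [CharInd.frobenius Z _ _ (fun g x => IrrBasic.val_conj ψ g x), ← classInner_conj_symm]
  exact (map_ne_zero _).mpr hψ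

variable {Z} in
/-- The key vanishing. -/
theorem sum_zero [Fintype Z] (T : Subgroup H) [Fintype T] (hZT : Z ≤ T) [Fintype (Z.subgroupOf T)]
    (χ : IrrCharacter H) (θ : IrrCharacter Z)
    (h0 : ∀ g, g ∉ Z → χ.1 g = 0)
    (huniq : ∀ ψ : IrrCharacter H, classInner (fun n : Z => ψ.1 n) θ.1 ≠ 0 → ψ = χ)
    (φ : IrrCharacter T) (hφ : ∀ z : Z, φ.1 (Subgroup.inclusion hZT z) = θ.1 z)
    (ψ : IrrCharacter H) (x₀ : T) (hx₀ : (x₀ : H) ∉ Z) :
    ∑ n : Z.subgroupOf T, φ.1 ((n : T) * x₀) * conj (ψ.1 (((n : T) * x₀ : T) : H)) = 0 := by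
  classical
  haveI : (Z.subgroupOf T).Normal := Subgroup.Normal.subgroupOf hZ T
  by_cases hψ : ψ = χ
  · apply Finset.sum_eq_zero
    intro n _
    have h1 : (((n : T) * x₀ : T) : H) ∉ Z := by
      intro h
      apply hx₀
      have h2 : ((n : T) : H) ∈ Z := n.2
      have h3 := Z.mul_mem (Z.inv_mem h2) h
      simpa using h3
    rw [hψ, h0 _ h1, map_zero, mul_zero]
  · have hz : classInner (fun n : Z => ψ.1 n) θ.1 = 0 := by
      by_contra hne
      exact hψ (huniq ψ hne)
    obtain ⟨m, hm⟩ := IsCharacter.exists_nat_coeff (IsCharacter.res (IsIrrCharacter.isCharacter ψ.2) T)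
    have hmm : ∀ ξ : IrrCharacter T, classInner (fun t : T => ψ.1 t) ξ.1 = (m ξ : ℂ) := by
      intro ξ
      rw [hm]
      exact classInner_sum_irr (fun φ => (m φ : ℂ)) ξ
    have hms := mult_sum Z T hZT (IsIrrCharacter.isCharacter ψ.2) θ.1
    rw [hz] at hms
    have hnat : ∀ ξ : IrrCharacter T, ∃ k : ℕ, classInner (resTo Z T hZT ξ.1) θ.1 = k := fun ξ =>
      exists_nat_mult Z T hZT θ.2 (IsIrrCharacter.isCharacter ξ.2)
    choose k hk using hnat
    have hzero : ∀ ξ : IrrCharacter T, m ξ * k ξ = 0 := by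
      have h1 : ((∑ ξ : IrrCharacter T, m ξ * k ξ : ℕ) : ℂ) = 0 := by
        rw [hms]
        push_cast
        refine Finset.sum_congr rfl fun ξ _ => ?_
        rw [hmm, hk]
      have h2 : ∑ ξ : IrrCharacter T, m ξ * k ξ = 0 := by exact_mod_cast h1
      intro ξ
      exact (Finset.sum_eq_zero_iff.mp h2) ξ (Finset.mem_univ _)
    -- expand `ψ` on `T`
    have hψT : ∀ t : T, ψ.1 t = ∑ ξ : IrrCharacter T, (m ξ : ℂ) * ξ.1 t := by
      intro t
      have := congrFun hm t
      simpa using this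
    have hirr : IsIrrCharacter (Z.subgroupOf T) (fun n : Z.subgroupOf T => φ.1 n) := by
      have h1 := IsIrrCharacter.comp_surjective θ.2 (Subgroup.subgroupOfEquivOfLe hZT).toMonoidHom
        (Subgroup.subgroupOfEquivOfLe hZT).surjective
      convert h1 using 1
      funext n
      rw [Function.comp_apply, ← hφ]
      rfl
    have hterm : ∀ ξ : IrrCharacter T, (m ξ : ℂ) *
        ∑ n : Z.subgroupOf T, ξ.1 ((n : T) * x₀) * conj (φ.1 ((n : T) * x₀)) = 0 := by
      intro ξ
      by_cases hmξ : m ξ = 0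
      · simp [hmξ]
      · have hkξ : k ξ = 0 := (Nat.mul_eq_zero.mp (hzero ξ)).resolve_left hmξ
        have hin : classInner (fun n : Z.subgroupOf T => ξ.1 n) (fun n : Z.subgroupOf T => φ.1 n) = 0 := by
          have h1 := hk ξ
          rw [hkξ, Nat.cast_zero] at h1
          simp only [classInner] at h1 ⊢
          have hcard : Nat.card (Z.subgroupOf T) = Nat.card Z :=
            Nat.card_congr (Subgroup.subgroupOfEquivOfLe hZT).toEquiv
          rw [hcard]
          have h2 : ∑ g : Z.subgroupOf T, ξ.1 g * conj (φ.1 g) = ∑ g : Z, resTo Z T hZT ξ.1 g * conj (θ.1 g) := by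
            rw [← Equiv.sum_comp (Subgroup.subgroupOfEquivOfLe hZT).toEquiv]
            refine Finset.sum_congr rfl fun n _ => ?_
            rw [← hφ]
            rfl
          rw [h2]
          exact h1
        have h3 := (CharGall.s0868 (G := T) (Z.subgroupOf T) φ.1 φ.2 hirr ξ.1 ξ.2 _ rfl).2.1 hin
        have h4 := congrFun h3 x₀
        simp only [Pi.zero_apply] at h4
        have hne : (Nat.card (Z.subgroupOf T) : ℂ) ≠ 0 := by exact_mod_cast Nat.card_pos.ne'
        have h5 := (mul_eq_zero.mp h4).resolve_left (inv_ne_zero hne)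
        rw [h5, mul_zero]
    have h6 : ∑ n : Z.subgroupOf T, ψ.1 (((n : T) * x₀ : T) : H) * conj (φ.1 ((n : T) * x₀)) = 0 := by
      have h7 : ∀ n : Z.subgroupOf T, ψ.1 (((n : T) * x₀ : T) : H) * conj (φ.1 ((n : T) * x₀)) =
          ∑ ξ : IrrCharacter T, (m ξ : ℂ) * (ξ.1 ((n : T) * x₀) * conj (φ.1 ((n : T) * x₀))) := by
        intro n
        rw [hψT, Finset.sum_mul]
        refine Finset.sum_congr rfl fun ξ _ => ?_
        ring
      simp only [h7]
      rw [Finset.sum_comm]
      apply Finset.sum_eq_zero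
      intro ξ _
      rw [← Finset.mul_sum]
      exact hterm ξ
    have h8 := congrArg (starRingEnd ℂ) h6
    rw [map_sum, map_zero] at h8
    rw [← h8]
    refine Finset.sum_congr rfl fun n _ => ?_
    rw [map_mul, Complex.conj_conj, mul_comm]

theorem main (χ : IrrCharacter H)
    (hfr : ∃ (θ : IrrCharacter Z) (e : ℕ), e ^ 2 = Z.index ∧ ∀ z : Z, χ.1 z = (e : ℂ) * θ.1 z)
    (hZne : Z ≠ ⊤) (C : Subgroup (H ⧸ Z)) (hC : IsCyclic C) :
    Subgroup.centralizer (C : Set (H ⧸ Z)) ≠ C := by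
  classical
  intro heq
  obtain ⟨θ, e, he, hχ⟩ := hfr
  letI : Fintype Z := Fintype.ofFinite _
  obtain ⟨h0, hinv, huniq⟩ := fr_basic Z χ θ e he hχ
  obtain ⟨⟨xb, hxbC⟩, hgen⟩ := hC.exists_generator
  have hpow : ∀ c ∈ C, c ∈ Subgroup.zpowers xb := by
    intro c hc
    obtain ⟨k, hk⟩ := Subgroup.mem_zpowers_iff.mp (hgen ⟨c, hc⟩)
    refine Subgroup.mem_zpowers_iff.mpr ⟨k, ?_⟩
    have := congrArg Subtype.val hk
    simpa using this
  -- `xb ≠ 1`
  have hxb : xb ≠ 1 := by
    rintro rfl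
    apply hZne
    have hCbot : ∀ c ∈ C, c = 1 := by
      intro c hc
      have := hpow c hc
      simpa using this
    rw [Subgroup.eq_top_iff']
    intro g
    have h1 : (g : H ⧸ Z) ∈ C := by
      rw [← heq, Subgroup.mem_centralizer_iff]
      intro c hc
      rw [hCbot c hc, one_mul, mul_one]
    have h2 := hCbot _ h1
    exact (QuotientGroup.eq_one_iff g).mp h2
  let π : H →* H ⧸ Z := QuotientGroup.mk' Z
  have hπker : ∀ z : H, π z = 1 ↔ z ∈ Z := fun z => QuotientGroup.eq_one_iff z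
  let T : Subgroup H := C.comap π
  have hTmem : ∀ t : H, t ∈ T ↔ π t ∈ C := fun t => Iff.rfl
  have hZT : Z ≤ T := by
    intro z hz
    rw [hTmem, (hπker z).mpr hz]
    exact C.one_mem
  letI : Fintype T := Fintype.ofFinite _
  let N' : Subgroup T := Z.subgroupOf T
  letI : Fintype N' := Fintype.ofFinite _
  haveI hN' : N'.Normal := Subgroup.Normal.subgroupOf hZ T
  -- cyclic quotient
  have hcyc : IsCyclic (T ⧸ N') := by
    let f : T →* C := (π.comp T.subtype).codRestrict C (fun t => t.2)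
    have hf : Function.Surjective f := by
      rintro ⟨c, hc⟩
      obtain ⟨g, rfl⟩ := QuotientGroup.mk'_surjective Z c
      exact ⟨⟨g, hc⟩, rfl⟩
    have hk : f.ker = N' := by
      ext t
      rw [MonoidHom.mem_ker, Subgroup.mem_subgroupOf, ← hπker]
      constructor
      · intro h
        exact congrArg Subtype.val h
      · intro h
        exact Subtype.ext h
    have e1 : (T ⧸ f.ker) ≃* C := QuotientGroup.quotientKerEquivOfSurjective f hf
    have e2 : (T ⧸ N') ≃* C := (QuotientGroup.quotientMulEquivOfEq hk.symm).trans e1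
    exact isCyclic_of_surjective e2.symm e2.symm.surjective
  let θ' : N' → ℂ := fun n => θ.1 (Subgroup.subgroupOfEquivOfLe hZT n)
  have hθ' : IsIrrCharacter N' θ' :=
    IsIrrCharacter.comp_surjective θ.2 (Subgroup.subgroupOfEquivOfLe hZT).toMonoidHom
      (Subgroup.subgroupOfEquivOfLe hZT).surjective
  have hinv' : ∀ (g : T) (n : N'), θ' ⟨g * n * g⁻¹, hN'.conj_mem n n.2 g⟩ = θ' n := by
    intro g n
    have := hinv (g : H) (Subgroup.subgroupOfEquivOfLe hZT n)
    exact this
  obtain ⟨φ, hφirr, hφ⟩ := CharExt.char_ext_of_cyclic N' hθ' hinv' hcyc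
  let φ' : IrrCharacter T := ⟨φ, hφirr⟩
  have hφ' : ∀ z : Z, φ'.1 (Subgroup.inclusion hZT z) = θ.1 z := by
    intro z
    have := hφ ⟨Subgroup.inclusion hZT z, z.2⟩
    exact this
  -- lift of `xb`
  obtain ⟨x₁H, hx₁H⟩ := QuotientGroup.mk'_surjective Z xb
  let x₁ : T := ⟨x₁H, by rw [hTmem]; show π x₁H ∈ C; rw [show π x₁H = xb from hx₁H]; exact hxbC⟩
  have hx₁ : π x₁ = xb := hx₁H
  let ξ₀ : T → ℂ := fun t => if π t = xb then φ t else 0
  have hΞ : indFun T ξ₀ = 0 := by
    apply eq_zero_of_classInner_irr_eq_zero _ (indFun_classFunction T ξ₀)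
    intro ψ hψ
    rw [CharInd.frobenius T _ _ (fun g x => IrrBasic.val_conj ⟨ψ, hψ⟩ g x)]
    have hsum : ∑ t : T, ξ₀ t * conj (ψ t) = 0 := by
      have h1 : ∑ t : T, ξ₀ t * conj (ψ t) =
          ∑ n : N', φ ((n : T) * x₁) * conj (ψ (((n : T) * x₁ : T) : H)) := by
        have h2 : ∀ t : T, ξ₀ t * conj (ψ t) =
            if π t = xb then φ t * conj (ψ t) else 0 := by
          intro t
          by_cases h : π t = xb
          · simp [ξ₀, h]
          · simp [ξ₀, h]
        simp only [h2]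
        rw [← Finset.sum_filter]
        symm
        apply Finset.sum_bij (fun (n : N') _ => (n : T) * x₁)
        · intro n _
          simp only [Finset.mem_filter, Finset.mem_univ, true_and]
          have h3 : π (n : T) = 1 := (hπker _).mpr n.2
          show π (((n : T) : H) * x₁) = xb
          rw [map_mul, h3, one_mul, hx₁]
        · intro a _ b _ hab
          exact Subtype.ext (mul_right_cancel hab)
        · intro t ht
          simp only [Finset.mem_filter, Finset.mem_univ, true_and] at ht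
          have h3 : π ((t * x₁⁻¹ : T) : H) = 1 := by
            show π ((t : H) * (x₁ : H)⁻¹) = 1
            rw [map_mul, map_inv, ht, hx₁, mul_inv_cancel]
          refine ⟨⟨t * x₁⁻¹, (hπker _).mp h3⟩, Finset.mem_univ _, ?_⟩
          show t * x₁⁻¹ * x₁ = t
          group
        · intro n _
          rfl
      rw [h1]
      exact sum_zero T hZT χ θ h0 huniq φ' hφ' ⟨ψ, hψ⟩ x₁ (by
        intro h
        apply hxb
        rw [← hx₁]
        exact (hπker _).mpr h)
    simp only [classInner]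
    rw [hsum, mul_zero]
  -- value of the induced function
  have hval : ∀ x₀ : T, π x₀ = xb → φ x₀ = 0 := by
    intro x₀ hx₀
    have hg : ∀ g : H, extendByZero T ξ₀ (g⁻¹ * x₀ * g) = if g ∈ T then φ x₀ else 0 := by
      intro g
      have hpi : π (g⁻¹ * x₀ * g) = (π g)⁻¹ * xb * π g := by
        rw [map_mul, map_mul, map_inv, hx₀]
      by_cases hgT : g ∈ T
      · rw [if_pos hgT]
        have hmem : g⁻¹ * x₀ * g ∈ T := T.mul_mem (T.mul_mem (T.inv_mem hgT) x₀.2) hgT
        rw [extendByZero_of_mem T ξ₀ hmem]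
        have hcomm : (π g)⁻¹ * xb * π g = xb := by
          have h1 : π g ∈ C := hgT
          have h2 : π g ∈ Subgroup.centralizer (C : Set (H ⧸ Z)) := by rw [heq]; exact h1
          have h3 := Subgroup.mem_centralizer_iff.mp h2 xb hxbC
          rw [mul_assoc, inv_mul_eq_iff_eq_mul, h3]
        have h4 : ξ₀ ⟨g⁻¹ * x₀ * g, hmem⟩ = φ ⟨g⁻¹ * x₀ * g, hmem⟩ := by
          have : π (g⁻¹ * x₀ * g) = xb := by rw [hpi, hcomm]
          exact if_pos this
        rw [h4]
        have h5 := IrrBasic.val_conj φ' x₀ ⟨g, hgT⟩⁻¹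
        have h6 : (⟨g⁻¹ * x₀ * g, hmem⟩ : T) = (⟨g, hgT⟩⁻¹ : T) * x₀ * (⟨g, hgT⟩⁻¹ : T)⁻¹ := by
          apply Subtype.ext
          simp
        rw [h6]
        exact h5
      · rw [if_neg hgT]
        by_cases hmem : g⁻¹ * x₀ * g ∈ T
        · rw [extendByZero_of_mem T ξ₀ hmem]
          by_cases hc : π (g⁻¹ * x₀ * g) = xb
          · exfalso
            apply hgT
            rw [hpi] at hc
            have hcomm : Commute xb (π g) := by
              show xb * π g = π g * xb
              rw [mul_assoc, inv_mul_eq_iff_eq_mul] at hc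
              exact hc
            have h1 : π g ∈ Subgroup.centralizer (C : Set (H ⧸ Z)) := by
              rw [Subgroup.mem_centralizer_iff]
              intro c hc'
              obtain ⟨k, rfl⟩ := Subgroup.mem_zpowers_iff.mp (hpow c hc')
              exact hcomm.zpow_left k
            rw [heq] at h1
            exact h1
          · exact if_neg hc
        · exact extendByZero_of_not_mem T ξ₀ hmem
    have h1 := congrFun hΞ (x₀ : H)
    rw [indFun_apply] at h1
    simp only [hg, Pi.zero_apply] at h1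
    rw [Finset.sum_ite, Finset.sum_const, Finset.sum_const_zero, add_zero] at h1
    have hT : (Nat.card T : ℂ) ≠ 0 := by exact_mod_cast Nat.card_pos.ne'
    have h2 := (mul_eq_zero.mp h1).resolve_left (inv_ne_zero hT)
    have hcard : ((Finset.univ.filter (fun g : H => g ∈ T)).card : ℕ) = Nat.card T := by
      rw [Nat.card_eq_fintype_card, Fintype.card_subtype]
    rw [hcard, nsmul_eq_mul] at h2
    exact (mul_eq_zero.mp h2).resolve_left hT
  obtain ⟨n, hn⟩ := Lin70.exists_ne_zero Z hZ θ T hZT φ' hφ' x₁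
  apply hn
  apply hval
  show π ((n : H) * x₁) = xb
  rw [map_mul, (hπker _).mpr n.2, one_mul, hx₁]

end Cfsg.Agent.Lib.FR65
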