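import Cfsg.Agent.Lib.CharFS
import Cfsg.Agent.Lib.CharGall

/-! Invariant bilinear forms, Frobenius-Schur indicators and real forms. -/

set_option autoImplicit false

namespace Cfsg.Agent.Lib.FSForm

open Module Matrix
open Cfsg Cfsg.Agent.Lib.CharFS Cfsg.Agent.Lib.CharBasic Cfsg.Agent.Lib.CharOrth
open Cfsg.Agent.Lib.CharAlg
open scoped ComplexConjugate ComplexOrder

universe u

variable {G : Type u} [Group G] [Fintype G] {n : ℕ} (ρ : Representation ℂ G (Fin n → ℂ))

/-- The dual representation. -/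
noncomputable def dualRep : Representation ℂ G (Fin n → ℂ) where
  toFun g := Matrix.toLin' (matOf ρ g⁻¹).transpose
  map_one' := by
    simp [matOf_one]
    rfl
  map_mul' g h := by
    rw [_root_.mul_inv_rev, matOf_mul, Matrix.transpose_mul, Matrix.toLin'_mul]
    rfl

theorem matOf_dual (g : G) : matOf (dualRep ρ) g = (matOf ρ g⁻¹).transpose := by
  simp [matOf, dualRep]

theorem dual_character (g : G) : (dualRep ρ).character g = ρ.character g⁻¹ := by
  rw [← trace_matOf, matOf_dual, Matrix.trace_transpose, trace_matOf]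

theorem mem_invSub_dual (X : Matrix (Fin n) (Fin n) ℂ) :
    X ∈ invSub (dualRep ρ) ↔ ∀ g, (matOf ρ g).transpose * X * matOf ρ g = X := by
  rw [mem_invSub]
  constructor
  · intro h g
    have := h g⁻¹
    simpa [matOf_dual] using this
  · intro h g
    have := h g⁻¹
    simpa [matOf_dual] using this

theorem form_main (hirr : ρ.IsIrreducible) (hreal : ∀ g, (ρ.character g).im = 0) :
    (∃ M : Matrix (Fin n) (Fin n) ℂ, M ≠ 0 ∧ ∀ g, (matOf ρ g).transpose * M * matOf ρ g = M) ∧
    ∀ M : Matrix (Fin n) (Fin n) ℂ, (∀ g, (matOf ρ g).transpose * M * matOf ρ g = M) →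
      M.transpose = ((Nat.card G : ℂ)⁻¹ * ∑ s : G, ρ.character (s * s)) • M := by
  classical
  have hχ := isIrrCharacter_character ρ hirr
  have hχc := IsIrrCharacter.conj hχ
  have hreal' : ρ.character = (fun g => conj (ρ.character g)) := by
    funext g
    exact (Complex.conj_eq_iff_im.mpr (hreal g)).symm
  have hchar : (dualRep ρ).character = ρ.character := by
    funext g
    rw [dual_character, character_inv]
    exact (congrFun hreal' g).symm
  have h1 : (Nat.card G : ℂ)⁻¹ * ∑ s : G, (dualRep ρ).character s ^ 2 = 1 := by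
    rw [hchar]
    have h2 : (Nat.card G : ℂ)⁻¹ * ∑ s : G, ρ.character s ^ 2 =
        if ρ.character = (fun g => conj (ρ.character g)) then 1 else 0 := by
      rw [← classInner_irr hχ hχc]
      simp only [classInner, Complex.conj_conj, sq]
    rw [h2, if_pos hreal']
  have hproj := phi_isProj (dualRep ρ)
  have htr := hproj.trace
  rw [trace_phi, h1] at htr
  have hfin : finrank ℂ (invSub (dualRep ρ)) = 1 := by exact_mod_cast htr.symm
  obtain ⟨X₀, hX₀, hall⟩ := finrank_eq_one_iff'.mp hfin
  have hX₀' : (X₀ : Matrix (Fin n) (Fin n) ℂ) ≠ 0 := fun h => hX₀ (Subtype.ext h)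
  obtain ⟨ε, hε⟩ := hall ⟨(X₀ : Matrix (Fin n) (Fin n) ℂ).transpose, tau_mem_invSub _ X₀.2⟩
  have hε' : ε • (X₀ : Matrix (Fin n) (Fin n) ℂ) = (X₀ : Matrix (Fin n) (Fin n) ℂ).transpose :=
    congrArg Subtype.val hε
  have htau : tauL ∘ₗ phi (dualRep ρ) = ε • phi (dualRep ρ) := by
    ext1 X
    obtain ⟨c, hc⟩ := hall ⟨phi (dualRep ρ) X, hproj.map_mem X⟩
    have hc' : c • (X₀ : Matrix (Fin n) (Fin n) ℂ) = phi (dualRep ρ) X := congrArg Subtype.val hc
    simp only [LinearMap.comp_apply, LinearMap.smul_apply, tauL_apply]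
    rw [← hc', Matrix.transpose_smul, ← hε', smul_smul, smul_smul, mul_comm]
  have hval : LinearMap.trace ℂ _ (tauL ∘ₗ phi (dualRep ρ)) = ε := by
    rw [htau, map_smul, hproj.trace, hfin]
    simp
  rw [trace_tau_phi, hchar] at hval
  constructor
  · exact ⟨X₀, hX₀', (mem_invSub_dual ρ _).mp X₀.2⟩
  · intro M hM
    have hM' : M ∈ invSub (dualRep ρ) := (mem_invSub_dual ρ M).mpr hM
    obtain ⟨c, hc⟩ := hall ⟨M, hM'⟩
    have hc' : c • (X₀ : Matrix (Fin n) (Fin n) ℂ) = M := congrArg Subtype.val hc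
    rw [hval, ← hc', Matrix.transpose_smul, ← hε', smul_smul, smul_smul, mul_comm]

/-! ### Real forms from a conjugation -/

section RealForm

variable {k : ℕ} (σ : Representation ℂ G (Fin k → ℂ))

theorem exists_real_basis
    (J : (Fin k → ℂ) →ₛₗ[starRingEnd ℂ] (Fin k → ℂ)) (hJJ : ∀ v, J (J v) = v) :
    ∃ (m : ℕ) (b : Basis (Fin m) ℂ (Fin k → ℂ)), ∀ i, J (b i) = b i := by
  classical
  let S : Set (Fin k → ℂ) := {v | J v = v}
  have hspan : ⊤ ≤ Submodule.span ℂ S := by
    intro e _
    have h1 : e + J e ∈ S := by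
      show J (e + J e) = e + J e
      rw [map_add, hJJ, add_comm]
    have h2 : (Complex.I • (e - J e)) ∈ S := by
      show J (Complex.I • (e - J e)) = Complex.I • (e - J e)
      rw [map_smulₛₗ, map_sub, hJJ, Complex.conj_I, neg_smul, ← smul_neg, neg_sub]
    have h3 : e = (2⁻¹ : ℂ) • (e + J e) + ((2⁻¹ : ℂ) * (-Complex.I)) • (Complex.I • (e - J e)) := by
      rw [smul_smul, mul_assoc, neg_mul, Complex.I_mul_I, neg_neg, mul_one, ← smul_add]
      have : e + J e + (e - J e) = (2 : ℂ) • e := by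
        rw [two_smul]
        abel
      rw [this, smul_smul, inv_mul_cancel₀ (two_ne_zero), one_smul]
    rw [h3]
    exact Submodule.add_mem _ (Submodule.smul_mem _ _ (Submodule.subset_span h1))
      (Submodule.smul_mem _ _ (Submodule.subset_span h2))
  obtain ⟨b, hbS, hbsp, hbli⟩ := exists_linearIndependent ℂ S
  have hsp : ⊤ ≤ Submodule.span ℂ (Set.range ((↑) : b → (Fin k → ℂ))) := by
    rw [Subtype.range_coe, hbsp]
    exact hspan
  let B := Basis.mk hbli hsp
  haveI : Finite b := Module.Finite.finite_basis B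
  letI : Fintype b := Fintype.ofFinite _
  refine ⟨Fintype.card b, B.reindex (Fintype.equivFin b), fun i => ?_⟩
  rw [Basis.reindex_apply]
  simp only [B, Basis.coe_mk]
  exact hbS (Subtype.coe_prop _)

theorem real_form_of_J
    (J : (Fin k → ℂ) →ₛₗ[starRingEnd ℂ] (Fin k → ℂ)) (hJJ : ∀ v, J (J v) = v)
    (hJσ : ∀ g v, J (σ g v) = σ g (J v)) :
    ∃ (m : ℕ) (r : Representation ℝ G (Fin m → ℝ)),
      ∀ g, ((LinearMap.trace ℝ (Fin m → ℝ) (r g) : ℝ) : ℂ) = σ.character g := by
  classical
  obtain ⟨m, b, hb⟩ := exists_real_basis J hJJ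
  let C : G → Matrix (Fin m) (Fin m) ℂ := fun g => LinearMap.toMatrix b b (σ g)
  have hCdef : ∀ g i j, C g i j = b.repr (σ g (b j)) i := fun g i j =>
    LinearMap.toMatrix_apply _ _ _ _ _
  have hCreal : ∀ g i j, conj (C g i j) = C g i j := by
    intro g i j
    have h1 : σ g (b j) = ∑ l, C g l j • b l := by
      conv_lhs => rw [← b.sum_repr (σ g (b j))]
      refine Finset.sum_congr rfl fun l _ => ?_
      rw [hCdef]
    have h2 : σ g (b j) = ∑ l, conj (C g l j) • b l := by
      conv_lhs => rw [← hb j, ← hJσ, h1, map_sum]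
      refine Finset.sum_congr rfl fun l _ => ?_
      rw [map_smulₛₗ, hb]
    have h3 := congrArg (fun v => b.repr v i) h2
    simp only [Basis.repr_sum_self] at h3
    rw [← h3, hCdef]
  let R : G → Matrix (Fin m) (Fin m) ℝ := fun g i j => (C g i j).re
  have hCR : ∀ g i j, C g i j = (R g i j : ℂ) := fun g i j =>
    (Complex.conj_eq_iff_re.mp (hCreal g i j)).symm
  have hCmul : ∀ g h, C (g * h) = C g * C h := by
    intro g h
    simp only [C, map_mul]
    exact LinearMap.toMatrix_mul _ _ _
  have hC1 : C 1 = 1 := by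
    simp only [C, map_one]
    exact LinearMap.toMatrix_one _
  have hR1 : R 1 = 1 := by
    ext i j
    simp only [R, hC1]
    by_cases h : i = j
    · subst h
      simp
    · simp [Matrix.one_apply, h]
  have hRmul : ∀ g h, R (g * h) = R g * R h := by
    intro g h
    ext i j
    apply Complex.ofReal_injective
    rw [← hCR, hCmul, Matrix.mul_apply, Matrix.mul_apply]
    push_cast
    refine Finset.sum_congr rfl fun l _ => ?_
    rw [hCR, hCR]
  let r : Representation ℝ G (Fin m → ℝ) :=
    { toFun := fun g => Matrix.toLin' (R g)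
      map_one' := by
        rw [hR1, Matrix.toLin'_one]
        rfl
      map_mul' := fun g h => by
        rw [hRmul, Matrix.toLin'_mul]
        rfl }
  refine ⟨m, r, fun g => ?_⟩
  have h1 : LinearMap.trace ℝ (Fin m → ℝ) (r g) = (R g).trace := Matrix.trace_toLin'_eq (R g)
  rw [h1]
  have h2 : σ.character g = (C g).trace := LinearMap.trace_eq_matrix_trace ℂ b (σ g)
  rw [h2]
  simp only [Matrix.trace, Matrix.diag, Complex.ofReal_sum]
  exact Finset.sum_congr rfl fun i _ => (hCR g i i).symm

end RealForm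

section Conj

/-- Entrywise conjugate. -/
noncomputable abbrev cj {k : ℕ} (X : Matrix (Fin k) (Fin k) ℂ) : Matrix (Fin k) (Fin k) ℂ :=
  X.map (starRingEnd ℂ)

variable {k : ℕ}

theorem cj_mul (X Y : Matrix (Fin k) (Fin k) ℂ) : cj (X * Y) = cj X * cj Y := Matrix.map_mul

theorem cj_cj (X : Matrix (Fin k) (Fin k) ℂ) : cj (cj X) = X := by
  ext i j
  simp [cj]

theorem cj_transpose (X : Matrix (Fin k) (Fin k) ℂ) : cj X.transpose = X.conjTranspose := by
  ext i j
  simp [cj, Matrix.conjTranspose_apply]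

theorem transpose_cj (X : Matrix (Fin k) (Fin k) ℂ) : (cj X).transpose = X.conjTranspose := by
  ext i j
  simp [cj, Matrix.conjTranspose_apply]

theorem star_mulVec' (X : Matrix (Fin k) (Fin k) ℂ) (v : Fin k → ℂ) :
    star (X *ᵥ v) = cj X *ᵥ star v := by
  ext i
  simp [Matrix.mulVec, dotProduct, map_sum]

theorem real_form_of_indicator (σ : Representation ℂ G (Fin k → ℂ)) (hirr : σ.IsIrreducible)
    (hν : (Nat.card G : ℂ)⁻¹ * ∑ s : G, σ.character (s * s) = 1) :
    ∃ (m : ℕ) (r : Representation ℝ G (Fin m → ℝ)),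
      ∀ g, ((LinearMap.trace ℝ (Fin m → ℝ) (r g) : ℝ) : ℂ) = σ.character g := by
  classical
  have hreal : ∀ g, (σ.character g).im = 0 := by
    by_contra hcon
    push Not at hcon
    have := (frobenius_schur_aux σ hirr).2.mpr hcon
    rw [hν] at this
    exact one_ne_zero this
  obtain ⟨⟨M, hM0, hMinv⟩, hMt⟩ := form_main σ hirr hreal
  have hMsym : M.transpose = M := by rw [hMt M hMinv, hν, one_smul]
  let A : G → Matrix (Fin k) (Fin k) ℂ := matOf σ
  have hσA : ∀ g v, σ g v = A g *ᵥ v := fun g v => (LinearMap.toMatrix'_mulVec (σ g) v).symm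
  have hAmul : ∀ g h, A (g * h) = A g * A h := matOf_mul σ
  have hA1 : A 1 = 1 := matOf_one σ
  have hAinv : ∀ g, A g * A g⁻¹ = 1 := by
    intro g
    rw [← hAmul, mul_inv_cancel, hA1]
  have hAinv' : ∀ g, A g⁻¹ * A g = 1 := by
    intro g
    rw [← hAmul, inv_mul_cancel, hA1]
  have hAinj : ∀ g, Function.Injective (A g).mulVec := by
    intro g v w h
    have := congrArg (fun u => A g⁻¹ *ᵥ u) h
    simpa [Matrix.mulVec_mulVec, hAinv'] using this
  let H : Matrix (Fin k) (Fin k) ℂ := ∑ g, (A g).conjTranspose * A g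
  have hHpd : H.PosDef := Matrix.posDef_sum Finset.univ_nonempty
    (fun g _ => Matrix.PosDef.conjTranspose_mul_self (A g) (hAinj g))
  have hHinv : ∀ g, (A g).conjTranspose * H * A g = H := by
    intro g
    simp only [H]
    rw [Finset.mul_sum, Finset.sum_mul]
    conv_rhs => rw [← Equiv.sum_comp (Equiv.mulRight g)]
    refine Finset.sum_congr rfl fun x _ => ?_
    simp only [Equiv.coe_mulRight, hAmul, Matrix.conjTranspose_mul, Matrix.mul_assoc]
  have hdet : IsUnit H.det := (Matrix.isUnit_iff_isUnit_det H).mp hHpd.isUnit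
  let Hi := H⁻¹
  have h1 : Hi * H = 1 := Matrix.nonsing_inv_mul H hdet
  have h2 : H * Hi = 1 := Matrix.mul_nonsing_inv H hdet
  have hHi : ∀ g, A g * Hi * (A g).conjTranspose = Hi := by
    intro g
    have h3 : (A g).conjTranspose * H = H * A g⁻¹ := by
      calc (A g).conjTranspose * H = (A g).conjTranspose * H * (A g * A g⁻¹) := by rw [hAinv, mul_one]
        _ = ((A g).conjTranspose * H * A g) * A g⁻¹ := by simp only [Matrix.mul_assoc]
        _ = H * A g⁻¹ := by rw [hHinv]
    calc A g * Hi * (A g).conjTranspose = A g * Hi * (A g).conjTranspose * (H * Hi) := by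
          rw [h2, mul_one]
      _ = A g * Hi * ((A g).conjTranspose * H) * Hi := by simp only [Matrix.mul_assoc]
      _ = A g * Hi * (H * A g⁻¹) * Hi := by rw [h3]
      _ = A g * (Hi * H) * A g⁻¹ * Hi := by simp only [Matrix.mul_assoc]
      _ = Hi := by rw [h1, mul_one, hAinv, one_mul]
  obtain ⟨B, hBdef⟩ : ∃ B, B = Hi * cj M := ⟨_, rfl⟩
  have hMc : ∀ g, (A g).conjTranspose * cj M * cj (A g) = cj M := by
    intro g
    have := congrArg cj (hMinv g)
    rwa [cj_mul, cj_mul, cj_transpose] at this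
  have hB : ∀ g, A g * B = B * cj (A g) := by
    intro g
    calc A g * B = A g * Hi * ((A g).conjTranspose * cj M * cj (A g)) := by
          rw [hMc, hBdef]
          simp only [Matrix.mul_assoc]
      _ = (A g * Hi * (A g).conjTranspose) * cj M * cj (A g) := by simp only [Matrix.mul_assoc]
      _ = B * cj (A g) := by rw [hHi, hBdef]
  have hBcomm : ∀ g, (B * cj B) * A g = A g * (B * cj B) := by
    intro g
    have h3 : cj B * A g = cj (A g) * cj B := by
      have := congrArg cj (hB g)
      rw [cj_mul, cj_mul, cj_cj] at this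
      exact this.symm
    calc (B * cj B) * A g = B * (cj B * A g) := by rw [Matrix.mul_assoc]
      _ = B * (cj (A g) * cj B) := by rw [h3]
      _ = (B * cj (A g)) * cj B := by rw [Matrix.mul_assoc]
      _ = (A g * B) * cj B := by rw [hB]
      _ = A g * (B * cj B) := by rw [Matrix.mul_assoc]
  obtain ⟨c, hc⟩ := schur σ hirr (Matrix.toLin' (B * cj B)) (by
    intro g v
    rw [hσA, hσA, Matrix.toLin'_apply, Matrix.toLin'_apply, Matrix.mulVec_mulVec, Matrix.mulVec_mulVec,
      hBcomm])
  have hc' : B * cj B = c • (1 : Matrix (Fin k) (Fin k) ℂ) := by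
    have := congrArg LinearMap.toMatrix' hc
    rw [LinearMap.toMatrix'_toLin', map_smul, LinearMap.toMatrix'_id] at this
    exact this
  -- positivity
  have hHB : H * B = cj M := by
    rw [hBdef, ← Matrix.mul_assoc, h2, Matrix.one_mul]
  have h5 : cj M * cj B = c • H := by
    rw [← hHB, Matrix.mul_assoc, hc', Matrix.mul_smul, Matrix.mul_one]
  have h6 : B.conjTranspose * (H * B) = c • H.transpose := by
    have h7 := congrArg Matrix.transpose h5
    rw [Matrix.transpose_mul, Matrix.transpose_smul, transpose_cj] at h7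
    have h8 : (cj M).transpose = H * B := by
      rw [hHB]
      ext i j
      have := congrFun (congrFun hMsym j) i
      simp only [Matrix.transpose_apply] at this
      simp [cj, this]
    rwa [h8] at h7
  have hB0 : B ≠ 0 := by
    intro h
    apply hM0
    rw [h, mul_zero] at hHB
    have := congrArg cj hHB
    rw [cj_cj] at this
    rw [← this]
    ext i j
    simp
  obtain ⟨v, hv⟩ : ∃ v, B *ᵥ v ≠ 0 := by
    by_contra hcon
    push Not at hcon
    apply hB0
    apply Matrix.toLin'.injective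
    ext j i
    simp [Matrix.toLin'_apply, hcon]
  have hv0 : v ≠ 0 := by
    rintro rfl
    simp at hv
  have hx := hHpd.dotProduct_mulVec_pos hv
  have hy := hHpd.transpose.dotProduct_mulVec_pos hv0
  have hxy : star (B *ᵥ v) ⬝ᵥ (H *ᵥ (B *ᵥ v)) = c * (star v ⬝ᵥ (H.transpose *ᵥ v)) := by
    rw [Matrix.star_mulVec, ← Matrix.dotProduct_mulVec, Matrix.mulVec_mulVec, Matrix.mulVec_mulVec,
      Matrix.mul_assoc, h6, Matrix.smul_mulVec, dotProduct_smul, smul_eq_mul]
  obtain ⟨hxre, hxim⟩ := Complex.pos_iff.mp hx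
  obtain ⟨hyre, hyim⟩ := Complex.pos_iff.mp hy
  rw [hxy] at hxre hxim
  generalize star v ⬝ᵥ (H.transpose *ᵥ v) = y at hxre hxim hyre hyim
  have hyr : y = (y.re : ℂ) := Complex.ext (by simp) (by simp [← hyim])
  have hy0 : y ≠ 0 := by
    intro h
    rw [h] at hyre
    simp at hyre
  have hxr : c * y = (((c * y).re : ℝ) : ℂ) := Complex.ext (by simp) (by
    rw [← hxim]
    simp)
  let r : ℝ := (c * y).re / y.re
  have hr : 0 < r := div_pos hxre hyre
  have hcr : c = (r : ℂ) := by
    simp only [r]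
    rw [Complex.ofReal_div, ← hxr, ← hyr, mul_div_cancel_right₀ c hy0]
  let t := Real.sqrt r
  have ht : 0 < t := Real.sqrt_pos.mpr hr
  have htt : t * t = r := Real.mul_self_sqrt hr.le
  let u : ℂ := ((t⁻¹ : ℝ) : ℂ)
  have huconj : conj u = u := Complex.conj_ofReal _
  have huu : u * u * c = 1 := by
    rw [hcr, ← htt]
    simp only [u]
    have ht' : (t : ℂ) ≠ 0 := by exact_mod_cast ht.ne'
    push_cast
    field_simp
  let B' := u • B
  have hcjB' : cj B' = u • cj B := by
    ext i j
    simp [B', cj, huconj]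
  have hB'1 : B' * cj B' = 1 := by
    rw [hcjB']
    simp only [B']
    rw [Matrix.smul_mul, Matrix.mul_smul, hc', smul_smul, smul_smul, huu, one_smul]
  have hB'2 : ∀ g, A g * B' = B' * cj (A g) := by
    intro g
    simp only [B']
    rw [Matrix.mul_smul, Matrix.smul_mul, hB]
  let J : (Fin k → ℂ) →ₛₗ[starRingEnd ℂ] (Fin k → ℂ) :=
    { toFun := fun v => B' *ᵥ star v
      map_add' := fun a b => by rw [star_add, Matrix.mulVec_add]
      map_smul' := fun a b => by
        rw [star_smul, Matrix.mulVec_smul]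
        rfl }
  have hJ : ∀ v, J v = B' *ᵥ star v := fun v => rfl
  refine real_form_of_J σ J ?_ ?_
  · intro v
    rw [hJ, hJ, star_mulVec', star_star, Matrix.mulVec_mulVec, hB'1, Matrix.one_mulVec]
  · intro g v
    rw [hJ, hJ, hσA, hσA, star_mulVec', Matrix.mulVec_mulVec, ← hB'2, ← Matrix.mulVec_mulVec]

theorem indicator_of_real_form (χ : IrrCharacter G) (m : ℕ) (r : Representation ℝ G (Fin m → ℝ))
    (hr : ∀ g, ((LinearMap.trace ℝ (Fin m → ℝ) (r g) : ℝ) : ℂ) = χ.1 g) :
    (Nat.card G : ℂ)⁻¹ * ∑ s : G, χ.1 (s * s) = 1 := by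
  classical
  let R : G → Matrix (Fin m) (Fin m) ℝ := fun g => LinearMap.toMatrix' (r g)
  have hRmul : ∀ g h, R (g * h) = R g * R h := by
    intro g h
    simp only [R, map_mul, Module.End.mul_eq_comp, LinearMap.toMatrix'_comp]
  have hR1 : R 1 = 1 := by
    simp only [R, map_one]
    exact LinearMap.toMatrix'_id
  let Ac : G → Matrix (Fin m) (Fin m) ℂ := fun g => (R g).map Complex.ofRealHom
  have hAmul : ∀ g h, Ac (g * h) = Ac g * Ac h := by
    intro g h
    simp only [Ac, hRmul, Matrix.map_mul]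
  have hA1 : Ac 1 = 1 := by
    simp only [Ac, hR1]
    exact Matrix.map_one _ (map_zero _) (map_one _)
  let σ : Representation ℂ G (Fin m → ℂ) :=
    { toFun := fun g => Matrix.toLin' (Ac g)
      map_one' := by
        rw [hA1, Matrix.toLin'_one]
        rfl
      map_mul' := fun g h => by
        rw [hAmul, Matrix.toLin'_mul]
        rfl }
  have hmat : ∀ g, matOf σ g = Ac g := by
    intro g
    simp only [matOf]
    exact LinearMap.toMatrix'_toLin' _
  have hchar : σ.character = χ.1 := by
    funext g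
    rw [← trace_matOf, hmat, ← hr g]
    have h1 : LinearMap.trace ℝ (Fin m → ℝ) (r g) = (R g).trace := by
      conv_lhs => rw [← Matrix.toLin'_toMatrix' (r g)]
      exact Matrix.trace_toLin'_eq _
    rw [h1]
    simp [Matrix.trace, Ac]
  have hirr : σ.IsIrreducible := by
    apply CharGall.isIrreducible_of_character
    rw [hchar]
    exact χ.2
  have hreal : ∀ g, (σ.character g).im = 0 := by
    intro g
    rw [hchar, ← hr g]
    simp
  obtain ⟨_, hM⟩ := form_main σ hirr hreal
  let M : Matrix (Fin m) (Fin m) ℂ := ∑ g, (Ac g).transpose * Ac g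
  have hMinv : ∀ g, (matOf σ g).transpose * M * matOf σ g = M := by
    intro g
    simp only [M, hmat]
    rw [Finset.mul_sum, Finset.sum_mul]
    conv_rhs => rw [← Equiv.sum_comp (Equiv.mulRight g)]
    refine Finset.sum_congr rfl fun x _ => ?_
    simp only [Equiv.coe_mulRight, hAmul, Matrix.transpose_mul, Matrix.mul_assoc]
  have hMsym : M.transpose = M := by
    simp only [M]
    rw [Matrix.transpose_sum]
    refine Finset.sum_congr rfl fun x _ => ?_
    rw [Matrix.transpose_mul, Matrix.transpose_transpose]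
  have hM0 : M ≠ 0 := by
    haveI : Nontrivial (Fin m → ℂ) := ((isIrreducible_iff σ).mp hirr).1
    have hm : 0 < m := by
      rcases Nat.eq_zero_or_pos m with rfl | h
      · exact absurd ‹Nontrivial (Fin 0 → ℂ)› (not_nontrivial_iff_subsingleton.mpr inferInstance)
      · exact h
    intro h0
    let i : Fin m := ⟨0, hm⟩
    have h1 := congrFun (congrFun h0 i) i
    have h2 : M i i = ((∑ g, ∑ j, R g j i * R g j i : ℝ) : ℂ) := by
      simp only [M, Matrix.sum_apply, Matrix.mul_apply, Matrix.transpose_apply, Ac, Matrix.map_apply]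
      push_cast
      rfl
    rw [h2] at h1
    have h3 : (∑ g, ∑ j, R g j i * R g j i : ℝ) = 0 := by
      rw [Matrix.zero_apply] at h1
      exact_mod_cast h1
    have h4 := (Finset.sum_eq_zero_iff_of_nonneg (fun g _ =>
      Finset.sum_nonneg (fun j _ => mul_self_nonneg (R g j i)))).mp h3 1 (Finset.mem_univ _)
    have h5 := (Finset.sum_eq_zero_iff_of_nonneg (fun j _ => mul_self_nonneg (R 1 j i))).mp h4 i
      (Finset.mem_univ _)
    rw [hR1] at h5
    simp at h5
  have h6 := hM M hMinv
  rw [hMsym, hchar] at h6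
  have h7 : (1 - (Nat.card G : ℂ)⁻¹ * ∑ s : G, χ.1 (s * s)) • M = 0 := by
    rw [sub_smul, one_smul, ← h6, sub_self]
  have h8 := (smul_eq_zero.mp h7).resolve_right hM0
  exact (sub_eq_zero.mp h8).symm

theorem real_iff (χ : IrrCharacter G) :
    ((Nat.card G : ℂ)⁻¹ * ∑ s : G, χ.1 (s * s)) = 1 ↔
      ∃ (m : ℕ) (r : Representation ℝ G (Fin m → ℝ)),
        ∀ g, ((LinearMap.trace ℝ (Fin m → ℝ) (r g) : ℝ) : ℂ) = χ.1 g := by
  constructor
  · intro h
    obtain ⟨k, σ, hσ, hχ⟩ := χ.2
    rw [← hχ] at h ⊢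
    exact real_form_of_indicator σ hσ h
  · rintro ⟨m, r, hr⟩
    exact indicator_of_real_form χ m r hr

end Conj


end Cfsg.Agent.Lib.FSForm
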