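import Cfsg.Agent.Lib.FSForm
import Cfsg.Agent.Lib.IrrBasic

/-! Odd multiplicity in a restriction preserves the Frobenius-Schur indicator. -/

set_option autoImplicit false
set_option linter.unusedVariables false
set_option linter.unusedSectionVars false

namespace Cfsg.Agent.Lib.FSOdd

open Module Matrix
open Cfsg Cfsg.Agent.Lib.CharFS Cfsg.Agent.Lib.CharBasic Cfsg.Agent.Lib.CharOrth
open Cfsg.Agent.Lib.CharAlg Cfsg.Agent.Lib.FSForm
open scoped ComplexConjugate

universe u

section Rect

variable {m k : ℕ}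

theorem repr_std' (X : Matrix (Fin m) (Fin k) ℂ) (p : Fin m × Fin k) :
    (Matrix.stdBasis ℂ (Fin m) (Fin k)).repr X p = X p.1 p.2 := by
  simp [Matrix.stdBasis]

theorem trace_rect (L : Matrix (Fin m) (Fin k) ℂ →ₗ[ℂ] Matrix (Fin m) (Fin k) ℂ) :
    LinearMap.trace ℂ _ L = ∑ i, ∑ j, (L (Matrix.single i j 1)) i j := by
  rw [LinearMap.trace_eq_matrix_trace ℂ (Matrix.stdBasis ℂ (Fin m) (Fin k)) L]
  simp only [Matrix.trace, Matrix.diag, LinearMap.toMatrix_apply, repr_std']
  rw [Fintype.sum_prod_type]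
  simp [Matrix.stdBasis_eq_single]

theorem single_mul_entry' (A : Matrix (Fin m) (Fin m) ℂ) (B : Matrix (Fin k) (Fin k) ℂ) (i : Fin m)
    (j : Fin k) (a : Fin m) (b : Fin k) :
    (A * Matrix.single i j (1 : ℂ) * B : Matrix (Fin m) (Fin k) ℂ) a b = A a i * B j b := by
  rw [Matrix.mul_assoc, Matrix.mul_apply, Finset.sum_eq_single i]
  · rw [Matrix.single_mul_apply_same, one_mul]
  · intro c _ hc
    rw [Matrix.single_mul_apply_of_ne _ _ _ _ _ hc, mul_zero]
  · intro h
    exact absurd (Finset.mem_univ _) h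

/-- `X ↦ A X B`. -/
noncomputable def mulLR (A : Matrix (Fin m) (Fin m) ℂ) (B : Matrix (Fin k) (Fin k) ℂ) :
    Matrix (Fin m) (Fin k) ℂ →ₗ[ℂ] Matrix (Fin m) (Fin k) ℂ where
  toFun X := A * X * B
  map_add' X Y := by simp [mul_add, add_mul, Matrix.mul_add, Matrix.add_mul]
  map_smul' c X := by simp [Matrix.mul_smul, Matrix.smul_mul]

theorem mulLR_apply (A : Matrix (Fin m) (Fin m) ℂ) (B : Matrix (Fin k) (Fin k) ℂ)
    (X : Matrix (Fin m) (Fin k) ℂ) : mulLR A B X = A * X * B := rfl

theorem trace_mulLR (A : Matrix (Fin m) (Fin m) ℂ) (B : Matrix (Fin k) (Fin k) ℂ) :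
    LinearMap.trace ℂ _ (mulLR A B) = A.trace * B.trace := by
  rw [trace_rect]
  simp only [mulLR_apply, single_mul_entry', Matrix.trace, Matrix.diag]
  rw [Finset.sum_mul_sum]

theorem even_of_alt {e : ℕ} (Q : Matrix (Fin e) (Fin e) ℂ) (hQ : Q.transpose = -Q) (hdet : Q.det ≠ 0) :
    Even e := by
  have h1 : Q.det = (-1) ^ e * Q.det := by
    conv_lhs => rw [← Matrix.det_transpose, hQ, Matrix.det_neg]
    simp
  have h2 : ((-1 : ℂ)) ^ e = 1 := by
    have h3 : ((-1 : ℂ) ^ e - 1) * Q.det = 0 := by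
      rw [sub_mul, ← h1, one_mul, sub_self]
    exact sub_eq_zero.mp ((mul_eq_zero.mp h3).resolve_right hdet)
  by_contra hodd
  rw [Nat.not_even_iff_odd] at hodd
  rw [hodd.neg_one_pow] at h2
  norm_num at h2

theorem even_of_skew_nondeg {E : Type*} [AddCommGroup E] [Module ℂ E] [FiniteDimensional ℂ E]
    (c : E →ₗ[ℂ] E →ₗ[ℂ] ℂ) (hskew : ∀ x y, c y x = - c x y) (hnd : ∀ x, x ≠ 0 → ∃ y, c x y ≠ 0) :
    Even (finrank ℂ E) := by
  classical
  obtain ⟨e, he⟩ : ∃ e, finrank ℂ E = e := ⟨_, rfl⟩
  rw [he]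
  let B : Basis (Fin e) ℂ E := Module.finBasisOfFinrankEq ℂ _ he
  let Q : Matrix (Fin e) (Fin e) ℂ := fun a d => c (B a) (B d)
  apply even_of_alt Q
  · ext a d
    exact hskew _ _
  · intro hdet
    obtain ⟨v, hv0, hv⟩ := Matrix.exists_mulVec_eq_zero_iff.mpr hdet
    let X : E := ∑ d, v d • B d
    have hX0 : X ≠ 0 := by
      intro h
      apply hv0
      have h2 := Fintype.linearIndependent_iff.mp B.linearIndependent v h
      exact funext h2
    obtain ⟨Y, hne⟩ := hnd X hX0
    apply hne
    have h1 : ∀ a, c (B a) X = 0 := by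
      intro a
      have h2 := congrFun hv a
      simp only [Matrix.mulVec, dotProduct, Pi.zero_apply, Q] at h2
      simp only [X, map_sum, map_smul, smul_eq_mul]
      rw [← h2]
      refine Finset.sum_congr rfl fun d _ => ?_
      ring
    rw [← B.sum_repr Y, map_sum]
    apply Finset.sum_eq_zero
    intro a _
    rw [map_smul, hskew (B a) X, h1 a]
    simp

end Rect

section Main

variable {G : Type u} [Group G] [Fintype G] {m k : ℕ}
  (σ : Representation ℂ G (Fin m → ℂ)) (H : Subgroup G) [Fintype H]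
  (τ : Representation ℂ H (Fin k → ℂ))

/-- Intertwiners. -/
def Csub : Submodule ℂ (Matrix (Fin m) (Fin k) ℂ) where
  carrier := {X | ∀ h : H, matOf σ (h : G) * X = X * matOf τ h}
  add_mem' := by
    intro a b ha hb h
    rw [Matrix.mul_add, Matrix.add_mul, ha h, hb h]
  zero_mem' := by
    intro h
    simp
  smul_mem' := by
    intro c a ha h
    rw [Matrix.mul_smul, Matrix.smul_mul, ha h]

theorem mem_Csub (X : Matrix (Fin m) (Fin k) ℂ) :
    X ∈ Csub σ H τ ↔ ∀ h : H, matOf σ (h : G) * X = X * matOf τ h := Iff.rfl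

/-- The averaging projector to the intertwiners. -/
noncomputable def avgP : Matrix (Fin m) (Fin k) ℂ →ₗ[ℂ] Matrix (Fin m) (Fin k) ℂ :=
  (Nat.card H : ℂ)⁻¹ • ∑ h : H, mulLR (matOf σ (h : G)) (matOf τ h⁻¹)

theorem avgP_apply (X : Matrix (Fin m) (Fin k) ℂ) :
    avgP σ H τ X = (Nat.card H : ℂ)⁻¹ • ∑ h : H, matOf σ (h : G) * X * matOf τ h⁻¹ := by
  simp [avgP, LinearMap.sum_apply, mulLR_apply]

theorem avgP_isProj : LinearMap.IsProj (Csub σ H τ) (avgP σ H τ) := by
  classical
  have hcard : (Nat.card H : ℂ) ≠ 0 := by exact_mod_cast Nat.card_pos.ne'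
  constructor
  · intro X g
    rw [avgP_apply, Matrix.mul_smul, Matrix.smul_mul]
    congr 1
    rw [Matrix.mul_sum, Matrix.sum_mul]
    conv_rhs => rw [← Equiv.sum_comp (Equiv.mulLeft g)]
    refine Finset.sum_congr rfl fun h _ => ?_
    simp only [Equiv.coe_mulLeft, Subgroup.coe_mul, matOf_mul]
    rw [_root_.mul_inv_rev, matOf_mul, Matrix.mul_assoc, Matrix.mul_assoc, Matrix.mul_assoc,
      Matrix.mul_assoc, Matrix.mul_assoc, ← matOf_mul τ g⁻¹ g, inv_mul_cancel, matOf_one, Matrix.mul_one]
  · intro X hX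
    rw [avgP_apply]
    have h1 : ∀ h : H, matOf σ (h : G) * X * matOf τ h⁻¹ = X := by
      intro h
      rw [hX h, Matrix.mul_assoc, ← matOf_mul, mul_inv_cancel, matOf_one, Matrix.mul_one]
    simp only [h1, Finset.sum_const, Finset.card_univ]
    rw [← Nat.card_eq_fintype_card, ← Nat.cast_smul_eq_nsmul ℂ, smul_smul, inv_mul_cancel₀ hcard, one_smul]

theorem finrank_Csub : (finrank ℂ (Csub σ H τ) : ℂ) =
    classInner (fun h : H => σ.character (h : G)) τ.character := by
  have h1 := (avgP_isProj σ H τ).trace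
  rw [← h1]
  simp only [avgP, map_smul, map_sum, trace_mulLR, smul_eq_mul, classInner]
  congr 1
  refine Finset.sum_congr rfl fun h _ => ?_
  rw [trace_matOf, trace_matOf, character_inv]

set_option maxHeartbeats 1000000 in
/-- The core: an invariant alternating form and an invariant symmetric form give an even multiplicity. -/
theorem even_core (hσ : σ.IsIrreducible) (hτ : τ.IsIrreducible)
    (M : Matrix (Fin m) (Fin m) ℂ) (hM0 : M ≠ 0) (hMinv : ∀ g, (matOf σ g).transpose * M * matOf σ g = M)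
    (hMt : M.transpose = -M)
    (b : Matrix (Fin k) (Fin k) ℂ) (hb0 : b ≠ 0) (hbinv : ∀ h, (matOf τ h).transpose * b * matOf τ h = b)
    (hbt : b.transpose = b) : Even (finrank ℂ (Csub σ H τ)) := by
  classical
  -- `M` is invertible
  have hMdet : IsUnit M.det := by
    have hinj : Function.Injective M.mulVec := by
      have hU := ((isIrreducible_iff σ).mp hσ).2 (LinearMap.ker (Matrix.toLin' M)) (by
        intro g v hv
        rw [LinearMap.mem_ker, Matrix.toLin'_apply] at hv ⊢
        have h1 := hMinv g⁻¹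
        have h2 : M * matOf σ g = (matOf σ g⁻¹).transpose * M := by
          calc M * matOf σ g = (matOf σ g⁻¹).transpose * M * matOf σ g⁻¹ * matOf σ g := by rw [h1]
            _ = (matOf σ g⁻¹).transpose * M * (matOf σ g⁻¹ * matOf σ g) := by rw [Matrix.mul_assoc]
            _ = _ := by rw [← matOf_mul, inv_mul_cancel, matOf_one, Matrix.mul_one]
        have h3 : σ g v = matOf σ g *ᵥ v := (LinearMap.toMatrix'_mulVec (σ g) v).symm
        rw [h3, Matrix.mulVec_mulVec, h2, ← Matrix.mulVec_mulVec, hv, Matrix.mulVec_zero])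
      rcases hU with h | h
      · intro v w hvw
        have h1 : v - w ∈ LinearMap.ker (Matrix.toLin' M) := by
          rw [LinearMap.mem_ker, Matrix.toLin'_apply, Matrix.mulVec_sub, hvw, sub_self]
        rw [h, Submodule.mem_bot] at h1
        exact sub_eq_zero.mp h1
      · exfalso
        apply hM0
        apply Matrix.toLin'.injective
        rw [map_zero]
        exact LinearMap.ker_eq_top.mp h
    exact (Matrix.isUnit_iff_isUnit_det M).mp (Matrix.mulVec_injective_iff_isUnit.mp hinj)
  have hbdet : IsUnit b.det := by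
    have hinj : Function.Injective b.mulVec := by
      have hU := ((isIrreducible_iff τ).mp hτ).2 (LinearMap.ker (Matrix.toLin' b)) (by
        intro g v hv
        rw [LinearMap.mem_ker, Matrix.toLin'_apply] at hv ⊢
        have h1 := hbinv g⁻¹
        have h2 : b * matOf τ g = (matOf τ g⁻¹).transpose * b := by
          calc b * matOf τ g = (matOf τ g⁻¹).transpose * b * matOf τ g⁻¹ * matOf τ g := by rw [h1]
            _ = (matOf τ g⁻¹).transpose * b * (matOf τ g⁻¹ * matOf τ g) := by rw [Matrix.mul_assoc]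
            _ = _ := by rw [← matOf_mul, inv_mul_cancel, matOf_one, Matrix.mul_one]
        have h3 : τ g v = matOf τ g *ᵥ v := (LinearMap.toMatrix'_mulVec (τ g) v).symm
        rw [h3, Matrix.mulVec_mulVec, h2, ← Matrix.mulVec_mulVec, hv, Matrix.mulVec_zero])
      rcases hU with h | h
      · intro v w hvw
        have h1 : v - w ∈ LinearMap.ker (Matrix.toLin' b) := by
          rw [LinearMap.mem_ker, Matrix.toLin'_apply, Matrix.mulVec_sub, hvw, sub_self]
        rw [h, Submodule.mem_bot] at h1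
        exact sub_eq_zero.mp h1
      · exfalso
        apply hb0
        apply Matrix.toLin'.injective
        rw [map_zero]
        exact LinearMap.ker_eq_top.mp h
    exact (Matrix.isUnit_iff_isUnit_det b).mp (Matrix.mulVec_injective_iff_isUnit.mp hinj)
  have hkpos : (k : ℂ) ≠ 0 := by
    haveI : Nontrivial (Fin k → ℂ) := ((isIrreducible_iff τ).mp hτ).1
    have hk : k ≠ 0 := by
      rintro rfl
      exact absurd ‹Nontrivial (Fin 0 → ℂ)› (not_nontrivial_iff_subsingleton.mpr inferInstance)
    exact_mod_cast hk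
  let bi := b⁻¹
  have hbi1 : bi * b = 1 := Matrix.nonsing_inv_mul b hbdet
  have hbi2 : b * bi = 1 := Matrix.mul_nonsing_inv b hbdet
  let Mi := M⁻¹
  have hMi1 : Mi * M = 1 := Matrix.nonsing_inv_mul M hMdet
  have hMi2 : M * Mi = 1 := Matrix.mul_nonsing_inv M hMdet
  -- the pairing
  let c : Matrix (Fin m) (Fin k) ℂ → Matrix (Fin m) (Fin k) ℂ → ℂ := fun X Y =>
    (k : ℂ)⁻¹ * (bi * (X.transpose * M * Y)).trace
  -- invariant forms on `W` are multiples of `b`
  have hform : ∀ Z : Matrix (Fin k) (Fin k) ℂ, (∀ h, (matOf τ h).transpose * Z * matOf τ h = Z) →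
      Z = ((k : ℂ)⁻¹ * (bi * Z).trace) • b := by
    intro Z hZ
    have hcomm : ∀ h, (bi * Z) * matOf τ h = matOf τ h * (bi * Z) := by
      intro h
      have h1 : bi * (matOf τ h⁻¹).transpose = matOf τ h * bi := by
        have h2 := hbinv h⁻¹
        have h3 : (matOf τ h⁻¹).transpose * b = b * matOf τ h := by
          calc (matOf τ h⁻¹).transpose * b = (matOf τ h⁻¹).transpose * b * (matOf τ h⁻¹ * matOf τ h) := by
                rw [← matOf_mul, inv_mul_cancel, matOf_one, Matrix.mul_one]
            _ = ((matOf τ h⁻¹).transpose * b * matOf τ h⁻¹) * matOf τ h := by simp only [Matrix.mul_assoc]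
            _ = _ := by rw [h2]
        calc bi * (matOf τ h⁻¹).transpose = bi * (matOf τ h⁻¹).transpose * (b * bi) := by
              rw [hbi2, Matrix.mul_one]
          _ = bi * ((matOf τ h⁻¹).transpose * b) * bi := by simp only [Matrix.mul_assoc]
          _ = bi * (b * matOf τ h) * bi := by rw [h3]
          _ = (bi * b) * matOf τ h * bi := by simp only [Matrix.mul_assoc]
          _ = _ := by rw [hbi1, Matrix.one_mul]
      have h4 : Z * matOf τ h = (matOf τ h⁻¹).transpose * Z := by
        have h5 := hZ h⁻¹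
        calc Z * matOf τ h = (matOf τ h⁻¹).transpose * Z * matOf τ h⁻¹ * matOf τ h := by rw [h5]
          _ = (matOf τ h⁻¹).transpose * Z * (matOf τ h⁻¹ * matOf τ h) := by rw [Matrix.mul_assoc]
          _ = _ := by rw [← matOf_mul, inv_mul_cancel, matOf_one, Matrix.mul_one]
      calc (bi * Z) * matOf τ h = bi * (Z * matOf τ h) := by rw [Matrix.mul_assoc]
        _ = bi * ((matOf τ h⁻¹).transpose * Z) := by rw [h4]
        _ = (bi * (matOf τ h⁻¹).transpose) * Z := by rw [Matrix.mul_assoc]
        _ = (matOf τ h * bi) * Z := by rw [h1]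
        _ = _ := by rw [Matrix.mul_assoc]
    obtain ⟨w, hw⟩ := schur τ hτ (Matrix.toLin' (bi * Z)) (by
      intro g v
      have h3 : ∀ v, τ g v = matOf τ g *ᵥ v := fun v => (LinearMap.toMatrix'_mulVec (τ g) v).symm
      rw [h3, h3, Matrix.toLin'_apply, Matrix.toLin'_apply, Matrix.mulVec_mulVec, Matrix.mulVec_mulVec, hcomm])
    have hw' : bi * Z = w • (1 : Matrix (Fin k) (Fin k) ℂ) := by
      have := congrArg LinearMap.toMatrix' hw
      rw [LinearMap.toMatrix'_toLin', map_smul, LinearMap.toMatrix'_id] at this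
      exact this
    have htr : (k : ℂ)⁻¹ * (bi * Z).trace = w := by
      rw [hw', Matrix.trace_smul, Matrix.trace_one]
      simp only [Fintype.card_fin, smul_eq_mul]
      field_simp
    rw [htr]
    calc Z = (b * bi) * Z := by rw [hbi2, Matrix.one_mul]
      _ = b * (bi * Z) := by rw [Matrix.mul_assoc]
      _ = _ := by rw [hw', Matrix.mul_smul, Matrix.mul_one]
  have hc_eq : ∀ X ∈ Csub σ H τ, ∀ Y ∈ Csub σ H τ, X.transpose * M * Y = c X Y • b := by
    intro X hX Y hY
    apply hform
    intro h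
    have h1 := hX h
    have h2 := hY h
    calc (matOf τ h).transpose * (X.transpose * M * Y) * matOf τ h
        = (X * matOf τ h).transpose * M * (Y * matOf τ h) := by
          rw [Matrix.transpose_mul]
          simp only [Matrix.mul_assoc]
      _ = (matOf σ (h : G) * X).transpose * M * (matOf σ (h : G) * Y) := by rw [h1, h2]
      _ = X.transpose * ((matOf σ (h : G)).transpose * M * matOf σ (h : G)) * Y := by
          rw [Matrix.transpose_mul]
          simp only [Matrix.mul_assoc]
      _ = _ := by rw [hMinv]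
  -- skew-symmetry
  have hskew : ∀ X ∈ Csub σ H τ, ∀ Y ∈ Csub σ H τ, c Y X = - c X Y := by
    intro X hX Y hY
    have h1 := hc_eq X hX Y hY
    have h2 := hc_eq Y hY X hX
    have h3 := congrArg Matrix.transpose h1
    rw [Matrix.transpose_smul, hbt] at h3
    have h4 : (X.transpose * M * Y).transpose = - (Y.transpose * M * X) := by
      rw [Matrix.transpose_mul, Matrix.transpose_mul, Matrix.transpose_transpose, hMt]
      simp only [Matrix.mul_neg, Matrix.neg_mul, Matrix.mul_assoc]
    rw [h4, h2, ← neg_smul] at h3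
    -- cancel `b`
    have h5 : (- c Y X - c X Y) • b = 0 := by
      rw [sub_smul, h3, sub_self]
    have h6 := (smul_eq_zero.mp h5).resolve_right hb0
    linear_combination -h6
  -- nondegeneracy
  have hnd : ∀ X ∈ Csub σ H τ, X ≠ 0 → ∃ Y ∈ Csub σ H τ, c X Y ≠ 0 := by
    intro X hX hX0
    let Z : Matrix (Fin k) (Fin m) ℂ := bi * (X.transpose * M)
    have hZ0 : Z ≠ 0 := by
      intro h
      apply hX0
      have h1 : X.transpose * M = 0 := by
        calc X.transpose * M = (b * bi) * (X.transpose * M) := by rw [hbi2, Matrix.one_mul]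
          _ = b * Z := by rw [Matrix.mul_assoc]
          _ = 0 := by rw [h, Matrix.mul_zero]
      have h2 : X.transpose = 0 := by
        calc X.transpose = X.transpose * (M * Mi) := by rw [hMi2, Matrix.mul_one]
          _ = X.transpose * M * Mi := by rw [Matrix.mul_assoc]
          _ = 0 := by rw [h1, Matrix.zero_mul]
      exact Matrix.transpose_eq_zero.mp h2
    obtain ⟨i, j, hij⟩ : ∃ i j, Z i j ≠ 0 := by
      by_contra hcon
      push Not at hcon
      exact hZ0 (Matrix.ext hcon)
    have hZeq : ∀ h : H, Z * matOf σ (h : G) = matOf τ h * Z := by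
      intro h
      have h1 : M * matOf σ (h : G) = (matOf σ ((h⁻¹ : H) : G)).transpose * M := by
        have h2 := hMinv ((h⁻¹ : H) : G)
        calc M * matOf σ (h : G)
            = (matOf σ ((h⁻¹ : H) : G)).transpose * M * matOf σ ((h⁻¹ : H) : G) * matOf σ (h : G) := by rw [h2]
          _ = (matOf σ ((h⁻¹ : H) : G)).transpose * M * (matOf σ ((h⁻¹ : H) : G) * matOf σ (h : G)) := by
              rw [Matrix.mul_assoc]
          _ = _ := by
              rw [← matOf_mul]
              simp [matOf_one]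
      have h3 : X.transpose * (matOf σ ((h⁻¹ : H) : G)).transpose = (matOf τ h⁻¹).transpose * X.transpose := by
        rw [← Matrix.transpose_mul, ← Matrix.transpose_mul, hX h⁻¹]
      have h4 : bi * (matOf τ h⁻¹).transpose = matOf τ h * bi := by
        have h2 := hbinv h⁻¹
        have h5 : (matOf τ h⁻¹).transpose * b = b * matOf τ h := by
          calc (matOf τ h⁻¹).transpose * b = (matOf τ h⁻¹).transpose * b * (matOf τ h⁻¹ * matOf τ h) := by
                rw [← matOf_mul, inv_mul_cancel, matOf_one, Matrix.mul_one]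
            _ = ((matOf τ h⁻¹).transpose * b * matOf τ h⁻¹) * matOf τ h := by simp only [Matrix.mul_assoc]
            _ = _ := by rw [h2]
        calc bi * (matOf τ h⁻¹).transpose = bi * (matOf τ h⁻¹).transpose * (b * bi) := by
              rw [hbi2, Matrix.mul_one]
          _ = bi * ((matOf τ h⁻¹).transpose * b) * bi := by simp only [Matrix.mul_assoc]
          _ = bi * (b * matOf τ h) * bi := by rw [h5]
          _ = (bi * b) * matOf τ h * bi := by simp only [Matrix.mul_assoc]
          _ = _ := by rw [hbi1, Matrix.one_mul]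
      calc Z * matOf σ (h : G) = bi * (X.transpose * (M * matOf σ (h : G))) := by
            simp only [Z, Matrix.mul_assoc]
        _ = bi * (X.transpose * ((matOf σ ((h⁻¹ : H) : G)).transpose * M)) := by rw [h1]
        _ = bi * ((X.transpose * (matOf σ ((h⁻¹ : H) : G)).transpose) * M) := by
            simp only [Matrix.mul_assoc]
        _ = bi * (((matOf τ h⁻¹).transpose * X.transpose) * M) := by rw [h3]
        _ = (bi * (matOf τ h⁻¹).transpose) * (X.transpose * M) := by simp only [Matrix.mul_assoc]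
        _ = (matOf τ h * bi) * (X.transpose * M) := by rw [h4]
        _ = _ := by simp only [Z, Matrix.mul_assoc]
    let Y₀ : Matrix (Fin m) (Fin k) ℂ := Matrix.single j i 1
    have hY₀ : (Z * Y₀).trace = Z i j := by
      simp only [Matrix.trace, Matrix.diag, Y₀]
      rw [Finset.sum_eq_single i]
      · rw [Matrix.mul_single_apply_same, mul_one]
      · intro a _ ha
        rw [Matrix.mul_single_apply_of_ne _ _ _ _ _ ha]
      · intro h
        exact absurd (Finset.mem_univ _) h
    refine ⟨avgP σ H τ Y₀, (avgP_isProj σ H τ).map_mem Y₀, ?_⟩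
    have hcard : (Nat.card H : ℂ) ≠ 0 := by exact_mod_cast Nat.card_pos.ne'
    have htr : (Z * avgP σ H τ Y₀).trace = Z i j := by
      rw [avgP_apply, Matrix.mul_smul, Matrix.trace_smul, Matrix.mul_sum, Matrix.trace_sum]
      have h1 : ∀ h : H, (Z * (matOf σ (h : G) * Y₀ * matOf τ h⁻¹)).trace = Z i j := by
        intro h
        have h2 : Z * (matOf σ (h : G) * Y₀ * matOf τ h⁻¹) = (matOf τ h * (Z * Y₀)) * matOf τ h⁻¹ := by
          calc Z * (matOf σ (h : G) * Y₀ * matOf τ h⁻¹)
              = (Z * matOf σ (h : G)) * Y₀ * matOf τ h⁻¹ := by simp only [Matrix.mul_assoc]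
            _ = (matOf τ h * Z) * Y₀ * matOf τ h⁻¹ := by rw [hZeq]
            _ = _ := by simp only [Matrix.mul_assoc]
        rw [h2, Matrix.trace_mul_comm, ← Matrix.mul_assoc, ← matOf_mul, inv_mul_cancel, matOf_one,
          Matrix.one_mul, hY₀]
      simp only [h1, Finset.sum_const, Finset.card_univ]
      rw [← Nat.card_eq_fintype_card, ← Nat.cast_smul_eq_nsmul ℂ, smul_smul, inv_mul_cancel₀ hcard, one_smul]
    show (k : ℂ)⁻¹ * (bi * (X.transpose * M * avgP σ H τ Y₀)).trace ≠ 0
    have h2 : bi * (X.transpose * M * avgP σ H τ Y₀) = Z * avgP σ H τ Y₀ := by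
      simp only [Z, Matrix.mul_assoc]
    rw [h2, htr]
    exact mul_ne_zero (inv_ne_zero hkpos) hij
  -- even dimension
  let cL : Csub σ H τ →ₗ[ℂ] Csub σ H τ →ₗ[ℂ] ℂ := LinearMap.mk₂ ℂ (fun X Y => c X Y)
    (by
      intro X X' Y
      simp only [c, Submodule.coe_add, Matrix.transpose_add, Matrix.add_mul, Matrix.mul_add, Matrix.trace_add]
      ring)
    (by
      intro a X Y
      simp only [c, Submodule.coe_smul, Matrix.transpose_smul, Matrix.smul_mul, Matrix.mul_smul, Matrix.trace_smul,
        smul_eq_mul]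
      ring)
    (by
      intro X Y Y'
      simp only [c, Submodule.coe_add, Matrix.add_mul, Matrix.mul_add, Matrix.trace_add]
      ring)
    (by
      intro a X Y
      simp only [c, Submodule.coe_smul, Matrix.smul_mul, Matrix.mul_smul, Matrix.trace_smul, smul_eq_mul]
      ring)
  apply even_of_skew_nondeg cL
  · intro X Y
    exact hskew X X.2 Y Y.2
  · intro X hX
    have hX' : (X : Matrix (Fin m) (Fin k) ℂ) ≠ 0 := fun h => hX (Subtype.ext h)
    obtain ⟨Y, hY, hne⟩ := hnd X X.2 hX'
    exact ⟨⟨Y, hY⟩, hne⟩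

end Main


section Final

open Cfsg.Agent.Lib.CharClifford Cfsg.Agent.Lib.CharInd Cfsg.Agent.Lib.CharProj Cfsg.Agent.Lib.CharNormal

variable {G : Type u} [Group G] [Fintype G]

/-- odd multiplicity in a restriction to a subgroup forces indicator one. -/
theorem nu_one_of_odd (H : Subgroup G) [Fintype H] (χ : IrrCharacter G) (θ : IrrCharacter H)
    (hχ : ∀ g, (χ.1 g).im = 0)
    (hθν : (Nat.card H : ℂ)⁻¹ * ∑ s : H, θ.1 (s * s) = 1) (e : ℕ)
    (he : classInner (fun h : H => χ.1 h) θ.1 = e) (hodd : Odd e) :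
    (Nat.card G : ℂ)⁻¹ * ∑ s : G, χ.1 (s * s) = 1 := by
  classical
  obtain ⟨m, σ, hσ, hχσ⟩ := χ.2
  obtain ⟨k, τ, hτ, hθτ⟩ := θ.2
  rw [← hχσ] at hχ he ⊢
  rw [← hθτ] at hθν he
  have hreal' : ∀ g, (τ.character g).im = 0 := by
    by_contra hcon
    push Not at hcon
    have := (frobenius_schur_aux τ hτ).2.mpr hcon
    rw [hθν] at this
    exact one_ne_zero this
  have hFS := (frobenius_schur_aux σ hσ).1
  rcases hFS with h0 | h1 | h2
  · exfalso
    obtain ⟨s, hs⟩ := (frobenius_schur_aux σ hσ).2.mp h0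
    exact hs (hχ s)
  · exact h1
  · exfalso
    obtain ⟨⟨M, hM0, hMinv⟩, hMt⟩ := form_main σ hσ hχ
    obtain ⟨⟨b, hb0, hbinv⟩, hbt⟩ := form_main τ hτ hreal'
    have hMt' : M.transpose = -M := by
      rw [hMt M hMinv, h2]
      simp
    have hbt' : b.transpose = b := by
      rw [hbt b hbinv, hθν, one_smul]
    have hev := even_core σ H τ hσ hτ M hM0 hMinv hMt' b hb0 hbinv hbt'
    have hfr := finrank_Csub σ H τ
    rw [he] at hfr
    have h3 : finrank ℂ (Csub σ H τ) = e := by exact_mod_cast hfr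
    rw [h3] at hev
    exact (Nat.not_even_iff_odd.mpr hodd) hev

variable (N : Subgroup G) [hN : N.Normal] [Fintype N]

theorem mult_dvd_index {θ : N → ℂ} (hθ : IsIrrCharacter N θ) {χ : G → ℂ} (hχ : IsIrrCharacter G χ)
    (e : ℕ) (he : classInner (fun n : N => χ n) θ = e) (he0 : e ≠ 0) : e ∣ N.index := by
  classical
  set T : Subgroup G := inertia N θ with hTdef
  have hNT : N ≤ T := le_inertia N (classFunction_of_isIrrCharacter hθ)
  have hT : ∀ g : G, g ∈ T ↔ ∀ h : N, θ ⟨g * h * g⁻¹, hN.conj_mem h h.2 g⟩ = θ h :=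
    fun g => mem_inertia N θ g
  have := Fintype.ofFinite T
  have hcon : classInner (fun n : N => χ n) θ ≠ 0 := by
    rw [he]
    exact_mod_cast he0
  obtain ⟨ψ, hψ, hind, hmul⟩ := clifford_exists N T hNT hθ hT hχ hcon
  let N' : Subgroup T := N.subgroupOf T
  haveI hN' : N'.Normal := Subgroup.normal_subgroupOf
  let eqv : N' ≃* N := Subgroup.subgroupOfEquivOfLe hNT
  let θ' : N' → ℂ := θ ∘ eqv
  have := Fintype.ofFinite N'
  have hθ' : IsIrrCharacter N' θ' :=
    IsIrrCharacter.comp_surjective hθ eqv.toMonoidHom eqv.surjective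
  have hinv' : ∀ (g : T) (n : N'), θ' ⟨g * n * g⁻¹, hN'.conj_mem n n.2 g⟩ = θ' n := by
    intro g n
    exact (hT g).1 g.2 (eqv n)
  have hin' : classInner (fun n : N' => ψ n) θ' = e := by
    have h1 := classInner_comp_equiv eqv (resTo N T hNT ψ) θ
    rw [hmul, he] at h1
    exact h1
  have hdvd := mult_dvd_index_inv N' hθ' hinv' hψ e hin' he0
  exact hdvd.trans (Subgroup.relIndex_dvd_index_of_normal N T)

theorem nu_ind (hodd : Odd N.index) (φ : N → ℂ) :
    (Nat.card G : ℂ)⁻¹ * ∑ g : G, indFun N φ (g * g) = (Nat.card N : ℂ)⁻¹ * ∑ n : N, φ (n * n) := by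
  classical
  have hcardG : (Nat.card G : ℂ) ≠ 0 := by exact_mod_cast Nat.card_pos.ne'
  have h1 : ∀ x : G, ∑ g : G, extendByZero N φ (x⁻¹ * (g * g) * x) = ∑ g : G, extendByZero N φ (g * g) := by
    intro x
    rw [← Equiv.sum_comp (MulAut.conj x⁻¹).toEquiv (fun g => extendByZero N φ (g * g))]
    refine Finset.sum_congr rfl fun g _ => ?_
    simp only [MulEquiv.toEquiv_eq_coe, MulEquiv.coe_toEquiv, MulAut.conj_apply, inv_inv]
    congr 1
    group
  have h2 : ∑ g : G, indFun N φ (g * g) =
      (Nat.card N : ℂ)⁻¹ * ((Nat.card G : ℂ) * ∑ g : G, extendByZero N φ (g * g)) := by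
    simp only [indFun_apply]
    rw [← Finset.mul_sum, Finset.sum_comm]
    simp only [h1, Finset.sum_const, Finset.card_univ, nsmul_eq_mul, Nat.card_eq_fintype_card]
  have h3 : ∑ g : G, extendByZero N φ (g * g) = ∑ n : N, φ (n * n) := by
    have h4 : ∀ g : G, extendByZero N φ (g * g) = if g ∈ N then extendByZero N φ (g * g) else 0 := by
      intro g
      by_cases hg : g ∈ N
      · rw [if_pos hg]
      · rw [if_neg hg]
        apply extendByZero_of_not_mem
        intro hgg
        apply hg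
        have h5 : ((g : G ⧸ N)) ^ 2 = 1 := by
          rw [sq, ← QuotientGroup.mk_mul]
          exact (QuotientGroup.eq_one_iff _).mpr hgg
        have h6 : ((g : G ⧸ N)) ^ N.index = 1 := by
          rw [Subgroup.index_eq_card]
          exact pow_card_eq_one'
        have h7 := orderOf_dvd_of_pow_eq_one h5
        have h8 := orderOf_dvd_of_pow_eq_one h6
        have h9 : orderOf (g : G ⧸ N) = 1 := by
          apply Nat.eq_one_of_dvd_coprimes (Nat.coprime_two_left.mpr hodd) h7 h8
        exact (QuotientGroup.eq_one_iff _).mp (orderOf_eq_one_iff.mp h9)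
    rw [Finset.sum_congr rfl (fun g _ => h4 g), ← Finset.sum_filter,
      Finset.sum_subtype (p := fun g => g ∈ N) _ (fun g => by simp)]
    refine Finset.sum_congr rfl fun n _ => ?_
    rw [extendByZero_of_mem N φ (N.mul_mem n.2 n.2)]
    rfl
  rw [h2, h3]
  field_simp

theorem s4873_main (hodd : Odd N.index) (φ : IrrCharacter N)
    (hφ : (Nat.card N : ℂ)⁻¹ * ∑ n : N, φ.1 (n * n) = 1) :
    ∃! χ : IrrCharacter G, (Nat.card G : ℂ)⁻¹ * ∑ g : G, χ.1 (g * g) = 1 ∧
      classInner (fun n : N => χ.1 n) φ.1 ≠ 0 := by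
  classical
  choose e he using fun χ : IrrCharacter G =>
    IsCharacter.classInner_irr_nat (IsCharacter.res (IsIrrCharacter.isCharacter χ.2) N) φ.2
  have hoddE : ∀ χ, e χ ≠ 0 → Odd (e χ) := by
    intro χ h0
    exact Odd.of_dvd_nat hodd (mult_dvd_index N φ.2 χ.2 (e χ) (he χ) h0)
  let nu : IrrCharacter G → ℂ := fun χ => (Nat.card G : ℂ)⁻¹ * ∑ g : G, χ.1 (g * g)
  have hnu : ∀ χ, e χ ≠ 0 → nu χ = 0 ∨ nu χ = 1 := by
    intro χ h0
    by_cases hnu0 : nu χ = 0
    · exact Or.inl hnu0
    · right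
      have hreal : ∀ g, (χ.1 g).im = 0 := by
        by_contra hcon
        push Not at hcon
        obtain ⟨a, ρ, hρ, hc⟩ := χ.2
        rw [← hc] at hcon
        apply hnu0
        show (Nat.card G : ℂ)⁻¹ * ∑ g : G, χ.1 (g * g) = 0
        rw [← hc]
        exact (frobenius_schur_aux ρ hρ).2.mpr hcon
      exact nu_one_of_odd N χ φ hreal hφ (e χ) (he χ) (hoddE χ h0)
  -- the basic identity
  have hsum : ∑ χ : IrrCharacter G, (e χ : ℂ) * nu χ = 1 := by
    rw [← hφ, ← nu_ind N hodd φ.1]
    have hcl := indFun_classFunction N φ.1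
    have hexp := classFun_eq_sum _ hcl
    have h1 : ∀ g : G, indFun N φ.1 (g * g) = ∑ χ : IrrCharacter G, (e χ : ℂ) * χ.1 (g * g) := by
      intro g
      conv_lhs => rw [hexp]
      simp only [Finset.sum_apply, Pi.smul_apply, smul_eq_mul]
      refine Finset.sum_congr rfl fun χ _ => ?_
      congr 1
      rw [CharInd.frobenius N _ _ (fun g x => IrrBasic.val_conj χ g x), ← classInner_conj_symm, he χ,
        Complex.conj_natCast]
    simp only [h1, nu]
    rw [Finset.sum_comm, Finset.mul_sum]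
    refine Finset.sum_congr rfl fun χ _ => ?_
    rw [← Finset.mul_sum]
    ring
  -- integrality
  let a : IrrCharacter G → ℕ := fun χ => if nu χ = 1 then e χ else 0
  have hterm : ∀ χ, (e χ : ℂ) * nu χ = (a χ : ℂ) := by
    intro χ
    simp only [a]
    by_cases h0 : e χ = 0
    · simp [h0]
    · rcases hnu χ h0 with h | h
      · simp [h]
      · simp [h]
  have hsumN : ∑ χ, a χ = 1 := by
    have : ((∑ χ, a χ : ℕ) : ℂ) = 1 := by
      push_cast
      rw [← hsum]
      exact Finset.sum_congr rfl fun χ _ => (hterm χ).symm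
    exact_mod_cast this
  obtain ⟨χ₀, -, hχ₀⟩ := Finset.exists_ne_zero_of_sum_ne_zero (s := Finset.univ) (f := a) (by omega)
  have hmem : ∀ χ, (nu χ = 1 ∧ classInner (fun n : N => χ.1 n) φ.1 ≠ 0) ↔ a χ ≠ 0 := by
    intro χ
    simp only [a, he χ]
    constructor
    · rintro ⟨h1, h2⟩
      rw [if_pos h1]
      exact_mod_cast h2
    · intro h
      by_cases h1 : nu χ = 1
      · rw [if_pos h1] at h
        exact ⟨h1, by exact_mod_cast h⟩
      · rw [if_neg h1] at h
        exact absurd rfl h
  refine ⟨χ₀, (hmem χ₀).mpr hχ₀, fun χ₁ h₁ => ?_⟩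
  have h₁' := (hmem χ₁).mp h₁
  by_contra hne
  have h2 : ∑ χ ∈ ({χ₁, χ₀} : Finset (IrrCharacter G)), a χ ≤ ∑ χ, a χ :=
    Finset.sum_le_sum_of_subset (Finset.subset_univ _)
  rw [Finset.sum_pair hne, hsumN] at h2
  omega

end Final

end Cfsg.Agent.Lib.FSOdd
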