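import Cfsg.Agent.Lib.FSRoots
import Cfsg.Agent.Lib.CharClifford

/-! Real constituents of `+` type of a permutation character. -/

set_option autoImplicit false

namespace Cfsg.Agent.Lib.FSRoots

open Cfsg Cfsg.Agent.Lib.IrrBasic Cfsg.Agent.Lib Cfsg.Agent.Lib.BlockOku
open Cfsg.Agent.Lib.CharBasic Cfsg.Agent.Lib.CharOrth Cfsg.Agent.Lib.CharAlg Cfsg.Agent.Lib.CharPerm
open Cfsg.Agent.Lib.CharInd
open scoped ComplexConjugate

universe u

variable {G : Type u} [Group G] [Fintype G]

theorem nu_conj_self (χ : IrrCharacter G) : conj (nu χ) = nu χ := by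
  rcases (nu_values χ).1 with h | h | h <;> simp [h]

theorem inner_eq_sum (H : Subgroup G) [Fintype H] (χ : IrrCharacter G) :
    classInner (indFun H (fun _ : H => (1 : ℂ))) (χ : G → ℂ) =
      (Nat.card H : ℂ)⁻¹ * ∑ h : H, conj (χ.1 h) := by
  rw [CharInd.frobenius H _ _ (fun g x => val_conj χ g x)]
  simp [classInner]

/-- The sum of the indicators weighted with the multiplicities in `(1_H)^G`. -/
theorem sum_nu_inner (H : Subgroup G) [Fintype H] [DecidablePred (· ∈ H)] :
    ∑ χ : IrrCharacter G, nu χ * classInner (indFun H (fun _ : H => (1 : ℂ))) (χ : G → ℂ) =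
      (Nat.card H : ℂ)⁻¹ * ((Finset.univ.filter fun s : G => s * s ∈ H).card : ℂ) := by
  classical
  have h2 : ∀ h : H, ∑ χ : IrrCharacter G, nu χ * conj (χ.1 h) =
      ∑ s : G, if s * s = (h : G) then (1 : ℂ) else 0 := by
    intro h
    have h3 := count_roots (h : G)
    have h4 : (Nat.card {s : G // s * s = (h : G)} : ℂ) =
        ∑ s : G, if s * s = (h : G) then (1 : ℂ) else 0 := by
      rw [Finset.sum_boole, Nat.card_eq_fintype_card, Fintype.card_subtype]
    rw [← h4, ← Complex.conj_natCast, h3, map_sum]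
    refine Finset.sum_congr rfl fun χ _ => ?_
    rw [map_mul, nu_conj_self]
  calc ∑ χ : IrrCharacter G, nu χ * classInner (indFun H (fun _ : H => (1 : ℂ))) (χ : G → ℂ)
      = ∑ χ : IrrCharacter G, (Nat.card H : ℂ)⁻¹ * ∑ h : H, nu χ * conj (χ.1 h) := by
        refine Finset.sum_congr rfl fun χ _ => ?_
        rw [inner_eq_sum, Finset.mul_sum, Finset.mul_sum, Finset.mul_sum]
        refine Finset.sum_congr rfl fun h _ => ?_
        ring
    _ = (Nat.card H : ℂ)⁻¹ * ∑ h : H, ∑ χ : IrrCharacter G, nu χ * conj (χ.1 h) := by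
        rw [← Finset.mul_sum, Finset.sum_comm]
    _ = (Nat.card H : ℂ)⁻¹ * ∑ h : H, ∑ s : G, if s * s = (h : G) then (1 : ℂ) else 0 := by
        simp only [h2]
    _ = (Nat.card H : ℂ)⁻¹ * ∑ s : G, ∑ h : H, if s * s = (h : G) then (1 : ℂ) else 0 := by
        rw [Finset.sum_comm]
    _ = (Nat.card H : ℂ)⁻¹ * ((Finset.univ.filter fun s : G => s * s ∈ H).card : ℂ) := by
        congr 1
        rw [← Finset.sum_boole]
        refine Finset.sum_congr rfl fun s _ => ?_
        by_cases hs : s * s ∈ H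
        · rw [if_pos hs, Finset.sum_eq_single (⟨s * s, hs⟩ : H)]
          · simp
          · intro b _ hb
            rw [if_neg]
            intro h'
            exact hb (Subtype.ext h'.symm)
          · intro h'
            exact absurd (Finset.mem_univ _) h'
        · rw [if_neg hs]
          apply Finset.sum_eq_zero
          intro b _
          rw [if_neg]
          intro h'
          exact hs (h' ▸ b.2)

theorem inner_one_ind (H : Subgroup G) [Fintype H] :
    classInner (indFun H (fun _ : H => (1 : ℂ))) ((BlockMain4.oneIrr G : IrrCharacter G) : G → ℂ) = 1 := by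
  have hne : (Nat.card H : ℂ) ≠ 0 := by exact_mod_cast Nat.card_pos.ne'
  rw [inner_eq_sum]
  have h : ∀ g, (BlockMain4.oneIrr G).1 g = 1 := fun g => rfl
  simp only [h, map_one, Finset.sum_const, Finset.card_univ, nsmul_eq_mul, mul_one]
  rw [← Nat.card_eq_fintype_card]
  exact inv_mul_cancel₀ hne

theorem mem_of_sq_mem (H : Subgroup G)
    (h : Nat.card {χ : IrrCharacter G // classInner (indFun H (fun _ : H => (1 : ℂ))) (χ : G → ℂ) ≠ 0 ∧
      (∀ g : G, conj ((χ : G → ℂ) g) = (χ : G → ℂ) g) ∧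
      (Nat.card G : ℂ)⁻¹ * ∑ g : G, (χ : G → ℂ) (g * g) = 1} = 1) (s : G) (hs : s * s ∈ H) : s ∈ H := by
  classical
  haveI : Fintype H := Fintype.ofFinite _
  set π := indFun H (fun _ : H => (1 : ℂ)) with hπ
  have hπc : IsCharacter G π := IsCharacter.ind H isCharacter_one
  -- the unique constituent is the trivial one
  have huniq : ∀ χ : IrrCharacter G, classInner π (χ : G → ℂ) ≠ 0 → nu χ = 1 →
      χ = BlockMain4.oneIrr G := by
    intro χ h1 h2
    have hr : ∀ g : G, conj ((χ : G → ℂ) g) = (χ : G → ℂ) g := by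
      intro g
      rw [Complex.conj_eq_iff_im]
      by_contra hg
      have := (nu_values χ).2.mpr ⟨g, hg⟩
      rw [h2] at this
      exact one_ne_zero this
    have hr0 : ∀ g : G, conj (((BlockMain4.oneIrr G : IrrCharacter G) : G → ℂ) g) =
        ((BlockMain4.oneIrr G : IrrCharacter G) : G → ℂ) g := by
      intro g
      have : (BlockMain4.oneIrr G).1 g = 1 := rfl
      simp [this]
    haveI := (Nat.card_eq_one_iff_unique.mp h).1
    have := Subsingleton.elim (⟨χ, h1, hr, h2⟩ : {χ : IrrCharacter G // classInner π (χ : G → ℂ) ≠ 0 ∧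
      (∀ g : G, conj ((χ : G → ℂ) g) = (χ : G → ℂ) g) ∧
      (Nat.card G : ℂ)⁻¹ * ∑ g : G, (χ : G → ℂ) (g * g) = 1})
      ⟨BlockMain4.oneIrr G, by rw [inner_one_ind]; exact one_ne_zero, hr0, nu_one⟩
    exact congrArg Subtype.val this
  -- reals
  let r : IrrCharacter G → ℝ := fun χ => (nu χ).re
  have hm : ∀ χ : IrrCharacter G, ∃ n : ℕ, classInner π (χ : G → ℂ) = n := fun χ =>
    IsCharacter.classInner_irr_nat hπc χ.2
  choose m hm using hm
  have hsum := sum_nu_inner H
  have hνr : ∀ χ, nu χ = (r χ : ℂ) := by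
    intro χ
    rcases (nu_values χ).1 with h | h | h <;> simp [r, h]
  have hR : ∑ χ : IrrCharacter G, r χ * (m χ : ℝ) =
      (Nat.card H : ℝ)⁻¹ * ((Finset.univ.filter fun s : G => s * s ∈ H).card : ℝ) := by
    apply Complex.ofReal_injective
    push_cast
    rw [← hsum]
    refine Finset.sum_congr rfl fun χ _ => ?_
    rw [hm χ, ← hνr χ]
  have hm0 : m (BlockMain4.oneIrr G) = 1 := by
    have h1 := hm (BlockMain4.oneIrr G)
    rw [inner_one_ind] at h1
    exact_mod_cast h1.symm
  have hr0 : r (BlockMain4.oneIrr G) = 1 := by simp [r, nu_one]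
  have hle : ∑ χ : IrrCharacter G, r χ * (m χ : ℝ) ≤ 1 := by
    rw [← Finset.add_sum_erase _ _ (Finset.mem_univ (BlockMain4.oneIrr G)), hm0, hr0]
    have : ∑ χ ∈ Finset.univ.erase (BlockMain4.oneIrr G), r χ * (m χ : ℝ) ≤ 0 := by
      apply Finset.sum_nonpos
      intro χ hχ
      have hne := (Finset.mem_erase.mp hχ).1
      by_cases h0 : m χ = 0
      · simp [h0]
      · have h1 : classInner π (χ : G → ℂ) ≠ 0 := by
          rw [hm χ]
          exact_mod_cast h0
        have h2 : nu χ ≠ 1 := fun h3 => hne (huniq χ h1 h3)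
        have h3 : r χ ≤ 0 := by
          rcases (nu_values χ).1 with h | h | h
          · simp [r, h]
          · exact absurd h h2
          · simp [r, h]
        exact mul_nonpos_of_nonpos_of_nonneg h3 (Nat.cast_nonneg _)
    simp only [Nat.cast_one, mul_one]
    linarith
  rw [hR] at hle
  have hHpos : (0 : ℝ) < Nat.card H := by exact_mod_cast Nat.card_pos
  have hcard : ((Finset.univ.filter fun s : G => s * s ∈ H).card : ℝ) ≤ Nat.card H := by
    rw [inv_mul_le_iff₀ hHpos, mul_one] at hle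
    exact hle
  have hsub : (Finset.univ.filter fun s : G => s ∈ H) ⊆ (Finset.univ.filter fun s : G => s * s ∈ H) := by
    intro t ht
    simp only [Finset.mem_filter, Finset.mem_univ, true_and] at ht ⊢
    exact H.mul_mem ht ht
  have hcardH : (Finset.univ.filter fun s : G => s ∈ H).card = Nat.card H := by
    rw [Nat.card_eq_fintype_card, Fintype.card_subtype]
  have heq := Finset.eq_of_subset_of_card_le hsub (by
    rw [hcardH]
    exact_mod_cast hcard)
  have : s ∈ (Finset.univ.filter fun s : G => s * s ∈ H) := by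
    simp only [Finset.mem_filter, Finset.mem_univ, true_and]
    exact hs
  rw [← heq] at this
  simpa using this

theorem odd_core_of_card (H : Subgroup G)
    (h : Nat.card {χ : IrrCharacter G // classInner (indFun H (fun _ : H => (1 : ℂ))) (χ : G → ℂ) ≠ 0 ∧
      (∀ g : G, conj ((χ : G → ℂ) g) = (χ : G → ℂ) g) ∧
      (Nat.card G : ℂ)⁻¹ * ∑ g : G, (χ : G → ℂ) (g * g) = 1} = 1) : Odd H.normalCore.index := by
  by_contra hodd
  rw [Nat.not_odd_iff_even] at hodd
  set K := H.normalCore with hK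
  haveI : Fact (Nat.Prime 2) := ⟨Nat.prime_two⟩
  obtain ⟨z, hz⟩ := exists_prime_orderOf_dvd_card' 2 (G := G ⧸ K) hodd.two_dvd
  obtain ⟨t, rfl⟩ := QuotientGroup.mk_surjective z
  have h1 : t * t ∈ K := by
    have h2 := pow_orderOf_eq_one (t : G ⧸ K)
    rw [hz, sq, ← QuotientGroup.mk_mul] at h2
    exact (QuotientGroup.eq_one_iff _).mp h2
  have h2 : t ∈ K := by
    intro g
    apply mem_of_sq_mem H h
    have h3 : g * t * g⁻¹ * (g * t * g⁻¹) = g * (t * t) * g⁻¹ := by group
    rw [h3]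
    exact H.normalCore_le (Subgroup.Normal.conj_mem inferInstance _ h1 g)
  have h3 : (t : G ⧸ K) = 1 := (QuotientGroup.eq_one_iff _).mpr h2
  rw [h3, orderOf_one] at hz
  omega

theorem val_eq_of_inner_ne_zero (H : Subgroup G) (χ : IrrCharacter G)
    (hχ : classInner (indFun H (fun _ : H => (1 : ℂ))) (χ : G → ℂ) ≠ 0) (k : G)
    (hk : k ∈ H.normalCore) : χ.1 k = χ.1 1 := by
  classical
  set π := indFun H (fun _ : H => (1 : ℂ)) with hπ
  have hπc : IsCharacter G π := IsCharacter.ind H isCharacter_one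
  have hπk : π k = π 1 := by
    simp only [hπ, indFun_apply]
    congr 1
    refine Finset.sum_congr rfl fun x _ => ?_
    have h1 : x⁻¹ * k * x ∈ H := by
      have := hk x⁻¹
      simpa using this
    have h2 : x⁻¹ * 1 * x ∈ H := by simp [H.one_mem]
    rw [extendByZero_of_mem _ _ h1, extendByZero_of_mem _ _ h2]
  obtain ⟨m, hm⟩ := IsCharacter.exists_nat_coeff hπc
  have hmχ : (m χ : ℂ) ≠ 0 := by
    have := classInner_sum_irr (fun φ => (m φ : ℂ)) χ
    rw [← hm] at this
    rw [← this]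
    exact hχ
  let d : IrrCharacter G → ℝ := fun ψ => (dim ψ : ℝ)
  have hd : ∀ ψ : IrrCharacter G, ψ.1 1 = (d ψ : ℂ) := by
    intro ψ
    rw [val_one]
    simp [d]
  have hsum : ∑ ψ : IrrCharacter G, (m ψ : ℝ) * (d ψ - (ψ.1 k).re) = 0 := by
    have h1 : π 1 - π k = 0 := by rw [hπk, sub_self]
    rw [hm] at h1
    simp only [Finset.sum_apply, Pi.smul_apply, smul_eq_mul] at h1
    have h2 := congrArg Complex.re h1
    rw [Complex.sub_re, Complex.re_sum, Complex.re_sum] at h2
    simp only [hd, Complex.zero_re] at h2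
    rw [← Finset.sum_sub_distrib] at h2
    rw [← h2]
    refine Finset.sum_congr rfl fun ψ _ => ?_
    simp
    ring
  have hnn : ∀ ψ ∈ (Finset.univ : Finset (IrrCharacter G)), 0 ≤ (m ψ : ℝ) * (d ψ - (ψ.1 k).re) := by
    intro ψ _
    apply mul_nonneg (Nat.cast_nonneg _)
    have h1 := val_norm_le ψ k
    have h2 := Complex.re_le_norm (ψ.1 k)
    simp only [d]
    linarith
  have h0 := (Finset.sum_eq_zero_iff_of_nonneg hnn).mp hsum χ (Finset.mem_univ _)
  have h1 : (m χ : ℝ) ≠ 0 := by exact_mod_cast hmχ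
  have h2 : (χ.1 k).re = d χ := by
    rcases mul_eq_zero.mp h0 with h3 | h3
    · exact absurd h3 h1
    · linarith
  rw [hd χ]
  exact CharClifford.eq_of_norm_le_of_re_eq (val_norm_le χ k) h2

theorem card_eq_one_of_odd (H : Subgroup G) (hodd : Odd H.normalCore.index) :
    Nat.card {χ : IrrCharacter G // classInner (indFun H (fun _ : H => (1 : ℂ))) (χ : G → ℂ) ≠ 0 ∧
      (∀ g : G, conj ((χ : G → ℂ) g) = (χ : G → ℂ) g) ∧
      (Nat.card G : ℂ)⁻¹ * ∑ g : G, (χ : G → ℂ) (g * g) = 1} = 1 := by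
  classical
  haveI : Fintype H := Fintype.ofFinite _
  set K := H.normalCore with hK
  rw [Nat.card_eq_one_iff_unique]
  refine ⟨⟨?_⟩, ⟨⟨BlockMain4.oneIrr G, by rw [inner_one_ind]; exact one_ne_zero, ?_, nu_one⟩⟩⟩
  swap
  · intro g
    have : (BlockMain4.oneIrr G).1 g = 1 := rfl
    simp [this]
  have key : ∀ χ : IrrCharacter G, classInner (indFun H (fun _ : H => (1 : ℂ))) (χ : G → ℂ) ≠ 0 →
      (Nat.card G : ℂ)⁻¹ * ∑ g : G, (χ : G → ℂ) (g * g) = 1 → χ = BlockMain4.oneIrr G := by
    intro χ h1 h2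
    obtain ⟨χ', hχ'⟩ := BlockNorm.exists_deflate K χ (fun n hn => val_eq_of_inner_ne_zero H χ h1 n hn)
    haveI : Fintype (G ⧸ K) := Fintype.ofFinite _
    haveI : Fintype K := Fintype.ofFinite _
    have hcop : (Nat.card (G ⧸ K)).Coprime 2 := Nat.coprime_two_right.mpr hodd
    have h3 : ∑ g : G, (χ : G → ℂ) (g * g) = Nat.card K • ∑ y : G ⧸ K, χ'.1 y := by
      have h4 : ∑ y : G ⧸ K, χ'.1 (y ^ 2) = ∑ y : G ⧸ K, χ'.1 y :=
        Equiv.sum_comp (powCoprime hcop) (fun y => χ'.1 y)
      rw [← h4, ← BlockNorm.sum_mk_eq K (fun y => χ'.1 (y ^ 2))]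
      refine Finset.sum_congr rfl fun g _ => ?_
      rw [hχ']
      simp [sq]
    have hG : Nat.card G = Nat.card (G ⧸ K) * Nat.card K :=
      Subgroup.card_eq_card_quotient_mul_card_subgroup K
    have hKne : (Nat.card K : ℂ) ≠ 0 := by exact_mod_cast Nat.card_pos.ne'
    have hQne : (Nat.card (G ⧸ K) : ℂ) ≠ 0 := by exact_mod_cast Nat.card_pos.ne'
    rw [h3, hG] at h2
    have h5 : classInner χ'.1 ((BlockMain4.oneIrr (G ⧸ K)).1) = 1 := by
      have h6 : ∀ y, (BlockMain4.oneIrr (G ⧸ K)).1 y = 1 := fun y => rfl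
      simp only [classInner, h6, map_one, mul_one]
      push_cast at h2
      rw [nsmul_eq_mul] at h2
      field_simp at h2 ⊢
      exact h2
    rw [IrrBasic.classInner_irr] at h5
    have h6 : χ' = BlockMain4.oneIrr (G ⧸ K) := by
      by_contra hne
      rw [if_neg hne] at h5
      exact zero_ne_one h5
    apply Subtype.ext
    rw [hχ', h6]
    rfl
  intro a b
  apply Subtype.ext
  rw [key a.1 a.2.1 a.2.2.2, key b.1 b.2.1 b.2.2.2]

theorem s4784 (H : Subgroup G) :
    Nat.card {χ : IrrCharacter G // classInner (indFun H (fun _ : H => (1 : ℂ))) (χ : G → ℂ) ≠ 0 ∧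
      (∀ g : G, conj ((χ : G → ℂ) g) = (χ : G → ℂ) g) ∧
      (Nat.card G : ℂ)⁻¹ * ∑ g : G, (χ : G → ℂ) (g * g) = 1} = 1 ↔ Odd H.normalCore.index :=
  ⟨odd_core_of_card H, card_eq_one_of_odd H⟩

end Cfsg.Agent.Lib.FSRoots
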