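import Cfsg.Prelude.Def_Solvable
import Mathlib

set_option autoImplicit false

/-! Frobenius groups from fixed-point-free actions. -/

namespace Cfsg.Agent.Lib.FrobEx

open Subgroup Cfsg
open scoped Pointwise

variable {V K : Type*} [Group V] [Group K]

theorem inr_isFrob [Nontrivial V] [Nontrivial K] (φ : K →* MulAut V)
    (hφ : ∀ k : K, k ≠ 1 → ∀ v : V, φ k v = v → v = 1) :
    IsFrobeniusComplement (SemidirectProduct.inr : K →* V ⋊[φ] K).range := by
  classical
  have hmem : ∀ g : V ⋊[φ] K, g.left = 1 → g ∈ (SemidirectProduct.inr : K →* V ⋊[φ] K).range := by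
    intro g hg
    refine ⟨g.right, ?_⟩
    apply SemidirectProduct.ext
    · rw [hg]; rfl
    · rfl
  have hleft : ∀ g ∈ (SemidirectProduct.inr : K →* V ⋊[φ] K).range, g.left = 1 := by
    rintro _ ⟨k, rfl⟩
    rfl
  refine ⟨?_, ?_, ?_⟩
  · intro h
    obtain ⟨k, hk⟩ := exists_ne (1 : K)
    have h1 : (SemidirectProduct.inr k : V ⋊[φ] K) ∈ (SemidirectProduct.inr : K →* V ⋊[φ] K).range := ⟨k, rfl⟩
    rw [h] at h1
    have h2 : (SemidirectProduct.inr k : V ⋊[φ] K) = 1 := h1
    have h3 : k = 1 := SemidirectProduct.inr_injective (by rw [h2, map_one])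
    exact hk h3
  · intro h
    obtain ⟨v, hv⟩ := exists_ne (1 : V)
    have h1 : (SemidirectProduct.inl v : V ⋊[φ] K) ∈ (SemidirectProduct.inr : K →* V ⋊[φ] K).range := by
      rw [h]; trivial
    exact hv (hleft _ h1)
  · intro g hg
    rw [eq_bot_iff]
    rintro x ⟨⟨k, rfl⟩, hx2⟩
    obtain ⟨y, hy, hxy⟩ := hx2
    have hyl := hleft y hy
    have hxy' : g * y * g⁻¹ = SemidirectProduct.inr k := hxy
    have h1 : (SemidirectProduct.inr k : V ⋊[φ] K) * g = g * y := by rw [← hxy']; group
    have h2 := congrArg SemidirectProduct.left h1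
    rw [SemidirectProduct.mul_left, SemidirectProduct.mul_left, hyl] at h2
    simp only [SemidirectProduct.left_inr, SemidirectProduct.right_inr, one_mul, map_one, mul_one] at h2
    by_cases hk : k = 1
    · rw [hk, map_one]; exact one_mem _
    · exact absurd (hmem g (hφ k hk _ h2)) hg

/-- The complement of the semidirect product is isomorphic to the acting group. -/
noncomputable def inrEquiv (φ : K →* MulAut V) :
    K ≃* (SemidirectProduct.inr : K →* V ⋊[φ] K).range :=
  MonoidHom.ofInjective SemidirectProduct.inr_injective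

end Cfsg.Agent.Lib.FrobEx
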