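import Mathlib
import Cfsg.Agent.Lib.FusFree
import Cfsg.Agent.Lib.FusGT5
import Cfsg.Agent.Lib.FusReal2

set_option autoImplicit false
set_option linter.unusedSectionVars false
set_option linter.unusedVariables false

/-!
Normal subsystems of constrained systems are constrained.
-/

namespace Cfsg.Agent.Lib.FusConstr

open Cfsg Cfsg.FusionSystem Cfsg.Agent.Lib.FusBasic Cfsg.Agent.Lib.FusAut Cfsg.Agent.Lib.FusSat Cfsg.Agent.Lib.FusNorm
  Cfsg.Agent.Lib.FusSolv Cfsg.Agent.Lib.H1Core Cfsg.Agent.Lib.FusReal Cfsg.Agent.Lib.FusReal2 Cfsg.Agent.Lib.FusFree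
  Cfsg.Agent.Lib.FusModel2

universe u

variable {Ω : Type u} [Group Ω] {S : Subgroup Ω} {F : FusionSystem S} {p : ℕ} [Fact p.Prime]

/-- a stability lemma: normal subgroups stabilizing a chain -/
theorem stab_le_core {L : Type*} [Group L] [Finite L] {O R : Subgroup L} (hR : R.Normal) (hRO : R ≤ O) (hO : O.Normal)
    (hOp : IsPGroup p O) (hC : Subgroup.centralizer (O : Set L) ≤ O) :
    ∃ A : Subgroup L, A.Normal ∧ IsPGroup p A ∧ ∀ x, x ∈ A ↔ (x ∈ Subgroup.centralizer (R : Set L) ∧ ∀ q ∈ O, x * q * x⁻¹ * q⁻¹ ∈ R) := by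
  classical
  let A : Subgroup L :=
    { carrier := {x | x ∈ Subgroup.centralizer (R : Set L) ∧ ∀ q ∈ O, x * q * x⁻¹ * q⁻¹ ∈ R}
      one_mem' := ⟨Subgroup.one_mem _, fun q hq => by simp⟩
      mul_mem' := by
        rintro a b ⟨ha, ha'⟩ ⟨hb, hb'⟩
        refine ⟨Subgroup.mul_mem _ ha hb, fun q hq => ?_⟩
        have h1 := ha' q hq
        have h2 := hb' q hq
        have e : a * b * q * (a * b)⁻¹ * q⁻¹ = a * (b * q * b⁻¹ * q⁻¹) * a⁻¹ * (a * q * a⁻¹ * q⁻¹) := by group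
        rw [e]
        exact R.mul_mem (hR.conj_mem _ h2 a) h1
      inv_mem' := by
        rintro a ⟨ha, ha'⟩
        refine ⟨Subgroup.inv_mem _ ha, fun q hq => ?_⟩
        have hq' : a⁻¹ * q * a⁻¹⁻¹ ∈ O := hO.conj_mem _ hq a⁻¹
        have h1 := ha' _ hq'
        have e : a⁻¹ * q * a⁻¹⁻¹ * q⁻¹ = (a * (a⁻¹ * q * a⁻¹⁻¹) * a⁻¹ * (a⁻¹ * q * a⁻¹⁻¹)⁻¹)⁻¹ := by group
        rw [e]
        exact R.inv_mem h1 }
  have hAm : ∀ x, x ∈ A ↔ (x ∈ Subgroup.centralizer (R : Set L) ∧ ∀ q ∈ O, x * q * x⁻¹ * q⁻¹ ∈ R) := fun x => Iff.rfl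
  refine ⟨A, ⟨fun x hx g => ?_⟩, ?_, hAm⟩
  · obtain ⟨h1, h2⟩ := hx
    refine ⟨?_, fun q hq => ?_⟩
    · refine Subgroup.mem_centralizer_iff.2 fun r hr => ?_
      have hr' : g⁻¹ * r * g⁻¹⁻¹ ∈ R := hR.conj_mem _ hr g⁻¹
      have h3 := Subgroup.mem_centralizer_iff.1 h1 _ hr'
      have e1 : r * (g * x * g⁻¹) = g * ((g⁻¹ * r * g⁻¹⁻¹) * x) * g⁻¹ := by group
      have e2 : (g * x * g⁻¹) * r = g * (x * (g⁻¹ * r * g⁻¹⁻¹)) * g⁻¹ := by group
      rw [e1, e2, h3]
    · have hq' : g⁻¹ * q * g⁻¹⁻¹ ∈ O := hO.conj_mem _ hq g⁻¹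
      have h3 := h2 _ hq'
      have e : g * x * g⁻¹ * q * (g * x * g⁻¹)⁻¹ * q⁻¹ = g * (x * (g⁻¹ * q * g⁻¹⁻¹) * x⁻¹ * (g⁻¹ * q * g⁻¹⁻¹)⁻¹) * g⁻¹ := by group
      rw [e]
      exact hR.conj_mem _ h3 g
  · -- every element has `p`-power order
    have hRp : IsPGroup p R := hOp.to_le hRO
    have hpow : ∀ x : A, ∃ k, x ^ p ^ k = 1 := by
      intro x
      haveI : NeZero (orderOf x) := ⟨(orderOf_pos x).ne'⟩
      obtain ⟨a, m, hm, hn⟩ := Nat.exists_eq_pow_mul_and_not_dvd (n := orderOf x) (orderOf_pos x).ne' p (Fact.out : p.Prime).ne_one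
      refine ⟨a, ?_⟩
      let y : A := x ^ p ^ a
      have hy1 : y ^ m = 1 := by
        show (x ^ p ^ a) ^ m = 1
        rw [← pow_mul, ← hn, pow_orderOf_eq_one]
      -- `y` centralizes `O`
      have hyc : ∀ q ∈ O, (y : L) * q * (y : L)⁻¹ = q := by
        intro q hq
        have hy2 := (y.2.2 q hq)
        set r := (y : L) * q * (y : L)⁻¹ * q⁻¹ with hr
        have hrc : (y : L) * r = r * (y : L) := (Subgroup.mem_centralizer_iff.1 y.2.1 r hy2).symm
        have hiter : ∀ k : ℕ, ((y : L) ^ k) * q * ((y : L) ^ k)⁻¹ = r ^ k * q := by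
          intro k
          induction k with
          | zero => simp
          | succ k ih =>
            have e1 : (y : L) * q = r * q * (y : L) := by
              rw [hr]
              group
            rw [pow_succ', mul_inv_rev, show (y : L) * (y : L) ^ k * q * (((y : L) ^ k)⁻¹ * (y : L)⁻¹) = (y : L) * ((y : L) ^ k * q * ((y : L) ^ k)⁻¹) * (y : L)⁻¹ by group, ih]
            have e2 : Commute (y : L) (r ^ k) := (Commute.pow_right (show Commute (y : L) r from hrc) k)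
            rw [show (y : L) * (r ^ k * q) * (y : L)⁻¹ = ((y : L) * r ^ k) * q * (y : L)⁻¹ by group, e2.eq,
              show r ^ k * (y : L) * q * (y : L)⁻¹ = r ^ k * ((y : L) * q * (y : L)⁻¹) by group]
            rw [show (y : L) * q * (y : L)⁻¹ = r * q by rw [hr]; group, pow_succ]
            group
        have hm1 : (y : L) ^ m = 1 := by
          have := congrArg (fun z : A => (z : L)) hy1
          simpa using this
        have h3 := hiter m
        rw [hm1] at h3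
        simp only [inv_one, mul_one, one_mul] at h3
        have h4 : r ^ m = 1 := by
          have h5 : r ^ m * q = 1 * q := by rw [one_mul]; exact h3.symm
          exact mul_right_cancel h5
        -- `r = 1`
        have hr1 : r = 1 := by
          obtain ⟨k, hk⟩ := hRp ⟨r, hy2⟩
          have hk' : r ^ p ^ k = 1 := by
            have := congrArg (fun z : R => (z : L)) hk
            simpa using this
          have hco : Nat.Coprime (p ^ k) m := Nat.Coprime.pow_left _ ((Nat.Prime.coprime_iff_not_dvd (Fact.out : p.Prime)).2 hm)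
          have := pow_gcd_eq_one.2 ⟨hk', h4⟩
          rw [Nat.Coprime.gcd_eq_one hco, pow_one] at this
          exact this
        have e : (y : L) * q * (y : L)⁻¹ = r * q := by rw [hr]; group
        rw [e, hr1, one_mul]
      have hyC : (y : L) ∈ Subgroup.centralizer (O : Set L) := by
        refine Subgroup.mem_centralizer_iff.2 fun q hq => ?_
        have := hyc q hq
        calc q * (y : L) = ((y : L) * q * (y : L)⁻¹) * (y : L) := by rw [this]
          _ = _ := by group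
      have hyO := hC hyC
      obtain ⟨k, hk⟩ := hOp ⟨y, hyO⟩
      have hk' : (y : L) ^ p ^ k = 1 := by
        have := congrArg (fun z : O => (z : L)) hk
        simpa using this
      have hm1 : (y : L) ^ m = 1 := by
        have := congrArg (fun z : A => (z : L)) hy1
        simpa using this
      have hco : Nat.Coprime (p ^ k) m := Nat.Coprime.pow_left _ ((Nat.Prime.coprime_iff_not_dvd (Fact.out : p.Prime)).2 hm)
      have h5 := pow_gcd_eq_one.2 ⟨hk', hm1⟩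
      rw [Nat.Coprime.gcd_eq_one hco, pow_one] at h5
      exact Subtype.ext h5
    exact hpow

/-- normal subsystems of constrained systems are constrained -/
theorem constrained_of_normal [Finite S] (hS : IsPGroup p S) (hF : F.IsConstrained p) {T : Subgroup Ω} {D : FusionSystem T}
    (hD : D.IsNormalIn F p) : D.IsConstrained p := by
  classical
  obtain ⟨⟨hDsat, -, hsub, hTsc, -, -⟩, -⟩ := hD
  have hTS : T ≤ S := hTsc.1
  haveI : Finite T := finite_of_le hTS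
  have hTp : IsPGroup p T := hS.to_le hTS
  obtain ⟨hFsat, Q₀, hQ₀, hC₀⟩ := hF
  obtain ⟨L, _, ι, hLM, -, -⟩ := exists_model_core hS hFsat hQ₀ (hC₀.2 Q₀ (isConj_refl F hQ₀.1))
  obtain ⟨hfin, hr, ⟨T₁, hT₁⟩, hC⟩ := id hLM
  have hQ := isNormal_coreOf hr T₁ hT₁
  have hQS : coreOf p ι ≤ S := hQ.1
  have hQsc := stronglyClosed_of_normal F hQ
  have hO := pCore_le_range T₁ hT₁
  haveI : (pCore p L).Normal := H1Core.pCore_normal p L
  have hOp : IsPGroup p (pCore p L) := H1Core.pCore_isPGroup p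
  have hRT : coreOf p ι ⊓ T ≤ T := inf_le_right
  have hRS : coreOf p ι ⊓ T ≤ S := hRT.trans hTS
  haveI : Finite ↥(coreOf p ι ⊓ T) := finite_of_le hRS
  have hRsc : D.StronglyClosed (coreOf p ι ⊓ T) := by
    refine ⟨hRT, fun U hU φ hφ x => ⟨?_, val_mem D hφ x⟩⟩
    exact hQsc.2 U (hU.trans inf_le_left) φ (hsub U hφ) x
  have hSQ := hscOf hQ
  have hSTn := sc_normalizer F hTsc
  -- normality
  have hRn : D.IsNormal (coreOf p ι ⊓ T) := by
    rw [normal_iff_sc_radical hTp D hDsat]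
    refine ⟨hRsc, fun U hc hrU => ?_⟩
    have hUT := hc.1
    haveI : Finite U := finite_of_le hUT
    refine le_of_conj_mem_core hTp D hrU (hc.2 U (isConj_refl D hUT)) hRT (sc_normalizer D hRsc) (fun v hvR hvn => ?_)
    refine mem_core_of_pgroup D (autInducedBy (coreOf p ι ⊓ T) U) (isPGroup_autInduced (hS.to_le hRS) U) ?_
      (mem_autInducedBy'.2 ⟨v, hvR, fun x => rfl⟩) (autInduced_le_autGroup D hUT (mem_autInducedBy'.2 ⟨v, hvR.2, fun x => rfl⟩))
    intro γ hγ κ' hκ'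
    obtain ⟨w, hwR, hw⟩ := mem_autInducedBy'.1 hκ'
    have hγ₁ := hsub U ((mem_autGroup_iff D hUT).1 hγ)
    obtain ⟨γt, hγt, he, hm⟩ := hQ.2 U _ hγ₁
    have hwS : w ∈ U ⊔ coreOf p ι := (le_sup_right : coreOf p ι ≤ U ⊔ coreOf p ι) hwR.1
    have hw' : γt ⟨w, hwS⟩ ∈ coreOf p ι := hm.le ⟨⟨w, hwS⟩, hwR.1, rfl⟩
    have hres : γt.comp (Subgroup.inclusion ((inf_le_left : coreOf p ι ⊓ T ≤ coreOf p ι).trans le_sup_right)) ∈ F.Hom (coreOf p ι ⊓ T) :=
      res_mem F _ hγt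
    have hw'' : γt ⟨w, hwS⟩ ∈ T := hTsc.2 _ hRT _ hres ⟨w, hwR⟩
    refine mem_autInducedBy'.2 ⟨_, ⟨hw', hw''⟩, fun y => ?_⟩
    show ((γ (κ' (γ⁻¹ y)) : U) : Ω) = _
    have h1 := he (κ' (γ⁻¹ y))
    have h2 : (Subgroup.inclusion le_sup_left (κ' (γ⁻¹ y)) : ↥(U ⊔ coreOf p ι)) = ⟨w, hwS⟩ * Subgroup.inclusion le_sup_left (γ⁻¹ y) * ⟨w, hwS⟩⁻¹ := by
      apply Subtype.ext
      exact hw (γ⁻¹ y)
    rw [h2, map_mul, map_mul, map_inv] at h1
    have h3 := he (γ⁻¹ y)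
    rw [h3] at h1
    have h4 : ((U.subtype.comp γ.toMonoidHom) (γ⁻¹ y)) = y := by
      show ((γ (γ⁻¹ y) : U) : Ω) = y
      rw [MulAut.apply_inv_self]
    rw [h4] at h1
    exact h1.symm
  -- the centralizer
  let Rb : Subgroup L := ((coreOf p ι ⊓ T).subgroupOf S).map ι
  have hRbm : ∀ x : S, ι x ∈ Rb ↔ (x : Ω) ∈ coreOf p ι ⊓ T := by
    intro x
    constructor
    · rintro ⟨y, hy, e⟩
      rw [← hr.1 e]
      exact hy
    · intro h
      exact ⟨x, h, rfl⟩
  have hQm : ∀ x : S, ι x ∈ pCore p L ↔ (x : Ω) ∈ coreOf p ι := by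
    intro x
    constructor
    · intro h
      exact mem_coreOf.2 ⟨x.2, h⟩
    · intro h
      obtain ⟨h0, h1⟩ := mem_coreOf.1 h
      exact h1
  have hRbO : Rb ≤ pCore p L := by
    rintro _ ⟨y, hy, rfl⟩
    exact (hQm y).2 hy.1
  have hRbn : Rb.Normal := by
    refine ⟨?_⟩
    rintro _ ⟨y, hy, rfl⟩ g
    have hv : ∀ x : ↥(coreOf p ι ⊓ T), g * ι ⟨x, hRS x.2⟩ * g⁻¹ ∈ ι.range := by
      intro x
      exact hO ((inferInstance : (pCore p L).Normal).conj_mem _ ((hQm _).2 x.2.1) g)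
    obtain ⟨ψ, hψ, hψv, hψe⟩ := exists_conj_hom hr g hRS hv
    have h1 := hψe ⟨y, hy⟩
    have h2 : ι y = ι ⟨((⟨y, hy⟩ : ↥(coreOf p ι ⊓ T)) : Ω), hRS hy⟩ := rfl
    rw [h2, ← h1]
    refine (hRbm _).2 ⟨?_, hTsc.2 _ hRT ψ hψ ⟨y, hy⟩⟩
    refine (hQm _).1 ?_
    rw [h1]
    exact (inferInstance : (pCore p L).Normal).conj_mem _ ((hQm _).2 hy.1) g
  obtain ⟨A, hAn, hAp, hAm⟩ := stab_le_core hRbn hRbO inferInstance hOp hC
  have hAO : A ≤ pCore p L := H1Core.le_pCore hAn hAp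
  have hCR : centralizerIn T (coreOf p ι ⊓ T) ≤ coreOf p ι ⊓ T := by
    intro c hc
    have hcT : c ∈ T := hc.1
    have hcS : c ∈ S := hTS hcT
    have hcA : ι ⟨c, hcS⟩ ∈ A := by
      refine (hAm _).2 ⟨?_, fun q hq => ?_⟩
      · refine Subgroup.mem_centralizer_iff.2 ?_
        rintro _ ⟨r, hr', rfl⟩
        rw [← map_mul, ← map_mul]
        congr 1
        apply Subtype.ext
        exact Subgroup.mem_centralizer_iff.1 hc.2 r hr'
      · obtain ⟨s, rfl⟩ := hO hq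
        have hsQ : (s : Ω) ∈ coreOf p ι := (hQm s).1 hq
        rw [← map_inv, ← map_inv, ← map_mul, ← map_mul, ← map_mul]
        refine (hRbm _).2 ⟨?_, ?_⟩
        · show c * (s : Ω) * c⁻¹ * (s : Ω)⁻¹ ∈ coreOf p ι
          exact Subgroup.mul_mem _ ((Subgroup.mem_normalizer_iff.1 (hSQ hcS) _).1 hsQ) (Subgroup.inv_mem _ hsQ)
        · show c * (s : Ω) * c⁻¹ * (s : Ω)⁻¹ ∈ T
          have e : c * (s : Ω) * c⁻¹ * (s : Ω)⁻¹ = c * ((s : Ω) * c⁻¹ * (s : Ω)⁻¹) := by group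
          rw [e]
          exact Subgroup.mul_mem _ hcT ((Subgroup.mem_normalizer_iff.1 (hSTn s.2) _).1 (Subgroup.inv_mem _ hcT))
    exact ⟨(hQm _).1 (hAO hcA), hcT⟩
  refine ⟨hDsat, _, hRn, hRT, fun Q' hQ' => ?_⟩
  rw [normal_conj_eq hRn hQ']
  exact hCR

end Cfsg.Agent.Lib.FusConstr
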