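import Cfsg.Agent.Lib.Glaub2
import Cfsg.Agent.Lib.CharPerm

/-!
# Real characters and real classes under coprime `p`-group actions
-/

set_option autoImplicit false
set_option linter.unusedSectionVars false
set_option linter.unusedVariables false
set_option linter.style.longLine false

universe u

namespace Cfsg.Agent.Lib.Glaub

open Cfsg Cfsg.Agent.Lib.IrrBasic Cfsg.Agent.Lib
open Cfsg.Agent.Lib.CharBasic Cfsg.Agent.Lib.CharOrth Cfsg.Agent.Lib.CharAlg Cfsg.Agent.Lib.BlockInfl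
open scoped ComplexConjugate

section Real

theorem real_iff_conjIrr {A : Type u} [Group A] [Fintype A] (χ : IrrCharacter A) :
    (∀ k, (χ.1 k).im = 0) ↔ CharPerm.conjIrr χ = χ := by
  constructor
  · intro h
    apply Subtype.ext
    funext g
    rw [CharPerm.conjIrr_apply]
    exact Complex.conj_eq_iff_im.mpr (h g)
  · intro h g
    have h1 : (CharPerm.conjIrr χ : A → ℂ) g = χ.1 g := by rw [h]
    rw [CharPerm.conjIrr_apply] at h1
    exact Complex.conj_eq_iff_im.mp h1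

theorem rel_conj {p : ℕ} {A B : Type u} [Group A] [Group B] [Fintype A] [Fintype B] (i : B →* A) {χ : IrrCharacter A}
    {β : IrrCharacter B} (h : Rel p i χ β) : Rel p i (CharPerm.conjIrr χ) (CharPerm.conjIrr β) := by
  obtain ⟨m, hm, hnd⟩ := h
  refine ⟨m, ?_, hnd⟩
  have h1 := congrArg conj hm
  rw [Complex.conj_natCast] at h1
  rw [← h1]
  simp only [classInner, map_mul, map_sum, map_inv₀, Complex.conj_natCast, CharPerm.conjIrr_apply]

theorem forall_of_card_eq {α : Type*} [Finite α] (A B : α → Prop)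
    (h : Nat.card {a // A a ∧ B a} = Nat.card {a // A a}) : ∀ a, A a → B a := by
  intro a ha
  let f : {a // A a ∧ B a} → {a // A a} := fun x => ⟨x.1, x.2.1⟩
  have hf : Function.Injective f := fun x y hxy => Subtype.ext (congrArg (fun z : {a // A a} => z.1) hxy)
  have hb := hf.bijective_of_nat_card_le h.ge
  obtain ⟨x, hx⟩ := hb.2 ⟨a, ha⟩
  have : x.1 = a := congrArg (fun z : {a // A a} => z.1) hx
  rw [← this]
  exact x.2.2

variable {Γ : Type u} [Group Γ] [Finite Γ] {p : ℕ} [hpf : Fact p.Prime]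

theorem s4911 (P K : Subgroup Γ) [Fintype K] (hP : IsPGroup p P) (hK : ¬ p ∣ Nat.card K)
    (hPK : P ≤ Subgroup.normalizer (K : Set Γ)) :
    Nat.card {θ : IrrCharacter K // (∀ k : K, (θ.1 k).im = 0) ∧ (∀ x ∈ P, ∀ k k' : K, (k' : Γ) = x * (k : Γ) * x⁻¹ → θ.1 k' = θ.1 k)} =
      Nat.card {c : ConjClasses K // (∀ k : K, ConjClasses.mk k = c → IsConj k k⁻¹) ∧ ∀ k : K, ConjClasses.mk k = c → ∀ x ∈ P, ∀ k' : K, (k' : Γ) = x * (k : Γ) * x⁻¹ → ConjClasses.mk k' = c} ∧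
    ((∀ θ : IrrCharacter K, (∀ k : K, (θ.1 k).im = 0) → (∀ x ∈ P, ∀ k k' : K, (k' : Γ) = x * (k : Γ) * x⁻¹ → θ.1 k' = θ.1 k)) →
      ∀ k : K, IsConj k k⁻¹ → ∃ k' : K, IsConj k k' ∧ ∀ x ∈ P, x * (k' : Γ) * x⁻¹ = (k' : Γ)) := by
  classical
  have hn : ∀ u ∈ P, ∀ g ∈ K, u * g * u⁻¹ ∈ K := fun u hu g hg =>
    ((Subgroup.mem_normalizer_iff.mp (hPK hu)) g).mp hg
  obtain ⟨C, hC⟩ : ∃ C : Subgroup Γ, C = K ⊓ Subgroup.centralizer (P : Set Γ) := ⟨_, rfl⟩
  haveI : Fintype C := Fintype.ofFinite _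
  have hCK : C ≤ K := hC ▸ inf_le_left
  have hcop : (Nat.card K).Coprime (Nat.card P) := by
    obtain ⟨k, hk⟩ := IsPGroup.iff_card.mp hP
    rw [hk]
    exact Nat.Coprime.pow_right _ ((Nat.Prime.coprime_iff_not_dvd hpf.out).mpr hK).symm
  have hc := corr_all P hP K C hn hcop hC hCK
  -- real characters
  have hinvconj : ∀ χ : IrrCharacter K, InvBy P K χ → InvBy P K (CharPerm.conjIrr χ) := by
    intro χ h x hx k k' hk
    rw [CharPerm.conjIrr_apply, CharPerm.conjIrr_apply, h x hx k k' hk]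
  have hA : Nat.card {θ : IrrCharacter K // (∀ k : K, (θ.1 k).im = 0) ∧ InvBy P K θ} =
      Nat.card {β : IrrCharacter C // ∀ k : C, (β.1 k).im = 0} := by
    have hex : ∀ θ : {θ : IrrCharacter K // (∀ k : K, (θ.1 k).im = 0) ∧ InvBy P K θ},
        ∃ β : IrrCharacter C, Rel p (Subgroup.inclusion hCK) θ.1 β ∧ (∀ k : C, (β.1 k).im = 0) := by
      rintro ⟨θ, hr, hi⟩
      obtain ⟨β, hβ, hu⟩ := hc.exU θ hi
      refine ⟨β, hβ, (real_iff_conjIrr β).mpr ?_⟩
      have h1 := rel_conj _ hβ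
      rw [(real_iff_conjIrr θ).mp hr] at h1
      exact hu _ h1
    choose f hf hfr using hex
    refine Nat.card_congr (Equiv.ofBijective (fun θ => ⟨f θ, hfr θ⟩) ⟨?_, ?_⟩)
    · intro a b hab
      have h1 : f a = f b := congrArg Subtype.val hab
      have h2 := hf a
      rw [h1] at h2
      exact Subtype.ext (hc.inj _ a.2.2 _ b.2.2 _ h2 (hf b))
    · rintro ⟨β, hβ⟩
      obtain ⟨χ, hχ, hr⟩ := hc.surj β
      have h1 := rel_conj _ hr
      rw [(real_iff_conjIrr β).mp hβ] at h1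
      have h2 := hc.inj _ (hinvconj χ hχ) _ hχ _ h1 hr
      have hχr : ∀ k : K, (χ.1 k).im = 0 := (real_iff_conjIrr χ).mpr h2
      refine ⟨⟨χ, hχr, hχ⟩, Subtype.ext ?_⟩
      obtain ⟨b, -, hu⟩ := hc.exU χ hχ
      exact (hu _ (hf ⟨χ, hχr, hχ⟩)).trans (hu _ hr).symm
  have hB := CharPerm.card_real_irr_eq (G := C)
  let i : C →* K := Subgroup.inclusion hCK
  have hdesc := conj_descend P K C (p := p) hP hn hK hC hCK
  have hfix : ∀ c : C, ∀ x ∈ P, x * (c : Γ) * x⁻¹ = c := by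
    intro c x hx
    have h1 : (c : Γ) ∈ K ⊓ Subgroup.centralizer (P : Set Γ) := hC ▸ c.2
    have h2 := (Subgroup.mem_centralizer_iff.mp h1.2) x hx
    rw [h2]
    group
  have hCc : Nat.card {c : ConjClasses C // ∀ g : C, ConjClasses.mk g = c → IsConj g g⁻¹} =
      Nat.card {c : ConjClasses K // (∀ k : K, ConjClasses.mk k = c → IsConj k k⁻¹) ∧ ∀ k : K, ConjClasses.mk k = c → ∀ x ∈ P, ∀ k' : K, (k' : Γ) = x * (k : Γ) * x⁻¹ → ConjClasses.mk k' = c} := by
    have hprop : ∀ c : {c : ConjClasses C // ∀ g : C, ConjClasses.mk g = c → IsConj g g⁻¹},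
        (∀ k : K, ConjClasses.mk k = ConjClasses.map i c.1 → IsConj k k⁻¹) ∧ ∀ k : K, ConjClasses.mk k = ConjClasses.map i c.1 → ∀ x ∈ P, ∀ k' : K, (k' : Γ) = x * (k : Γ) * x⁻¹ → ConjClasses.mk k' = ConjClasses.map i c.1 := by
      rintro ⟨c₁, hc₁⟩
      obtain ⟨c, rfl⟩ := ConjClasses.exists_rep c₁
      have hcr : IsConj c c⁻¹ := hc₁ c rfl
      have hcr' : IsConj (i c) (i c)⁻¹ := by
        have := MonoidHom.map_isConj i hcr
        rwa [map_inv] at this
      constructor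
      · intro k hk
        have hk' : IsConj k (i c) := ConjClasses.mk_eq_mk_iff_isConj.mp hk
        have h1 : IsConj k⁻¹ (i c)⁻¹ := by
          rw [isConj_iff] at hk' ⊢
          obtain ⟨t, ht⟩ := hk'
          exact ⟨t, by rw [← ht]; group⟩
        exact hk'.trans (hcr'.trans h1.symm)
      · intro k hk x hx k' hk'
        change ConjClasses.mk k = ConjClasses.mk (i c) at hk
        change ConjClasses.mk k' = ConjClasses.mk (i c)
        rw [ConjClasses.mk_eq_mk_iff_isConj] at hk ⊢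
        obtain ⟨t, ht⟩ := isConj_iff.mp hk
        have ht' : (t : Γ) * k * (t : Γ)⁻¹ = c := congrArg Subtype.val ht
        refine isConj_iff.mpr ⟨⟨x * t * x⁻¹, hn x hx _ t.2⟩, Subtype.ext ?_⟩
        change (x * t * x⁻¹) * (k' : Γ) * (x * t * x⁻¹)⁻¹ = c
        rw [hk', ← hfix c x hx, ← ht']
        group
    refine Nat.card_congr (Equiv.ofBijective (fun c => ⟨ConjClasses.map i c.1, hprop c⟩) ⟨?_, ?_⟩)
    · rintro ⟨a, ha⟩ ⟨b, hb⟩ hab
      have h1 : ConjClasses.map i a = ConjClasses.map i b := congrArg Subtype.val hab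
      obtain ⟨c, rfl⟩ := ConjClasses.exists_rep a
      obtain ⟨c', rfl⟩ := ConjClasses.exists_rep b
      have h2 : ConjClasses.mk (i c) = ConjClasses.mk (i c') := h1
      rw [ConjClasses.mk_eq_mk_iff_isConj] at h2
      apply Subtype.ext
      exact ConjClasses.mk_eq_mk_iff_isConj.mpr (hdesc c c' h2)
    · rintro ⟨a, har, hai⟩
      obtain ⟨g, rfl⟩ := ConjClasses.exists_rep a
      obtain ⟨c, hc'⟩ := exists_fixed_conj P K C (p := p) hP hn hK hC hCK g (fun u => by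
        have h1 := hai g rfl u u.2 ⟨u * g * (u : Γ)⁻¹, hn _ u.2 _ g.2⟩ rfl
        exact (ConjClasses.mk_eq_mk_iff_isConj.mp h1).symm)
      have hgc : ConjClasses.mk g = ConjClasses.mk (i c) := ConjClasses.mk_eq_mk_iff_isConj.mpr hc'
      refine ⟨⟨ConjClasses.mk c, ?_⟩, Subtype.ext hgc.symm⟩
      intro y hy
      have hy' : IsConj y c := ConjClasses.mk_eq_mk_iff_isConj.mp hy
      have h1 : IsConj (i y) (i y)⁻¹ := har (i y) (by
        rw [hgc]
        exact ConjClasses.mk_eq_mk_iff_isConj.mpr (MonoidHom.map_isConj i hy'))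
      have h2 : IsConj (i y) (i y⁻¹) := by rwa [map_inv]
      exact hdesc y y⁻¹ h2
  have hmain : Nat.card {θ : IrrCharacter K // (∀ k : K, (θ.1 k).im = 0) ∧ InvBy P K θ} =
      Nat.card {c : ConjClasses K // (∀ k : K, ConjClasses.mk k = c → IsConj k k⁻¹) ∧ ∀ k : K, ConjClasses.mk k = c → ∀ x ∈ P, ∀ k' : K, (k' : Γ) = x * (k : Γ) * x⁻¹ → ConjClasses.mk k' = c} :=
    hA.trans (hB.trans hCc)
  refine ⟨hmain, ?_⟩
  intro hall k hk
  have h1 : Nat.card {θ : IrrCharacter K // (∀ k : K, (θ.1 k).im = 0) ∧ InvBy P K θ} =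
      Nat.card {θ : IrrCharacter K // ∀ k : K, (θ.1 k).im = 0} :=
    Nat.card_congr ⟨fun θ => ⟨θ.1, θ.2.1⟩, fun θ => ⟨θ.1, θ.2, hall θ.1 θ.2⟩, fun θ => rfl, fun θ => rfl⟩
  have h2 := hmain.symm.trans (h1.trans (CharPerm.card_real_irr_eq (G := K)))
  have h3 := forall_of_card_eq _ _ h2 (ConjClasses.mk k) (by
    intro y hy
    have hy' : IsConj y k := ConjClasses.mk_eq_mk_iff_isConj.mp hy
    have h4 : IsConj y⁻¹ k⁻¹ := by
      rw [isConj_iff] at hy' ⊢
      obtain ⟨t, ht⟩ := hy'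
      exact ⟨t, by rw [← ht]; group⟩
    exact hy'.trans (hk.trans h4.symm))
  obtain ⟨c, hc'⟩ := exists_fixed_conj P K C (p := p) hP hn hK hC hCK k (fun u => by
    have h5 := h3 k rfl u u.2 ⟨u * k * (u : Γ)⁻¹, hn _ u.2 _ k.2⟩ rfl
    exact (ConjClasses.mk_eq_mk_iff_isConj.mp h5).symm)
  exact ⟨i c, hc', fun x hx => hfix c x hx⟩

end Real

end Cfsg.Agent.Lib.Glaub
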