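import Mathlib
import Cfsg.Agent.Lib.H1Fusion
import Cfsg.Agent.Lib.H1AltOrd

set_option autoImplicit false

/-! Abelian Sylow subgroups of the alternating groups. -/

namespace Cfsg.Agent.Lib.H1AltSyl

open Equiv.Perm Cfsg.Agent.Lib.H1Fusion

/-- An element of prime order `p` with `n ≥ 2p` is conjugate to its inverse in `A_n`. -/
theorem isConj_inv_alt {n p : ℕ} (hp : p.Prime) (hp2 : p ≠ 2) (hn : 2 * p ≤ n)
    (x : alternatingGroup (Fin n)) (hx : orderOf x = p) : IsConj x x⁻¹ := by
  classical
  have hord : orderOf (x : Equiv.Perm (Fin n)) = p := by rw [Subgroup.orderOf_coe, hx]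
  obtain ⟨j, hj⟩ := cycleType_prime_order (σ := (x : Equiv.Perm (Fin n))) (by rw [hord]; exact hp)
  rw [hord] at hj
  have hcent : ¬ Subgroup.centralizer {(x : Equiv.Perm (Fin n))} ≤ alternatingGroup (Fin n) := by
    rw [centralizer_le_alternating_iff]
    rintro ⟨-, h2, h3⟩
    rw [hj] at h2 h3
    have h4 := h3 p
    rw [Multiset.count_replicate_self] at h4
    have hj0 : j = 0 := by omega
    subst hj0
    simp at h2
    have := hp.two_le
    omega
  obtain ⟨τ, hτ, hτ2⟩ := SetLike.not_le_iff_exists.mp hcent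
  have hconj : IsConj (x : Equiv.Perm (Fin n)) (x : Equiv.Perm (Fin n))⁻¹ := by
    rw [isConj_iff_cycleType_eq, cycleType_inv]
  obtain ⟨σ, hσ⟩ := isConj_iff.mp hconj
  have hτc : τ * (x : Equiv.Perm (Fin n)) = (x : Equiv.Perm (Fin n)) * τ :=
    Subgroup.mem_centralizer_singleton_iff.mp hτ
  have hτs : sign τ = -1 := by
    rw [Equiv.Perm.mem_alternatingGroup] at hτ2
    exact (Int.units_eq_one_or _).resolve_left hτ2
  by_cases hs : σ ∈ alternatingGroup (Fin n)
  · apply isConj_iff.mpr
    refine ⟨⟨σ, hs⟩, ?_⟩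
    apply Subtype.ext
    simpa using hσ
  · have hσs : sign σ = -1 := by
      rw [Equiv.Perm.mem_alternatingGroup] at hs
      exact (Int.units_eq_one_or _).resolve_left hs
    have hm : σ * τ ∈ alternatingGroup (Fin n) := by
      rw [Equiv.Perm.mem_alternatingGroup, map_mul, hσs, hτs]
      decide
    apply isConj_iff.mpr
    refine ⟨⟨σ * τ, hm⟩, ?_⟩
    apply Subtype.ext
    have e : σ * τ * (x : Equiv.Perm (Fin n)) * (σ * τ)⁻¹ = σ * (x : Equiv.Perm (Fin n)) * σ⁻¹ := by
      calc σ * τ * (x : Equiv.Perm (Fin n)) * (σ * τ)⁻¹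
          = σ * (τ * (x : Equiv.Perm (Fin n))) * τ⁻¹ * σ⁻¹ := by simp [mul_assoc]
        _ = σ * ((x : Equiv.Perm (Fin n)) * τ) * τ⁻¹ * σ⁻¹ := by rw [hτc]
        _ = σ * (x : Equiv.Perm (Fin n)) * σ⁻¹ := by simp [mul_assoc]
    change σ * τ * (x : Equiv.Perm (Fin n)) * (σ * τ)⁻¹ = (x : Equiv.Perm (Fin n))⁻¹
    rw [e, hσ]

/-- For odd `p`: noncyclic abelian Sylow subgroup of `A_n`. -/
theorem odd_case {n p : ℕ} [hp : Fact p.Prime] (hp2 : p ≠ 2) (hn : 5 ≤ n)
    (P : Sylow p (alternatingGroup (Fin n))) (hP : IsMulCommutative (P : Subgroup (alternatingGroup (Fin n)))) :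
    2 ∣ ((Subgroup.centralizer ((P : Subgroup (alternatingGroup (Fin n))) : Set (alternatingGroup (Fin n)))).subgroupOf
      (Subgroup.normalizer ((P : Subgroup (alternatingGroup (Fin n))) : Set (alternatingGroup (Fin n))))).index ∨
      IsCyclic (P : Subgroup (alternatingGroup (Fin n))) := by
  classical
  by_cases hc : IsCyclic (P : Subgroup (alternatingGroup (Fin n)))
  · exact Or.inr hc
  left
  obtain ⟨k, hk⟩ := (IsPGroup.iff_card.mp P.isPGroup')
  have hk2 : 2 ≤ k := by
    by_contra h
    have h3 : k = 0 ∨ k = 1 := by omega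
    rcases h3 with rfl | rfl
    · apply hc
      rw [pow_zero] at hk
      have := (Nat.card_eq_one_iff_unique.mp hk).1
      exact isCyclic_of_subsingleton
    · apply hc
      rw [pow_one] at hk
      exact isCyclic_of_prime_card hk
  have hp3 : 3 ≤ p := by have := hp.out.two_le; omega
  have hdvd : p ^ 2 ∣ n.factorial := by
    have h1 : p ^ 2 ∣ Nat.card (P : Subgroup (alternatingGroup (Fin n))) := by
      rw [hk]
      exact pow_dvd_pow p hk2
    have h2 : Nat.card (P : Subgroup (alternatingGroup (Fin n))) ∣ Nat.card (alternatingGroup (Fin n)) :=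
      Subgroup.card_subgroup_dvd_card _
    haveI : Nontrivial (Fin n) := Fin.nontrivial_iff_two_le.mpr (by omega)
    have h3 := two_mul_nat_card_alternatingGroup (α := Fin n)
    have h4 : Nat.card (alternatingGroup (Fin n)) ∣ n.factorial := by
      refine ⟨2, ?_⟩
      rw [Nat.card_perm, Nat.card_fin] at h3
      rw [← h3]
      ring
    exact h1.trans (h2.trans h4)
  have hn2p : 2 * p ≤ n := by
    by_contra h
    have hlt : n < p ^ 2 := by nlinarith
    have hlog : Nat.log p n < 2 := Nat.log_lt_of_lt_pow (by omega) hlt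
    have h1 := padicValNat_factorial (p := p) (n := n) hlog
    simp only [Nat.Ico_succ_singleton, Finset.sum_singleton, pow_one] at h1
    have h2 : padicValNat p n.factorial ≤ 1 := by
      rw [h1]
      have : n / p < 2 := Nat.div_lt_of_lt_mul (by linarith)
      omega
    have h3 := (padicValNat_dvd_iff_le (p := p) (a := n.factorial) (n := 2) (Nat.factorial_ne_zero n)).mp hdvd
    omega
  have hpdvd : p ∣ Nat.card (P : Subgroup (alternatingGroup (Fin n))) := by
    rw [hk]
    exact dvd_pow_self p (by omega)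
  obtain ⟨x, hx⟩ := exists_prime_orderOf_dvd_card' p hpdvd
  have hx' : orderOf (x : alternatingGroup (Fin n)) = p := by rw [Subgroup.orderOf_coe, hx]
  have hx1 : (x : alternatingGroup (Fin n)) ≠ 1 := by
    intro h
    rw [h, orderOf_one] at hx'
    exact hp.out.one_lt.ne hx'
  exact two_dvd_index_of_inverts hp2 P hP x.2 hx1 (isConj_inv_alt hp.out hp2 hn2p _ hx')

/-- For `n ≥ 6` the Sylow `2`-subgroups of `A_n` are not abelian. -/
theorem not_abelian_two {n : ℕ} (hn : 6 ≤ n) (P : Sylow 2 (alternatingGroup (Fin n)))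
    (hP : IsMulCommutative (P : Subgroup (alternatingGroup (Fin n)))) : False := by
  classical
  haveI : Fact (Nat.Prime 2) := ⟨Nat.prime_two⟩
  let ι : Fin 6 ↪ Fin n := Fin.castLEEmb hn
  let φ := Equiv.Perm.viaEmbeddingHom ι
  let a₀ : Equiv.Perm (Fin 6) := Equiv.swap 0 1 * Equiv.swap 1 2 * Equiv.swap 2 3 * Equiv.swap 4 5
  let b₀ : Equiv.Perm (Fin 6) := Equiv.swap 0 2 * Equiv.swap 4 5
  have hrel : b₀ * a₀ * b₀⁻¹ = a₀⁻¹ := by decide
  have ha4 : a₀ ^ 4 = 1 := by decide
  have hb2 : b₀ ^ 2 = 1 := by decide
  have hne : a₀ * b₀ ≠ b₀ * a₀ := by decide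
  have hsigna : sign a₀ = 1 := by decide
  have hsignb : sign b₀ = 1 := by decide
  have hsign : ∀ e : Equiv.Perm (Fin 6), sign (φ e) = sign e := by
    intro e
    change sign (Equiv.Perm.viaEmbedding e ι) = sign e
    unfold Equiv.Perm.viaEmbedding
    convert Equiv.Perm.sign_extendDomain e (Equiv.ofInjective ι.1 ι.2)
  let a : alternatingGroup (Fin n) := ⟨φ a₀, by rw [Equiv.Perm.mem_alternatingGroup, hsign, hsigna]⟩
  let b : alternatingGroup (Fin n) := ⟨φ b₀, by rw [Equiv.Perm.mem_alternatingGroup, hsign, hsignb]⟩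
  have hrel' : b * a * b⁻¹ = a⁻¹ := by
    apply Subtype.ext
    change φ b₀ * φ a₀ * (φ b₀)⁻¹ = (φ a₀)⁻¹
    rw [← map_inv, ← map_mul, ← map_mul, hrel, map_inv]
  have ha4' : a ^ 4 = 1 := by
    apply Subtype.ext
    change (φ a₀) ^ 4 = 1
    rw [← map_pow, ha4, map_one]
  have hb2' : b ^ 2 = 1 := by
    apply Subtype.ext
    change (φ b₀) ^ 2 = 1
    rw [← map_pow, hb2, map_one]
  have hne' : a * b ≠ b * a := by
    intro h
    have h1 : φ a₀ * φ b₀ = φ b₀ * φ a₀ := congrArg Subtype.val h
    rw [← map_mul, ← map_mul] at h1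
    exact hne (Equiv.Perm.viaEmbeddingHom_injective ι h1)
  have hKp : IsPGroup 2 (Subgroup.zpowers a) := by
    rw [IsPGroup.iff_card, Nat.card_zpowers]
    have h1 : orderOf a ∣ 2 ^ 2 := orderOf_dvd_of_pow_eq_one (by simpa using ha4')
    obtain ⟨j, -, hj⟩ := (Nat.dvd_prime_pow Nat.prime_two).mp h1
    exact ⟨j, hj⟩
  have hHp : IsPGroup 2 (Subgroup.zpowers b) := by
    rw [IsPGroup.iff_card, Nat.card_zpowers]
    have h1 : orderOf b ∣ 2 ^ 1 := orderOf_dvd_of_pow_eq_one (by simpa using hb2')
    obtain ⟨j, -, hj⟩ := (Nat.dvd_prime_pow Nat.prime_two).mp h1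
    exact ⟨j, hj⟩
  have hle : Subgroup.zpowers b ≤ Subgroup.normalizer ((Subgroup.zpowers a : Subgroup _) : Set (alternatingGroup (Fin n))) := by
    rw [Subgroup.zpowers_le, Subgroup.mem_normalizer_iff]
    have hz : ∀ k : ℤ, b * a ^ k * b⁻¹ = (a ^ k)⁻¹ := by
      intro k
      rw [← conj_zpow, hrel', inv_zpow]
    intro h
    constructor
    · rintro ⟨k, rfl⟩
      simp only
      rw [hz]
      exact inv_mem (Subgroup.zpow_mem_zpowers a k)
    · intro h1
      obtain ⟨k, hk⟩ := h1
      have h2 : h = b⁻¹ * (b * h * b⁻¹) * b := by group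
      have hz2 : ∀ k : ℤ, b⁻¹ * a ^ k * b = (a ^ k)⁻¹ := by
        intro k
        have h3 := hz (-k)
        have hb3 : b⁻¹ = b := by
          have : b * b = 1 := by rw [← pow_two]; exact hb2'
          exact inv_eq_of_mul_eq_one_left this
        have := hz k
        rw [hb3]
        nth_rewrite 2 [← hb3]
        exact this
      rw [h2]
      simp only at hk
      rw [← hk, hz2]
      exact inv_mem (Subgroup.zpow_mem_zpowers a k)
  have hR := hHp.to_sup_of_normal_right' hKp hle
  obtain ⟨S, hS⟩ := hR.exists_le_sylow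
  obtain ⟨g, rfl⟩ := MulAction.exists_smul_eq (alternatingGroup (Fin n)) P S
  have hamem : a ∈ ((g • P : Sylow 2 (alternatingGroup (Fin n))) : Subgroup (alternatingGroup (Fin n))) :=
    hS (Subgroup.mem_sup_right (Subgroup.mem_zpowers a))
  have hbmem : b ∈ ((g • P : Sylow 2 (alternatingGroup (Fin n))) : Subgroup (alternatingGroup (Fin n))) :=
    hS (Subgroup.mem_sup_left (Subgroup.mem_zpowers b))
  rw [Sylow.coe_subgroup_smul, Cfsg.Agent.Lib.H1Core.mem_conj_smul] at hamem hbmem
  have hcomm := hP.is_comm.comm ⟨_, hamem⟩ ⟨_, hbmem⟩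
  have h5 := congrArg Subtype.val hcomm
  simp only [Subgroup.coe_mul] at h5
  apply hne'
  have h6 : g * (g⁻¹ * a * g * (g⁻¹ * b * g)) * g⁻¹ = g * (g⁻¹ * b * g * (g⁻¹ * a * g)) * g⁻¹ := by
    rw [h5]
  simpa [mul_assoc] using h6

end Cfsg.Agent.Lib.H1AltSyl

namespace Cfsg.Agent.Lib.H1AltSyl

open Equiv.Perm Cfsg.Agent.Lib.H1Fusion

/-- `A₅` has no element of order four. -/
theorem no_order_four (g : alternatingGroup (Fin 5)) : orderOf g ≠ 4 := by
  classical
  intro h4
  obtain ⟨h1, h2, h3, h5⟩ := Cfsg.Agent.Lib.H1AltOrd.cycleType_of_mem g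
  rw [h4] at h1
  generalize (g : Equiv.Perm (Fin 5)).cycleType = c at h1 h2 h3 h5
  have hdiv : ∀ a ∈ c, a = 2 ∨ a = 4 := by
    intro a ha
    have h6 : a ∣ 4 := h1 ▸ Multiset.dvd_lcm ha
    have h7 := Nat.le_of_dvd (by norm_num) h6
    have h8 := h3 a ha
    interval_cases a <;> simp_all
  by_cases h4c : 4 ∈ c
  · obtain ⟨c', rfl⟩ := Multiset.exists_cons_of_mem h4c
    have hc' : c' = 0 := by
      rw [Multiset.eq_zero_iff_forall_notMem]
      intro d hd
      have h6 := h3 d (Multiset.mem_cons_of_mem hd)
      have h7 := Cfsg.Agent.Lib.H1AltOrd.mem_le_sum hd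
      simp only [Multiset.sum_cons] at h2
      omega
    subst hc'
    simp at h5
    exact absurd h5 (by decide)
  · have h6 : c.lcm ∣ 2 := by
      apply Multiset.lcm_dvd.mpr
      intro a ha
      rcases hdiv a ha with rfl | rfl
      · exact dvd_rfl
      · exact absurd ha h4c
    rw [h1] at h6
    omega

/-- The case `n = 5`, `p = 2`. -/
theorem five_two (P : Sylow 2 (alternatingGroup (Fin 5)))
    (hP : IsMulCommutative (P : Subgroup (alternatingGroup (Fin 5)))) :
    ((Subgroup.centralizer ((P : Subgroup (alternatingGroup (Fin 5))) : Set (alternatingGroup (Fin 5)))).subgroupOf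
      (Subgroup.normalizer ((P : Subgroup (alternatingGroup (Fin 5))) : Set (alternatingGroup (Fin 5))))).index = 3 ∧
      IsKleinFour (P : Subgroup (alternatingGroup (Fin 5))) := by
  classical
  haveI : Fact (Nat.Prime 2) := ⟨Nat.prime_two⟩
  have hcardG : Nat.card (alternatingGroup (Fin 5)) = 60 := by
    have h3 := two_mul_nat_card_alternatingGroup (α := Fin 5)
    rw [Nat.card_perm, Nat.card_fin] at h3
    have : Nat.factorial 5 = 120 := by decide
    omega
  have hcardP : Nat.card (P : Subgroup (alternatingGroup (Fin 5))) = 4 := by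
    obtain ⟨k, hk⟩ := IsPGroup.iff_card.mp P.isPGroup'
    have h1 := Subgroup.index_mul_card (P : Subgroup (alternatingGroup (Fin 5)))
    rw [hcardG, hk] at h1
    have hnd := P.not_dvd_index
    have hk3 : k < 3 := by
      by_contra h
      have h2 : 2 ^ 3 ∣ 60 := by
        rw [← h1]
        exact Dvd.dvd.mul_left (pow_dvd_pow 2 (by omega)) _
      omega
    interval_cases k
    · exfalso
      apply hnd
      have : (P : Subgroup (alternatingGroup (Fin 5))).index = 60 := by simpa using h1
      rw [this]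
      norm_num
    · exfalso
      apply hnd
      have : (P : Subgroup (alternatingGroup (Fin 5))).index = 30 := by
        have : (P : Subgroup (alternatingGroup (Fin 5))).index * 2 = 60 := by simpa using h1
        omega
      rw [this]
      norm_num
    · simpa using hk
  have hsq : ∀ x : (P : Subgroup (alternatingGroup (Fin 5))), x ^ 2 = 1 := by
    intro x
    have h1 : orderOf x ∣ 2 ^ 2 := by
      have := orderOf_dvd_natCard x
      rwa [hcardP] at this
    obtain ⟨j, hj, hj2⟩ := (Nat.dvd_prime_pow Nat.prime_two).mp h1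
    have hj3 : j ≠ 2 := by
      rintro rfl
      have h2 : orderOf (x : alternatingGroup (Fin 5)) = 4 := by
        rw [Subgroup.orderOf_coe, hj2]
        norm_num
      exact no_order_four _ h2
    have hj4 : orderOf x ∣ 2 := by
      rw [hj2]
      exact pow_dvd_pow 2 (by omega : j ≤ 1) |>.trans (by norm_num)
    exact orderOf_dvd_iff_pow_eq_one.mp hj4
  have hK : IsKleinFour (P : Subgroup (alternatingGroup (Fin 5))) := by
    refine ⟨hcardP, ?_⟩
    have h1 : Monoid.exponent (P : Subgroup (alternatingGroup (Fin 5))) ∣ 2 :=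
      Monoid.exponent_dvd_of_forall_pow_eq_one hsq
    rcases (Nat.dvd_prime Nat.prime_two).mp h1 with h2 | h2
    · exfalso
      rw [Monoid.exp_eq_one_iff] at h2
      have := Nat.card_of_subsingleton (1 : (P : Subgroup (alternatingGroup (Fin 5))))
      omega
    · exact h2
  refine ⟨?_, hK⟩
  set N := Subgroup.normalizer ((P : Subgroup (alternatingGroup (Fin 5))) : Set (alternatingGroup (Fin 5))) with hN
  set C := Subgroup.centralizer ((P : Subgroup (alternatingGroup (Fin 5))) : Set (alternatingGroup (Fin 5))) with hC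
  have hCN : C ≤ N := centralizer_le_normalizer _
  have hPC : (P : Subgroup (alternatingGroup (Fin 5))) ≤ C :=
    le_centralizer_of_comm hP le_rfl
  -- `m ≠ 1` by Burnside's transfer theorem
  have hm1 : (C.subgroupOf N).index ≠ 1 := by
    intro h
    have h2 : N ≤ C := by
      rw [Subgroup.index_eq_one] at h
      exact Subgroup.subgroupOf_eq_top.mp h
    have hcomp := MonoidHom.ker_transferSylow_isComplement' P h2
    have hcard := hcomp.card_mul
    rw [hcardP, hcardG] at hcard
    haveI hsimple : IsSimpleGroup (alternatingGroup (Fin 5)) :=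
      alternatingGroup.isSimpleGroup (by simp)
    rcases (MonoidHom.transferSylow P h2).normal_ker.eq_bot_or_eq_top with h3 | h3
    · rw [h3, Subgroup.card_bot] at hcard
      omega
    · rw [h3, Subgroup.card_top, hcardG] at hcard
      omega
  -- `m` is odd
  have hm2 : ¬ 2 ∣ (C.subgroupOf N).index := by
    intro h
    have h1 := Subgroup.card_mul_index (C.subgroupOf N)
    rw [Cfsg.Agent.Lib.H1SZ.card_subgroupOf_of_le hCN] at h1
    have h3 : Nat.card (P : Subgroup (alternatingGroup (Fin 5))) ∣ Nat.card C := Subgroup.card_dvd_of_le hPC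
    rw [hcardP] at h3
    have h4 : 4 * 2 ∣ Nat.card N := by
      rw [← h1]
      exact mul_dvd_mul h3 h
    have h5 : Nat.card N ∣ 60 := by
      rw [← hcardG]
      exact Subgroup.card_subgroup_dvd_card N
    have := h4.trans h5
    omega
  -- `m` divides `6`
  have hm3 : (C.subgroupOf N).index ∣ 6 := by
    let S := {x : (P : Subgroup (alternatingGroup (Fin 5))) // x ≠ 1}
    have hS : Nat.card S = 3 := by
      have h1 := Nat.card_eq_fintype_card (α := S)
      rw [h1, Fintype.card_subtype_compl (fun x : (P : Subgroup (alternatingGroup (Fin 5))) => x = 1)]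
      simp only [Fintype.card_unique]
      rw [← Nat.card_eq_fintype_card, hcardP]
    let conjPerm : N →* Equiv.Perm S :=
      { toFun := fun g =>
          { toFun := fun x => ⟨⟨g.1 * x.1.1 * g.1⁻¹, (Subgroup.mem_normalizer_iff.mp g.2 _).mp x.1.2⟩, by
              intro h
              apply x.2
              apply Subtype.ext
              have h2 := congrArg Subtype.val h
              simp only [Subgroup.coe_one] at h2
              have h3 : g.1 * x.1.1 * g.1⁻¹ = 1 := h2
              have h4 := (conj_eq_one_iff (a := g.1) (b := x.1.1)).mp h3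
              simpa using h4⟩
            invFun := fun x => ⟨⟨g.1⁻¹ * x.1.1 * g.1, by
                have h1 := (Subgroup.mem_normalizer_iff.mp (inv_mem g.2) x.1.1).mp x.1.2
                simpa using h1⟩, by
              intro h
              apply x.2
              apply Subtype.ext
              have h2 := congrArg Subtype.val h
              simp only [Subgroup.coe_one] at h2
              have h3 : g.1⁻¹ * x.1.1 * g.1 = 1 := h2
              have h4 : x.1.1 = 1 := by
                have : x.1.1 = g.1 * (g.1⁻¹ * x.1.1 * g.1) * g.1⁻¹ := by group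
                rw [this, h3]
                group
              simpa using h4⟩
            left_inv := by
              intro x
              apply Subtype.ext
              apply Subtype.ext
              simp [mul_assoc]
            right_inv := by
              intro x
              apply Subtype.ext
              apply Subtype.ext
              simp [mul_assoc] }
        map_one' := by
          ext x
          simp
        map_mul' := by
          intro a b
          ext x
          simp [mul_assoc] }
    have hker : conjPerm.ker = C.subgroupOf N := by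
      ext g
      rw [MonoidHom.mem_ker, Subgroup.mem_subgroupOf, Subgroup.mem_centralizer_iff]
      constructor
      · intro h z hz
        by_cases hz1 : z = 1
        · rw [hz1, one_mul, mul_one]
        have hz2 : (⟨z, hz⟩ : (P : Subgroup (alternatingGroup (Fin 5)))) ≠ 1 := by
          intro h2
          exact hz1 (congrArg Subtype.val h2)
        have h3 := congrArg (fun σ : Equiv.Perm S => (σ ⟨⟨z, hz⟩, hz2⟩).1.1) h
        have h4 : g.1 * z * g.1⁻¹ = z := h3
        calc z * g.1 = g.1 * z * g.1⁻¹ * g.1 := by rw [h4]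
          _ = g.1 * z := by group
      · intro h
        apply Equiv.ext
        intro x
        apply Subtype.ext
        apply Subtype.ext
        have h3 := h x.1.1 x.1.2
        change g.1 * x.1.1 * g.1⁻¹ = x.1.1
        rw [← h3]
        group
    have h1 := Subgroup.index_ker conjPerm
    rw [hker] at h1
    rw [h1]
    have h2 := Subgroup.card_subgroup_dvd_card conjPerm.range
    rw [Nat.card_perm, hS] at h2
    exact h2
  -- conclude
  have h6 : (C.subgroupOf N).index ∣ 3 := by
    have hcop : Nat.Coprime (C.subgroupOf N).index 2 := by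
      rw [Nat.coprime_comm, Nat.Prime.coprime_iff_not_dvd Nat.prime_two]
      exact hm2
    have h7 : (C.subgroupOf N).index ∣ 2 * 3 := hm3
    exact hcop.dvd_of_dvd_mul_left h7
  rcases (Nat.dvd_prime Nat.prime_three).mp h6 with h7 | h7
  · exact absurd h7 hm1
  · exact h7

end Cfsg.Agent.Lib.H1AltSyl
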