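import Cfsg.Agent.Lib.CharCoh
import Cfsg.Agent.Lib.H1Small2

/-!
# Brauer-Suzuki theory for abelian T.I. subgroups: degree relations (Brauer's tree for `p ∥ |G|`)
-/

set_option autoImplicit false
set_option linter.unusedVariables false
set_option linter.unusedSectionVars false
set_option linter.style.longLine false

open Cfsg Module
open scoped ComplexConjugate commutatorElement
open Cfsg.Agent.Lib.CharBasic Cfsg.Agent.Lib.CharOrth Cfsg.Agent.Lib.CharAlg Cfsg.Agent.Lib.CharInd
  Cfsg.Agent.Lib.CharLin Cfsg.Agent.Lib.CharInt Cfsg.Agent.Lib.CharTI Cfsg.Agent.Lib.CharNormal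
  Cfsg.Agent.Lib.CharClifford Cfsg.Agent.Lib.CharFrobTI Cfsg.Agent.Lib.CharCoh

universe u

namespace Cfsg.Agent.Lib.H1Brauer

variable {G : Type u} [Group G] [Fintype G] {K : Subgroup G} [Fintype (NK K)] [Fintype K]

open Classical in
/-- The permutation character of `N(K)` on the cosets of `K`, explicitly. -/
noncomputable def rho (K : Subgroup G) : NK K → ℂ :=
  fun n => if (n : G) ∈ K then ((K.subgroupOf (NK K)).index : ℂ) else 0

open Classical in
theorem sum_filter_K (F : NK K → ℂ) :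
    ∑ n : NK K, (if (n : G) ∈ K then F n else 0) = ∑ k : K, F ⟨k, K_le_NK K k.2⟩ := by
  rw [← Finset.sum_filter]
  refine Finset.sum_bij (fun n hn => (⟨n, (Finset.mem_filter.mp hn).2⟩ : K)) ?_ ?_ ?_ ?_
  · intro n hn; exact Finset.mem_univ _
  · intro a ha b hb hab
    exact Subtype.ext (by simpa using congrArg Subtype.val hab)
  · intro k _
    exact ⟨⟨k, K_le_NK K k.2⟩, Finset.mem_filter.mpr ⟨Finset.mem_univ _, k.2⟩, rfl⟩
  · intro n hn
    rfl

theorem index_ne_zero' : ((K.subgroupOf (NK K)).index : ℂ) ≠ 0 := by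
  have h := card_K_mul_index (K := K)
  have h2 : (K.subgroupOf (NK K)).index ≠ 0 := by
    intro h0
    rw [h0, mul_zero] at h
    exact Nat.card_pos.ne' h.symm
  exact_mod_cast h2

theorem card_K_ne_zero : (Nat.card K : ℂ) ≠ 0 := by exact_mod_cast Nat.card_pos.ne'

theorem card_N_eq : (Nat.card (NK K) : ℂ) = (Nat.card K : ℂ) * ((K.subgroupOf (NK K)).index : ℂ) := by
  have h := card_K_mul_index (K := K)
  exact_mod_cast h.symm

open Classical in
theorem inner_rho_right (f : NK K → ℂ) :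
    classInner f (rho K) = (Nat.card K : ℂ)⁻¹ * ∑ k : K, f ⟨k, K_le_NK K k.2⟩ := by
  have hS : ∀ n : NK K, f n * conj (rho K n) =
      if (n : G) ∈ K then f n * ((K.subgroupOf (NK K)).index : ℂ) else 0 := by
    intro n
    unfold rho
    split_ifs with h
    · rw [Complex.conj_natCast]
    · simp
  unfold classInner
  rw [Finset.sum_congr rfl (fun n _ => hS n), sum_filter_K, ← Finset.sum_mul, card_N_eq]
  have := index_ne_zero' (K := K)
  have := card_K_ne_zero (K := K)
  field_simp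

theorem inner_rho_left (f : NK K → ℂ) :
    classInner (rho K) f = (Nat.card K : ℂ)⁻¹ * ∑ k : K, conj (f ⟨k, K_le_NK K k.2⟩) := by
  rw [← classInner_conj_symm, inner_rho_right, map_mul, map_inv₀, Complex.conj_natCast, map_sum]

theorem rho_isClassFunction : IsClassFunction (NK K) (rho K) := by
  classical
  intro g x
  unfold rho
  have : ((x * g * x⁻¹ : NK K) : G) ∈ K ↔ (g : G) ∈ K := by
    push_cast
    constructor
    · intro h
      have h1 := NK_conj K (x⁻¹).2 h
      have h2 : ((x⁻¹ : NK K) : G) * ((x : G) * (g : G) * (x : G)⁻¹) * (((x⁻¹ : NK K) : G))⁻¹ = g := by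
        push_cast
        group
      rwa [h2] at h1
    · intro h
      exact NK_conj K x.2 h
  simp only [this]

theorem inner_rel_rho {χ : NK K → ℂ} (hχ : IsIrrCharacter (NK K) χ) (hr : IsRel K χ) :
    classInner χ (rho K) = 0 := by
  rw [inner_rho_right]
  have := rel_sum_zero hχ hr 1
  simp only [one_mul] at this
  rw [this, mul_zero]

theorem inner_rho_rel {χ : NK K → ℂ} (hχ : IsIrrCharacter (NK K) χ) (hr : IsRel K χ) :
    classInner (rho K) χ = 0 := by
  rw [← classInner_conj_symm, inner_rel_rho hχ hr, map_zero]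

theorem inner_rho_rho : classInner (rho K) (rho K) = ((K.subgroupOf (NK K)).index : ℂ) := by
  classical
  rw [inner_rho_right]
  have : ∀ k : K, rho K ⟨k, K_le_NK K k.2⟩ = ((K.subgroupOf (NK K)).index : ℂ) := by
    intro k
    unfold rho
    rw [if_pos k.2]
  simp only [this, Finset.sum_const, Finset.card_univ, nsmul_eq_mul]
  rw [← Nat.card_eq_fintype_card]
  have := card_K_ne_zero (K := K)
  field_simp

theorem inner_rho_one : classInner (rho K) (fun _ => (1 : ℂ)) = 1 := by
  rw [inner_rho_left]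
  simp only [map_one, Finset.sum_const, Finset.card_univ, nsmul_eq_mul, mul_one]
  rw [← Nat.card_eq_fintype_card]
  have := card_K_ne_zero (K := K)
  field_simp

theorem rho_one : rho K 1 = ((K.subgroupOf (NK K)).index : ℂ) := by
  classical
  unfold rho
  rw [if_pos (by simp [K.one_mem])]

theorem rho_eq_ind [Fintype (K₁ K)] : rho K = indFun (K₁ K) (fun _ => (1 : ℂ)) := by
  classical
  funext n
  by_cases hn : (n : G) ∈ K
  · have hnK : n ∈ K₁ K := Subgroup.mem_subgroupOf.mpr hn
    have h1 : ∀ x : NK K, extendByZero (K₁ K) (fun _ => (1 : ℂ)) (x⁻¹ * n * x) = 1 := by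
      intro x
      have h2 : x⁻¹ * n * x ∈ K₁ K := by
        have := (K₁_normal K).conj_mem n hnK x⁻¹
        simpa using this
      have h3 : x⁻¹ * n * x = ((⟨x⁻¹ * n * x, h2⟩ : K₁ K) : NK K) := rfl
      rw [h3, extendByZero_apply_mem]
    rw [indFun_apply]
    simp only [h1, Finset.sum_const, Finset.card_univ, nsmul_eq_mul, mul_one]
    rw [← Nat.card_eq_fintype_card]
    unfold rho
    rw [if_pos hn]
    have h4 : Nat.card (K₁ K) * (K₁ K).index = Nat.card (NK K) := Subgroup.card_mul_index _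
    have h5 : (Nat.card (K₁ K) : ℂ) ≠ 0 := by exact_mod_cast Nat.card_pos.ne'
    rw [← h4]
    push_cast
    field_simp
  · have hnK : n ∉ K₁ K := fun h => hn (Subgroup.mem_subgroupOf.mp h)
    haveI := K₁_normal K
    rw [indFun_of_not_mem_normal (K₁ K) _ hnK]
    unfold rho
    rw [if_neg hn]

theorem rho_isCharacter : IsCharacter (NK K) (rho K) := by
  classical
  haveI : Fintype (K₁ K) := Fintype.ofFinite _
  rw [rho_eq_ind]
  exact IsCharacter.ind (K₁ K) (IsIrrCharacter.isCharacter isIrrCharacter_one)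


/-- The relevant characters. -/
abbrev RelIdx (K : Subgroup G) : Type u :=
  {χ : IrrCharacter (NK K) // ∃ k : NK K, (k : G) ∈ K ∧ (χ : NK K → ℂ) k ≠ (χ : NK K → ℂ) 1}

theorem relIdx_rel (i : RelIdx K) : IsRel K i.1.1 := i.2

/-- Degrees: `|K| = 1 + e·T` where `T` is the number of relevant characters. -/
theorem card_K_eq (hC : ∀ k ∈ K, k ≠ 1 → Subgroup.centralizer ({k} : Set G) ≤ K)
    (hab : ∀ a ∈ K, ∀ b ∈ K, a * b = b * a) :
    Nat.card K = 1 + (K.subgroupOf (NK K)).index * Nat.card (RelIdx K) := by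
  classical
  haveI : Fintype (K₁ K) := Fintype.ofFinite _
  haveI : Fintype (RelIdx K) := Fintype.ofFinite _
  have h1 := sum_degree_sq (G := NK K)
  rw [← Finset.sum_filter_add_sum_filter_not _ (fun t : IrrCharacter (NK K) => IsRel K t.1)] at h1
  have h2 : ∑ t ∈ (Finset.univ : Finset (IrrCharacter (NK K))).filter (fun t => ¬ IsRel K t.1), (t.1 1) ^ 2 =
      ((K.subgroupOf (NK K)).index : ℂ) := by
    rw [← sum_nonrel_sq]
    apply Finset.sum_congr rfl
    intro t _
    rw [dg_spec t]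
  have h3 : ∑ t ∈ (Finset.univ : Finset (IrrCharacter (NK K))).filter (fun t => IsRel K t.1), (t.1 1) ^ 2 =
      (Nat.card (RelIdx K) : ℂ) * ((K.subgroupOf (NK K)).index : ℂ) ^ 2 := by
    have h4 : ∀ t ∈ (Finset.univ : Finset (IrrCharacter (NK K))).filter (fun t => IsRel K t.1), (t.1 1) ^ 2 =
        ((K.subgroupOf (NK K)).index : ℂ) ^ 2 := by
      intro t ht
      rw [rel_degree_eq_index hC hab t (Finset.mem_filter.mp ht).2]
    rw [Finset.sum_congr rfl h4, Finset.sum_const, nsmul_eq_mul, Nat.card_eq_fintype_card, Fintype.card_subtype]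
    congr!
  rw [h2, h3, card_N_eq] at h1
  have h5 := index_ne_zero' (K := K)
  have h6 : (Nat.card K : ℂ) = 1 + ((K.subgroupOf (NK K)).index : ℂ) * (Nat.card (RelIdx K) : ℂ) := by
    apply mul_right_cancel₀ h5
    linear_combination -h1
  exact_mod_cast h6

open Classical in
/-- The regular character of the normalizer in terms of `rho` and the relevant characters. -/
theorem reg_decomp (hC : ∀ k ∈ K, k ≠ 1 → Subgroup.centralizer ({k} : Set G) ≤ K)
    (hab : ∀ a ∈ K, ∀ b ∈ K, a * b = b * a) [Fintype (RelIdx K)] (n : NK K) :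
    (if n = 1 then (Nat.card (NK K) : ℂ) else 0) =
      rho K n + ((K.subgroupOf (NK K)).index : ℂ) * ∑ i : RelIdx K, i.1.1 n := by
  classical
  haveI : Fintype (K₁ K) := Fintype.ofFinite _
  by_cases hn : (n : G) ∈ K
  · by_cases hn1 : n = 1
    · subst hn1
      rw [if_pos rfl, rho_one, card_N_eq]
      have h1 : ∀ i : RelIdx K, i.1.1 1 = ((K.subgroupOf (NK K)).index : ℂ) := fun i =>
        rel_degree_eq_index hC hab i.1 i.2
      simp only [h1, Finset.sum_const, Finset.card_univ, nsmul_eq_mul]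
      rw [← Nat.card_eq_fintype_card]
      have h2 : (Nat.card K : ℂ) = 1 + ((K.subgroupOf (NK K)).index : ℂ) * (Nat.card (RelIdx K) : ℂ) := by
        exact_mod_cast card_K_eq hC hab
      rw [h2]
      ring
    · rw [if_neg hn1]
      have h1 := sum_rel_deg n hn hn1
      have h2 : ∑ t ∈ (Finset.univ : Finset (IrrCharacter (NK K))).filter (fun t => IsRel K t.1), (dg t : ℂ) * t.1 n =
          ((K.subgroupOf (NK K)).index : ℂ) * ∑ i : RelIdx K, i.1.1 n := by
        rw [Finset.mul_sum]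
        rw [Finset.sum_subtype (p := fun t : IrrCharacter (NK K) => IsRel K t.1)
          ((Finset.univ : Finset (IrrCharacter (NK K))).filter (fun t => IsRel K t.1)) (by simp)]
        apply Finset.sum_congr rfl
        intro i _
        rw [← dg_spec i.1, rel_degree_eq_index hC hab i.1 i.2]
      rw [← h2, h1]
      unfold rho
      rw [if_pos hn]
      ring
  · have hn1 : n ≠ 1 := by
      rintro rfl
      exact hn K.one_mem
    rw [if_neg hn1]
    unfold rho
    rw [if_neg hn]
    have : ∀ i : RelIdx K, i.1.1 n = 0 := fun i => rel_vanish hC i.1.2 i.2 n hn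
    simp [this]


/-- Brauer-Suzuki: the generalized character `Γ'` and its consequences. -/
theorem core (hTI : ∀ g : G, g ∉ NK K → ∀ k ∈ K, g * k * g⁻¹ ∈ K → k = 1)
    (hC : ∀ k ∈ K, k ≠ 1 → Subgroup.centralizer ({k} : Set G) ≤ K)
    (hab : ∀ a ∈ K, ∀ b ∈ K, a * b = b * a)
    (hTe : (K.subgroupOf (NK K)).index + 2 < Nat.card (RelIdx K)) :
    ∃ (ε : ℤ) (θ₀ : IrrCharacter G) (c : IrrCharacter G → ℤ), (ε = 1 ∨ ε = -1) ∧
      c ⟨fun _ => 1, isIrrCharacter_one⟩ = -1 ∧ c θ₀ = 0 ∧
      ∑ ψ, (c ψ) ^ 2 = ((K.subgroupOf (NK K)).index : ℤ) ∧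
      ∑ ψ, c ψ * (dg ψ : ℤ) + ε * (dg θ₀ : ℤ) = 0 ∧
      ∀ ψ, c ψ ≠ 0 → (Nat.card K : ℤ) ∣ (dg ψ : ℤ) + c ψ := by
  classical
  haveI : Fintype (K₁ K) := Fintype.ofFinite _
  haveI : Fintype (RelIdx K) := Fintype.ofFinite _
  obtain ⟨ε, f, hε, hf, hT⟩ := s0851_main hTI hC hab
  set e : ℂ := ((K.subgroupOf (NK K)).index : ℂ) with he
  let A : RelIdx K → NK K → ℂ := fun i => i.1.1 - rho K
  let Γ : RelIdx K → G → ℂ := fun i => indFun (NK K) (A i)
  have hε2 : ε * ε = 1 := by rcases hε with rfl | rfl <;> norm_num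
  have hconjε : conj ε = ε := by rcases hε with rfl | rfl <;> simp
  have hdiff : ∀ i j, Γ i - Γ j = ε • ((f i : G → ℂ) - (f j : G → ℂ)) := by
    intro i j
    simp only [Γ]
    rw [← indFun_sub, ← hT i j]
    congr 1
    simp only [A]
    abel
  have hAcl : ∀ i, IsClassFunction (NK K) (A i) := by
    intro i g h
    simp only [A, Pi.sub_apply]
    rw [classFunction_of_isIrrCharacter i.1.2 g h, rho_isClassFunction g h]
  have hAv : ∀ i, ∀ x : NK K, (x : G) ∉ (K : Set G) → A i x = 0 := by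
    intro i x hx
    simp only [A, Pi.sub_apply]
    rw [rel_vanish hC i.1.2 i.2 x hx]
    have hx' : (x : G) ∉ K := hx
    unfold rho
    rw [if_neg hx', sub_zero]
  have hA1 : ∀ i, A i 1 = 0 := by
    intro i
    simp only [A, Pi.sub_apply]
    rw [rel_degree_eq_index hC hab i.1 i.2, rho_one, sub_self]
  have hne : ∀ i j : RelIdx K, i.1.1 = j.1.1 ↔ i = j := fun i j =>
    ⟨fun h => Subtype.ext (Subtype.ext h), fun h => by rw [h]⟩
  have hinner : ∀ i j, classInner (Γ i) (Γ j) = (if i = j then 1 else 0) + e := by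
    intro i j
    simp only [Γ]
    rw [classInner_indFun_TI (K : Set G) hTI _ _ (hAcl j) (hAv i) (hAv j) (hA1 i)]
    simp only [A]
    rw [classInner_sub_left, classInner_sub_right, classInner_sub_right, classInner_irr i.1.2 j.1.2,
      inner_rel_rho i.1.2 i.2, inner_rho_rel j.1.2 j.2, inner_rho_rho]
    simp only [hne]
    ring
  have hone : ∀ i, classInner (Γ i) (fun _ => (1 : ℂ)) = -1 := by
    intro i
    simp only [Γ]
    rw [frobenius (NK K) (A i) (fun _ => 1) (fun g h => rfl)]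
    simp only [A]
    rw [classInner_sub_left, inner_rho_one, classInner_irr i.1.2 isIrrCharacter_one, if_neg]
    · norm_num
    · intro h
      obtain ⟨k, hk, hne'⟩ := i.2
      apply hne'
      rw [h]
  have hΓgen : ∀ i, IsGeneralizedCharacter G (Γ i) := fun i =>
    IsGeneralizedCharacter.ind (NK K) ⟨_, _, IsIrrCharacter.isCharacter i.1.2, rho_isCharacter, rfl⟩
  have hpick : ∀ j k : RelIdx K, ∃ i, i ≠ j ∧ i ≠ k := by
    intro j k
    by_contra hcon
    push Not at hcon
    have h2 : (Finset.univ : Finset (RelIdx K)) ⊆ {j, k} := by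
      intro i _
      by_cases hij : i = j
      · simp [hij]
      · simp [hcon i hij]
    have h3 := Finset.card_le_card h2
    have h4 : ({j, k} : Finset (RelIdx K)).card ≤ 2 := Finset.card_le_two
    rw [Finset.card_univ, ← Nat.card_eq_fintype_card] at h3
    omega
  have hne0 : Nonempty (RelIdx K) := by
    by_contra h
    rw [not_nonempty_iff] at h
    have := Nat.card_of_isEmpty (α := RelIdx K)
    omega
  obtain ⟨i₀⟩ := hne0
  obtain ⟨ε', hε', hε'c⟩ : ∃ ε' : ℤ, (ε' = 1 ∨ ε' = -1) ∧ (ε' : ℂ) = ε := by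
    rcases hε with rfl | rfl
    · exact ⟨1, Or.inl rfl, by norm_num⟩
    · exact ⟨-1, Or.inr rfl, by norm_num⟩
  let Γ' : G → ℂ := Γ i₀ - ε • (f i₀ : G → ℂ)
  have hΓ' : ∀ i, Γ' = Γ i - ε • (f i : G → ℂ) := by
    intro i
    have h := hdiff i₀ i
    funext g
    have h2 := congrFun h g
    simp only [Pi.sub_apply, Pi.smul_apply, smul_eq_mul] at h2
    simp only [Γ', Pi.sub_apply, Pi.smul_apply, smul_eq_mul]
    linear_combination h2
  have hΓ'gen : IsGeneralizedCharacter G Γ' := by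
    refine IsGeneralizedCharacter.sub (hΓgen i₀) ?_
    have h := IsGeneralizedCharacter.zsmul (IsGeneralizedCharacter.ofChar (IsIrrCharacter.isCharacter (f i₀).2)) ε'
    rw [hε'c] at h
    exact h
  choose c hc using fun ψ : IrrCharacter G => IsGeneralizedCharacter.classInner_irr_int hΓ'gen ψ.2
  have hinner' : ∀ i j, i ≠ j → classInner Γ' (f j).1 = classInner (Γ i) (f j).1 := by
    intro i j hij
    rw [hΓ' i, classInner_sub_left, classInner_smul_left, classInner_irr (f i).2 (f j).2, if_neg]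
    · simp
    · intro h
      exact hij (hf (Subtype.ext h))
  have hconst : ∀ j k, c (f j) = c (f k) := by
    intro j k
    obtain ⟨i, hij, hik⟩ := hpick j k
    have h1 : (c (f j) : ℂ) - c (f k) = 0 := by
      rw [← hc, ← hc, hinner' i j hij, hinner' i k hik, ← classInner_sub_right]
      have h2 : (f j).1 - (f k).1 = ε • (Γ j - Γ k) := by
        rw [hdiff j k, smul_smul, hε2, one_smul]
      rw [h2, classInner_smul_right, classInner_sub_right, hinner, hinner, if_neg hij, if_neg hik]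
      simp
    exact_mod_cast sub_eq_zero.mp h1
  set x : ℤ := c (f i₀) with hx
  have hxall : ∀ j, c (f j) = x := fun j => hconst j i₀
  have hΓ_f : classInner (Γ i₀) (f i₀).1 = x + ε := by
    have h3 : Γ i₀ = Γ' + ε • (f i₀).1 := by
      simp only [Γ']
      abel
    rw [h3, classInner_add_left, classInner_smul_left, classInner_irr (f i₀).2 (f i₀).2, if_pos rfl, hc]
    simp [hx]
  have hnorm : classInner Γ' Γ' = e - 2 * ε * x := by
    have h1 : classInner Γ' Γ' = classInner Γ' (Γ i₀) - ε * x := by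
      conv_lhs => rw [hΓ' i₀]
      conv_lhs => rw [classInner_sub_right, classInner_smul_right, hconjε]
      rw [← hΓ' i₀, hc]
    have h2 : classInner Γ' (Γ i₀) = 1 + e - ε * (x + ε) := by
      rw [hΓ' i₀, classInner_sub_left, classInner_smul_left, hinner, if_pos rfl]
      have h3 : classInner (f i₀).1 (Γ i₀) = x + ε := by
        rw [← classInner_conj_symm, hΓ_f, map_add, hconjε, map_intCast]
      rw [h3]
    rw [h1, h2]
    linear_combination -hε2
  have hcl : IsClassFunction G Γ' := IsGeneralizedCharacter.classFunction hΓ'gen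
  have hsum : ∑ ψ, (c ψ) ^ 2 = ((K.subgroupOf (NK K)).index : ℤ) - 2 * ε' * x := by
    have h := classInner_eq_sum Γ' Γ' hcl
    rw [hnorm] at h
    simp only [hc, map_intCast] at h
    have h5 : ((∑ ψ, (c ψ) ^ 2 : ℤ) : ℂ) = ((((K.subgroupOf (NK K)).index : ℤ) - 2 * ε' * x : ℤ) : ℂ) := by
      push_cast
      rw [hε'c, ← he, h]
      apply Finset.sum_congr rfl
      intro ψ _
      ring
    exact_mod_cast h5
  have hle : (Nat.card (RelIdx K) : ℤ) * x ^ 2 ≤ ∑ ψ, (c ψ) ^ 2 := by
    have h1 : ∑ i : RelIdx K, (c (f i)) ^ 2 ≤ ∑ ψ, (c ψ) ^ 2 := by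
      rw [← Finset.sum_image (s := Finset.univ) (g := f) (f := fun ψ => (c ψ) ^ 2) (fun a _ b _ h => hf h)]
      exact Finset.sum_le_sum_of_subset_of_nonneg (Finset.subset_univ _) (fun _ _ _ => sq_nonneg _)
    simp only [hxall, Finset.sum_const, Finset.card_univ, nsmul_eq_mul] at h1
    rwa [← Nat.card_eq_fintype_card] at h1
  have hx0 : x = 0 := by
    by_contra hx0
    have h1 : 1 ≤ x ^ 2 := by
      have := sq_nonneg x
      have h2 : x ^ 2 ≠ 0 := pow_ne_zero 2 hx0
      omega
    have h2 : -(2 * ε' * x) ≤ 2 * x ^ 2 := by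
      rcases hε' with rfl | rfl
      · nlinarith [sq_nonneg (x + 1), sq_nonneg (x - 1), abs_nonneg x]
      · nlinarith [sq_nonneg (x + 1), sq_nonneg (x - 1), abs_nonneg x]
    rw [hsum] at hle
    have hTe' : ((K.subgroupOf (NK K)).index : ℤ) + 2 + 1 ≤ (Nat.card (RelIdx K) : ℤ) := by exact_mod_cast hTe
    have hee : (0 : ℤ) ≤ ((K.subgroupOf (NK K)).index : ℤ) := by positivity
    nlinarith
  let ψ₁ : IrrCharacter G := ⟨fun _ => 1, isIrrCharacter_one⟩
  refine ⟨ε', f i₀, c, hε', ?_, hx0, ?_, ?_, ?_⟩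
  · obtain ⟨i₁, hi₁⟩ : ∃ i, f i ≠ ψ₁ := by
      by_contra hcon
      push Not at hcon
      obtain ⟨j, hj, _⟩ := hpick i₀ i₀
      exact hj (hf ((hcon j).trans (hcon i₀).symm))
    have h1 : (c ψ₁ : ℂ) = -1 := by
      rw [← hc, hΓ' i₁, classInner_sub_left, classInner_smul_left, hone i₁]
      change _ - ε * classInner (f i₁).1 (fun _ => (1 : ℂ)) = _
      rw [classInner_irr (f i₁).2 isIrrCharacter_one, if_neg]
      · simp
      · intro h
        exact hi₁ (Subtype.ext h)
    exact_mod_cast h1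
  · rw [hsum, hx0]
    ring
  · have h := congrFun (classFun_eq_sum Γ' hcl) 1
    have h1 : Γ' 1 = -(ε * (dg (f i₀) : ℂ)) := by
      simp only [Γ', Pi.sub_apply, Pi.smul_apply, smul_eq_mul]
      simp only [Γ]
      rw [indFun_one_apply, hA1, mul_zero, dg_spec (f i₀), zero_sub]
    rw [h1] at h
    simp only [Finset.sum_apply, Pi.smul_apply, smul_eq_mul, hc, dg_spec] at h
    have h5 : ((∑ ψ, c ψ * (dg ψ : ℤ) + ε' * (dg (f i₀) : ℤ) : ℤ) : ℂ) = ((0 : ℤ) : ℂ) := by
      push_cast
      rw [hε'c, ← h]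
      ring
    exact_mod_cast h5
  · intro ψ hψ
    have hψne : ∀ i, f i ≠ ψ := by
      rintro i rfl
      exact hψ ((hxall i).trans hx0)
    let ψN : NK K → ℂ := fun n => ψ.1 n
    have hψNchar : IsCharacter (NK K) ψN := IsCharacter.res (IsIrrCharacter.isCharacter ψ.2) (NK K)
    obtain ⟨b, hb⟩ := IsGeneralizedCharacter.classInner_int
      (IsGeneralizedCharacter.ofChar (rho_isCharacter (K := K))) (IsGeneralizedCharacter.ofChar hψNchar)
    have ha : ∀ i : RelIdx K, classInner i.1.1 ψN = (c ψ + b : ℤ) := by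
      intro i
      have h1 : classInner (Γ i) ψ.1 = classInner i.1.1 ψN - b := by
        simp only [Γ]
        rw [frobenius (NK K) (A i) ψ.1 (classFunction_of_isIrrCharacter ψ.2)]
        simp only [A]
        rw [classInner_sub_left, hb]
      have h2 : classInner (Γ i) ψ.1 = c ψ := by
        have h3 : Γ i = Γ' + ε • (f i).1 := by
          rw [hΓ' i]
          abel
        rw [h3, classInner_add_left, classInner_smul_left, classInner_irr (f i).2 ψ.2, if_neg, hc]
        · simp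
        · exact fun h => hψne i (Subtype.ext h)
      push_cast
      linear_combination h2 - h1
    have hreg : classInner (fun n : NK K => if n = 1 then (Nat.card (NK K) : ℂ) else 0) ψN = (dg ψ : ℂ) := by
      unfold classInner
      rw [Finset.sum_eq_single 1]
      · simp only [if_true]
        have h6 : (Nat.card (NK K) : ℂ) ≠ 0 := by exact_mod_cast Nat.card_pos.ne'
        have h7 : ψN 1 = (dg ψ : ℂ) := by
          simp only [ψN]
          exact_mod_cast dg_spec ψ
        rw [h7, Complex.conj_natCast]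
        field_simp
      · intro n _ hn
        simp [hn]
      · simp
    have hreg2 : (fun n : NK K => if n = 1 then (Nat.card (NK K) : ℂ) else 0) =
        rho K + e • ∑ i : RelIdx K, i.1.1 := by
      funext n
      rw [reg_decomp hC hab n]
      simp only [Pi.add_apply, Pi.smul_apply, smul_eq_mul, Finset.sum_apply]
      rfl
    rw [hreg2, classInner_add_left, classInner_smul_left, classInner_sum_left, hb] at hreg
    simp only [ha, Finset.sum_const, Finset.card_univ, nsmul_eq_mul] at hreg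
    rw [← Nat.card_eq_fintype_card] at hreg
    have h8 : (dg ψ : ℤ) = b + ((K.subgroupOf (NK K)).index : ℤ) * ((Nat.card (RelIdx K) : ℤ) * (c ψ + b)) := by
      have h9 : (((dg ψ : ℤ) : ℂ)) = ((b + ((K.subgroupOf (NK K)).index : ℤ) * ((Nat.card (RelIdx K) : ℤ) * (c ψ + b)) : ℤ) : ℂ) := by
        push_cast
        rw [← hreg]
        push_cast
        ring
      exact_mod_cast h9
    refine ⟨c ψ + b, ?_⟩
    rw [card_K_eq hC hab, h8]
    push_cast
    ring


theorem dg_dvd_card (ψ : IrrCharacter G) : dg ψ ∣ Nat.card G := by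
  obtain ⟨χ, hχ⟩ := ψ
  obtain ⟨n, ρ, hρ, rfl⟩ := id hχ
  have h1 := finrank_dvd_card ρ hρ
  have h2 : dg (⟨ρ.character, hχ⟩ : IrrCharacter G) = n := by
    have h3 := dg_spec (⟨ρ.character, hχ⟩ : IrrCharacter G)
    change ρ.character 1 = _ at h3
    rw [Representation.char_one] at h3
    simp only [finrank_fintype_fun_eq_card, Fintype.card_fin] at h3
    exact_mod_cast h3.symm
  rw [h2]
  simpa using h1

/-- A simple nonabelian group has only the trivial linear character. -/
theorem eq_one_of_dg_one [IsSimpleGroup G] (hnc : ¬ ∀ a b : G, a * b = b * a) (ψ : IrrCharacter G)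
    (h1 : dg ψ = 1) : ψ = ⟨fun _ => 1, isIrrCharacter_one⟩ := by
  classical
  have hcomm : commutator G = ⊤ := by
    rcases Subgroup.Normal.eq_bot_or_eq_top (inferInstance : (commutator G).Normal) with h | h
    · exfalso
      apply hnc
      intro a b
      have h2 : ⁅a, b⁆ ∈ commutator G := Subgroup.commutator_mem_commutator (Subgroup.mem_top a) (Subgroup.mem_top b)
      rw [h, Subgroup.mem_bot, commutatorElement_eq_one_iff_mul_comm] at h2
      exact h2
    · exact h
  have h2 := card_linear (G := G)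
  rw [hcomm, Subgroup.index_top] at h2
  have h3 : Subsingleton {χ : IrrCharacter G // (χ : G → ℂ) 1 = 1} := (Nat.card_eq_one_iff_unique.mp h2).1
  have h4 : (ψ : G → ℂ) 1 = 1 := by
    rw [dg_spec, h1]
    norm_num
  have h5 := h3.elim ⟨ψ, h4⟩ ⟨⟨fun _ => 1, isIrrCharacter_one⟩, rfl⟩
  exact congrArg Subtype.val h5

theorem sq_sum_sub_le {ι : Type*} [Fintype ι] [DecidableEq ι] (c : ι → ℤ) (T : Finset ι) :
    ∑ y ∈ T, (c y) ^ 2 ≤ ∑ y, (c y) ^ 2 :=
  Finset.sum_le_sum_of_subset_of_nonneg (Finset.subset_univ _) (fun _ _ _ => sq_nonneg _)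

theorem sq_eq_one_of {x : ℤ} (h : x ≠ 0) (h2 : x ^ 2 ≤ 1) : x = 1 ∨ x = -1 := by
  have h3 : x ≤ 1 := by nlinarith
  have h4 : -1 ≤ x := by nlinarith
  omega

/-- Analysis of a sum of squares equal to `2`. -/
theorem sq_sum_two {ι : Type*} [Fintype ι] [DecidableEq ι] (c : ι → ℤ) (a : ι) (ha : c a = -1)
    (h : ∑ y, (c y) ^ 2 = 2) :
    ∃ b, b ≠ a ∧ (c b = 1 ∨ c b = -1) ∧ ∀ y, y ≠ a → y ≠ b → c y = 0 := by
  obtain ⟨b, hba, hb⟩ : ∃ b, b ≠ a ∧ c b ≠ 0 := by
    by_contra hcon
    push Not at hcon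
    have h1 : ∑ y, (c y) ^ 2 = (c a) ^ 2 := by
      apply Finset.sum_eq_single a
      · intro y _ hy
        rw [hcon y hy]
        norm_num
      · simp
    rw [h1, ha] at h
    norm_num at h
  have h2 := sq_sum_sub_le c {a, b}
  rw [Finset.sum_pair hba.symm, h, ha] at h2
  refine ⟨b, hba, sq_eq_one_of hb (by nlinarith), ?_⟩
  intro y hya hyb
  by_contra hy
  have h3 := sq_sum_sub_le c {a, b, y}
  rw [Finset.sum_insert (by simp [hba.symm, hya.symm]), Finset.sum_pair hyb.symm, h, ha] at h3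
  have h4 : 0 < (c b) ^ 2 := by positivity
  have h5 : 0 < (c y) ^ 2 := by positivity
  nlinarith

/-- Analysis of a sum of squares equal to `3`. -/
theorem sq_sum_three {ι : Type*} [Fintype ι] [DecidableEq ι] (c : ι → ℤ) (a : ι) (ha : c a = -1)
    (h : ∑ y, (c y) ^ 2 = 3) :
    ∃ b b', b ≠ a ∧ b' ≠ a ∧ b ≠ b' ∧ (c b = 1 ∨ c b = -1) ∧ (c b' = 1 ∨ c b' = -1) ∧
      ∀ y, y ≠ a → y ≠ b → y ≠ b' → c y = 0 := by
  obtain ⟨b, hba, hb⟩ : ∃ b, b ≠ a ∧ c b ≠ 0 := by
    by_contra hcon
    push Not at hcon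
    have h1 : ∑ y, (c y) ^ 2 = (c a) ^ 2 := by
      apply Finset.sum_eq_single a
      · intro y _ hy
        rw [hcon y hy]
        norm_num
      · simp
    rw [h1, ha] at h
    norm_num at h
  obtain ⟨b', hba', hbb', hb'⟩ : ∃ b', b' ≠ a ∧ b' ≠ b ∧ c b' ≠ 0 := by
    by_contra hcon
    push Not at hcon
    have h1 : ∑ y, (c y) ^ 2 = ∑ y ∈ {a, b}, (c y) ^ 2 := by
      symm
      apply Finset.sum_subset (Finset.subset_univ _)
      intro y _ hy
      simp only [Finset.mem_insert, Finset.mem_singleton, not_or] at hy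
      rw [hcon y hy.1 hy.2]
      norm_num
    rw [h1, Finset.sum_pair hba.symm, ha] at h
    have h5 : (c b) ^ 2 = 2 := by linarith
    have h6 : c b ≤ 1 := by nlinarith
    have h7 : -1 ≤ c b := by nlinarith
    have h8 : c b ^ 2 ≤ 1 := by nlinarith
    omega
  have h2 := sq_sum_sub_le c {a, b, b'}
  rw [Finset.sum_insert (by simp [hba.symm, hba'.symm]), Finset.sum_pair hbb'.symm, h, ha] at h2
  have h4 : 0 < (c b) ^ 2 := by positivity
  have h5 : 0 < (c b') ^ 2 := by positivity
  refine ⟨b, b', hba, hba', hbb'.symm, sq_eq_one_of hb (by nlinarith), sq_eq_one_of hb' (by nlinarith), ?_⟩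
  intro y hya hyb hyb'
  by_contra hy
  have h3 := sq_sum_sub_le c {a, b, b', y}
  rw [Finset.sum_insert (by simp [hba.symm, hba'.symm, hya.symm]),
    Finset.sum_insert (by simp [hbb'.symm, hyb.symm]), Finset.sum_pair hyb'.symm, h, ha] at h3
  have h6 : 0 < (c y) ^ 2 := by positivity
  nlinarith


section Drivers

/-- The numerical consequences for a self-centralizing subgroup of prime order, in abstract form. -/
theorem prime_core {p : ℕ} (hp : p.Prime) (P : Subgroup G) (hP : Nat.card P = p)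
    (hCP : Subgroup.centralizer (P : Set G) ≤ P) (hab : ∀ a ∈ P, ∀ b ∈ P, a * b = b * a)
    (hzp : ∀ k ∈ P, k ≠ 1 → Subgroup.zpowers k = P)
    (hTe : (P.subgroupOf (NK P)).index + 2 < Nat.card (RelIdx P)) :
    ∃ (ε : ℤ) (θ₀ : IrrCharacter G) (c : IrrCharacter G → ℤ), (ε = 1 ∨ ε = -1) ∧
      c ⟨fun _ => 1, isIrrCharacter_one⟩ = -1 ∧ c θ₀ = 0 ∧
      ∑ ψ, (c ψ) ^ 2 = ((P.subgroupOf (NK P)).index : ℤ) ∧
      ∑ ψ, c ψ * (dg ψ : ℤ) + ε * (dg θ₀ : ℤ) = 0 ∧
      ∀ ψ, c ψ ≠ 0 → (p : ℤ) ∣ (dg ψ : ℤ) + c ψ := by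
  classical
  haveI : Fintype (NK P) := Fintype.ofFinite _
  haveI : Fintype P := Fintype.ofFinite _
  have hC : ∀ k ∈ P, k ≠ 1 → Subgroup.centralizer ({k} : Set G) ≤ P := by
    intro k hk hk1 z hz
    apply hCP
    rw [Subgroup.mem_centralizer_iff]
    intro y hy
    have hy' : y ∈ Subgroup.zpowers k := by
      rw [hzp k hk hk1]
      exact hy
    obtain ⟨n, rfl⟩ := Subgroup.mem_zpowers_iff.mp hy'
    have hzk : k * z = z * k := (Subgroup.mem_centralizer_iff.mp hz) k rfl
    exact ((Commute.zpow_left hzk n)).eq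
  have hTI : ∀ g : G, g ∉ NK P → ∀ k ∈ P, g * k * g⁻¹ ∈ P → k = 1 := by
    intro g hg k hk hgk
    refine ti_of_self_centralizing P ?_ g hg k hk hgk
    intro x hx hx1
    apply le_antisymm (hC x hx hx1)
    intro y hy
    rw [Subgroup.mem_centralizer_iff]
    intro u hu
    rw [Set.mem_singleton_iff.mp hu]
    exact hab x hx y hy
  have h := core hTI hC hab hTe
  rwa [hP] at h


theorem natAbs_eq_of_sign {a : ℤ} {ε : ℤ} {d : ℕ} (hε : ε = 1 ∨ ε = -1) (h : a = ε * d) : a.natAbs = d := by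
  rcases hε with rfl | rfl
  · simp [h]
  · simp [h]

theorem dvd_of_coprime_sign {p m d : ℕ} (hp : p.Prime) {c : ℤ} (hc : c = 1 ∨ c = -1)
    (h1 : (p : ℤ) ∣ (d : ℤ) + c) (h2 : d ∣ p * m) : d ∣ m := by
  have hnd : ¬ p ∣ d := by
    intro hd
    have h3 : (p : ℤ) ∣ (d : ℤ) := by exact_mod_cast hd
    have h4 : (p : ℤ) ∣ c := (Int.dvd_add_right h3).mp h1
    have h5 : (p : ℤ) ∣ 1 := by
      rcases hc with rfl | rfl
      · exact h4
      · simpa using h4
    have h6 : p ∣ 1 := by exact_mod_cast h5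
    exact hp.one_lt.ne' (Nat.dvd_one.mp h6)
  exact (Nat.Coprime.dvd_mul_left ((Nat.Prime.coprime_iff_not_dvd hp).mpr hnd).symm).mp h2

end Drivers

section Simple

open Cfsg.Agent.Lib.H1Small

variable {G : Type u} [Group G] [Finite G] [IsSimpleGroup G] {p : ℕ} [hp : Fact p.Prime]

/-- Common preparation for a Sylow subgroup of prime order with normalizer of order `e * p`. -/
theorem prep (P : Sylow p G) (e : ℕ) (he : e.Prime) (m : ℕ) (hc : Nat.card G = p * m)
    (hP : Nat.card (P : Subgroup G) = p)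
    (hN : Nat.card (Subgroup.normalizer ((P : Subgroup G) : Set G)) = e * p)
    (hbig : 1 + e * (e + 2) < p) :
    (¬ ∀ a b : G, a * b = b * a) ∧
    Subgroup.centralizer ((P : Subgroup G) : Set G) ≤ (P : Subgroup G) ∧
    (∀ a ∈ (P : Subgroup G), ∀ b ∈ (P : Subgroup G), a * b = b * a) ∧
    (∀ k ∈ (P : Subgroup G), k ≠ 1 → Subgroup.zpowers k = (P : Subgroup G)) ∧
    ((P : Subgroup G).subgroupOf (NK (P : Subgroup G))).index = e ∧
    1 + e * (e + 2) < p := by
  classical
  haveI : Fintype G := Fintype.ofFinite G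
  haveI : Fintype (NK (P : Subgroup G)) := Fintype.ofFinite _
  haveI : Fintype (P : Subgroup G) := Fintype.ofFinite _
  have hp1 : p.Prime := hp.out
  have hPC : (P : Subgroup G) ≤ Subgroup.centralizer ((P : Subgroup G) : Set G) :=
    le_centralizer_of_prime_card _ hP
  have hab : ∀ a ∈ (P : Subgroup G), ∀ b ∈ (P : Subgroup G), a * b = b * a := by
    intro a ha b hb
    exact (Subgroup.mem_centralizer_iff.mp (hPC hb)) a ha
  have hpG : Nat.card (P : Subgroup G) ≠ Nat.card G := by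
    intro h
    have h2 := Subgroup.card_le_card_group (Subgroup.normalizer ((P : Subgroup G) : Set G))
    rw [hN, ← h, hP] at h2
    have h3 := he.two_le
    have h4 := hp1.pos
    nlinarith
  have hne := not_normalizer_le_centralizer P (by rw [hP]; exact hp1.one_lt.ne') hpG
  have hCN := centralizer_le_normalizer' (P : Subgroup G)
  refine ⟨?_, ?_, hab, ?_, ?_, hbig⟩
  · intro hcomm
    apply hne
    intro x _
    rw [Subgroup.mem_centralizer_iff]
    intro y _
    exact hcomm y x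
  · -- the centralizer has order `p`
    have h1 : Nat.card (P : Subgroup G) ∣ Nat.card (Subgroup.centralizer ((P : Subgroup G) : Set G)) :=
      Subgroup.card_dvd_of_le hPC
    have h2 : Nat.card (Subgroup.centralizer ((P : Subgroup G) : Set G)) ∣ e * p := by
      rw [← hN]
      exact Subgroup.card_dvd_of_le hCN
    rw [hP] at h1
    obtain ⟨k, hk⟩ := h1
    rw [hk, mul_comm e p] at h2
    have h3 : k ∣ e := (Nat.mul_dvd_mul_iff_left hp1.pos).mp h2
    rcases (Nat.dvd_prime he).mp h3 with rfl | rfl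
    · have h4 : Nat.card (Subgroup.centralizer ((P : Subgroup G) : Set G)) ≤ Nat.card (P : Subgroup G) := by
        rw [hk, hP, mul_one]
      exact (Subgroup.eq_of_le_of_card_ge hPC h4).ge
    · exfalso
      apply hne
      have h4 : Nat.card (Subgroup.normalizer ((P : Subgroup G) : Set G)) ≤
          Nat.card (Subgroup.centralizer ((P : Subgroup G) : Set G)) := by
        rw [hN, hk, mul_comm]
      exact (Subgroup.eq_of_le_of_card_ge hCN h4).ge
  · intro k hk hk1
    exact zpowers_eq_of_mem_prime_card _ hP hk hk1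
  · have h1 := card_K_mul_index (K := (P : Subgroup G))
    rw [hP] at h1
    have h2 : Nat.card (NK (P : Subgroup G)) = e * p := hN
    rw [h2, mul_comm e p] at h1
    exact Nat.eq_of_mul_eq_mul_left hp1.pos h1

/-- `e = 2`. -/
theorem no_simple_two (P : Sylow p G) (m : ℕ) (hc : Nat.card G = p * m)
    (hP : Nat.card (P : Subgroup G) = p)
    (hN : Nat.card (Subgroup.normalizer ((P : Subgroup G) : Set G)) = 2 * p)
    (hbig : 9 < p) (hm : m ≠ 0)
    (hchk : ∀ d ∈ Nat.divisors m, ∀ c ∈ ({1, -1} : Finset ℤ), d ≠ 1 → (p : ℤ) ∣ d + c →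
      ¬ (1 - c * d).natAbs ∣ p * m) : False := by
  classical
  haveI : Fintype G := Fintype.ofFinite G
  haveI : Fintype (NK (P : Subgroup G)) := Fintype.ofFinite _
  haveI : Fintype (P : Subgroup G) := Fintype.ofFinite _
  have hp1 : p.Prime := hp.out
  obtain ⟨hnc, hCP, hab, hzp, hidx, -⟩ := prep P 2 Nat.prime_two m hc hP hN (by omega)
  have hC : ∀ k ∈ (P : Subgroup G), k ≠ 1 → Subgroup.centralizer ({k} : Set G) ≤ (P : Subgroup G) := by
    intro k hk hk1 z hz
    apply hCP
    rw [Subgroup.mem_centralizer_iff]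
    intro y hy
    have hy' : y ∈ Subgroup.zpowers k := by
      rw [hzp k hk hk1]
      exact hy
    obtain ⟨n, rfl⟩ := Subgroup.mem_zpowers_iff.mp hy'
    have hzk : k * z = z * k := (Subgroup.mem_centralizer_iff.mp hz) k rfl
    exact ((Commute.zpow_left hzk n)).eq
  have hT := card_K_eq hC hab
  rw [hidx, hP] at hT
  obtain ⟨ε, θ₀, c, hε, hc1, hc0, hsum, hdeg, hcong⟩ := prime_core hp1 (P : Subgroup G) hP hCP hab hzp (by
    rw [hidx]
    omega)
  rw [hidx] at hsum
  obtain ⟨b, hba, hb, hrest⟩ := sq_sum_two c _ hc1 (by exact_mod_cast hsum)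
  have hbne : c b ≠ 0 := by
    rcases hb with h | h <;> rw [h] <;> norm_num
  have hsum2 : ∑ ψ, c ψ * (dg ψ : ℤ) = c ⟨fun _ => 1, isIrrCharacter_one⟩ * (dg (⟨fun _ => 1, isIrrCharacter_one⟩ : IrrCharacter G) : ℤ) + c b * (dg b : ℤ) := by
    apply Fintype.sum_eq_add _ _ hba.symm
    rintro x ⟨hx1, hx2⟩
    rw [hrest x hx1 hx2, zero_mul]
  have hdg1 : dg (⟨fun _ => 1, isIrrCharacter_one⟩ : IrrCharacter G) = 1 := by
    have h := dg_spec (⟨fun _ => 1, isIrrCharacter_one⟩ : IrrCharacter G)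
    have h2 : (1 : ℂ) = (dg (⟨fun _ => 1, isIrrCharacter_one⟩ : IrrCharacter G) : ℂ) := h
    exact_mod_cast h2.symm
  rw [hsum2, hc1, hdg1] at hdeg
  have hd1 : dg b ≠ 1 := fun h => hba (eq_one_of_dg_one hnc b h)
  have hc2 := hcong b hbne
  have hdm : dg b ∣ m := dvd_of_coprime_sign hp1 hb hc2 (by rw [← hc]; exact dg_dvd_card b)
  refine hchk (dg b) (Nat.mem_divisors.mpr ⟨hdm, hm⟩) (c b) (by simpa using hb) hd1 hc2 ?_
  have h5 : (1 - c b * (dg b : ℤ)).natAbs = dg θ₀ := natAbs_eq_of_sign hε (by push_cast at hdeg; linarith)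
  rw [h5, ← hc]
  exact dg_dvd_card θ₀

/-- `e = 3`. -/
theorem no_simple_three (P : Sylow p G) (m : ℕ) (hc : Nat.card G = p * m)
    (hP : Nat.card (P : Subgroup G) = p)
    (hN : Nat.card (Subgroup.normalizer ((P : Subgroup G) : Set G)) = 3 * p)
    (hbig : 16 < p) (hm : m ≠ 0)
    (hchk : ∀ d ∈ Nat.divisors m, ∀ d' ∈ Nat.divisors m, ∀ c ∈ ({1, -1} : Finset ℤ), ∀ c' ∈ ({1, -1} : Finset ℤ),
      d ≠ 1 → d' ≠ 1 → (p : ℤ) ∣ d + c → (p : ℤ) ∣ d' + c' →
      ¬ (1 - c * d - c' * d').natAbs ∣ p * m) : False := by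
  classical
  haveI : Fintype G := Fintype.ofFinite G
  haveI : Fintype (NK (P : Subgroup G)) := Fintype.ofFinite _
  haveI : Fintype (P : Subgroup G) := Fintype.ofFinite _
  have hp1 : p.Prime := hp.out
  obtain ⟨hnc, hCP, hab, hzp, hidx, -⟩ := prep P 3 Nat.prime_three m hc hP hN (by omega)
  have hC : ∀ k ∈ (P : Subgroup G), k ≠ 1 → Subgroup.centralizer ({k} : Set G) ≤ (P : Subgroup G) := by
    intro k hk hk1 z hz
    apply hCP
    rw [Subgroup.mem_centralizer_iff]
    intro y hy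
    have hy' : y ∈ Subgroup.zpowers k := by
      rw [hzp k hk hk1]
      exact hy
    obtain ⟨n, rfl⟩ := Subgroup.mem_zpowers_iff.mp hy'
    have hzk : k * z = z * k := (Subgroup.mem_centralizer_iff.mp hz) k rfl
    exact ((Commute.zpow_left hzk n)).eq
  have hT := card_K_eq hC hab
  rw [hidx, hP] at hT
  obtain ⟨ε, θ₀, c, hε, hc1, hc0, hsum, hdeg, hcong⟩ := prime_core hp1 (P : Subgroup G) hP hCP hab hzp (by
    rw [hidx]
    omega)
  rw [hidx] at hsum
  obtain ⟨b, b', hba, hba', hbb', hb, hb', hrest⟩ := sq_sum_three c _ hc1 (by exact_mod_cast hsum)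
  have hbne : c b ≠ 0 := by
    rcases hb with h | h <;> rw [h] <;> norm_num
  have hbne' : c b' ≠ 0 := by
    rcases hb' with h | h <;> rw [h] <;> norm_num
  have hsum2 : ∑ ψ, c ψ * (dg ψ : ℤ) = c ⟨fun _ => 1, isIrrCharacter_one⟩ * (dg (⟨fun _ => 1, isIrrCharacter_one⟩ : IrrCharacter G) : ℤ) + (c b * (dg b : ℤ) + c b' * (dg b' : ℤ)) := by
    have h1 : ∑ ψ, c ψ * (dg ψ : ℤ) = ∑ ψ ∈ {(⟨fun _ => 1, isIrrCharacter_one⟩ : IrrCharacter G), b, b'}, c ψ * (dg ψ : ℤ) := by
      symm
      apply Finset.sum_subset (Finset.subset_univ _)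
      intro y _ hy
      simp only [Finset.mem_insert, Finset.mem_singleton, not_or] at hy
      rw [hrest y hy.1 hy.2.1 hy.2.2, zero_mul]
    rw [h1, Finset.sum_insert (by simp [hba.symm, hba'.symm]), Finset.sum_pair hbb']
  have hdg1 : dg (⟨fun _ => 1, isIrrCharacter_one⟩ : IrrCharacter G) = 1 := by
    have h := dg_spec (⟨fun _ => 1, isIrrCharacter_one⟩ : IrrCharacter G)
    have h2 : (1 : ℂ) = (dg (⟨fun _ => 1, isIrrCharacter_one⟩ : IrrCharacter G) : ℂ) := h
    exact_mod_cast h2.symm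
  rw [hsum2, hc1, hdg1] at hdeg
  have hd1 : dg b ≠ 1 := fun h => hba (eq_one_of_dg_one hnc b h)
  have hd1' : dg b' ≠ 1 := fun h => hba' (eq_one_of_dg_one hnc b' h)
  have hc2 := hcong b hbne
  have hc2' := hcong b' hbne'
  have hdm : dg b ∣ m := dvd_of_coprime_sign hp1 hb hc2 (by rw [← hc]; exact dg_dvd_card b)
  have hdm' : dg b' ∣ m := dvd_of_coprime_sign hp1 hb' hc2' (by rw [← hc]; exact dg_dvd_card b')
  refine hchk (dg b) (Nat.mem_divisors.mpr ⟨hdm, hm⟩) (dg b') (Nat.mem_divisors.mpr ⟨hdm', hm⟩) (c b) (by simpa using hb)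
    (c b') (by simpa using hb') hd1 hd1' hc2 hc2' ?_
  have h5 : (1 - c b * (dg b : ℤ) - c b' * (dg b' : ℤ)).natAbs = dg θ₀ := natAbs_eq_of_sign hε (by push_cast at hdeg; linarith)
  rw [h5, ← hc]
  exact dg_dvd_card θ₀

end Simple

end Cfsg.Agent.Lib.H1Brauer
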