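import Cfsg.Agent.Lib.H1JordanN
import Cfsg.Agent.Lib.H1FrobThm
import Cfsg.Agent.S4252
import Mathlib

set_option autoImplicit false

/-! Burnside's theorem on minimal normal subgroups of doubly transitive groups. -/

namespace Cfsg.Agent.Lib.H1Burn2

open MulAction

open scoped Pointwise

universe u v

variable {G : Type u} [Group G] {α : Type v} [MulAction G α]

theorem same_order (h2 : IsMultiplyPretransitive G α 2) (L : Subgroup G) (a : α)
    (hreg : ∀ x ∈ L, x • a = a → x = 1)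
    (hconj : ∀ g : G, ∀ u ∈ L, ∀ v ∈ L, g • a = a → (g * u * g⁻¹) • a = v • a →
      (g * u * g⁻¹) * v = v * (g * u * g⁻¹)) :
    ∀ u ∈ L, ∀ v ∈ L, u ≠ 1 → v ≠ 1 → orderOf u = orderOf v := by
  intro u hu v hv hu1 hv1
  have hua : u • a ≠ a := fun h => hu1 (hreg u hu h)
  have hva : v • a ≠ a := fun h => hv1 (hreg v hv h)
  obtain ⟨g, hg1, hg2⟩ := H1JordanN.exists_move2 h2 hua.symm hva.symm
  set y := g * u * g⁻¹ with hy
  have hginv : g⁻¹ • a = a := by rw [inv_smul_eq_iff, hg1]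
  have hya : y • a = v • a := by
    rw [hy, mul_smul, mul_smul, hginv, hg2]
  have hcomm : y * v = v * y := hconj g u hu v hv hg1 hya
  have hpow : ∀ k : ℕ, y ^ k • a = v ^ k • a := by
    intro k
    induction k with
    | zero => simp
    | succ k ih =>
      have h1 : y ^ k * v = v * y ^ k := (Commute.pow_left hcomm k).eq
      rw [pow_succ, mul_smul, hya, ← mul_smul, h1, mul_smul, ih, ← mul_smul, ← pow_succ']
  have hyk : ∀ k : ℕ, y ^ k = g * u ^ k * g⁻¹ := fun k => conj_pow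
  rw [orderOf_eq_orderOf_iff]
  intro k
  constructor
  · intro h
    apply hreg _ (L.pow_mem hv k)
    rw [← hpow, hyk, h]
    simp
  · intro h
    apply hreg _ (L.pow_mem hu k)
    have h3 := hpow k
    rw [h, one_smul, hyk, mul_smul, mul_smul, hginv] at h3
    have h4 : g⁻¹ • (g • (u ^ k • a)) = g⁻¹ • a := by rw [h3]
    rwa [inv_smul_smul, hginv] at h4

theorem exists_central [Finite G] (L : Subgroup G) (hne : L ≠ ⊥)
    (hsame : ∀ u ∈ L, ∀ v ∈ L, u ≠ 1 → v ≠ 1 → orderOf u = orderOf v) :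
    ∃ z ∈ L, z ≠ 1 ∧ ∀ x ∈ L, x * z = z * x := by
  obtain ⟨u, hu, hu1⟩ := L.bot_or_exists_ne_one.resolve_left hne
  have hord : orderOf u ≠ 1 := by rwa [Ne, orderOf_eq_one_iff]
  have hp : (orderOf u).minFac.Prime := Nat.minFac_prime hord
  set p := (orderOf u).minFac with hpdef
  have hw : orderOf (u ^ (orderOf u / p)) = p :=
    orderOf_pow_orderOf_div (orderOf_pos u).ne' (Nat.minFac_dvd _)
  have hwL : u ^ (orderOf u / p) ∈ L := L.pow_mem hu _
  have hw1 : u ^ (orderOf u / p) ≠ 1 := by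
    intro h
    rw [h, orderOf_one] at hw
    exact hp.one_lt.ne hw
  have hall : ∀ x ∈ L, x ^ p = 1 := by
    intro x hx
    by_cases hx1 : x = 1
    · rw [hx1, one_pow]
    · rw [← hw, ← hsame x hx _ hwL hx1 hw1]
      exact pow_orderOf_eq_one x
  haveI : Fact p.Prime := ⟨hp⟩
  have hP : IsPGroup p L := fun x => ⟨1, by
    rw [pow_one]
    exact Subtype.ext (hall x x.2)⟩
  haveI : Nontrivial L := (Subgroup.nontrivial_iff_ne_bot L).mpr hne
  haveI := hP.center_nontrivial
  obtain ⟨z, hz⟩ := exists_ne (1 : Subgroup.center L)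
  refine ⟨((z : L) : G), (z : L).2, ?_, ?_⟩
  · intro h
    exact hz (Subtype.ext (Subtype.ext h))
  · intro x hx
    have h1 := (Subgroup.mem_center_iff.mp z.2) ⟨x, hx⟩
    exact congrArg Subtype.val h1

theorem central_eq (T L : Subgroup G) (hT : ∀ t ∈ T, ∀ x ∈ L, t * x * t⁻¹ ∈ L)
    (hmin : ∀ M : Subgroup G, M ≤ L → (∀ t ∈ T, ∀ x ∈ M, t * x * t⁻¹ ∈ M) → M = ⊥ ∨ M = L)
    (hz : ∃ z ∈ L, z ≠ 1 ∧ ∀ x ∈ L, x * z = z * x) : ∀ x ∈ L, ∀ y ∈ L, x * y = y * x := by
  obtain ⟨z, hzL, hz1, hzc⟩ := hz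
  let M : Subgroup G := L ⊓ Subgroup.centralizer (L : Set G)
  have hmemM : ∀ x, x ∈ M ↔ x ∈ L ∧ ∀ y ∈ L, y * x = x * y := by
    intro x
    simp only [M, Subgroup.mem_inf, Subgroup.mem_centralizer_iff]
    rfl
  have hMT : ∀ t ∈ T, ∀ x ∈ M, t * x * t⁻¹ ∈ M := by
    intro t ht x hx
    obtain ⟨hx1, hx2⟩ := (hmemM x).mp hx
    rw [hmemM]
    refine ⟨hT t ht x hx1, fun y hy => ?_⟩
    have h1 : t⁻¹ * y * t⁻¹⁻¹ ∈ L := hT _ (T.inv_mem ht) y hy
    have h2 := hx2 _ h1
    have h3 : y = t * (t⁻¹ * y * t⁻¹⁻¹) * t⁻¹ := by group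
    calc y * (t * x * t⁻¹) = t * (t⁻¹ * y * t⁻¹⁻¹ * x) * t⁻¹ := by group
      _ = t * (x * (t⁻¹ * y * t⁻¹⁻¹)) * t⁻¹ := by rw [h2]
      _ = t * x * t⁻¹ * y := by group
  rcases hmin M inf_le_left hMT with h | h
  · exfalso
    have h1 : z ∈ M := (hmemM z).mpr ⟨hzL, hzc⟩
    rw [h, Subgroup.mem_bot] at h1
    exact hz1 h1
  · intro x hx y hy
    have h1 : y ∈ M := by rw [h]; exact hy
    exact ((hmemM y).mp h1).2 x hx

/-- If a normal subgroup of a doubly transitive group is imprimitive, its non-identity elements fix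
at most one point. -/
theorem fix_trivial [Finite α] [FaithfulSMul G α] (h2 : IsMultiplyPretransitive G α 2)
    (N : Subgroup G) [hNn : N.Normal] (hnp : ¬ IsPreprimitive N α) (htr : IsPretransitive N α) :
    ∀ u ∈ N, u ≠ 1 → ∀ x y : α, u • x = x → u • y = y → x = y := by
  classical
  let Bl : Set α → Prop := fun S => ∀ n ∈ N, ∀ x ∈ S, n • x ∈ S → ∀ y ∈ S, n • y ∈ S
  let P : Set α → Prop := fun S => Bl S ∧ (∃ x ∈ S, ∃ y ∈ S, x ≠ y) ∧ S ≠ Set.univ
  have hex : ∃ r, ∃ S : Set α, P S ∧ S.ncard = r := by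
    by_contra hc
    push Not at hc
    apply hnp
    refine { isTrivialBlock_of_isBlock := ?_ }
    intro B hB
    by_cases hsub : B.Subsingleton
    · exact Or.inl hsub
    · right
      by_contra hu
      have hBl : Bl B := by
        intro n hn x hx hnx y hy
        have h1 := hB.smul_eq_of_mem (g := (⟨n, hn⟩ : N)) hx hnx
        have h3 : (⟨n, hn⟩ : N) • y ∈ (⟨n, hn⟩ : N) • B := Set.smul_mem_smul_set hy
        rw [h1] at h3
        exact h3
      have h3 : ∃ x ∈ B, ∃ y ∈ B, x ≠ y := by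
        rw [Set.Subsingleton] at hsub
        push Not at hsub
        obtain ⟨x, hx, y, hy, hxy⟩ := hsub
        exact ⟨x, hx, y, hy, hxy⟩
      exact hc _ B ⟨hBl, h3, hu⟩ rfl
  obtain ⟨S, hSP, hSr⟩ := Nat.find_spec hex
  have hmin : ∀ T : Set α, P T → S.ncard ≤ T.ncard := by
    intro T hT
    rw [hSr]
    exact Nat.find_min' hex ⟨T, hT, rfl⟩
  obtain ⟨hSB, ⟨a₀, ha₀, b₀, hb₀, hab₀⟩, hSu⟩ := hSP
  have hLbl : ∀ g : G, Bl (g • S) := by
    intro g n hn x hx hnx y hy
    rw [Set.mem_smul_set_iff_inv_smul_mem] at hx hnx hy ⊢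
    have hn' : g⁻¹ * n * g⁻¹⁻¹ ∈ N := hNn.conj_mem n hn g⁻¹
    have hcalc : ∀ w : α, (g⁻¹ * n * g⁻¹⁻¹) • (g⁻¹ • w) = g⁻¹ • (n • w) := by
      intro w
      rw [inv_inv, mul_smul, mul_smul, smul_inv_smul]
    have h3 := hSB _ hn' _ hx (by rw [hcalc]; exact hnx) _ hy
    rwa [hcalc] at h3
  have hcard : ∀ g : G, (g • S).ncard = S.ncard := fun g => by
    rw [← Set.image_smul]
    exact Set.ncard_image_of_injective _ (MulAction.injective g)
  have hLu : ∀ g : G, g • S ≠ Set.univ := by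
    intro g h
    apply hSu
    rw [Set.eq_univ_iff_forall] at h ⊢
    intro x
    have h3 := h (g • x)
    rwa [Set.smul_mem_smul_set_iff] at h3
  have hthrough : ∀ x y : α, x ≠ y → ∃ g : G, x ∈ g • S ∧ y ∈ g • S := by
    intro x y hxy
    obtain ⟨g, hg1, hg2⟩ := H1JordanN.exists_move2 h2 hab₀ hxy
    exact ⟨g, by rw [← hg1]; exact Set.smul_mem_smul_set ha₀, by rw [← hg2]; exact Set.smul_mem_smul_set hb₀⟩
  have hunique : ∀ (g₁ g₂ : G) (x y : α), x ≠ y → x ∈ g₁ • S → y ∈ g₁ • S → x ∈ g₂ • S → y ∈ g₂ • S →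
      g₁ • S = g₂ • S := by
    intro g₁ g₂ x y hxy hx1 hy1 hx2 hy2
    have hI : P (g₁ • S ∩ g₂ • S) := by
      refine ⟨?_, ⟨x, ⟨hx1, hx2⟩, y, ⟨hy1, hy2⟩, hxy⟩, ?_⟩
      · intro n hn z hz hnz w hw
        exact ⟨hLbl g₁ n hn z hz.1 hnz.1 w hw.1, hLbl g₂ n hn z hz.2 hnz.2 w hw.2⟩
      · intro h
        apply hLu g₁
        rw [Set.eq_univ_iff_forall] at h ⊢
        exact fun w => (h w).1
    have h3 := hmin _ hI
    have h4 : g₁ • S ∩ g₂ • S = g₁ • S :=
      Set.eq_of_subset_of_ncard_le Set.inter_subset_left (by rw [hcard]; exact h3)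
    have h5 : g₁ • S ∩ g₂ • S = g₂ • S :=
      Set.eq_of_subset_of_ncard_le Set.inter_subset_right (by rw [hcard]; exact h3)
    rw [← h4, h5]
  have hoff : ∀ u ∈ N, ∀ p q : α, p ≠ q → u • p = p → u • q = q → ∀ g : G, p ∈ g • S → q ∈ g • S →
      ∀ z, z ∉ g • S → u • z = z := by
    intro u hu p q hpq hup huq g hp hq z hz
    by_contra huz
    have hzp : p ≠ z := fun h => hz (h ▸ hp)
    have hzq : q ≠ z := fun h => hz (h ▸ hq)
    obtain ⟨g₁, h1p, h1z⟩ := hthrough p z hzp
    obtain ⟨g₂, h2q, h2z⟩ := hthrough q z hzq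
    have h3 : u • z ∈ g₁ • S := hLbl g₁ u hu p h1p (by rw [hup]; exact h1p) z h1z
    have h4 : u • z ∈ g₂ • S := hLbl g₂ u hu q h2q (by rw [huq]; exact h2q) z h2z
    have h5 : g₁ • S = g₂ • S := hunique g₁ g₂ z (u • z) (Ne.symm huz) h1z h3 h2z h4
    have h6 : g₁ • S = g • S := hunique g₁ g p q hpq h1p (by rw [h5]; exact h2q) hp hq
    exact hz (h6 ▸ h1z)
  intro u hu hu1 x y hx hy
  by_contra hxy
  apply hu1
  obtain ⟨g, hgx, hgy⟩ := hthrough x y hxy
  obtain ⟨γ, hγ⟩ : ∃ γ, γ ∉ g • S := by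
    by_contra hc
    push Not at hc
    exact hLu g (Set.eq_univ_iff_forall.mpr hc)
  have huγ := hoff u hu x y hxy hx hy g hgx hgy γ hγ
  have hxγ : x ≠ γ := fun h => hγ (h ▸ hgx)
  obtain ⟨g₁, h1x, h1γ⟩ := hthrough x γ hxγ
  apply eq_of_smul_eq_smul (α := α)
  intro δ
  rw [one_smul]
  by_cases hδ : δ ∈ g • S
  · by_cases hδx : δ = x
    · rw [hδx, hx]
    · have hδ1 : δ ∉ g₁ • S := by
        intro h
        have h3 := hunique g₁ g x δ (Ne.symm hδx) h1x h hgx hδ
        exact hγ (h3 ▸ h1γ)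
      exact hoff u hu x γ hxγ hx huγ g₁ h1x h1γ δ hδ1
  · exact hoff u hu x y hxy hx hy g hgx hgy δ hδ

/-- A nonabelian minimal normal subgroup of a doubly transitive group is primitive. -/
theorem primitive_of_nonabelian [Finite α] [FaithfulSMul G α] [Finite G]
    (h2 : IsMultiplyPretransitive G α 2) (N : Subgroup G) [hNn : N.Normal] (hN : N ≠ ⊥)
    (hmin : ∀ M : Subgroup G, M.Normal → M ≤ N → M = ⊥ ∨ M = N)
    (htr : IsPretransitive N α) (hnab : ¬ ∀ x ∈ N, ∀ y ∈ N, x * y = y * x) (a : α) :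
    IsPreprimitive N α := by
  classical
  by_contra hnp
  have hfix := fix_trivial h2 N hnp htr
  have hcentral : (∃ z ∈ N, z ≠ 1 ∧ ∀ x ∈ N, x * z = z * x) → False := by
    intro hz
    apply hnab
    refine central_eq ⊤ N (fun t _ x hx => hNn.conj_mem x hx t) ?_ hz
    intro M hMN hM
    haveI : M.Normal := ⟨fun x hx g => hM g trivial x hx⟩
    exact hmin M inferInstance hMN
  by_cases hreg : ∀ u ∈ N, ∀ x : α, u • x = x → u = 1
  · apply hcentral
    apply exists_central N hN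
    apply same_order h2 N a (fun x hx => hreg x hx a)
    intro g u hu v hv hg hy
    have h3 : g * u * g⁻¹ ∈ N := hNn.conj_mem u hu g
    have h4 : v⁻¹ * (g * u * g⁻¹) = 1 := hreg _ (N.mul_mem (N.inv_mem hv) h3) a (by
      rw [mul_smul, hy, inv_smul_smul])
    have h5 : g * u * g⁻¹ = v := by
      rw [← mul_right_inj v⁻¹, h4]
      group
    rw [h5]
  · push Not at hreg
    obtain ⟨u, huN, x, hux, hu1⟩ := hreg
    haveI : Fintype α := Fintype.ofFinite α
    have hcard : 1 < Fintype.card α := by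
      rw [Fintype.one_lt_card_iff]
      by_contra hc
      push Not at hc
      apply hu1
      apply eq_of_smul_eq_smul (α := α)
      intro y
      rw [one_smul, hc (u • y) y]
    obtain ⟨hF, hK⟩ := Cfsg.Agent.S4252.result (G := N) (Ω := α) hcard
      (fun b c => htr.exists_smul_eq b c)
      ⟨⟨u, huN⟩, fun h => hu1 (congrArg Subtype.val h), x, hux⟩
      (fun g hg b c hb hc => hfix g g.2 (fun h => hg (Subtype.ext h)) b c hb hc) a
    haveI : Fintype N := Fintype.ofFinite N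
    obtain ⟨K₀, hK₀, hK₀n, hK₀c⟩ := H1FrobThm.frobenius_theorem hF
    let M : Subgroup G := K₀.map N.subtype
    have hmemM : ∀ y, y ∈ M ↔ y ∈ N ∧ (y = 1 ∨ ∀ ω : α, y • ω ≠ ω) := by
      intro y
      constructor
      · rintro ⟨k, hk, rfl⟩
        refine ⟨k.2, ?_⟩
        have h1 : k ∈ (K₀ : Set N) := hk
        rw [hK₀, hK] at h1
        rcases h1 with h1 | h1
        · left
          rw [h1]
          rfl
        · right
          exact h1
      · rintro ⟨hy, h1⟩
        refine ⟨⟨y, hy⟩, ?_, rfl⟩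
        have h3 : (⟨y, hy⟩ : N) ∈ (K₀ : Set N) := by
          rw [hK₀, hK]
          rcases h1 with h1 | h1
          · left
            exact Subtype.ext h1
          · right
            exact h1
        exact h3
    have hMn : M.Normal := by
      refine ⟨fun y hy g => ?_⟩
      obtain ⟨h1, h3⟩ := (hmemM y).mp hy
      rw [hmemM]
      refine ⟨hNn.conj_mem y h1 g, ?_⟩
      rcases h3 with h3 | h3
      · left
        rw [h3]
        group
      · right
        intro ω h4
        apply h3 (g⁻¹ • ω)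
        rw [mul_smul, mul_smul, smul_eq_iff_eq_inv_smul] at h4
        exact h4.symm ▸ rfl
    have hMN : M ≤ N := fun y hy => ((hmemM y).mp hy).1
    rcases hmin M hMn hMN with h | h
    · -- the kernel is trivial
      have hK₀bot : K₀ = ⊥ := by
        rw [eq_bot_iff]
        intro k hk
        have h1 : (k : G) ∈ M := ⟨k, hk, rfl⟩
        rw [h, Subgroup.mem_bot] at h1
        exact (Subgroup.mem_bot).mpr (Subtype.ext h1)
      have htop := hK₀c.sup_eq_top
      rw [hK₀bot, bot_sup_eq] at htop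
      obtain ⟨w, hw⟩ : ∃ w : α, w ≠ a := by
        by_contra hc
        push Not at hc
        rw [Fintype.one_lt_card_iff] at hcard
        obtain ⟨p, q, hpq⟩ := hcard
        exact hpq (by rw [hc p, hc q])
      obtain ⟨n, hn⟩ := htr.exists_smul_eq a w
      have h1 : n ∈ stabilizer N a := by rw [htop]; trivial
      have h3 : n • a = a := h1
      rw [h3] at hn
      exact hw hn.symm
    · have h1 : u ∈ M := by rw [h]; exact huN
      rcases ((hmemM u).mp h1).2 with h3 | h3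
      · exact hu1 h3
      · exact h3 x hux

/-- A nonabelian primitive minimal normal subgroup of a doubly transitive group is simple. -/
theorem simple_of_primitive [Finite α] [FaithfulSMul G α] [Finite G]
    (h2 : IsMultiplyPretransitive G α 2) (N : Subgroup G) [hNn : N.Normal] (hN : N ≠ ⊥)
    (hmin : ∀ M : Subgroup G, M.Normal → M ≤ N → M = ⊥ ∨ M = N)
    (hprim : IsPreprimitive N α) (a : α) : IsSimpleGroup N := by
  classical
  haveI hnt : Nontrivial N := (Subgroup.nontrivial_iff_ne_bot N).mpr hN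
  refine ⟨fun H hH => ?_⟩
  by_cases hHb : H = ⊥
  · exact Or.inl hHb
  right
  let M₀ : Subgroup G := H.map N.subtype
  let Inv : Subgroup G → Prop := fun L => ∀ n ∈ N, ∀ x ∈ L, n * x * n⁻¹ ∈ L
  let P : Subgroup G → Prop := fun L => L ≤ M₀ ∧ L ≠ ⊥ ∧ Inv L
  have hex : ∃ r, ∃ L, P L ∧ Nat.card L = r := by
    refine ⟨_, M₀, ⟨le_rfl, ?_, ?_⟩, rfl⟩
    · intro h
      apply hHb
      exact (Subgroup.map_eq_bot_iff_of_injective H N.subtype_injective).mp h
    · rintro n hn _ ⟨h, hh, rfl⟩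
      exact ⟨⟨n, hn⟩ * h * ⟨n, hn⟩⁻¹, hH.conj_mem h hh _, rfl⟩
  obtain ⟨L, ⟨hLM, hLb, hLi⟩, hLc⟩ := Nat.find_spec hex
  have hLN : L ≤ N := by
    intro x hx
    obtain ⟨h, _, rfl⟩ := hLM hx
    exact h.2
  have hLmin : ∀ L' : Subgroup G, L' ≤ L → Inv L' → L' = ⊥ ∨ L' = L := by
    intro L' hle hinv
    by_cases hb : L' = ⊥
    · exact Or.inl hb
    · right
      apply Subgroup.eq_of_le_of_card_ge hle
      rw [hLc]
      exact Nat.find_min' hex ⟨L', ⟨hle.trans hLM, hb, hinv⟩, rfl⟩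
  have hLeqN : L = N := by
    by_contra hne
    -- the conjugates
    have hnotnormal : ¬ L.Normal := fun hn => by
      rcases hmin L hn hLN with h | h
      · exact hLb h
      · exact hne h
    have hconjinv : ∀ g : G, Inv (L.map (MulAut.conj g).toMonoidHom) := by
      rintro g n hn _ ⟨x, hx, rfl⟩
      have h1 : g⁻¹ * n * g⁻¹⁻¹ ∈ N := hNn.conj_mem n hn g⁻¹
      refine ⟨(g⁻¹ * n * g⁻¹⁻¹) * x * (g⁻¹ * n * g⁻¹⁻¹)⁻¹, hLi _ h1 x hx, ?_⟩
      simp only [MulEquiv.coe_toMonoidHom, MulAut.conj_apply]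
      group
    have hclaim : ∀ g : G, L.map (MulAut.conj g).toMonoidHom = L ∨
        ∀ x ∈ L, ∀ y ∈ L, (g * x * g⁻¹) * y = y * (g * x * g⁻¹) := by
      intro g
      have hgN : ∀ x ∈ L, g * x * g⁻¹ ∈ N := fun x hx => hNn.conj_mem x (hLN hx) g
      have hcard : Nat.card (L.map (MulAut.conj g).toMonoidHom) = Nat.card L :=
        Subgroup.card_map_of_injective (MulAut.conj g).injective
      have hinter : Inv (L.map (MulAut.conj g).toMonoidHom ⊓ L) := by
        intro n hn x hx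
        exact ⟨hconjinv g n hn x hx.1, hLi n hn x hx.2⟩
      rcases hLmin (L.map (MulAut.conj g).toMonoidHom ⊓ L) inf_le_right hinter with h | h
      · right
        intro x hx y hy
        have h1 : g * x * g⁻¹ ∈ L.map (MulAut.conj g).toMonoidHom := ⟨x, hx, rfl⟩
        have h3 : (g * x * g⁻¹) * y * (g * x * g⁻¹)⁻¹ * y⁻¹ ∈ L.map (MulAut.conj g).toMonoidHom ⊓ L := by
          refine ⟨?_, ?_⟩
          · have h4 : (g * x * g⁻¹) * y * (g * x * g⁻¹)⁻¹ * y⁻¹ =
                (g * x * g⁻¹) * (y * (g * x * g⁻¹)⁻¹ * y⁻¹) := by group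
            rw [h4]
            exact Subgroup.mul_mem _ h1 (hconjinv g y (hLN hy) _ (Subgroup.inv_mem _ h1))
          · exact L.mul_mem (hLi _ (hgN x hx) y hy) (L.inv_mem hy)
        rw [h, Subgroup.mem_bot] at h3
        have h4 := mul_inv_eq_one.mp h3
        exact mul_inv_eq_iff_eq_mul.mp h4
      · left
        have h1 : L ≤ L.map (MulAut.conj g).toMonoidHom := by
          intro w hw
          have h4 : w ∈ L.map (MulAut.conj g).toMonoidHom ⊓ L := by rw [h]; exact hw
          exact h4.1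
        exact (Subgroup.eq_of_le_of_card_ge h1 (by rw [hcard])).symm
    -- every nontrivial invariant subgroup is transitive
    have htrans : ∀ L' : Subgroup G, L' ≤ N → L' ≠ ⊥ → Inv L' → ∀ b c : α, ∃ x ∈ L', x • b = c := by
      intro L' hle hb hinv b c
      haveI hnorm : (L'.subgroupOf N).Normal := ⟨fun x hx n => by
        exact Subgroup.mem_subgroupOf.mpr (hinv n n.2 x (Subgroup.mem_subgroupOf.mp hx))⟩
      have hfixed : fixedPoints (L'.subgroupOf N) α ≠ Set.univ := by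
        intro h
        apply hb
        rw [eq_bot_iff]
        intro x hx
        rw [Subgroup.mem_bot]
        apply eq_of_smul_eq_smul (α := α)
        intro w
        have h1 : w ∈ fixedPoints (L'.subgroupOf N) α := by rw [h]; trivial
        have h3 := h1 ⟨⟨x, hle hx⟩, Subgroup.mem_subgroupOf.mpr hx⟩
        rw [one_smul]
        exact h3
      have h1 : IsPretransitive (L'.subgroupOf N) α :=
        IsQuasiPreprimitive.isPretransitive_of_normal hfixed
      obtain ⟨x, hx⟩ := h1.exists_smul_eq b c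
      exact ⟨((x : N) : G), Subgroup.mem_subgroupOf.mp x.2, hx⟩
    -- a conjugate different from `L`
    obtain ⟨g₀, hg₀⟩ : ∃ g : G, L.map (MulAut.conj g).toMonoidHom ≠ L := by
      by_contra hc
      push Not at hc
      apply hnotnormal
      refine ⟨fun x hx g => ?_⟩
      rw [← hc g]
      exact ⟨x, hx, rfl⟩
    have hcomm₀ := (hclaim g₀).resolve_left hg₀
    let L' : Subgroup G := L.map (MulAut.conj g₀).toMonoidHom
    have hL'N : L' ≤ N := by
      rintro _ ⟨x, hx, rfl⟩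
      exact hNn.conj_mem x (hLN hx) g₀
    have hL'b : L' ≠ ⊥ := fun h =>
      hLb ((Subgroup.map_eq_bot_iff_of_injective L (MulAut.conj g₀).injective).mp h)
    have htrL := htrans L hLN hLb hLi
    have htrL' := htrans L' hL'N hL'b (hconjinv g₀)
    have hLL' : ∀ x' ∈ L', ∀ y ∈ L, x' * y = y * x' := by
      rintro _ ⟨x, hx, rfl⟩ y hy
      exact hcomm₀ x hx y hy
    -- `L` is regular
    have hreg : ∀ x ∈ L, x • a = a → x = 1 := by
      intro x hx hxa
      apply eq_of_smul_eq_smul (α := α)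
      intro b
      obtain ⟨t, ht, rfl⟩ := htrL' a b
      rw [one_smul, ← mul_smul, ← hLL' t ht x hx, mul_smul, hxa]
    have hsame := same_order h2 L a hreg (by
      intro g u hu v hv hg hy
      rcases hclaim g with h | h
      · have h3 : g * u * g⁻¹ ∈ L := by
          rw [← h]
          exact ⟨u, hu, rfl⟩
        have h4 : v⁻¹ * (g * u * g⁻¹) = 1 := hreg _ (L.mul_mem (L.inv_mem hv) h3) (by
          rw [mul_smul, hy, inv_smul_smul])
        have h5 : g * u * g⁻¹ = v := by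
          rw [← mul_right_inj v⁻¹, h4]
          group
        rw [h5]
      · exact h u hu v hv)
    have hab := central_eq N L hLi (fun M hM hMi => hLmin M hM hMi) (exists_central L hLb hsame)
    -- hence `L' ≤ L`
    have hle : L' ≤ L := by
      intro x' hx'
      obtain ⟨l, hl, hla⟩ := htrL a (x' • a)
      have h3 : l⁻¹ * x' = 1 := by
        apply eq_of_smul_eq_smul (α := α)
        intro b
        obtain ⟨t, ht, rfl⟩ := htrL a b
        have hcomm : (l⁻¹ * x') * t = t * (l⁻¹ * x') := by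
          calc (l⁻¹ * x') * t = l⁻¹ * (x' * t) := by group
            _ = l⁻¹ * (t * x') := by rw [hLL' x' hx' t ht]
            _ = (l⁻¹ * t) * x' := by group
            _ = (t * l⁻¹) * x' := by rw [hab _ (L.inv_mem hl) t ht]
            _ = t * (l⁻¹ * x') := by group
        rw [one_smul, ← mul_smul, hcomm, mul_smul, mul_smul, ← hla, inv_smul_smul]
      have h4 : x' = l := by
        rw [← mul_right_inj l⁻¹, h3]
        group
      rw [h4]
      exact hl
    apply hg₀
    exact Subgroup.eq_of_le_of_card_ge hle (by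
      rw [show Nat.card L' = Nat.card L from
        Subgroup.card_map_of_injective (MulAut.conj g₀).injective])
  rw [eq_top_iff]
  intro x _
  have h1 : (x : G) ∈ M₀ := hLM (hLeqN ▸ x.2)
  obtain ⟨h, hh, hhx⟩ := h1
  have h3 : h = x := Subtype.ext hhx
  rw [← h3]
  exact hh

/-- The abelian case. -/
theorem abelian_case [Finite G] (N : Subgroup G) [hNn : N.Normal] (hN : N ≠ ⊥)
    (hmin : ∀ M : Subgroup G, M.Normal → M ≤ N → M = ⊥ ∨ M = N)
    (hab : ∀ x ∈ N, ∀ y ∈ N, x * y = y * x) :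
    ∃ p : ℕ, p.Prime ∧ ∀ n ∈ N, n ^ p = 1 := by
  classical
  obtain ⟨u, hu, hu1⟩ := N.bot_or_exists_ne_one.resolve_left hN
  have hord : orderOf u ≠ 1 := by rwa [Ne, orderOf_eq_one_iff]
  have hp : (orderOf u).minFac.Prime := Nat.minFac_prime hord
  refine ⟨(orderOf u).minFac, hp, ?_⟩
  set p := (orderOf u).minFac with hpdef
  have hw : orderOf (u ^ (orderOf u / p)) = p :=
    orderOf_pow_orderOf_div (orderOf_pos u).ne' (Nat.minFac_dvd _)
  have hwN : u ^ (orderOf u / p) ∈ N := N.pow_mem hu _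
  have hw1 : u ^ (orderOf u / p) ≠ 1 := by
    intro h
    rw [h, orderOf_one] at hw
    exact hp.one_lt.ne hw
  let M : Subgroup G :=
    { carrier := {x | x ∈ N ∧ x ^ p = 1}
      one_mem' := ⟨N.one_mem, one_pow _⟩
      mul_mem' := by
        rintro x y ⟨hx, hx1⟩ ⟨hy, hy1⟩
        refine ⟨N.mul_mem hx hy, ?_⟩
        have : Commute x y := hab x hx y hy
        rw [this.mul_pow, hx1, hy1, one_mul]
      inv_mem' := by
        rintro x ⟨hx, hx1⟩
        exact ⟨N.inv_mem hx, by rw [inv_pow, hx1, inv_one]⟩ }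
  have hMn : M.Normal := ⟨by
    rintro x ⟨hx, hx1⟩ g
    refine ⟨hNn.conj_mem x hx g, ?_⟩
    have h3 : (g * x * g⁻¹) ^ p = g * x ^ p * g⁻¹ := conj_pow
    rw [h3, hx1]
    group⟩
  rcases hmin M hMn (fun x hx => hx.1) with h | h
  · exfalso
    have h1 : u ^ (orderOf u / p) ∈ M := by
      refine ⟨hwN, ?_⟩
      have h3 : (u ^ (orderOf u / p)) ^ orderOf (u ^ (orderOf u / p)) = 1 := pow_orderOf_eq_one _
      rwa [hw] at h3
    rw [h, Subgroup.mem_bot] at h1
    exact hw1 h1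
  · intro n hn
    have h1 : n ∈ M := by rw [h]; exact hn
    exact h1.2

end Cfsg.Agent.Lib.H1Burn2
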