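import Mathlib

/-!
# Carmichael's presentation of the alternating group: the upper bound on the order
-/

set_option autoImplicit false

namespace Cfsg.Agent.Lib.H1Carm

universe u

/-- The relations. -/
structure CarRel {G : Type*} [Group G] (x : ℕ → G) (m : ℕ) : Prop where
  r0 : x 0 ^ 3 = 1
  r1 : ∀ i, 1 ≤ i → i ≤ m → x i * x i = 1
  r2 : ∀ i, i + 1 ≤ m → (x i * x (i + 1)) ^ 3 = 1
  r3 : ∀ i j, i + 1 < j → j ≤ m → (x i * x j) ^ 2 = 1

section rel

variable {G : Type*} [Group G] {x : ℕ → G} {M : ℕ}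

lemma hinv (h : CarRel x M) {i : ℕ} (hi : 1 ≤ i) (him : i ≤ M) : (x i)⁻¹ = x i :=
  inv_eq_of_mul_eq_one_left (h.r1 i hi him)

lemma comm (h : CarRel x M) {i k : ℕ} (hi : 1 ≤ i) (hk : i + 2 ≤ k) (hkM : k ≤ M) :
    x i * x k = x k * x i := by
  have e := h.r3 i k (by omega) hkM
  rw [sq] at e
  have e1 := eq_inv_of_mul_eq_one_left e
  rwa [mul_inv_rev, hinv h (by omega) hkM, hinv h hi (by omega)] at e1

lemma conj0 (h : CarRel x M) {k : ℕ} (hk : 2 ≤ k) (hkM : k ≤ M) :
    x k * x 0 = (x 0)⁻¹ * x k := by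
  have e := h.r3 0 k (by omega) hkM
  rw [sq] at e
  have e1 : x k * (x 0 * x k) = (x 0)⁻¹ := by
    apply eq_inv_of_mul_eq_one_right
    rw [← e]
    group
  calc x k * x 0 = (x k * (x 0 * x k)) * (x k)⁻¹ := by group
    _ = (x 0)⁻¹ * x k := by rw [e1, hinv h (by omega) hkM]

lemma conj0' (h : CarRel x M) {k : ℕ} (hk : 2 ≤ k) (hkM : k ≤ M) :
    x k * (x 0)⁻¹ = x 0 * x k := by
  have e := conj0 h hk hkM
  have e1 : x 0 * (x k * x 0) = x k := by rw [e, mul_inv_cancel_left]
  calc x k * (x 0)⁻¹ = (x 0 * (x k * x 0)) * (x 0)⁻¹ := by rw [e1]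
    _ = x 0 * x k := by group

lemma braid (h : CarRel x M) {i : ℕ} (hi : 1 ≤ i) (him : i + 1 ≤ M) :
    x i * x (i + 1) * x i = x (i + 1) * x i * x (i + 1) := by
  have e := h.r2 i him
  have e1 : (x i * x (i + 1) * x i) * (x (i + 1) * x i * x (i + 1)) = 1 := by
    rw [← e]
    simp only [pow_succ, pow_zero, one_mul, mul_assoc]
  have e2 := eq_inv_of_mul_eq_one_left e1
  rwa [mul_inv_rev, mul_inv_rev, hinv h hi (by omega), hinv h (by omega) him, ← mul_assoc] at e2

lemma braid0 (h : CarRel x M) (hM : 1 ≤ M) :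
    x 1 * x 0 * x 1 = (x 0)⁻¹ * x 1 * (x 0)⁻¹ := by
  have e := h.r2 0 hM
  simp only [zero_add] at e
  have e1 : x 0 * (x 1 * x 0 * x 1) * x 0 * x 1 = 1 := by
    rw [← e]
    simp only [pow_succ, pow_zero, one_mul, mul_assoc]
  have e2 : x 1 * x 0 * x 1 = (x 0)⁻¹ * (x 1)⁻¹ * (x 0)⁻¹ := by
    have : x 0 * (x 1 * x 0 * x 1) * (x 0 * x 1) = 1 := by rw [← e1]; group
    have h3 := eq_inv_of_mul_eq_one_left this
    rw [mul_inv_rev] at h3
    calc x 1 * x 0 * x 1 = (x 0)⁻¹ * (x 0 * (x 1 * x 0 * x 1)) := by group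
      _ = _ := by rw [h3]; group
  rw [e2, hinv h le_rfl hM]

lemma braid0' (h : CarRel x M) (hM : 1 ≤ M) :
    x 1 * (x 0)⁻¹ * x 1 = x 0 * x 1 * x 0 := by
  have e := congrArg (· ⁻¹) (braid0 h hM)
  simp only [mul_inv_rev, inv_inv, hinv h le_rfl hM] at e
  simpa [mul_assoc] using e

lemma x0sq (h : CarRel x M) : x 0 * x 0 = (x 0)⁻¹ := by
  apply eq_inv_of_mul_eq_one_left
  rw [← h.r0]
  simp only [pow_succ, pow_zero, one_mul, mul_assoc]

end rel

/-- The word `x j * x (j+1) * ... * x M`. -/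
def Pw {G : Type*} [Group G] (x : ℕ → G) (M j : ℕ) : G :=
  ((List.range' j (M + 1 - j)).map x).prod

lemma Pw_succ {G : Type*} [Group G] (x : ℕ → G) (M : ℕ) {j : ℕ} (hj : j ≤ M) :
    Pw x M j = x j * Pw x M (j + 1) := by
  have : M + 1 - j = (M + 1 - (j + 1)) + 1 := by omega
  rw [Pw, Pw, this, List.range'_succ]
  simp

lemma Pw_top {G : Type*} [Group G] (x : ℕ → G) (M : ℕ) : Pw x M (M + 1) = 1 := by
  simp [Pw]

section coset

variable {G : Type*} [Group G] {x : ℕ → G} {M : ℕ}

lemma L1 (h : CarRel x M) {i : ℕ} (hi : 1 ≤ i) : ∀ (k j : ℕ), j + k = M + 1 → i + 2 ≤ j →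
    x i * Pw x M j = Pw x M j * x i := by
  intro k
  induction k with
  | zero =>
    intro j hj _
    have : j = M + 1 := by omega
    rw [this, Pw_top]
    simp
  | succ k ih =>
    intro j hj hij
    have hjM : j ≤ M := by omega
    rw [Pw_succ x M hjM, ← mul_assoc, comm h hi hij hjM, mul_assoc, ih (j + 1) (by omega) (by omega),
      mul_assoc]

variable {H : Subgroup G}

/-- `a ∈ b H`. -/
def InC (H : Subgroup G) (a b : G) : Prop := ∃ c ∈ H, a = b * c

lemma InC.mul_left' {a b : G} (g : G) (h : InC H a b) : InC H (g * a) (g * b) := by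
  obtain ⟨c, hc, rfl⟩ := h
  exact ⟨c, hc, by group⟩

lemma InC.trans' {a b d : G} (h : InC H a b) (h' : InC H b d) : InC H a d := by
  obtain ⟨c, hc, rfl⟩ := h
  obtain ⟨c', hc', rfl⟩ := h'
  exact ⟨c' * c, H.mul_mem hc' hc, by group⟩

lemma InC.of_mem {a b : G} (hc : b⁻¹ * a ∈ H) : InC H a b := ⟨_, hc, by group⟩

lemma InC.refl' (a : G) : InC H a a := ⟨1, H.one_mem, by simp⟩

lemma L0 (h : CarRel x M) (hH : ∀ i < M, x i ∈ H) : ∀ (k j : ℕ), j + k = M + 1 → 2 ≤ j →
    InC H (x 0 * Pw x M j) (Pw x M j) ∧ InC H ((x 0)⁻¹ * Pw x M j) (Pw x M j) := by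
  intro k
  induction k with
  | zero =>
    intro j hj hj2
    have hje : j = M + 1 := by omega
    have h0 : x 0 ∈ H := hH 0 (by omega)
    rw [hje, Pw_top]
    refine ⟨⟨x 0, h0, by simp⟩, ⟨(x 0)⁻¹, H.inv_mem h0, by simp⟩⟩
  | succ k ih =>
    intro j hj hj2
    have hjM : j ≤ M := by omega
    obtain ⟨h1, h2⟩ := ih (j + 1) (by omega) (by omega)
    rw [Pw_succ x M hjM]
    constructor
    · rw [← mul_assoc, ← conj0' h hj2 hjM, mul_assoc]
      exact h2.mul_left' (x j)
    · rw [← mul_assoc, ← conj0 h hj2 hjM, mul_assoc]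
      exact h1.mul_left' (x j)

lemma L2 (h : CarRel x M) (hH : ∀ i < M, x i ∈ H) {i : ℕ} (hiM : i ≤ M) :
    ∀ (k j : ℕ), j + k + 1 = i → 1 ≤ j → InC H (x i * Pw x M j) (Pw x M j) := by
  intro k
  induction k with
  | zero =>
    intro j hj hj1
    have hi : i = j + 1 := by omega
    subst hi
    rw [Pw_succ x M (by omega : j ≤ M), Pw_succ x M (by omega : j + 1 ≤ M)]
    have e1 : x (j + 1) * (x j * (x (j + 1) * Pw x M (j + 1 + 1)))
        = x j * x (j + 1) * (x j * Pw x M (j + 1 + 1)) := by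
      calc _ = (x (j + 1) * x j * x (j + 1)) * Pw x M (j + 1 + 1) := by group
        _ = (x j * x (j + 1) * x j) * Pw x M (j + 1 + 1) := by rw [braid h hj1 hiM]
        _ = _ := by group
    rw [e1, L1 h hj1 (M + 1 - (j + 2)) (j + 2) (by omega) le_rfl]
    exact ⟨x j, hH j (by omega), by group⟩
  | succ k ih =>
    intro j hj hj1
    have hjM : j ≤ M := by omega
    rw [Pw_succ x M hjM, ← mul_assoc, ← comm h hj1 (by omega) hiM, mul_assoc]
    exact (ih (j + 1) (by omega) (by omega)).mul_left' (x j)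

end coset


section bound

variable {G : Type*} [Group G] {x : ℕ → G} {M : ℕ}

/-- The coset representatives. -/
def rep (x : ℕ → G) (M : ℕ) : ℕ → G
  | 0 => x 0 * Pw x M 1
  | 1 => (x 0)⁻¹ * Pw x M 1
  | (k + 2) => Pw x M (k + 1)

/-- The union of the cosets. -/
def InY (H : Subgroup G) (x : ℕ → G) (M : ℕ) (g : G) : Prop :=
  ∃ k, k < M + 3 ∧ InC H g (rep x M k)

lemma step (h : CarRel x M) {H : Subgroup G} (hH : ∀ i < M, x i ∈ H) {i : ℕ} (hi : i ≤ M) {g : G}
    (hg : InY H x M g) : InY H x M (x i * g) := by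
  obtain ⟨k, hk, c, hc, rfl⟩ := hg
  -- it suffices to treat the representatives
  suffices hs : InY H x M (x i * rep x M k) by
    obtain ⟨k', hk', c', hc', e⟩ := hs
    exact ⟨k', hk', c' * c, H.mul_mem hc' hc, by rw [← mul_assoc, e, mul_assoc]⟩
  have hE : InY H x M (x 0 * Pw x M 1) → True := fun _ => trivial
  have memE : ∀ g, InC H g (x 0 * Pw x M 1) → InY H x M g := fun g hg => ⟨0, by omega, hg⟩
  have memF : ∀ g, InC H g ((x 0)⁻¹ * Pw x M 1) → InY H x M g := fun g hg => ⟨1, by omega, hg⟩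
  have memP : ∀ j g, 1 ≤ j → j ≤ M + 1 → InC H g (Pw x M j) → InY H x M g := fun j g hj hjM hg =>
    ⟨j + 1, by omega, by
      obtain ⟨j', rfl⟩ : ∃ j', j = j' + 1 := ⟨j - 1, by omega⟩
      exact hg⟩
  match k, hk with
  | 0, _ =>
    -- the coset of `x 0 * P 1`
    show InY H x M (x i * (x 0 * Pw x M 1))
    rcases Nat.eq_zero_or_pos i with rfl | hi0
    · apply memF
      rw [← mul_assoc, x0sq h]
      exact InC.refl' _
    rcases Nat.lt_or_ge i 2 with hi2 | hi2
    · have hi1 : i = 1 := by omega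
      subst hi1
      apply memF
      rw [Pw_succ x M hi]
      have e1 : x 1 * (x 0 * (x 1 * Pw x M (1 + 1))) = (x 0)⁻¹ * x 1 * ((x 0)⁻¹ * Pw x M (1 + 1)) := by
        calc _ = (x 1 * x 0 * x 1) * Pw x M (1 + 1) := by group
          _ = ((x 0)⁻¹ * x 1 * (x 0)⁻¹) * Pw x M (1 + 1) := by rw [braid0 h hi]
          _ = _ := by group
      rw [e1]
      rcases Nat.lt_or_ge M 1 with hM | hM
      · omega
      have h2 := (L0 h hH (M + 1 - 2) 2 (by omega) le_rfl).2
      have h3 := h2.mul_left' ((x 0)⁻¹ * x 1)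
      rw [mul_assoc]
      simpa [mul_assoc] using h3
    · apply memF
      rw [← mul_assoc, conj0 h hi2 hi, mul_assoc]
      exact (L2 h hH hi (i - 2) 1 (by omega) le_rfl).mul_left' _
  | 1, _ =>
    show InY H x M (x i * ((x 0)⁻¹ * Pw x M 1))
    rcases Nat.eq_zero_or_pos i with rfl | hi0
    · apply memP 1 _ le_rfl (by omega)
      rw [mul_inv_cancel_left]
      exact InC.refl' _
    rcases Nat.lt_or_ge i 2 with hi2 | hi2
    · have hi1 : i = 1 := by omega
      subst hi1
      apply memE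
      rw [Pw_succ x M hi]
      have e1 : x 1 * ((x 0)⁻¹ * (x 1 * Pw x M (1 + 1))) = x 0 * x 1 * (x 0 * Pw x M (1 + 1)) := by
        calc _ = (x 1 * (x 0)⁻¹ * x 1) * Pw x M (1 + 1) := by group
          _ = (x 0 * x 1 * x 0) * Pw x M (1 + 1) := by rw [braid0' h hi]
          _ = _ := by group
      rw [e1]
      have h2 := (L0 h hH (M + 1 - 2) 2 (by omega) le_rfl).1
      have h3 := h2.mul_left' (x 0 * x 1)
      rw [mul_assoc]
      simpa [mul_assoc] using h3
    · apply memE
      rw [← mul_assoc, conj0' h hi2 hi, mul_assoc]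
      exact (L2 h hH hi (i - 2) 1 (by omega) le_rfl).mul_left' _
  | (k + 2), hk =>
    show InY H x M (x i * Pw x M (k + 1))
    have hk1 : k + 1 ≤ M + 1 := by omega
    rcases Nat.eq_zero_or_pos i with rfl | hi0
    · rcases Nat.eq_zero_or_pos k with rfl | hk0
      · apply memE
        exact InC.refl' _
      · apply memP (k + 1) _ (by omega) hk1
        exact (L0 h hH (M + 1 - (k + 1)) (k + 1) (by omega) (by omega)).1
    rcases lt_trichotomy i (k + 1) with hlt | heq | hgt
    · rcases Nat.lt_or_ge (i + 1) (k + 1) with hlt2 | hge2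
      · -- `i + 2 ≤ k + 1`
        apply memP (k + 1) _ (by omega) hk1
        rw [L1 h hi0 (M + 1 - (k + 1)) (k + 1) (by omega) (by omega)]
        exact ⟨x i, hH i (by omega), rfl⟩
      · -- `i + 1 = k + 1`
        have hik : k = i := by omega
        subst hik
        apply memP k _ (by omega) (by omega)
        rw [← Pw_succ x M (by omega)]
        exact InC.refl' _
    · -- `i = k + 1`
      subst heq
      apply memP (k + 1 + 1) _ (by omega) (by omega)
      rw [Pw_succ x M hi, ← mul_assoc, h.r1 _ hi0 hi, one_mul]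
      exact InC.refl' _
    · -- `k + 1 < i`
      apply memP (k + 1) _ (by omega) hk1
      exact L2 h hH hi (i - (k + 1) - 1) (k + 1) (by omega) (by omega)

theorem coset_bound (h : CarRel x M)
    (hgen : Subgroup.closure (x '' {i | i ≤ M}) = ⊤) (H : Subgroup G) (hH : ∀ i < M, x i ∈ H)
    [Finite H] : Finite G ∧ Nat.card G ≤ (M + 3) * Nat.card H := by
  have hinvx : ∀ i ≤ M, (x i)⁻¹ = x i ∨ (x i)⁻¹ = x 0 * x 0 := by
    intro i hi
    rcases Nat.eq_zero_or_pos i with rfl | hi0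
    · exact Or.inr (x0sq h).symm
    · exact Or.inl (hinv h hi0 hi)
  have hstep2 : ∀ i ≤ M, ∀ g, InY H x M g → InY H x M ((x i)⁻¹ * g) := by
    intro i hi g hg
    rcases hinvx i hi with e | e
    · rw [e]
      exact step h hH hi hg
    · rw [e, mul_assoc]
      exact step h hH (Nat.zero_le _) (step h hH (Nat.zero_le _) hg)
  have hall : ∀ a ∈ Subgroup.closure (x '' {i | i ≤ M}),
      (∀ g, InY H x M g → InY H x M (a * g)) ∧ (∀ g, InY H x M g → InY H x M (a⁻¹ * g)) := by
    intro a ha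
    induction ha using Subgroup.closure_induction with
    | mem a ha =>
      obtain ⟨i, hi, rfl⟩ := ha
      exact ⟨fun g hg => step h hH hi hg, hstep2 i hi⟩
    | one => simp
    | mul a b _ _ iha ihb =>
      refine ⟨fun g hg => ?_, fun g hg => ?_⟩
      · rw [mul_assoc]
        exact iha.1 _ (ihb.1 _ hg)
      · rw [mul_inv_rev, mul_assoc]
        exact ihb.2 _ (iha.2 _ hg)
    | inv a _ ih =>
      rw [inv_inv]
      exact ⟨ih.2, ih.1⟩
  have h1Y : InY H x M (1 : G) := ⟨M + 2, by omega, by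
    show InC H 1 (Pw x M (M + 1))
    rw [Pw_top]
    exact InC.refl' _⟩
  have hsurj : Function.Surjective (fun p : Fin (M + 3) × H => rep x M p.1 * (p.2 : G)) := by
    intro g
    have hg := (hall g (by rw [hgen]; trivial)).1 1 h1Y
    rw [mul_one] at hg
    obtain ⟨k, hk, c, hc, e⟩ := hg
    exact ⟨(⟨k, hk⟩, ⟨c, hc⟩), e.symm⟩
  haveI : Finite G := Finite.of_surjective _ hsurj
  refine ⟨inferInstance, ?_⟩
  have := Nat.card_le_card_of_surjective _ hsurj
  simpa [Nat.card_prod] using this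

end bound

/-- **The upper bound.** -/
theorem card_bound : ∀ (M : ℕ) {G : Type u} [Group G] (x : ℕ → G), CarRel x M →
    Subgroup.closure (x '' {i | i ≤ M}) = ⊤ → Finite G ∧ Nat.card G * 2 ≤ (M + 3).factorial := by
  intro M
  induction M with
  | zero =>
    intro G _ x h hgen
    obtain ⟨hf, hc⟩ := coset_bound h hgen (⊥ : Subgroup G) (fun i hi => absurd hi (by omega))
    refine ⟨hf, ?_⟩
    simp only [Subgroup.card_bot] at hc
    have : (0 + 3).factorial = 6 := rfl
    omega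
  | succ m ih =>
    intro G _ x h hgen
    set S : Set G := x '' {i | i ≤ m} with hS
    set H : Subgroup G := Subgroup.closure S with hH
    have hmem : ∀ i ≤ m, x i ∈ H := fun i hi => Subgroup.subset_closure ⟨i, hi, rfl⟩
    classical
    let y : ℕ → H := fun i => if hi : i ≤ m then ⟨x i, hmem i hi⟩ else 1
    have hy : ∀ i, i ≤ m → (y i : G) = x i := fun i hi => by
      simp [y, hi]
    have hR : CarRel y m := by
      refine ⟨?_, ?_, ?_, ?_⟩
      · apply Subtype.ext
        rw [Subgroup.coe_pow, hy 0 (by omega)]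
        exact h.r0
      · intro i hi him
        apply Subtype.ext
        rw [Subgroup.coe_mul, hy i him]
        exact h.r1 i hi (by omega)
      · intro i him
        apply Subtype.ext
        rw [Subgroup.coe_pow, Subgroup.coe_mul, hy i (by omega), hy (i + 1) him]
        exact h.r2 i (by omega)
      · intro i j hij hj
        apply Subtype.ext
        rw [Subgroup.coe_pow, Subgroup.coe_mul, hy i (by omega), hy j hj]
        exact h.r3 i j hij (by omega)
    have hgenH : Subgroup.closure (y '' {i | i ≤ m}) = ⊤ := by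
      have e : y '' {i | i ≤ m} = ((↑) : H → G) ⁻¹' S := by
        ext a
        constructor
        · rintro ⟨i, hi, rfl⟩
          exact ⟨i, hi, (hy i hi).symm⟩
        · rintro ⟨i, hi, e⟩
          exact ⟨i, hi, Subtype.ext ((hy i hi).trans e)⟩
      rw [e]
      exact Subgroup.closure_closure_coe_preimage
    obtain ⟨hfH, hcH⟩ := ih y hR hgenH
    haveI := hfH
    obtain ⟨hf, hc⟩ := coset_bound h hgen H (fun i hi => hmem i (by omega))
    refine ⟨hf, ?_⟩
    have e1 : (m + 1 + 3).factorial = (m + 4) * (m + 3).factorial := by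
      rw [show m + 1 + 3 = (m + 3) + 1 by omega, Nat.factorial_succ]
    rw [e1]
    calc Nat.card G * 2 ≤ (m + 1 + 3) * Nat.card H * 2 := by omega
      _ = (m + 4) * (Nat.card H * 2) := by ring
      _ ≤ _ := Nat.mul_le_mul_left _ hcH

end Cfsg.Agent.Lib.H1Carm
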