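import Cfsg.Agent.Lib.H1Carm

/-!
# Carmichael's generators of the alternating group
-/

set_option autoImplicit false

namespace Cfsg.Agent.Lib.H1Carm2

open Cfsg.Agent.Lib.H1Carm Equiv

variable {α : Type*} [DecidableEq α]

/-- The generators. -/
def yy (p : ℕ → α) : ℕ → Perm α
  | 0 => swap (p 0) (p 1) * swap (p 1) (p 2)
  | (i + 1) => swap (p 0) (p 1) * swap (p (i + 2)) (p (i + 3))

lemma comm_swaps {a b c d : α} (hac : a ≠ c) (had : a ≠ d) (hbc : b ≠ c) (hbd : b ≠ d) :
    Commute (swap a b) (swap c d) :=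
  Perm.Disjoint.commute (fun x => by
    by_cases h1 : x = a
    · subst h1
      exact Or.inr (swap_apply_of_ne_of_ne hac had)
    by_cases h2 : x = b
    · subst h2
      exact Or.inr (swap_apply_of_ne_of_ne hbc hbd)
    exact Or.inl (swap_apply_of_ne_of_ne h1 h2))

lemma sq_of_comm {G : Type*} [Group G] {s t : G} (h : Commute s t) (hs : s * s = 1) (ht : t * t = 1) :
    (s * t) ^ 2 = 1 := by
  rw [h.mul_pow, sq, sq, hs, ht, one_mul]

lemma three [Fintype α] (a b c : α) (hab : a ≠ b) (hac : a ≠ c) (hbc : b ≠ c) :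
    (swap a b * swap a c) ^ 3 = 1 := by
  have h := Perm.isThreeCycle_swap_mul_swap_same hab hac hbc
  rw [← h.orderOf]
  exact pow_orderOf_eq_one _

lemma conj_swap (a b c : α) (hab : a ≠ b) (hcb : c ≠ b) (hac : a ≠ c) :
    swap a b * swap b c * swap a b = swap a c := by
  have := swap_mul_swap_mul_swap (x := c) (y := b) (z := a) hcb (Ne.symm hac)
  rw [swap_comm b a, swap_comm c b] at this
  exact this

lemma relations [Fintype α] (N : ℕ) (hN : 3 ≤ N) (p : ℕ → α) (hp : ∀ i j, i < N → j < N → i ≠ j → p i ≠ p j) :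
    CarRel (yy p) (N - 3) := by
  have hsw : ∀ a b : α, swap a b * swap a b = 1 := fun a b => swap_mul_self a b
  refine ⟨?_, ?_, ?_, ?_⟩
  · -- r0
    show (swap (p 0) (p 1) * swap (p 1) (p 2)) ^ 3 = 1
    rw [swap_comm (p 0) (p 1)]
    exact three _ _ _ (hp 1 0 (by omega) (by omega) (by omega)) (hp 1 2 (by omega) (by omega) (by omega))
      (hp 0 2 (by omega) (by omega) (by omega))
  · -- r1
    intro i hi him
    obtain ⟨i, rfl⟩ : ∃ i', i = i' + 1 := ⟨i - 1, by omega⟩
    show swap (p 0) (p 1) * swap (p (i + 2)) (p (i + 3)) * (swap (p 0) (p 1) * swap (p (i + 2)) (p (i + 3))) = 1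
    have hc : Commute (swap (p 0) (p 1)) (swap (p (i + 2)) (p (i + 3))) :=
      comm_swaps (hp _ _ (by omega) (by omega) (by omega)) (hp _ _ (by omega) (by omega) (by omega))
        (hp _ _ (by omega) (by omega) (by omega)) (hp _ _ (by omega) (by omega) (by omega))
    have := sq_of_comm hc (hsw _ _) (hsw _ _)
    rwa [sq] at this
  · -- r2
    intro i him
    cases i with
    | zero =>
      show (swap (p 0) (p 1) * swap (p 1) (p 2) * (swap (p 0) (p 1) * swap (p 2) (p 3))) ^ 3 = 1
      rw [← mul_assoc, conj_swap _ _ _ (hp 0 1 (by omega) (by omega) (by omega))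
        (hp 2 1 (by omega) (by omega) (by omega)) (hp 0 2 (by omega) (by omega) (by omega)),
        swap_comm (p 0) (p 2)]
      exact three _ _ _ (hp 2 0 (by omega) (by omega) (by omega)) (hp 2 3 (by omega) (by omega) (by omega))
        (hp 0 3 (by omega) (by omega) (by omega))
    | succ i =>
      show (swap (p 0) (p 1) * swap (p (i + 2)) (p (i + 3)) *
        (swap (p 0) (p 1) * swap (p (i + 3)) (p (i + 4)))) ^ 3 = 1
      have hc : Commute (swap (p 0) (p 1)) (swap (p (i + 2)) (p (i + 3))) :=
        comm_swaps (hp _ _ (by omega) (by omega) (by omega)) (hp _ _ (by omega) (by omega) (by omega))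
          (hp _ _ (by omega) (by omega) (by omega)) (hp _ _ (by omega) (by omega) (by omega))
      have e1 : swap (p 0) (p 1) * swap (p (i + 2)) (p (i + 3)) *
          (swap (p 0) (p 1) * swap (p (i + 3)) (p (i + 4)))
          = swap (p (i + 3)) (p (i + 2)) * swap (p (i + 3)) (p (i + 4)) := by
        rw [hc.eq, mul_assoc, ← mul_assoc (swap (p 0) (p 1)), hsw, one_mul, swap_comm (p (i + 2))]
      rw [e1]
      exact three _ _ _ (hp _ _ (by omega) (by omega) (by omega)) (hp _ _ (by omega) (by omega) (by omega))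
        (hp _ _ (by omega) (by omega) (by omega))
  · -- r3
    intro i j hij hj
    obtain ⟨j, rfl⟩ : ∃ j', j = j' + 1 := ⟨j - 1, by omega⟩
    cases i with
    | zero =>
      show (swap (p 0) (p 1) * swap (p 1) (p 2) * (swap (p 0) (p 1) * swap (p (j + 2)) (p (j + 3)))) ^ 2 = 1
      rw [← mul_assoc, conj_swap _ _ _ (hp 0 1 (by omega) (by omega) (by omega))
        (hp 2 1 (by omega) (by omega) (by omega)) (hp 0 2 (by omega) (by omega) (by omega))]
      refine sq_of_comm (comm_swaps ?_ ?_ ?_ ?_) (hsw _ _) (hsw _ _) <;>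
      exact hp _ _ (by omega) (by omega) (by omega)
    | succ i =>
      show (swap (p 0) (p 1) * swap (p (i + 2)) (p (i + 3)) *
        (swap (p 0) (p 1) * swap (p (j + 2)) (p (j + 3)))) ^ 2 = 1
      have hc : Commute (swap (p 0) (p 1)) (swap (p (i + 2)) (p (i + 3))) :=
        comm_swaps (hp _ _ (by omega) (by omega) (by omega)) (hp _ _ (by omega) (by omega) (by omega))
          (hp _ _ (by omega) (by omega) (by omega)) (hp _ _ (by omega) (by omega) (by omega))
      have e1 : swap (p 0) (p 1) * swap (p (i + 2)) (p (i + 3)) *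
          (swap (p 0) (p 1) * swap (p (j + 2)) (p (j + 3)))
          = swap (p (i + 2)) (p (i + 3)) * swap (p (j + 2)) (p (j + 3)) := by
        rw [hc.eq, mul_assoc, ← mul_assoc (swap (p 0) (p 1)), hsw, one_mul]
      rw [e1]
      refine sq_of_comm (comm_swaps ?_ ?_ ?_ ?_) (hsw _ _) (hsw _ _) <;>
      exact hp _ _ (by omega) (by omega) (by omega)


section surj

variable [Fintype α] {p : ℕ → α} {N : ℕ}

/-- The subgroup generated by the first generators. -/
def SS (p : ℕ → α) (m : ℕ) : Subgroup (Perm α) := Subgroup.closure (yy p '' {i | i ≤ m})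

lemma yy_mem {i m : ℕ} (h : i ≤ m) : yy p i ∈ SS p m := Subgroup.subset_closure ⟨i, h, rfl⟩

lemma SS_mono {m m' : ℕ} (h : m ≤ m') : SS p m ≤ SS p m' :=
  Subgroup.closure_mono (Set.image_mono fun _ hi => le_trans hi h)

lemma yy_fix (hp : ∀ i j, i < N → j < N → i ≠ j → p i ≠ p j) {i t : ℕ} (h : i + 3 ≤ t)
    (ht : t < N) : yy p i (p t) = p t := by
  cases i with
  | zero =>
    show (swap (p 0) (p 1) * swap (p 1) (p 2)) (p t) = p t
    rw [Perm.mul_apply, swap_apply_of_ne_of_ne (hp _ _ ht (by omega) (by omega))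
      (hp _ _ ht (by omega) (by omega)), swap_apply_of_ne_of_ne (hp _ _ ht (by omega) (by omega))
      (hp _ _ ht (by omega) (by omega))]
  | succ i =>
    show (swap (p 0) (p 1) * swap (p (i + 2)) (p (i + 3))) (p t) = p t
    rw [Perm.mul_apply, swap_apply_of_ne_of_ne (hp _ _ ht (by omega) (by omega))
      (hp _ _ ht (by omega) (by omega)), swap_apply_of_ne_of_ne (hp _ _ ht (by omega) (by omega))
      (hp _ _ ht (by omega) (by omega))]

lemma SS_fix (hp : ∀ i j, i < N → j < N → i ≠ j → p i ≠ p j) {m : ℕ} :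
    ∀ s ∈ SS p m, ∀ t, m + 3 ≤ t → t < N → s (p t) = p t := by
  intro s hs t ht htN
  induction hs using Subgroup.closure_induction with
  | mem s hs =>
    obtain ⟨i, hi, rfl⟩ := hs
    exact yy_fix hp (by have : i ≤ m := hi; omega) htN
  | one => rfl
  | mul a b _ _ iha ihb => rw [Perm.mul_apply, ihb, iha]
  | inv a _ ih => rw [Perm.inv_eq_iff_eq, ih]

lemma SS_trans (hp : ∀ i j, i < N → j < N → i ≠ j → p i ≠ p j) : ∀ m, m + 2 < N →
    ∀ k, k ≤ m + 2 → ∃ g ∈ SS p m, g (p (m + 2)) = p k := by
  intro m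
  induction m with
  | zero =>
    intro hN k hk
    have e2 : yy p 0 (p 2) = p 0 := by
      show (swap (p 0) (p 1) * swap (p 1) (p 2)) (p 2) = p 0
      rw [Perm.mul_apply, swap_apply_right, swap_apply_right]
    have e0 : yy p 0 (p 0) = p 1 := by
      show (swap (p 0) (p 1) * swap (p 1) (p 2)) (p 0) = p 1
      rw [Perm.mul_apply, swap_apply_of_ne_of_ne (hp _ _ (by omega) (by omega) (by omega))
        (hp _ _ (by omega) (by omega) (by omega)), swap_apply_left]
    interval_cases k
    · exact ⟨yy p 0, yy_mem le_rfl, e2⟩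
    · exact ⟨yy p 0 * yy p 0, Subgroup.mul_mem _ (yy_mem le_rfl) (yy_mem le_rfl), by
        rw [Perm.mul_apply, e2, e0]⟩
    · exact ⟨1, Subgroup.one_mem _, rfl⟩
  | succ m ih =>
    intro hN k hk
    rcases Nat.lt_or_ge k (m + 3) with hk' | hk'
    · obtain ⟨g, hg, e⟩ := ih (by omega) k (by omega)
      refine ⟨g * yy p (m + 1), Subgroup.mul_mem _ (SS_mono (Nat.le_succ m) hg) (yy_mem le_rfl), ?_⟩
      rw [Perm.mul_apply]
      have e1 : yy p (m + 1) (p (m + 1 + 2)) = p (m + 2) := by
        show (swap (p 0) (p 1) * swap (p (m + 2)) (p (m + 3))) (p (m + 3)) = p (m + 2)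
        rw [Perm.mul_apply, swap_apply_right, swap_apply_of_ne_of_ne
          (hp _ _ (by omega) (by omega) (by omega)) (hp _ _ (by omega) (by omega) (by omega))]
      rw [e1, e]
    · have : k = m + 1 + 2 := by omega
      rw [this]
      exact ⟨1, Subgroup.one_mem _, rfl⟩

lemma SS_card (hp : ∀ i j, i < N → j < N → i ≠ j → p i ≠ p j) : ∀ m, m + 2 < N →
    (m + 3).factorial ≤ Nat.card (SS p m) * 2 := by
  intro m
  induction m with
  | zero =>
    intro hN
    have h3 : orderOf (yy p 0) = 3 := by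
      have : (swap (p 1) (p 0) * swap (p 1) (p 2)).IsThreeCycle :=
        Perm.isThreeCycle_swap_mul_swap_same (hp 1 0 (by omega) (by omega) (by omega))
          (hp 1 2 (by omega) (by omega) (by omega)) (hp 0 2 (by omega) (by omega) (by omega))
      have e : yy p 0 = swap (p 1) (p 0) * swap (p 1) (p 2) := by
        show swap (p 0) (p 1) * swap (p 1) (p 2) = _
        rw [swap_comm]
      rw [e]
      exact this.orderOf
    have hle : Subgroup.zpowers (yy p 0) ≤ SS p 0 := Subgroup.zpowers_le.2 (yy_mem le_rfl)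
    have hd := Subgroup.card_dvd_of_le hle
    rw [Nat.card_zpowers, h3] at hd
    have := Nat.le_of_dvd Nat.card_pos hd
    have e6 : (0 + 3).factorial = 6 := rfl
    omega
  | succ m ih =>
    intro hN
    have hprev := ih (by omega)
    have hT : ∀ k : Fin (m + 4), ∃ g ∈ SS p (m + 1), g (p (m + 3)) = p k := fun k =>
      SS_trans hp (m + 1) hN k (by have := k.2; omega)
    choose g hg hgk using hT
    let f : Fin (m + 4) × SS p m → SS p (m + 1) := fun q =>
      ⟨g q.1 * q.2, Subgroup.mul_mem _ (hg _) (SS_mono (Nat.le_succ m) q.2.2)⟩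
    have hf : Function.Injective f := by
      rintro ⟨k, s⟩ ⟨k', s'⟩ h
      have h1 : g k * (s : Perm α) = g k' * (s' : Perm α) := congrArg Subtype.val h
      have e1 : ∀ (k : Fin (m + 4)) (s : SS p m), (g k * (s : Perm α)) (p (m + 3)) = p k := by
        intro k s
        rw [Perm.mul_apply, SS_fix hp s s.2 (m + 3) le_rfl (by omega), hgk]
      have h2 : p k = p k' := by rw [← e1 k s, h1, e1]
      have hkk : k = k' := by
        by_contra hne
        exact hp k k' (by have := k.2; omega) (by have := k'.2; omega)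
          (fun e => hne (Fin.ext e)) h2
      subst hkk
      have : s = s' := Subtype.ext (mul_left_cancel h1)
      rw [this]
    have hc := Nat.card_le_card_of_injective f hf
    rw [Nat.card_prod, Nat.card_fin] at hc
    have e1 : (m + 1 + 3).factorial = (m + 4) * (m + 3).factorial := by
      rw [show m + 1 + 3 = (m + 3) + 1 by omega, Nat.factorial_succ]
    rw [e1]
    calc (m + 4) * (m + 3).factorial ≤ (m + 4) * (Nat.card (SS p m) * 2) :=
          Nat.mul_le_mul_left _ hprev
      _ = (m + 4) * Nat.card (SS p m) * 2 := by ring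
      _ ≤ _ := Nat.mul_le_mul_right _ hc

lemma yy_alt (hp : ∀ i j, i < N → j < N → i ≠ j → p i ≠ p j) {i : ℕ} (hi : i + 2 < N) :
    yy p i ∈ alternatingGroup α := by
  rw [Perm.mem_alternatingGroup]
  cases i with
  | zero =>
    show Perm.sign (swap (p 0) (p 1) * swap (p 1) (p 2)) = 1
    rw [map_mul, Perm.sign_swap (hp _ _ (by omega) (by omega) (by omega)),
      Perm.sign_swap (hp _ _ (by omega) (by omega) (by omega))]
    rfl
  | succ i =>
    show Perm.sign (swap (p 0) (p 1) * swap (p (i + 2)) (p (i + 3))) = 1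
    rw [map_mul, Perm.sign_swap (hp _ _ (by omega) (by omega) (by omega)),
      Perm.sign_swap (hp _ _ (by omega) (by omega) (by omega))]
    rfl

/-- The generators generate the alternating group. -/
theorem SS_eq (hN : 3 ≤ N) (hcard : Fintype.card α = N)
    (hp : ∀ i j, i < N → j < N → i ≠ j → p i ≠ p j) : SS p (N - 3) = alternatingGroup α := by
  have hle : SS p (N - 3) ≤ alternatingGroup α := by
    rw [SS, Subgroup.closure_le]
    rintro _ ⟨i, hi, rfl⟩
    have : i ≤ N - 3 := hi
    exact yy_alt hp (by omega)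
  apply Subgroup.eq_of_le_of_card_ge hle
  haveI : Nontrivial α := by
    exact ⟨⟨p 0, p 1, hp 0 1 (by omega) (by omega) (by omega)⟩⟩
  have h1 := two_mul_nat_card_alternatingGroup (α := α)
  have h2 := SS_card hp (N - 3) (by omega)
  rw [show N - 3 + 3 = N by omega] at h2
  have h3 : Nat.card (Perm α) = N.factorial := by
    rw [Nat.card_eq_fintype_card, Fintype.card_perm, hcard]
  omega

end surj

end Cfsg.Agent.Lib.H1Carm2
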