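import Cfsg.Agent.Lib.FrobEx
import Mathlib

set_option autoImplicit false

/-! Frobenius groups from fixed-point-free modules; moving a Frobenius pair to universe zero. -/

namespace Cfsg.Agent.Lib.H1FrobMod

open Cfsg
open scoped Pointwise

universe v w

theorem isFrob_map {L₀ L₁ : Type*} [Group L₀] [Group L₁] (m : L₀ ≃* L₁) (C : Subgroup L₀)
    (h : IsFrobeniusComplement C) : IsFrobeniusComplement (C.map m.toMonoidHom) := by
  refine ⟨?_, ?_, ?_⟩
  · intro h1
    apply h.1
    rw [Subgroup.map_eq_bot_iff_of_injective _ m.injective] at h1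
    exact h1
  · intro h1
    apply h.2.1
    rw [eq_top_iff]
    intro x _
    have h2 : m x ∈ C.map m.toMonoidHom := by rw [h1]; trivial
    obtain ⟨y, hy, hyx⟩ := h2
    have : y = x := m.injective hyx
    rwa [← this]
  · intro g hg
    rw [eq_bot_iff]
    intro x hx
    obtain ⟨hx1, hx2⟩ := Subgroup.mem_inf.mp hx
    obtain ⟨y, hy, rfl⟩ := hx1
    obtain ⟨z, ⟨w, hw, rfl⟩, hz⟩ := (Subgroup.mem_smul_pointwise_iff_exists _ _ _).mp hx2
    have hg' : m.symm g ∉ C := by
      intro h3
      apply hg
      exact ⟨_, h3, m.apply_symm_apply g⟩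
    have h4 := h.2.2 _ hg'
    have h5 : y ∈ C ⊓ (MulAut.conj (m.symm g) • C) := by
      refine Subgroup.mem_inf.mpr ⟨hy, ?_⟩
      refine (Subgroup.mem_smul_pointwise_iff_exists _ _ _).mpr ⟨w, hw, ?_⟩
      apply m.injective
      have h6 : MulAut.conj g • (m.toMonoidHom w) = m.toMonoidHom y := hz
      rw [MulAut.smul_def, MulAut.conj_apply] at h6 ⊢
      rw [map_mul, map_mul, map_inv, m.apply_symm_apply]
      exact h6
    rw [h4] at h5
    have h7 : y = 1 := h5
    rw [h7, map_one]
    exact Subgroup.one_mem _

/-- A bare copy of `Fin n`, carrying no algebraic structure. -/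
def FinBox (n : ℕ) : Type := Fin n

instance (n : ℕ) : Finite (FinBox n) := inferInstanceAs (Finite (Fin n))

theorem frob_to_type {L₀ : Type*} [Group L₀] [Finite L₀] (C₀ : Subgroup L₀)
    (h : IsFrobeniusComplement C₀) :
    ∃ (L : Type) (_ : Group L) (_ : Finite L) (C : Subgroup L), IsFrobeniusComplement C ∧
      Nonempty (C₀ ≃* C) := by
  classical
  let n := Nat.card L₀
  let e : L₀ ≃ FinBox n := Finite.equivFin L₀
  let e' : FinBox n ≃ L₀ := e.symm
  letI hG : Group (FinBox n) := e'.group
  let m : FinBox n ≃* L₀ := e'.mulEquiv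
  let m' : L₀ ≃* FinBox n := m.symm
  exact ⟨FinBox n, hG, inferInstance, C₀.map m'.toMonoidHom, isFrob_map m' C₀ h,
    ⟨C₀.equivMapOfInjective m'.toMonoidHom m'.injective⟩⟩

/-- Frobenius group from a fixed-point-free module. -/
theorem frob_of_module {W : Type v} [AddCommGroup W] [Finite W] [Nontrivial W] {K : Type w} [Group K]
    [Finite K] [Nontrivial K] (f : K →* AddMonoid.End W) (hf : ∀ k : K, k ≠ 1 → ∀ v, f k v = v → v = 0) :
    ∃ (L : Type) (_ : Group L) (_ : Finite L) (C : Subgroup L), IsFrobeniusComplement C ∧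
      Nonempty (K ≃* C) := by
  classical
  have hfmul : ∀ g h v, f (g * h) v = f g (f h v) := fun g h v => by rw [map_mul]; rfl
  have hfone : ∀ v, f 1 v = v := fun v => by rw [map_one]; rfl
  let φ : K →* MulAut (Multiplicative W) :=
    { toFun := fun g =>
        { toFun := fun w => Multiplicative.ofAdd (f g (Multiplicative.toAdd w))
          invFun := fun w => Multiplicative.ofAdd (f g⁻¹ (Multiplicative.toAdd w))
          left_inv := fun w => by
            simp only [toAdd_ofAdd]
            rw [← hfmul, inv_mul_cancel, hfone]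
            rfl
          right_inv := fun w => by
            simp only [toAdd_ofAdd]
            rw [← hfmul, mul_inv_cancel, hfone]
            rfl
          map_mul' := fun w w' => by
            show Multiplicative.ofAdd (f g (w.toAdd + w'.toAdd)) = _
            rw [map_add]
            rfl }
      map_one' := by
        refine MulEquiv.ext (fun w => ?_)
        show Multiplicative.ofAdd (f 1 (Multiplicative.toAdd w)) = w
        rw [hfone]
        rfl
      map_mul' := fun g h => by
        refine MulEquiv.ext (fun w => ?_)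
        show Multiplicative.ofAdd (f (g * h) (Multiplicative.toAdd w)) = _
        rw [hfmul]
        rfl }
  have hφ : ∀ k : K, k ≠ 1 → ∀ v : Multiplicative W, φ k v = v → v = 1 := by
    intro k hk v hv
    have hv' : f k (Multiplicative.toAdd v) = Multiplicative.toAdd v := congrArg Multiplicative.toAdd hv
    exact hf k hk _ hv'
  haveI : Finite (Multiplicative W) := inferInstanceAs (Finite W)
  haveI : Nontrivial (Multiplicative W) := inferInstanceAs (Nontrivial W)
  haveI hL : Finite (Multiplicative W ⋊[φ] K) := Finite.of_equiv _ SemidirectProduct.equivProd.symm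
  have hfrob := Lib.FrobEx.inr_isFrob φ hφ
  obtain ⟨L, i1, i2, C, hC, ⟨e⟩⟩ := frob_to_type _ hfrob
  exact ⟨L, i1, i2, C, hC, ⟨(Lib.FrobEx.inrEquiv φ).trans e⟩⟩

end Cfsg.Agent.Lib.H1FrobMod
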