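import Cfsg.Agent.S0034
import Cfsg.Agent.S0035
import Cfsg.Agent.S0042
import Cfsg.Agent.S0039
import Cfsg.Agent.Lib.FrobEx
import Cfsg.Agent.Lib.H1Quat
import Mathlib

set_option autoImplicit false

/-! Orders of modules over the Lipschitz-type quaternion ring, Frobenius kernels
with a quaternion subgroup in the complement. -/

namespace Cfsg.Agent.Lib.H1Q8

open Cfsg

universe u

section module

variable {A : Type u} [AddCommGroup A]

theorem elem_sq [Finite A] (p : ℕ) [Fact p.Prime] (hodd : Odd (Nat.card A))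
    (hp : ∀ x : A, (p : ℤ) • x = 0) (i j : A →+ A) (hi : ∀ x, i (i x) = -x)
    (hj : ∀ x, j (j x) = -x) (hij : ∀ x, i (j x) = - j (i x)) : IsSquare (Nat.card A) := by
  classical
  obtain ⟨a₀, b₀, hab⟩ := ZMod.sq_add_sq p (-1)
  set a : ℤ := (a₀.val : ℤ) with ha
  set b : ℤ := (b₀.val : ℤ) with hb
  have hdvd : (p : ℤ) ∣ a ^ 2 + b ^ 2 + 1 := by
    rw [← ZMod.intCast_zmod_eq_zero_iff_dvd]
    push_cast
    simp only [ha, hb]
    push_cast
    simp only [ZMod.natCast_val, ZMod.cast_id', id_eq]
    rw [hab]; ring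
  have hs : ∀ v : A, a ^ 2 • v + b ^ 2 • v + v = 0 := by
    intro v
    obtain ⟨c, hc⟩ := hdvd
    have h1 : (a ^ 2 + b ^ 2 + 1) • v = 0 := by
      rw [hc, mul_comm, mul_smul, hp, smul_zero]
    rw [add_smul, add_smul, one_smul] at h1
    exact h1
  let x : A →+ A := a • i + b • j
  have hx : ∀ v, x v = a • i v + b • j v := fun v => rfl
  have hxx : ∀ v, x (x v) = v := by
    intro v
    rw [hx, hx, map_add, map_add, map_zsmul, map_zsmul, map_zsmul, map_zsmul, hi, hj, hij]
    have h2 := hs v
    have h3 : a • (a • -v + b • -j (i v)) + b • (a • j (i v) + b • -v) =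
        -(a ^ 2 • v + b ^ 2 • v) := by
      module
    rw [h3]
    have h4 : a ^ 2 • v + b ^ 2 • v = -v := eq_neg_of_add_eq_zero_left h2
    rw [h4, neg_neg]
  let k : A →+ A := i.comp j
  have hk : ∀ v, k v = i (j v) := fun v => rfl
  have hkx : ∀ v, k (x v) = - x (k v) := by
    intro v
    have e1 : i (j (i v)) = j v := by rw [hij (i v), hi, map_neg, neg_neg]
    have e2 : i (j (j v)) = - i v := by rw [hj, map_neg]
    have e3 : i (i (j v)) = - j v := by rw [hi]
    have e4 : j (i (j v)) = i v := by rw [hij v, map_neg, hj, neg_neg]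
    rw [hk, hk, hx, hx]
    simp only [map_add, map_zsmul, e1, e2, e3, e4]
    module
  have hkk : ∀ v, k (k v) = -v := by
    intro v
    rw [hk, hk, hij v, map_neg, map_neg, hj, map_neg, hi, neg_neg]
  -- the element c with 2c = 1
  obtain ⟨n, hn⟩ := hodd
  have hcard : ∀ w : A, ((2 * n + 1 : ℕ) : ℤ) • w = 0 := by
    intro w
    rw [← hn, natCast_zsmul]
    exact card_nsmul_eq_zero'
  have htwo : ∀ w : A, (2 * ((n : ℤ) + 1)) • w = w := by
    intro w
    have h1 := hcard w
    have h2 : (2 * ((n : ℤ) + 1)) = ((2 * n + 1 : ℕ) : ℤ) + 1 := by push_cast; ring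
    rw [h2, add_smul, h1, zero_add, one_smul]
  let f : A →+ A := AddMonoidHom.id A + x
  have hf : ∀ v, f v = v + x v := fun v => rfl
  have hcard2 : Nat.card A = Nat.card f.ker * Nat.card f.range := by
    rw [← AddSubgroup.index_ker f, mul_comm, AddSubgroup.index_mul_card]
  have hfx : ∀ u, x (f u) = f u := by
    intro u
    rw [hf, map_add, hxx, add_comm]
  have hk1 : ∀ v ∈ f.ker, k v ∈ f.range := by
    intro v hv
    have hv' : v + x v = 0 := hv
    have hxv : x v = -v := eq_neg_of_add_eq_zero_right hv'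
    have hxk : x (k v) = k v := by
      have := hkx v
      rw [hxv, map_neg] at this
      exact (neg_inj.mp this).symm
    refine ⟨((n : ℤ) + 1) • k v, ?_⟩
    show f _ = _
    rw [hf, map_zsmul, hxk]
    calc ((n : ℤ) + 1) • k v + ((n : ℤ) + 1) • k v = (2 * ((n : ℤ) + 1)) • k v := by module
      _ = k v := htwo _
  have hk2 : ∀ w ∈ f.range, -k w ∈ f.ker := by
    rintro w ⟨u, rfl⟩
    show f _ = 0
    have h7 := hkx (f u)
    rw [hfx] at h7
    have h6 : x (k (f u)) = - k (f u) := (neg_eq_iff_eq_neg.mpr h7).symm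
    rw [hf, map_neg, h6]
    abel
  let e : f.ker ≃ f.range :=
    { toFun := fun v => ⟨k v, hk1 v v.2⟩
      invFun := fun w => ⟨-k w, hk2 w w.2⟩
      left_inv := fun v => by
        apply Subtype.ext
        show - k (k v) = v
        rw [hkk, neg_neg]
      right_inv := fun w => by
        apply Subtype.ext
        show k (- k w) = w
        rw [map_neg, hkk, neg_neg] }
  have hcc : Nat.card f.ker = Nat.card f.range := Nat.card_congr e
  rw [hcard2, hcc]
  exact ⟨_, rfl⟩

/-- The order of a finite module of odd order over the quaternion relations is a square. -/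
theorem card_isSquare (n : ℕ) : ∀ (A : Type u) [AddCommGroup A] [Finite A] (i j : A →+ A),
    (∀ x, i (i x) = -x) → (∀ x, j (j x) = -x) → (∀ x, i (j x) = - j (i x)) →
    Nat.card A = n → Odd n → IsSquare n := by
  induction n using Nat.strong_induction_on with
  | _ n ih =>
    intro A _ _ i j hi hj hij hA hn
    by_cases hn1 : n = 1
    · rw [hn1]; exact ⟨1, rfl⟩
    let p := n.minFac
    have hp : p.Prime := Nat.minFac_prime hn1
    haveI : Fact p.Prime := ⟨hp⟩
    have hpn : p ∣ Nat.card A := by rw [hA]; exact Nat.minFac_dvd n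
    let m : A →+ A := zsmulAddGroupHom (p : ℤ)
    have hm : ∀ v, m v = (p : ℤ) • v := fun v => rfl
    have hcard : Nat.card A = Nat.card m.ker * Nat.card m.range := by
      rw [← AddSubgroup.index_ker m, mul_comm, AddSubgroup.index_mul_card]
    have hn0 : 0 < n := hn.pos
    have hK1 : 1 < Nat.card m.ker := by
      obtain ⟨y, hy⟩ := exists_prime_addOrderOf_dvd_card' p hpn
      have hy0 : y ≠ 0 := by
        rintro rfl
        rw [addOrderOf_zero] at hy
        exact hp.one_lt.ne hy
      have hyk : y ∈ m.ker := by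
        show m y = 0
        rw [hm, natCast_zsmul, ← hy]
        exact addOrderOf_nsmul_eq_zero y
      haveI : Nontrivial m.ker := ⟨⟨⟨y, hyk⟩, 0, fun h => hy0 (congrArg Subtype.val h)⟩⟩
      exact Finite.one_lt_card
    have hR0 : 0 < Nat.card m.range := Nat.card_pos
    have hKpos : 0 < Nat.card m.ker := Nat.card_pos
    have hRn : Nat.card m.range < n := by
      rw [← hA, hcard]
      nlinarith
    have hoddK : Odd (Nat.card m.ker) := by
      rw [← hA, hcard] at hn
      exact (Nat.odd_mul.mp hn).1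
    have hoddR : Odd (Nat.card m.range) := by
      rw [← hA, hcard] at hn
      exact (Nat.odd_mul.mp hn).2
    -- restrict to the kernel
    have hiK : ∀ v ∈ m.ker, i v ∈ m.ker := by
      intro v hv
      have hv' : m v = 0 := hv
      show m (i v) = 0
      rw [hm] at hv' ⊢
      rw [← map_zsmul, hv', map_zero]
    have hjK : ∀ v ∈ m.ker, j v ∈ m.ker := by
      intro v hv
      have hv' : m v = 0 := hv
      show m (j v) = 0
      rw [hm] at hv' ⊢
      rw [← map_zsmul, hv', map_zero]
    let iK : m.ker →+ m.ker := (i.comp m.ker.subtype).codRestrict m.ker (fun v => hiK v v.2)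
    let jK : m.ker →+ m.ker := (j.comp m.ker.subtype).codRestrict m.ker (fun v => hjK v v.2)
    have hKsq : IsSquare (Nat.card m.ker) := by
      refine elem_sq p hoddK (fun v => Subtype.ext v.2) iK jK ?_ ?_ ?_
      · intro v; apply Subtype.ext; exact hi v
      · intro v; apply Subtype.ext; exact hj v
      · intro v; apply Subtype.ext; exact hij v
    have hiR : ∀ v ∈ m.range, i v ∈ m.range := by
      rintro v ⟨u, rfl⟩
      exact ⟨i u, by rw [hm, hm, map_zsmul]⟩
    have hjR : ∀ v ∈ m.range, j v ∈ m.range := by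
      rintro v ⟨u, rfl⟩
      exact ⟨j u, by rw [hm, hm, map_zsmul]⟩
    let iR : m.range →+ m.range := (i.comp m.range.subtype).codRestrict m.range (fun v => hiR v v.2)
    let jR : m.range →+ m.range := (j.comp m.range.subtype).codRestrict m.range (fun v => hjR v v.2)
    have hRsq : IsSquare (Nat.card m.range) := by
      refine ih _ hRn m.range iR jR ?_ ?_ ?_ rfl hoddR
      · intro v; apply Subtype.ext; exact hi v
      · intro v; apply Subtype.ext; exact hj v
      · intro v; apply Subtype.ext; exact hij v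
    rw [← hA, hcard]
    exact hKsq.mul hRsq

end module

section frob

variable {L : Type*} [Group L] [Finite L]

theorem inverts_of_fpf (N : Subgroup L) (hN : N.Normal) (z : L) (hz2 : z * z = 1)
    (hfix : ∀ n ∈ N, z * n = n * z → n = 1) : ∀ n ∈ N, z * n * z⁻¹ = n⁻¹ := by
  let τ : N → N := fun x => ⟨x.1⁻¹ * (z * x.1 * z⁻¹), N.mul_mem (N.inv_mem x.2) (hN.conj_mem _ x.2 z)⟩
  have hzi : z⁻¹ = z := by
    rw [inv_eq_iff_mul_eq_one]; exact hz2
  have hinj : Function.Injective τ := by
    intro x y hxy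
    have h1 : x.1⁻¹ * (z * x.1 * z⁻¹) = y.1⁻¹ * (z * y.1 * z⁻¹) := congrArg Subtype.val hxy
    have h2 : y.1 * x.1⁻¹ ∈ N := N.mul_mem y.2 (N.inv_mem x.2)
    have h3 : z * (y.1 * x.1⁻¹) = (y.1 * x.1⁻¹) * z := by
      have h4 : y.1 * x.1⁻¹ = z * y.1 * z⁻¹ * (z * x.1 * z⁻¹)⁻¹ := by
        have h5 : y.1 * (x.1⁻¹ * (z * x.1 * z⁻¹)) * (z * x.1 * z⁻¹)⁻¹ =
            y.1 * (y.1⁻¹ * (z * y.1 * z⁻¹)) * (z * x.1 * z⁻¹)⁻¹ := by rw [h1]
        simpa [mul_assoc] using h5
      have h6 : z * y.1 * z⁻¹ * (z * x.1 * z⁻¹)⁻¹ = z * (y.1 * x.1⁻¹) * z⁻¹ := by group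
      rw [h6] at h4
      calc z * (y.1 * x.1⁻¹) = z * (y.1 * x.1⁻¹) * z⁻¹ * z := by group
        _ = (y.1 * x.1⁻¹) * z := by rw [← h4]
    have h7 := hfix _ h2 h3
    apply Subtype.ext
    exact (mul_inv_eq_one.mp h7).symm
  have hsurj : Function.Surjective τ := Finite.surjective_of_injective hinj
  intro n hn
  obtain ⟨x, hx⟩ := hsurj ⟨n, hn⟩
  have hx' : x.1⁻¹ * (z * x.1 * z⁻¹) = n := congrArg Subtype.val hx
  rw [← hx']
  have h8 : z * (z * x.1 * z⁻¹) * z⁻¹ = x.1 := by
    calc z * (z * x.1 * z⁻¹) * z⁻¹ = (z * z) * x.1 * (z * z)⁻¹ := by group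
      _ = x.1 := by rw [hz2]; group
  calc z * (x.1⁻¹ * (z * x.1 * z⁻¹)) * z⁻¹
      = (z * x.1⁻¹ * z⁻¹) * (z * (z * x.1 * z⁻¹) * z⁻¹) := by group
    _ = (z * x.1 * z⁻¹)⁻¹ * x.1 := by rw [h8]; group
    _ = _ := by group

/-- A Frobenius complement containing a copy of the relations of `Q₈` forces the kernel to have
odd square order. -/
theorem odd_square (H : Subgroup L) (hH : IsFrobeniusComplement H) (i j z : L) (hi : i ∈ H)
    (hj : j ∈ H) (hz1 : z ≠ 1) (hz2 : z * z = 1) (hii : i * i = z) (hjj : j * j = z)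
    (hij : i * j = z * j * i) :
    Odd (Nat.card (frobeniusKernel H)) ∧ IsSquare (Nat.card (frobeniusKernel H)) := by
  classical
  obtain ⟨N, hNset, hNn, hcompl⟩ := Cfsg.Agent.S0035.result H hH
  haveI := hNn
  have hcN : Nat.card (frobeniusKernel H) = Nat.card N := by
    rw [← hNset]; rfl
  rw [hcN]
  have hzH : z ∈ H := by rw [← hii]; exact H.mul_mem hi hi
  have hK : N ≠ ⊥ := by
    rintro rfl
    apply hH.2.1
    have h1 := hcompl.card_mul_card
    rw [Subgroup.card_bot, one_mul] at h1
    exact Subgroup.eq_top_of_card_eq _ h1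
  have hfpf := (Cfsg.Agent.S0039.result N H hcompl hK hH.1).1 hH
  have hfix : ∀ n ∈ N, z * n = n * z → n = 1 := by
    intro n hn hc
    have h1 : n ∈ N ⊓ Subgroup.centralizer {z} := by
      refine Subgroup.mem_inf.mpr ⟨hn, ?_⟩
      rw [Subgroup.mem_centralizer_singleton_iff]
      exact hc.symm
    rw [hfpf z hzH hz1] at h1
    exact h1
  have hinv := inverts_of_fpf N hNn z hz2 hfix
  have hcomm : ∀ a ∈ N, ∀ b ∈ N, a * b = b * a := by
    intro a ha b hb
    have h1 := hinv _ (N.mul_mem ha hb)
    have h2 : z * (a * b) * z⁻¹ = (z * a * z⁻¹) * (z * b * z⁻¹) := by group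
    rw [h2, hinv a ha, hinv b hb] at h1
    have h3 : (a * b)⁻¹ = b⁻¹ * a⁻¹ := by group
    rw [h3] at h1
    have h4 : (a * b) * (a⁻¹ * b⁻¹) * (b * a) = (a * b) * (b⁻¹ * a⁻¹) * (b * a) := by rw [h1]
    have h5 : (a * b) * (b⁻¹ * a⁻¹) * (b * a) = b * a := by group
    rw [h5] at h4
    rw [← h4]
    have : a * b * (a⁻¹ * b⁻¹) * (b * a) = a * b * (a⁻¹ * (b⁻¹ * b) * a) := by group
    rw [this]; group
  have hodd : Odd (Nat.card N) := by
    by_contra hne
    rw [Nat.not_odd_iff_even, even_iff_two_dvd] at hne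
    haveI : Fact (Nat.Prime 2) := ⟨Nat.prime_two⟩
    obtain ⟨t, ht⟩ := exists_prime_orderOf_dvd_card' 2 hne
    have ht1 : (t : L) ≠ 1 := by
      intro h
      have h2 : t = 1 := Subtype.ext h
      rw [h2, orderOf_one] at ht
      omega
    have ht2 : (t : L)⁻¹ = t := by
      have h2 : t ^ 2 = 1 := by rw [← ht]; exact pow_orderOf_eq_one t
      have h3 : (t : L) ^ 2 = 1 := by exact_mod_cast congrArg Subtype.val h2
      rw [inv_eq_iff_mul_eq_one, ← sq]; exact h3
    apply ht1
    apply hfix _ t.2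
    have h4 := hinv _ t.2
    rw [ht2] at h4
    calc z * (t : L) = z * t * z⁻¹ * z := by group
      _ = t * z := by rw [h4]
  refine ⟨hodd, ?_⟩
  letI hC : CommGroup N := { (inferInstance : Group N) with
    mul_comm := fun a b => Subtype.ext (hcomm a a.2 b b.2) }
  let act : L → Additive N →+ Additive N := fun g =>
    AddMonoidHom.mk' (fun x => Additive.ofMul ⟨g * (Additive.toMul x : N).1 * g⁻¹,
      hNn.conj_mem _ (Additive.toMul x : N).2 g⟩) (fun x y => by
        apply Additive.toMul.injective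
        apply Subtype.ext
        show g * ((Additive.toMul x : N).1 * (Additive.toMul y : N).1) * g⁻¹ =
          (g * (Additive.toMul x : N).1 * g⁻¹) * (g * (Additive.toMul y : N).1 * g⁻¹)
        group)
  have hact : ∀ (g : L) (x : Additive N), ((Additive.toMul (act g x) : N) : L) =
      g * (Additive.toMul x : N).1 * g⁻¹ := fun g x => rfl
  have hneg : ∀ x : Additive N, ((Additive.toMul (-x) : N) : L) = (Additive.toMul x : N).1⁻¹ :=
    fun x => rfl
  have hzact : ∀ x : Additive N, z * (Additive.toMul x : N).1 * z⁻¹ = ((Additive.toMul (-x) : N) : L) :=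
    fun x => by rw [hneg]; exact hinv _ (Additive.toMul x : N).2
  refine card_isSquare _ (Additive N) (act i) (act j) ?_ ?_ ?_ rfl hodd
  · intro x
    apply Additive.toMul.injective
    apply Subtype.ext
    rw [hact, hact, ← hzact, ← hii]
    group
  · intro x
    apply Additive.toMul.injective
    apply Subtype.ext
    rw [hact, hact, ← hzact, ← hjj]
    group
  · intro x
    apply Additive.toMul.injective
    apply Subtype.ext
    rw [hact, hact, hneg, hact, hact]
    rw [← hinv _ (hNn.conj_mem _ (hNn.conj_mem _ (Additive.toMul x : N).2 i) j)]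
    have : i * (j * (Additive.toMul x : N).1 * j⁻¹) * i⁻¹ =
        (i * j) * (Additive.toMul x : N).1 * (i * j)⁻¹ := by group
    rw [this, hij]
    group

/-- A Frobenius complement contains no two commuting elements of order `p` generating a
noncyclic group. -/
theorem no_rank_two (H : Subgroup L) (hH : IsFrobeniusComplement H) (p : ℕ) [hp : Fact p.Prime]
    (e f : L) (he : e ∈ H) (hf : f ∈ H) (hc : e * f = f * e) (hep : e ^ p = 1) (hfp : f ^ p = 1)
    (hf1 : f ≠ 1) (hnot : ∀ k : ℕ, e * f ^ k ≠ 1) : False := by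
  classical
  obtain ⟨N, hNset, hNn, hcompl⟩ := Cfsg.Agent.S0035.result H hH
  haveI := hNn
  have hcN : Nat.card (frobeniusKernel H) = Nat.card N := by
    rw [← hNset]; rfl
  have hK : N ≠ ⊥ := by
    rintro rfl
    apply hH.2.1
    have h1 := hcompl.card_mul_card
    rw [Subgroup.card_bot, one_mul] at h1
    exact Subgroup.eq_top_of_card_eq _ h1
  have hfpf := (Cfsg.Agent.S0039.result N H hcompl hK hH.1).1 hH
  obtain ⟨N', hN'set, -, hN'nil⟩ := Cfsg.Agent.S0042.result H hH
  have hNN' : N' = N := SetLike.coe_injective (hN'set.trans hNset.symm)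
  subst hNN'
  haveI := hN'nil
  haveI hNnt : Nontrivial N' := by
    rw [Subgroup.nontrivial_iff_ne_bot]; exact hK
  -- the abelian normal subgroup
  let ZL : Subgroup L := N' ⊓ Subgroup.centralizer (N' : Set L)
  have hZcomm : ∀ a ∈ ZL, ∀ b ∈ ZL, a * b = b * a := by
    intro a ha b hb
    have h1 := Subgroup.mem_centralizer_iff.mp (Subgroup.mem_inf.mp hb).2 a (Subgroup.mem_inf.mp ha).1
    exact h1
  have hZconj : ∀ (g x : L), x ∈ ZL → g * x * g⁻¹ ∈ ZL := by
    intro g x hx
    refine Subgroup.mem_inf.mpr ⟨hNn.conj_mem _ (Subgroup.mem_inf.mp hx).1 g, ?_⟩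
    rw [Subgroup.mem_centralizer_iff]
    intro n hn
    have h2 : g⁻¹ * n * g ∈ N' := by
      have := hNn.conj_mem _ hn g⁻¹
      simpa using this
    have h1 := Subgroup.mem_centralizer_iff.mp (Subgroup.mem_inf.mp hx).2 _ h2
    calc n * (g * x * g⁻¹) = g * ((g⁻¹ * n * g) * x) * g⁻¹ := by group
      _ = g * (x * (g⁻¹ * n * g)) * g⁻¹ := by rw [h1]
      _ = g * x * g⁻¹ * n := by group
  letI hC : CommGroup ZL := { (inferInstance : Group ZL) with
    mul_comm := fun a b => Subtype.ext (hZcomm a a.2 b b.2) }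
  let A := Additive ZL
  let act0 : L → AddMonoid.End A := fun g =>
    AddMonoidHom.mk' (fun x => Additive.ofMul ⟨g * (Additive.toMul x : ZL).1 * g⁻¹,
      hZconj g _ (Additive.toMul x : ZL).2⟩) (fun x y => by
        apply Additive.toMul.injective
        apply Subtype.ext
        show g * ((Additive.toMul x : ZL).1 * (Additive.toMul y : ZL).1) * g⁻¹ =
          (g * (Additive.toMul x : ZL).1 * g⁻¹) * (g * (Additive.toMul y : ZL).1 * g⁻¹)
        group)
  have hact0 : ∀ (g : L) (x : A), ((Additive.toMul (act0 g x) : ZL) : L) =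
      g * (Additive.toMul x : ZL).1 * g⁻¹ := fun g x => rfl
  let act : L →* AddMonoid.End A :=
    { toFun := act0
      map_one' := by
        apply AddMonoidHom.ext
        intro x
        apply Additive.toMul.injective
        apply Subtype.ext
        show (1 : L) * (Additive.toMul x : ZL).1 * (1 : L)⁻¹ = (Additive.toMul x : ZL).1
        group
      map_mul' := fun g h => by
        apply AddMonoidHom.ext
        intro x
        apply Additive.toMul.injective
        apply Subtype.ext
        show (g * h) * (Additive.toMul x : ZL).1 * (g * h)⁻¹ = g * (h * (Additive.toMul x : ZL).1 * h⁻¹) * g⁻¹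
        group }
  have hact : ∀ (g : L) (x : A), ((Additive.toMul (act g x) : ZL) : L) =
      g * (Additive.toMul x : ZL).1 * g⁻¹ := fun g x => rfl
  -- the norm vanishes
  have hS : ∀ g ∈ H, g ≠ 1 → g ^ p = 1 → ∑ i ∈ Finset.range p, (act g) ^ i = 0 := by
    intro g hg hg1 hgp
    have h1 : (act g) ^ p = 1 := by rw [← map_pow, hgp, map_one]
    have h2 : act g * ∑ i ∈ Finset.range p, (act g) ^ i = ∑ i ∈ Finset.range p, (act g) ^ i := by
      rw [Finset.mul_sum]
      have h3 := Finset.sum_range_succ (fun i => (act g) ^ i) p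
      have h4 := Finset.sum_range_succ' (fun i => (act g) ^ i) p
      rw [h3, h1] at h4
      simp only [pow_zero] at h4
      have h5 := add_right_cancel h4
      rw [h5]
      exact Finset.sum_congr rfl (fun i _ => (pow_succ' _ _).symm)
    apply AddMonoidHom.ext
    intro v
    set w := (∑ i ∈ Finset.range p, (act g) ^ i) v with hw
    have h6 : act g w = w := by
      have := congrArg (fun φ : AddMonoid.End A => φ v) h2
      exact this
    have h7 : g * (Additive.toMul w : ZL).1 * g⁻¹ = (Additive.toMul w : ZL).1 := by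
      rw [← hact, h6]
    have h8 : (Additive.toMul w : ZL).1 ∈ N' ⊓ Subgroup.centralizer {g} := by
      refine Subgroup.mem_inf.mpr ⟨(Subgroup.mem_inf.mp (Additive.toMul w : ZL).2).1, ?_⟩
      rw [Subgroup.mem_centralizer_singleton_iff]
      calc (Additive.toMul w : ZL).1 * g = g * (Additive.toMul w : ZL).1 * g⁻¹ * g := by rw [h7]
        _ = g * (Additive.toMul w : ZL).1 := by group
    rw [hfpf g hg hg1] at h8
    apply Additive.toMul.injective
    apply Subtype.ext
    exact h8
  have hcomm : Commute (act e) (act f) := by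
    show act e * act f = act f * act e
    rw [← map_mul, ← map_mul, hc]
  have hfne : ∀ i : ℕ, 0 < i → i < p → f ^ i ≠ 1 := by
    intro i hi0 hip h
    have h1 : orderOf f = p := orderOf_eq_prime hfp hf1
    have h2 := orderOf_dvd_of_pow_eq_one h
    rw [h1] at h2
    exact absurd (Nat.le_of_dvd hi0 h2) (by omega)
  have hfH : ∀ i : ℕ, f ^ i ∈ H := fun i => H.pow_mem hf i
  have hsumzero : ∑ k ∈ Finset.range p, ∑ i ∈ Finset.range p, (act e * (act f) ^ k) ^ i = 0 := by
    apply Finset.sum_eq_zero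
    intro k _
    have h1 := hS (e * f ^ k) (H.mul_mem he (hfH k)) (hnot k) (by
      have hcomm' : Commute e (f ^ k) := Commute.pow_right hc k
      rw [hcomm'.mul_pow, hep, one_mul, ← pow_mul, mul_comm, pow_mul, hfp, one_pow])
    rwa [map_mul, map_pow] at h1
  have hswap : ∑ k ∈ Finset.range p, ∑ i ∈ Finset.range p, (act e * (act f) ^ k) ^ i =
      ∑ i ∈ Finset.range p, (act e) ^ i * ∑ k ∈ Finset.range p, ((act f) ^ i) ^ k := by
    rw [Finset.sum_comm]
    apply Finset.sum_congr rfl
    intro i _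
    rw [Finset.mul_sum]
    apply Finset.sum_congr rfl
    intro k _
    rw [(hcomm.pow_right k).mul_pow, pow_right_comm]
  have hp0 : 0 < p := hp.out.pos
  obtain ⟨q, rfl⟩ : ∃ q, p = q + 1 := ⟨p - 1, by omega⟩
  have hpzero : ((q + 1 : ℕ) : AddMonoid.End A) = 0 := by
    have h1 := hsumzero
    rw [hswap, Finset.sum_range_succ'] at h1
    have h2 : ∑ i ∈ Finset.range q, (act e) ^ (i + 1) * ∑ k ∈ Finset.range (q + 1), ((act f) ^ (i + 1)) ^ k = 0 := by
      apply Finset.sum_eq_zero
      intro i hi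
      have h3 := hS (f ^ (i + 1)) (hfH _) (hfne _ (by omega) (by have := Finset.mem_range.mp hi; omega)) (by
        rw [← pow_mul, mul_comm, pow_mul, hfp, one_pow])
      rw [map_pow] at h3
      rw [h3, mul_zero]
    rw [h2, zero_add] at h1
    simpa using h1
  -- conclusion
  obtain ⟨z, hzc, hz1⟩ := (Subgroup.bot_or_exists_ne_one (Subgroup.center N')).resolve_left
    (Group.IsNilpotent.center_ne_bot _)
  have hzZ : (z : L) ∈ ZL := by
    refine Subgroup.mem_inf.mpr ⟨z.2, ?_⟩
    rw [Subgroup.mem_centralizer_iff]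
    intro n hn
    have := Subgroup.mem_center_iff.mp hzc ⟨n, hn⟩
    exact congrArg Subtype.val this
  have hzp : (z : L) ^ (q + 1) = 1 := by
    have h1 := congrArg (fun φ : AddMonoid.End A => φ (Additive.ofMul (⟨z, hzZ⟩ : ZL))) hpzero
    have h2 : ((q + 1 : ℕ) : AddMonoid.End A) (Additive.ofMul (⟨z, hzZ⟩ : ZL)) =
        (q + 1) • Additive.ofMul (⟨z, hzZ⟩ : ZL) := by
      exact AddMonoid.End.natCast_apply _ _
    have h3 : (q + 1) • Additive.ofMul (⟨z, hzZ⟩ : ZL) = 0 := h2.symm.trans h1
    have h4 := congrArg (fun y : A => ((Additive.toMul y : ZL) : L)) h3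
    simpa using h4
  have hzo : orderOf z ∣ q + 1 := by
    apply orderOf_dvd_of_pow_eq_one
    apply Subtype.ext
    simpa using hzp
  have hzN : orderOf z ∣ Nat.card N' := orderOf_dvd_natCard z
  have hpH : (q + 1) ∣ Nat.card H := by
    have h1 : orderOf f = q + 1 := orderOf_eq_prime hfp hf1
    have h2 : orderOf (⟨f, hf⟩ : H) = orderOf f := Subgroup.orderOf_mk f hf
    rw [← h1, ← h2]
    exact orderOf_dvd_natCard _
  have hindex := (Cfsg.Agent.S0034.result H hH)
  have hmod : Nat.card N' ≡ 1 [MOD (q + 1)] := by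
    rw [← hcN, hindex.1]
    exact Nat.ModEq.of_dvd hpH hindex.2
  have hzo1 : orderOf z = 1 := by
    have hpr := hp.out
    rcases (Nat.dvd_prime hpr).mp hzo with h | h
    · exact h
    · rw [h] at hzN
      have h1 : (q + 1) ∣ 1 := by
        have h3 := (Nat.modEq_zero_iff_dvd.mpr hzN)
        have h4 := hmod.symm.trans h3
        exact Nat.modEq_zero_iff_dvd.mp h4
      exact absurd (Nat.le_of_dvd one_pos h1) (by have := hpr.one_lt; omega)
  exact hz1 (orderOf_eq_one_iff.mp hzo1)

/-- In a Frobenius complement, a `p`-subgroup has at most one subgroup of order `p`. -/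
theorem unique_order_p (H : Subgroup L) (hH : IsFrobeniusComplement H) (p : ℕ) [hp : Fact p.Prime]
    (P : Subgroup H) (hP : IsPGroup p P) (U V : Subgroup P) (hU : Nat.card U = p)
    (hV : Nat.card V = p) : U = V := by
  classical
  by_contra hne
  have hpr := hp.out
  haveI : Nontrivial P := by
    have h1 : 1 < Nat.card U := by rw [hU]; exact hpr.one_lt
    by_contra hnt
    rw [not_nontrivial_iff_subsingleton] at hnt
    have h2 : Nat.card U = 1 := by
      haveI : Subsingleton U := by
        constructor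
        intro a b
        apply Subtype.ext
        exact Subsingleton.elim _ _
      exact Nat.card_of_subsingleton (1 : U)
    omega
  haveI hcn : Nontrivial (Subgroup.center P) := hP.center_nontrivial
  have hcp : p ∣ Nat.card (Subgroup.center P) := by
    have h1 : IsPGroup p (Subgroup.center P) := hP.to_subgroup _
    obtain ⟨k, hk⟩ := IsPGroup.iff_card.mp h1
    rw [hk]
    have h2 : 1 < Nat.card (Subgroup.center P) := Finite.one_lt_card
    rw [hk] at h2
    have hk0 : k ≠ 0 := by
      rintro rfl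
      simp at h2
    exact dvd_pow_self p hk0
  obtain ⟨z0, hz0⟩ := exists_prime_orderOf_dvd_card' p hcp
  have hzo : orderOf (z0 : P) = p := by
    rw [← hz0]; exact Subgroup.orderOf_coe z0
  let C : Subgroup P := Subgroup.zpowers (z0 : P)
  have hCc : Nat.card C = p := by
    rw [Nat.card_zpowers, hzo]
  -- a subgroup of order `p` different from `C`
  obtain ⟨W, hWc, hWne⟩ : ∃ W : Subgroup P, Nat.card W = p ∧ W ≠ C := by
    by_cases h : U = C
    · exact ⟨V, hV, fun h' => hne (h.trans h'.symm)⟩
    · exact ⟨U, hU, h⟩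
  haveI : Fact (Nat.card W).Prime := ⟨by rw [hWc]; exact hpr⟩
  haveI hWnt : Nontrivial W := by
    rw [← Finite.one_lt_card_iff_nontrivial, hWc]; exact hpr.one_lt
  obtain ⟨g, hg⟩ := exists_ne (1 : W)
  have hg1 : (g : P) ≠ 1 := fun h => hg (Subtype.ext h)
  have hgo : orderOf (g : P) = p := by
    have h1 : orderOf g ∣ p := by
      rw [← hWc]; exact orderOf_dvd_natCard g
    have h2 : orderOf (g : P) = orderOf g := Subgroup.orderOf_coe g
    rw [h2]
    rcases (Nat.dvd_prime hpr).mp h1 with h | h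
    · exact absurd (orderOf_eq_one_iff.mp h) hg
    · exact h
  have hgW : Subgroup.zpowers (g : P) = W := by
    apply Subgroup.eq_of_le_of_card_ge
    · rw [Subgroup.zpowers_le]; exact g.2
    · rw [Nat.card_zpowers, hgo, hWc]
  have hgC : (g : P) ∉ C := by
    intro hgC
    apply hWne
    have h1 : W ≤ C := by
      rw [← hgW, Subgroup.zpowers_le]; exact hgC
    apply Subgroup.eq_of_le_of_card_ge h1
    rw [hCc, hWc]
  -- map to `L`
  let ι : P →* L := H.subtype.comp P.subtype
  have hι : Function.Injective ι := Subtype.val_injective.comp Subtype.val_injective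
  have hιH : ∀ x : P, ι x ∈ H := fun x => (x : H).2
  refine no_rank_two H hH p (ι g) (ι z0) (hιH _) (hιH _) ?_ ?_ ?_ ?_ ?_
  · rw [← map_mul, ← map_mul]
    congr 1
    exact Subgroup.mem_center_iff.mp z0.2 g
  · rw [← map_pow, ← hgo, pow_orderOf_eq_one, map_one]
  · rw [← map_pow, ← hzo, pow_orderOf_eq_one, map_one]
  · intro h
    have h1 : (z0 : P) = 1 := hι (by rw [h, map_one])
    have h2 : orderOf (z0 : P) = 1 := by rw [h1, orderOf_one]
    rw [hzo] at h2
    exact hpr.one_lt.ne' h2
  · intro k h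
    rw [← map_pow, ← map_mul] at h
    have h1 : (g : P) * (z0 : P) ^ k = 1 := hι (by rw [h, map_one])
    apply hgC
    have h2 : (g : P) = ((z0 : P) ^ k)⁻¹ := eq_inv_of_mul_eq_one_left h1
    rw [h2]
    exact C.inv_mem (C.pow_mem (Subgroup.mem_zpowers _) k)

end frob

end Cfsg.Agent.Lib.H1Q8
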