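import Cfsg.Agent.S4252
import Cfsg.Agent.Lib.H1Q8
import Mathlib

set_option autoImplicit false

/-! Jordan's theorem on normal subgroups of multiply transitive groups. -/

namespace Cfsg.Agent.Lib.H1JordanN

open MulAction SubMulAction

universe u v

section general

variable {G : Type u} [Group G] {α : Type v} [MulAction G α]

theorem multi_of_le [Finite α] {k m : ℕ} (hG : IsMultiplyPretransitive G α k) (hm : m ≤ k)
    (hkn : k ≤ Nat.card α) : IsMultiplyPretransitive G α m := by
  haveI := hG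
  exact isMultiplyPretransitive_of_le (n := k) hm hkn

theorem trans_of_normal [FaithfulSMul G α] [Finite α] {k : ℕ} (hk : 2 ≤ k) (hkn : k ≤ Nat.card α)
    (hG : IsMultiplyPretransitive G α k) (N : Subgroup G) [hNn : N.Normal] (hN : N ≠ ⊥) :
    IsPretransitive N α := by
  have h2 := multi_of_le hG hk hkn
  haveI hprim : IsPreprimitive G α := isPreprimitive_of_is_two_pretransitive h2
  apply IsQuasiPreprimitive.isPretransitive_of_normal
  intro h
  apply hN
  rw [eq_bot_iff]
  intro n hn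
  rw [Subgroup.mem_bot]
  apply eq_of_smul_eq_smul (α := α)
  intro a
  have h1 : a ∈ fixedPoints N α := by rw [h]; trivial
  have h3 := h1 ⟨n, hn⟩
  rw [one_smul]
  exact h3

theorem exists_move2 (h : IsMultiplyPretransitive G α 2) {a b a' b' : α} (hab : a ≠ b) (hab' : a' ≠ b') :
    ∃ g : G, g • a = a' ∧ g • b = b' :=
  (is_two_pretransitive_iff.mp h) hab hab'

/-- A triple of distinct points, as an embedding. -/
def emb3 (a b c : α) (hab : a ≠ b) (hac : a ≠ c) (hbc : b ≠ c) : Fin 3 ↪ α :=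
  ⟨![a, b, c], by
    intro i j h
    fin_cases i <;> fin_cases j <;> first | rfl | (exfalso; simp_all)⟩

theorem exists_move3 (h : IsMultiplyPretransitive G α 3) {a b c a' b' c' : α} (hab : a ≠ b) (hac : a ≠ c)
    (hbc : b ≠ c) (hab' : a' ≠ b') (hac' : a' ≠ c') (hbc' : b' ≠ c') :
    ∃ g : G, g • a = a' ∧ g • b = b' ∧ g • c = c' := by
  obtain ⟨g, hg⟩ := h.exists_smul_eq (emb3 a b c hab hac hbc) (emb3 a' b' c' hab' hac' hbc')
  refine ⟨g, ?_, ?_, ?_⟩
  · exact congrArg (fun t : Fin 3 ↪ α => t 0) hg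
  · exact congrArg (fun t : Fin 3 ↪ α => t 1) hg
  · exact congrArg (fun t : Fin 3 ↪ α => t 2) hg

/-- A quadruple of distinct points, as an embedding. -/
def emb4 (a b c d : α) (hab : a ≠ b) (hac : a ≠ c) (had : a ≠ d) (hbc : b ≠ c) (hbd : b ≠ d)
    (hcd : c ≠ d) : Fin 4 ↪ α :=
  ⟨![a, b, c, d], by
    intro i j h
    fin_cases i <;> fin_cases j <;> first | rfl | (exfalso; simp_all)⟩

theorem exists_move4 (h : IsMultiplyPretransitive G α 4) {a b c d a' b' c' d' : α} (hab : a ≠ b)
    (hac : a ≠ c) (had : a ≠ d) (hbc : b ≠ c) (hbd : b ≠ d) (hcd : c ≠ d) (hab' : a' ≠ b')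
    (hac' : a' ≠ c') (had' : a' ≠ d') (hbc' : b' ≠ c') (hbd' : b' ≠ d') (hcd' : c' ≠ d') :
    ∃ g : G, g • a = a' ∧ g • b = b' ∧ g • c = c' ∧ g • d = d' := by
  obtain ⟨g, hg⟩ := h.exists_smul_eq (emb4 a b c d hab hac had hbc hbd hcd)
    (emb4 a' b' c' d' hab' hac' had' hbc' hbd' hcd')
  refine ⟨g, ?_, ?_, ?_, ?_⟩
  · exact congrArg (fun t : Fin 4 ↪ α => t 0) hg
  · exact congrArg (fun t : Fin 4 ↪ α => t 1) hg
  · exact congrArg (fun t : Fin 4 ↪ α => t 2) hg
  · exact congrArg (fun t : Fin 4 ↪ α => t 3) hg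

/-- The regular case. -/
theorem regular_case [FaithfulSMul G α] [Finite α] {k : ℕ} (hk : 3 ≤ k) (hkn : k < Nat.card α)
    (hG : IsMultiplyPretransitive G α k) (N : Subgroup G) [hNn : N.Normal] (hN : N ≠ ⊥) (a : α)
    (hreg : ∀ n ∈ N, n • a = a → n = 1) :
    k = 3 ∧ IsMulCommutative N ∧ ∀ n ∈ N, n ^ 2 = 1 := by
  classical
  haveI hfin : Finite G := Finite.of_injective (MulAction.toPerm : G → Equiv.Perm α) MulAction.toPerm_injective
  have htr : IsPretransitive N α := trans_of_normal (k := k) (by omega) hkn.le hG N hN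
  have hinjN : ∀ x ∈ N, ∀ y ∈ N, x • a = y • a → x = y := by
    intro x hx y hy h
    have h1 : y⁻¹ * x = 1 := hreg _ (N.mul_mem (N.inv_mem hy) hx) (by
      rw [mul_smul, h, inv_smul_smul])
    exact (inv_mul_eq_one.mp h1).symm
  have hconj : ∀ g : G, g • a = a → ∀ x ∈ N, ∀ y ∈ N, g • (x • a) = y • a → g * x * g⁻¹ = y := by
    intro g hg x hx y hy h
    apply hinjN _ (hNn.conj_mem x hx g) y hy
    rw [← h, mul_smul, mul_smul]
    congr 2
    rw [inv_smul_eq_iff, hg]
  have hnea : ∀ x ∈ N, x ≠ 1 → x • a ≠ a := fun x hx hx1 h => hx1 (hreg x hx h)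
  have h2 := multi_of_le hG (show 2 ≤ k by omega) hkn.le
  have h3 := multi_of_le hG hk hkn.le
  -- cardinality
  let φ : N → α := fun n => (n : G) • a
  have hφinj : Function.Injective φ := fun x y h => Subtype.ext (hinjN _ x.2 _ y.2 h)
  have hφsurj : Function.Surjective φ := by
    intro b
    obtain ⟨n, hn⟩ := htr.exists_smul_eq a b
    exact ⟨n, hn⟩
  have hcardN : Nat.card N = Nat.card α := Nat.card_congr (Equiv.ofBijective φ ⟨hφinj, hφsurj⟩)
  haveI hntN : Nontrivial N := (Subgroup.nontrivial_iff_ne_bot N).mpr hN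
  have hcard1 : Nat.card N ≠ 1 := fun h => (Finite.one_lt_card (α := N)).ne' h
  let p := (Nat.card N).minFac
  have hp : p.Prime := Nat.minFac_prime hcard1
  haveI : Fact p.Prime := ⟨hp⟩
  obtain ⟨x₀, hx₀⟩ := exists_prime_orderOf_dvd_card' p (Nat.minFac_dvd (Nat.card N))
  have hx₀G : orderOf (x₀ : G) = p := by rw [← hx₀]; exact Subgroup.orderOf_coe x₀
  have hx₀1 : (x₀ : G) ≠ 1 := by
    intro h
    rw [h, orderOf_one] at hx₀G
    exact hp.one_lt.ne hx₀G
  have hall : ∀ y ∈ N, y ≠ 1 → orderOf y = p := by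
    intro y hy hy1
    obtain ⟨g, hg1, hg2⟩ := exists_move2 h2 (hnea _ x₀.2 hx₀1).symm (hnea y hy hy1).symm
    have h4 := hconj g hg1 _ x₀.2 y hy hg2
    rw [← h4, ← hx₀G]
    exact MulEquiv.orderOf_eq (MulAut.conj g) (x₀ : G)
  have hcardNF : 4 ≤ Nat.card N := by rw [hcardN]; omega
  haveI : Fintype N := Fintype.ofFinite N
  have hexists : ∀ s : Finset N, s.card < Nat.card N → ∃ y : N, y ∉ s := by
    intro s hs
    by_contra hc
    push Not at hc
    have h1 : s = Finset.univ := Finset.eq_univ_iff_forall.mpr hc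
    rw [h1, Finset.card_univ, Nat.card_eq_fintype_card] at hs
    exact lt_irrefl _ hs
  have hp2 : p = 2 := by
    by_contra hp2
    have hinv : (x₀ : G)⁻¹ ≠ x₀ := by
      intro h
      have h1 : (x₀ : G) ^ 2 = 1 := by
        rw [sq]
        nth_rewrite 1 [← h]
        exact inv_mul_cancel _
      have h4 := orderOf_dvd_of_pow_eq_one h1
      rw [hx₀G] at h4
      exact hp2 ((Nat.prime_dvd_prime_iff_eq hp Nat.prime_two).mp h4)
    obtain ⟨y, hy⟩ := hexists ({1, x₀, x₀⁻¹} : Finset N) (by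
      have := Finset.card_le_three (a := (1 : N)) (b := x₀) (c := x₀⁻¹)
      omega)
    simp only [Finset.mem_insert, Finset.mem_singleton, not_or] at hy
    obtain ⟨hy1, hy2, hy3⟩ := hy
    have hy1' : (y : G) ≠ 1 := fun h => hy1 (Subtype.ext h)
    have hy2' : (y : G) ≠ x₀ := fun h => hy2 (Subtype.ext h)
    have hy3' : (y : G) ≠ (x₀ : G)⁻¹ := fun h => hy3 (Subtype.ext h)
    obtain ⟨g, hg1, hg2, hg3⟩ := exists_move3 h3 (a := a) (b := (x₀ : G) • a) (c := (x₀ : G)⁻¹ • a)
      (a' := a) (b' := (x₀ : G) • a) (c' := (y : G) • a)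
      (hnea _ x₀.2 hx₀1).symm
      (hnea _ (N.inv_mem x₀.2) (inv_ne_one.mpr hx₀1)).symm
      (fun h => hinv (hinjN _ x₀.2 _ (N.inv_mem x₀.2) h).symm)
      (hnea _ x₀.2 hx₀1).symm (hnea _ y.2 hy1').symm
      (fun h => hy2' (hinjN _ x₀.2 _ y.2 h).symm)
    have h5 := hconj g hg1 _ x₀.2 _ x₀.2 hg2
    have h6 := hconj g hg1 _ (N.inv_mem x₀.2) _ y.2 hg3
    apply hy3'
    rw [← h6]
    have h7 : g * (x₀ : G)⁻¹ * g⁻¹ = (g * x₀ * g⁻¹)⁻¹ := by group
    rw [h7, h5]
  have hsq : ∀ n ∈ N, n ^ 2 = 1 := by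
    intro n hn
    by_cases hn1 : n = 1
    · rw [hn1, one_pow]
    · have h4 := hall n hn hn1
      rw [← hp2, ← h4]
      exact pow_orderOf_eq_one n
  have hsq' : ∀ n ∈ N, n * n = 1 := fun n hn => by rw [← sq]; exact hsq n hn
  have hcomm : ∀ x ∈ N, ∀ y ∈ N, x * y = y * x := by
    intro x hx y hy
    have h1 := hsq' _ (N.mul_mem hx hy)
    have h4 := hsq' x hx
    have h5 := hsq' y hy
    calc x * y = x * y * (y * x * (y * x)) := by rw [hsq' _ (N.mul_mem hy hx), mul_one]
      _ = x * (y * y) * x * (y * x) := by group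
      _ = y * x := by rw [h5, mul_one, h4, one_mul]
  refine ⟨?_, ⟨⟨fun a b => Subtype.ext (hcomm a a.2 b b.2)⟩⟩, hsq⟩
  by_contra hk3
  have h4 := multi_of_le hG (show 4 ≤ k by omega) hkn.le
  have hcard5 : 5 ≤ Nat.card N := by rw [hcardN]; omega
  obtain ⟨y, hy⟩ := hexists ({1, x₀} : Finset N) (by
    have := Finset.card_le_two (a := (1 : N)) (b := x₀)
    omega)
  simp only [Finset.mem_insert, Finset.mem_singleton, not_or] at hy
  obtain ⟨hy1, hy2⟩ := hy
  obtain ⟨z, hz⟩ := hexists ({1, x₀, y, x₀ * y} : Finset N) (by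
    have := Finset.card_le_four (a := (1 : N)) (b := x₀) (c := y) (d := x₀ * y)
    omega)
  simp only [Finset.mem_insert, Finset.mem_singleton, not_or] at hz
  obtain ⟨hz1, hz2, hz3, hz4⟩ := hz
  have hy1' : (y : G) ≠ 1 := fun h => hy1 (Subtype.ext h)
  have hy2' : (y : G) ≠ x₀ := fun h => hy2 (Subtype.ext h)
  have hz1' : (z : G) ≠ 1 := fun h => hz1 (Subtype.ext h)
  have hz2' : (z : G) ≠ x₀ := fun h => hz2 (Subtype.ext h)
  have hz3' : (z : G) ≠ y := fun h => hz3 (Subtype.ext h)
  have hz4' : (z : G) ≠ (x₀ : G) * y := fun h => hz4 (Subtype.ext h)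
  have hxyN : (x₀ : G) * y ∈ N := N.mul_mem x₀.2 y.2
  have hxy1 : (x₀ : G) * y ≠ 1 := by
    intro h
    apply hy2'
    have h5 := hsq' _ x₀.2
    calc (y : G) = (x₀ : G) * x₀ * y := by rw [h5, one_mul]
      _ = x₀ * ((x₀ : G) * y) := by group
      _ = x₀ := by rw [h, mul_one]
  have hxy2 : (x₀ : G) * y ≠ x₀ := fun h => hy1' (mul_eq_left.mp h)
  have hxy3 : (x₀ : G) * y ≠ y := fun h => hx₀1 (mul_eq_right.mp h)
  obtain ⟨g, hg1, hg2, hg3, hg4⟩ := exists_move4 h4 (a := a) (b := (x₀ : G) • a) (c := (y : G) • a)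
    (d := ((x₀ : G) * y) • a) (a' := a) (b' := (x₀ : G) • a) (c' := (y : G) • a) (d' := (z : G) • a)
    (hnea _ x₀.2 hx₀1).symm (hnea _ y.2 hy1').symm (hnea _ hxyN hxy1).symm
    (fun h => hy2' (hinjN _ x₀.2 _ y.2 h).symm)
    (fun h => hxy2 (hinjN _ x₀.2 _ hxyN h).symm)
    (fun h => hxy3 (hinjN _ y.2 _ hxyN h).symm)
    (hnea _ x₀.2 hx₀1).symm (hnea _ y.2 hy1').symm (hnea _ z.2 hz1').symm
    (fun h => hy2' (hinjN _ x₀.2 _ y.2 h).symm)
    (fun h => hz2' (hinjN _ x₀.2 _ z.2 h).symm)
    (fun h => hz3' (hinjN _ y.2 _ z.2 h).symm)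
  have h5 := hconj g hg1 _ x₀.2 _ x₀.2 hg2
  have h6 := hconj g hg1 _ y.2 _ y.2 hg3
  have h7 := hconj g hg1 _ hxyN _ z.2 hg4
  apply hz4'
  rw [← h7]
  have h8 : g * ((x₀ : G) * y) * g⁻¹ = (g * x₀ * g⁻¹) * (g * y * g⁻¹) := by group
  rw [h8, h5, h6]

/-- Lifting multiple transitivity from the stabiliser. -/
theorem lift_multi (N : Subgroup G) (a : α) (htr : IsPretransitive N α) (m : ℕ)
    (hM : IsMultiplyPretransitive (N.subgroupOf (stabilizer G a)) (ofStabilizer G a) m) :
    IsMultiplyPretransitive N α (m + 1) := by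
  have h1 := (ofStabilizer.isMultiplyPretransitive (G := N) (α := α) (n := m) (a := a))
  apply h1.mpr
  refine ⟨fun x y => ?_⟩
  have hmem : ∀ (u : Fin m ↪ ofStabilizer N a) (i : Fin m), ((u i : α)) ∈ ofStabilizer G a := by
    intro u i
    rw [mem_ofStabilizer_iff]
    exact (mem_ofStabilizer_iff N a).mp (u i).2
  let conv : (Fin m ↪ ofStabilizer N a) → (Fin m ↪ ofStabilizer G a) := fun u =>
    ⟨fun i => ⟨(u i : α), hmem u i⟩, fun i j h => u.injective (Subtype.ext (congrArg Subtype.val h))⟩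
  obtain ⟨h, hh⟩ := hM.exists_smul_eq (conv x) (conv y)
  have hhN : (((h : stabilizer G a) : G)) ∈ N := Subgroup.mem_subgroupOf.mp h.2
  have hhs : (⟨((h : stabilizer G a) : G), hhN⟩ : N) ∈ stabilizer N a := (h : stabilizer G a).2
  refine ⟨⟨⟨((h : stabilizer G a) : G), hhN⟩, hhs⟩, ?_⟩
  ext i
  have h2 := congrArg (fun t : Fin m ↪ ofStabilizer G a => ((t i : ofStabilizer G a) : α)) hh
  exact h2

end general

/-- The exceptional subcase cannot occur. -/
theorem exceptional {G : Type u} [Group G] {α : Type v} [MulAction G α] [FaithfulSMul G α] [Finite α]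
    (N : Subgroup G) [hNn : N.Normal] (a : α) (htr : IsPretransitive N α)
    (hcard : 5 ≤ Nat.card α)
    (hM : IsPretransitive (N.subgroupOf (stabilizer G a)) (ofStabilizer G a))
    (hab : IsMulCommutative (N.subgroupOf (stabilizer G a)))
    (hsq : ∀ n ∈ N.subgroupOf (stabilizer G a), n ^ 2 = 1) : False := by
  classical
  haveI hfin : Finite G := Finite.of_injective (MulAction.toPerm : G → Equiv.Perm α) MulAction.toPerm_injective
  haveI : Fintype α := Fintype.ofFinite α
  -- elements of the point stabiliser fixing another point are trivial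
  have hfixM : ∀ g ∈ N, g • a = a → ∀ b, b ≠ a → g • b = b → g = 1 := by
    intro g hgN hga b hb hgb
    have hgs : g ∈ stabilizer G a := hga
    apply eq_of_smul_eq_smul (α := α)
    intro c
    rw [one_smul]
    by_cases hc : c = a
    · rw [hc, hga]
    have hbm : b ∈ ofStabilizer G a := (mem_ofStabilizer_iff G a).mpr hb
    have hcm : c ∈ ofStabilizer G a := (mem_ofStabilizer_iff G a).mpr hc
    obtain ⟨t, ht⟩ := hM.exists_smul_eq ⟨b, hbm⟩ ⟨c, hcm⟩
    have ht' : (((t : stabilizer G a) : G)) • b = c := congrArg Subtype.val ht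
    have hcomm := hab.is_comm.comm t ⟨⟨g, hgs⟩, Subgroup.mem_subgroupOf.mpr hgN⟩
    have hcomm' : (((t : stabilizer G a) : G)) * g = g * ((t : stabilizer G a) : G) :=
      congrArg (fun z : N.subgroupOf (stabilizer G a) => ((z : stabilizer G a) : G)) hcomm
    rw [← ht', ← mul_smul, ← hcomm', mul_smul, hgb]
  have hfix2 : ∀ g ∈ N, g ≠ 1 → ∀ b c : α, g • b = b → g • c = c → b = c := by
    intro g hg hg1 b c hb hc
    by_contra hbc
    obtain ⟨t, ht⟩ := htr.exists_smul_eq b a
    have ht' : ((t : N) : G) • b = a := ht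
    have h1 : (t : G) * g * (t : G)⁻¹ ∈ N := hNn.conj_mem g hg t
    have h2 : ((t : G) * g * (t : G)⁻¹) • a = a := by
      rw [← ht', mul_smul, mul_smul, inv_smul_smul, hb]
    have h3 : ((t : G) * g * (t : G)⁻¹) • ((t : G) • c) = (t : G) • c := by
      rw [mul_smul, mul_smul, inv_smul_smul, hc]
    have h4 : (t : G) • c ≠ a := by
      intro h
      apply hbc
      rw [← ht'] at h
      exact (smul_left_cancel _ h).symm
    have h5 := hfixM _ h1 h2 _ h4 h3
    apply hg1
    have h6 : g = (t : G)⁻¹ * ((t : G) * g * (t : G)⁻¹) * t := by group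
    rw [h6, h5]
    group
  -- there are at least four elements in M
  let M := N.subgroupOf (stabilizer G a)
  have hregM : ∀ m : M, ∀ b : ofStabilizer G a, m • b = b → m = 1 := by
    intro m b hb
    have hb1 : ((b : α)) ≠ a := (mem_ofStabilizer_iff G a).mp b.2
    have hb2 : (((m : stabilizer G a) : G)) • (b : α) = b := congrArg Subtype.val hb
    have h1 := hfixM _ (Subgroup.mem_subgroupOf.mp m.2) (m : stabilizer G a).2 _ hb1 hb2
    exact Subtype.ext (Subtype.ext h1)
  obtain ⟨b₀, hb₀⟩ : ∃ b : α, b ≠ a := by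
    by_contra hc
    push Not at hc
    have h1 : Nat.card α ≤ 1 := by
      rw [Nat.card_eq_fintype_card]
      exact Fintype.card_le_one_iff.mpr (fun x y => by rw [hc x, hc y])
    omega
  let b₀' : ofStabilizer G a := ⟨b₀, (mem_ofStabilizer_iff G a).mpr hb₀⟩
  let ψ : M → ofStabilizer G a := fun m => m • b₀'
  have hψ : Function.Bijective ψ := by
    constructor
    · intro x y h
      have h1 : y⁻¹ * x = 1 := hregM _ b₀' (by
        show (y⁻¹ * x) • b₀' = b₀'
        rw [mul_smul]
        rw [inv_smul_eq_iff]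
        exact h)
      exact (inv_mul_eq_one.mp h1).symm
    · intro c
      obtain ⟨m, hm⟩ := hM.exists_smul_eq b₀' c
      exact ⟨m, hm⟩
  have hcardM : Nat.card M = Nat.card (ofStabilizer G a) := Nat.card_congr (Equiv.ofBijective ψ hψ)
  have hcardM' : Nat.card M + 1 = Nat.card α := by
    rw [hcardM]
    exact nat_card_ofStabilizer_add_one_eq G a
  haveI hfM : Finite M := inferInstance
  haveI : Fintype M := Fintype.ofFinite M
  obtain ⟨e, he⟩ : ∃ e : M, e ∉ ({1} : Finset M) := by
    by_contra hc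
    push Not at hc
    have h1 : ({1} : Finset M) = Finset.univ := Finset.eq_univ_iff_forall.mpr hc
    have h2 : Fintype.card M = 1 := by
      rw [← Finset.card_univ, ← h1, Finset.card_singleton]
    rw [Nat.card_eq_fintype_card] at hcardM
    rw [Nat.card_eq_fintype_card] at hcardM'
    omega
  obtain ⟨f, hf⟩ : ∃ f : M, f ∉ ({1, e} : Finset M) := by
    by_contra hc
    push Not at hc
    have h1 : ({1, e} : Finset M) = Finset.univ := Finset.eq_univ_iff_forall.mpr hc
    have h2 : Fintype.card M ≤ 2 := by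
      rw [← Finset.card_univ, ← h1]
      exact Finset.card_le_two
    rw [Nat.card_eq_fintype_card] at hcardM'
    omega
  simp only [Finset.mem_singleton] at he
  simp only [Finset.mem_insert, Finset.mem_singleton, not_or] at hf
  obtain ⟨hf1, hf2⟩ := hf
  -- Frobenius structure
  haveI : Finite N := inferInstance
  have hex : ∃ g : N, g ≠ 1 ∧ ∃ c : α, g • c = c := by
    refine ⟨⟨((e : stabilizer G a) : G), Subgroup.mem_subgroupOf.mp e.2⟩, ?_, a, (e : stabilizer G a).2⟩
    intro h
    apply he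
    have h1 : ((e : stabilizer G a) : G) = 1 := congrArg Subtype.val h
    exact Subtype.ext (Subtype.ext h1)
  have hcard1 : 1 < Fintype.card α := by
    rw [← Nat.card_eq_fintype_card]; omega
  have hF := (Cfsg.Agent.S4252.result (G := N) (Ω := α) hcard1 (fun b c => htr.exists_smul_eq b c) hex
    (fun g hg b c hb hc => hfix2 g g.2 (fun h => hg (Subtype.ext h)) b c hb hc) a).1
  let ι : M → N := fun m => ⟨((m : stabilizer G a) : G), Subgroup.mem_subgroupOf.mp m.2⟩
  have hιmem : ∀ m : M, ι m ∈ stabilizer N a := fun m => (m : stabilizer G a).2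
  have hιmul : ∀ x y : M, ι (x * y) = ι x * ι y := fun x y => rfl
  have hιone : ι 1 = 1 := rfl
  have hιinj : Function.Injective ι := fun x y h =>
    Subtype.ext (Subtype.ext (congrArg (fun z : N => (z : G)) h))
  have hsq2 : ∀ m : M, m ^ 2 = 1 := fun m => Subtype.ext (hsq m m.2)
  have hιpow : ∀ (m : M) (k : ℕ), ι (m ^ k) = ι m ^ k := by
    intro m k
    induction k with
    | zero => rw [pow_zero, pow_zero]; rfl
    | succ k ih => rw [pow_succ, pow_succ, hιmul, ih]
  haveI : Fact (Nat.Prime 2) := ⟨Nat.prime_two⟩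
  apply Cfsg.Agent.Lib.H1Q8.no_rank_two (L := N) (stabilizer N a) hF 2 (ι e) (ι f) (hιmem e) (hιmem f)
  · rw [← hιmul, ← hιmul]
    exact congrArg ι (hab.is_comm.comm e f)
  · rw [← hιpow, hsq2, hιone]
  · rw [← hιpow, hsq2, hιone]
  · intro h
    apply hf1
    apply hιinj
    rw [h, hιone]
  · intro k h
    rw [← hιpow, ← hιmul] at h
    have h1 : e * f ^ k = 1 := hιinj (by rw [h, hιone])
    have h2 : f ^ k = 1 ∨ f ^ k = f := by
      rcases Nat.even_or_odd' k with ⟨c, rfl | rfl⟩
      · left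
        rw [pow_mul, hsq2, one_pow]
      · right
        rw [pow_succ, pow_mul, hsq2, one_pow, one_mul]
    rcases h2 with h2 | h2
    · rw [h2, mul_one] at h1
      exact he h1
    · rw [h2] at h1
      have h3 : f = e⁻¹ := eq_inv_of_mul_eq_one_right h1
      have h4 : e⁻¹ = e := by
        rw [inv_eq_iff_mul_eq_one, ← sq]
        exact hsq2 e
      rw [h4] at h3
      exact hf2 h3

/-- Jordan's theorem in the setting of abstract faithful actions. -/
theorem jordan_aux (k : ℕ) (hk : 2 ≤ k) : ∀ (G : Type u) [Group G] (α : Type v) [MulAction G α]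
    [FaithfulSMul G α] [Finite α] (N : Subgroup G) [N.Normal], N ≠ ⊥ → k < Nat.card α →
    IsMultiplyPretransitive G α k →
    (IsMultiplyPretransitive N α (k - 1) ∨ (k = 3 ∧ IsMulCommutative N ∧ ∀ n ∈ N, n ^ 2 = 1)) := by
  induction k, hk using Nat.le_induction with
  | base =>
    intro G _ α _ _ _ N _ hN hcard hG
    left
    have h1 : IsPretransitive N α := trans_of_normal (k := 2) le_rfl hcard.le hG N hN
    show IsMultiplyPretransitive N α 1
    exact is_one_pretransitive_iff.mpr h1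
  | succ k hk ih =>
    intro G _ α _ _ _ N _ hN hcard hG
    have htrN : IsPretransitive N α := trans_of_normal (k := k + 1) (by omega) hcard.le hG N hN
    have h2 := multi_of_le hG (show 2 ≤ k + 1 by omega) hcard.le
    haveI htrG : IsPretransitive G α := isPretransitive_of_is_two_pretransitive (h2 := h2)
    have hne : Nonempty α := by
      by_contra hc
      rw [not_nonempty_iff] at hc
      have : Nat.card α = 0 := Nat.card_of_isEmpty
      omega
    obtain ⟨a⟩ := hne
    have hH : IsMultiplyPretransitive (stabilizer G a) (ofStabilizer G a) k :=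
      ofStabilizer.isMultiplyPretransitive.mp hG
    haveI hfaith : FaithfulSMul (stabilizer G a) (ofStabilizer G a) := by
      constructor
      intro g g' h
      apply Subtype.ext
      apply eq_of_smul_eq_smul (α := α)
      intro c
      by_cases hc : c = a
      · rw [hc]
        exact (g.2).trans (g'.2).symm
      · have h1 := h ⟨c, (mem_ofStabilizer_iff G a).mpr hc⟩
        exact congrArg Subtype.val h1
    have hcardβ : k < Nat.card (ofStabilizer G a) := by
      have := nat_card_ofStabilizer_add_one_eq G a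
      omega
    by_cases hM : N.subgroupOf (stabilizer G a) = ⊥
    · right
      refine regular_case (k := k + 1) (by omega) hcard hG N hN a ?_
      intro n hn hna
      have h1 : (⟨n, hna⟩ : stabilizer G a) ∈ N.subgroupOf (stabilizer G a) :=
        Subgroup.mem_subgroupOf.mpr hn
      rw [hM, Subgroup.mem_bot] at h1
      exact congrArg Subtype.val h1
    · rcases ih (stabilizer G a) (ofStabilizer G a) (N.subgroupOf (stabilizer G a)) hM hcardβ hH with h | h
      · left
        have h3 := lift_multi N a htrN (k - 1) h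
        have h4 : k - 1 + 1 = k + 1 - 1 := by omega
        rwa [h4] at h3
      · obtain ⟨hk3, hab, hsq⟩ := h
        exfalso
        have hM' : IsPretransitive (N.subgroupOf (stabilizer G a)) (ofStabilizer G a) :=
          trans_of_normal (k := k) hk hcardβ.le hH _ hM
        exact exceptional N a htrN (by omega) hM' hab hsq

end Cfsg.Agent.Lib.H1JordanN
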