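import Cfsg.Agent.Lib.H1JordanN
import Mathlib

set_option autoImplicit false

/-! Normal subgroups of multiply primitive groups. -/

namespace Cfsg.Agent.Lib.H1JordanP

open MulAction SubMulAction Cfsg.Agent.Lib.H1JordanN

open scoped Pointwise

universe u v

/-- A group that is `n`-transitive on `n` points induces every permutation. -/
theorem surj_of_full {G : Type u} [Group G] {α : Type v} [MulAction G α] [Finite α] {n : ℕ}
    (hG : IsMultiplyPretransitive G α n) (hn : Nat.card α = n) :
    Function.Surjective (MulAction.toPerm : G → Equiv.Perm α) := by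
  classical
  intro π
  have e : Fin n ≃ α := (Finite.equivFinOfCardEq hn).symm
  obtain ⟨g, hg⟩ := hG.exists_smul_eq e.toEmbedding (e.toEmbedding.trans π.toEmbedding)
  refine ⟨g, Equiv.ext fun x => ?_⟩
  obtain ⟨i, rfl⟩ := e.surjective x
  exact congrArg (fun t : Fin n ↪ α => t i) hg

/-- A two-transitive action on three points induces every permutation. -/
theorem surj_of_two_three {G : Type u} [Group G] {α : Type v} [MulAction G α] [Finite α]
    (hG : IsMultiplyPretransitive G α 2) (hn : Nat.card α = 3) :
    Function.Surjective (MulAction.toPerm : G → Equiv.Perm α) := by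
  classical
  intro π
  have e : Fin 3 ≃ α := (Finite.equivFinOfCardEq hn).symm
  have h01 : e 0 ≠ e 1 := fun h => by simpa using e.injective h
  have h02 : e 0 ≠ e 2 := fun h => by simpa using e.injective h
  have h12 : e 1 ≠ e 2 := fun h => by simpa using e.injective h
  obtain ⟨g, hg0, hg1⟩ := exists_move2 hG h01 (a' := π (e 0)) (b' := π (e 1))
    (fun h => h01 (π.injective h))
  have hg2 : g • e 2 = π (e 2) := by
    obtain ⟨i, hi⟩ := e.surjective (g⁻¹ • π (e 2))
    have h1 : g • e i = π (e 2) := by rw [hi, smul_inv_smul]
    fin_cases i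
    · exfalso
      have h2 : π (e 0) = π (e 2) := by rw [← hg0]; exact h1
      exact h02 (π.injective h2)
    · exfalso
      have h2 : π (e 1) = π (e 2) := by rw [← hg1]; exact h1
      exact h12 (π.injective h2)
    · exact h1
  refine ⟨g, Equiv.ext fun x => ?_⟩
  obtain ⟨i, rfl⟩ := e.surjective x
  fin_cases i
  · exact hg0
  · exact hg1
  · exact hg2

/-- Surjectivity on the stabiliser lifts when the action is transitive. -/
theorem surj_lift {G : Type u} [Group G] {α : Type v} [MulAction G α] [IsPretransitive G α] (a : α)
    (h : Function.Surjective (MulAction.toPerm : stabilizer G a → Equiv.Perm (ofStabilizer G a))) :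
    Function.Surjective (MulAction.toPerm : G → Equiv.Perm α) := by
  classical
  intro π
  obtain ⟨g, hg⟩ := exists_smul_eq G (π a) a
  -- `ρ := g ∘ π` fixes `a`
  let ρ : Equiv.Perm α := MulAction.toPerm g * π
  have hρa : ρ a = a := hg
  have hρmem : ∀ x : ofStabilizer G a, ρ x ∈ ofStabilizer G a := by
    intro x
    rw [mem_ofStabilizer_iff]
    intro h1
    have hx : (x : α) ≠ a := (mem_ofStabilizer_iff G a).mp x.2
    exact hx (ρ.injective (h1.trans hρa.symm))
  have hρmem' : ∀ x : ofStabilizer G a, ρ⁻¹ x ∈ ofStabilizer G a := by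
    intro x
    rw [mem_ofStabilizer_iff]
    intro h1
    have hx : (x : α) ≠ a := (mem_ofStabilizer_iff G a).mp x.2
    apply hx
    have h2 : ρ (ρ⁻¹ x) = x := by simp
    rw [← h2, h1, hρa]
  let ρ' : Equiv.Perm (ofStabilizer G a) :=
    { toFun := fun x => ⟨ρ x, hρmem x⟩
      invFun := fun x => ⟨ρ⁻¹ x, hρmem' x⟩
      left_inv := fun x => Subtype.ext (by simp)
      right_inv := fun x => Subtype.ext (by simp) }
  obtain ⟨s, hs⟩ := h ρ'
  refine ⟨g⁻¹ * (s : G), Equiv.ext fun x => ?_⟩
  show (g⁻¹ * (s : G)) • x = π x
  rw [mul_smul, inv_smul_eq_iff]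
  show (s : G) • x = ρ x
  by_cases hx : x = a
  · rw [hx, hρa]
    exact s.2
  · have h1 := congrArg (fun t : Equiv.Perm (ofStabilizer G a) =>
      ((t ⟨x, (mem_ofStabilizer_iff G a).mpr hx⟩ : ofStabilizer G a) : α)) hs
    exact h1

/-- The key block argument in the case `k = 2`. -/
theorem two_prim_regular {G : Type u} [Group G] {β : Type v} [MulAction G β] [Finite β]
    (hprim : IsMultiplyPreprimitive G β 2) (M : Subgroup G) [hMn : M.Normal] (b : β)
    (hreg : ∀ m ∈ M, m • b = b → m = 1) :
    (∀ m ∈ M, m ^ 2 = 1) ∨ Nat.card β = 3 := by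
  classical
  by_contra hcon
  push Not at hcon
  obtain ⟨⟨x, hx, hx2⟩, hcard⟩ := hcon
  have hinj : ∀ u ∈ M, ∀ v ∈ M, u • b = v • b → u = v := by
    intro u hu v hv h
    have h1 : v⁻¹ * u = 1 := hreg _ (M.mul_mem (M.inv_mem hv) hu) (by
      rw [mul_smul, h, inv_smul_smul])
    exact (inv_mul_eq_one.mp h1).symm
  have hG2 : IsMultiplyPretransitive G β 2 := hprim.isMultiplyPretransitive
  haveI htr : IsPretransitive G β := isPretransitive_of_is_two_pretransitive (h2 := hG2)
  have hprim1 : IsPreprimitive (stabilizer G b) (ofStabilizer G b) := by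
    haveI := hprim
    have h1 : IsMultiplyPreprimitive (stabilizer G b) (ofStabilizer G b) 1 :=
      isMultiplyPreprimitive_ofStabilizer (M := G) (α := β) (n := 1) (a := b)
    exact (is_one_preprimitive_iff _ _).mp h1
  have hx1 : x ≠ 1 := fun h => hx2 (by rw [h, one_pow])
  have hxx : x ≠ x⁻¹ := by
    intro h
    apply hx2
    rw [sq]
    exact mul_eq_one_iff_eq_inv.mpr h
  have hc : x • b ∈ ofStabilizer G b := by
    rw [mem_ofStabilizer_iff]
    exact fun h => hx1 (hreg x hx h)
  have hd : x⁻¹ • b ∈ ofStabilizer G b := by
    rw [mem_ofStabilizer_iff]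
    exact fun h => hx1 (inv_eq_one.mp (hreg _ (M.inv_mem hx) h))
  let c : ofStabilizer G b := ⟨x • b, hc⟩
  let d : ofStabilizer G b := ⟨x⁻¹ • b, hd⟩
  have hcd : c ≠ d := fun h => hxx (hinj _ hx _ (M.inv_mem hx) (congrArg Subtype.val h))
  let B : Set (ofStabilizer G b) := {c, d}
  have hB : IsBlock (stabilizer G b) B := by
    rw [isBlock_iff_smul_eq_of_nonempty]
    rintro g ⟨z, hz1, hz2⟩
    obtain ⟨w, hw, rfl⟩ := Set.mem_smul_set.mp hz1
    -- set `y = g x g⁻¹`
    have hgb : (g : G) • b = b := g.2
    set y : G := (g : G) * x * (g : G)⁻¹ with hy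
    have hyM : y ∈ M := hMn.conj_mem x hx g
    have hgc : (g : G) • (x • b) = y • b := by
      rw [hy, mul_smul, mul_smul, smul_left_cancel_iff]
      congr 1
      rw [eq_comm, inv_smul_eq_iff, hgb]
    have hgd : (g : G) • (x⁻¹ • b) = y⁻¹ • b := by
      have : y⁻¹ = (g : G) * x⁻¹ * (g : G)⁻¹ := by rw [hy]; group
      rw [this, mul_smul, mul_smul, smul_left_cancel_iff]
      congr 1
      rw [eq_comm, inv_smul_eq_iff, hgb]
    have hyx : y = x ∨ y = x⁻¹ := by
      have hz3 : (((g • w : ofStabilizer G b)) : β) = (x • b) ∨
          (((g • w : ofStabilizer G b)) : β) = (x⁻¹ • b) := by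
        rcases hz2 with h | h
        · left; exact congrArg Subtype.val h
        · right; exact congrArg Subtype.val h
      have hw2 : ((g • w : ofStabilizer G b) : β) = (g : G) • (w : β) := rfl
      rcases hz1' : hz3 with h | h
      all_goals rw [hw2] at h
      all_goals
        rcases (show w = c ∨ w = d from hw) with rfl | rfl
      · left
        exact hinj _ hyM _ hx (by rw [← hgc]; exact h)
      · right
        have h1 : y⁻¹ = x := hinj _ (M.inv_mem hyM) _ hx (by rw [← hgd]; exact h)
        rw [← h1, inv_inv]
      · right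
        exact hinj _ hyM _ (M.inv_mem hx) (by rw [← hgc]; exact h)
      · left
        have h1 : y⁻¹ = x⁻¹ := hinj _ (M.inv_mem hyM) _ (M.inv_mem hx) (by rw [← hgd]; exact h)
        exact inv_injective h1
    have hgc' : g • c = (⟨y • b, by rw [← hgc]; exact (g • c).2⟩ : ofStabilizer G b) :=
      Subtype.ext hgc
    have hgd' : g • d = (⟨y⁻¹ • b, by rw [← hgd]; exact (g • d).2⟩ : ofStabilizer G b) :=
      Subtype.ext hgd
    ext t
    simp only [Set.mem_smul_set, B, Set.mem_insert_iff, Set.mem_singleton_iff]
    constructor
    · rintro ⟨v, rfl | rfl, rfl⟩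
      · rw [hgc']
        rcases hyx with h | h
        · left; exact Subtype.ext (by simp only [h]; rfl)
        · right; exact Subtype.ext (by simp only [h]; rfl)
      · rw [hgd']
        rcases hyx with h | h
        · right; exact Subtype.ext (by simp only [h]; rfl)
        · left; exact Subtype.ext (by simp only [h, inv_inv]; rfl)
    · rintro (rfl | rfl)
      · rcases hyx with h | h
        · exact ⟨c, Or.inl rfl, by rw [hgc']; exact Subtype.ext (by simp only [h]; rfl)⟩
        · exact ⟨d, Or.inr rfl, by rw [hgd']; exact Subtype.ext (by simp only [h, inv_inv]; rfl)⟩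
      · rcases hyx with h | h
        · exact ⟨d, Or.inr rfl, by rw [hgd']; exact Subtype.ext (by simp only [h]; rfl)⟩
        · exact ⟨c, Or.inl rfl, by rw [hgc']; exact Subtype.ext (by simp only [h]; rfl)⟩
  rcases hprim1.isTrivialBlock_of_isBlock hB with h | h
  · exact hcd (h (Set.mem_insert c {d}) (Set.mem_insert_of_mem c rfl))
  · apply hcard
    have h1 := nat_card_ofStabilizer_add_one_eq G b
    have h2 : Nat.card (ofStabilizer G b) = 2 := by
      rw [Nat.card_eq_two_iff]
      refine ⟨c, d, hcd, ?_⟩
      ext t
      have h3 : t ∈ B := by rw [h]; trivial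
      simpa [B] using h3
    omega

/-- The faithful-action form of the theorem. -/
theorem prim_aux (k : ℕ) (hk : 1 ≤ k) : ∀ (G : Type u) [Group G] (α : Type v) [MulAction G α]
    [FaithfulSMul G α] [Finite α] (H : Subgroup G) [H.Normal], H ≠ ⊥ → k ≤ Nat.card α →
    IsMultiplyPreprimitive G α k → ¬ Function.Surjective (MulAction.toPerm : G → Equiv.Perm α) →
    (∃ a : α, ∃ h ∈ H, h ≠ 1 ∧ h • a = a) → IsMultiplyPretransitive H α k := by
  induction k, hk using Nat.le_induction with
  | base =>
    intro G _ α _ _ _ H _ hH hcard hG hsurj hnr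
    have hprim : IsPreprimitive G α := (is_one_preprimitive_iff _ _).mp hG
    have h1 : IsPretransitive H α := by
      apply IsQuasiPreprimitive.isPretransitive_of_normal
      intro h
      apply hH
      rw [eq_bot_iff]
      intro n hn
      rw [Subgroup.mem_bot]
      apply eq_of_smul_eq_smul (α := α)
      intro a
      have h1 : a ∈ fixedPoints H α := by rw [h]; trivial
      have h3 := h1 ⟨n, hn⟩
      rw [one_smul]
      exact h3
    exact is_one_pretransitive_iff.mpr h1
  | succ k hk ih =>
    intro G _ α _ _ _ H _ hH hcard hG hsurj hnr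
    obtain ⟨a, h₀, hh₀, hh₀1, hh₀a⟩ := hnr
    have hGt : IsMultiplyPretransitive G α (k + 1) := hG.isMultiplyPretransitive
    have htrH : IsPretransitive H α := trans_of_normal (k := k + 1) (by omega) hcard hGt H hH
    have h2 := multi_of_le hGt (show 2 ≤ k + 1 by omega) hcard
    haveI htrG : IsPretransitive G α := isPretransitive_of_is_two_pretransitive (h2 := h2)
    haveI := hG
    have hGa : IsMultiplyPreprimitive (stabilizer G a) (ofStabilizer G a) k :=
      isMultiplyPreprimitive_ofStabilizer (M := G) (α := α) (n := k) (a := a)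
    have hGat : IsMultiplyPretransitive (stabilizer G a) (ofStabilizer G a) k :=
      hGa.isMultiplyPretransitive
    haveI hfaith : FaithfulSMul (stabilizer G a) (ofStabilizer G a) := by
      constructor
      intro g g' h
      apply Subtype.ext
      apply eq_of_smul_eq_smul (α := α)
      intro c
      by_cases hc : c = a
      · rw [hc]
        exact (g.2).trans (g'.2).symm
      · have h1 := h ⟨c, (mem_ofStabilizer_iff G a).mpr hc⟩
        exact congrArg Subtype.val h1
    have hcardβ : k + 1 = Nat.card (ofStabilizer G a) + 1 ∨ k + 1 < Nat.card (ofStabilizer G a) + 1 := by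
      have := nat_card_ofStabilizer_add_one_eq G a
      omega
    have hsurjβ : ¬ Function.Surjective
        (MulAction.toPerm : stabilizer G a → Equiv.Perm (ofStabilizer G a)) :=
      fun h => hsurj (surj_lift a h)
    have hkβ : k < Nat.card (ofStabilizer G a) := by
      rcases hcardβ with h | h
      · exact absurd (surj_of_full hGat (by omega)) hsurjβ
      · omega
    let M : Subgroup (stabilizer G a) := H.subgroupOf (stabilizer G a)
    have hM : M ≠ ⊥ := by
      intro h
      have h1 : (⟨h₀, hh₀a⟩ : stabilizer G a) ∈ M := Subgroup.mem_subgroupOf.mpr hh₀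
      rw [h, Subgroup.mem_bot] at h1
      exact hh₀1 (congrArg Subtype.val h1)
    have hprim1 : IsMultiplyPreprimitive (stabilizer G a) (ofStabilizer G a) 1 :=
      isMultiplyPreprimitive_of_le _ _ hGa hk (by
        rw [ENat.card_eq_coe_natCard]
        exact_mod_cast hkβ.le)
    have hMtr : IsPretransitive M (ofStabilizer G a) := by
      have hprim : IsPreprimitive (stabilizer G a) (ofStabilizer G a) :=
        (is_one_preprimitive_iff _ _).mp hprim1
      apply IsQuasiPreprimitive.isPretransitive_of_normal
      intro h
      apply hM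
      rw [eq_bot_iff]
      intro n hn
      rw [Subgroup.mem_bot]
      apply eq_of_smul_eq_smul (α := ofStabilizer G a)
      intro c
      have h1 : c ∈ fixedPoints M (ofStabilizer G a) := by rw [h]; trivial
      have h3 := h1 ⟨n, hn⟩
      rw [one_smul]
      exact h3
    by_cases hnr : ∃ b : ofStabilizer G a, ∃ h ∈ M, h ≠ 1 ∧ h • b = b
    · have h3 := ih (stabilizer G a) (ofStabilizer G a) M hM hkβ.le hGa hsurjβ hnr
      exact lift_multi H a htrH k h3
    · push Not at hnr
      obtain ⟨b⟩ : Nonempty (ofStabilizer G a) := by
        by_contra hc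
        rw [not_nonempty_iff] at hc
        have : Nat.card (ofStabilizer G a) = 0 := Nat.card_of_isEmpty
        omega
      have hreg : ∀ m ∈ M, m • b = b → m = 1 := by
        intro m hm hmb
        by_contra hc
        exact hnr b m hm hc hmb
      rcases Nat.lt_or_ge k 2 with hk2 | hk2
      · have hk1 : k = 1 := by omega
        subst hk1
        apply lift_multi H a htrH 1
        exact is_one_pretransitive_iff.mpr hMtr
      · exfalso
        have hexc : (∀ n ∈ M, n ^ 2 = 1) ∧ IsMulCommutative M ∧ 4 ≤ Nat.card (ofStabilizer G a) := by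
          rcases Nat.lt_or_ge k 3 with hk3 | hk3
          · have hk2' : k = 2 := by omega
            subst hk2'
            rcases two_prim_regular hGa M b hreg with h | h
            · have hsq' : ∀ x ∈ M, ∀ y ∈ M, x * y = y * x := by
                intro x hx y hy
                have hsq'' : ∀ n ∈ M, n * n = 1 := fun n hn => by rw [← sq]; exact h n hn
                have h5 := hsq'' y hy
                have h4 := hsq'' x hx
                calc x * y = x * y * (y * x * (y * x)) := by rw [hsq'' _ (M.mul_mem hy hx), mul_one]
                  _ = x * (y * y) * x * (y * x) := by group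
                  _ = y * x := by rw [h5, mul_one, h4, one_mul]
              refine ⟨h, ⟨⟨fun a b => Subtype.ext (hsq' a a.2 b b.2)⟩⟩, ?_⟩
              by_contra hc
              have hc3 : Nat.card (ofStabilizer G a) = 3 := by omega
              -- a nontrivial element of order two cannot exist in a group of order three
              obtain ⟨x, hxM, hx1⟩ := M.bot_or_exists_ne_one.resolve_left hM
              have hcardM : Nat.card M = Nat.card (ofStabilizer G a) := by
                apply Nat.card_congr
                refine Equiv.ofBijective (fun m : M => (m : stabilizer G a) • b) ⟨?_, ?_⟩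
                · intro x y hxy
                  have h1 : (y : stabilizer G a)⁻¹ * x = 1 :=
                    hreg _ (M.mul_mem (M.inv_mem y.2) x.2) (by
                      rw [mul_smul, inv_smul_eq_iff]
                      exact hxy)
                  exact Subtype.ext (inv_mul_eq_one.mp h1).symm
                · intro c
                  obtain ⟨m, hm⟩ := hMtr.exists_smul_eq b c
                  exact ⟨m, hm⟩
              have h6 : orderOf (⟨x, hxM⟩ : M) ∣ Nat.card M := orderOf_dvd_natCard _
              have h7 : orderOf (⟨x, hxM⟩ : M) = 2 := by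
                apply orderOf_eq_prime
                · exact Subtype.ext (h x hxM)
                · intro hh
                  exact hx1 (congrArg Subtype.val hh)
              rw [h7, hcardM, hc3] at h6
              omega
            · exact absurd (surj_of_two_three hGat h) hsurjβ
          · obtain ⟨h3, h4, h5⟩ := regular_case hk3 hkβ hGat M hM b hreg
            exact ⟨h5, h4, by omega⟩
        obtain ⟨h5, h6, h7⟩ := hexc
        have := nat_card_ofStabilizer_add_one_eq G a
        exact exceptional H a htrH (by omega) hMtr h6 h5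

end Cfsg.Agent.Lib.H1JordanP
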