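import Mathlib
import Cfsg.Agent.Lib.SLGen

set_option autoImplicit false

/-! Generation of `SL_n` by regular unipotent elements. -/

namespace Cfsg.Agent.Lib.H1RegGen

open Matrix

section Q

variable {ι : Type*} [Fintype ι] [DecidableEq ι] {F : Type*} [Field F]

/-- `1 + x ψ` lies in `H`. -/
def Q (H : Subgroup (SpecialLinearGroup ι F)) (x ψ : ι → F) : Prop :=
  ∃ g ∈ H, (g : Matrix ι ι F) = 1 + vecMulVec x ψ

variable {H : Subgroup (SpecialLinearGroup ι F)}

theorem cm (g h : SpecialLinearGroup ι F) :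
    ((g * h : SpecialLinearGroup ι F) : Matrix ι ι F) = (g : Matrix ι ι F) * (h : Matrix ι ι F) := rfl

theorem c1 : ((1 : SpecialLinearGroup ι F) : Matrix ι ι F) = 1 := rfl

theorem coe_inv_mul (g : SpecialLinearGroup ι F) :
    ((g⁻¹ : SpecialLinearGroup ι F) : Matrix ι ι F) * (g : Matrix ι ι F) = 1 := by
  rw [← cm, inv_mul_cancel, c1]

theorem coe_mul_inv (g : SpecialLinearGroup ι F) :
    (g : Matrix ι ι F) * ((g⁻¹ : SpecialLinearGroup ι F) : Matrix ι ι F) = 1 := by
  rw [← cm, mul_inv_cancel, c1]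

/-- Identify a product by cancellation. -/
theorem coe_eq_of_mul {g k : SpecialLinearGroup ι F} {A : Matrix ι ι F}
    (h : (g : Matrix ι ι F) * (k : Matrix ι ι F) = A * (k : Matrix ι ι F)) :
    (g : Matrix ι ι F) = A := by
  calc (g : Matrix ι ι F) = (g : Matrix ι ι F) * ((k : Matrix ι ι F) *
        ((k⁻¹ : SpecialLinearGroup ι F) : Matrix ι ι F)) := by rw [coe_mul_inv, mul_one]
    _ = A * ((k : Matrix ι ι F) * ((k⁻¹ : SpecialLinearGroup ι F) : Matrix ι ι F)) := by
        rw [← mul_assoc, h, mul_assoc]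
    _ = A := by rw [coe_mul_inv, mul_one]

theorem Q_zero (ψ : ι → F) : Q H 0 ψ := by
  refine ⟨1, H.one_mem, ?_⟩
  rw [c1]
  ext i j
  simp [vecMulVec_apply]

theorem Q_congr {x x' ψ ψ' : ι → F} (h : Q H x ψ) (e : vecMulVec x ψ = vecMulVec x' ψ') :
    Q H x' ψ' := by
  obtain ⟨g, hg, hc⟩ := h
  exact ⟨g, hg, by rw [hc, e]⟩

theorem Q_smul_move {x ψ : ι → F} (c : F) (h : Q H (c • x) ψ) : Q H x (c • ψ) := by
  refine Q_congr h ?_
  ext i j
  simp [vecMulVec_apply]
  ring

theorem Q_smul_move' {x ψ : ι → F} (c : F) (h : Q H x (c • ψ)) : Q H (c • x) ψ := by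
  refine Q_congr h ?_
  ext i j
  simp [vecMulVec_apply]
  ring

/-- Conjugation. -/
theorem Q_conj {g : SpecialLinearGroup ι F} (hg : g ∈ H) {x ψ : ι → F} (h : Q H x ψ) :
    Q H ((g : Matrix ι ι F) *ᵥ x) (ψ ᵥ* ((g⁻¹ : SpecialLinearGroup ι F) : Matrix ι ι F)) := by
  obtain ⟨f, hf, hc⟩ := h
  refine ⟨g * f * g⁻¹, H.mul_mem (H.mul_mem hg hf) (H.inv_mem hg), ?_⟩
  rw [cm, cm, hc, mul_add, add_mul, mul_one,
    coe_mul_inv, mul_vecMulVec, vecMulVec_mul]

/-- Conjugation by the inverse. -/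
theorem Q_conj_inv {g : SpecialLinearGroup ι F} (hg : g ∈ H) {x ψ : ι → F} (h : Q H x ψ) :
    Q H (((g⁻¹ : SpecialLinearGroup ι F) : Matrix ι ι F) *ᵥ x) (ψ ᵥ* (g : Matrix ι ι F)) := by
  have := Q_conj (H.inv_mem hg) h
  rwa [inv_inv] at this

theorem vv_zero {x ψ : ι → F} (y : ι → F) (h : ψ ⬝ᵥ y = 0) :
    vecMulVec x ψ * vecMulVec y ψ = (0 : Matrix ι ι F) := by
  rw [vecMulVec_mul_vecMulVec, h]
  ext i j
  simp [vecMulVec_apply]

/-- Addition in the vector. -/
theorem Q_add_left {x x' ψ : ι → F} (h : Q H x ψ) (h' : Q H x' ψ) (hd : ψ ⬝ᵥ x' = 0) :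
    Q H (x + x') ψ := by
  obtain ⟨f, hf, hc⟩ := h
  obtain ⟨f', hf', hc'⟩ := h'
  refine ⟨f * f', H.mul_mem hf hf', ?_⟩
  rw [cm, hc, hc', add_mul, mul_add, mul_add, one_mul, one_mul, mul_one,
    vv_zero x' hd, add_zero, add_vecMulVec, add_assoc]
  abel

theorem inv_coe_of_tv {f : SpecialLinearGroup ι F} {x ψ : ι → F}
    (hc : (f : Matrix ι ι F) = 1 + vecMulVec x ψ) (hd : ψ ⬝ᵥ x = 0) :
    ((f⁻¹ : SpecialLinearGroup ι F) : Matrix ι ι F) = 1 + vecMulVec (-x) ψ := by
  have h1 : (f : Matrix ι ι F) * (1 + vecMulVec (-x) ψ) = 1 := by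
    rw [hc, add_mul, mul_add, mul_add, one_mul, one_mul, mul_one]
    have e : vecMulVec (-x) ψ = - vecMulVec x ψ := by
      ext i j
      simp [vecMulVec_apply]
    have e2 : vecMulVec x ψ * vecMulVec (-x) ψ = 0 := vv_zero _ (by rw [dotProduct_neg, hd, neg_zero])
    rw [e2, e]
    abel
  calc ((f⁻¹ : SpecialLinearGroup ι F) : Matrix ι ι F)
      = ((f⁻¹ : SpecialLinearGroup ι F) : Matrix ι ι F) * ((f : Matrix ι ι F) * (1 + vecMulVec (-x) ψ)) := by
        rw [h1, mul_one]
    _ = _ := by rw [← mul_assoc, coe_inv_mul, one_mul]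

/-- The inverse. -/
theorem Q_neg {x ψ : ι → F} (h : Q H x ψ) (hd : ψ ⬝ᵥ x = 0) : Q H (-x) ψ := by
  obtain ⟨f, hf, hc⟩ := h
  exact ⟨f⁻¹, H.inv_mem hf, inv_coe_of_tv hc hd⟩

theorem Q_sub {x x' ψ : ι → F} (h : Q H x ψ) (h' : Q H x' ψ) (hd : ψ ⬝ᵥ x' = 0) :
    Q H (x - x') ψ := by
  rw [sub_eq_add_neg]
  exact Q_add_left h (Q_neg h' hd) (by rw [dotProduct_neg, hd, neg_zero])

/-- Addition in the form. -/
theorem Q_add_right {x ψ ψ' : ι → F} (h : Q H x ψ) (h' : Q H x ψ') (hd : ψ ⬝ᵥ x = 0) :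
    Q H x (ψ + ψ') := by
  obtain ⟨f, hf, hc⟩ := h
  obtain ⟨f', hf', hc'⟩ := h'
  refine ⟨f * f', H.mul_mem hf hf', ?_⟩
  have e : vecMulVec x ψ * vecMulVec x ψ' = (0 : Matrix ι ι F) := by
    rw [vecMulVec_mul_vecMulVec, hd]
    ext i j
    simp [vecMulVec_apply]
  rw [cm, hc, hc', add_mul, mul_add, mul_add, one_mul, one_mul, mul_one, e,
    add_zero, vecMulVec_add, add_assoc]
  abel

/-- The commutator. -/
theorem Q_comm {x φ w ε : ι → F} (h : Q H x φ) (h' : Q H w ε) (h1 : φ ⬝ᵥ x = 0) (h2 : ε ⬝ᵥ w = 0)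
    (h3 : ε ⬝ᵥ x = 0) : Q H ((φ ⬝ᵥ w) • x) ε := by
  obtain ⟨f, hf, hc⟩ := h
  obtain ⟨f', hf', hc'⟩ := h'
  refine ⟨f * f' * f⁻¹ * f'⁻¹, H.mul_mem (H.mul_mem (H.mul_mem hf hf') (H.inv_mem hf))
    (H.inv_mem hf'), ?_⟩
  apply coe_eq_of_mul (k := f' * f)
  have e : (f * f' * f⁻¹ * f'⁻¹) * (f' * f) = f * f' := by group
  rw [← cm, e, cm, cm, hc, hc']
  have z1 : vecMulVec w ε * vecMulVec x φ = (0 : Matrix ι ι F) := by
    rw [vecMulVec_mul_vecMulVec, h3]
    ext i j
    simp [vecMulVec_apply]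
  have z2 : vecMulVec x ε * vecMulVec x φ = (0 : Matrix ι ι F) := by
    rw [vecMulVec_mul_vecMulVec, h3]
    ext i j
    simp [vecMulVec_apply]
  have z3 : vecMulVec x ε * vecMulVec w ε = (0 : Matrix ι ι F) := by
    rw [vecMulVec_mul_vecMulVec, h2]
    ext i j
    simp [vecMulVec_apply]
  have e1 : vecMulVec x φ * vecMulVec w ε = vecMulVec ((φ ⬝ᵥ w) • x) ε := by
    rw [vecMulVec_mul_vecMulVec]
    ext i j
    simp [vecMulVec_apply]
    ring
  have e2 : vecMulVec ((φ ⬝ᵥ w) • x) ε * vecMulVec w ε = 0 := by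
    rw [vecMulVec_mul_vecMulVec, h2]
    ext i j
    simp [vecMulVec_apply]
  have e3 : vecMulVec ((φ ⬝ᵥ w) • x) ε * vecMulVec x φ = 0 := by
    rw [vecMulVec_mul_vecMulVec, h3]
    ext i j
    simp [vecMulVec_apply]
  simp only [add_mul, mul_add, mul_one, one_mul, e1, e2, e3, z1, add_zero, zero_add]
  abel

/-- Generation. -/
theorem eq_top_of_all (hall : ∀ i j : ι, i ≠ j → ∀ t : F, Q H (t • Pi.single i 1) (Pi.single j 1)) :
    H = ⊤ := by
  rw [eq_top_iff]
  intro A _
  refine Cfsg.Agent.Lib.SLGen.sl_induction (fun A => A ∈ H) ?_ (fun A B hA hB => H.mul_mem hA hB) H.one_mem A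
  intro i j hij c
  obtain ⟨g, hg, hc⟩ := hall i j hij c
  have : SpecialLinearGroup.transvection hij c = g := by
    apply Subtype.ext
    rw [hc]
    show Matrix.transvection i j c = _
    unfold Matrix.transvection
    congr 1
    ext k l
    simp only [Matrix.single_apply, vecMulVec_apply, Pi.smul_apply, Pi.single_apply, smul_eq_mul]
    by_cases hk : k = i <;> by_cases hl : l = j <;> simp [hk, hl]
    all_goals (first | tauto | skip)
  rw [this]
  exact hg

/-- A column gives all vectors. -/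
theorem Q_column {l : ι} (h : ∀ m, m ≠ l → ∀ t : F, Q H (t • Pi.single m 1) (Pi.single l 1))
    (y : ι → F) (hy : y l = 0) : Q H y (Pi.single l 1) := by
  have key : ∀ s : Finset ι, Q H (∑ m ∈ s, y m • (Pi.single m 1 : ι → F)) (Pi.single l 1) := by
    intro s
    induction s using Finset.induction_on with
    | empty =>
      rw [Finset.sum_empty]
      exact Q_zero _
    | insert a s ha ih =>
      rw [Finset.sum_insert ha, add_comm]
      by_cases hal : a = l
      · subst hal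
        rw [hy, zero_smul, add_zero]
        exact ih
      · refine Q_add_left ih (h a hal _) ?_
        simp [dotProduct, Pi.single_apply, hal, Ne.symm hal]
  have e : ∑ m ∈ Finset.univ, y m • (Pi.single m 1 : ι → F) = y := by
    ext k
    simp [Finset.sum_apply, Pi.single_apply]
  have := key Finset.univ
  rwa [e] at this

end Q

section Core

variable {n : ℕ} {F : Type*} [Field F]

/-- The standard basis vector, with natural index. -/
def E (k : ℕ) : Fin n → F := fun i => if (i : ℕ) = k then 1 else 0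

theorem E_eq {k : ℕ} (hk : k < n) : (E k : Fin n → F) = Pi.single ⟨k, hk⟩ 1 := by
  ext i
  simp only [E, Pi.single_apply, Fin.ext_iff]

theorem E_of_le {k : ℕ} (hk : n ≤ k) : (E k : Fin n → F) = 0 := by
  ext i
  have := i.2
  simp only [E, Pi.zero_apply]
  rw [if_neg (by omega)]

theorem dot_E {k : ℕ} (hk : k < n) (x : Fin n → F) : (E k : Fin n → F) ⬝ᵥ x = x ⟨k, hk⟩ := by
  rw [E_eq hk, single_one_dotProduct]

theorem dot_E' {k : ℕ} (hk : k < n) (x : Fin n → F) : x ⬝ᵥ (E k : Fin n → F) = x ⟨k, hk⟩ := by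
  rw [E_eq hk, dotProduct_single_one]

theorem E_apply (k : ℕ) (i : Fin n) : (E k : Fin n → F) i = if (i : ℕ) = k then 1 else 0 := rfl

theorem dot_EE {k l : ℕ} (hk : k < n) (hne : k ≠ l) : (E k : Fin n → F) ⬝ᵥ (E l : Fin n → F) = 0 := by
  rw [dot_E hk, E_apply]
  simp [hne]

theorem dot_EE_self {k : ℕ} (hk : k < n) : (E k : Fin n → F) ⬝ᵥ (E k : Fin n → F) = 1 := by
  rw [dot_E hk, E_apply]
  simp

/-- The action data for the core argument. -/
structure Core (H : Subgroup (SpecialLinearGroup (Fin n) F)) (u v : SpecialLinearGroup (Fin n) F)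
    (a₀ c γ : F) (b : ℕ → F) : Prop where
  hn : 3 ≤ n
  hu : u ∈ H
  hv : v ∈ H
  u0 : (u : Matrix (Fin n) (Fin n) F) *ᵥ E 0 = E 0
  u1 : (u : Matrix (Fin n) (Fin n) F) *ᵥ E 1 = E 1 + a₀ • E 0
  uL : (E (n - 1) : Fin n → F) ᵥ* (u : Matrix (Fin n) (Fin n) F) = E (n - 1)
  v1 : ∀ k, (v : Matrix (Fin n) (Fin n) F) *ᵥ E k = E k + b k • E (k + 1)
  v2 : ∀ k, k + 1 < n → (E (k + 1) : Fin n → F) ᵥ* (v : Matrix (Fin n) (Fin n) F) = E (k + 1) + b k • E k
  hb : ∀ k, k + 1 < n → b k ≠ 0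
  hc : c ≠ 0
  hγ : ((E (n - 1) : Fin n → F) ᵥ* ((v⁻¹ : SpecialLinearGroup (Fin n) F) : Matrix (Fin n) (Fin n) F)) ⬝ᵥ E 0 = γ
  hγ0 : γ ≠ 0
  hT : Q H (c • E 0) (E (n - 1))
  hκ : ∀ t : F, t = 0 ∨ ∃ k : ℕ, t = c * (c * γ * b 0 * a₀) ^ k ∨ t = - (c * (c * γ * b 0 * a₀) ^ k)

namespace Core

variable {H : Subgroup (SpecialLinearGroup (Fin n) F)} {u v : SpecialLinearGroup (Fin n) F}
  {a₀ c γ : F} {b : ℕ → F} (D : Core H u v a₀ c γ b)
include D

theorem hL : n - 1 < n := by have := D.hn; omega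

theorem smul_E_dot {k : ℕ} (hk : k ≠ n - 1) (t : F) :
    (E (n - 1) : Fin n → F) ⬝ᵥ (t • E k) = 0 := by
  rw [dotProduct_smul, dot_EE D.hL (Ne.symm hk), smul_zero]

/-- The basic step. -/
theorem step {y : Fin n → F} (hy : Q H y (E (n - 1))) (hyL : (E (n - 1) : Fin n → F) ⬝ᵥ y = 0)
    (hvy : (E (n - 1) : Fin n → F) ⬝ᵥ ((v : Matrix (Fin n) (Fin n) F) *ᵥ y) = 0) :
    Q H ((c * γ) • ((v : Matrix (Fin n) (Fin n) F) *ᵥ y)) (E (n - 1)) := by
  have h1 := Q_conj D.hv hy
  have h2 := Q_comm h1 D.hT ?_ (D.smul_E_dot (k := 0) (by have := D.hn; omega) c) hvy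
  · have e : ((E (n - 1) : Fin n → F) ᵥ* ((v⁻¹ : SpecialLinearGroup (Fin n) F) : Matrix (Fin n) (Fin n) F)) ⬝ᵥ (c • E 0) = c * γ := by
      rw [dotProduct_smul, D.hγ, smul_eq_mul]
    rwa [e] at h2
  · rw [← Matrix.dotProduct_mulVec, Matrix.mulVec_mulVec, ← cm, inv_mul_cancel, c1, one_mulVec]
    exact hyL

/-- The closure under `κ`. -/
theorem kappa_step {t : F} (h : Q H (t • E 0) (E (n - 1))) :
    Q H ((t * (c * γ * b 0 * a₀)) • E 0) (E (n - 1)) := by
  have hn := D.hn
  have h0 : (v : Matrix (Fin n) (Fin n) F) *ᵥ (t • E 0) = t • (E 0 + b 0 • E 1) := by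
    rw [mulVec_smul, D.v1]
  have h1 := D.step h (D.smul_E_dot (by omega) t) (by
    rw [h0, dotProduct_smul, dotProduct_add, dotProduct_smul, dot_EE D.hL (by omega),
      dot_EE D.hL (by omega)]
    simp)
  rw [h0] at h1
  have h2 := Q_conj D.hu h1
  have hinv : (E (n - 1) : Fin n → F) ᵥ* ((u⁻¹ : SpecialLinearGroup (Fin n) F) : Matrix (Fin n) (Fin n) F) = E (n - 1) := by
    calc (E (n - 1) : Fin n → F) ᵥ* ((u⁻¹ : SpecialLinearGroup (Fin n) F) : Matrix (Fin n) (Fin n) F)
        = ((E (n - 1) : Fin n → F) ᵥ* (u : Matrix (Fin n) (Fin n) F)) ᵥ* ((u⁻¹ : SpecialLinearGroup (Fin n) F) : Matrix (Fin n) (Fin n) F) := by rw [D.uL]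
      _ = E (n - 1) := by rw [Matrix.vecMul_vecMul, ← cm, mul_inv_cancel, c1, Matrix.vecMul_one]
  rw [hinv] at h2
  have h3 : (u : Matrix (Fin n) (Fin n) F) *ᵥ ((c * γ) • t • (E 0 + b 0 • E 1)) =
      (c * γ) • t • (E 0 + b 0 • E 1) + (t * (c * γ * b 0 * a₀)) • E 0 := by
    rw [mulVec_smul, mulVec_smul, mulVec_add, mulVec_smul, D.u0, D.u1]
    module
  rw [h3] at h2
  have h4 := Q_sub h2 h1 (by
    rw [dotProduct_smul, dotProduct_smul, dotProduct_add, dotProduct_smul, dot_EE D.hL (by omega),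
      dot_EE D.hL (by omega)]
    simp)
  have e : (c * γ) • t • (E 0 + b 0 • E 1) + (t * (c * γ * b 0 * a₀)) • E 0 - (c * γ) • t • (E 0 + b 0 • E 1) =
      (t * (c * γ * b 0 * a₀)) • (E 0 : Fin n → F) := by abel
  rwa [e] at h4

theorem col0 (t : F) : Q H (t • E 0) (E (n - 1)) := by
  have hn := D.hn
  have hpow : ∀ k : ℕ, Q H ((c * (c * γ * b 0 * a₀) ^ k) • E 0) (E (n - 1)) := by
    intro k
    induction k with
    | zero => simpa using D.hT
    | succ k ih =>
      have := D.kappa_step ih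
      rwa [mul_assoc, ← pow_succ] at this
  rcases D.hκ t with rfl | ⟨k, rfl | rfl⟩
  · rw [zero_smul]
    exact Q_zero _
  · exact hpow k
  · have := Q_neg (hpow k) (D.smul_E_dot (by omega) _)
    rwa [← neg_smul] at this

/-- The last column. -/
theorem colL : ∀ k, k + 1 ≤ n - 1 → ∀ t : F, Q H (t • E k) (E (n - 1)) := by
  have hn := D.hn
  intro k
  induction k with
  | zero => intro _; exact D.col0
  | succ k ih =>
    intro hk t
    have hb := D.hb k (by omega)
    have hcγ : c * γ ≠ 0 := mul_ne_zero D.hc D.hγ0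
    set s := t / (c * γ * b k) with hs
    have h0 : (v : Matrix (Fin n) (Fin n) F) *ᵥ (s • E k) = s • (E k + b k • E (k + 1)) := by
      rw [mulVec_smul, D.v1]
    have hdot : (E (n - 1) : Fin n → F) ⬝ᵥ (s • (E k + b k • E (k + 1))) = 0 := by
      rw [dotProduct_smul, dotProduct_add, dotProduct_smul, dot_EE D.hL (by omega),
        dot_EE D.hL (by omega)]
      simp
    have h1 := D.step (ih (by omega) s) (D.smul_E_dot (by omega) s) (by rw [h0]; exact hdot)
    rw [h0] at h1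
    have h2 := ih (by omega) ((c * γ) * s)
    have h3 := Q_sub h1 h2 (D.smul_E_dot (by omega) _)
    have e : (c * γ) • s • (E k + b k • E (k + 1)) - ((c * γ) * s) • E k = t • (E (k + 1) : Fin n → F) := by
      have e1 : (c * γ) * s * b k = t := by
        have hc0 := D.hc
        have hγ0 := D.hγ0
        rw [hs]
        field_simp
      calc (c * γ) • s • (E k + b k • E (k + 1)) - ((c * γ) * s) • E k
          = ((c * γ) * s * b k) • (E (k + 1) : Fin n → F) := by module
        _ = _ := by rw [e1]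
    rwa [e] at h3

/-- Descent on the columns. -/
theorem col_desc {j : ℕ} (hj : j + 1 < n)
    (hC : ∀ m, m < n → m ≠ j + 1 → ∀ t : F, Q H (t • E m) (E (j + 1))) :
    ∀ m, m < n → m ≠ j → ∀ t : F, Q H (t • E m) (E j) := by
  have hb := D.hb j hj
  -- all forms `E (j+1) + b j • E j`
  have hψ : ∀ x : Fin n → F, (E (j + 1) + b j • E j : Fin n → F) ⬝ᵥ x = 0 →
      Q H x (E (j + 1) + b j • E j) := by
    intro x hx
    have hy : Q H ((v : Matrix (Fin n) (Fin n) F) *ᵥ x) (E (j + 1)) := by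
      have hcol := Q_column (H := H) (l := ⟨j + 1, hj⟩) (fun m hm t => by
        have := hC m.1 m.2 (fun h => hm (Fin.ext h)) t
        rwa [E_eq m.2, E_eq hj] at this) ((v : Matrix (Fin n) (Fin n) F) *ᵥ x) (by
          have := dot_E (F := F) hj ((v : Matrix (Fin n) (Fin n) F) *ᵥ x)
          rw [← this, Matrix.dotProduct_mulVec, D.v2 j hj]
          exact hx)
      rwa [← E_eq hj] at hcol
    have h1 := Q_conj_inv D.hv hy
    rwa [Matrix.mulVec_mulVec, ← cm, inv_mul_cancel, c1, one_mulVec, D.v2 j hj] at h1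
  intro m hm hne t
  by_cases hmj : m = j + 1
  · -- the adjacent entry
    subst hmj
    set r := t / (b j * b j) with hr
    have hj' : j < n := by omega
    have hb2 : b j * b j ≠ 0 := mul_ne_zero hb hb
    have hx := hψ (r • (b j • E (j + 1) - E j)) (by
      rw [dotProduct_smul, dotProduct_sub, dotProduct_smul, add_dotProduct, add_dotProduct,
        smul_dotProduct, smul_dotProduct, dot_EE_self hj, dot_EE hj (by omega), dot_EE hj' (by omega),
        dot_EE_self hj']
      simp)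
    obtain ⟨g₀, hg₀, hcg⟩ := hC j hj' (by omega) (b j)⁻¹
    have h1 := Q_conj hg₀ hx
    have h2 : (g₀ : Matrix (Fin n) (Fin n) F) *ᵥ (r • (b j • E (j + 1) - E j)) =
        (r * b j) • E (j + 1) := by
      rw [hcg, mulVec_smul, add_mulVec, one_mulVec, vecMulVec_mulVec, dotProduct_sub, dotProduct_smul,
        dot_EE_self hj, dot_EE hj (by omega)]
      ext i
      simp only [Pi.add_apply, Pi.sub_apply, Pi.smul_apply, smul_eq_mul, MulOpposite.smul_eq_mul_unop,
        MulOpposite.unop_op, sub_zero, mul_one]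
      field_simp
      ring
    have h3 : (E (j + 1) + b j • E j : Fin n → F) ᵥ* ((g₀⁻¹ : SpecialLinearGroup (Fin n) F) : Matrix (Fin n) (Fin n) F)
        = b j • E j := by
      have hinv := inv_coe_of_tv hcg (by
        rw [dotProduct_smul, dot_EE hj (by omega), smul_zero])
      rw [hinv, vecMul_add, vecMul_one, vecMul_vecMulVec, dotProduct_neg, dotProduct_smul, add_dotProduct,
        smul_dotProduct, dot_EE hj (by omega), dot_EE_self hj']
      have e3 : (b j)⁻¹ • ((0 : F) + b j • (1 : F)) = 1 := by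
        simp only [zero_add, smul_eq_mul, mul_one]
        exact inv_mul_cancel₀ hb
      rw [e3]
      ext i
      simp only [Pi.add_apply, Pi.smul_apply, smul_eq_mul]
      ring
    rw [h2, h3] at h1
    have h4 := Q_smul_move' (b j) h1
    have e : b j • (r * b j) • (E (j + 1) : Fin n → F) = t • E (j + 1) := by
      rw [smul_smul]
      congr 1
      rw [hr]
      field_simp
    rwa [e] at h4
  · -- the general entry
    set r := t / b j with hr
    have hx := hψ (r • E m) (by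
      rw [dotProduct_smul, add_dotProduct, smul_dotProduct, dot_EE hj (by omega), dot_EE (by omega) (by omega)]
      simp)
    have h1 := hC m hm hmj r
    have h2 := Q_add_right hx (Q_congr (Q_neg h1 (by
      rw [dotProduct_smul, dot_EE hj (by omega), smul_zero])) (x' := r • E m) (ψ' := - E (j + 1)) (by
        ext a b
        simp [vecMulVec_apply])) (by
      rw [dotProduct_smul, add_dotProduct, smul_dotProduct, dot_EE hj (by omega), dot_EE (by omega) (by omega)]
      simp)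
    have e : (E (j + 1) + b j • E j : Fin n → F) + - E (j + 1) = b j • E j := by abel
    rw [e] at h2
    have h3 := Q_smul_move' (b j) h2
    have e2 : b j • r • (E m : Fin n → F) = t • E m := by
      rw [smul_smul, hr]
      congr 1
      field_simp
    rwa [e2] at h3

/-- The conclusion of the core argument. -/
theorem eq_top : H = ⊤ := by
  have hn := D.hn
  have key : ∀ d, d ≤ n - 1 → ∀ m, m < n → m ≠ n - 1 - d → ∀ t : F, Q H (t • E m) (E (n - 1 - d)) := by
    intro d
    induction d with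
    | zero =>
      intro _ m hm hne t
      exact D.colL m (by omega) t
    | succ d ih =>
      intro hd
      have e : n - 1 - d = (n - 1 - (d + 1)) + 1 := by omega
      have h1 := ih (by omega)
      rw [e] at h1
      exact D.col_desc (by omega) h1
  apply eq_top_of_all
  intro i j hij t
  have hj : (j : ℕ) = n - 1 - (n - 1 - (j : ℕ)) := by have := j.2; omega
  have h1 := key (n - 1 - (j : ℕ)) (by omega) i i.2 (by
    rw [← hj]
    exact fun h => hij (Fin.ext h)) t
  rw [← hj, E_eq i.2, E_eq j.2] at h1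
  exact h1

end Core

/-- A transvection in matrix form. -/
theorem transvection_coe {ι : Type*} [Fintype ι] [DecidableEq ι] {i j : ι} (hij : i ≠ j) (t : F) :
    ((SpecialLinearGroup.transvection hij t : SpecialLinearGroup ι F) : Matrix ι ι F) =
      1 + vecMulVec (t • Pi.single i 1) (Pi.single j 1) := by
  show Matrix.transvection i j t = _
  unfold Matrix.transvection
  congr 1
  ext k l
  simp only [Matrix.single_apply, vecMulVec_apply, Pi.smul_apply, Pi.single_apply, smul_eq_mul]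
  by_cases hk : k = i <;> by_cases hl : l = j <;> simp [hk, hl]
  all_goals (first | tauto | skip)

/-- The Jordan block. -/
def uM (n : ℕ) (F : Type*) [Field F] : Matrix (Fin n) (Fin n) F :=
  fun i j => if (i : ℕ) = j then 1 else if (j : ℕ) = i + 1 then 1 else 0

/-- The opposite block, with a sign. -/
def vM (n : ℕ) (δ : F) : Matrix (Fin n) (Fin n) F :=
  fun i j => if (i : ℕ) = j then 1 else if (i : ℕ) = j + 1 then (if (j : ℕ) = 0 then δ else 1) else 0

theorem uM_det : (uM n F).det = 1 := by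
  rw [Matrix.det_of_upperTriangular]
  · simp [uM]
  · intro i j hij
    have h : (j : ℕ) < i := hij
    simp only [uM]
    rw [if_neg (by omega), if_neg (by omega)]

theorem vM_det (δ : F) : (vM n δ).det = 1 := by
  rw [Matrix.det_of_lowerTriangular]
  · simp [vM]
  · intro i j hij
    have h : (i : ℕ) < j := hij
    simp only [vM]
    rw [if_neg (by omega), if_neg (by omega)]

theorem mulVec_E {k : ℕ} (hk : k < n) (M : Matrix (Fin n) (Fin n) F) (i : Fin n) :
    (M *ᵥ E k) i = M i ⟨k, hk⟩ := by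
  show M i ⬝ᵥ E k = _
  rw [dot_E' hk]

theorem vecMul_E {k : ℕ} (hk : k < n) (M : Matrix (Fin n) (Fin n) F) (j : Fin n) :
    ((E k : Fin n → F) ᵥ* M) j = M ⟨k, hk⟩ j := by
  show (E k : Fin n → F) ⬝ᵥ (fun i => M i j) = _
  rw [dot_E hk]

theorem uM_mul_E0 (hn : 0 < n) : uM n F *ᵥ E 0 = E 0 := by
  ext i
  rw [mulVec_E hn, E_apply]
  simp only [uM]
  by_cases h : (i : ℕ) = 0
  · simp [h]
  · rw [if_neg h, if_neg (by omega), if_neg h]

theorem uM_mul_E {k : ℕ} (hk : k + 1 < n) : uM n F *ᵥ E (k + 1) = E (k + 1) + E k := by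
  ext i
  rw [mulVec_E hk, Pi.add_apply, E_apply, E_apply]
  simp only [uM]
  by_cases h : (i : ℕ) = k + 1
  · rw [if_pos h, if_pos h, if_neg (by omega), add_zero]
  · rw [if_neg h, if_neg h, zero_add]
    by_cases h2 : (i : ℕ) = k
    · rw [if_pos (by omega), if_pos h2]
    · rw [if_neg (by omega), if_neg h2]

theorem E_mul_uM {k : ℕ} (hk : k < n) : (E k : Fin n → F) ᵥ* uM n F = E k + E (k + 1) := by
  ext j
  rw [vecMul_E hk, Pi.add_apply, E_apply, E_apply]
  simp only [uM]
  by_cases h : k = (j : ℕ)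
  · rw [if_pos h, if_pos h.symm, if_neg (by omega), add_zero]
  · rw [if_neg h, if_neg (Ne.symm h), zero_add]

theorem vM_mul_E (δ : F) (k : ℕ) : vM n δ *ᵥ E k = E k + (if k = 0 then δ else 1) • E (k + 1) := by
  by_cases hk : k < n
  · ext i
    rw [mulVec_E hk, Pi.add_apply, Pi.smul_apply, E_apply, E_apply]
    simp only [vM]
    by_cases h : (i : ℕ) = k
    · rw [if_pos h, if_pos h, if_neg (show ¬ (i : ℕ) = k + 1 by omega), smul_zero, add_zero]
    · rw [if_neg h, if_neg h, zero_add]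
      by_cases h2 : (i : ℕ) = k + 1
      · rw [if_pos h2, if_pos h2, smul_eq_mul, mul_one]
      · rw [if_neg h2, if_neg h2, smul_zero]
  · rw [E_of_le (by omega), E_of_le (by omega), mulVec_zero, smul_zero, add_zero]

theorem E_mul_vM (δ : F) {k : ℕ} (hk : k + 1 < n) :
    (E (k + 1) : Fin n → F) ᵥ* vM n δ = E (k + 1) + (if k = 0 then δ else 1) • E k := by
  ext j
  rw [vecMul_E hk, Pi.add_apply, Pi.smul_apply, E_apply, E_apply]
  simp only [vM]
  by_cases h : k + 1 = (j : ℕ)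
  · rw [if_pos h, if_pos h.symm, if_neg (show ¬ (j : ℕ) = k by omega), smul_zero, add_zero]
  · rw [if_neg h, if_neg (Ne.symm h), zero_add]
    by_cases h2 : (j : ℕ) = k
    · rw [if_pos (by omega), if_pos h2, smul_eq_mul, mul_one, h2]
    · rw [if_neg (by omega), if_neg h2, smul_zero]


theorem N_mul_E0 (hn : 0 < n) : (uM n F - 1) *ᵥ E 0 = 0 := by
  rw [sub_mulVec, uM_mul_E0 hn, one_mulVec, sub_self]

theorem N_mul_E {k : ℕ} (hk : k + 1 < n) : (uM n F - 1) *ᵥ E (k + 1) = E k := by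
  rw [sub_mulVec, uM_mul_E hk, one_mulVec, add_sub_cancel_left]

theorem N_pow_E {k m : ℕ} (hk : k ≤ m) (hm : m < n) : ((uM n F - 1) ^ k) *ᵥ E m = E (m - k) := by
  induction k with
  | zero => simp
  | succ k ih =>
    rw [pow_succ', ← Matrix.mulVec_mulVec, ih (by omega)]
    have e : m - k = (m - (k + 1)) + 1 := by omega
    rw [e, N_mul_E (by omega)]

theorem N_pow_eq_zero_E {m l : ℕ} (hm : m < l) (hn : m < n) : ((uM n F - 1) ^ l) *ᵥ E m = 0 := by
  obtain ⟨r, rfl⟩ : ∃ r, l = r + (m + 1) := ⟨l - (m + 1), by omega⟩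
  rw [pow_add, ← Matrix.mulVec_mulVec, pow_succ', ← Matrix.mulVec_mulVec, N_pow_E le_rfl hn,
    Nat.sub_self, N_mul_E0 (by omega), mulVec_zero]

/-- The Jordan block is regular unipotent. -/
theorem uM_regular (hn : 1 ≤ n) : IsNilpotent (uM n F - 1) ∧ (uM n F - 1) ^ (n - 1) ≠ 0 := by
  constructor
  · refine ⟨n, ?_⟩
    ext i j
    have h := N_pow_eq_zero_E (F := F) j.2 j.2
    have h2 := congrFun h i
    rw [mulVec_E j.2] at h2
    simpa using h2
  · intro h
    have h1 := N_pow_E (F := F) (k := n - 1) le_rfl (by omega : n - 1 < n)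
    rw [h, zero_mulVec, Nat.sub_self] at h1
    have h2 := congrFun h1 ⟨0, by omega⟩
    simp [E] at h2

/-- The reversing element. -/
def hM (n : ℕ) (δ : F) : Matrix (Fin n) (Fin n) F :=
  fun i j => if (i : ℕ) + j + 1 = n then (if (i : ℕ) = 0 then δ else 1) else 0

theorem hM_eq (δ : F) : hM n δ = Matrix.diagonal (fun i : Fin n => if (i : ℕ) = 0 then δ else 1) *
    ((Fin.revPerm).permMatrix F) := by
  ext i j
  rw [Matrix.diagonal_mul]
  simp only [hM, Equiv.Perm.permMatrix, PEquiv.toMatrix_apply, Equiv.toPEquiv_apply, Option.mem_def,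
    Option.some.injEq, Fin.revPerm_apply, Fin.ext_iff, Fin.val_rev]
  by_cases h : (i : ℕ) + j + 1 = n
  · rw [if_pos h, if_pos (show n - ((i : ℕ) + 1) = (j : ℕ) by have := i.2; omega), mul_one]
  · rw [if_neg h, if_neg (show ¬ n - ((i : ℕ) + 1) = (j : ℕ) by have := i.2; have := j.2; omega), mul_zero]

/-- The sign of the reversal. -/
def dl (n : ℕ) (F : Type*) [Field F] : F := ((Equiv.Perm.sign (Fin.revPerm : Equiv.Perm (Fin n)) : ℤˣ) : ℤ)

theorem dl_sq : (dl n F) * (dl n F) = 1 := by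
  unfold dl
  rw [← Int.cast_mul, ← Units.val_mul, Int.units_mul_self]
  simp

theorem hM_det (hn : 0 < n) : (hM n (dl n F)).det = 1 := by
  rw [hM_eq, Matrix.det_mul, Matrix.det_diagonal, Matrix.det_permutation]
  have h : ∏ i : Fin n, (if (i : ℕ) = 0 then dl n F else 1) = dl n F := by
    rw [Finset.prod_eq_single (⟨0, hn⟩ : Fin n)]
    · simp
    · intro b _ hb
      rw [if_neg]
      intro h
      exact hb (Fin.ext h)
    · simp
  rw [h]
  exact dl_sq

theorem hM_mul_uM (hn : 0 < n) (δ : F) (hδ : δ * δ = 1) : hM n δ * uM n F = vM n δ * hM n δ := by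
  ext i j
  rw [Matrix.mul_apply, Matrix.mul_apply, Finset.sum_eq_single (Fin.rev i),
    Finset.sum_eq_single (Fin.rev j)]
  · have ha : ((Fin.rev i : Fin n) : ℕ) + i + 1 = n := by
      have := Fin.val_rev i
      have := i.2
      omega
    have hb : ((Fin.rev j : Fin n) : ℕ) + j + 1 = n := by
      have := Fin.val_rev j
      have := j.2
      omega
    generalize Fin.rev i = a at ha
    generalize Fin.rev j = b at hb
    simp only [hM, uM, vM]
    rw [if_pos (show (i : ℕ) + a + 1 = n by omega), if_pos hb]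
    by_cases h1 : (a : ℕ) = j
    · have h2 : (i : ℕ) = b := by omega
      rw [if_pos h1, if_pos h2, h2, mul_one, one_mul]
    · rw [if_neg h1, if_neg (show ¬ (i : ℕ) = b by omega)]
      by_cases h3 : (j : ℕ) = a + 1
      · have h4 : (i : ℕ) = b + 1 := by omega
        rw [if_pos h3, if_pos h4, if_neg (show ¬ (i : ℕ) = 0 by omega), mul_one]
        by_cases h5 : (b : ℕ) = 0
        · rw [if_pos h5, hδ]
        · rw [if_neg h5, mul_one]
      · rw [if_neg h3, if_neg (show ¬ (i : ℕ) = b + 1 by omega), mul_zero, zero_mul]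
  · intro k _ hk
    have : (hM n δ) k j = 0 := by
      simp only [hM]
      rw [if_neg]
      intro h
      apply hk
      apply Fin.ext
      have := Fin.val_rev j
      omega
    rw [this, mul_zero]
  · simp
  · intro k _ hk
    have : (hM n δ) i k = 0 := by
      simp only [hM]
      rw [if_neg]
      intro h
      apply hk
      apply Fin.ext
      have := Fin.val_rev i
      omega
    rw [this, zero_mul]
  · simp


/-- The row of the inverse. -/
theorem row_inv (hn : 2 ≤ n) (δ : F) (v : SpecialLinearGroup (Fin n) F)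
    (hv : (v : Matrix (Fin n) (Fin n) F) = vM n δ) :
    ((E (n - 1) : Fin n → F) ᵥ* ((v⁻¹ : SpecialLinearGroup (Fin n) F) : Matrix (Fin n) (Fin n) F)) ⬝ᵥ E 0
      = (-1) ^ (n - 1) * δ := by
  set φ := (E (n - 1) : Fin n → F) ᵥ* ((v⁻¹ : SpecialLinearGroup (Fin n) F) : Matrix (Fin n) (Fin n) F) with hφ
  have h1 : φ ᵥ* vM n δ = E (n - 1) := by
    rw [← hv, hφ, Matrix.vecMul_vecMul, coe_inv_mul, Matrix.vecMul_one]
  have hrow : ∀ j : ℕ, ∀ hj : j < n, (φ ᵥ* vM n δ) ⟨j, hj⟩ =
      φ ⟨j, hj⟩ + if hj2 : j + 1 < n then φ ⟨j + 1, hj2⟩ * (if j = 0 then δ else 1) else 0 := by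
    intro j hj
    show φ ⬝ᵥ (fun i => vM n δ i ⟨j, hj⟩) = _
    unfold dotProduct
    by_cases hj2 : j + 1 < n
    · rw [dif_pos hj2, Finset.sum_eq_add (⟨j, hj⟩ : Fin n) ⟨j + 1, hj2⟩ (by simp [Fin.ext_iff])]
      · simp [vM]
      · intro c _ hc
        have hc1 : (c : ℕ) ≠ j := fun h => hc.1 (Fin.ext h)
        have hc2 : (c : ℕ) ≠ j + 1 := fun h => hc.2 (Fin.ext h)
        simp only [vM]
        rw [if_neg hc1, if_neg hc2, mul_zero]
      · simp
      · simp
    · rw [dif_neg hj2, add_zero, Finset.sum_eq_single (⟨j, hj⟩ : Fin n)]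
      · simp [vM]
      · intro c _ hc
        have hc1 : (c : ℕ) ≠ j := fun h => hc (Fin.ext h)
        have hc2 : (c : ℕ) ≠ j + 1 := by have := c.2; omega
        simp only [vM]
        rw [if_neg hc1, if_neg hc2, mul_zero]
      · simp
  have hlast : φ ⟨n - 1, by omega⟩ = 1 := by
    have h2 := hrow (n - 1) (by omega)
    rw [h1, E_apply, dif_neg (by omega), add_zero] at h2
    simpa using h2.symm
  have hstep : ∀ j : ℕ, ∀ hj : j + 1 < n, φ ⟨j, by omega⟩ = - (φ ⟨j + 1, hj⟩ * (if j = 0 then δ else 1)) := by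
    intro j hj
    have h2 := hrow j (by omega)
    rw [h1, E_apply, dif_pos hj, if_neg (by simp; omega)] at h2
    exact eq_neg_of_add_eq_zero_left h2.symm
  have hall : ∀ k : ℕ, ∀ hk : k + 2 ≤ n, φ ⟨n - 1 - k, by omega⟩ = (-1) ^ k := by
    intro k
    induction k with
    | zero => intro _; simpa using hlast
    | succ k ih =>
      intro hk
      have h3 := hstep (n - 1 - (k + 1)) (by omega)
      have e : n - 1 - (k + 1) + 1 = n - 1 - k := by omega
      simp only [e] at h3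
      rw [h3, ih (by omega), if_neg (by omega), mul_one, pow_succ]
      ring
  rw [dot_E' (by omega)]
  have h4 := hstep 0 (by omega)
  have h5 := hall (n - 2) (by omega)
  have e2 : n - 1 - (n - 2) = 0 + 1 := by omega
  simp only [e2] at h5
  rw [h4, h5, if_pos rfl]
  have e3 : n - 1 = (n - 2) + 1 := by omega
  rw [e3, pow_succ]
  ring

/-- The main construction. -/
theorem exists_three_conj (hn : 3 ≤ n) [Fintype F] :
    ∃ u g h : SpecialLinearGroup (Fin n) F,
      (u : Matrix (Fin n) (Fin n) F) = uM n F ∧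
      Subgroup.closure ({u, g * u * g⁻¹, h * u * h⁻¹} : Set (SpecialLinearGroup (Fin n) F)) = ⊤ := by
  classical
  obtain ⟨ζ, hζ⟩ := IsCyclic.exists_generator (α := Fˣ)
  have hgen : ∀ x : Fˣ, ∃ k : ℕ, x = ζ ^ k := by
    intro x
    obtain ⟨k, hk⟩ := (mem_powers_iff_mem_zpowers).mpr (hζ x)
    exact ⟨k, hk.symm⟩
  let δ : F := dl n F
  have hδ : δ * δ = 1 := dl_sq
  have hδ0 : δ ≠ 0 := by
    intro h
    rw [h, zero_mul] at hδ
    exact zero_ne_one hδ
  let u : SpecialLinearGroup (Fin n) F := ⟨uM n F, uM_det⟩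
  let v : SpecialLinearGroup (Fin n) F := ⟨vM n δ, vM_det δ⟩
  let h : SpecialLinearGroup (Fin n) F := ⟨hM n δ, hM_det (by omega)⟩
  have h0 : (0 : ℕ) < n := by omega
  have hL : n - 1 < n := by omega
  have hL1 : n - 2 < n := by omega
  have hne : (⟨0, h0⟩ : Fin n) ≠ ⟨n - 2, hL1⟩ := by
    intro e
    have := congrArg Fin.val e
    simp at this
    omega
  let s : SpecialLinearGroup (Fin n) F := SpecialLinearGroup.transvection hne (ζ : F)
  have hsc : (s : Matrix (Fin n) (Fin n) F) = 1 + vecMulVec ((ζ : F) • E 0) (E (n - 2)) := by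
    rw [transvection_coe, E_eq h0, E_eq hL1]
  refine ⟨u, s, h, rfl, ?_⟩
  set H := Subgroup.closure ({u, s * u * s⁻¹, h * u * h⁻¹} : Set (SpecialLinearGroup (Fin n) F)) with hH
  have hu : u ∈ H := Subgroup.subset_closure (by simp)
  have hsu : s * u * s⁻¹ ∈ H := Subgroup.subset_closure (by simp)
  have hhu : h * u * h⁻¹ ∈ H := Subgroup.subset_closure (by simp)
  have hvh : h * u * h⁻¹ = v := by
    have : h * u = v * h := Subtype.ext (hM_mul_uM h0 δ hδ)
    rw [this, mul_inv_cancel_right]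
  rw [hvh] at hhu
  have hT : Q H ((ζ : F) • E 0) (E (n - 1)) := by
    refine ⟨s * u * s⁻¹ * u⁻¹, H.mul_mem hsu (H.inv_mem hu), ?_⟩
    apply coe_eq_of_mul (k := u * s)
    have e : (s * u * s⁻¹ * u⁻¹) * (u * s) = s * u := by group
    rw [← cm, e, cm, cm, hsc]
    show (1 + vecMulVec ((ζ : F) • E 0) (E (n - 2))) * uM n F = (1 + vecMulVec ((ζ : F) • E 0) (E (n - 1))) * (uM n F * (1 + vecMulVec ((ζ : F) • E 0) (E (n - 2))))
    have e1 : vecMulVec ((ζ : F) • E 0) (E (n - 2)) * uM n F =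
        vecMulVec ((ζ : F) • E 0) (E (n - 2)) + vecMulVec ((ζ : F) • E 0) (E (n - 1)) := by
      rw [vecMulVec_mul, E_mul_uM hL1, vecMulVec_add]
      have : n - 2 + 1 = n - 1 := by omega
      rw [this]
    have e2 : vecMulVec ((ζ : F) • E 0) (E (n - 1)) * uM n F = vecMulVec ((ζ : F) • E 0) (E (n - 1)) := by
      rw [vecMulVec_mul, E_mul_uM hL, E_of_le (by omega : n ≤ n - 1 + 1), add_zero]
    have e3 : uM n F * vecMulVec ((ζ : F) • E 0) (E (n - 2)) = vecMulVec ((ζ : F) • E 0) (E (n - 2)) := by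
      rw [mul_vecMulVec, mulVec_smul, uM_mul_E0 h0]
    have e4 : vecMulVec ((ζ : F) • E 0) (E (n - 1)) * vecMulVec ((ζ : F) • E 0) (E (n - 2)) = (0 : Matrix (Fin n) (Fin n) F) := by
      rw [vecMulVec_mul_vecMulVec, dotProduct_smul, dot_EE hL (by omega)]
      ext i j
      simp [vecMulVec_apply]
    have L : (1 + vecMulVec ((ζ : F) • E 0) (E (n - 2))) * uM n F = uM n F + (vecMulVec ((ζ : F) • E 0) (E (n - 2)) + vecMulVec ((ζ : F) • E 0) (E (n - 1))) := by
      rw [add_mul, one_mul, e1]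
    have R : (1 + vecMulVec ((ζ : F) • E 0) (E (n - 1))) * (uM n F * (1 + vecMulVec ((ζ : F) • E 0) (E (n - 2)))) = uM n F + (vecMulVec ((ζ : F) • E 0) (E (n - 2)) + vecMulVec ((ζ : F) • E 0) (E (n - 1))) := by
      rw [mul_add (uM n F), mul_one, e3, add_mul, one_mul, mul_add (vecMulVec ((ζ : F) • E 0) (E (n - 1))), e2, e4, add_zero]
      abel
    rw [L, R]
  have hγ := row_inv (by omega) δ v rfl
  set γ : F := (-1) ^ (n - 1) * δ with hγdef
  have hsign : ((-1 : F) ^ (n - 1)) * ((-1 : F) ^ (n - 1)) = 1 := by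
    rw [← mul_pow]
    simp
  have hκ : (ζ : F) * γ * (if (0 : ℕ) = 0 then δ else 1) * 1 = (-1) ^ (n - 1) * (ζ : F) := by
    rw [if_pos rfl, hγdef]
    calc (ζ : F) * ((-1) ^ (n - 1) * δ) * δ * 1 = (-1) ^ (n - 1) * (ζ : F) * (δ * δ) := by ring
      _ = _ := by rw [hδ, mul_one]
  have D : Core H u v 1 (ζ : F) γ (fun k => if k = 0 then δ else 1) := by
    refine ⟨hn, hu, hhu, uM_mul_E0 h0, ?_, ?_, vM_mul_E δ, fun k hk => E_mul_vM δ hk, ?_, ζ.ne_zero, hγ, ?_, hT, ?_⟩
    · have := uM_mul_E (n := n) (F := F) (k := 0) (by omega)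
      rw [one_smul]
      exact this
    · show (E (n - 1) : Fin n → F) ᵥ* uM n F = E (n - 1)
      rw [E_mul_uM hL, E_of_le (by omega : n ≤ n - 1 + 1), add_zero]
    · intro k _
      by_cases hk : k = 0
      · simp only [hk, if_true]
        exact hδ0
      · simp only [hk, if_false]
        exact one_ne_zero
    · apply mul_ne_zero _ hδ0
      exact pow_ne_zero _ (by simp)
    · intro t
      by_cases ht : t = 0
      · exact Or.inl ht
      · right
        obtain ⟨k, hk⟩ := hgen (Units.mk0 (t / (ζ : F)) (div_ne_zero ht ζ.ne_zero))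
        have hk' : t / (ζ : F) = (ζ : F) ^ k := by
          have := congrArg Units.val hk
          simpa using this
        have htζ : t = (ζ : F) * (ζ : F) ^ k := by
          rw [← hk']
          field_simp
        refine ⟨k, ?_⟩
        rw [hκ, mul_pow, ← pow_mul, mul_comm (n - 1) k, pow_mul]
        rcases neg_one_pow_eq_or F k with h1 | h1
        · left
          rw [h1, one_pow, one_mul]
          exact htζ
        · rcases Nat.even_or_odd (n - 1) with h2 | h2
          · left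
            rw [h1, h2.neg_one_pow, one_mul]
            exact htζ
          · right
            rw [h1, h2.neg_one_pow, neg_one_mul, mul_neg, neg_neg]
            exact htζ
  exact D.eq_top

end Core

end Cfsg.Agent.Lib.H1RegGen
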