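import Mathlib

/-!
# Schur's theorem on cyclic groups in the language of "S-rings"

`A` is a finite cyclic group, `P` a group of permutations of `A` fixing `1` and closed under the
"translation" operation `p ↦ (x ↦ (p c)⁻¹ * p (c * x))`, with no invariant nontrivial subgroup
of `A`.  If `|A|` is not a prime power, then `P` is transitive on `A ∖ {1}`.
-/

set_option autoImplicit false

namespace Cfsg.Agent.Lib.H1Schur

open MonoidAlgebra

section Comm

variable {A : Type*} [CommGroup A] [DecidableEq A]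

/-- The element `∑_{t ∈ T} t` of the group algebra over `ZMod r`. -/
noncomputable def sm (T : Finset A) (r : ℕ) : MonoidAlgebra (ZMod r) A :=
  ∑ t ∈ T, MonoidAlgebra.single t 1

lemma coeff_pow_succ (T : Finset A) (r k : ℕ) (z : A) :
    ((sm T r) ^ (k + 1)).coeff z = ∑ t ∈ T, ((sm T r) ^ k).coeff (z * t⁻¹) := by
  rw [pow_succ, sm, Finset.mul_sum, coeff_sum, Finsupp.finset_sum_apply]
  refine Finset.sum_congr rfl fun t _ => ?_
  rw [coeff_mul_single_apply, mul_one]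

variable {P : Subgroup (Equiv.Perm A)}

lemma conv_inv (h1 : ∀ p ∈ P, p 1 = 1)
    (h2 : ∀ p ∈ P, ∀ c, ∃ p' ∈ P, ∀ x, p' x = (p c)⁻¹ * p (c * x))
    {T : Finset A} (r : ℕ) (hT : ∀ p ∈ P, ∀ t ∈ T, p t ∈ T) (k : ℕ) :
    ∀ p ∈ P, ∀ z, ((sm T r) ^ k).coeff (p z) = ((sm T r) ^ k).coeff z := by
  induction k with
  | zero =>
    intro p hp z
    have hz : p z = 1 ↔ z = 1 := by
      constructor
      · intro e
        apply p.injective
        rw [e, h1 p hp]
      · rintro rfl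
        exact h1 p hp
    rw [pow_zero, one_def, coeff_single_apply, coeff_single_apply]
    by_cases h : z = 1
    · simp [h, h1 p hp]
    · have h' : p z ≠ 1 := fun e => h (hz.1 e)
      simp [h, h', Ne.symm h, Ne.symm h']
  | succ k ih =>
    intro p hp z
    rw [coeff_pow_succ, coeff_pow_succ]
    symm
    refine Finset.sum_nbij' (fun t' => (p (z * t'⁻¹))⁻¹ * p z)
      (fun t => (p⁻¹ (p z * t⁻¹))⁻¹ * z) ?_ ?_ ?_ ?_ ?_
    · intro t' ht'
      obtain ⟨p', hp', e⟩ := h2 p hp (z * t'⁻¹)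
      have := hT p' hp' t' ht'
      rw [e] at this
      simpa using this
    · intro t ht
      have hpi := P.inv_mem hp
      obtain ⟨p', hp', e⟩ := h2 p⁻¹ hpi (p z * t⁻¹)
      have := hT p' hp' t ht
      rw [e] at this
      have e2 : p z * t⁻¹ * t = p z := by group
      rw [e2] at this
      simpa using this
    · intro t' _
      have e1 : p z * ((p (z * t'⁻¹))⁻¹ * p z)⁻¹ = p (z * t'⁻¹) := by group
      simp only [e1]
      simp
    · intro t _
      have e1 : p (z * ((p⁻¹ (p z * t⁻¹))⁻¹ * z)⁻¹) = p z * t⁻¹ := by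
        have e2 : z * ((p⁻¹ (p z * t⁻¹))⁻¹ * z)⁻¹ = p⁻¹ (p z * t⁻¹) := by group
        rw [e2]
        simp
      simp only [e1]
      group
    · intro t' _
      have e1 : p z * ((p (z * t'⁻¹))⁻¹ * p z)⁻¹ = p (z * t'⁻¹) := by group
      simp only [e1]
      exact (ih p hp _).symm

lemma conv_frob (r : ℕ) [Fact r.Prime] (T : Finset A) (z : A) :
    ((sm T r) ^ r).coeff z = ((T.filter (fun t => t ^ r = z)).card : ZMod r) := by
  haveI : CharP (MonoidAlgebra (ZMod r) A) r :=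
    charP_of_injective_ringHom (f := (MonoidAlgebra.singleOneRingHom :
      ZMod r →+* MonoidAlgebra (ZMod r) A))
      (fun a b h => by
        simpa [MonoidAlgebra.singleOneRingHom] using h) r
  haveI : ExpChar (MonoidAlgebra (ZMod r) A) r := ExpChar.prime Fact.out
  rw [sm, sum_pow_char r, coeff_sum, Finsupp.finset_sum_apply, Finset.card_filter]
  push_cast
  refine Finset.sum_congr rfl fun t _ => ?_
  rw [single_pow, one_pow, coeff_single_apply]

lemma closure_inv (h1 : ∀ p ∈ P, p 1 = 1)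
    (h2 : ∀ p ∈ P, ∀ c, ∃ p' ∈ P, ∀ x, p' x = (p c)⁻¹ * p (c * x))
    (D : Set A) (hD : ∀ p ∈ P, ∀ x ∈ D, p x ∈ D) (x : A) (hx : x ∈ Subgroup.closure D) :
    ∀ p ∈ P, p x ∈ Subgroup.closure D := by
  induction hx using Subgroup.closure_induction with
  | mem x hx => exact fun p hp => Subgroup.subset_closure (hD p hp x hx)
  | one => exact fun p hp => by rw [h1 p hp]; exact Subgroup.one_mem _
  | mul x y _ _ ihx ihy =>
    intro p hp
    obtain ⟨p', hp', e⟩ := h2 p hp x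
    have := ihy p' hp'
    rw [e] at this
    have e2 : p (x * y) = p x * ((p x)⁻¹ * p (x * y)) := by group
    rw [e2]
    exact Subgroup.mul_mem _ (ihx p hp) this
  | inv x _ ih =>
    intro p hp
    obtain ⟨p', hp', e⟩ := h2 p hp x⁻¹
    have := ih p' hp'
    rw [e] at this
    simp only [inv_mul_cancel, h1 p hp, mul_one] at this
    simpa using Subgroup.inv_mem _ this

variable [Fintype A]

lemma powRange_ne_top (r : ℕ) (hr : r.Prime) (hdvd : r ∣ Nat.card A) :
    (powMonoidHom r : A →* A).range ≠ ⊤ := by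
  intro htop
  haveI : Fact r.Prime := ⟨hr⟩
  obtain ⟨q, hq⟩ := exists_prime_orderOf_dvd_card' r hdvd
  have hsurj : Function.Surjective (powMonoidHom r : A →* A) := MonoidHom.range_eq_top.1 htop
  have hinj := Finite.injective_iff_surjective.2 hsurj
  have : q = 1 := hinj (by simp [← hq, pow_orderOf_eq_one])
  rw [this, orderOf_one] at hq
  exact hr.one_lt.ne hq

lemma fiber_dvd (h1 : ∀ p ∈ P, p 1 = 1)
    (h2 : ∀ p ∈ P, ∀ c, ∃ p' ∈ P, ∀ x, p' x = (p c)⁻¹ * p (c * x))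
    (hPrim : ∀ U : Subgroup A, (∀ p ∈ P, ∀ u ∈ U, p u ∈ U) → U = ⊥ ∨ U = ⊤)
    (r : ℕ) (hr : r.Prime) (hdvd : r ∣ Nat.card A)
    (T : Finset A) (hT : ∀ p ∈ P, ∀ t ∈ T, p t ∈ T) (z : A) (hz : z ≠ 1) :
    r ∣ (T.filter (fun t => t ^ r = z)).card := by
  haveI : Fact r.Prime := ⟨hr⟩
  set D : Set A := {z | ((sm T r) ^ r).coeff z ≠ 0} with hDdef
  have hDinv : ∀ p ∈ P, ∀ x ∈ D, p x ∈ D := by
    intro p hp x hx
    simp only [hDdef, Set.mem_setOf_eq] at hx ⊢
    rwa [conv_inv h1 h2 r hT r p hp x]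
  have hDle : Subgroup.closure D ≤ (powMonoidHom r : A →* A).range := by
    rw [Subgroup.closure_le]
    intro x hx
    simp only [hDdef, Set.mem_setOf_eq, conv_frob] at hx
    have : (T.filter (fun t => t ^ r = x)).Nonempty := by
      by_contra hne
      rw [Finset.not_nonempty_iff_eq_empty] at hne
      rw [hne] at hx
      simp at hx
    obtain ⟨t, ht⟩ := this
    exact ⟨t, (Finset.mem_filter.1 ht).2⟩
  have hbot : Subgroup.closure D = ⊥ := by
    rcases hPrim _ (fun p hp u hu => closure_inv h1 h2 D hDinv u hu p hp) with h | h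
    · exact h
    · exact absurd (top_le_iff.1 (h ▸ hDle)) (powRange_ne_top r hr hdvd)
  have hzD : z ∉ D := by
    intro hzD
    have : z ∈ Subgroup.closure D := Subgroup.subset_closure hzD
    rw [hbot] at this
    exact hz (Subgroup.mem_bot.1 this)
  simp only [hDdef, Set.mem_setOf_eq, not_not, conv_frob] at hzD
  exact (ZMod.natCast_eq_zero_iff _ _).1 hzD

lemma coset_closed (hcyc : IsCyclic A) (h1 : ∀ p ∈ P, p 1 = 1)
    (h2 : ∀ p ∈ P, ∀ c, ∃ p' ∈ P, ∀ x, p' x = (p c)⁻¹ * p (c * x))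
    (hPrim : ∀ U : Subgroup A, (∀ p ∈ P, ∀ u ∈ U, p u ∈ U) → U = ⊥ ∨ U = ⊤)
    (r : ℕ) (hr : r.Prime) (hdvd : r ∣ Nat.card A)
    (T : Finset A) (hT : ∀ p ∈ P, ∀ t ∈ T, p t ∈ T) (t : A) (ht : t ∈ T) (htr : t ^ r ≠ 1)
    (q : A) (hq : q ^ r = 1) : t * q ∈ T := by
  have hd := fiber_dvd h1 h2 hPrim r hr hdvd T hT (t ^ r) htr
  set F := T.filter (fun a => a ^ r = t ^ r) with hF
  have htF : t ∈ F := Finset.mem_filter.2 ⟨ht, rfl⟩
  have hcard : r ≤ F.card := Nat.le_of_dvd (Finset.card_pos.2 ⟨t, htF⟩) hd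
  set Q := (Finset.univ : Finset A).filter (fun a => a ^ r = 1) with hQ
  have hQc : Q.card ≤ r := IsCyclic.card_pow_eq_one_le hr.pos
  have himg : F.image (fun a => a * t⁻¹) = Q := by
    apply Finset.eq_of_subset_of_card_le
    · intro x hx
      obtain ⟨a, ha, rfl⟩ := Finset.mem_image.1 hx
      refine Finset.mem_filter.2 ⟨Finset.mem_univ _, ?_⟩
      rw [mul_pow, (Finset.mem_filter.1 ha).2, inv_pow, mul_inv_cancel]
    · rw [Finset.card_image_of_injective _ (mul_left_injective t⁻¹)]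
      omega
  have hqQ : q ∈ Q := Finset.mem_filter.2 ⟨Finset.mem_univ _, hq⟩
  rw [← himg] at hqQ
  obtain ⟨a, ha, e⟩ := Finset.mem_image.1 hqQ
  have : t * q = a := by rw [← e]; group; rw [mul_comm]; group
  rw [this]
  exact (Finset.mem_filter.1 ha).1

lemma exists_root (hcyc : IsCyclic A) (h1 : ∀ p ∈ P, p 1 = 1)
    (h2 : ∀ p ∈ P, ∀ c, ∃ p' ∈ P, ∀ x, p' x = (p c)⁻¹ * p (c * x))
    (hPrim : ∀ U : Subgroup A, (∀ p ∈ P, ∀ u ∈ U, p u ∈ U) → U = ⊥ ∨ U = ⊤)
    (r : ℕ) (hr : r.Prime) (hdvd : r ∣ Nat.card A)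
    (T : Finset A) (hT : ∀ p ∈ P, ∀ t ∈ T, p t ∈ T) (hne : T.Nonempty) (h1T : (1 : A) ∉ T) :
    ∃ x ∈ T, x ^ r = 1 := by
  by_contra hcon
  push Not at hcon
  haveI : Fact r.Prime := ⟨hr⟩
  -- membership in `T` is invariant under `P`, in both directions
  have hTiff : ∀ p ∈ P, ∀ x, x ∈ T ↔ p x ∈ T := by
    intro p hp x
    refine ⟨hT p hp x, fun h => ?_⟩
    have := hT p⁻¹ (P.inv_mem hp) _ h
    simpa using this
  -- the stabilizer of `T`
  let U : Subgroup A :=
    { carrier := {c | ∀ t, t ∈ T ↔ t * c ∈ T}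
      one_mem' := fun t => by simp
      mul_mem' := fun {a b} ha hb t => by
        rw [← mul_assoc, ← hb (t * a), ← ha t]
      inv_mem' := fun {a} ha t => by
        have := ha (t * a⁻¹)
        rw [inv_mul_cancel_right] at this
        exact this.symm }
  have hUmem : ∀ c, c ∈ U ↔ ∀ t, t ∈ T ↔ t * c ∈ T := fun c => Iff.rfl
  have hUinv : ∀ p ∈ P, ∀ u ∈ U, p u ∈ U := by
    intro p hp c hc
    obtain ⟨p', hp', e⟩ := h2 p hp c
    rw [hUmem] at hc ⊢
    have key : ∀ y, y ∈ T ↔ (p c)⁻¹ * y ∈ T := by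
      intro y
      obtain ⟨x, rfl⟩ : ∃ x, p (c * x) = y := by
        refine ⟨c⁻¹ * p⁻¹ y, ?_⟩
        simp
      rw [← e x, ← hTiff p' hp' x, ← hTiff p hp, mul_comm c x, ← hc x]
    intro t
    have := key (t * p c)
    rw [mul_comm t, inv_mul_cancel_left] at this
    rw [mul_comm t]
    exact this.symm
  obtain ⟨q, hq⟩ := exists_prime_orderOf_dvd_card' r hdvd
  have hqU : q ∈ U := by
    rw [hUmem]
    have hqr : q ^ r = 1 := by rw [← hq]; exact pow_orderOf_eq_one q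
    intro t
    refine ⟨fun ht => coset_closed hcyc h1 h2 hPrim r hr hdvd T hT t ht (hcon t ht) q hqr,
      fun ht => ?_⟩
    have := coset_closed hcyc h1 h2 hPrim r hr hdvd T hT (t * q) ht (hcon _ ht) q⁻¹ (by
      rw [inv_pow, hqr, inv_one])
    simpa using this
  obtain ⟨t, ht⟩ := hne
  rcases hPrim U hUinv with hb | htop
  · rw [hb, Subgroup.mem_bot] at hqU
    rw [hqU, orderOf_one] at hq
    exact hr.one_lt.ne hq
  · have : t⁻¹ ∈ U := by rw [htop]; exact Subgroup.mem_top _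
    have := ((hUmem _).1 this t).1 ht
    rw [mul_inv_cancel] at this
    exact h1T this

theorem schur_comm (hcyc : IsCyclic A) (h1 : ∀ p ∈ P, p 1 = 1)
    (h2 : ∀ p ∈ P, ∀ c, ∃ p' ∈ P, ∀ x, p' x = (p c)⁻¹ * p (c * x))
    (hPrim : ∀ U : Subgroup A, (∀ p ∈ P, ∀ u ∈ U, p u ∈ U) → U = ⊥ ∨ U = ⊤)
    (hnp : ¬ IsPrimePow (Nat.card A)) (h2le : 2 ≤ Nat.card A) (a b : A) (ha : a ≠ 1) (hb : b ≠ 1) :
    ∃ p ∈ P, p a = b := by
  classical
  -- two distinct primes
  have hn1 : Nat.card A ≠ 1 := by omega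
  have hn0 : Nat.card A ≠ 0 := by omega
  have hcard : 1 < (Nat.card A).primeFactors.card := by
    rw [isPrimePow_iff_card_primeFactors_eq_one] at hnp
    have : (Nat.card A).primeFactors.Nonempty := Nat.nonempty_primeFactors.2 (by omega)
    have := Finset.card_pos.2 this
    omega
  obtain ⟨r, hr, s, hs, hrs⟩ := Finset.one_lt_card.1 hcard
  have hrp := Nat.prime_of_mem_primeFactors hr
  have hsp := Nat.prime_of_mem_primeFactors hs
  have hrd := Nat.dvd_of_mem_primeFactors hr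
  have hsd := Nat.dvd_of_mem_primeFactors hs
  haveI : Fact s.Prime := ⟨hsp⟩
  obtain ⟨y, hy⟩ := exists_prime_orderOf_dvd_card' s hsd
  have hys : y ^ s = 1 := by rw [← hy]; exact pow_orderOf_eq_one y
  have hy1 : y ≠ 1 := by
    rintro rfl
    rw [orderOf_one] at hy
    exact hsp.one_lt.ne hy
  have hcop : Nat.Coprime r s := (Nat.coprime_primes hrp hsp).2 hrs
  have hboth : ∀ x : A, x ^ r = 1 → x ^ s = 1 → x = 1 := by
    intro x h3 h4
    have h5 := Nat.dvd_gcd (orderOf_dvd_of_pow_eq_one h3) (orderOf_dvd_of_pow_eq_one h4)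
    rw [hcop.gcd_eq_one, Nat.dvd_one, orderOf_eq_one_iff] at h5
    exact h5
  have main : ∀ a : A, a ≠ 1 → ∃ p ∈ P, p a = y := by
    intro a ha
    set T : Finset A := Finset.univ.filter (fun x => ∃ p ∈ P, p a = x) with hTdef
    have hT : ∀ p ∈ P, ∀ t ∈ T, p t ∈ T := by
      intro p hp t ht
      obtain ⟨p0, hp0, e⟩ := (Finset.mem_filter.1 ht).2
      refine Finset.mem_filter.2 ⟨Finset.mem_univ _, p * p0, P.mul_mem hp hp0, ?_⟩
      simp [e]
    have hne : T.Nonempty :=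
      ⟨a, Finset.mem_filter.2 ⟨Finset.mem_univ _, 1, P.one_mem, rfl⟩⟩
    have h1T : (1 : A) ∉ T := by
      intro h
      obtain ⟨p0, hp0, e⟩ := (Finset.mem_filter.1 h).2
      apply ha
      apply p0.injective
      rw [e, h1 p0 hp0]
    obtain ⟨x, hxT, hxr⟩ := exists_root hcyc h1 h2 hPrim r hrp hrd T hT hne h1T
    have hx1 : x ≠ 1 := by
      rintro rfl
      exact h1T hxT
    have hxs : x ^ s ≠ 1 := fun h => hx1 (hboth x hxr h)
    have h3 : x * y ∈ T := coset_closed hcyc h1 h2 hPrim s hsp hsd T hT x hxT hxs y hys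
    have h4 : (x * y) ^ r ≠ 1 := by
      rw [mul_pow, hxr, one_mul]
      exact fun h => hy1 (hboth y h hys)
    have h5 := coset_closed hcyc h1 h2 hPrim r hrp hrd T hT (x * y) h3 h4 x⁻¹ (by
      rw [inv_pow, hxr, inv_one])
    have h6 : x * y * x⁻¹ = y := by rw [mul_comm x y, mul_inv_cancel_right]
    rw [h6] at h5
    obtain ⟨p0, hp0, e⟩ := (Finset.mem_filter.1 h5).2
    exact ⟨p0, hp0, e⟩
  obtain ⟨p, hp, e⟩ := main a ha
  obtain ⟨p', hp', e'⟩ := main b hb
  refine ⟨p'⁻¹ * p, P.mul_mem (P.inv_mem hp') hp, ?_⟩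
  simp [e, ← e']

end Comm

/-- **Schur's theorem.** -/
theorem schur {A : Type*} [Group A] [Finite A] (hcyc : IsCyclic A) {P : Subgroup (Equiv.Perm A)}
    (h1 : ∀ p ∈ P, p 1 = 1)
    (h2 : ∀ p ∈ P, ∀ c, ∃ p' ∈ P, ∀ x, p' x = (p c)⁻¹ * p (c * x))
    (hPrim : ∀ U : Subgroup A, (∀ p ∈ P, ∀ u ∈ U, p u ∈ U) → U = ⊥ ∨ U = ⊤)
    (hnp : ¬ IsPrimePow (Nat.card A)) (h2le : 2 ≤ Nat.card A) (a b : A) (ha : a ≠ 1) (hb : b ≠ 1) :
    ∃ p ∈ P, p a = b := by
  classical
  cases nonempty_fintype A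
  letI : CommGroup A := IsCyclic.commGroup
  exact schur_comm hcyc h1 h2 hPrim hnp h2le a b ha hb

end Cfsg.Agent.Lib.H1Schur
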