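import Mathlib
import Cfsg.Agent.Lib.H1Spec

set_option autoImplicit false
set_option linter.unusedVariables false
set_option linter.unusedSectionVars false
set_option linter.style.longLine false

/-!
# Prime graphs of `(F²)ᵏ ⋊ SL₂(F)` in characteristic two
-/

namespace Cfsg.Agent.Lib.H1Spec2

open Matrix Cfsg.Agent.Lib.H1GL2 Cfsg.Agent.Lib.H1SL2 Cfsg.Agent.Lib.H1PSL2 Cfsg.Agent.Lib.H1Spec

variable {F : Type*} [Field F] [Fintype F]

theorem exists_large (h2 : (2 : F) = 0) (N : ℕ) :
    ∃ (H : Type) (_ : Group H) (_ : Finite H), N < Nat.card H ∧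
      (∀ p : ℕ, p.Prime → (p ∣ Nat.card (SL2 F) ↔ p ∣ Nat.card H)) ∧
      (∀ p q : ℕ, p.Prime → q.Prime → p ≠ q →
        ((∃ g : SL2 F, orderOf g = p * q) ↔ (∃ g : H, orderOf g = p * q))) := by
  classical
  let X := Aff F (N + 1)
  haveI : Finite X := inferInstance
  let e : Shrink.{0} X ≃* X := Shrink.mulEquiv
  have hcardX : Nat.card X = Nat.card (SL2 F) * Fintype.card F ^ (2 * (N + 1)) := Cfsg.Agent.Lib.H1Spec.card_aff
  have hcard : Nat.card (Shrink.{0} X) = Nat.card X := Nat.card_congr e.toEquiv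
  refine ⟨Shrink.{0} X, inferInstance, inferInstance, ?_, ?_, ?_⟩
  · rw [hcard, hcardX]
    have h1 : 0 < Nat.card (SL2 F) := Nat.card_pos
    have h3 : 2 ≤ Fintype.card F := Fintype.one_lt_card
    have h4 : N + 1 < 2 ^ (N + 1) := Nat.lt_pow_self (by norm_num)
    have h5 : 2 ^ (N + 1) ≤ Fintype.card F ^ (N + 1) := Nat.pow_le_pow_left h3 _
    have h6 : Fintype.card F ^ (N + 1) ≤ Fintype.card F ^ (2 * (N + 1)) :=
      Nat.pow_le_pow_right (by omega) (by omega)
    nlinarith
  · intro p hp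
    rw [hcard, hcardX]
    constructor
    · intro h
      exact Dvd.dvd.mul_right h _
    · intro h
      rcases (Nat.Prime.dvd_mul hp).mp h with h1 | h1
      · exact h1
      · have h3 := hp.dvd_of_dvd_pow h1
        -- `F` has even order
        obtain ⟨r, hr⟩ := CharP.exists F
        have hrp := CharP.char_is_prime F r
        have hr2 : r ∣ 2 := (CharP.cast_eq_zero_iff F r 2).mp (by exact_mod_cast h2)
        have hr' : r = 2 := (Nat.prime_dvd_prime_iff_eq hrp Nat.prime_two).mp hr2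
        subst hr'
        obtain ⟨n, hn0, hn⟩ := FiniteField.card F 2
        have h4 : p ∣ 2 ^ (n : ℕ) := by
          rw [← hn]
          exact h3
        have h5 : p ∣ 2 := hp.dvd_of_dvd_pow h4
        have h6 : 2 ∣ Fintype.card F := by
          rw [hn]
          exact dvd_pow_self 2 n.ne_zero
        rw [card_sl2]
        exact (h5.trans h6).mul_right _
  · intro p q hp hq hpq
    have hno4 : ∀ g : X, g ^ 4 = 1 → orderOf g ≠ p * q := by
      intro g hg hor
      have h3 := orderOf_dvd_of_pow_eq_one hg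
      rw [hor] at h3
      have h4 : p ∣ 2 ^ 2 := (Dvd.intro _ rfl).trans h3
      have h5 : q ∣ 2 ^ 2 := (Dvd.intro_left _ rfl).trans h3
      have h6 := (Nat.prime_dvd_prime_iff_eq hp Nat.prime_two).mp (hp.dvd_of_dvd_pow h4)
      have h7 := (Nat.prime_dvd_prime_iff_eq hq Nat.prime_two).mp (hq.dvd_of_dvd_pow h5)
      exact hpq (h6.trans h7.symm)
    constructor
    · rintro ⟨g, hg⟩
      refine ⟨e.symm (Aff.incl g), ?_⟩
      rw [MulEquiv.orderOf_eq, Aff.orderOf_incl, hg]
    · rintro ⟨g, hg⟩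
      rw [← MulEquiv.orderOf_eq e] at hg
      set x := e g with hx
      by_cases ht : tr x.1 = 2
      · exact absurd hg (hno4 x (Aff.pow_four x h2 (ht.trans h2)))
      · exact ⟨x.1, (Aff.orderOf_eq x ht).symm.trans hg⟩

end Cfsg.Agent.Lib.H1Spec2
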