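import Mathlib
import Cfsg.Agent.Lib.H1PSL2

set_option autoImplicit false
set_option linter.unusedVariables false
set_option linter.unusedSectionVars false
set_option linter.style.longLine false

/-!
# Frobenius groups `K ⋊ C` and the spectrum of `PSL₂(F) × PSL₂(F)`
-/

namespace Cfsg.Agent.Lib.H1Spec3

open Matrix Cfsg.Agent.Lib.H1GL2 Cfsg.Agent.Lib.H1SL2 Cfsg.Agent.Lib.H1PSL2

variable {K : Type*} [Field K]

/-- The group `K ⋊ C`, `C` a group of units. -/
def FG (C : Subgroup Kˣ) : Type _ := K × C

namespace FG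

variable {C : Subgroup Kˣ}

theorem ext' {g h : FG C} (h1 : g.1 = h.1) (h2 : g.2 = h.2) : g = h := Prod.ext h1 h2

instance : Group (FG C) where
  mul g h := (g.1 + ((g.2 : Kˣ) : K) * h.1, g.2 * h.2)
  one := (0, 1)
  inv g := (-(((g.2⁻¹ : C) : Kˣ) : K) * g.1, g.2⁻¹)
  mul_assoc a b c := by
    apply ext'
    · change a.1 + ((a.2 : Kˣ) : K) * b.1 + (((a.2 * b.2 : C) : Kˣ) : K) * c.1 = a.1 + ((a.2 : Kˣ) : K) * (b.1 + ((b.2 : Kˣ) : K) * c.1)
      push_cast
      ring
    · exact mul_assoc a.2 b.2 c.2
  one_mul a := by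
    apply ext'
    · change (0 : K) + (((1 : C) : Kˣ) : K) * a.1 = a.1
      simp
    · exact one_mul a.2
  mul_one a := by
    apply ext'
    · change a.1 + ((a.2 : Kˣ) : K) * 0 = a.1
      simp
    · exact mul_one a.2
  inv_mul_cancel a := by
    apply ext'
    · change -(((a.2⁻¹ : C) : Kˣ) : K) * a.1 + (((a.2⁻¹ : C) : Kˣ) : K) * a.1 = 0
      ring
    · exact inv_mul_cancel a.2

theorem mul_fst (g h : FG C) : (g * h).1 = g.1 + ((g.2 : Kˣ) : K) * h.1 := rfl
theorem mul_snd (g h : FG C) : (g * h).2 = g.2 * h.2 := rfl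
theorem one_fst : (1 : FG C).1 = 0 := rfl
theorem one_snd : (1 : FG C).2 = 1 := rfl

theorem pow_snd (g : FG C) (n : ℕ) : (g ^ n).2 = g.2 ^ n := by
  induction n with
  | zero =>
    rw [pow_zero, pow_zero]
    rfl
  | succ n ih => rw [pow_succ, mul_snd, ih, pow_succ]

theorem pow_fst (g : FG C) (n : ℕ) :
    (g ^ n).1 = (∑ i ∈ Finset.range n, ((g.2 : Kˣ) : K) ^ i) * g.1 := by
  induction n with
  | zero => simp [one_fst]
  | succ n ih =>
    rw [pow_succ', mul_fst, ih, geom_sum_succ]
    ring

/-- The second projection. -/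
def sndHom : FG C →* C where
  toFun g := g.2
  map_one' := rfl
  map_mul' _ _ := rfl

/-- The kernel. -/
def inl : Multiplicative K →* FG C where
  toFun v := (v.toAdd, 1)
  map_one' := rfl
  map_mul' a b := by
    apply ext'
    · change a.toAdd + b.toAdd = a.toAdd + (((1 : C) : Kˣ) : K) * b.toAdd
      simp
    · change (1 : C) = 1 * 1
      simp

/-- The complement. -/
def inr : C →* FG C where
  toFun u := (0, u)
  map_one' := rfl
  map_mul' a b := by
    apply ext'
    · change (0 : K) = 0 + ((a : Kˣ) : K) * 0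
      simp
    · rfl

theorem inr_injective : Function.Injective (inr (C := C)) := fun a b h => congrArg Prod.snd h

theorem solvable (C : Subgroup Kˣ) : Group.IsSolvable (FG C) := by
  refine Group.isSolvable_of_ker_le_range (inl (C := C)) (sndHom (C := C)) ?_
  intro g hg
  have h1 : g.2 = 1 := hg
  exact ⟨Multiplicative.ofAdd g.1, ext' rfl h1.symm⟩

theorem orderOf_eq (g : FG C) (hg : g.2 ≠ 1) : orderOf g = orderOf g.2 := by
  rw [orderOf_eq_orderOf_iff]
  intro n
  constructor
  · intro h
    have := congrArg Prod.snd h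
    rw [pow_snd] at this
    exact this
  · intro h
    apply ext'
    · rw [pow_fst]
      have h1 : (((g.2 : Kˣ) : K) - 1) ≠ 0 := by
        intro h3
        apply hg
        apply Subtype.ext
        apply Units.ext
        exact sub_eq_zero.mp h3
      have h2 : (∑ i ∈ Finset.range n, ((g.2 : Kˣ) : K) ^ i) * (((g.2 : Kˣ) : K) - 1) = 0 := by
        rw [geom_sum_mul]
        have : ((g.2 : Kˣ) : K) ^ n = 1 := by
          have h4 := congrArg (fun u : C => ((u : Kˣ) : K)) h
          simpa using h4
        rw [this, sub_self]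
      rw [(mul_eq_zero.mp h2).resolve_right h1, zero_mul]
      rfl
    · rw [pow_snd, h]
      rfl

/-- The spectrum of a Frobenius group. -/
theorem spec {p e : ℕ} (hp : p.Prime) [CharP K p] {a : Kˣ} (he : orderOf a = e) (he0 : e ≠ 0) (hC : C = Subgroup.zpowers a) :
    Set.range (orderOf : FG C → ℕ) = {n | n ∣ p ∨ n ∣ e} := by
  subst hC
  ext n
  constructor
  · rintro ⟨g, rfl⟩
    by_cases hg : g.2 = 1
    · left
      apply orderOf_dvd_of_pow_eq_one
      apply ext'
      · rw [pow_fst, hg]
        simp only [OneMemClass.coe_one, Units.val_one, one_pow, Finset.sum_const, Finset.card_range, nsmul_eq_mul, mul_one]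
        rw [CharP.cast_eq_zero, zero_mul]
        rfl
      · rw [pow_snd, hg, one_pow]
        rfl
    · right
      rw [orderOf_eq g hg, Subgroup.orderOf_coe g.2 |>.symm, ← he]
      have h3 := g.2.2
      obtain ⟨k, hk⟩ := Subgroup.mem_zpowers_iff.mp h3
      rw [← hk]
      exact orderOf_dvd_of_pow_eq_one (by
        rw [← zpow_natCast, ← _root_.zpow_mul, mul_comm, _root_.zpow_mul, zpow_natCast, pow_orderOf_eq_one, _root_.one_zpow])
  · rintro (hn | hn)
    · rcases (Nat.dvd_prime hp).mp hn with rfl | rfl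
      · exact ⟨1, orderOf_one⟩
      · refine ⟨inl (Multiplicative.ofAdd (1 : K)), ?_⟩
        haveI : Fact n.Prime := ⟨hp⟩
        apply orderOf_eq_prime
        · rw [← map_pow, ← ofAdd_nsmul]
          simp only [nsmul_eq_mul, CharP.cast_eq_zero, mul_one, ofAdd_zero, map_one]
        · intro h
          have := congrArg Prod.fst h
          exact one_ne_zero this
    · have hmem : a ^ (e / n) ∈ Subgroup.zpowers a := Subgroup.npow_mem_zpowers a _
      refine ⟨inr ⟨a ^ (e / n), hmem⟩, ?_⟩
      rw [orderOf_injective _ inr_injective, Subgroup.orderOf_mk]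
      rw [← he] at hn ⊢
      exact orderOf_pow_orderOf_div (by rwa [he]) hn

instance (C : Subgroup Kˣ) [Finite K] : Finite (FG C) := by
  unfold FG
  haveI : Finite Kˣ := inferInstance
  infer_instance

end FG

variable {F : Type*} [Field F] [Fintype F]

/-- The spectrum of `PSL₂(F)`. -/
theorem spec_L {p : ℕ} (hp : p.Prime) [CharP F p] :
    Set.range (orderOf : PSL2 F → ℕ) = {n | n ∣ p ∨ n ∣ (Fintype.card F - 1) / Nat.gcd 2 (Fintype.card F - 1) ∨
      n ∣ (Fintype.card F + 1) / Nat.gcd 2 (Fintype.card F - 1)} := by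
  classical
  haveI : Fact p.Prime := ⟨hp⟩
  have hq : 1 < Fintype.card F := Fintype.one_lt_card
  set q := Fintype.card F with hqdef
  set d := Nat.gcd 2 (q - 1) with hd
  have hd1 : d ∣ q - 1 := Nat.gcd_dvd_right _ _
  have hd2 : d ∣ q + 1 := by
    have h3 : q + 1 = (q - 1) + 2 := by omega
    rw [h3]
    exact Nat.dvd_add hd1 (Nat.gcd_dvd_left _ _)
  have hdiv : ∀ (x : PSL2 F) (n : ℕ), n ∣ orderOf x → orderOf x ≠ 0 → n ∈ Set.range (orderOf : PSL2 F → ℕ) := by
    intro x n hn h0
    exact ⟨x ^ (orderOf x / n), orderOf_pow_orderOf_div h0 hn⟩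
  ext n
  constructor
  · rintro ⟨x, rfl⟩
    rcases order_cases p x with h | h | h
    · exact Or.inl (orderOf_dvd_of_pow_eq_one h)
    · exact Or.inr (Or.inl (orderOf_dvd_of_pow_eq_one h))
    · exact Or.inr (Or.inr (orderOf_dvd_of_pow_eq_one h))
  · rintro (hn | hn | hn)
    · -- an element of order `p`
      have hx : orderOf (pi (tv (1 : F))) = p := by
        apply orderOf_eq_prime
        · rw [← map_pow, ← order_tv (p := p) (b := (1 : F)) one_ne_zero, pow_orderOf_eq_one, map_one]
        · intro h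
          rw [pi_eq_one_iff] at h
          rcases h with h | h
          · exact tv_ne_one one_ne_zero h
          · have := congrArg (fun A : SL2 F => (A : M2 F) 0 1) h
            simp [tv, mone, mk] at this
      exact hdiv _ n (by rw [hx]; exact hn) (by rw [hx]; exact hp.ne_zero)
    · -- an element of order `(q-1)/d`
      obtain ⟨u, hu⟩ := IsCyclic.exists_generator (α := Fˣ)
      have hu1 : orderOf u = q - 1 := by
        rw [orderOf_eq_card_of_forall_mem_zpowers hu, Nat.card_eq_fintype_card, Fintype.card_units]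
      have hu2 : orderOf (dg u) = q - 1 := by
        rw [orderOf_injective _ dg_injective, hu1]
      have hx := order_pi (dg u) (by rw [hu2]; exact hd1)
      rw [hu2] at hx
      have h0 : (q - 1) / d ≠ 0 := by
        have := Nat.div_pos (Nat.le_of_dvd (by omega) hd1) (Nat.pos_of_dvd_of_pos hd1 (by omega))
        omega
      exact hdiv _ n (by rw [hx]; exact hn) (by rw [hx]; exact h0)
    · obtain ⟨τ, hτ⟩ := exists_nonsplit_gen (F := F)
      have hx := order_pi τ (by rw [hτ]; exact hd2)
      rw [hτ] at hx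
      have h0 : (q + 1) / d ≠ 0 := by
        have := Nat.div_pos (Nat.le_of_dvd (by omega) hd2) (Nat.pos_of_dvd_of_pos hd2 (by omega))
        omega
      exact hdiv _ n (by rw [hx]; exact hn) (by rw [hx]; exact h0)

end Cfsg.Agent.Lib.H1Spec3
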