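import Cfsg.Agent.Lib.H1JordanN
import Mathlib

set_option autoImplicit false

/-! Wagner's theorem on normal subgroups of triply transitive groups of odd degree. -/

namespace Cfsg.Agent.Lib.H1Wagner

open MulAction

universe u v

section sylow

variable {Γ : Type u} [Group Γ] [Finite Γ]

theorem relIndex_card (S K : Subgroup Γ) (h : S ≤ K) : S.relIndex K * Nat.card S = Nat.card K := by
  have h1 : Nat.card (S.subgroupOf K) = Nat.card S :=
    Nat.card_congr (Subgroup.subgroupOfEquivOfLe h).toEquiv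
  rw [← h1]
  exact (Subgroup.index_mul_card (S.subgroupOf K))

theorem conj_sylow {p : ℕ} [hp : Fact p.Prime] (K S : Subgroup Γ) (g : Γ) (hSK : S ≤ K)
    (hgS : ∀ s ∈ S, g * s * g⁻¹ ∈ K) (hS : IsPGroup p S) (hi : ¬ p ∣ S.relIndex K) :
    ∃ h ∈ K, ∀ x, x ∈ S ↔ (h * g) * x * (h * g)⁻¹ ∈ S := by
  let B : Subgroup Γ := S.map (MulAut.conj g).toMonoidHom
  have hBK : B ≤ K := by
    rintro _ ⟨s, hs, rfl⟩
    exact hgS s hs
  have hBp : IsPGroup p B := hS.map _
  have hcard : Nat.card B = Nat.card S :=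
    Subgroup.card_map_of_injective (MulAut.conj g).injective
  have hiB : B.relIndex K = S.relIndex K := by
    have h1 := relIndex_card S K hSK
    have h2 := relIndex_card B K hBK
    rw [hcard] at h2
    have h3 : 0 < Nat.card S := Nat.card_pos
    exact Nat.eq_of_mul_eq_mul_right h3 (h2.trans h1.symm)
  have hSp' : IsPGroup p (S.subgroupOf K) := hS.comap_subtype
  have hBp' : IsPGroup p (B.subgroupOf K) := hBp.comap_subtype
  let P : Sylow p K := hSp'.toSylow hi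
  let Q : Sylow p K := hBp'.toSylow (by
    show ¬ p ∣ B.relIndex K
    rw [hiB]; exact hi)
  obtain ⟨h, hh⟩ := MulAction.exists_smul_eq K Q P
  refine ⟨(h : Γ), h.2, fun x => ?_⟩
  have hmemP : ∀ y : K, y ∈ P ↔ (y : Γ) ∈ S := fun y =>
    (IsPGroup.mem_toSylow hSp' hi).trans Subgroup.mem_subgroupOf
  have hmemQ : ∀ y : K, y ∈ Q ↔ (y : Γ) ∈ B := fun y =>
    (IsPGroup.mem_toSylow hBp' _).trans Subgroup.mem_subgroupOf
  have hmemsm : ∀ y : K, y ∈ Q → h * y * h⁻¹ ∈ P := by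
    intro y hy
    rw [← hh]
    exact Subgroup.smul_mem_pointwise_smul y (MulAut.conj h) (Q : Subgroup K) hy
  have hforward : ∀ x ∈ S, (h * g : Γ) * x * (h * g : Γ)⁻¹ ∈ S := by
    intro x hx
    have h1 : g * x * g⁻¹ ∈ B := ⟨x, hx, rfl⟩
    have h2 : (⟨g * x * g⁻¹, hBK h1⟩ : K) ∈ Q := (hmemQ _).mpr h1
    have h3 := (hmemP _).mp (hmemsm _ h2)
    have h4 : (((h * ⟨g * x * g⁻¹, hBK h1⟩ * h⁻¹ : K)) : Γ) = (h * g : Γ) * x * (h * g : Γ)⁻¹ := by
      push_cast
      group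
    rwa [h4] at h3
  constructor
  · exact hforward x
  · -- the conjugation maps `S` injectively into itself, hence onto
    intro hx
    have hinj : Function.Injective (fun s : S => (⟨(h * g : Γ) * s * (h * g : Γ)⁻¹, hforward s s.2⟩ : S)) := by
      intro s t hst
      have h1 := congrArg Subtype.val hst
      exact Subtype.ext (by simpa using h1)
    have hsurj := (Finite.injective_iff_surjective.mp hinj) ⟨_, hx⟩
    obtain ⟨s, hs⟩ := hsurj
    have h1 := congrArg Subtype.val hs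
    have h2 : (h * g : Γ) * s * (h * g : Γ)⁻¹ = (h * g : Γ) * x * (h * g : Γ)⁻¹ := h1
    have h3 : (s : Γ) = x := by simpa using h2
    rw [← h3]
    exact s.2

/-- Existence of a Sylow subgroup of a subgroup, as a subgroup of the ambient group. -/
theorem exists_sylow_in {p : ℕ} [hp : Fact p.Prime] (K : Subgroup Γ) :
    ∃ S : Subgroup Γ, S ≤ K ∧ IsPGroup p S ∧ ¬ p ∣ S.relIndex K := by
  obtain ⟨P⟩ : Nonempty (Sylow p K) := inferInstance
  refine ⟨(P : Subgroup K).map K.subtype, ?_, ?_, ?_⟩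
  · rintro _ ⟨x, _, rfl⟩
    exact x.2
  · exact P.isPGroup'.map _
  · have h1 : ((P : Subgroup K).map K.subtype).subgroupOf K = P := by
      exact Subgroup.comap_map_eq_self_of_injective K.subtype_injective _
    show ¬ p ∣ (((P : Subgroup K).map K.subtype).subgroupOf K).index
    rw [h1]
    exact P.not_dvd_index

end sylow

section wagner

variable {Ω : Type v} [Finite Ω]

/-- The restriction of the normaliser of `S` in `T` to the fixed points of `S`. -/
def resGroup (T S : Subgroup (Equiv.Perm Ω)) : Subgroup (Equiv.Perm (fixedPoints S Ω)) where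
  carrier := {π | ∃ g ∈ T, (∀ s, s ∈ S ↔ g * s * g⁻¹ ∈ S) ∧ ∀ x : fixedPoints S Ω, ((π x : fixedPoints S Ω) : Ω) = g x}
  one_mem' := ⟨1, T.one_mem, fun s => by simp, fun x => rfl⟩
  mul_mem' := by
    rintro π₁ π₂ ⟨g₁, hg₁, hn₁, hπ₁⟩ ⟨g₂, hg₂, hn₂, hπ₂⟩
    refine ⟨g₁ * g₂, T.mul_mem hg₁ hg₂, fun s => ?_, fun x => ?_⟩
    · rw [hn₂ s, hn₁ (g₂ * s * g₂⁻¹)]
      have : g₁ * (g₂ * s * g₂⁻¹) * g₁⁻¹ = g₁ * g₂ * s * (g₁ * g₂)⁻¹ := by group
      rw [this]
    · show ((π₁ (π₂ x) : fixedPoints S Ω) : Ω) = g₁ (g₂ x)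
      rw [hπ₁, hπ₂]
  inv_mem' := by
    rintro π ⟨g, hg, hn, hπ⟩
    refine ⟨g⁻¹, T.inv_mem hg, fun s => ?_, fun x => ?_⟩
    · rw [hn (g⁻¹ * s * g⁻¹⁻¹)]
      have : g * (g⁻¹ * s * g⁻¹⁻¹) * g⁻¹ = s := by group
      rw [this]
    · have h1 := hπ (π⁻¹ x)
      have h2 : π (π⁻¹ x) = x := by simp
      rw [h2] at h1
      rw [eq_comm, Equiv.Perm.inv_eq_iff_eq, h1]

theorem mem_resGroup {T S : Subgroup (Equiv.Perm Ω)} {π : Equiv.Perm (fixedPoints S Ω)} :
    π ∈ resGroup T S ↔ ∃ g ∈ T, (∀ s, s ∈ S ↔ g * s * g⁻¹ ∈ S) ∧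
      ∀ x : fixedPoints S Ω, ((π x : fixedPoints S Ω) : Ω) = g x := Iff.rfl

/-- An element of `T` normalising `S` restricts. -/
theorem exists_res {T S : Subgroup (Equiv.Perm Ω)} {g : Equiv.Perm Ω} (hg : g ∈ T)
    (hn : ∀ s, s ∈ S ↔ g * s * g⁻¹ ∈ S) :
    ∃ π ∈ resGroup T S, ∀ x : fixedPoints S Ω, ((π x : fixedPoints S Ω) : Ω) = g x := by
  have hfix : ∀ x, x ∈ fixedPoints S Ω ↔ g x ∈ fixedPoints S Ω := by
    intro x
    constructor
    · intro hx s
      have h1 : g⁻¹ * s * g⁻¹⁻¹ ∈ S := by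
        apply (hn _).mpr
        have : g * (g⁻¹ * s * g⁻¹⁻¹) * g⁻¹ = (s : Equiv.Perm Ω) := by group
        rw [this]
        exact s.2
      have h2 : (g⁻¹ * s * g) • x = x := hx ⟨g⁻¹ * s * g⁻¹⁻¹, h1⟩ |> fun h => by simpa using h
      show (s : Equiv.Perm Ω) (g x) = g x
      have h3 : (g⁻¹ * (s : Equiv.Perm Ω) * g) x = x := h2
      rw [Equiv.Perm.mul_apply, Equiv.Perm.mul_apply, Equiv.Perm.inv_eq_iff_eq] at h3
      exact h3
    · intro hx s
      have h1 : g * s * g⁻¹ ∈ S := (hn s).mp s.2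
      have h2 := hx ⟨_, h1⟩
      have h3 : (g * (s : Equiv.Perm Ω) * g⁻¹) (g x) = g x := h2
      have h4 : (g * (s : Equiv.Perm Ω) * g⁻¹) (g x) = g ((s : Equiv.Perm Ω) x) := by
        simp
      rw [h4] at h3
      exact g.injective h3
  let π : Equiv.Perm (fixedPoints S Ω) := g.subtypePerm (fun x => (hfix x).symm)
  exact ⟨π, ⟨g, hg, hn, fun x => rfl⟩, fun x => rfl⟩

/-- Triple transitivity in elementwise form. -/
def Trans3 (T : Subgroup (Equiv.Perm Ω)) : Prop :=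
  ∀ a b c a' b' c' : Ω, a ≠ b → a ≠ c → b ≠ c → a' ≠ b' → a' ≠ c' → b' ≠ c' →
    ∃ g ∈ T, g a = a' ∧ g b = b' ∧ g c = c'

theorem multi_of_trans3 {G : Subgroup (Equiv.Perm Ω)} (hG : Trans3 G) :
    IsMultiplyPretransitive G Ω 3 := by
  refine ⟨fun x y => ?_⟩
  obtain ⟨g, hg, h0, h1, h2⟩ := hG (x 0) (x 1) (x 2) (y 0) (y 1) (y 2)
    (x.injective.ne (by decide)) (x.injective.ne (by decide)) (x.injective.ne (by decide))
    (y.injective.ne (by decide)) (y.injective.ne (by decide)) (y.injective.ne (by decide))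
  refine ⟨⟨g, hg⟩, ?_⟩
  ext i
  fin_cases i
  · exact h0
  · exact h1
  · exact h2

/-- `N` is two-transitive, by Jordan. -/
theorem two_trans (G N : Subgroup (Equiv.Perm Ω)) (hodd : Odd (Nat.card Ω)) (h5 : 5 ≤ Nat.card Ω)
    (hG : Trans3 G) (hNG : N ≤ G) (hnorm : ∀ g ∈ G, ∀ n ∈ N, g * n * g⁻¹ ∈ N) (hN : N ≠ ⊥) :
    ∀ a b a' b' : Ω, a ≠ b → a' ≠ b' → ∃ n ∈ N, n a = a' ∧ n b = b' := by
  classical
  haveI hf : FaithfulSMul G Ω := ⟨fun {g g'} h => Subtype.ext (Equiv.ext h)⟩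
  let N' : Subgroup G := N.subgroupOf G
  haveI hN'n : N'.Normal := ⟨fun n hn g => hnorm g g.2 n hn⟩
  have hN' : N' ≠ ⊥ := by
    intro h
    apply hN
    rw [eq_bot_iff]
    intro n hn
    have h1 : (⟨n, hNG hn⟩ : G) ∈ N' := Subgroup.mem_subgroupOf.mpr hn
    rw [h, Subgroup.mem_bot] at h1
    exact congrArg Subtype.val h1
  have hG3 : IsMultiplyPretransitive G Ω 3 := multi_of_trans3 hG
  rcases H1JordanN.jordan_aux 3 (by norm_num) G Ω N' hN' (by omega) hG3 with h | ⟨_, hab, hsq⟩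
  · intro a b a' b' hab hab'
    obtain ⟨n, h1, h2⟩ := H1JordanN.exists_move2 h hab hab'
    exact ⟨((n : G) : Equiv.Perm Ω), n.2, h1, h2⟩
  · exfalso
    have htr : IsPretransitive N' Ω :=
      H1JordanN.trans_of_normal (k := 3) (by norm_num) (by omega) hG3 N' hN'
    have hp : IsPGroup 2 N' := fun g => ⟨1, by rw [pow_one]; exact Subtype.ext (hsq g g.2)⟩
    haveI : Fact (Nat.Prime 2) := ⟨Nat.prime_two⟩
    have hmod := hp.card_modEq_card_fixedPoints (α := Ω)
    have hne : (fixedPoints N' Ω).Nonempty := by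
      by_contra hne
      rw [Set.not_nonempty_iff_eq_empty] at hne
      rw [hne] at hmod
      have h1 : Nat.card (∅ : Set Ω) = 0 := by simp
      rw [h1] at hmod
      rcases hodd with ⟨m, hm⟩
      have h2 : Nat.card Ω % 2 = 0 % 2 := hmod
      omega
    obtain ⟨x, hx⟩ := hne
    have hall : ∀ y : Ω, y = x := by
      intro y
      obtain ⟨n, hn⟩ := htr.exists_smul_eq x y
      rw [← hn]
      exact hx n
    have h1 : Nat.card Ω ≤ 1 := Finite.card_le_one_iff_subsingleton.mpr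
      ⟨fun u v => by rw [hall u, hall v]⟩
    omega

/-- The involutions supplied by odd degree. -/
theorem exists_swap (G N : Subgroup (Equiv.Perm Ω)) (hodd : Odd (Nat.card Ω))
    (h5 : 5 ≤ Nat.card Ω) (hG : Trans3 G) (hnorm : ∀ g ∈ G, ∀ n ∈ N, g * n * g⁻¹ ∈ N)
    (h2 : ∀ a b a' b' : Ω, a ≠ b → a' ≠ b' → ∃ n ∈ N, n a = a' ∧ n b = b') :
    ∀ a b c : Ω, a ≠ b → a ≠ c → b ≠ c → ∃ x ∈ N, x * x = 1 ∧ x a = b ∧ x b = a ∧ x c = c := by
  classical
  haveI : Fintype Ω := Fintype.ofFinite Ω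
  haveI : Fact (Nat.Prime 2) := ⟨Nat.prime_two⟩
  obtain ⟨p, q, hpq⟩ : ∃ p q : Ω, p ≠ q := by
    by_contra hc
    push Not at hc
    have h1 : Nat.card Ω ≤ 1 := Finite.card_le_one_iff_subsingleton.mpr ⟨hc⟩
    omega
  obtain ⟨n, hn, hnp, hnq⟩ := h2 p q q p hpq hpq.symm
  have hr0 : orderOf n ≠ 0 := (orderOf_pos n).ne'
  have hreven : 2 ∣ orderOf n := by
    by_contra hc
    obtain ⟨k, hk⟩ : ∃ k, orderOf n = 2 * k + 1 := ⟨orderOf n / 2, by omega⟩
    have h1 : n ^ (2 * k + 1) = 1 := by rw [← hk]; exact pow_orderOf_eq_one n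
    have h3 : (n ^ 2) p = p := by
      rw [sq, Equiv.Perm.mul_apply, hnp, hnq]
    have h4 : ∀ j : ℕ, ((n ^ 2) ^ j) p = p := by
      intro j
      induction j with
      | zero => simp
      | succ j ih => rw [pow_succ, Equiv.Perm.mul_apply, h3, ih]
    have h6 : (n ^ (2 * k + 1)) p = q := by
      rw [pow_succ', pow_mul, Equiv.Perm.mul_apply, h4, hnp]
    rw [h1] at h6
    exact hpq h6
  let s := n ^ (orderOf n / 2)
  have hsord : orderOf s = 2 := orderOf_pow_orderOf_div hr0 hreven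
  have hsN : s ∈ N := N.pow_mem hn _
  have hss : s * s = 1 := by rw [← sq, ← hsord]; exact pow_orderOf_eq_one s
  have hs1 : s ≠ 1 := by
    intro h
    rw [h, orderOf_one] at hsord
    omega
  -- a fixed point
  obtain ⟨c₀, hc₀⟩ : ∃ c, s c = c := by
    have hσ : s ^ 2 ^ 1 = 1 := by rw [pow_one, sq]; exact hss
    have h1 := Equiv.Perm.card_compl_support_modEq hσ
    by_contra hc
    push Not at hc
    have h3 : (s.support)ᶜ = ∅ := by
      ext x
      simp only [Finset.mem_compl, Equiv.Perm.mem_support, not_not, Finset.notMem_empty, iff_false]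
      exact hc x
    rw [h3, Finset.card_empty] at h1
    rw [Nat.card_eq_fintype_card] at hodd
    rcases hodd with ⟨m, hm⟩
    have h4 : 0 % 2 = Fintype.card Ω % 2 := h1
    omega
  obtain ⟨a₀, ha₀⟩ : ∃ a, s a ≠ a := by
    by_contra hc
    push Not at hc
    exact hs1 (Equiv.ext hc)
  have hsb : s (s a₀) = a₀ := by
    have : (s * s) a₀ = a₀ := by rw [hss]; rfl
    exact this
  have h1 : a₀ ≠ s a₀ := ha₀.symm
  have h3 : a₀ ≠ c₀ := by
    rintro rfl
    exact ha₀ hc₀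
  have h4 : s a₀ ≠ c₀ := by
    intro h
    have h5 := hsb
    rw [h, hc₀] at h5
    exact h3 h5.symm
  intro a b c hab hac hbc
  obtain ⟨g, hg, hg1, hg2, hg3⟩ := hG a₀ (s a₀) c₀ a b c h1 h3 h4 hab hac hbc
  have hginv : ∀ x, g⁻¹ (g x) = x := fun x => by simp
  refine ⟨g * s * g⁻¹, hnorm g hg s hsN, ?_, ?_, ?_, ?_⟩
  · have : g * s * g⁻¹ * (g * s * g⁻¹) = g * (s * s) * g⁻¹ := by group
    rw [this, hss]
    group
  · rw [← hg1, Equiv.Perm.mul_apply, Equiv.Perm.mul_apply, hginv, hg2]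
  · rw [← hg2, Equiv.Perm.mul_apply, Equiv.Perm.mul_apply, hginv, hsb, hg1]
  · rw [← hg3, Equiv.Perm.mul_apply, Equiv.Perm.mul_apply, hginv, hc₀]

/-- Conjugacy of involutions whose product has odd order. -/
theorem conj_of_odd_product {Γ : Type u} [Group Γ] (x y : Γ) (k : ℕ) (hx : x * x = 1) (hy : y * y = 1)
    (hk : (x * y) ^ (2 * k + 1) = 1) :
    ((x * y)⁻¹ ^ (k + 1)) * x * ((x * y)⁻¹ ^ (k + 1))⁻¹ = y := by
  set w := x * y with hw
  have hxinv : x⁻¹ = x := inv_eq_of_mul_eq_one_left hx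
  have hyinv : y⁻¹ = y := inv_eq_of_mul_eq_one_left hy
  have h1 : x * w⁻¹ * x⁻¹ = w := by
    rw [hw, mul_inv_rev, hxinv, hyinv]
    calc x * (y * x) * x = x * y * (x * x) := by group
      _ = x * y := by rw [hx, mul_one]
  set h := w⁻¹ ^ (k + 1) with hh
  have h2 : x * h * x⁻¹ = w ^ (k + 1) := by
    rw [hh, ← conj_pow, h1]
  have h3 : h⁻¹ = w ^ (k + 1) := by
    rw [hh, inv_pow, inv_inv]
  have h4 : x * h⁻¹ = h * x := by
    -- conjugating `w ^ (k+1)` by `x` gives `h`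
    have h5 : x * w * x⁻¹ = w⁻¹ := by
      rw [hw, mul_inv_rev, hxinv, hyinv]
      calc x * (x * y) * x = (x * x) * y * x := by group
        _ = y * x := by rw [hx, one_mul]
    have h6 : x * w ^ (k + 1) * x⁻¹ = h := by
      rw [hh, ← conj_pow, h5]
    rw [h3]
    calc x * w ^ (k + 1) = x * w ^ (k + 1) * x⁻¹ * x := by group
      _ = h * x := by rw [h6]
  have h7 : h * h = w⁻¹ := by
    have h8 : h * h = (w⁻¹) ^ (2 * k + 1) * w⁻¹ := by
      rw [hh, ← pow_add, ← pow_succ]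
      congr 1
      ring
    rw [h8, inv_pow, hk, inv_one, one_mul]
  calc h * x * h⁻¹ = h * (x * h⁻¹) := by group
    _ = h * (h * x) := by rw [h4]
    _ = (h * h) * x := by group
    _ = w⁻¹ * x := by rw [h7]
    _ = y := by
      rw [hw, mul_inv_rev, hxinv, hyinv]
      calc y * x * x = y * (x * x) := by group
        _ = y := by rw [hx, mul_one]

/-- Wagner's theorem in elementwise form. -/
theorem wagner_aux (d : ℕ) : ∀ (Ω : Type v) [Finite Ω] (G N : Subgroup (Equiv.Perm Ω)),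
    Nat.card Ω = d → Odd d → 5 ≤ d → Trans3 G → N ≤ G → (∀ g ∈ G, ∀ n ∈ N, g * n * g⁻¹ ∈ N) →
    N ≠ ⊥ → Trans3 N := by
  induction d using Nat.strong_induction_on with
  | _ d ih =>
  intro Ω _ G N hd hodd h5 hG hNG hnorm hN
  classical
  haveI : Fact (Nat.Prime 2) := ⟨Nat.prime_two⟩
  haveI : Fintype Ω := Fintype.ofFinite Ω
  have h2 := two_trans G N (by rwa [hd]) (by omega) hG hNG hnorm hN
  have hswap := exists_swap G N (by rwa [hd]) (by omega) hG hnorm h2
  suffices hkey : ∀ a b c e : Ω, a ≠ b → c ≠ a → c ≠ b → e ≠ a → e ≠ b →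
      ∃ h ∈ N, h a = a ∧ h b = b ∧ h c = e by
    intro x1 x2 x3 y1 y2 y3 h12 h13 h23 h12' h13' h23'
    obtain ⟨n, hn, hn1, hn2⟩ := h2 x1 x2 y1 y2 h12 h12'
    obtain ⟨h, hh, hh1, hh2, hh3⟩ := hkey y1 y2 (n x3) y3 h12'
      (by rw [← hn1]; exact fun e => h13 (n.injective e).symm)
      (by rw [← hn2]; exact fun e => h23 (n.injective e).symm)
      h13'.symm h23'.symm
    refine ⟨h * n, N.mul_mem hh hn, ?_, ?_, ?_⟩
    · rw [Equiv.Perm.mul_apply, hn1, hh1]
    · rw [Equiv.Perm.mul_apply, hn2, hh2]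
    · rw [Equiv.Perm.mul_apply, hh3]
  intro a b c e hab hca hcb hea heb
  -- the point stabilisers
  let Nfix : Set Ω → Subgroup (Equiv.Perm Ω) := fun T => N ⊓ fixingSubgroup (Equiv.Perm Ω) T
  have hmemfix : ∀ T x, x ∈ Nfix T ↔ x ∈ N ∧ ∀ t ∈ T, x t = t := by
    intro T x
    simp only [Nfix, Subgroup.mem_inf, mem_fixingSubgroup_iff]
    rfl
  let Nab : Subgroup (Equiv.Perm Ω) := Nfix {a, b}
  have hmemab : ∀ x, x ∈ Nab ↔ x ∈ N ∧ x a = a ∧ x b = b := by
    intro x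
    rw [hmemfix]
    simp
  obtain ⟨S, hSab, hSp, hSi⟩ := exists_sylow_in (p := 2) Nab
  by_cases hSbot : S = ⊥
  · -- the point stabiliser has odd order
    subst hSbot
    have hoddcard : ¬ 2 ∣ Nat.card Nab := by
      rwa [Subgroup.relIndex_bot_left] at hSi
    have hoddorder : ∀ w ∈ Nab, ¬ 2 ∣ orderOf w := by
      intro w hw h
      apply hoddcard
      refine h.trans ?_
      rw [← Subgroup.orderOf_mk w hw]
      exact orderOf_dvd_natCard _
    obtain ⟨x, hxN, hxx, hxa, hxb, hxc⟩ := hswap a b c hab hca.symm hcb.symm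
    obtain ⟨y, hyN, hyy, hya, hyb, hye⟩ := hswap a b e hab hea.symm heb.symm
    -- uniqueness of the fixed point of `y`
    have hunique : ∀ p q : Ω, y p = p → y q = q → p = q := by
      intro p q hp hq
      by_contra hpq
      obtain ⟨n, hn, hn1, hn2⟩ := h2 a b p q hab hpq
      have hz : n⁻¹ * y * n ∈ Nab := by
        rw [hmemab]
        refine ⟨N.mul_mem (N.mul_mem (N.inv_mem hn) hyN) hn, ?_, ?_⟩
        · rw [Equiv.Perm.mul_apply, Equiv.Perm.mul_apply, hn1, hp, ← hn1]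
          simp
        · rw [Equiv.Perm.mul_apply, Equiv.Perm.mul_apply, hn2, hq, ← hn2]
          simp
      have hzz : (n⁻¹ * y * n) ^ 2 = 1 := by
        rw [sq]
        have : n⁻¹ * y * n * (n⁻¹ * y * n) = n⁻¹ * (y * y) * n := by group
        rw [this, hyy]
        group
      have hz1 : n⁻¹ * y * n ≠ 1 := by
        intro h
        have h3 : y = 1 := by
          have : y = n * (n⁻¹ * y * n) * n⁻¹ := by group
          rw [this, h]
          group
        rw [h3] at hya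
        exact hab hya
      have hord : orderOf (n⁻¹ * y * n) = 2 := orderOf_eq_prime hzz hz1
      apply hoddorder _ hz
      rw [hord]
    have hw : x * y ∈ Nab := by
      rw [hmemab]
      refine ⟨N.mul_mem hxN hyN, ?_, ?_⟩
      · rw [Equiv.Perm.mul_apply, hya, hxb]
      · rw [Equiv.Perm.mul_apply, hyb, hxa]
    obtain ⟨k, hk⟩ : ∃ k, orderOf (x * y) = 2 * k + 1 := by
      have := hoddorder _ hw
      exact ⟨orderOf (x * y) / 2, by omega⟩
    have hpow : (x * y) ^ (2 * k + 1) = 1 := by rw [← hk]; exact pow_orderOf_eq_one _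
    have hconj := conj_of_odd_product x y k hxx hyy hpow
    set h := (x * y)⁻¹ ^ (k + 1) with hh
    have hhN : h ∈ Nab := Nab.pow_mem (Nab.inv_mem hw) _
    obtain ⟨hhN1, hha, hhb⟩ := (hmemab h).mp hhN
    refine ⟨h, hhN1, hha, hhb, ?_⟩
    apply hunique _ _ _ hye
    rw [← hconj]
    simp [Equiv.Perm.mul_apply, hxc]
  -- now `S` is nontrivial
  have hSN : S ≤ N := fun s hs => ((hmemab s).mp (hSab hs)).1
  let F : Set Ω := fixedPoints S Ω
  have hFmem : ∀ x, x ∈ F ↔ ∀ s ∈ S, s x = x := by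
    intro x
    constructor
    · intro hx s hs
      exact hx ⟨s, hs⟩
    · intro hx s
      exact hx s s.2
  have haF : a ∈ F := (hFmem a).mpr fun s hs => ((hmemab s).mp (hSab hs)).2.1
  have hbF : b ∈ F := (hFmem b).mpr fun s hs => ((hmemab s).mp (hSab hs)).2.2
  have hFodd : Odd (Nat.card F) := by
    have hmod := hSp.card_modEq_card_fixedPoints (α := Ω)
    rw [hd] at hmod
    rcases hodd with ⟨m, hm⟩
    have h3 : d % 2 = Nat.card F % 2 := hmod
    exact Nat.odd_iff.mpr (by omega)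
  have hFlt : Nat.card F < d := by
    obtain ⟨s, hs, hs1⟩ := S.bot_or_exists_ne_one.resolve_left hSbot
    obtain ⟨p, hp⟩ : ∃ p, s p ≠ p := by
      by_contra hc
      push Not at hc
      exact hs1 (Equiv.ext hc)
    have hpF : p ∉ F := fun h => hp ((hFmem p).mp h s hs)
    rw [← hd, Nat.card_eq_fintype_card, Nat.card_eq_fintype_card]
    exact Fintype.card_lt_of_injective_of_notMem (fun x : F => (x : Ω)) Subtype.coe_injective
      (b := p) (by
        rintro ⟨x, rfl⟩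
        exact hpF x.2)
  have hF2 : 3 ≤ Nat.card F := by
    have h3 : 2 ≤ Nat.card F := by
      rw [Nat.card_eq_fintype_card]
      have : Fintype.card F ≥ ({⟨a, haF⟩, ⟨b, hbF⟩} : Finset F).card := Finset.card_le_univ _
      rw [Finset.card_pair (fun h => hab (congrArg Subtype.val h))] at this
      exact this
    rcases hFodd with ⟨m, hm⟩
    omega
  -- odd index in the other stabilisers
  have hidx2 : ∀ y1 y2 : Ω, y1 ∈ F → y2 ∈ F → y1 ≠ y2 → ¬ 2 ∣ S.relIndex (Nfix {y1, y2}) := by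
    intro y1 y2 hy1 hy2 hy12
    obtain ⟨n, hn, hn1, hn2⟩ := h2 a b y1 y2 hab hy12
    have hmap : Nfix {y1, y2} = Nab.map (MulAut.conj n).toMonoidHom := by
      ext x
      constructor
      · intro hx
        obtain ⟨hxN, hxf⟩ := (hmemfix _ _).mp hx
        refine ⟨n⁻¹ * x * n, ?_, ?_⟩
        · show n⁻¹ * x * n ∈ Nab
          rw [hmemab]
          have hnn : n⁻¹⁻¹ = n := inv_inv n
          refine ⟨?_, ?_, ?_⟩
          · have := hnorm n⁻¹ (G.inv_mem (hNG hn)) x hxN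
            rwa [hnn] at this
          · have h3 := hxf y1 (by simp)
            rw [Equiv.Perm.mul_apply, Equiv.Perm.mul_apply, hn1, h3, ← hn1]
            simp
          · have h3 := hxf y2 (by simp)
            rw [Equiv.Perm.mul_apply, Equiv.Perm.mul_apply, hn2, h3, ← hn2]
            simp
        · simp [MulAut.conj_apply]
          group
      · rintro ⟨z, hz, rfl⟩
        obtain ⟨hzN, hza, hzb⟩ := (hmemab z).mp hz
        rw [hmemfix]
        refine ⟨hnorm n (hNG hn) z hzN, ?_⟩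
        intro t ht
        rcases ht with rfl | rfl
        · show (n * z * n⁻¹) t = t
          rw [← hn1, Equiv.Perm.mul_apply, Equiv.Perm.mul_apply]
          simp [hza]
        · show (n * z * n⁻¹) t = t
          rw [← hn2, Equiv.Perm.mul_apply, Equiv.Perm.mul_apply]
          simp [hzb]
    have hcard : Nat.card (Nfix {y1, y2}) = Nat.card Nab := by
      rw [hmap]
      exact Subgroup.card_map_of_injective (MulAut.conj n).injective
    have hSy : S ≤ Nfix {y1, y2} := by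
      intro s hs
      rw [hmemfix]
      refine ⟨hSN hs, ?_⟩
      intro t ht
      rcases ht with rfl | rfl
      · exact (hFmem _).mp hy1 s hs
      · exact (hFmem _).mp hy2 s hs
    have h3 := relIndex_card S _ hSy
    have h4 := relIndex_card S _ hSab
    rw [hcard, ← h4] at h3
    have h6 : 0 < Nat.card S := Nat.card_pos
    rw [Nat.eq_of_mul_eq_mul_right h6 h3]
    exact hSi
  have hidx3 : ∀ y1 y2 y3 : Ω, y1 ∈ F → y2 ∈ F → y3 ∈ F → y1 ≠ y2 →
      ¬ 2 ∣ S.relIndex (Nfix {y1, y2, y3}) := by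
    intro y1 y2 y3 hy1 hy2 hy3 hy12 hdvd
    apply hidx2 y1 y2 hy1 hy2 hy12
    have hSy : S ≤ Nfix {y1, y2, y3} := by
      intro s hs
      rw [hmemfix]
      refine ⟨hSN hs, ?_⟩
      intro t ht
      rcases ht with rfl | rfl | rfl
      · exact (hFmem _).mp hy1 s hs
      · exact (hFmem _).mp hy2 s hs
      · exact (hFmem _).mp hy3 s hs
    have hle : Nfix {y1, y2, y3} ≤ Nfix {y1, y2} := by
      intro x hx
      obtain ⟨h3, h4⟩ := (hmemfix _ _).mp hx
      rw [hmemfix]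
      refine ⟨h3, fun t ht => h4 t ?_⟩
      rcases ht with rfl | rfl
      · simp
      · simp
    rw [← Subgroup.relIndex_mul_relIndex S _ _ hSy hle]
    exact hdvd.mul_right _
  -- the restricted groups
  let G₁ : Subgroup (Equiv.Perm F) := resGroup G S
  let N₁ : Subgroup (Equiv.Perm F) := resGroup N S
  have hN₁G₁ : N₁ ≤ G₁ := by
    rintro π ⟨g, hg, hn, hπ⟩
    exact ⟨g, hNG hg, hn, hπ⟩
  have hnorm₁ : ∀ g ∈ G₁, ∀ n ∈ N₁, g * n * g⁻¹ ∈ N₁ := by
    rintro π ⟨g, hg, hgn, hπ⟩ ν ⟨n, hn, hnn, hν⟩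
    refine ⟨g * n * g⁻¹, hnorm g hg n hn, fun s => ?_, fun x => ?_⟩
    · have hgN : g ∈ Subgroup.normalizer (S : Set (Equiv.Perm Ω)) := Subgroup.mem_normalizer_iff.mpr hgn
      have hnN : n ∈ Subgroup.normalizer (S : Set (Equiv.Perm Ω)) := Subgroup.mem_normalizer_iff.mpr hnn
      exact Subgroup.mem_normalizer_iff.mp
        (Subgroup.mul_mem _ (Subgroup.mul_mem _ hgN hnN) (Subgroup.inv_mem _ hgN)) s
    · have h3 : g (π⁻¹ x) = x := by
        rw [← hπ]
        simp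
      have h4 : g⁻¹ (x : Ω) = (π⁻¹ x : F) := by
        rw [Equiv.Perm.inv_eq_iff_eq, h3]
      show ((π (ν (π⁻¹ x)) : F) : Ω) = g (n (g⁻¹ x))
      rw [hπ, hν, h4]
  have hN₁ : N₁ ≠ ⊥ := by
    obtain ⟨n, hn, hn1, hn2⟩ := h2 a b b a hab hab.symm
    obtain ⟨h, hh, hu⟩ := conj_sylow Nab S n hSab (by
      intro s hs
      obtain ⟨h3, h4, h6⟩ := (hmemab s).mp (hSab hs)
      rw [hmemab]
      refine ⟨hnorm n (hNG hn) s h3, ?_, ?_⟩
      · rw [← hn2, Equiv.Perm.mul_apply, Equiv.Perm.mul_apply]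
        simp [h6]
      · rw [← hn1, Equiv.Perm.mul_apply, Equiv.Perm.mul_apply]
        simp [h4]) hSp hSi
    obtain ⟨hhN, hha, hhb⟩ := (hmemab h).mp hh
    obtain ⟨π, hπ, hπx⟩ := exists_res (N.mul_mem hhN hn) hu
    intro hbot
    have hπ1 : π = 1 := by
      have : π ∈ (⊥ : Subgroup (Equiv.Perm F)) := by
        rw [← hbot]
        exact hπ
      exact this
    have h3 := hπx ⟨a, haF⟩
    rw [hπ1] at h3
    have h4 : a = (h * n) a := h3
    rw [Equiv.Perm.mul_apply, hn1, hhb] at h4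
    exact hab h4
  have hG₁ : Trans3 G₁ := by
    intro x1 x2 x3 y1 y2 y3 h12 h13 h23 h12' h13' h23'
    have hy12 : (y1 : Ω) ≠ y2 := fun h => h12' (Subtype.ext h)
    have hy13 : (y1 : Ω) ≠ y3 := fun h => h13' (Subtype.ext h)
    have hy23 : (y2 : Ω) ≠ y3 := fun h => h23' (Subtype.ext h)
    obtain ⟨g, hg, hg1, hg2, hg3⟩ := hG (x1 : Ω) x2 x3 y1 y2 y3
      (fun h => h12 (Subtype.ext h)) (fun h => h13 (Subtype.ext h)) (fun h => h23 (Subtype.ext h))
      hy12 hy13 hy23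
    let K := Nfix {(y1 : Ω), (y2 : Ω), (y3 : Ω)}
    have hSK : S ≤ K := by
      intro s hs
      rw [hmemfix]
      refine ⟨hSN hs, ?_⟩
      intro t ht
      rcases ht with rfl | rfl | rfl
      · exact (hFmem _).mp y1.2 s hs
      · exact (hFmem _).mp y2.2 s hs
      · exact (hFmem _).mp y3.2 s hs
    obtain ⟨h, hh, hu⟩ := conj_sylow K S g hSK (by
      intro s hs
      rw [hmemfix]
      refine ⟨hnorm g hg s (hSN hs), ?_⟩
      have hfixx : ∀ (x y : F), g x = y → (g * s * g⁻¹) (y : Ω) = y := by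
        intro x y hxy
        rw [← hxy, Equiv.Perm.mul_apply, Equiv.Perm.mul_apply]
        have := (hFmem _).mp x.2 s hs
        simp [this]
      intro t ht
      rcases ht with rfl | rfl | rfl
      · exact hfixx x1 y1 hg1
      · exact hfixx x2 y2 hg2
      · exact hfixx x3 y3 hg3) hSp (hidx3 _ _ _ y1.2 y2.2 y3.2 hy12)
    obtain ⟨hhN, hhf⟩ := (hmemfix _ _).mp hh
    obtain ⟨π, hπ, hπx⟩ := exists_res (G.mul_mem (hNG hhN) hg) hu
    refine ⟨π, hπ, Subtype.ext ?_, Subtype.ext ?_, Subtype.ext ?_⟩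
    · rw [hπx, Equiv.Perm.mul_apply, hg1]
      exact hhf _ (by simp)
    · rw [hπx, Equiv.Perm.mul_apply, hg2]
      exact hhf _ (by simp)
    · rw [hπx, Equiv.Perm.mul_apply, hg3]
      exact hhf _ (by simp)
  -- transitivity on the fixed points
  have hFtrans : ∀ c' e' : Ω, c' ∈ F → e' ∈ F → c' ≠ a → c' ≠ b → e' ≠ a → e' ≠ b →
      ∃ h ∈ N, h a = a ∧ h b = b ∧ h c' = e' := by
    intro c' e' hc' he' hca' hcb' hea' heb'
    rcases Nat.lt_or_ge (Nat.card F) 5 with hF5 | hF5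
    · refine ⟨1, N.one_mem, rfl, rfl, ?_⟩
      by_contra hne
      have hne' : c' ≠ e' := hne
      have h3 : Nat.card F = 3 := by
        rcases hFodd with ⟨m, hm⟩
        omega
      have h4 : ({⟨a, haF⟩, ⟨b, hbF⟩, ⟨c', hc'⟩, ⟨e', he'⟩} : Finset F).card = 4 := by
        rw [Finset.card_insert_of_notMem, Finset.card_insert_of_notMem, Finset.card_pair]
        · exact fun h => hne' (congrArg Subtype.val h)
        · simp only [Finset.mem_insert, Finset.mem_singleton, not_or]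
          exact ⟨fun h => hcb' (congrArg Subtype.val h).symm, fun h => heb' (congrArg Subtype.val h).symm⟩
        · simp only [Finset.mem_insert, Finset.mem_singleton, not_or]
          exact ⟨fun h => hab (congrArg Subtype.val h), fun h => hca' (congrArg Subtype.val h).symm,
            fun h => hea' (congrArg Subtype.val h).symm⟩
      have h6 := Finset.card_le_univ ({⟨a, haF⟩, ⟨b, hbF⟩, ⟨c', hc'⟩, ⟨e', he'⟩} : Finset F)
      rw [h4, ← Nat.card_eq_fintype_card, h3] at h6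
      omega
    · have h3 := ih (Nat.card F) hFlt F G₁ N₁ rfl hFodd hF5 hG₁ hN₁G₁ hnorm₁ hN₁
      obtain ⟨π, ⟨g, hg, _, hπ⟩, h4, h6, h7⟩ := h3 ⟨a, haF⟩ ⟨b, hbF⟩ ⟨c', hc'⟩ ⟨a, haF⟩ ⟨b, hbF⟩ ⟨e', he'⟩
        (fun h => hab (congrArg Subtype.val h)) (fun h => hca' (congrArg Subtype.val h).symm)
        (fun h => hcb' (congrArg Subtype.val h).symm)
        (fun h => hab (congrArg Subtype.val h)) (fun h => hea' (congrArg Subtype.val h).symm)
        (fun h => heb' (congrArg Subtype.val h).symm)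
      refine ⟨g, hg, ?_, ?_, ?_⟩
      · rw [← hπ ⟨a, haF⟩]
        exact congrArg Subtype.val h4
      · rw [← hπ ⟨b, hbF⟩]
        exact congrArg Subtype.val h6
      · rw [← hπ ⟨c', hc'⟩]
        exact congrArg Subtype.val h7
  -- every point is in the orbit of a fixed point of `S`
  obtain ⟨c₀, hc₀F, hc₀a, hc₀b⟩ : ∃ c₀ : Ω, c₀ ∈ F ∧ c₀ ≠ a ∧ c₀ ≠ b := by
    by_contra hcon
    push Not at hcon
    have h3 : Nat.card F ≤ 2 := by
      rw [Nat.card_eq_fintype_card]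
      have hsub : (Finset.univ : Finset F) ⊆ {⟨a, haF⟩, ⟨b, hbF⟩} := by
        intro x _
        by_cases hxa : (x : Ω) = a
        · simp [Subtype.ext_iff, hxa]
        · have := hcon x x.2 hxa
          simp [Subtype.ext_iff, this]
      calc Fintype.card F = (Finset.univ : Finset F).card := rfl
        _ ≤ _ := Finset.card_le_card hsub
        _ ≤ 2 := Finset.card_le_two
    omega
  have hreach : ∀ e' : Ω, e' ≠ a → e' ≠ b → ∃ c' ∈ F, c' ≠ a ∧ c' ≠ b ∧
      ∃ h ∈ N, h a = a ∧ h b = b ∧ h c' = e' := by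
    intro e' hea' heb'
    obtain ⟨g, hg, hg1, hg2, hg3⟩ := hG a b c₀ a b e' hab hc₀a.symm hc₀b.symm hab hea'.symm heb'.symm
    have hginv1 : g⁻¹ a = a := by rw [Equiv.Perm.inv_eq_iff_eq, hg1]
    have hginv2 : g⁻¹ b = b := by rw [Equiv.Perm.inv_eq_iff_eq, hg2]
    obtain ⟨h, hh, hu⟩ := conj_sylow Nab S g hSab (by
      intro s hs
      obtain ⟨h3, h4, h6⟩ := (hmemab s).mp (hSab hs)
      rw [hmemab]
      refine ⟨hnorm g hg s h3, ?_, ?_⟩
      · rw [Equiv.Perm.mul_apply, Equiv.Perm.mul_apply, hginv1, h4, hg1]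
      · rw [Equiv.Perm.mul_apply, Equiv.Perm.mul_apply, hginv2, h6, hg2]) hSp hSi
    obtain ⟨hhN, hha, hhb⟩ := (hmemab h).mp hh
    obtain ⟨π, hπ, hπx⟩ := exists_res (G.mul_mem (hNG hhN) hg) hu
    have hmemF : (h * g) c₀ ∈ F := by
      rw [← hπx ⟨c₀, hc₀F⟩]
      exact (π ⟨c₀, hc₀F⟩).2
    refine ⟨(h * g) c₀, hmemF, ?_, ?_, h⁻¹, N.inv_mem hhN, ?_, ?_, ?_⟩
    · intro h3
      apply hc₀a
      apply (h * g).injective
      rw [h3, Equiv.Perm.mul_apply, hg1, hha]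
    · intro h3
      apply hc₀b
      apply (h * g).injective
      rw [h3, Equiv.Perm.mul_apply, hg2, hhb]
    · rw [Equiv.Perm.inv_eq_iff_eq, hha]
    · rw [Equiv.Perm.inv_eq_iff_eq, hhb]
    · rw [Equiv.Perm.inv_eq_iff_eq, Equiv.Perm.mul_apply, hg3]
  obtain ⟨c₁, hc₁F, hc₁a, hc₁b, h₁, hh₁, hh₁a, hh₁b, hh₁c⟩ := hreach c hca hcb
  obtain ⟨c₂, hc₂F, hc₂a, hc₂b, h₂, hh₂, hh₂a, hh₂b, hh₂c⟩ := hreach e hea heb
  obtain ⟨h, hh, hha, hhb, hhc⟩ := hFtrans c₁ c₂ hc₁F hc₂F hc₁a hc₁b hc₂a hc₂b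
  refine ⟨h₂ * h * h₁⁻¹, N.mul_mem (N.mul_mem hh₂ hh) (N.inv_mem hh₁), ?_, ?_, ?_⟩
  · have h3 : h₁⁻¹ a = a := by rw [Equiv.Perm.inv_eq_iff_eq, hh₁a]
    rw [Equiv.Perm.mul_apply, Equiv.Perm.mul_apply, h3, hha, hh₂a]
  · have h3 : h₁⁻¹ b = b := by rw [Equiv.Perm.inv_eq_iff_eq, hh₁b]
    rw [Equiv.Perm.mul_apply, Equiv.Perm.mul_apply, h3, hhb, hh₂b]
  · have h3 : h₁⁻¹ c = c₁ := by rw [Equiv.Perm.inv_eq_iff_eq, hh₁c]
    rw [Equiv.Perm.mul_apply, Equiv.Perm.mul_apply, h3, hhc, hh₂c]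

end wagner

end Cfsg.Agent.Lib.H1Wagner
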