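import Cfsg.Prelude.Def_LieExceptional
import Cfsg.Agent.Lib.H1JordanN
import Mathlib

set_option autoImplicit false

/-! Basic facts on Zassenhaus groups. -/

namespace Cfsg.Agent.Lib.H1Zass

open MulAction Cfsg.Agent.Lib.H1JordanN

variable {G Ω : Type*} [Group G] [MulAction G Ω]

/-- In a group where non-identity elements have at most two fixed points, with a doubly transitive
action on a finite set, two involutions with the same two fixed points are equal. -/
theorem unique_involution [Fintype Ω] (hf : FaithfulSMul G Ω)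
    (h2 : IsMultiplyPretransitive G Ω 2)
    (h3 : ∀ g : G, ∀ a b c : Ω, a ≠ b → b ≠ c → a ≠ c → g • a = a → g • b = b → g • c = c → g = 1)
    {c d : Ω} (hcd : c ≠ d) {u v : G} (huc : u • c = c) (hud : u • d = d) (hu2 : u * u = 1)
    (hu1 : u ≠ 1) (hvc : v • c = c) (hvd : v • d = d) (hv2 : v * v = 1) (hv1 : v ≠ 1) : u = v := by
  classical
  by_contra huv
  have hmove : ∀ p : {p : Ω // p ≠ c ∧ p ≠ d}, ∃ g : G, g • c = c ∧ g • d = p.1 := fun p =>
    exists_move2 h2 hcd p.2.1.symm
  choose g hg1 hg2 using hmove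
  -- conjugates
  let w : {p : Ω // p ≠ c ∧ p ≠ d} × Bool → G := fun x =>
    g x.1 * (if x.2 then u else v) * (g x.1)⁻¹
  have hbase : ∀ b : Bool, (if b then u else v) • c = c ∧ (if b then u else v) • d = d ∧
      (if b then u else v) * (if b then u else v) = 1 ∧ (if b then u else v) ≠ 1 := by
    intro b
    cases b
    · exact ⟨hvc, hvd, hv2, hv1⟩
    · exact ⟨huc, hud, hu2, hu1⟩
  have hwc : ∀ x, w x • c = c := by
    intro x
    have h1 : (g x.1)⁻¹ • c = c := by rw [inv_smul_eq_iff, hg1]
    simp only [w, mul_smul, h1, (hbase x.2).1, hg1]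
  have hwp : ∀ x, w x • (x.1 : Ω) = x.1 := by
    intro x
    have h1 : (g x.1)⁻¹ • (x.1 : Ω) = d := by rw [inv_smul_eq_iff, hg2]
    simp only [w, mul_smul, h1, (hbase x.2).2.1, hg2]
  have hw2 : ∀ x, w x * w x = 1 := by
    intro x
    have := (hbase x.2).2.2.1
    simp only [w]
    calc g x.1 * (if x.2 then u else v) * (g x.1)⁻¹ * (g x.1 * (if x.2 then u else v) * (g x.1)⁻¹)
        = g x.1 * ((if x.2 then u else v) * (if x.2 then u else v)) * (g x.1)⁻¹ := by group
      _ = 1 := by rw [this]; group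
  have hw1 : ∀ x, w x ≠ 1 := by
    intro x h
    apply (hbase x.2).2.2.2
    have h' : g x.1 * (if x.2 then u else v) * (g x.1)⁻¹ = 1 := h
    rw [mul_inv_eq_one, mul_eq_left] at h'
    exact h'
  have hwd : ∀ x, w x • d ≠ d := by
    intro x h
    exact hw1 x (h3 _ c d x.1 hcd (Ne.symm x.1.2.2) (Ne.symm x.1.2.1) (hwc x) h (hwp x))
  have hwdc : ∀ x, w x • d ≠ c := by
    intro x h
    apply hcd
    have h1 := hwc x
    exact smul_left_cancel (w x) (h1.trans h.symm)
  let ψ : {p : Ω // p ≠ c ∧ p ≠ d} × Bool → {p : Ω // p ≠ c ∧ p ≠ d} := fun x =>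
    ⟨w x • d, hwdc x, hwd x⟩
  have hψ : Function.Injective ψ := by
    intro x x' hxx
    have hval : w x • d = w x' • d := congrArg Subtype.val hxx
    have hww : w x = w x' := by
      -- agree on c, d, y
      have hy1 : w x • (w x • d) = d := by rw [← mul_smul, hw2, one_smul]
      have hy2 : w x' • (w x • d) = d := by rw [hval, ← mul_smul, hw2, one_smul]
      have hfix := h3 ((w x')⁻¹ * w x) c d (w x • d) hcd (hwd x).symm (hwdc x).symm
        (by rw [mul_smul, hwc, inv_smul_eq_iff, hwc])
        (by rw [mul_smul, hval, inv_smul_smul])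
        (by rw [mul_smul, hy1, inv_smul_eq_iff, hy2])
      rw [inv_mul_eq_one] at hfix
      exact hfix.symm
    have hp : x.1 = x'.1 := by
      by_contra hne
      have hne' : (x.1 : Ω) ≠ x'.1 := fun e => hne (Subtype.ext e)
      have hfx : w x • (x'.1 : Ω) = x'.1 := by rw [hww]; exact hwp x'
      exact hw1 x (h3 _ c x.1 x'.1 (Ne.symm x.1.2.1) hne' (Ne.symm x'.1.2.1) (hwc x) (hwp x) hfx)
    obtain ⟨p, b⟩ := x
    obtain ⟨p', b'⟩ := x'
    simp only at hp
    subst hp
    have hbb : b = b' := by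
      by_contra hne
      have hww' : g p * (if b then u else v) * (g p)⁻¹ = g p * (if b' then u else v) * (g p)⁻¹ := hww
      have h6 : (if b then u else v) = (if b' then u else v) := by
        have := mul_right_cancel hww'
        exact mul_left_cancel this
      cases b <;> cases b' <;> simp_all
    rw [hbb]
  have hcard := Fintype.card_le_of_injective ψ hψ
  rw [Fintype.card_prod, Fintype.card_bool] at hcard
  have hpos : 0 < Fintype.card {p : Ω // p ≠ c ∧ p ≠ d} := by
    obtain ⟨x, hx⟩ : ∃ x : Ω, u • x ≠ x := by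
      by_contra hcon
      push Not at hcon
      apply hu1
      apply hf.eq_of_smul_eq_smul
      intro y
      rw [hcon y, one_smul]
    have hxc : x ≠ c := fun e => hx (by rw [e, huc])
    have hxd : x ≠ d := fun e => hx (by rw [e, hud])
    exact Fintype.card_pos_iff.mpr ⟨⟨x, hxc, hxd⟩⟩
  omega

/-- Counting lemma for S0741. -/
theorem two_stab_bound [Fintype Ω] [Finite G] (hf : FaithfulSMul G Ω)
    (h2 : IsMultiplyPretransitive G Ω 2)
    (h3 : ∀ g : G, ∀ a b c : Ω, a ≠ b → b ≠ c → a ≠ c → g • a = a → g • b = b → g • c = c → g = 1)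
    {a b : Ω} (hab : a ≠ b) (heven : Even (Nat.card ↥(stabilizer G a ⊓ stabilizer G b))) :
    Fintype.card Ω - 2 ≤ 2 * Nat.card ↥(stabilizer G a ⊓ stabilizer G b) := by
  classical
  set H := stabilizer G a ⊓ stabilizer G b with hH
  have hpos : 0 < Nat.card H := Nat.card_pos
  have h2dvd : 2 ∣ Nat.card H := heven.two_dvd
  obtain ⟨x, hx⟩ := exists_prime_orderOf_dvd_card' (G := H) 2 h2dvd
  have hzo : orderOf (x : G) = 2 := by rw [Subgroup.orderOf_coe, hx]
  set z : G := (x : G) with hz
  have hz2 : z * z = 1 := by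
    rw [← sq, ← hzo]
    exact pow_orderOf_eq_one z
  have hz1 : z ≠ 1 := by
    intro h
    rw [h, orderOf_one] at hzo
    omega
  have hza : z • a = a := (x.2).1
  have hzb : z • b = b := (x.2).2
  have hzz : ∀ y : Ω, z • (z • y) = y := fun y => by rw [← mul_smul, hz2, one_smul]
  have hzc : ∀ c : Ω, c ≠ a → c ≠ b → z • c ≠ c := by
    intro c hca hcb h
    exact hz1 (h3 z a b c hab (Ne.symm hcb) (Ne.symm hca) hza hzb h)
  -- the involutions
  have hy : ∀ c : {c : Ω // c ≠ a ∧ c ≠ b}, ∃ y : G, y • (c : Ω) = c ∧ y • (z • (c : Ω)) = z • (c : Ω)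
      ∧ y • a = b ∧ y • b = a ∧ y ≠ 1 := by
    rintro ⟨c, hca, hcb⟩
    have hne := hzc c hca hcb
    obtain ⟨g, hg1, hg2⟩ := exists_move2 h2 hab (a' := c) (b' := z • c) hne.symm
    set y : G := g * z * g⁻¹ with hy
    have hg1' : g⁻¹ • c = a := by rw [inv_smul_eq_iff, hg1]
    have hg2' : g⁻¹ • (z • c) = b := by rw [inv_smul_eq_iff, hg2]
    have hy1 : y • c = c := by
      simp only [hy, mul_smul, hg1', hza, hg1]
    have hy2 : y • (z • c) = z • c := by
      simp only [hy, mul_smul, hg2', hzb, hg2]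
    have hy3 : y * y = 1 := by
      calc y * y = g * (z * z) * g⁻¹ := by rw [hy]; group
        _ = 1 := by rw [hz2]; group
    have hy4 : y ≠ 1 := by
      intro h
      apply hz1
      have h' : g * z * g⁻¹ = 1 := h
      rw [mul_inv_eq_one, mul_eq_left] at h'
      exact h'
    -- conjugate by z
    have hcomm : z * y * z⁻¹ = y := by
      have hzinv : z⁻¹ = z := by
        rw [inv_eq_iff_mul_eq_one]; exact hz2
      apply unique_involution hf h2 h3 hne.symm (u := z * y * z⁻¹) (v := y)
      · rw [hzinv, mul_smul, mul_smul, hy2, hzz]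
      · rw [hzinv, mul_smul, mul_smul, hzz, hy1]
      · calc z * y * z⁻¹ * (z * y * z⁻¹) = z * (y * y) * z⁻¹ := by group
          _ = 1 := by rw [hy3]; group
      · intro h
        apply hy4
        rw [mul_inv_eq_one, mul_eq_left] at h
        exact h
      · exact hy1
      · exact hy2
      · exact hy3
      · exact hy4
    have hcomm' : z * y = y * z := by
      rw [mul_inv_eq_iff_eq_mul] at hcomm
      exact hcomm
    have hfixp : z • (y • a) = y • a := by
      rw [← mul_smul, hcomm', mul_smul, hza]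
    have hne1 : a ≠ c := Ne.symm hca
    have hne2 : a ≠ z • c := by
      intro e
      apply hca
      exact smul_left_cancel z (hza.trans e).symm
    have hya : y • a ≠ a := fun e => hy4 (h3 y a c (z • c) hne1 hne.symm hne2 e hy1 hy2)
    have hyab : y • a = b := by
      by_contra hcon
      exact hzc _ hya hcon hfixp
    have hyb : y • b = a := by
      rw [← hyab, ← mul_smul, hy3, one_smul]
    exact ⟨y, hy1, hy2, hyab, hyb, hy4⟩
  choose y hy1 hy2 hy3 hy4 hy5 using hy
  have hXcard : Fintype.card {c : Ω // c ≠ a ∧ c ≠ b} = Fintype.card Ω - 2 := by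
    rw [Fintype.card_subtype]
    have : (Finset.univ.filter (fun c : Ω => c ≠ a ∧ c ≠ b)) = Finset.univ \ {a, b} := by
      ext c
      simp
    rw [this, Finset.card_sdiff_of_subset (Finset.subset_univ _), Finset.card_univ,
      Finset.card_pair hab]
  by_cases hemp : IsEmpty {c : Ω // c ≠ a ∧ c ≠ b}
  · rw [← hXcard, Fintype.card_eq_zero]
    exact Nat.zero_le _
  rw [not_isEmpty_iff] at hemp
  obtain ⟨c₀⟩ := hemp
  let f : {c : Ω // c ≠ a ∧ c ≠ b} → H := fun c => ⟨(y c₀)⁻¹ * y c, by
    refine ⟨?_, ?_⟩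
    · change ((y c₀)⁻¹ * y c) • a = a
      rw [mul_smul, hy3, inv_smul_eq_iff, hy3]
    · change ((y c₀)⁻¹ * y c) • b = b
      rw [mul_smul, hy4, inv_smul_eq_iff, hy4]⟩
  haveI : Fintype H := Fintype.ofFinite H
  have hbound := Finset.card_le_mul_card_image (f := f) Finset.univ 2 (by
    intro e he
    obtain ⟨c, -, rfl⟩ := Finset.mem_image.mp he
    have hzcc : z • (c : Ω) ≠ a ∧ z • (c : Ω) ≠ b := by
      constructor
      · intro h
        exact c.2.1 (smul_left_cancel z (h.trans hza.symm))
      · intro h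
        exact c.2.2 (smul_left_cancel z (h.trans hzb.symm))
    have hsub : (Finset.univ.filter (fun x => f x = f c)) ⊆ {c, ⟨z • (c : Ω), hzcc⟩} := by
      intro c' hc'
      have h1 : f c' = f c := (Finset.mem_filter.mp hc').2
      have h2 : y c' = y c := by
        have := congrArg Subtype.val h1
        exact mul_left_cancel this
      rw [Finset.mem_insert, Finset.mem_singleton]
      by_contra hcon
      push Not at hcon
      have hn1 : (c : Ω) ≠ z • (c : Ω) := (hzc _ c.2.1 c.2.2).symm
      have hn2 : (c' : Ω) ≠ c := fun h => hcon.1 (Subtype.ext h)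
      have hn3 : (c' : Ω) ≠ z • (c : Ω) := fun h => hcon.2 (Subtype.ext h)
      exact hy5 c (h3 (y c) c (z • (c : Ω)) c' hn1 (Ne.symm hn3) (Ne.symm hn2) (hy1 c) (hy2 c)
        (by rw [← h2]; exact hy1 c'))
    exact (Finset.card_le_card hsub).trans Finset.card_le_two)
  rw [Finset.card_univ, hXcard] at hbound
  have himg : (Finset.univ.image f).card ≤ Nat.card H := by
    rw [Nat.card_eq_fintype_card]
    exact Finset.card_le_univ _
  exact hbound.trans (Nat.mul_le_mul_left 2 himg)

end Cfsg.Agent.Lib.H1Zass
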