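import Cfsg.Prelude.Def_LieExceptional
import Cfsg.Prelude.Def_Solvable
import Cfsg.Agent.Lib.H1JordanN
import Cfsg.Agent.Lib.H1FrobThm
import Mathlib

set_option autoImplicit false

/-! Zassenhaus groups: the Frobenius kernels of point stabilisers and normal subgroups. -/

namespace Cfsg.Agent.Lib.H1Zass2

open MulAction Cfsg Cfsg.Agent.Lib.H1JordanN
open scoped Pointwise

variable {G Ω : Type*} [Group G] [MulAction G Ω]

/-- The Frobenius kernel of a point stabiliser in a 2-transitive group in which non-identity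
elements have at most two fixed points. -/
theorem exists_kernel [Finite G] [Finite Ω]
    (h2 : ∀ {a b a' b' : Ω}, a ≠ b → a' ≠ b' → ∃ g : G, g • a = a' ∧ g • b = b')
    (h3 : ∀ g : G, ∀ a b c : Ω, a ≠ b → b ≠ c → a ≠ c → g • a = a → g • b = b → g • c = c → g = 1)
    {a b c₀ : Ω} (hab : a ≠ b) (hac₀ : a ≠ c₀) (hbc₀ : b ≠ c₀)
    {x₀ : G} (hx₀ : x₀ ≠ 1) (hx₀a : x₀ • a = a) (hx₀b : x₀ • b = b) :
    ∃ U : Subgroup G,
      (∀ x, x ∈ U ↔ x • a = a ∧ (x = 1 ∨ ∀ c, c ≠ a → x • c ≠ c)) ∧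
      (∀ g : G, g • a = a → ∀ u ∈ U, g * u * g⁻¹ ∈ U) ∧
      (∀ c d : Ω, c ≠ a → d ≠ a → ∃ u ∈ U, u • c = d) := by
  classical
  let Γ : Subgroup G := stabilizer G a
  let X : Subgroup Γ := stabilizer Γ b
  have hmove : ∀ c, c ≠ a → ∃ g : Γ, g • b = c := by
    intro c hc
    obtain ⟨g, hg1, hg2⟩ := h2 hab (Ne.symm hc)
    exact ⟨⟨g, hg1⟩, hg2⟩
  have hX : IsFrobeniusComplement X := by
    refine ⟨?_, ?_, ?_⟩
    · intro e
      have : (⟨x₀, hx₀a⟩ : Γ) ∈ X := hx₀b
      rw [e, Subgroup.mem_bot] at this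
      exact hx₀ (congrArg Subtype.val this)
    · intro e
      obtain ⟨g, hg⟩ := hmove c₀ (Ne.symm hac₀)
      have : g ∈ X := e ▸ Subgroup.mem_top g
      have h4 : g • b = b := this
      rw [hg] at h4
      exact hbc₀ h4.symm
    · intro g hg
      rw [eq_bot_iff]
      intro y hy
      obtain ⟨hy1, hy2⟩ := Subgroup.mem_inf.mp hy
      rw [Subgroup.mem_smul_pointwise_iff_exists] at hy2
      obtain ⟨s, hs, rfl⟩ := hy2
      have hs' : s • b = b := hs
      have hgb : g • b ≠ b := hg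
      have hga : ((g : G)) • a = a := g.2
      have hgba : g • b ≠ a := by
        intro e
        have : (g : G) • b = (g : G) • a := by rw [hga]; exact e
        exact hab (smul_left_cancel (g : G) this).symm
      have hfix : ((MulAut.conj g • s : Γ)) • (g • b) = g • b := by
        rw [MulAut.smul_def, MulAut.conj_apply, mul_smul, mul_smul, inv_smul_smul, hs']
      have hb' : (MulAut.conj g • s : Γ) • b = b := hy1
      have h1 := h3 (((MulAut.conj g • s : Γ) : Γ) : G) a b (g • b) hab (Ne.symm hgb) (Ne.symm hgba)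
        (MulAut.conj g • s : Γ).2 hb' hfix
      rw [Subgroup.mem_bot]
      exact Subtype.ext h1
  haveI : Fintype Γ := Fintype.ofFinite Γ
  obtain ⟨N, hNk, hNn, hNc⟩ := Cfsg.Agent.Lib.H1FrobThm.frobenius_theorem hX
  refine ⟨N.map Γ.subtype, ?_, ?_, ?_⟩
  · intro x
    constructor
    · rintro ⟨y, hy, rfl⟩
      refine ⟨y.2, ?_⟩
      have hy' : y ∈ (N : Set Γ) := hy
      rw [hNk] at hy'
      rcases hy' with h | h
      · left; rw [h]; rfl
      · right
        intro c hc hfix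
        obtain ⟨g, hg⟩ := hmove c hc
        apply h g
        rw [Subgroup.mem_smul_pointwise_iff_exists]
        refine ⟨g⁻¹ * y * g, ?_, by simp [MulAut.smul_def]; group⟩
        show (g⁻¹ * y * g) • b = b
        rw [mul_smul, mul_smul, hg]
        have hfix' : y • c = c := hfix
        rw [hfix', ← hg, inv_smul_smul]
    · rintro ⟨hxa, hx⟩
      refine ⟨⟨x, hxa⟩, ?_, rfl⟩
      have : (⟨x, hxa⟩ : Γ) ∈ (N : Set Γ) := by
        rw [hNk]
        rcases hx with h | h
        · left; exact Subtype.ext h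
        · right
          intro g hg
          rw [Subgroup.mem_smul_pointwise_iff_exists] at hg
          obtain ⟨s, hs, hse⟩ := hg
          have hs' : s • b = b := hs
          have hgb : g • b ≠ a := by
            intro e
            have hga : ((g : G)) • a = a := g.2
            have : (g : G) • b = (g : G) • a := by rw [hga]; exact e
            exact hab (smul_left_cancel (g : G) this).symm
          apply h (g • b) hgb
          have h5 : (⟨x, hxa⟩ : Γ) • (g • b) = g • b := by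
            rw [← hse, MulAut.smul_def, MulAut.conj_apply, mul_smul, mul_smul, inv_smul_smul, hs']
          exact h5
      exact this
  · rintro g hg _ ⟨y, hy, rfl⟩
    exact ⟨⟨g, hg⟩ * y * ⟨g, hg⟩⁻¹, hNn.conj_mem y hy ⟨g, hg⟩, rfl⟩
  · have hb : ∀ c, c ≠ a → ∃ u ∈ N, u • b = c := by
      intro c hc
      obtain ⟨g, hg⟩ := hmove c hc
      obtain ⟨⟨u, hu⟩, ⟨v, hv⟩, huv⟩ : ∃ (u : N) (v : X), (u : Γ) * (v : Γ) = g := by
        obtain ⟨p, hp⟩ := hNc.2 g
        exact ⟨p.1, p.2, hp⟩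
      refine ⟨u, hu, ?_⟩
      have hv' : v • b = b := hv
      rw [← hg, ← huv, mul_smul, hv']
    intro c d hc hd
    obtain ⟨u, hu, huc⟩ := hb c hc
    obtain ⟨w, hw, hwd⟩ := hb d hd
    refine ⟨((w * u⁻¹ : Γ) : G), ⟨w * u⁻¹, N.mul_mem hw (N.inv_mem hu), rfl⟩, ?_⟩
    show (w * u⁻¹) • c = d
    rw [mul_smul, ← huc, inv_smul_smul, hwd]

/-- A normal subgroup containing a non-identity element with two fixed points `a, c` contains
the Frobenius kernel at `a`. -/
theorem kernel_le_normal [Finite G]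
    (h3 : ∀ g : G, ∀ a b c : Ω, a ≠ b → b ≠ c → a ≠ c → g • a = a → g • b = b → g • c = c → g = 1)
    {a c : Ω} (hac : a ≠ c) {U N : Subgroup G} [N.Normal]
    (hU : ∀ x, x ∈ U ↔ x • a = a ∧ (x = 1 ∨ ∀ c, c ≠ a → x • c ≠ c))
    (hUn : ∀ g : G, g • a = a → ∀ u ∈ U, g * u * g⁻¹ ∈ U)
    {y : G} (hy : y ∈ N) (hy1 : y ≠ 1) (hya : y • a = a) (hyc : y • c = c) : U ≤ N := by
  classical
  let φ : U → U := fun u => ⟨(u : G) * (y * (u : G)⁻¹ * y⁻¹), U.mul_mem u.2 (hUn y hya _ (U.inv_mem u.2))⟩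
  have hinj : Function.Injective φ := by
    intro u u' hφ
    have h1 : (u : G) * (y * (u : G)⁻¹ * y⁻¹) = (u' : G) * (y * (u' : G)⁻¹ * y⁻¹) :=
      congrArg Subtype.val hφ
    let z : G := (u' : G)⁻¹ * (u : G)
    have hz : z ∈ U := U.mul_mem (U.inv_mem u'.2) u.2
    have hcomm : y * z = z * y := by
      have h2 : z * (y * (u : G)⁻¹ * y⁻¹) = y * (u' : G)⁻¹ * y⁻¹ := by
        simp only [z]
        rw [mul_assoc, h1]
        group
      have h3' : z * y = y * ((u' : G)⁻¹ * (u : G)) := by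
        have : z * (y * (u : G)⁻¹ * y⁻¹) * (y * (u : G) ) = y * (u' : G)⁻¹ * y⁻¹ * (y * (u : G)) := by rw [h2]
        have e1 : z * (y * (u : G)⁻¹ * y⁻¹) * (y * (u : G)) = z * y := by group
        have e2 : y * (u' : G)⁻¹ * y⁻¹ * (y * (u : G)) = y * ((u' : G)⁻¹ * (u : G)) := by group
        rw [e1, e2] at this
        exact this
      exact h3'.symm
    have hz1 : z = 1 := by
      by_contra hne
      obtain ⟨hza, hz'⟩ := (hU z).mp hz
      have hzc : z • c ≠ c := by
        rcases hz' with h | h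
        · exact absurd h hne
        · exact h c (Ne.symm hac)
      have hzca : z • c ≠ a := by
        intro e
        have : z • c = z • a := by rw [hza]; exact e
        exact hac (smul_left_cancel z this).symm
      have hyzc : y • (z • c) = z • c := by
        rw [← mul_smul, hcomm, mul_smul, hyc]
      exact hy1 (h3 y a c (z • c) hac (Ne.symm hzc) (Ne.symm hzca) hya hyc hyzc)
    have : (u' : G) = u := by
      have h4 : (u' : G) * z = u := by simp [z]
      rw [hz1, mul_one] at h4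
      exact h4
    exact (Subtype.ext this).symm
  have hsurj := Finite.injective_iff_surjective.mp hinj
  intro w hw
  obtain ⟨u, hu⟩ := hsurj ⟨w, hw⟩
  have h1 : (u : G) * (y * (u : G)⁻¹ * y⁻¹) = w := congrArg Subtype.val hu
  rw [← h1]
  have e : (u : G) * (y * (u : G)⁻¹ * y⁻¹) = ((u : G) * y * (u : G)⁻¹) * y⁻¹ := by group
  rw [e]
  exact N.mul_mem (‹N.Normal›.conj_mem y hy u) (N.inv_mem hy)

/-- A normal transitive subgroup whose non-identity elements have at most one fixed point contains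
a regular normal subgroup of the whole group. -/
theorem exists_regular [Finite G] {N : Subgroup G} [N.Normal] (htr : ∀ c d : Ω, ∃ n ∈ N, n • c = d)
    (h1 : ∀ y ∈ N, y ≠ 1 → ∀ c d : Ω, c ≠ d → y • c = c → y • d ≠ d)
    {a b : Ω} (hab : a ≠ b) {y₀ : G} (hy₀ : y₀ ∈ N) (hy₀1 : y₀ ≠ 1) (hy₀a : y₀ • a = a) :
    ∃ M : Subgroup G, M.Normal ∧ (∀ c d : Ω, ∃ m ∈ M, m • c = d) ∧ (∀ m ∈ M, ∀ c : Ω, m • c = c → m = 1) := by
  classical
  let X : Subgroup N := stabilizer N a
  have hX : IsFrobeniusComplement X := by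
    refine ⟨?_, ?_, ?_⟩
    · intro e
      have : (⟨y₀, hy₀⟩ : N) ∈ X := hy₀a
      rw [e, Subgroup.mem_bot] at this
      exact hy₀1 (congrArg Subtype.val this)
    · intro e
      obtain ⟨n, hn, hnab⟩ := htr a b
      have : (⟨n, hn⟩ : N) ∈ X := e ▸ Subgroup.mem_top _
      have h4 : n • a = a := this
      rw [hnab] at h4
      exact hab h4.symm
    · intro g hg
      rw [eq_bot_iff]
      intro y hy
      obtain ⟨hy1, hy2⟩ := Subgroup.mem_inf.mp hy
      rw [Subgroup.mem_smul_pointwise_iff_exists] at hy2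
      obtain ⟨s, hs, rfl⟩ := hy2
      have hs' : s • a = a := hs
      have hga : g • a ≠ a := hg
      have hfix : ((MulAut.conj g • s : N)) • (g • a) = g • a := by
        rw [MulAut.smul_def, MulAut.conj_apply, mul_smul, mul_smul, inv_smul_smul, hs']
      have hb' : (MulAut.conj g • s : N) • a = a := hy1
      by_contra hne
      have hne' : ((MulAut.conj g • s : N) : G) ≠ 1 := by
        intro e
        apply hne
        rw [Subgroup.mem_bot]
        exact Subtype.ext e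
      exact h1 _ (MulAut.conj g • s : N).2 hne' a (g • a) (Ne.symm hga) hb' hfix
  haveI : Fintype N := Fintype.ofFinite N
  obtain ⟨M, hMk, hMn, hMc⟩ := Cfsg.Agent.Lib.H1FrobThm.frobenius_theorem hX
  have hmem : ∀ x, x ∈ M.map N.subtype ↔ x ∈ N ∧ (x = 1 ∨ ∀ c : Ω, x • c ≠ c) := by
    intro x
    constructor
    · rintro ⟨y, hy, rfl⟩
      refine ⟨y.2, ?_⟩
      have hy' : y ∈ (M : Set N) := hy
      rw [hMk] at hy'
      rcases hy' with h | h
      · left; rw [h]; rfl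
      · right
        intro c hfix
        obtain ⟨n, hn, hnc⟩ := htr a c
        apply h ⟨n, hn⟩
        rw [Subgroup.mem_smul_pointwise_iff_exists]
        refine ⟨(⟨n, hn⟩ : N)⁻¹ * y * ⟨n, hn⟩, ?_, by rw [MulAut.smul_def, MulAut.conj_apply]; group⟩
        show ((⟨n, hn⟩ : N)⁻¹ * y * ⟨n, hn⟩) • a = a
        rw [mul_smul, mul_smul]
        have e1 : (⟨n, hn⟩ : N) • a = c := hnc
        have hfix' : y • c = c := hfix
        rw [e1, hfix', ← e1, inv_smul_smul]
    · rintro ⟨hxN, hx⟩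
      refine ⟨⟨x, hxN⟩, ?_, rfl⟩
      have : (⟨x, hxN⟩ : N) ∈ (M : Set N) := by
        rw [hMk]
        rcases hx with h | h
        · left; exact Subtype.ext h
        · right
          intro g hg
          rw [Subgroup.mem_smul_pointwise_iff_exists] at hg
          obtain ⟨s, hs, hse⟩ := hg
          have hs' : s • a = a := hs
          apply h (g • a)
          have h5 : (⟨x, hxN⟩ : N) • (g • a) = g • a := by
            rw [← hse, MulAut.smul_def, MulAut.conj_apply, mul_smul, mul_smul, inv_smul_smul, hs']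
          exact h5
      exact this
  refine ⟨M.map N.subtype, ?_, ?_, ?_⟩
  · constructor
    intro x hx g
    rw [hmem] at hx ⊢
    refine ⟨‹N.Normal›.conj_mem x hx.1 g, ?_⟩
    rcases hx.2 with h | h
    · left; rw [h]; group
    · right
      intro c hc
      apply h (g⁻¹ • c)
      have : g • (x • (g⁻¹ • c)) = c := by
        rw [← mul_smul, ← mul_smul]
        exact hc
      have h9 := congrArg (fun z => g⁻¹ • z) this
      simpa using h9
  · have hb : ∀ c, ∃ u ∈ M, (u : G) • a = c := by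
      intro c
      obtain ⟨n, hn, hnc⟩ := htr a c
      obtain ⟨⟨u, hu⟩, ⟨v, hv⟩, huv⟩ : ∃ (u : M) (v : X), (u : N) * (v : N) = ⟨n, hn⟩ := by
        obtain ⟨p, hp⟩ := hMc.2 ⟨n, hn⟩
        exact ⟨p.1, p.2, hp⟩
      refine ⟨u, hu, ?_⟩
      have hv' : v • a = a := hv
      have e : (⟨n, hn⟩ : N) • a = c := hnc
      rw [← huv, mul_smul, hv'] at e
      exact e
    intro c d
    obtain ⟨u, hu, huc⟩ := hb c
    obtain ⟨w, hw, hwd⟩ := hb d
    refine ⟨((w * u⁻¹ : N) : G), ⟨w * u⁻¹, M.mul_mem hw (M.inv_mem hu), rfl⟩, ?_⟩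
    show ((w : G) * (u : G)⁻¹) • c = d
    rw [mul_smul, ← huc, inv_smul_smul, hwd]
  · intro m hm c hc
    rcases ((hmem m).mp hm).2 with h | h
    · exact h
    · exact absurd hc (h c)

/-- Basic consequences of the definition of a Zassenhaus group. -/
theorem finite_of_faithful [Finite Ω] (hf : FaithfulSMul G Ω) : Finite G :=
  Finite.of_injective (MulAction.toPermHom G Ω) (by
    intro x y hxy
    apply hf.eq_of_smul_eq_smul
    intro c
    exact congrArg (fun σ : Equiv.Perm Ω => σ c) hxy)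

/-- The kernel at every point of a Zassenhaus group. -/
theorem kernel_of_zass [Finite Ω] (hZ : IsZassenhausGroup G Ω) {p q : Ω} (hpq : p ≠ q) :
    ∃ U : Subgroup G, (∀ x, x ∈ U ↔ x • p = p ∧ (x = 1 ∨ ∀ c, c ≠ p → x • c ≠ c)) ∧
      (∀ g : G, g • p = p → ∀ u ∈ U, g * u * g⁻¹ ∈ U) ∧
      (∀ c d : Ω, c ≠ p → d ≠ p → ∃ u ∈ U, u • c = d) := by
  classical
  obtain ⟨hf, h2', h3, ⟨x₀, hx₀, a, b, hab, hx₀a, hx₀b⟩, hreg⟩ := hZ
  have h2 : ∀ {a b a' b' : Ω}, a ≠ b → a' ≠ b' → ∃ g : G, g • a = a' ∧ g • b = b' :=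
    fun h h' => exists_move2 h2' h h'
  haveI : Finite G := finite_of_faithful hf
  have h1c : ∃ c₀ : Ω, c₀ ≠ a ∧ c₀ ≠ b := by
    by_contra hno
    push Not at hno
    apply hx₀
    apply hf.eq_of_smul_eq_smul
    intro c
    rw [one_smul]
    by_cases hca : c = a
    · rw [hca, hx₀a]
    · rw [hno c hca, hx₀b]
  obtain ⟨c₀, hc₀a, hc₀b⟩ := h1c
  obtain ⟨g, hg1, hg2⟩ := h2 hab hpq
  have hq3 : ∃ r : Ω, r ≠ p ∧ r ≠ q :=
    ⟨g • c₀, by rw [← hg1]; exact fun e => hc₀a (smul_left_cancel g e),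
      by rw [← hg2]; exact fun e => hc₀b (smul_left_cancel g e)⟩
  obtain ⟨r, hrp, hrq⟩ := hq3
  refine exists_kernel h2 h3 hpq (Ne.symm hrp) (Ne.symm hrq) (x₀ := g * x₀ * g⁻¹) ?_ ?_ ?_
  · intro e
    apply hx₀
    have : x₀ = g⁻¹ * (g * x₀ * g⁻¹) * g := by group
    rw [this, e]; group
  · rw [← hg1, mul_smul, mul_smul, inv_smul_smul, hx₀a]
  · rw [← hg2, mul_smul, mul_smul, inv_smul_smul, hx₀b]

/-- A nontrivial normal subgroup of a Zassenhaus group is transitive and contains a non-identity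
element with two fixed points. -/
theorem normal_data [Finite Ω] (hZ : IsZassenhausGroup G Ω) (N : Subgroup G) [hNn : N.Normal]
    (hNb : N ≠ ⊥) : (∀ c d : Ω, ∃ n ∈ N, n • c = d) ∧
      ∃ y ∈ N, y ≠ 1 ∧ ∃ p q : Ω, p ≠ q ∧ y • p = p ∧ y • q = q := by
  classical
  obtain ⟨hf, h2', h3, ⟨x₀, hx₀, a, b, hab, hx₀a, hx₀b⟩, hreg⟩ := hZ
  have h2 : ∀ {a b a' b' : Ω}, a ≠ b → a' ≠ b' → ∃ g : G, g • a = a' ∧ g • b = b' :=
    fun h h' => exists_move2 h2' h h'
  haveI : Finite G := finite_of_faithful hf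
  have htr : ∀ c d : Ω, ∃ n ∈ N, n • c = d := by
    have hne : ∃ y ∈ N, y ≠ 1 := by
      by_contra hno
      push Not at hno
      apply hNb
      rw [eq_bot_iff]
      intro y hy
      exact Subgroup.mem_bot.mpr (hno y hy)
    obtain ⟨y, hy, hy1⟩ := hne
    have hmv : ∃ c : Ω, y • c ≠ c := by
      by_contra hno
      push Not at hno
      apply hy1
      apply hf.eq_of_smul_eq_smul
      intro c
      rw [one_smul, hno c]
    obtain ⟨c, hc⟩ := hmv
    intro p q
    by_cases hpq : p = q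
    · exact ⟨1, N.one_mem, by rw [one_smul, hpq]⟩
    obtain ⟨g, hg1, hg2⟩ := h2 (Ne.symm hc) hpq
    exact ⟨g * y * g⁻¹, hNn.conj_mem y hy g, by rw [mul_smul, mul_smul, ← hg1, inv_smul_smul, hg2]⟩
  refine ⟨htr, ?_⟩
  by_contra hno
  push Not at hno
  have h1 : ∀ y ∈ N, y ≠ 1 → ∀ c d : Ω, c ≠ d → y • c = c → y • d ≠ d :=
    fun y hy hy1 c d hcd hc hd => hno y hy hy1 c d hcd hc hd
  have hstab : ∃ p, stabilizer N p ≠ ⊥ := hreg N hNn ⟨fun c d => by
    obtain ⟨n, hn, he⟩ := htr c d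
    exact ⟨⟨n, hn⟩, he⟩⟩
  obtain ⟨p, hp⟩ := hstab
  obtain ⟨y, hy1⟩ := Subgroup.ne_bot_iff_exists_ne_one.mp hp
  have hq : ∃ q : Ω, p ≠ q := by
    by_cases hpa : p = a
    · exact ⟨b, by rw [hpa]; exact hab⟩
    · exact ⟨a, hpa⟩
  obtain ⟨q, hpq⟩ := hq
  have hyne : ((y : N) : G) ≠ 1 := by
    intro e
    apply hy1
    exact Subtype.ext (Subtype.ext e)
  obtain ⟨M, hMn, hMt, hMr⟩ := exists_regular htr h1 hpq (y₀ := ((y : N) : G)) (y : N).2 hyne y.2
  obtain ⟨r, hr⟩ := hreg M hMn ⟨fun c d => by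
    obtain ⟨n, hn, he⟩ := hMt c d
    exact ⟨⟨n, hn⟩, he⟩⟩
  obtain ⟨z, hz1⟩ := Subgroup.ne_bot_iff_exists_ne_one.mp hr
  apply hz1
  exact Subtype.ext (Subtype.ext (hMr _ (z : M).2 r z.2))

/-- A nontrivial normal subgroup of a Zassenhaus group contains the Frobenius kernels of all point
stabilisers. -/
theorem kernel_le_of_normal [Finite Ω] (hZ : IsZassenhausGroup G Ω) (N : Subgroup G) [hNn : N.Normal]
    (hNb : N ≠ ⊥) {a : Ω} {U : Subgroup G}
    (hU : ∀ x, x ∈ U ↔ x • a = a ∧ (x = 1 ∨ ∀ c, c ≠ a → x • c ≠ c))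
    (hUn : ∀ g : G, g • a = a → ∀ u ∈ U, g * u * g⁻¹ ∈ U) : U ≤ N := by
  obtain ⟨htr, y, hy, hy1, p, q, hpq, hyp, hyq⟩ := normal_data hZ N hNb
  have hZ' := hZ
  obtain ⟨hf, h2', h3, -, -⟩ := hZ'
  haveI : Finite G := finite_of_faithful hf
  have hne : ∃ c : Ω, c ≠ a := by
    by_cases hpa : p = a
    · exact ⟨q, by rw [← hpa]; exact Ne.symm hpq⟩
    · exact ⟨p, hpa⟩
  obtain ⟨c, hc⟩ := hne
  obtain ⟨g, hg1, hg2⟩ := exists_move2 h2' hpq (Ne.symm hc)
  refine kernel_le_normal h3 (Ne.symm hc) hU hUn (y := g * y * g⁻¹) (hNn.conj_mem y hy g) ?_ ?_ ?_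
  · intro e
    apply hy1
    have : y = g⁻¹ * (g * y * g⁻¹) * g := by group
    rw [this, e]; group
  · rw [← hg1, mul_smul, mul_smul, inv_smul_smul, hyp]
  · rw [← hg2, mul_smul, mul_smul, inv_smul_smul, hyq]

end Cfsg.Agent.Lib.H1Zass2
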