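import Mathlib
import Cfsg.Agent.Lib.H3TIK2
import Cfsg.Agent.Lib.CharGlaub3

set_option autoImplicit false
set_option linter.unusedSectionVars false

/-! Linear groups of degree below `p`: action of `p`-elements on `p'`-subgroups. -/

namespace Cfsg.Agent.Lib.H3Lin

open Cfsg Module
open scoped ComplexConjugate Pointwise
open Cfsg.Agent.Lib.CharBasic Cfsg.Agent.Lib.CharOrth Cfsg.Agent.Lib.CharAlg
open Cfsg.Agent.Lib.CharLin Cfsg.Agent.Lib.CharInd Cfsg.Agent.Lib.CharNormal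
open Cfsg.Agent.Lib.H3TIK (Cmt mem_Cmt finrank_Cmt)

universe u

theorem deg_expand {A : Type u} [Group A] [Fintype A] {φ : A → ℂ} (hφ : IsCharacter A φ) {n : ℕ} (hn : φ 1 = n) :
    ∃ (m d : IrrCharacter A → ℕ), (∀ τ : IrrCharacter A, classInner φ (τ : A → ℂ) = m τ) ∧
      (∀ τ : IrrCharacter A, (τ : A → ℂ) 1 = d τ) ∧
      (∀ τ, 0 < d τ) ∧ n = ∑ τ : IrrCharacter A, m τ * d τ := by
  classical
  have hexp := classFun_eq_sum φ (classFunction_of_isCharacter hφ)
  have h1 := congrFun hexp 1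
  rw [Finset.sum_apply] at h1
  simp only [Pi.smul_apply, smul_eq_mul] at h1
  choose m hm using fun τ : IrrCharacter A => IsCharacter.classInner_irr_nat hφ τ.2
  choose d hd0 hd using fun τ : IrrCharacter A => IsIrrCharacter.map_one_pos τ.2
  refine ⟨m, d, hm, hd, hd0, ?_⟩
  have h3 : ((n : ℕ) : ℂ) = ((∑ τ, m τ * d τ : ℕ) : ℂ) := by
    push_cast
    rw [← hn, h1]
    refine Finset.sum_congr rfl fun τ _ => ?_
    rw [hm, hd]
  exact_mod_cast h3

theorem inner_expand {A : Type u} [Group A] [Fintype A] {ι : Type*} [Fintype ι] (a : ι → ℂ) (f : ι → A → ℂ) :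
    classInner (∑ i, a i • f i) (∑ j, a j • f j) = ∑ i, ∑ j, a i * conj (a j) * classInner (f i) (f j) := by
  rw [classInner_sum_left]
  refine Finset.sum_congr rfl fun i _ => ?_
  rw [classInner_smul_left, classInner_sum_right, Finset.mul_sum]
  refine Finset.sum_congr rfl fun j _ => ?_
  rw [classInner_smul_right]
  ring

section act

variable {Γ : Type u} [Group Γ] (R S : Subgroup Γ)

/-- Conjugation on `R`. -/
def cjR (hnorm : ∀ s ∈ S, ∀ r ∈ R, s * r * s⁻¹ ∈ R) (s : S) : R →* R where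
  toFun r := ⟨(s : Γ)⁻¹ * r * s, by
    have := hnorm _ (inv_mem s.2) r r.2
    simpa using this⟩
  map_one' := by
    apply Subtype.ext
    simp
  map_mul' a b := by
    apply Subtype.ext
    simp only [Subgroup.coe_mul]
    group

theorem cjR_surj (hnorm : ∀ s ∈ S, ∀ r ∈ R, s * r * s⁻¹ ∈ R) (s : S) :
    Function.Surjective (cjR R S hnorm s) := by
  intro r
  refine ⟨⟨(s : Γ) * r * (s : Γ)⁻¹, hnorm _ s.2 _ r.2⟩, ?_⟩
  apply Subtype.ext
  show (s : Γ)⁻¹ * ((s : Γ) * r * (s : Γ)⁻¹) * s = r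
  group

variable [Fintype R]

theorem cjR_bij (hnorm : ∀ s ∈ S, ∀ r ∈ R, s * r * s⁻¹ ∈ R) (s : S) :
    Function.Bijective (cjR R S hnorm s) :=
  (Finite.injective_iff_surjective.mpr (cjR_surj R S hnorm s)) |> fun h => ⟨h, cjR_surj R S hnorm s⟩

/-- The action on irreducible characters. -/
noncomputable def irrAct (hnorm : ∀ s ∈ S, ∀ r ∈ R, s * r * s⁻¹ ∈ R) : MulAction S (IrrCharacter R) where
  smul s θ := ⟨(θ : R → ℂ) ∘ cjR R S hnorm s, IsIrrCharacter.comp_surjective θ.2 _ (cjR_surj R S hnorm s)⟩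
  one_smul θ := by
    apply Subtype.ext
    funext r
    show (θ : R → ℂ) (cjR R S hnorm 1 r) = _
    refine congrArg (θ : R → ℂ) ?_
    apply Subtype.ext
    show ((1 : S) : Γ)⁻¹ * r * ((1 : S) : Γ) = r
    simp
  mul_smul g h θ := by
    apply Subtype.ext
    funext r
    show (θ : R → ℂ) (cjR R S hnorm (g * h) r) = (θ : R → ℂ) (cjR R S hnorm h (cjR R S hnorm g r))
    refine congrArg (θ : R → ℂ) ?_
    apply Subtype.ext
    show ((g * h : S) : Γ)⁻¹ * r * ((g * h : S) : Γ) = (h : Γ)⁻¹ * ((g : Γ)⁻¹ * r * g) * h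
    simp only [Subgroup.coe_mul]
    group

theorem inner_act (hnorm : ∀ s ∈ S, ∀ r ∈ R, s * r * s⁻¹ ∈ R) {χ : Γ → ℂ} (hχ : IsClassFunction Γ χ)
    (θ : R → ℂ) (s : S) :
    classInner (fun r : R => χ r) (θ ∘ cjR R S hnorm s) = classInner (fun r : R => χ r) θ := by
  unfold classInner
  congr 1
  rw [← Function.Bijective.sum_comp (cjR_bij R S hnorm s) (fun w => χ w * conj (θ w))]
  refine Finset.sum_congr rfl fun r _ => ?_
  simp only [Function.comp]
  congr 1
  have := hχ r (s : Γ)⁻¹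
  simpa [cjR] using this.symm

theorem inv_of_small {p : ℕ} [hp : Fact p.Prime] (hnorm : ∀ s ∈ S, ∀ r ∈ R, s * r * s⁻¹ ∈ R)
    (hS : IsPGroup p S) [Fintype Γ] {χ : Γ → ℂ} (hχ : IsCharacter Γ χ) {n : ℕ} (hn : χ 1 = n) (hnp : n < p)
    (θ : IrrCharacter R) (hθ : classInner (fun r : R => χ r) (θ : R → ℂ) ≠ 0) :
    ∀ s ∈ S, ∀ g g' : R, (g' : Γ) = s * g * s⁻¹ → (θ : R → ℂ) g' = (θ : R → ℂ) g := by
  classical
  letI act := irrAct R S hnorm
  have hχR : IsCharacter R (fun r : R => χ r) := IsCharacter.res hχ R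
  have hn' : (fun r : R => χ r) 1 = n := by simpa using hn
  obtain ⟨m, d, hm, hd, hd0, hsum⟩ := deg_expand hχR hn'
  let Θ : Finset (IrrCharacter R) := Finset.univ.filter (fun τ => m τ ≠ 0)
  have hΘle : Θ.card ≤ n := by
    rw [hsum]
    calc Θ.card = ∑ τ ∈ Θ, 1 := by simp
      _ ≤ ∑ τ ∈ Θ, m τ * d τ := by
          refine Finset.sum_le_sum fun τ hτ => ?_
          have h3 : m τ ≠ 0 := (Finset.mem_filter.mp hτ).2
          exact Nat.mul_pos (Nat.pos_of_ne_zero h3) (hd0 τ)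
      _ ≤ ∑ τ, m τ * d τ := Finset.sum_le_sum_of_subset (Finset.subset_univ _)
  have horb : MulAction.orbit S θ ⊆ (Θ : Set (IrrCharacter R)) := by
    rintro _ ⟨s, rfl⟩
    have h1 : classInner (fun r : R => χ r) ((s • θ : IrrCharacter R) : R → ℂ) =
        classInner (fun r : R => χ r) (θ : R → ℂ) :=
      inner_act R S hnorm (classFunction_of_isCharacter hχ) (θ : R → ℂ) s
    have h2 : m (s • θ) ≠ 0 := by
      intro h0
      apply hθ
      rw [← h1, hm, h0]
      simp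
    exact Finset.mem_coe.mpr (Finset.mem_filter.mpr ⟨Finset.mem_univ _, h2⟩)
  have hidx : (MulAction.stabilizer S θ).index = (MulAction.orbit S θ).ncard :=
    MulAction.index_stabilizer S θ
  have hncard : (MulAction.orbit S θ).ncard ≤ Θ.card := by
    have := Set.ncard_le_ncard horb (Finset.finite_toSet Θ)
    rwa [Set.ncard_coe_finset] at this
  have hdvd : (MulAction.stabilizer S θ).index ∣ Nat.card S := Subgroup.index_dvd_card _
  obtain ⟨k, hk⟩ := IsPGroup.iff_card.mp hS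
  rw [hk] at hdvd
  obtain ⟨j, -, hj2⟩ := (Nat.dvd_prime_pow hp.out).mp hdvd
  have hj0 : j = 0 := by
    by_contra hne
    have h1 : p ≤ p ^ j := Nat.le_self_pow hne p
    omega
  rw [hj0, pow_zero] at hj2
  have htop := Subgroup.index_eq_one.mp hj2
  intro s hs g g' hg'
  have h1 : (⟨s, hs⟩⁻¹ : S) ∈ MulAction.stabilizer S θ := by
    rw [htop]
    trivial
  have h2 : (⟨s, hs⟩⁻¹ : S) • θ = θ := h1
  have h3 := congrFun (congrArg Subtype.val h2) g
  rw [← h3]
  show (θ : R → ℂ) g' = (θ : R → ℂ) (cjR R S hnorm (⟨s, hs⟩⁻¹ : S) g)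
  refine congrArg (θ : R → ℂ) ?_
  apply Subtype.ext
  rw [hg']
  show s * (g : Γ) * s⁻¹ = ((⟨s, hs⟩⁻¹ : S) : Γ)⁻¹ * g * ((⟨s, hs⟩⁻¹ : S) : Γ)
  simp

end act

section glaub

variable {Γ : Type u} [Group Γ] [Fintype Γ] (R S C : Subgroup Γ) [Fintype R] [Fintype C] {p : ℕ} [hp : Fact p.Prime]

open Classical in
theorem res_irr (hnorm : ∀ s ∈ S, ∀ r ∈ R, s * r * s⁻¹ ∈ R) (hcop : (Nat.card R).Coprime (Nat.card S))
    (hS : IsPGroup p S) (hC : C = R ⊓ Subgroup.centralizer (S : Set Γ)) (hCR : C ≤ R)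
    {θ : IrrCharacter R}
    (hinv : ∀ s ∈ S, ∀ g g' : R, (g' : Γ) = s * g * s⁻¹ → (θ : R → ℂ) g' = (θ : R → ℂ) g)
    {x : ℕ} (hx : (θ : R → ℂ) 1 = x) (hle : x + 2 ≤ p) :
    ∃ β : IrrCharacter C, (fun c : C => (θ : R → ℂ) ⟨c, hCR c.2⟩) = β := by
  have hG := Cfsg.Agent.Lib.CharGlaub3.s4444 R S hnorm hcop p hp.out hS C hC hCR
  obtain ⟨β, ⟨m, hβ1, hβ2⟩, huniq⟩ := hG.1 θ hinv
  have hmod := hG.2.1 θ hinv β m hβ1 hβ2
  let θC : C → ℂ := fun c => (θ : R → ℂ) ⟨c, hCR c.2⟩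
  have hθC : IsCharacter C θC := IsCharacter.comp (IsIrrCharacter.isCharacter θ.2) (Subgroup.inclusion hCR)
  have hxC : θC 1 = x := hx
  obtain ⟨m', d, hm', hd, hd0, hsum⟩ := deg_expand hθC hxC
  have hlarge : ∀ τ, m' τ * d τ ≤ x := by
    intro τ
    rw [hsum]
    exact Finset.single_le_sum (f := fun τ => m' τ * d τ) (fun _ _ => Nat.zero_le _) (Finset.mem_univ τ)
  have hother : ∀ τ, τ ≠ β → m' τ = 0 := by
    intro τ hτ
    by_contra h0
    have h1 : p ∣ m' τ := by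
      by_contra hnd
      exact hτ (huniq τ ⟨m' τ, hm' τ, hnd⟩)
    have h2 : p ≤ m' τ := Nat.le_of_dvd (Nat.pos_of_ne_zero h0) h1
    have h3 := hlarge τ
    have h4 : m' τ ≤ m' τ * d τ := Nat.le_mul_of_pos_right _ (hd0 τ)
    omega
  have hmm : m' β = m := by
    have h1 := hm' β
    have h2 : ((m' β : ℕ) : ℂ) = (m : ℕ) := by
      rw [← h1]
      exact hβ1
    exact_mod_cast h2
  have hmle : m ≤ x := by
    have h3 := hlarge β
    have h4 : m' β ≤ m' β * d β := Nat.le_mul_of_pos_right _ (hd0 β)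
    omega
  have hm1 : m = 1 := by
    rcases hmod with h | h
    · have h1 := Int.modEq_iff_dvd.mp h
      have h2 : |(1 : ℤ) - m| < p := by
        rw [abs_lt]
        constructor <;> omega
      have h3 := Int.eq_zero_of_abs_lt_dvd h1 h2
      omega
    · exfalso
      have h1 := Int.modEq_iff_dvd.mp h
      have h2 : |(-1 : ℤ) - m| < p := by
        rw [abs_lt]
        constructor <;> omega
      have h3 := Int.eq_zero_of_abs_lt_dvd h1 h2
      omega
  refine ⟨β, ?_⟩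
  have hexp := classFun_eq_sum θC (classFunction_of_isCharacter hθC)
  rw [Finset.sum_eq_single β (fun τ _ hτ => by rw [hm', hother τ hτ]; simp) (by simp), hm', hmm, hm1] at hexp
  show θC = _
  rw [hexp]
  simp

open Classical in
theorem res_inner (hnorm : ∀ s ∈ S, ∀ r ∈ R, s * r * s⁻¹ ∈ R) (hcop : (Nat.card R).Coprime (Nat.card S))
    (hS : IsPGroup p S) (hC : C = R ⊓ Subgroup.centralizer (S : Set Γ)) (hCR : C ≤ R)
    {θ θ' : IrrCharacter R}
    (hinv : ∀ s ∈ S, ∀ g g' : R, (g' : Γ) = s * g * s⁻¹ → (θ : R → ℂ) g' = (θ : R → ℂ) g)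
    (hinv' : ∀ s ∈ S, ∀ g g' : R, (g' : Γ) = s * g * s⁻¹ → (θ' : R → ℂ) g' = (θ' : R → ℂ) g)
    {x x' : ℕ} (hx : (θ : R → ℂ) 1 = x) (hle : x + 2 ≤ p) (hx' : (θ' : R → ℂ) 1 = x') (hle' : x' + 2 ≤ p) :
    classInner (fun c : C => (θ : R → ℂ) ⟨c, hCR c.2⟩) (fun c : C => (θ' : R → ℂ) ⟨c, hCR c.2⟩) =
      classInner (θ : R → ℂ) (θ' : R → ℂ) := by
  have hG := Cfsg.Agent.Lib.CharGlaub3.s4444 R S hnorm hcop p hp.out hS C hC hCR
  obtain ⟨β, hβ⟩ := res_irr R S C hnorm hcop hS hC hCR hinv hx hle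
  obtain ⟨β', hβ'⟩ := res_irr R S C hnorm hcop hS hC hCR hinv' hx' hle'
  rw [hβ, hβ']
  by_cases hθ : θ = θ'
  · subst hθ
    have h1 : (β : C → ℂ) = β' := hβ.symm.trans hβ'
    rw [← h1, classInner_irr_self β.2, classInner_irr_self θ.2]
  · have hne : (β : C → ℂ) ≠ β' := by
      intro h0
      apply hθ
      have h1 : classInner (fun c : C => (θ : R → ℂ) ⟨c, hCR c.2⟩) (β : C → ℂ) = ((1 : ℕ) : ℂ) := by
        rw [hβ, classInner_irr_self β.2]
        simp
      have h2 : classInner (fun c : C => (θ' : R → ℂ) ⟨c, hCR c.2⟩) (β : C → ℂ) = ((1 : ℕ) : ℂ) := by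
        rw [hβ', h0, classInner_irr_self β'.2]
        simp
      exact hG.2.2.1 θ θ' hinv hinv' β 1 1 h1 (by
        intro h3
        exact hp.out.one_lt.ne' (Nat.dvd_one.mp h3)) h2 (by
        intro h3
        exact hp.out.one_lt.ne' (Nat.dvd_one.mp h3))
    rw [classInner_irr β.2 β'.2, if_neg hne, classInner_irr θ.2 θ'.2, if_neg (fun h => hθ (Subtype.ext h))]

end glaub

section main

variable {Γ : Type u} [Group Γ] [Fintype Γ] (R S : Subgroup Γ) [Fintype R] {p : ℕ} [hp : Fact p.Prime]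

set_option maxHeartbeats 4000000 in
theorem comm_or_deg (hnorm : ∀ s ∈ S, ∀ r ∈ R, s * r * s⁻¹ ∈ R) (hcop : (Nat.card R).Coprime (Nat.card S))
    (hS : IsPGroup p S) {d : ℕ} (ρ : Representation ℂ Γ (Fin d → ℂ)) (hd : d < p) :
    (∀ r ∈ R, ∀ s ∈ S, ∀ v, ρ r (ρ s v) = ρ s (ρ r v)) ∨
      ∃ (θ : IrrCharacter R) (x : ℕ), classInner (fun r : R => ρ.character r) (θ : R → ℂ) ≠ 0 ∧
        (θ : R → ℂ) 1 = x ∧ x + 1 = p := by
  classical
  have hχ : IsCharacter Γ ρ.character := isCharacter_character ρ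
  have hn : ρ.character 1 = d := by
    rw [Representation.char_one]
    simp
  have hχR : IsCharacter R (fun r : R => ρ.character r) := IsCharacter.res hχ R
  have hn' : (fun r : R => ρ.character r) 1 = d := by simpa using hn
  by_cases hall : ∀ (θ : IrrCharacter R) (x : ℕ), classInner (fun r : R => ρ.character r) (θ : R → ℂ) ≠ 0 →
      (θ : R → ℂ) 1 = x → x + 2 ≤ p
  swap
  · right
    push Not at hall
    obtain ⟨θ, x, h1, h2, h3⟩ := hall
    refine ⟨θ, x, h1, h2, ?_⟩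
    obtain ⟨m, e, hm, he, he0, hsum⟩ := deg_expand hχR hn'
    have h4 : m θ * e θ ≤ d := by
      rw [hsum]
      exact Finset.single_le_sum (f := fun τ => m τ * e τ) (fun _ _ => Nat.zero_le _) (Finset.mem_univ θ)
    have h5 : m θ ≠ 0 := by
      intro h0
      apply h1
      rw [hm, h0]
      simp
    have h6 : e θ = x := by
      have h7 := he θ
      rw [h2] at h7
      exact_mod_cast h7.symm
    have h7 : e θ ≤ m θ * e θ := Nat.le_mul_of_pos_left _ (Nat.pos_of_ne_zero h5)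
    omega
  left
  let C : Subgroup Γ := R ⊓ Subgroup.centralizer (S : Set Γ)
  have hCR : C ≤ R := inf_le_left
  letI : Fintype C := Fintype.ofFinite _
  let φ : R → ℂ := fun r => ρ.character r
  let φC : C → ℂ := fun c => ρ.character c
  have hexp := classFun_eq_sum φ (classFunction_of_isCharacter hχR)
  have hexpC : φC = ∑ θ : IrrCharacter R, classInner φ (θ : R → ℂ) • (fun c : C => (θ : R → ℂ) ⟨c, hCR c.2⟩) := by
    funext c
    have h1 := congrFun hexp ⟨c, hCR c.2⟩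
    rw [Finset.sum_apply] at h1 ⊢
    exact h1
  have hinner : classInner φC φC = classInner φ φ := by
    rw [hexpC]
    conv_rhs => rw [hexp]
    rw [inner_expand, inner_expand]
    refine Finset.sum_congr rfl fun θ _ => Finset.sum_congr rfl fun θ' _ => ?_
    by_cases h0 : classInner φ (θ : R → ℂ) = 0
    · rw [h0]; simp
    by_cases h0' : classInner φ (θ' : R → ℂ) = 0
    · rw [h0']; simp
    obtain ⟨x, -, hx⟩ := IsIrrCharacter.map_one_pos θ.2
    obtain ⟨x', -, hx'⟩ := IsIrrCharacter.map_one_pos θ'.2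
    have hinv := inv_of_small R S hnorm hS hχ hn hd θ h0
    have hinv' := inv_of_small R S hnorm hS hχ hn hd θ' h0'
    rw [res_inner R S C hnorm hcop hS rfl hCR hinv hinv' hx (hall θ x h0 hx) hx' (hall θ' x' h0' hx')]
  have hfr : finrank ℂ (Cmt ρ R) = finrank ℂ (Cmt ρ C) := by
    have h1 : ((finrank ℂ (Cmt ρ R) : ℕ) : ℂ) = (finrank ℂ (Cmt ρ C) : ℕ) := by
      rw [finrank_Cmt, finrank_Cmt]
      exact hinner.symm
    exact_mod_cast h1
  have hle : Cmt ρ R ≤ Cmt ρ C := by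
    intro f hf
    rw [mem_Cmt] at hf ⊢
    exact fun h hh v => hf h (Subgroup.mem_inf.mp hh).1 v
  have heq := Submodule.eq_of_le_of_finrank_eq hle hfr
  intro r hr s hs v
  have hcu : ρ s ∈ Cmt ρ C := by
    rw [mem_Cmt]
    intro c hc w
    have hc' := Subgroup.mem_centralizer_iff.mp (Subgroup.mem_inf.mp hc).2 s hs
    rw [← Module.End.mul_apply, ← map_mul, ← hc', map_mul, Module.End.mul_apply]
  rw [← heq, mem_Cmt] at hcu
  exact hcu r hr v

end main

end Cfsg.Agent.Lib.H3Lin
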