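import Mathlib
import Cfsg.Agent.Lib.H3Lin
import Cfsg.Agent.Lib.LConn2
import Cfsg.Agent.Lib.H1Cop
import Cfsg.Agent.Lib.CharGlaub4

set_option autoImplicit false
set_option linter.unusedSectionVars false

/-! Linear groups of degree below `p`: the main theorem for `p`-solvable groups. -/

namespace Cfsg.Agent.Lib.H3Lin

open Cfsg Module
open scoped ComplexConjugate Pointwise
open Cfsg.Agent.Lib.CharBasic Cfsg.Agent.Lib.CharOrth Cfsg.Agent.Lib.CharAlg
open Cfsg.Agent.Lib.CharLin Cfsg.Agent.Lib.CharInd Cfsg.Agent.Lib.CharNormal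
open Cfsg.Agent.Lib.H3TIK (Cmt mem_Cmt finrank_Cmt)

universe u

theorem normal_of_comm {G : Type u} [Group G] [Finite G] {p : ℕ} [hp : Fact p.Prime] (hsolv : IsPSolvable p G)
    (P : Sylow p G) (hab : ∀ a ∈ (P : Subgroup G), ∀ b ∈ (P : Subgroup G), a * b = b * a)
    (hKc : ∀ k ∈ pPrimeCore p G, ∀ u ∈ (P : Subgroup G), k * u = u * k) : (P : Subgroup G).Normal := by
  classical
  set K := pPrimeCore p G with hK
  haveI hKn : K.Normal := Cfsg.Agent.Lib.H1Core.pPrimeCore_normal p G
  have hcK : (Nat.card K).Coprime p := Cfsg.Agent.Lib.H1Core.pPrimeCore_coprime p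
  set O := pCore p (G ⧸ K) with hO
  haveI hOn : O.Normal := Cfsg.Agent.Lib.H1Core.pCore_normal p _
  have hOp : IsPGroup p O := Cfsg.Agent.Lib.H1Core.pCore_isPGroup p
  let L : Subgroup G := O.comap (QuotientGroup.mk' K)
  haveI hLn : L.Normal := hOn.comap _
  have hdec : ∀ l ∈ L, ∃ k ∈ K, ∃ v ∈ (P : Subgroup G), l = k * v := by
    intro ℓ hℓ
    let P₁ := Cfsg.Agent.Lib.PNilp.sylowOfNormal P L
    have hq : IsPGroup p (↥L ⧸ K.subgroupOf L) := by
      intro x
      obtain ⟨y, rfl⟩ := QuotientGroup.mk'_surjective _ x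
      obtain ⟨n, hn⟩ := hOp ⟨QuotientGroup.mk' K y, y.2⟩
      refine ⟨n, ?_⟩
      rw [← map_pow, QuotientGroup.mk'_apply, QuotientGroup.eq_one_iff, Subgroup.mem_subgroupOf]
      have h1 : (QuotientGroup.mk' K (y : G)) ^ p ^ n = 1 := congrArg Subtype.val hn
      rw [← map_pow] at h1
      have h2 := (QuotientGroup.eq_one_iff _).1 h1
      simpa using h2
    have hsup := Cfsg.Agent.Lib.PNilp.sup_eq_top_of_isPGroup_quotient P₁ (K.subgroupOf L) hq
    have hℓmem : (⟨ℓ, hℓ⟩ : L) ∈ K.subgroupOf L ⊔ (P₁ : Subgroup ↥L) := by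
      rw [sup_comm, hsup]
      exact Subgroup.mem_top _
    obtain ⟨k, hk, q, hq', hkq⟩ := Subgroup.mem_sup_of_normal_left.1 hℓmem
    have hk' : ((k : ↥L) : G) ∈ K := Subgroup.mem_subgroupOf.1 hk
    have hqP : ((q : ↥L) : G) ∈ (P : Subgroup G) := by
      rw [Cfsg.Agent.Lib.PNilp.coe_sylowOfNormal] at hq'
      exact hq'
    exact ⟨k, hk', q, hqP, (congrArg Subtype.val hkq).symm⟩
  have hs : IsPSolvable p (G ⧸ K) :=
    Cfsg.Agent.Lib.PSolv.isPSolvable_of_surjective _ (QuotientGroup.mk'_surjective K) hsolv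
  have h0 : pPrimeCore p (G ⧸ K) = ⊥ := Cfsg.Agent.Lib.PJ.pPrimeCore_quot
  have h1 := Cfsg.Agent.Lib.PSolv.centralizer_le_of_isPSolvable h0 (Cfsg.Agent.Lib.PSolv.isPSolvable_subgroup hs _)
  have hPL : (P : Subgroup G) ≤ L := by
    intro u hu
    show QuotientGroup.mk' K u ∈ O
    apply h1
    rw [Subgroup.mem_centralizer_iff]
    intro y hy
    obtain ⟨l, rfl⟩ := QuotientGroup.mk'_surjective K y
    have hl : l ∈ L := hy
    obtain ⟨k, hk, v, hv, rfl⟩ := hdec l hl
    have h2 : QuotientGroup.mk' K k = 1 := (QuotientGroup.eq_one_iff k).2 hk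
    rw [map_mul, h2, one_mul, ← map_mul, ← map_mul, hab v hv u hu]
  constructor
  intro y hy g
  obtain ⟨n, hn⟩ := IsPGroup.iff_card.mp P.isPGroup'
  have hz : g * y * g⁻¹ ∈ L := hLn.conj_mem _ (hPL hy) g
  obtain ⟨k, hk, u, hu, hku⟩ := hdec _ hz
  rw [hku]
  have hcard : ∀ {w : G}, w ∈ (P : Subgroup G) → w ^ Nat.card (P : Subgroup G) = 1 := by
    intro w hw
    have := pow_card_eq_one' (x := (⟨w, hw⟩ : (P : Subgroup G)))
    exact congrArg Subtype.val this
  have h2 : (g * y * g⁻¹) ^ Nat.card (P : Subgroup G) = 1 := by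
    rw [conj_pow, hcard hy]
    group
  have hc : Commute k u := hKc k hk u hu
  have h3 : k ^ Nat.card (P : Subgroup G) = 1 := by
    rw [hku, hc.mul_pow, hcard hu, mul_one] at h2
    exact h2
  have h4 : k ^ Nat.card K = 1 := by
    have := pow_card_eq_one' (x := (⟨k, hk⟩ : K))
    exact congrArg Subtype.val this
  have h5 : (Nat.card K).Coprime (Nat.card (P : Subgroup G)) := by
    rw [hn]; exact Nat.Coprime.pow_right n hcK
  have h6 : k ^ Nat.gcd (Nat.card K) (Nat.card (P : Subgroup G)) = 1 := pow_gcd_eq_one.mpr ⟨h4, h3⟩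
  rw [h5.gcd_eq_one, pow_one] at h6
  rw [h6, one_mul]
  exact hu

theorem exists_bad {G : Type u} [Group G] [Finite G] {p : ℕ} [hp : Fact p.Prime] (hsolv : IsPSolvable p G)
    (P : Sylow p G) (hP : ¬ (P : Subgroup G).Normal)
    (hab : ∀ a ∈ (P : Subgroup G), ∀ b ∈ (P : Subgroup G), a * b = b * a) :
    ∃ x ∈ (P : Subgroup G), ∃ (q : ℕ) (R : Subgroup G), q.Prime ∧ IsPGroup q R ∧ R ≤ pPrimeCore p G ∧
      (∀ s ∈ Subgroup.zpowers x, ∀ r ∈ R, s * r * s⁻¹ ∈ R) ∧ ∃ r ∈ R, r * x ≠ x * r := by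
  classical
  by_contra hall
  push Not at hall
  apply hP
  apply normal_of_comm hsolv P hab
  intro k hk u hu
  set K := pPrimeCore p G with hK
  haveI hKn : K.Normal := Cfsg.Agent.Lib.H1Core.pPrimeCore_normal p G
  have hcK : (Nat.card K).Coprime p := Cfsg.Agent.Lib.H1Core.pPrimeCore_coprime p
  let A : Subgroup G := Subgroup.zpowers u
  have hAP : A ≤ (P : Subgroup G) := Subgroup.zpowers_le.mpr hu
  have hAK : A ≤ Subgroup.normalizer (K : Set G) := by
    rw [Subgroup.normalizer_eq_top]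
    exact le_top
  have hAp : IsPGroup p A := P.isPGroup'.to_le hAP
  have hcop : (Nat.card A).Coprime (Nat.card K) := by
    obtain ⟨n, hn⟩ := IsPGroup.iff_card.mp hAp
    rw [hn]
    exact Nat.Coprime.pow_left n hcK.symm
  have hsolvA : Group.IsSolvable A := by
    haveI : IsMulCommutative A := inferInstance
    exact isSolvable_of_comm (fun a b => mul_comm' a b)
  have key : ∀ q : ℕ, q.Prime → ∀ R : Subgroup G, IsPGroup q R → R ≤ K →
      A ≤ Subgroup.normalizer (R : Set G) → ∀ r ∈ R, r * u = u * r := by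
    intro q hq R hR hRK hAR r hr
    refine hall u hu q R hq hR hRK ?_ r hr
    intro s hs z hz
    exact (Subgroup.mem_normalizer_iff.mp (hAR hs) z).mp hz
  let H : Subgroup K := (Subgroup.centralizer ({u} : Set G)).subgroupOf K
  have hH : H = ⊤ := by
    rw [← Subgroup.index_eq_one]
    by_contra hne
    obtain ⟨q, hq, hdvd⟩ := Nat.exists_prime_and_dvd hne
    haveI : Fact q.Prime := ⟨hq⟩
    obtain ⟨R, hR, hAR⟩ := Cfsg.Agent.Lib.H1Cop.exists_invariant_sylow hAK hcop (Or.inl hsolvA) q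
    obtain ⟨P', hP', -⟩ := Cfsg.Agent.Lib.H1Cop.IsSylowIn.exists_sylow hR
    have hle : (P' : Subgroup K) ≤ H := by
      rw [hP']
      intro z hz
      have hz' : (z : G) ∈ R := hz
      show (z : G) ∈ Subgroup.centralizer ({u} : Set G)
      rw [Subgroup.mem_centralizer_singleton_iff]
      exact key q hq R hR.2.1 hR.1 hAR z hz'
    exact P'.not_dvd_index (hdvd.trans (Subgroup.index_dvd_of_le hle))
  have hkH : (⟨k, hk⟩ : K) ∈ H := by rw [hH]; trivial
  have h1 : k ∈ Subgroup.centralizer ({u} : Set G) := hkH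
  exact Subgroup.mem_centralizer_singleton_iff.mp h1

theorem comm_of_linear {A : Type u} [Group A] [Fintype A] {φ : A → ℂ} (hφ : IsCharacter A φ)
    (hlin : ∀ τ : IrrCharacter A, classInner φ (τ : A → ℂ) ≠ 0 → (τ : A → ℂ) 1 = 1) (a b : A) :
    φ (a * b * a⁻¹ * b⁻¹) = φ 1 := by
  classical
  have hexp := classFun_eq_sum φ (classFunction_of_isCharacter hφ)
  have h1 : ∀ d : A, φ d = ∑ τ : IrrCharacter A, classInner φ (τ : A → ℂ) * (τ : A → ℂ) d := by
    intro d
    have h2 := congrFun hexp d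
    rw [Finset.sum_apply] at h2
    exact h2
  rw [h1 (a * b * a⁻¹ * b⁻¹), h1 1]
  refine Finset.sum_congr rfl fun τ _ => ?_
  by_cases ht : classInner φ (τ : A → ℂ) = 0
  · rw [ht]; simp
  have h6 := hlin τ ht
  obtain ⟨lam, hlam⟩ := exists_hom_of_linear (IsIrrCharacter.isCharacter τ.2) h6
  rw [hlam]
  have h7 : lam (a * b * a⁻¹ * b⁻¹) = lam 1 := by
    simp only [map_mul, map_inv, map_one]
    rw [mul_comm (lam a) (lam b), mul_assoc (lam b), mul_inv_cancel, mul_one, mul_inv_cancel]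
  simp only [h7]

set_option maxHeartbeats 4000000 in
theorem main_lin {G : Type u} [Group G] [Fintype G] {p : ℕ} [hp : Fact p.Prime] {χ : G → ℂ}
    (hχ : IsCharacter G χ) (hfaith : ∀ g, χ g = χ 1 → g = 1) {n : ℕ} (hn : χ 1 = n)
    (hsolv : IsPSolvable p G) (hnp : n + 1 ≤ p) (P : Sylow p G) (hP : ¬ (P : Subgroup G).Normal) :
    n + 1 = p ∧ (∃ k : ℕ, n = 2 ^ k) ∧ IsIrrCharacter G χ := by
  classical
  -- `P` is abelian
  have hab : ∀ a ∈ (P : Subgroup G), ∀ b ∈ (P : Subgroup G), a * b = b * a := by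
    letI : Fintype (P : Subgroup G) := Fintype.ofFinite _
    intro a ha b hb
    have hχP : IsCharacter (P : Subgroup G) (fun u : (P : Subgroup G) => χ u) := IsCharacter.res hχ _
    have hn' : (fun u : (P : Subgroup G) => χ u) 1 = n := by simpa using hn
    obtain ⟨m, e, hm, he, he0, hsum⟩ := deg_expand hχP hn'
    have hlin : ∀ τ : IrrCharacter (P : Subgroup G),
        classInner (fun u : (P : Subgroup G) => χ u) (τ : ↥(P : Subgroup G) → ℂ) ≠ 0 →
        (τ : ↥(P : Subgroup G) → ℂ) 1 = 1 := by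
      intro τ hτ
      have h4 : m τ * e τ ≤ n := by
        rw [hsum]
        exact Finset.single_le_sum (f := fun τ => m τ * e τ) (fun _ _ => Nat.zero_le _) (Finset.mem_univ τ)
      have h5 : m τ ≠ 0 := by
        intro h0
        apply hτ
        rw [hm, h0]
        simp
      have h7 : e τ ≤ m τ * e τ := Nat.le_mul_of_pos_left _ (Nat.pos_of_ne_zero h5)
      obtain ⟨D, hD, hDd⟩ := Cfsg.Agent.Lib.CharGlaub4.irr_degree_dvd τ.2
      have h8 : D = e τ := by
        have h9 := he τ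
        rw [hD] at h9
        exact_mod_cast h9
      obtain ⟨k, hk⟩ := IsPGroup.iff_card.mp P.isPGroup'
      rw [hk] at hDd
      obtain ⟨j, -, hj⟩ := (Nat.dvd_prime_pow hp.out).mp hDd
      have hj0 : j = 0 := by
        by_contra hne
        have h1 : p ≤ p ^ j := Nat.le_self_pow hne p
        omega
      rw [hD, hj, hj0]
      simp
    have h1 := comm_of_linear hχP hlin ⟨a, ha⟩ ⟨b, hb⟩
    have h2 := hfaith _ h1
    have h3 : a * b * a⁻¹ * b⁻¹ = 1 := h2
    have h5 : a * b = (a * b * a⁻¹ * b⁻¹) * (b * a) := by group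
    rw [h5, h3, one_mul]
  obtain ⟨x, hx, q, R, hq, hRq, hRK, hnorm, r₀, hr₀, hne⟩ := exists_bad hsolv P hP hab
  letI : Fintype R := Fintype.ofFinite _
  let S : Subgroup G := Subgroup.zpowers x
  have hSP : S ≤ (P : Subgroup G) := Subgroup.zpowers_le.mpr hx
  have hS : IsPGroup p S := P.isPGroup'.to_le hSP
  have hcK : (Nat.card (pPrimeCore p G)).Coprime p := Cfsg.Agent.Lib.H1Core.pPrimeCore_coprime p
  have hcop : (Nat.card R).Coprime (Nat.card S) := by
    obtain ⟨k, hk⟩ := IsPGroup.iff_card.mp hS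
    rw [hk]
    apply Nat.Coprime.pow_right
    exact Nat.Coprime.coprime_dvd_left (Subgroup.card_dvd_of_le hRK) hcK
  haveI : Fact q.Prime := ⟨hq⟩
  obtain ⟨d, ρ, rfl⟩ := hχ
  have hdn : d = n := by
    have h1 : ρ.character 1 = d := by
      rw [Representation.char_one]
      simp
    rw [h1] at hn
    exact_mod_cast hn
  subst hdn
  have hρinj : ∀ g, ρ g = 1 → g = 1 := by
    intro g hg
    apply hfaith
    show LinearMap.trace ℂ _ (ρ g) = LinearMap.trace ℂ _ (ρ 1)
    rw [hg, map_one ρ]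
  rcases comm_or_deg R S hnorm hcop hS ρ (by omega) with hc | ⟨θ, y, hθ, hy, hyp⟩
  · exfalso
    apply hne
    have h1 : ρ (r₀ * x) = ρ (x * r₀) := by
      apply LinearMap.ext
      intro v
      rw [map_mul, map_mul, Module.End.mul_apply, Module.End.mul_apply]
      exact hc r₀ hr₀ x (Subgroup.mem_zpowers x) v
    have h2 : ρ ((r₀ * x) * (x * r₀)⁻¹) = 1 := by
      rw [map_mul, h1, ← map_mul, mul_inv_cancel, map_one]
    have h3 := hρinj _ h2
    exact mul_inv_eq_one.mp h3
  have hχR : IsCharacter R (fun r : R => ρ.character r) := IsCharacter.res (isCharacter_character ρ) R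
  have hn' : (fun r : R => ρ.character r) 1 = d := by simpa using hn
  obtain ⟨m, e, hm, he, he0, hsum⟩ := deg_expand hχR hn'
  have h4 : m θ * e θ ≤ d := by
    rw [hsum]
    exact Finset.single_le_sum (f := fun τ => m τ * e τ) (fun _ _ => Nat.zero_le _) (Finset.mem_univ θ)
  have h5 : m θ ≠ 0 := by
    intro h0
    apply hθ
    rw [hm, h0]
    simp
  have h6 : e θ = y := by
    have h7 := he θ
    rw [hy] at h7
    exact_mod_cast h7.symm
  have h7 : e θ ≤ m θ * e θ := Nat.le_mul_of_pos_left _ (Nat.pos_of_ne_zero h5)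
  have hdy : y = d := by omega
  have hd1 : d + 1 = p := by omega
  refine ⟨hd1, ?_, ?_⟩
  · obtain ⟨D, hD, hDd⟩ := Cfsg.Agent.Lib.CharGlaub4.irr_degree_dvd θ.2
    have h8 : D = d := by
      rw [hy] at hD
      rw [← hdy]
      exact_mod_cast hD.symm
    obtain ⟨a, ha⟩ := IsPGroup.iff_card.mp hRq
    rw [ha, h8] at hDd
    obtain ⟨b, -, hb⟩ := (Nat.dvd_prime_pow hq).mp hDd
    by_cases hq2 : q = 2
    · subst hq2
      exact ⟨b, hb⟩
    · have hodd : Odd d := by
        rw [hb]
        exact (hq.odd_of_ne_two hq2).pow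
      obtain ⟨c, hc⟩ := hodd
      have hp2 : p = 2 := by
        have h9 : 2 ∣ p := ⟨c + 1, by omega⟩
        exact ((Nat.prime_dvd_prime_iff_eq Nat.prime_two hp.out).mp h9).symm
      exact ⟨0, by simp; omega⟩
  · apply isIrrCharacter_of_norm_one (isCharacter_character ρ)
    have h8 : IsCharacter R ((fun r : R => ρ.character r) - (θ : R → ℂ)) :=
      IsCharacter.sub_constituent hχR θ.2 hθ
    have h9 := IsCharacter.eq_zero_of_map_one h8 (by
      show ρ.character ((1 : R) : G) - (θ : R → ℂ) 1 = 0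
      have h10 : ((1 : R) : G) = 1 := rfl
      rw [h10, hn, hy, hdy]
      simp)
    have h10 : (fun r : R => ρ.character r) = (θ : R → ℂ) := sub_eq_zero.mp h9
    have h11 : classInner (fun r : R => ρ.character r) (fun r : R => ρ.character r) = 1 := by
      rw [h10]
      exact classInner_irr_self θ.2
    letI : Fintype (⊤ : Subgroup G) := Fintype.ofFinite _
    have htop : classInner (fun h : (⊤ : Subgroup G) => ρ.character h) (fun h : (⊤ : Subgroup G) => ρ.character h) =
        classInner ρ.character ρ.character := by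
      unfold classInner
      rw [Subgroup.card_top]
      congr 1
      exact Fintype.sum_equiv Subgroup.topEquiv.toEquiv _ _ (fun _ => rfl)
    have hfrR : finrank ℂ (Cmt ρ R) = 1 := by
      have h12 := finrank_Cmt ρ R
      rw [h11] at h12
      exact_mod_cast h12
    have hle : Cmt ρ (⊤ : Subgroup G) ≤ Cmt ρ R := by
      intro f hf
      rw [mem_Cmt] at hf ⊢
      exact fun h _ v => hf h trivial v
    have hfrT : finrank ℂ (Cmt ρ (⊤ : Subgroup G)) ≤ 1 := by
      rw [← hfrR]
      exact Submodule.finrank_mono hle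
    have h12 := finrank_Cmt ρ (⊤ : Subgroup G)
    rw [htop] at h12
    rcases Nat.le_one_iff_eq_zero_or_eq_one.mp hfrT with h0 | h1
    · exfalso
      rw [h0] at h12
      have h13 := eq_zero_of_classInner_self_eq_zero ρ.character (by rw [← h12]; simp)
      have h14 := congrFun h13 1
      rw [hn] at h14
      have h15 : d = 0 := by simpa using h14
      have h16 := he0 θ
      omega
    · rw [← h12, h1]
      simp

end Cfsg.Agent.Lib.H3Lin
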