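import Mathlib
import Cfsg.Agent.Lib.H3Gal
import Cfsg.Agent.Lib.H3Lin2
import Cfsg.Agent.Lib.CharGlaub4
import Cfsg.Agent.Lib.H1Core

set_option autoImplicit false
set_option linter.unusedSectionVars false

/-! Pointwise products with Galois twists, and the Fitting subgroup. -/

namespace Cfsg.Agent.Lib.H3Sig

open Cfsg Module
open scoped ComplexConjugate Pointwise TensorProduct
open Cfsg.Agent.Lib.CharBasic Cfsg.Agent.Lib.CharOrth Cfsg.Agent.Lib.CharAlg

universe u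

variable {G : Type u} [Group G] [Fintype G]

theorem scalar_of_finrank {W : Type*} [AddCommGroup W] [Module ℂ W] (I : Submodule ℂ W)
    (h : finrank ℂ I = 1) (a b : W) (ha : a ∈ I) (hb : b ∈ I) (ha0 : a ≠ 0) : ∃ c : ℂ, b = c • a := by
  have h0 : (⟨a, ha⟩ : I) ≠ 0 := by
    intro h1
    exact ha0 (congrArg Subtype.val h1)
  obtain ⟨c, hc⟩ := (finrank_eq_one_iff_of_nonzero' _ h0).mp h ⟨b, hb⟩
  exact ⟨c, (congrArg Subtype.val hc).symm⟩

theorem ne_zero_of_finrank {W : Type*} [AddCommGroup W] [Module ℂ W] (I : Submodule ℂ W)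
    (h : finrank ℂ I = 1) : ∃ a ∈ I, a ≠ 0 := by
  obtain ⟨v0, hv0, -⟩ := finrank_eq_one_iff'.mp h
  refine ⟨v0.1, v0.2, fun h1 => hv0 (Subtype.ext h1)⟩

set_option backward.isDefEq.respectTransparency false in
set_option maxHeartbeats 4000000 in
theorem key_rep {n m : ℕ} (ρ : Representation ℂ G (Fin n → ℂ)) (ρ' : Representation ℂ G (Fin m → ℂ))
    (h : classInner (fun g => ρ.character g * ρ'.character g) (fun g => ρ.character g * ρ'.character g) = 1)
    (f : G → G) (hf : ∀ g y, f (g * y * g⁻¹) = g * f y * g⁻¹)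
    (K : Finset G) (hK : ∀ g y, y ∈ K → g * y * g⁻¹ ∈ K) :
    ∃ c : ℂ, ∀ v w, ∑ y ∈ K, ρ.character (v * y) * ρ'.character (w * f y) =
      c * (ρ.character v * ρ'.character w) := by
  classical
  set τ := Representation.tprod ρ ρ' with hτ
  haveI : Invertible (Nat.card G : ℂ) := invertibleOfNonzero (by exact_mod_cast Nat.card_pos.ne')
  set I := Representation.invariants (k := ℂ) (G := G)
    (V := (((Fin n → ℂ) ⊗[ℂ] (Fin m → ℂ)) →ₗ[ℂ] ((Fin n → ℂ) ⊗[ℂ] (Fin m → ℂ))))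
    (Representation.linHom τ τ) with hI
  have hfr : finrank ℂ I = 1 := by
    have h1 : (finrank ℂ I : ℂ) = 1 := by
      rw [hI, ← Representation.card_inv_mul_sum_char_eq_finrank, ← h]
      unfold classInner
      congr 1
      refine Finset.sum_congr rfl fun g _ => ?_
      rw [Representation.char_linHom, hτ, Representation.char_tensor]
      simp only [Pi.mul_apply]
      rw [character_inv ρ, character_inv ρ', map_mul]
      ring
    exact_mod_cast h1
  set S : ((Fin n → ℂ) ⊗[ℂ] (Fin m → ℂ)) →ₗ[ℂ] ((Fin n → ℂ) ⊗[ℂ] (Fin m → ℂ)) :=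
    ∑ y ∈ K, TensorProduct.map (ρ y) (ρ' (f y)) with hS
  have hSm : S ∈ I := by
    rw [hI, Representation.mem_invariants]
    intro g
    rw [Representation.linHom_apply, hS]
    have h1 : ∀ y, τ g ∘ₗ TensorProduct.map (ρ y) (ρ' (f y)) ∘ₗ τ g⁻¹ =
        TensorProduct.map (ρ (g * y * g⁻¹)) (ρ' (f (g * y * g⁻¹))) := by
      intro y
      rw [hf, hτ, Representation.tprod_apply, Representation.tprod_apply,
        ← TensorProduct.map_comp, ← TensorProduct.map_comp]
      simp only [map_mul, Module.End.mul_eq_comp, LinearMap.comp_assoc]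
    have h2 : τ g ∘ₗ (∑ y ∈ K, TensorProduct.map (ρ y) (ρ' (f y))) ∘ₗ τ g⁻¹ =
        ∑ y ∈ K, τ g ∘ₗ TensorProduct.map (ρ y) (ρ' (f y)) ∘ₗ τ g⁻¹ := by
      apply LinearMap.ext
      intro t
      simp [LinearMap.sum_apply, map_sum]
    rw [h2]
    simp_rw [h1]
    refine Finset.sum_nbij' (fun y => g * y * g⁻¹) (fun y => g⁻¹ * y * g) ?_ ?_ ?_ ?_ ?_
    · intro y hy
      exact hK g y hy
    · intro y hy
      have := hK g⁻¹ y hy
      rwa [inv_inv] at this
    · intro y _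
      group
    · intro y _
      group
    · intro y _
      rfl
  have hidm : (LinearMap.id : ((Fin n → ℂ) ⊗[ℂ] (Fin m → ℂ)) →ₗ[ℂ] ((Fin n → ℂ) ⊗[ℂ] (Fin m → ℂ))) ∈ I := by
    rw [hI, Representation.mem_invariants]
    intro g
    rw [Representation.linHom_apply]
    apply LinearMap.ext
    intro v
    show τ g (τ g⁻¹ v) = v
    rw [← Module.End.mul_apply, ← map_mul, mul_inv_cancel, map_one]
    rfl
  obtain ⟨c, hc⟩ : ∃ c : ℂ, S = c • LinearMap.id := by
    refine scalar_of_finrank (W := (((Fin n → ℂ) ⊗[ℂ] (Fin m → ℂ)) →ₗ[ℂ] ((Fin n → ℂ) ⊗[ℂ] (Fin m → ℂ))))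
      I hfr LinearMap.id S hidm hSm ?_
    intro h00
    obtain ⟨a, ha, ha0⟩ := ne_zero_of_finrank
      (W := (((Fin n → ℂ) ⊗[ℂ] (Fin m → ℂ)) →ₗ[ℂ] ((Fin n → ℂ) ⊗[ℂ] (Fin m → ℂ)))) I hfr
    apply ha0
    apply LinearMap.ext
    intro t
    have h3 : t = 0 := by
      have := LinearMap.congr_fun h00 t
      simpa using this
    rw [h3]
    simp
  refine ⟨c, fun v w => ?_⟩
  have h1 : LinearMap.trace ℂ _ (TensorProduct.map (ρ v) (ρ' w) ∘ₗ S) =
      LinearMap.trace ℂ _ (TensorProduct.map (ρ v) (ρ' w) ∘ₗ (c • LinearMap.id)) := by rw [hc]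
  have h0 : TensorProduct.map (ρ v) (ρ' w) ∘ₗ S =
      ∑ y ∈ K, TensorProduct.map (ρ v) (ρ' w) ∘ₗ TensorProduct.map (ρ y) (ρ' (f y)) := by
    rw [hS]
    apply LinearMap.ext
    intro t
    simp [LinearMap.sum_apply, map_sum]
  rw [h0, map_sum] at h1
  have h2 : ∀ y, LinearMap.trace ℂ _ (TensorProduct.map (ρ v) (ρ' w) ∘ₗ TensorProduct.map (ρ y) (ρ' (f y))) =
      ρ.character (v * y) * ρ'.character (w * f y) := by
    intro y
    rw [← TensorProduct.map_comp, LinearMap.trace_tensorProduct']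
    simp only [Representation.character, map_mul]
    rfl
  simp_rw [h2] at h1
  rw [h1]
  rw [LinearMap.comp_smul, LinearMap.comp_id, map_smul, LinearMap.trace_tensorProduct']
  simp [Representation.character]

theorem key_char {χ : G → ℂ} (hχ : IsIrrCharacter G χ) {χ' : G → ℂ} (hχ' : IsCharacter G χ')
    (hirr : IsIrrCharacter G (fun g => χ g * χ' g))
    (f : G → G) (hf : ∀ g y, f (g * y * g⁻¹) = g * f y * g⁻¹)
    (K : Finset G) (hK : ∀ g y, y ∈ K → g * y * g⁻¹ ∈ K) :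
    ∃ c : ℂ, ∀ v w, ∑ y ∈ K, χ (v * y) * χ' (w * f y) = c * (χ v * χ' w) := by
  obtain ⟨n, ρ, _, rfl⟩ := hχ
  obtain ⟨m, ρ', rfl⟩ := hχ'
  exact key_rep ρ ρ' (classInner_irr_self hirr) f hf K hK

section main

variable {χ : G → ℂ} (hχ : IsIrrCharacter G χ) (hfaith : ∀ g, χ g = χ 1 → g = 1)
  {k k' : ℕ} (h1 : ∀ y : G, (y ^ k') ^ k = y)
  (hχ' : IsCharacter G (fun g => χ (g ^ k)))
  (hirr : IsIrrCharacter G (fun g => χ g * χ (g ^ k)))

include hχ h1 hχ' hirr in
theorem key (K : Finset G) (hK : ∀ g y, y ∈ K → g * y * g⁻¹ ∈ K) :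
    ∃ c : ℂ, ∀ v w, ∑ y ∈ K, χ (v * y) * χ ((w * (y ^ k')⁻¹) ^ k) = c * (χ v * χ (w ^ k)) :=
  key_char hχ hχ' hirr (fun y => (y ^ k')⁻¹)
    (by intro g y; show ((g * y * g⁻¹) ^ k')⁻¹ = _; rw [conj_pow]; group) K hK

include hχ hfaith in
theorem central_of_norm {d : G} (hd : ‖χ d‖ = ‖χ 1‖) : d ∈ Subgroup.center G := by
  obtain ⟨n, ρ, hρ, rfl⟩ := hχ
  have h2 : ‖ρ.character d‖ = (finrank ℂ (Fin n → ℂ) : ℝ) := by
    rw [hd, Representation.char_one]
    simp
  obtain ⟨ω, hω⟩ := (norm_character_eq_iff ρ d).mp h2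
  rw [Subgroup.mem_center_iff]
  intro g
  have h3 : ρ (g * d) = ρ (d * g) := by
    rw [map_mul, map_mul, hω]
    apply LinearMap.ext
    intro v
    simp
  have h4 : ρ ((d * g)⁻¹ * (g * d)) = ρ 1 := by
    rw [map_mul, h3, ← map_mul, inv_mul_cancel]
  have h5 := hfaith _ (congrArg (LinearMap.trace ℂ _) h4)
  exact (inv_injective (mul_eq_one_iff_eq_inv.mp h5)).symm

theorem norm_sq_cast (z : ℂ) : z * conj z = ((‖z‖ ^ 2 : ℝ) : ℂ) := by
  rw [Complex.mul_conj']
  push_cast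
  rfl

include hχ hfaith h1 hχ' hirr in
set_option maxHeartbeats 4000000 in
theorem abelian_central (A : Subgroup G) (hAn : A.Normal) (hAc : ∀ a ∈ A, ∀ b ∈ A, a * b = b * a) :
    A ≤ Subgroup.center G := by
  classical
  intro d hd
  obtain ⟨c, hc⟩ := key (k' := k') hχ h1 hχ' hirr (Finset.univ.filter (· ∈ A)) (by
    intro g y hy
    simp only [Finset.mem_filter, Finset.mem_univ, true_and] at hy ⊢
    exact hAn.conj_mem y hy g)
  have hconj : ∀ g, χ g⁻¹ = conj (χ g) := IsIrrCharacter.map_inv hχ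
  set R : ℝ := ∑ y ∈ Finset.univ.filter (· ∈ A), ‖χ y‖ ^ 2 with hR
  have e1 : c * (χ 1 * χ 1) = (R : ℂ) := by
    have := hc 1 1
    rw [one_pow] at this
    rw [← this, hR]
    push_cast
    refine Finset.sum_congr rfl fun y _ => ?_
    rw [one_mul, one_mul, inv_pow, h1, hconj, Complex.mul_conj']
  have e2 : c * (χ d * conj (χ d)) = (R : ℂ) := by
    have := hc d (d ^ k')⁻¹
    rw [inv_pow, h1, hconj] at this
    rw [← this, hR]
    push_cast
    refine Finset.sum_nbij' (fun y => d * y) (fun y => d⁻¹ * y) ?_ ?_ ?_ ?_ ?_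
    · intro y hy
      simp only [Finset.mem_filter, Finset.mem_univ, true_and] at hy ⊢
      exact A.mul_mem hd hy
    · intro y hy
      simp only [Finset.mem_filter, Finset.mem_univ, true_and] at hy ⊢
      exact A.mul_mem (A.inv_mem hd) hy
    · intro y _
      group
    · intro y _
      group
    · intro y hy
      simp only [Finset.mem_filter, Finset.mem_univ, true_and] at hy
      have hcm : Commute d y := hAc d hd _ hy
      have h3 : (d ^ k')⁻¹ * (y ^ k')⁻¹ = ((d * y) ^ k')⁻¹ := by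
        rw [hcm.mul_pow k', mul_inv_rev]
        exact ((hcm.pow_pow k' k').inv_inv).eq
      rw [h3, inv_pow, h1, hconj, Complex.mul_conj']
  obtain ⟨n, hn, hn1⟩ := IsIrrCharacter.map_one_pos hχ
  have hRpos : (‖χ 1‖ ^ 2 : ℝ) ≤ R := by
    rw [hR]
    exact Finset.single_le_sum (f := fun y => ‖χ y‖ ^ 2) (fun y _ => by positivity)
      (by simp [A.one_mem])
  have hχ1 : ‖χ 1‖ = n := by rw [hn1]; simp
  have hnpos : (0 : ℝ) < n := by exact_mod_cast hn
  have hRp : 0 < R := lt_of_lt_of_le (by rw [hχ1]; positivity) hRpos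
  have hc0 : c ≠ 0 := by
    rintro rfl
    rw [zero_mul] at e1
    have : R = 0 := by exact_mod_cast e1.symm
    linarith
  have e3 : χ d * conj (χ d) = χ 1 * χ 1 := mul_left_cancel₀ hc0 (e2.trans e1.symm)
  apply central_of_norm hχ hfaith
  rw [norm_sq_cast] at e3
  have e4 : χ 1 * χ 1 = ((‖χ 1‖ ^ 2 : ℝ) : ℂ) := by
    rw [hχ1, hn1]
    push_cast
    ring
  rw [e4] at e3
  have e5 : ‖χ d‖ ^ 2 = ‖χ 1‖ ^ 2 := by exact_mod_cast e3
  exact (pow_left_inj₀ (norm_nonneg _) (norm_nonneg _) two_ne_zero).mp e5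

include hχ hfaith in
theorem vanish (F : Subgroup G) (hFab : ∀ w ∈ F, (∀ u ∈ F, w * u = u * w) → w ∈ Subgroup.center G)
    {w : G} (hwF : w ∈ F) (hw : ∀ u ∈ F, w * u * w⁻¹ * u⁻¹ ∈ Subgroup.center G)
    (hwn : w ∉ Subgroup.center G) : χ w = 0 := by
  by_contra hne
  have h2 : ∃ u ∈ F, w * u ≠ u * w := by
    by_contra hh
    push Not at hh
    exact hwn (hFab w hwF hh)
  obtain ⟨u, hu, hne'⟩ := h2
  have hz := hw u hu
  set z := w * u * w⁻¹ * u⁻¹ with hzdef
  have hz' : z⁻¹ ∈ Subgroup.center G := (Subgroup.center G).inv_mem hz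
  have h3 := Cfsg.Agent.Lib.H3Gal.central_mul hχ hz' w
  have h4 : z⁻¹ * w = u * w * u⁻¹ := by rw [hzdef]; group
  have h5 : χ (u * w * u⁻¹) = χ w := by
    obtain ⟨n, ρ, _, rfl⟩ := hχ
    exact Representation.char_conj ρ w u
  rw [h4, h5] at h3
  have h6 : χ 1 = χ z⁻¹ := mul_right_cancel₀ hne h3
  have h7 := hfaith _ h6.symm
  apply hne'
  have h8 : z = 1 := inv_eq_one.mp h7
  rw [hzdef] at h8
  have h9 : w * u * w⁻¹ * u⁻¹ * (u * w) = u * w := by rw [h8, one_mul]
  calc w * u = w * u * w⁻¹ * u⁻¹ * (u * w) := by group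
    _ = u * w := h9

/-- Elements central modulo the centre, within `F`. -/
def IsE (F : Subgroup G) (w : G) : Prop :=
  w ∈ F ∧ ∀ u ∈ F, w * u * w⁻¹ * u⁻¹ ∈ Subgroup.center G

theorem IsE.mul {F : Subgroup G} {a b : G} (ha : IsE F a) (hb : IsE F b) : IsE F (a * b) := by
  refine ⟨F.mul_mem ha.1 hb.1, fun u hu => ?_⟩
  have h : a * b * u * (a * b)⁻¹ * u⁻¹ = a * (b * u * b⁻¹ * u⁻¹) * a⁻¹ * (a * u * a⁻¹ * u⁻¹) := by group
  rw [h]
  exact (Subgroup.center G).mul_mem (Subgroup.instNormalCenter.conj_mem _ (hb.2 u hu) a) (ha.2 u hu)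

theorem IsE.inv {F : Subgroup G} {a : G} (ha : IsE F a) : IsE F a⁻¹ := by
  refine ⟨F.inv_mem ha.1, fun u hu => ?_⟩
  have h : a⁻¹ * u * a⁻¹⁻¹ * u⁻¹ = a⁻¹ * (a * u * a⁻¹ * u⁻¹)⁻¹ * a⁻¹⁻¹ := by group
  rw [h]
  exact Subgroup.instNormalCenter.conj_mem _ ((Subgroup.center G).inv_mem (ha.2 u hu)) a⁻¹

theorem IsE.conj {F : Subgroup G} (hF : F.Normal) {a : G} (ha : IsE F a) (g : G) : IsE F (g * a * g⁻¹) := by
  refine ⟨hF.conj_mem _ ha.1 g, fun u hu => ?_⟩
  have hu' : g⁻¹ * u * g ∈ F := by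
    have := hF.conj_mem _ hu g⁻¹
    rwa [inv_inv] at this
  have h : g * a * g⁻¹ * u * (g * a * g⁻¹)⁻¹ * u⁻¹ =
      g * (a * (g⁻¹ * u * g) * a⁻¹ * (g⁻¹ * u * g)⁻¹) * g⁻¹ := by group
  rw [h]
  exact Subgroup.instNormalCenter.conj_mem _ (ha.2 _ hu') g

theorem conj_not_center {a : G} (ha : a ∉ Subgroup.center G) (g : G) :
    g * a * g⁻¹ ∉ Subgroup.center G := by
  intro h
  apply ha
  have := Subgroup.instNormalCenter.conj_mem _ h g⁻¹
  have h2 : g⁻¹ * (g * a * g⁻¹) * g⁻¹⁻¹ = a := by group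
  rwa [h2] at this

/-- Nilpotency gives an element outside the centre, central modulo the centre. -/
theorem exists_E (F : Subgroup G) (hnil : Group.IsNilpotent F) (hne : ¬ F ≤ Subgroup.center G) :
    ∃ x, IsE F x ∧ x ∉ Subgroup.center G := by
  classical
  obtain ⟨c, hc⟩ := (Subgroup.isNilpotent_iff_lowerCentralSeries F).mp hnil
  have hP : ∃ i, F.lowerCentralSeries i ≤ Subgroup.center G := ⟨c, by rw [hc]; exact bot_le⟩
  have h0 : Nat.find hP ≠ 0 := by
    intro h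
    have h1 := Nat.find_spec hP
    rw [h] at h1
    exact hne h1
  obtain ⟨j, hj⟩ := Nat.exists_eq_succ_of_ne_zero h0
  have h1 := Nat.find_spec hP
  have h2 : ¬ F.lowerCentralSeries j ≤ Subgroup.center G := Nat.find_min hP (by omega)
  rw [hj] at h1
  obtain ⟨a, ha, han⟩ := SetLike.not_le_iff_exists.mp h2
  have haF : a ∈ F := F.lowerCentralSeries_antitone (Nat.zero_le j) ha
  refine ⟨a, ⟨haF, fun u hu => ?_⟩, han⟩
  exact h1 (Subgroup.commutator_mem_commutator ha hu)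

include hχ hfaith h1 hχ' hirr in
set_option maxHeartbeats 4000000 in
theorem no_E (F : Subgroup G) (hF : F.Normal)
    (hFab : ∀ w ∈ F, (∀ u ∈ F, w * u = u * w) → w ∈ Subgroup.center G)
    {x : G} (hx : IsE F x) (hxn : x ∉ Subgroup.center G) : False := by
  classical
  have hconj : ∀ g, χ g⁻¹ = conj (χ g) := IsIrrCharacter.map_inv hχ
  have hv : ∀ w, IsE F w → w ∉ Subgroup.center G → χ w = 0 :=
    fun w hw hwn => vanish hχ hfaith F hFab hw.1 hw.2 hwn
  obtain ⟨c, hc⟩ := key (k' := k') hχ h1 hχ' hirr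
    (Finset.univ.filter (fun y => ∃ g, y = g * x * g⁻¹)) (by
    intro g y hy
    simp only [Finset.mem_filter, Finset.mem_univ, true_and] at hy ⊢
    obtain ⟨h, rfl⟩ := hy
    exact ⟨g * h, by group⟩)
  obtain ⟨n, hn, hn1⟩ := IsIrrCharacter.map_one_pos hχ
  have hnc : (n : ℂ) ≠ 0 := by exact_mod_cast hn.ne'
  have hc0 : c = 0 := by
    have e1 := hc 1 1
    rw [Finset.sum_eq_zero] at e1
    · rw [one_pow, hn1] at e1
      have h2 : c * ((n : ℂ) * n) = 0 := e1.symm
      rcases mul_eq_zero.mp h2 with h | h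
      · exact h
      · exact absurd h (mul_ne_zero hnc hnc)
    · intro y hy
      simp only [Finset.mem_filter, Finset.mem_univ, true_and] at hy
      obtain ⟨g, rfl⟩ := hy
      rw [one_mul, hv _ (hx.conj hF g) (conj_not_center hxn g), zero_mul]
  have e2 := hc x⁻¹ (x ^ k')
  rw [hc0, zero_mul] at e2
  have ht : ∀ y ∈ Finset.univ.filter (fun y => ∃ g, y = g * x * g⁻¹),
      0 ≤ (χ (x⁻¹ * y) * χ ((x ^ k' * (y ^ k')⁻¹) ^ k)).re := by
    intro y hy
    simp only [Finset.mem_filter, Finset.mem_univ, true_and] at hy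
    obtain ⟨g, rfl⟩ := hy
    by_cases hz : x⁻¹ * (g * x * g⁻¹) ∈ Subgroup.center G
    · set z := x⁻¹ * (g * x * g⁻¹) with hzdef
      have hcm : Commute z x := ((Subgroup.mem_center_iff.mp hz) x).symm
      have hy : g * x * g⁻¹ = z * x := by
        rw [hcm.eq, hzdef]
        group
      rw [hy, hcm.mul_pow k']
      have h3 : x ^ k' * (z ^ k' * x ^ k')⁻¹ = (z ^ k')⁻¹ := by group
      rw [h3, inv_pow, h1, hconj, norm_sq_cast, Complex.ofReal_re]
      positivity
    · rw [hv _ (hx.inv.mul (hx.conj hF g)) hz, zero_mul]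
      simp
  have e3 := congrArg Complex.re e2
  rw [Complex.re_sum, Complex.zero_re] at e3
  have hxm : x ∈ Finset.univ.filter (fun y => ∃ g, y = g * x * g⁻¹) := by
    simp only [Finset.mem_filter, Finset.mem_univ, true_and]
    exact ⟨1, by group⟩
  have hle := Finset.single_le_sum
    (f := fun y => (χ (x⁻¹ * y) * χ ((x ^ k' * (y ^ k')⁻¹) ^ k)).re) ht hxm
  rw [e3] at hle
  simp only [inv_mul_cancel, mul_inv_cancel, one_pow, hn1] at hle
  have h5 : (((n : ℂ) * n)).re = (n : ℝ) * n := by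
    rw [← Nat.cast_mul, Complex.natCast_re]
    push_cast
    rfl
  rw [h5] at hle
  have h6 : (0 : ℝ) < n := by exact_mod_cast hn
  nlinarith [mul_pos h6 h6]

include hχ hfaith h1 hχ' hirr in
/-- The Fitting subgroup is the centre. -/
theorem fitting_eq_center : Cfsg.fittingSubgroup G = Subgroup.center G := by
  have hFn := Cfsg.Agent.Lib.H1Core.fittingSubgroup_normal G
  have hle : Subgroup.center G ≤ Cfsg.fittingSubgroup G :=
    Cfsg.Agent.Lib.H1Core.le_fittingSubgroup Subgroup.instNormalCenter ((Subgroup.isNilpotent_iff_lowerCentralSeries _).mpr ⟨1, by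
      rw [Subgroup.lowerCentralSeries_succ, Subgroup.lowerCentralSeries_zero, eq_bot_iff,
        Subgroup.commutator_le]
      intro a _ b hb
      rw [Subgroup.mem_bot, commutatorElement_eq_one_iff_mul_comm]
      exact Subgroup.mem_center_iff.mp hb a⟩)
  have hFab : ∀ w ∈ Cfsg.fittingSubgroup G, (∀ u ∈ Cfsg.fittingSubgroup G, w * u = u * w) →
      w ∈ Subgroup.center G := by
    intro w hw hc
    haveI := hFn
    have hA := abelian_central (k' := k') hχ hfaith h1 hχ' hirr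
      (Cfsg.fittingSubgroup G ⊓ Subgroup.centralizer (Cfsg.fittingSubgroup G : Set G))
      inferInstance (by
        intro a ha b hb
        have := Subgroup.mem_centralizer_iff.mp hb.2 a ha.1
        exact this)
    exact hA ⟨hw, Subgroup.mem_centralizer_iff.mpr fun u hu => (hc u hu).symm⟩
  apply le_antisymm _ hle
  by_contra hne
  obtain ⟨x, hx, hxn⟩ := exists_E (Cfsg.fittingSubgroup G)
    Cfsg.Agent.Lib.H1Core.fittingSubgroup_isNilpotent hne
  exact no_E hχ hfaith h1 hχ' hirr _ hFn hFab hx hxn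

end main

end Cfsg.Agent.Lib.H3Sig
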