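import Mathlib
import Cfsg.Prelude.Def_Local
import Cfsg.Agent.Lib.H1Core
import Cfsg.Agent.Lib.Comp2

set_option autoImplicit false

/-! Groups with trivial-intersection Sylow subgroups and no normal `p`- or `p'`-subgroups. -/

namespace Cfsg.Agent.Lib.H3TI

open Cfsg Pointwise

variable {H : Type*} [Group H] [Finite H] {p : ℕ} [hp : Fact p.Prime]

/-- The trivial-intersection property for all Sylow subgroups, elementwise. -/
def TIS (p : ℕ) [Fact p.Prime] (H : Type*) [Group H] : Prop :=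
  ∀ (Q : Sylow p H) (g x : H), x ∈ (Q : Subgroup H) → x ≠ 1 → g⁻¹ * x * g ∈ (Q : Subgroup H) →
    ∀ y ∈ (Q : Subgroup H), g⁻¹ * y * g ∈ (Q : Subgroup H)

theorem tis_of_one (P : Sylow p H)
    (hTI : ∀ g : H, g ∉ Subgroup.normalizer ((P : Subgroup H) : Set H) →
      (P : Subgroup H) ⊓ (MulAut.conj g • (P : Subgroup H)) = ⊥) : TIS p H := by
  intro Q g x hx hx1 hgx y hy
  obtain ⟨k, rfl⟩ := MulAction.exists_smul_eq H P Q
  rw [Cfsg.Agent.Lib.H1Core.mem_sylow_smul] at hx hgx hy ⊢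
  set g' := k⁻¹ * g * k with hg'
  have h1 : k⁻¹ * x * k ∈ (P : Subgroup H) ⊓ (MulAut.conj g' • (P : Subgroup H)) := by
    refine ⟨hx, ?_⟩
    show k⁻¹ * x * k ∈ MulAut.conj g' • (P : Subgroup H)
    rw [Cfsg.Agent.Lib.H1Core.mem_conj_smul]
    have : g'⁻¹ * (k⁻¹ * x * k) * g' = k⁻¹ * (g⁻¹ * x * g) * k := by rw [hg']; group
    rw [this]; exact hgx
  have h2 : g' ∈ Subgroup.normalizer ((P : Subgroup H) : Set H) := by
    by_contra hn
    rw [hTI g' hn, Subgroup.mem_bot] at h1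
    apply hx1
    have : x = k * (k⁻¹ * x * k) * k⁻¹ := by group
    rw [this, h1]; group
  have h3 : g'⁻¹ ∈ Subgroup.normalizer ((P : Subgroup H) : Set H) := inv_mem h2
  have h4 := (Subgroup.mem_normalizer_iff.mp h3 (k⁻¹ * y * k)).mp hy
  have : k⁻¹ * (g⁻¹ * y * g) * k = g'⁻¹ * (k⁻¹ * y * k) * g'⁻¹⁻¹ := by rw [hg']; group
  rw [this]; exact h4

/-- Commuting lemma. -/
theorem normalized_of_commuting (hT : TIS p H) (A Q R : Subgroup H) (hQA : Q ≤ A)
    (hQ : IsPGroup p Q) (hmax : ∀ K : Subgroup H, K ≤ A → IsPGroup p K → Q ≤ K → K = Q)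
    (hR : IsPGroup p R) (hR1 : R ≠ ⊥) (hc : ∀ a ∈ A, ∀ r ∈ R, a * r = r * a) :
    ∀ a ∈ A, ∀ y ∈ Q, a * y * a⁻¹ ∈ Q := by
  have hQn : Q ≤ Subgroup.normalizer (R : Set H) := by
    intro q hq
    rw [Subgroup.mem_normalizer_iff]
    intro r
    have : q * r * q⁻¹ = r ∨ r ∉ R := by
      by_cases hr : r ∈ R
      · left; rw [hc q (hQA hq) r hr]; group
      · right; exact hr
    constructor
    · intro hr
      rcases this with h | h
      · rw [h]; exact hr
      · exact absurd hr h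
    · intro hr
      have h5 := hc q⁻¹ (inv_mem (hQA hq)) _ hr
      have : r = q⁻¹ * (q * r * q⁻¹) * q := by group
      rw [this, h5]; simpa using hr
  have hD : IsPGroup p (Q ⊔ R : Subgroup H) := hQ.to_sup_of_normal_right' hR hQn
  obtain ⟨S, hS⟩ := hD.exists_le_sylow
  have hr0 : ∃ r ∈ R, r ≠ 1 := by
    by_contra hno
    push Not at hno
    exact hR1 ((Subgroup.eq_bot_iff_forall R).mpr hno)
  obtain ⟨r, hr, hr1⟩ := hr0
  have hrS : r ∈ (S : Subgroup H) := hS (Subgroup.mem_sup_right hr)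
  have hQS : Q ≤ (S : Subgroup H) := le_sup_left.trans hS
  have hnorm : ∀ a ∈ A, ∀ y ∈ (S : Subgroup H), a⁻¹ * y * a ∈ (S : Subgroup H) := by
    intro a ha y hy
    refine hT S a r hrS hr1 ?_ y hy
    have : a⁻¹ * r * a = r := by
      have h5 := hc a⁻¹ (inv_mem ha) r hr
      rw [h5]; group
    rw [this]; exact hrS
  have hK : ((S : Subgroup H) ⊓ A) = Q := by
    refine hmax _ inf_le_right ?_ (le_inf hQS hQA)
    exact S.isPGroup'.to_le inf_le_left
  intro a ha y hy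
  have h1 : a * y * a⁻¹ ∈ (S : Subgroup H) ⊓ A := by
    refine Subgroup.mem_inf.mpr ⟨?_, ?_⟩
    · have := hnorm a⁻¹ (inv_mem ha) y (hQS hy)
      simp only [inv_inv] at this
      exact this
    · exact mul_mem (mul_mem ha (hQA hy)) (inv_mem ha)
  rw [hK] at h1
  exact h1

/-- Maximal `p`-subgroups from Sylow subgroups of a subgroup. -/
theorem sylow_map_max (A : Subgroup H) (S : Sylow p A) :
    ∀ K : Subgroup H, K ≤ A → IsPGroup p K → (S : Subgroup A).map A.subtype ≤ K →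
      K = (S : Subgroup A).map A.subtype := by
  intro K hKA hK hSK
  have h1 : IsPGroup p (K.subgroupOf A) := hK.comap_of_injective _ A.subtype_injective |>.to_le (by
    intro x hx; exact hx)
  have h2 : (S : Subgroup A) ≤ K.subgroupOf A := by
    intro x hx
    exact hSK ⟨x, hx, rfl⟩
  have h3 := S.is_maximal' h1 h2
  refine le_antisymm ?_ hSK
  intro x hx
  refine ⟨⟨x, hKA hx⟩, ?_, rfl⟩
  rw [← h3]
  exact hx

section core

variable (hOp : Cfsg.pCore p H = ⊥) (hOp' : Cfsg.pPrimeCore p H = ⊥)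

include hOp in
theorem pgroup_bot (U : Subgroup H) [U.Normal] (K : Subgroup H) (hKU : K ≤ U)
    (hn : ∀ u ∈ U, ∀ t ∈ K, u * t * u⁻¹ ∈ K) (hK : IsPGroup p K) : K = ⊥ := by
  have h1 : (K.subgroupOf U).Normal := by
    constructor
    intro t ht u
    exact hn u u.2 t ht
  have h2 : IsPGroup p (K.subgroupOf U) := hK.comap_of_injective _ U.subtype_injective |>.to_le (by
    intro x hx; exact hx)
  have h3 : K.subgroupOf U ≤ pCore p U := Cfsg.Agent.Lib.H1Core.le_pCore h1 h2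
  haveI : (pCore p U).Characteristic := Cfsg.Agent.Lib.Comp2.pCore_char p
  have h4 : ((pCore p U).map U.subtype).Normal :=
    Cfsg.Agent.Lib.H1Core.normal_map_of_characteristic U _
  have h5 : IsPGroup p ((pCore p U).map U.subtype) :=
    (Cfsg.Agent.Lib.H1Core.pCore_isPGroup p).map _
  have h6 := Cfsg.Agent.Lib.H1Core.le_pCore h4 h5
  rw [hOp] at h6
  rw [eq_bot_iff]
  intro x hx
  exact h6 ⟨⟨x, hKU hx⟩, h3 hx, rfl⟩

include hOp' in
theorem coprime_bot (U : Subgroup H) [U.Normal] (K : Subgroup H) (hKU : K ≤ U)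
    (hn : ∀ u ∈ U, ∀ t ∈ K, u * t * u⁻¹ ∈ K) (hK : ¬ p ∣ Nat.card K) : K = ⊥ := by
  have hpp : p.Prime := Fact.out
  have h1 : (K.subgroupOf U).Normal := by
    constructor
    intro t ht u
    exact hn u u.2 t ht
  have h2 : (Nat.card (K.subgroupOf U)).Coprime p := by
    rw [Cfsg.Agent.Lib.Comp2.card_subgroupOf_of_le hKU]
    exact ((Nat.Prime.coprime_iff_not_dvd hpp).mpr hK).symm
  have h3 : K.subgroupOf U ≤ pPrimeCore p U := Cfsg.Agent.Lib.H1Core.le_pPrimeCore h1 h2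
  haveI : (pPrimeCore p U).Characteristic := Cfsg.Agent.Lib.Comp2.pPrimeCore_char p
  have h4 : ((pPrimeCore p U).map U.subtype).Normal :=
    Cfsg.Agent.Lib.H1Core.normal_map_of_characteristic U _
  have h5 : (Nat.card ((pPrimeCore p U).map U.subtype)).Coprime p := by
    rw [Cfsg.Agent.Lib.Comp2.card_map_subtype]
    exact Cfsg.Agent.Lib.H1Core.pPrimeCore_coprime p
  have h6 := Cfsg.Agent.Lib.H1Core.le_pPrimeCore h4 h5
  rw [hOp'] at h6
  rw [eq_bot_iff]
  intro x hx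
  exact h6 ⟨⟨x, hKU hx⟩, h3 hx, rfl⟩

include hOp hOp' in
/-- Sylow subgroups of a nontrivial `U`-normal subgroup are not normal. -/
theorem sylow_not_normal (U : Subgroup H) [U.Normal] (T : Subgroup H) (hTU : T ≤ U)
    (hn : ∀ u ∈ U, ∀ t ∈ T, u * t * u⁻¹ ∈ T) (hT1 : T ≠ ⊥) (S : Sylow p T)
    (hS : ∀ a ∈ T, ∀ y ∈ (S : Subgroup T).map T.subtype, a * y * a⁻¹ ∈ (S : Subgroup T).map T.subtype) :
    False := by
  set Q := (S : Subgroup T).map T.subtype with hQ
  have hQp : IsPGroup p Q := S.isPGroup'.map _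
  have hQT : Q ≤ T := by
    rintro _ ⟨x, -, rfl⟩
    exact x.2
  have hQn : Q ≤ Subgroup.normalizer (Q : Set H) ∧ T ≤ Subgroup.normalizer (Q : Set H) := by
    have h : T ≤ Subgroup.normalizer (Q : Set H) := by
      intro a ha
      rw [Subgroup.mem_normalizer_iff]
      intro y
      constructor
      · exact hS a ha y
      · intro hy
        have := hS a⁻¹ (inv_mem ha) _ hy
        simpa [mul_assoc] using this
    exact ⟨hQT.trans h, h⟩
  -- every `p`-element of `T` lies in `Q`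
  have hel : ∀ x ∈ T, IsPGroup p (Subgroup.zpowers x) → x ∈ Q := by
    intro x hx hxp
    have hle : Subgroup.zpowers x ≤ Subgroup.normalizer (Q : Set H) :=
      (Subgroup.zpowers_le.mpr hx).trans hQn.2
    have h1 : IsPGroup p (Subgroup.zpowers x ⊔ Q : Subgroup H) :=
      hxp.to_sup_of_normal_right' hQp hle
    have h2 := sylow_map_max T S (Subgroup.zpowers x ⊔ Q)
      (sup_le (Subgroup.zpowers_le.mpr hx) hQT) h1 le_sup_right
    rw [← hQ] at h2
    rw [← h2]
    exact Subgroup.mem_sup_left (Subgroup.mem_zpowers x)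
  have hU : ∀ u ∈ U, ∀ y ∈ Q, u * y * u⁻¹ ∈ Q := by
    intro u hu y hy
    refine hel _ (hn u hu y (hQT hy)) ?_
    have hy' : IsPGroup p (Subgroup.zpowers y) := hQp.to_le (Subgroup.zpowers_le.mpr hy)
    have := hy'.map (MulAut.conj u).toMonoidHom
    rw [MonoidHom.map_zpowers] at this
    exact this
  have hQb := pgroup_bot hOp U Q (hQT.trans hTU) hU hQp
  apply hT1
  apply coprime_bot hOp' U T hTU hn
  intro hdvd
  exact S.ne_bot_of_dvd_card hdvd (by
    rw [eq_bot_iff]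
    intro x hx
    have : (x : H) ∈ Q := ⟨x, hx, rfl⟩
    rw [hQb, Subgroup.mem_bot] at this
    exact Subtype.ext this)

include hOp hOp' in
/-- Two nontrivial `U`-normal subgroups meet nontrivially. -/
theorem inf_ne_bot (hTI : TIS p H) (U : Subgroup H) [U.Normal] (T₁ T₂ : Subgroup H)
    (h1U : T₁ ≤ U) (h2U : T₂ ≤ U)
    (hn1 : ∀ u ∈ U, ∀ t ∈ T₁, u * t * u⁻¹ ∈ T₁) (hn2 : ∀ u ∈ U, ∀ t ∈ T₂, u * t * u⁻¹ ∈ T₂)
    (h1 : T₁ ≠ ⊥) (h2 : T₂ ≠ ⊥) : T₁ ⊓ T₂ ≠ ⊥ := by
  intro hinf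
  have hc : ∀ a ∈ T₁, ∀ b ∈ T₂, a * b = b * a := by
    intro a ha b hb
    have h3 : a * b * a⁻¹ * b⁻¹ ∈ T₁ ⊓ T₂ := by
      refine Subgroup.mem_inf.mpr ⟨?_, mul_mem (hn2 a (h1U ha) b hb) (inv_mem hb)⟩
      have h4 := hn1 b (h2U hb) a⁻¹ (inv_mem ha)
      have : a * b * a⁻¹ * b⁻¹ = a * (b * a⁻¹ * b⁻¹) := by group
      rw [this]; exact mul_mem ha h4
    rw [hinf, Subgroup.mem_bot] at h3
    have : a * b = (a * b * a⁻¹ * b⁻¹) * (b * a) := by group
    rw [this, h3, one_mul]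
  have hd2 : p ∣ Nat.card T₂ := by
    by_contra hd
    exact h2 (coprime_bot hOp' U T₂ h2U hn2 hd)
  have S₁ : Sylow p T₁ := default
  have S₂ : Sylow p T₂ := default
  have hR1 : (S₂ : Subgroup T₂).map T₂.subtype ≠ ⊥ := by
    intro hb
    refine S₂.ne_bot_of_dvd_card hd2 ?_
    rw [eq_bot_iff]
    intro x hx
    have : (x : H) ∈ (S₂ : Subgroup T₂).map T₂.subtype := ⟨x, hx, rfl⟩
    rw [hb, Subgroup.mem_bot] at this
    exact Subtype.ext this
  have hN := normalized_of_commuting hTI T₁ ((S₁ : Subgroup T₁).map T₁.subtype)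
    ((S₂ : Subgroup T₂).map T₂.subtype) (by
      rintro _ ⟨x, -, rfl⟩
      exact x.2) (S₁.isPGroup'.map _) (sylow_map_max T₁ S₁) (S₂.isPGroup'.map _) hR1 (by
      rintro a ha _ ⟨x, -, rfl⟩
      exact hc a ha _ x.2)
  exact sylow_not_normal hOp hOp' U T₁ h1U hn1 h1 S₁ hN

end core

/-- The main structure theorem. -/
theorem main_ti {H : Type*} [Group H] [Finite H] (p : ℕ) [Fact p.Prime]
    (hOp : Cfsg.pCore p H = ⊥) (hOp' : Cfsg.pPrimeCore p H = ⊥) (P : Sylow p H)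
    (hP1 : (P : Subgroup H) ≠ ⊥)
    (hTI : ∀ g : H, g ∉ Subgroup.normalizer ((P : Subgroup H) : Set H) →
      (P : Subgroup H) ⊓ (MulAut.conj g • (P : Subgroup H)) = ⊥) :
    ∃ N : Subgroup H, N.Normal ∧ N ≠ ⊥ ∧ (∀ K : Subgroup H, K.Normal → K ≠ ⊥ → N ≤ K) ∧
      IsSimpleGroup N ∧ ¬ IsMulCommutative N ∧ Subgroup.centralizer (N : Set H) = ⊥ ∧
      ∀ Q : Sylow p N, (Q : Subgroup N) ≠ ⊥ ∧
        ∀ n : N, n ∉ Subgroup.normalizer ((Q : Subgroup N) : Set N) →
          (Q : Subgroup N) ⊓ (MulAut.conj n • (Q : Subgroup N)) = ⊥ := by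
  classical
  have hT := tis_of_one P hTI
  have hU2 : ∀ K L : Subgroup H, K.Normal → L.Normal → K ≠ ⊥ → L ≠ ⊥ → K ⊓ L ≠ ⊥ := by
    intro K L hK hL h1 h2
    exact inf_ne_bot hOp hOp' hT ⊤ K L le_top le_top (fun u _ t ht => hK.conj_mem t ht u)
      (fun u _ t ht => hL.conj_mem t ht u) h1 h2
  have htop : (⊤ : Subgroup H) ≠ ⊥ := by
    intro h
    apply hP1
    rw [eq_bot_iff, ← h]
    exact le_top
  obtain ⟨N, hNmin⟩ := exists_minimal_of_wellFoundedLT
    (fun K : Subgroup H => K.Normal ∧ K ≠ ⊥) ⟨⊤, inferInstance, htop⟩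
  obtain ⟨hNn, hN1⟩ := hNmin.1
  haveI := hNn
  have hleast : ∀ K : Subgroup H, K.Normal → K ≠ ⊥ → N ≤ K := by
    intro K hK hK1
    haveI := hK
    have h1 := hU2 N K hNn hK hN1 hK1
    have h2 : N ≤ N ⊓ K := hNmin.le_of_le ⟨inferInstance, h1⟩ inf_le_left
    exact h2.trans inf_le_right
  have hnc : ¬ IsMulCommutative N := by
    intro hc
    have S : Sylow p N := default
    refine sylow_not_normal hOp hOp' ⊤ N le_top (fun u _ t ht => hNn.conj_mem t ht u) hN1 S ?_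
    rintro a ha _ ⟨y, hy, rfl⟩
    have h3 : (⟨a, ha⟩ : N) * y = y * ⟨a, ha⟩ := hc.is_comm.comm _ _
    have h4 : a * (y : H) = y * a := congrArg Subtype.val h3
    have : a * (y : H) * a⁻¹ = y := by rw [h4]; group
    show a * (y : H) * a⁻¹ ∈ _
    rw [this]
    exact ⟨y, hy, rfl⟩
  have hcent : Subgroup.centralizer (N : Set H) = ⊥ := by
    by_contra hC
    haveI : (Subgroup.centralizer (N : Set H)).Normal := inferInstance
    have h1 := hleast _ this hC
    apply hnc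
    refine ⟨⟨fun a b => Subtype.ext ?_⟩⟩
    have := (Subgroup.mem_centralizer_iff.mp (h1 a.2)) b b.2
    exact this.symm
  have hsimple : IsSimpleGroup N := by
    -- minimal `N`-normal subgroup
    let F : Subgroup H → Prop := fun T => T ≤ N ∧ (∀ u ∈ N, ∀ t ∈ T, u * t * u⁻¹ ∈ T) ∧ T ≠ ⊥
    obtain ⟨S, hSmin⟩ := exists_minimal_of_wellFoundedLT F
      ⟨N, le_rfl, (fun u hu t ht => mul_mem (mul_mem hu ht) (inv_mem hu)), hN1⟩
    obtain ⟨hSN, hSn, hS1⟩ := hSmin.1
    have hSl : ∀ T, F T → S ≤ T := by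
      rintro T ⟨h1, h2, h3⟩
      have h4 := inf_ne_bot hOp hOp' hT N S T hSN h1 hSn h2 hS1 h3
      have h5 : S ≤ S ⊓ T := hSmin.le_of_le ⟨inf_le_left.trans hSN, (fun u hu t ht =>
        Subgroup.mem_inf.mpr ⟨hSn u hu t ht.1, h2 u hu t ht.2⟩), h4⟩ inf_le_left
      exact h5.trans inf_le_right
    have hSnormal : S.Normal := by
      constructor
      intro x hx g
      -- conjugate of `S`
      have hF : F (S.map (MulAut.conj g⁻¹).toMonoidHom) := by
        refine ⟨?_, ?_, ?_⟩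
        · rintro _ ⟨y, hy, rfl⟩
          exact hNn.conj_mem y (hSN hy) g⁻¹
        · rintro u hu _ ⟨y, hy, rfl⟩
          refine ⟨g * u * g⁻¹ * y * (g * u * g⁻¹)⁻¹, ?_, ?_⟩
          · exact hSn _ (hNn.conj_mem u hu g) y hy
          · show g⁻¹ * (g * u * g⁻¹ * y * (g * u * g⁻¹)⁻¹) * g⁻¹⁻¹ = u * (g⁻¹ * y * g⁻¹⁻¹) * u⁻¹
            group
        · intro hb
          apply hS1
          rw [eq_bot_iff]
          intro y hy
          have : (MulAut.conj g⁻¹).toMonoidHom y ∈ S.map (MulAut.conj g⁻¹).toMonoidHom :=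
            ⟨y, hy, rfl⟩
          rw [hb, Subgroup.mem_bot] at this
          have h6 : (MulAut.conj g⁻¹) y = 1 := this
          rw [map_eq_one_iff _ (MulAut.conj g⁻¹).injective] at h6
          rw [h6]; exact one_mem _
      obtain ⟨z, hz, hzx⟩ := hSl _ hF hx
      have h7 : g⁻¹ * z * g⁻¹⁻¹ = x := hzx
      have : g * x * g⁻¹ = z := by rw [← h7]; group
      rw [this]; exact hz
    have hNS : N ≤ S := hleast S hSnormal hS1
    have hall : ∀ T, F T → T = N := fun T hT' => le_antisymm hT'.1 (hNS.trans (hSl T hT'))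
    haveI : Nontrivial N := (Subgroup.nontrivial_iff_ne_bot N).mpr hN1
    refine ⟨fun T hTn => ?_⟩
    by_cases hTb : T = ⊥
    · exact Or.inl hTb
    · right
      have h8 : F (T.map N.subtype) := by
        refine ⟨?_, ?_, ?_⟩
        · rintro _ ⟨y, -, rfl⟩
          exact y.2
        · rintro u hu _ ⟨y, hy, rfl⟩
          exact ⟨_, hTn.conj_mem y hy ⟨u, hu⟩, rfl⟩
        · intro hb
          apply hTb
          rw [eq_bot_iff]
          intro y hy
          have : (y : H) ∈ T.map N.subtype := ⟨y, hy, rfl⟩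
          rw [hb, Subgroup.mem_bot] at this
          exact Subtype.ext this
      have h9 := hall _ h8
      rw [eq_top_iff]
      intro y _
      have : (y : H) ∈ T.map N.subtype := by rw [h9]; exact y.2
      obtain ⟨z, hz, hzy⟩ := this
      have : z = y := Subtype.ext hzy
      rw [← this]; exact hz
  refine ⟨N, hNn, hN1, hleast, hsimple, hnc, hcent, ?_⟩
  intro Q
  have hdvd : p ∣ Nat.card N := by
    by_contra hd
    exact hN1 (coprime_bot hOp' ⊤ N le_top (fun u _ t ht => hNn.conj_mem t ht u) hd)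
  have hQb : (Q : Subgroup N) ≠ ⊥ := Q.ne_bot_of_dvd_card hdvd
  refine ⟨hQb, ?_⟩
  intro n hn
  by_contra hne
  apply hn
  -- a common nontrivial element
  obtain ⟨⟨x, hx⟩, hx1⟩ := Subgroup.ne_bot_iff_exists_ne_one.mp hne
  have hx1' : x ≠ 1 := fun h => hx1 (Subtype.ext h)
  have hx2 : x ∈ (Q : Subgroup N) := hx.1
  have hx3 : n⁻¹ * x * n ∈ (Q : Subgroup N) := by
    have := hx.2
    have h2 : x ∈ MulAut.conj n • (Q : Subgroup N) := this
    rwa [Cfsg.Agent.Lib.H1Core.mem_conj_smul] at h2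
  -- a Sylow subgroup of `H` above `Q`
  have hQp : IsPGroup p ((Q : Subgroup N).map N.subtype) := Q.isPGroup'.map _
  obtain ⟨R, hR⟩ := hQp.exists_le_sylow
  have hQe : (R : Subgroup H) ⊓ N = (Q : Subgroup N).map N.subtype := by
    refine sylow_map_max N Q _ inf_le_right (R.isPGroup'.to_le inf_le_left) (le_inf hR ?_)
    rintro _ ⟨y, -, rfl⟩
    exact y.2
  have hxR : (x : H) ∈ (R : Subgroup H) := hR ⟨x, hx2, rfl⟩
  have hxR' : (n : H)⁻¹ * x * n ∈ (R : Subgroup H) := hR ⟨_, hx3, rfl⟩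
  have hN1' := hT R (n : H) x hxR (fun h => hx1' (Subtype.ext h)) hxR'
  have hnr : ∀ y : N, y ∈ (Q : Subgroup N) → n⁻¹ * y * n ∈ (Q : Subgroup N) := by
    intro y hy
    have h3 : (y : H) ∈ (R : Subgroup H) := hR ⟨y, hy, rfl⟩
    have h4 := hN1' y h3
    have h5 : (n : H)⁻¹ * y * n ∈ (R : Subgroup H) ⊓ N :=
      Subgroup.mem_inf.mpr ⟨h4, mul_mem (mul_mem (inv_mem n.2) y.2) n.2⟩
    rw [hQe] at h5
    obtain ⟨z, hz, hzy⟩ := h5
    have : z = n⁻¹ * y * n := Subtype.ext hzy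
    rw [← this]; exact hz
  -- a map of a finite group normalizes
  have hinj : Function.Injective (fun y : (Q : Subgroup N) =>
      (⟨n⁻¹ * y * n, hnr y y.2⟩ : (Q : Subgroup N))) := by
    intro a b hab
    have := congrArg Subtype.val hab
    simp only at this
    exact Subtype.ext (by simpa using this)
  have hsurj := (Finite.injective_iff_surjective.mp hinj)
  rw [Subgroup.mem_normalizer_iff]
  intro y
  constructor
  · intro hy
    obtain ⟨z, hz⟩ := hsurj ⟨y, hy⟩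
    have h6 : n⁻¹ * (z : N) * n = y := congrArg Subtype.val hz
    have : n * y * n⁻¹ = z := by rw [← h6]; group
    rw [this]; exact z.2
  · intro hy
    have := hnr _ hy
    have h7 : n⁻¹ * (n * y * n⁻¹) * n = y := by group
    rwa [h7] at this

end Cfsg.Agent.Lib.H3TI
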