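import Mathlib

set_option autoImplicit false
set_option linter.unusedSectionVars false
set_option linter.style.haveILetI false

/-! The Baer trick: a class two group of odd exponent as an abelian group, with a fixed point consequence for
a `p`-group normalizing a `p'`-group of automorphisms. -/

namespace Cfsg.Agent.Lib.H9Baer

open scoped commutatorElement

/-- Type synonym carrying the commutative (Lie) group structure. -/
def LieT (W : Type*) := W

section
variable {W : Type*} [Group W]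

/-- the Baer operation -/
def lm (h : ℕ) (x y : W) : W := x * y * ⁅y, x⁆ ^ h

variable (hc : ∀ x y z : W, Commute ⁅x, y⁆ z)
include hc

theorem c_mul_left (x y z : W) : ⁅x * y, z⁆ = ⁅x, z⁆ * ⁅y, z⁆ := by
  have h1 : ⁅x * y, z⁆ = x * ⁅y, z⁆ * z * x⁻¹ * z⁻¹ := by
    simp only [commutatorElement_def]; group
  rw [h1, (hc y z x).symm.eq]
  simp only [commutatorElement_def]
  have h2 := (hc y z (x * z * x⁻¹ * z⁻¹)).eq
  simp only [commutatorElement_def] at h2
  rw [← h2]
  group

theorem c_mul_right (x y z : W) : ⁅x, y * z⁆ = ⁅x, y⁆ * ⁅x, z⁆ := by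
  have h1 : ⁅x, y * z⁆ = x * y * x⁻¹ * ⁅x, z⁆ * y⁻¹ := by
    simp only [commutatorElement_def]; group
  rw [h1, mul_assoc (x * y * x⁻¹), (hc x z y⁻¹).eq, ← mul_assoc]
  rfl

theorem c_inv_left (x z : W) : ⁅x⁻¹, z⁆ = ⁅x, z⁆⁻¹ := by
  have h := c_mul_left hc x⁻¹ x z
  rw [inv_mul_cancel, commutatorElement_one_left] at h
  exact eq_inv_of_mul_eq_one_left h.symm

theorem c_pow_left (x z : W) (n : ℕ) : ⁅x ^ n, z⁆ = ⁅x, z⁆ ^ n := by
  induction n with
  | zero => simp
  | succ n ih => rw [pow_succ, c_mul_left hc, ih, pow_succ]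

theorem c_pow_right (x z : W) (n : ℕ) : ⁅x, z ^ n⁆ = ⁅x, z⁆ ^ n := by
  induction n with
  | zero => simp
  | succ n ih => rw [pow_succ, c_mul_right hc, ih, pow_succ]

theorem lm_assoc (h : ℕ) (x y z : W) : lm h (lm h x y) z = lm h x (lm h y z) := by
  unfold lm
  have e1 : ⁅z, x * y * ⁅y, x⁆ ^ h⁆ = ⁅z, x⁆ * ⁅z, y⁆ := by
    rw [c_mul_right hc, c_mul_right hc, c_pow_right hc]
    have : ⁅z, ⁅y, x⁆⁆ = 1 := by
      rw [commutatorElement_eq_one_iff_mul_comm]
      exact (hc y x z).symm.eq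
    rw [this, one_pow, mul_one]
  have e2 : ⁅y * z * ⁅z, y⁆ ^ h, x⁆ = ⁅y, x⁆ * ⁅z, x⁆ := by
    rw [c_mul_left hc, c_mul_left hc, c_pow_left hc]
    have : ⁅⁅z, y⁆, x⁆ = 1 := by
      rw [commutatorElement_eq_one_iff_mul_comm]
      exact (hc z y x).eq
    rw [this, one_pow, mul_one]
  rw [e1, e2]
  have hcc : ∀ a b c d : W, Commute ⁅a, b⁆ ⁅c, d⁆ := fun a b c d => hc a b _
  rw [(hcc z x z y).mul_pow, (hcc y x z x).mul_pow]
  -- move all central factors to the right
  have h1 := (hc y x z).pow_left h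
  have h2 := (hc z y ((x * (y * z)))).pow_left h
  calc x * y * ⁅y, x⁆ ^ h * z * (⁅z, x⁆ ^ h * ⁅z, y⁆ ^ h)
      = x * y * (⁅y, x⁆ ^ h * z) * (⁅z, x⁆ ^ h * ⁅z, y⁆ ^ h) := by group
    _ = x * y * (z * ⁅y, x⁆ ^ h) * (⁅z, x⁆ ^ h * ⁅z, y⁆ ^ h) := by rw [h1.eq]
    _ = (x * (y * z)) * (⁅y, x⁆ ^ h * ⁅z, x⁆ ^ h * ⁅z, y⁆ ^ h) := by group
    _ = (x * (y * z)) * (⁅z, y⁆ ^ h * (⁅y, x⁆ ^ h * ⁅z, x⁆ ^ h)) := by
        have h3 : Commute (⁅y, x⁆ ^ h * ⁅z, x⁆ ^ h) (⁅z, y⁆ ^ h) :=
          (((hcc y x z y).pow_pow h h).mul_left ((hcc z x z y).pow_pow h h))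
        rw [h3.eq]
    _ = (x * (y * z) * ⁅z, y⁆ ^ h) * (⁅y, x⁆ ^ h * ⁅z, x⁆ ^ h) := by group
    _ = x * (y * z * ⁅z, y⁆ ^ h) * (⁅y, x⁆ ^ h * ⁅z, x⁆ ^ h) := by simp only [mul_assoc]

theorem lm_comm {h : ℕ} (hh : ∀ x y : W, ⁅x, y⁆ ^ (2 * h) = ⁅x, y⁆) (x y : W) : lm h x y = lm h y x := by
  unfold lm
  have h1 : y * x = ⁅y, x⁆ * (x * y) := by
    rw [commutatorElement_def]; group
  have h2 : ⁅x, y⁆ = ⁅y, x⁆⁻¹ := (commutatorElement_inv y x).symm
  rw [h1, h2, inv_pow]
  have h3 : Commute ⁅y, x⁆ (x * y) := hc y x _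
  have h4 := hh y x
  have h5 : ⁅y, x⁆ ^ h * ⁅y, x⁆ ^ h = ⁅y, x⁆ := by
    rw [← pow_add, ← two_mul]; exact h4
  calc x * y * ⁅y, x⁆ ^ h = (x * y) * (⁅y, x⁆ * (⁅y, x⁆ ^ h)⁻¹) := by
        congr 1
        rw [eq_mul_inv_iff_mul_eq]
        exact h5
    _ = ⁅y, x⁆ * (x * y) * (⁅y, x⁆ ^ h)⁻¹ := by
        rw [← mul_assoc, h3.eq.symm]

theorem lm_one_left (h : ℕ) (x : W) : lm h 1 x = x := by
  unfold lm
  have : ⁅x, (1 : W)⁆ = 1 := commutatorElement_one_right x
  rw [this, one_pow, one_mul, mul_one]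

theorem lm_one_right (h : ℕ) (x : W) : lm h x 1 = x := by
  unfold lm
  have : ⁅(1 : W), x⁆ = 1 := commutatorElement_one_left x
  rw [this, one_pow, mul_one, mul_one]

theorem lm_inv (h : ℕ) (x : W) : lm h x⁻¹ x = 1 := by
  unfold lm
  have : ⁅x, x⁻¹⁆ = 1 := by
    rw [commutatorElement_eq_one_iff_mul_comm]; group
  rw [this, one_pow, mul_one, inv_mul_cancel]

theorem lm_pow (h : ℕ) (x : W) (n m : ℕ) : lm h (x ^ n) (x ^ m) = x ^ (n + m) := by
  unfold lm
  have : ⁅x ^ m, x ^ n⁆ = 1 := by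
    rw [commutatorElement_eq_one_iff_mul_comm, ← pow_add, ← pow_add, add_comm]
  rw [this, one_pow, mul_one, pow_add]

theorem lm_map (h : ℕ) (σ : W ≃* W) (x y : W) : σ (lm h x y) = lm h (σ x) (σ y) := by
  unfold lm
  rw [map_mul, map_mul, map_pow, map_commutatorElement]

end

/-- The commutative group structure. -/
@[reducible] def lieCG {W : Type*} [Group W] (h : ℕ) (hc : ∀ x y z : W, Commute ⁅x, y⁆ z)
    (hh : ∀ x y : W, ⁅x, y⁆ ^ (2 * h) = ⁅x, y⁆) : CommGroup (LieT W) where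
  mul x y := lm (W := W) h x y
  one := (1 : W)
  inv x := @Inv.inv W _ x
  mul_assoc := lm_assoc (W := W) hc h
  one_mul := lm_one_left (W := W) hc h
  mul_one := lm_one_right (W := W) hc h
  inv_mul_cancel := lm_inv (W := W) hc h
  mul_comm := lm_comm (W := W) hc hh

section main
variable {W : Type*} [Group W] [Finite W] {p : ℕ} [Fact p.Prime]

/-- Baer's trick: the fixed point theorem. -/
theorem baer_main (hp2 : p ≠ 2) (hexp : ∀ x : W, x ^ p = 1) (hc : ∀ x y z : W, Commute ⁅x, y⁆ z)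
    (R B : Subgroup (MulAut W)) (hRc : (Nat.card R).Coprime p) (hB : IsPGroup p B)
    (hnorm : ∀ b ∈ B, ∀ r ∈ R, b * r * b⁻¹ ∈ R)
    (hfix : ∀ x : W, (∀ b ∈ B, b x = x) → ∀ r ∈ R, r x = x) : ∀ r ∈ R, ∀ x : W, r x = x := by
  classical
  have hpp : Nat.Prime p := Fact.out
  obtain ⟨h, hh2⟩ : ∃ h, 2 * h = p + 1 := by
    obtain ⟨m, hm⟩ := hpp.odd_of_ne_two hp2
    exact ⟨m + 1, by omega⟩
  have hcp : ∀ x y : W, ⁅x, y⁆ ^ p = 1 := fun x y => by
    rw [← c_pow_left hc, hexp, commutatorElement_one_left]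
  have hh : ∀ x y : W, ⁅x, y⁆ ^ (2 * h) = ⁅x, y⁆ := fun x y => by
    rw [hh2, pow_succ, hcp, one_mul]
  letI cg : CommGroup (LieT W) := lieCG h hc hh
  letI : Fintype R := Fintype.ofFinite R
  haveI hfinL : Finite (LieT W) := inferInstanceAs (Finite W)
  let ι : W → LieT W := id
  have hιmul : ∀ x y : W, ι x * ι y = ι (lm h x y) := fun _ _ => rfl
  -- powers
  have hιpow : ∀ (x : W) (n : ℕ), (ι x) ^ n = ι (x ^ n) := by
    intro x n
    induction n with
    | zero => rw [pow_zero, pow_zero]; rfl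
    | succ n ih =>
      rw [pow_succ, ih, hιmul]
      have := lm_pow hc h x n 1
      rw [pow_one] at this
      rw [this]
  -- automorphisms act additively
  let act : MulAut W → (LieT W →* LieT W) := fun σ =>
    { toFun := fun x => ι (σ (show W from x))
      map_one' := by
        show ι (σ 1) = _
        rw [map_one]; rfl
      map_mul' := fun x y => lm_map hc h σ x y }
  have hact : ∀ (σ : MulAut W) (x : W), act σ (ι x) = ι (σ x) := fun _ _ => rfl
  let S : LieT W →* LieT W :=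
    { toFun := fun x => ∏ r : R, act (r : MulAut W) x
      map_one' := Finset.prod_eq_one fun r _ => map_one _
      map_mul' := fun x y => by
        simp only [map_mul]
        rw [Finset.prod_mul_distrib] }
  have hS : ∀ x, S x = ∏ r : R, act (r : MulAut W) x := fun _ => rfl
  -- reindexing
  have hSmap : ∀ (b : MulAut W), (∀ r : R, b * r * b⁻¹ ∈ R) → (∀ r : R, b⁻¹ * r * b ∈ R) →
      ∀ x, S (act b x) = act b (S x) := by
    intro b hb1 hb2 x
    rw [hS, hS, map_prod]
    let e : R ≃ R :=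
      { toFun := fun r => ⟨b⁻¹ * r * b, hb2 r⟩
        invFun := fun r => ⟨b * r * b⁻¹, hb1 r⟩
        left_inv := fun r => by
          apply Subtype.ext
          show b * (b⁻¹ * (r : MulAut W) * b) * b⁻¹ = r
          group
        right_inv := fun r => by
          apply Subtype.ext
          show b⁻¹ * (b * (r : MulAut W) * b⁻¹) * b = r
          group }
    refine Fintype.prod_equiv e _ _ fun r => ?_
    show ι ((r : MulAut W) (b (show W from x))) = ι (b ((b⁻¹ * (r : MulAut W) * b) (show W from x)))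
    show ι ((r : MulAut W) (b (show W from x))) = ι (b (b.symm ((r : MulAut W) (b (show W from x)))))
    rw [MulEquiv.apply_symm_apply]
  have hSfixR : ∀ (σ : MulAut W), σ ∈ R → ∀ x, act σ (S x) = S x := by
    intro σ hσ x
    rw [hS, map_prod]
    refine Fintype.prod_equiv (Equiv.mulLeft (⟨σ, hσ⟩ : R)) _ _ fun r => ?_
    rfl
  -- the kernel
  have hTbot : S.ker = ⊥ := by
    by_contra hne
    -- the group `T` is a nontrivial `p`-group
    have hcardW : IsPGroup p (LieT W) := by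
      intro x
      refine ⟨1, ?_⟩
      rw [pow_one]
      exact (hιpow x p).trans (by
        show ι ((show W from x) ^ p) = 1
        rw [hexp]; rfl)
    have hTp : IsPGroup p S.ker := hcardW.to_subgroup _
    have hdvd : p ∣ Nat.card S.ker := by
      obtain ⟨k, hk⟩ := IsPGroup.iff_card.1 hTp
      rcases Nat.eq_zero_or_pos k with rfl | hk0
      · exfalso
        rw [pow_zero] at hk
        exact hne (Subgroup.eq_bot_of_card_eq _ hk)
      · rw [hk]; exact dvd_pow_self p hk0.ne'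
    -- action of `B`
    have hBn1 : ∀ b : B, ∀ r : R, (b : MulAut W) * r * (b : MulAut W)⁻¹ ∈ R := fun b r => hnorm b b.2 r r.2
    have hBn2 : ∀ b : B, ∀ r : R, (b : MulAut W)⁻¹ * r * (b : MulAut W) ∈ R := fun b r => by
      have := hnorm (b : MulAut W)⁻¹ (B.inv_mem b.2) r r.2
      simpa using this
    letI act2 : MulAction B S.ker :=
      { smul := fun b t => ⟨act (b : MulAut W) t.1, by
          rw [MonoidHom.mem_ker, hSmap _ (hBn1 b) (hBn2 b), MonoidHom.mem_ker.1 t.2, map_one]⟩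
        one_smul := fun t => by
          apply Subtype.ext
          rfl
        mul_smul := fun a b t => by
          apply Subtype.ext
          rfl }
    have hsmul : ∀ (b : B) (t : S.ker), ((b • t : S.ker) : LieT W) = act (b : MulAut W) t.1 := fun _ _ => rfl
    have hfp1 : (1 : S.ker) ∈ MulAction.fixedPoints B S.ker := by
      intro b
      apply Subtype.ext
      rw [hsmul]
      exact map_one _
    obtain ⟨t, ht, htne⟩ := hB.exists_fixed_point_of_prime_dvd_card_of_fixed_point S.ker hdvd hfp1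
    have htfix : ∀ b ∈ B, b (show W from t.1) = (show W from t.1) := by
      intro b hb
      have := ht ⟨b, hb⟩
      have h2 := congrArg Subtype.val this
      exact h2
    have hRfix := hfix _ htfix
    -- `S t = t ^ |R|`
    have hSt : S t.1 = (t.1) ^ (Fintype.card R) := by
      have hact1 : ∀ r : R, act (r : MulAut W) t.1 = t.1 := fun r => hRfix (r : MulAut W) r.2
      rw [hS]
      simp only [hact1]
      simp
    have h1 : (t.1) ^ (Fintype.card R) = 1 := by
      rw [← hSt]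
      exact MonoidHom.mem_ker.1 t.2
    have h2 : (t.1) ^ p = 1 := by
      have := hιpow (show W from t.1) p
      rw [hexp] at this
      exact this
    have hcop' : (Fintype.card R).Coprime p := by
      rw [← Nat.card_eq_fintype_card]; exact hRc
    have h3 : t.1 = 1 := by
      have hd1 := orderOf_dvd_of_pow_eq_one h1
      have hd2 := orderOf_dvd_of_pow_eq_one h2
      exact orderOf_eq_one_iff.1 (Nat.eq_one_of_dvd_coprimes hcop' hd1 hd2)
    exact htne (Subtype.ext h3.symm)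
  -- conclusion
  intro r hr x
  have hcard : (Fintype.card R).Coprime p := by
    rw [← Nat.card_eq_fintype_card]; exact hRc
  obtain ⟨u, -, hu⟩ := Nat.exists_mul_mod_eq_one_of_coprime hcard hpp.one_lt
  set s := S (ι x) with hs
  have hsfix : ∀ σ ∈ R, act σ s = s := fun σ hσ => hSfixR σ hσ _
  have hSs : S s = s ^ Fintype.card R := by
    have hact1 : ∀ r : R, act (r : MulAut W) s = s := fun r => hsfix (r : MulAut W) r.2
    rw [hS]
    simp only [hact1]
    simp
  have hsp : s ^ p = 1 := by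
    have := hιpow (show W from s) p
    rw [hexp] at this
    exact this
  have hsu : s ^ (Fintype.card R * u) = s := by
    conv_lhs => rw [← Nat.mod_add_div (Fintype.card R * u) p, pow_add, pow_mul, hsp, one_pow, mul_one, hu, pow_one]
  have hz : ι x * (s ^ u)⁻¹ ∈ S.ker := by
    rw [MonoidHom.mem_ker, map_mul, map_inv, map_pow, hSs, ← pow_mul, hsu, ← hs]
    exact mul_inv_cancel s
  rw [hTbot, Subgroup.mem_bot] at hz
  have hx : ι x = s ^ u := mul_inv_eq_one.1 hz
  have h1 : act r (ι x) = ι x := by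
    rw [hx, map_pow, hsfix r hr]
  exact h1

end main

end Cfsg.Agent.Lib.H9Baer
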