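import Mathlib
import Cfsg.Agent.Lib.PGrp5
import Cfsg.Agent.Lib.H9Baer

set_option autoImplicit false
set_option linter.unusedSectionVars false
set_option linter.unusedVariables false
set_option linter.style.haveILetI false

/-! Fixed points of a `p`-group normalizing a `p'`-group of automorphisms of a `p`-group (`p` odd). -/

namespace Cfsg.Agent.Lib.H9Baer2

open Subgroup Cfsg Cfsg.Agent.Lib.PGrp Cfsg.Agent.Lib.H9Baer
open scoped commutatorElement

variable {p : ℕ} [hp : Fact p.Prime]

theorem aut_trivial_of_fix_omega_crit {G : Type*} [Group G] [Finite G] (hp2 : p ≠ 2) (hG : IsPGroup p G) (H : Subgroup G)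
    (hc : H.Characteristic) (hf : (frattini H).map H.subtype ≤ centralizer (H : Set G))
    (hcomm : ⁅H, (⊤ : Subgroup G)⁆ ≤ H ⊓ centralizer (H : Set G)) (hself : centralizer (H : Set G) ≤ H) (a : MulAut G)
    (ha : Nat.Coprime (orderOf a) p) (h : ∀ x ∈ H, x ^ p = 1 → a x = x) : a = 1 := by
  apply aut_trivial_of_fix_self_centralizing hG H hc hself a ha
  -- `a` acts as automorphism of `H`
  have haH : ∀ x ∈ H, a x ∈ H := fun x hx =>
    (characteristic_iff_le_comap.1 hc a) hx
  have hinvH : ∀ x ∈ H, x ^ p ∈ H ⊓ centralizer (H : Set G) := fun x hx =>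
    mem_inf.2 ⟨pow_mem hx p, hf (pow_mem_frattini_map H (hG.to_subgroup H) x hx)⟩
  -- commutators in H are central in H
  have hcomH : ∀ x ∈ H, ∀ y ∈ H, ⁅x, y⁆ ∈ H ⊓ centralizer (H : Set G) := fun x hx y hy =>
    hcomm (commutator_mem_commutator hx (mem_top y))
  -- power map on `H`
  have hpowmul : ∀ x ∈ H, ∀ y ∈ H, (x * y) ^ p = x ^ p * y ^ p := by
    intro x hx y hy
    have hz := hcomH y hy x hx
    have hzc : ∀ w ∈ H, Commute ⁅y, x⁆ w := fun w hw =>
      ((mem_centralizer_iff.1 (mem_inf.1 hz).2) w hw).symm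
    have hpf := pow_mul_class2 (x := x) (y := y) (c := ⁅y, x⁆) eq_comm_mul_of (hzc x hx) (hzc y hy) p
    rw [hpf]
    have hd := prime_dvd_choose_two hp.out hp2
    have hcp : ⁅y, x⁆ ^ p = 1 := by
      have h1 := pow_mul_comm_aux (x := x) (y := y) (c := ⁅y, x⁆) eq_comm_mul_of (hzc y hy) p
      have h2 : Commute (y ^ p) x :=
        ((mem_centralizer_iff.1 (mem_inf.1 (hinvH y hy)).2) x hx).symm
      rw [h2.eq] at h1
      exact mul_eq_right.1 (mul_right_cancel h1).symm
    rw [pow_eq_one_of_dvd' hcp hd, mul_one]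
  -- induction on the order
  have key : ∀ n : ℕ, ∀ x ∈ H, orderOf x = n → a x = x := by
    intro n
    induction n using Nat.strong_induction_on with
    | _ n ih =>
    intro x hx hn
    rcases eq_or_ne x 1 with rfl | hx1
    · exact map_one a
    have hxp : a (x ^ p) = x ^ p := by
      apply ih (orderOf (x ^ p)) _ _ (pow_mem hx p) rfl
      rw [← hn]
      obtain ⟨k, hk⟩ := hG x
      have hdvd : orderOf (x ^ p) * p = orderOf x := by
        rw [orderOf_pow' x hp.out.ne_zero]
        have h0 : p ∣ orderOf x := by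
          obtain ⟨m, -, hm⟩ := (Nat.dvd_prime_pow hp.out).1 (orderOf_dvd_of_pow_eq_one hk)
          rcases Nat.eq_zero_or_pos m with rfl | hm0
          · exfalso; apply hx1; simpa [orderOf_eq_one_iff] using hm
          · rw [hm]; exact dvd_pow_self p hm0.ne'
        rw [Nat.gcd_eq_right h0]
        exact Nat.div_mul_cancel h0
      have hpos : 0 < orderOf x := orderOf_pos x
      rw [← hdvd]
      have : 0 < orderOf (x ^ p) := orderOf_pos _
      exact lt_mul_of_one_lt_right this hp.out.one_lt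
    set k := a x * x⁻¹ with hk
    have hkH : k ∈ H := mul_mem (haH x hx) (inv_mem hx)
    have hkp : k ^ p = 1 := by
      rw [hk, hpowmul _ (haH x hx) _ (inv_mem hx), ← map_pow, hxp, inv_pow]
      group
    have hak : a k = k := h k hkH hkp
    have hax : a x = k * x := by rw [hk]; group
    have hpow : ∀ m : ℕ, (a ^ m) x = k ^ m * x := by
      intro m
      induction m with
      | zero => simp
      | succ m ihm =>
        rw [pow_succ', MulAut.mul_apply, ihm, map_mul, map_pow, hak, hax]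
        group
    have h1 := hpow (orderOf a)
    rw [pow_orderOf_eq_one, MulAut.one_apply] at h1
    have h2 : k ^ orderOf a = 1 := mul_eq_right.1 h1.symm
    have h3' : k = 1 := by
      have hd1 : orderOf k ∣ orderOf a := orderOf_dvd_of_pow_eq_one h2
      have hd2 : orderOf k ∣ p := orderOf_dvd_of_pow_eq_one hkp
      have := Nat.Coprime.eq_one_of_dvd (ha.coprime_dvd_left hd1) hd2
      exact orderOf_eq_one_iff.1 this
    rw [hax, h3', one_mul]
  exact fun x hx => key _ x hx rfl


/-- the main theorem at the level of automorphisms -/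
theorem crit_fixed {G : Type*} [Group G] [Finite G] (hp2 : p ≠ 2) (hG : IsPGroup p G)
    (R B : Subgroup (MulAut G)) (hRc : (Nat.card R).Coprime p) (hB : IsPGroup p B)
    (hnorm : ∀ b ∈ B, ∀ r ∈ R, b * r * b⁻¹ ∈ R)
    (hfix : ∀ x : G, x ^ p = 1 → (∀ b ∈ B, b x = x) → ∀ r ∈ R, r x = x) : ∀ r ∈ R, r = 1 := by
  obtain ⟨H, hc, hf, hcomm, hself⟩ := exists_critical hG
  have hinvH : ∀ x ∈ H, x ^ p ∈ H ⊓ centralizer (H : Set G) := fun x hx =>
    mem_inf.2 ⟨pow_mem hx p, hf (pow_mem_frattini_map H (hG.to_subgroup H) x hx)⟩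
  have hcomH : ∀ x ∈ H, ∀ y ∈ H, ⁅x, y⁆ ∈ H ⊓ centralizer (H : Set G) := fun x hx y hy =>
    hcomm (commutator_mem_commutator hx (mem_top y))
  have hpowmul : ∀ x ∈ H, ∀ y ∈ H, (x * y) ^ p = x ^ p * y ^ p := by
    intro x hx y hy
    have hz := hcomH y hy x hx
    have hzc : ∀ w ∈ H, Commute ⁅y, x⁆ w := fun w hw =>
      ((mem_centralizer_iff.1 (mem_inf.1 hz).2) w hw).symm
    have hpf := pow_mul_class2 (x := x) (y := y) (c := ⁅y, x⁆) eq_comm_mul_of (hzc x hx) (hzc y hy) p
    rw [hpf]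
    have hd := prime_dvd_choose_two hp.out hp2
    have hcp : ⁅y, x⁆ ^ p = 1 := by
      have h1 := pow_mul_comm_aux (x := x) (y := y) (c := ⁅y, x⁆) eq_comm_mul_of (hzc y hy) p
      have h2 : Commute (y ^ p) x :=
        ((mem_centralizer_iff.1 (mem_inf.1 (hinvH y hy)).2) x hx).symm
      rw [h2.eq] at h1
      exact mul_eq_right.1 (mul_right_cancel h1).symm
    rw [pow_eq_one_of_dvd' hcp hd, mul_one]
  -- the subgroup `Ω₁(H)`
  let W : Subgroup G :=
    { carrier := {x | x ∈ H ∧ x ^ p = 1}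
      one_mem' := ⟨H.one_mem, one_pow _⟩
      mul_mem' := by
        rintro x y ⟨hx, hx1⟩ ⟨hy, hy1⟩
        refine ⟨H.mul_mem hx hy, ?_⟩
        rw [hpowmul x hx y hy, hx1, hy1, one_mul]
      inv_mem' := by
        rintro x ⟨hx, hx1⟩
        exact ⟨H.inv_mem hx, by rw [inv_pow, hx1, inv_one]⟩ }
  have hWmem : ∀ x, x ∈ W ↔ x ∈ H ∧ x ^ p = 1 := fun _ => Iff.rfl
  have hHinv : ∀ (σ : MulAut G) (x : G), x ∈ H → σ x ∈ H := fun σ x hx =>
    (characteristic_iff_le_comap.1 hc σ) hx
  have hWinv : ∀ (σ : MulAut G) (x : G), x ∈ W → σ x ∈ W := fun σ x hx =>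
    ⟨hHinv σ x hx.1, by rw [← map_pow, hx.2, map_one]⟩
  -- restriction
  let res : MulAut G →* MulAut W :=
    { toFun := fun σ =>
        { toFun := fun x => ⟨σ x, hWinv σ x x.2⟩
          invFun := fun x => ⟨σ⁻¹ x, hWinv σ⁻¹ x x.2⟩
          left_inv := fun x => Subtype.ext (by simp)
          right_inv := fun x => Subtype.ext (by simp)
          map_mul' := fun x y => Subtype.ext (by simp) }
      map_one' := by
        ext x
        rfl
      map_mul' := fun σ τ => by
        ext x
        rfl }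
  have hres : ∀ (σ : MulAut G) (x : W), ((res σ x : W) : G) = σ x := fun _ _ => rfl
  have hexpW : ∀ x : W, x ^ p = 1 := fun x => Subtype.ext (x.2.2)
  have hcW : ∀ x y z : W, Commute ⁅x, y⁆ z := by
    intro x y z
    apply Subtype.ext
    have h1 := hcomH x x.2.1 y y.2.1
    have h2 := (mem_centralizer_iff.1 (mem_inf.1 h1).2) z z.2.1
    simpa [commutatorElement_def] using h2.symm
  have hfin : ∀ r' ∈ R.map res, ∀ x : W, r' x = x := by
    refine baer_main hp2 hexpW hcW (R.map res) (B.map res) ?_ (hB.map res) ?_ ?_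
    · exact Nat.Coprime.coprime_dvd_left (Subgroup.card_map_dvd _ _) hRc
    · rintro _ ⟨b, hb, rfl⟩ _ ⟨r, hr, rfl⟩
      exact ⟨b * r * b⁻¹, hnorm b hb r hr, by simp⟩
    · intro x hxb r' hr'
      obtain ⟨r, hr, rfl⟩ := hr'
      apply Subtype.ext
      rw [hres]
      refine hfix x x.2.2 (fun b hb => ?_) r hr
      have := hxb (res b) ⟨b, hb, rfl⟩
      have h2 := congrArg Subtype.val this
      rwa [hres] at h2
  intro r hr
  have hord : Nat.Coprime (orderOf r) p := by
    have h1 : orderOf r ∣ Nat.card R := by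
      have := orderOf_dvd_natCard (⟨r, hr⟩ : R)
      rwa [Subgroup.orderOf_mk] at this
    exact Nat.Coprime.coprime_dvd_left h1 hRc
  refine aut_trivial_of_fix_omega_crit hp2 hG H hc hf hcomm hself r hord (fun x hx hxp => ?_)
  have := hfin (res r) ⟨r, hr, rfl⟩ ⟨x, hx, hxp⟩
  have h2 := congrArg Subtype.val this
  rwa [hres] at h2

end Cfsg.Agent.Lib.H9Baer2
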