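import Mathlib
import Cfsg.Agent.Lib.LQd5

/-! `Qd(2) ≅ S₄`. -/

set_option autoImplicit false
set_option linter.unusedSectionVars false
set_option linter.unusedVariables false
set_option linter.style.haveILetI false

namespace Cfsg.Agent.Lib.LQd

open Matrix Cfsg.Agent.Lib.LDick Cfsg.Agent.Lib.LQuad
open scoped commutatorElement

/-- An element of order three of `SL₂(2)`. -/
def omegaTwo : SL2 (ZMod 2) := ⟨!![0, 1; 1, 1], by decide⟩

theorem omegaTwo_pow : omegaTwo ^ 3 = 1 := by decide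

theorem omegaTwo_fix : ∀ w : Fin 2 → ZMod 2, omegaTwo.1 *ᵥ w = w → w = 0 := by decide

theorem omegaTwo_conj : ∀ g : SL2 (ZMod 2), g * omegaTwo * g⁻¹ = 1 ∨ g * omegaTwo * g⁻¹ = omegaTwo ∨
    g * omegaTwo * g⁻¹ = omegaTwo * omegaTwo := by decide

theorem qd_two_iso : Nonempty (↥(Cfsg.qd 2) ≃* Equiv.Perm (Fin 4)) := by
  classical
  obtain ⟨lin, d, hlin⟩ := exists_lin (MulEquiv.refl ↥(Cfsg.qd 2))
  have hlin' : ∀ q : ↥(Cfsg.qd 2), q.1 = aff (lin q) (d q) := hlin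
  have dmul : ∀ q₁ q₂ : ↥(Cfsg.qd 2), d (q₁ * q₂) = d q₁ + (lin q₁).1 *ᵥ d q₂ := by
    intro q₁ q₂
    have h1 : (q₁ * q₂).1 = aff (lin q₁ * lin q₂) (d q₁ + (lin q₁).1 *ᵥ d q₂) := by
      rw [Subgroup.coe_mul, hlin' q₁, hlin' q₂, aff_mul]
    rw [hlin' (q₁ * q₂)] at h1
    exact (aff_inj h1).2
  have done : d 1 = 0 := by
    have h1 : ((1 : ↥(Cfsg.qd 2))).1 = aff 1 0 := by rw [aff_one]; rfl
    rw [hlin' 1] at h1
    exact (aff_inj h1).2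
  letI act : MulAction ↥(Cfsg.qd 2) (Fin 2 → ZMod 2) :=
    { smul := fun q v => (lin q).1 *ᵥ v + d q
      one_smul := by
        intro v
        show (lin 1).1 *ᵥ v + d 1 = v
        rw [map_one, done, add_zero]
        show (1 : Matrix (Fin 2) (Fin 2) (ZMod 2)) *ᵥ v = v
        rw [Matrix.one_mulVec]
      mul_smul := by
        intro q₁ q₂ v
        show (lin (q₁ * q₂)).1 *ᵥ v + d (q₁ * q₂) = (lin q₁).1 *ᵥ ((lin q₂).1 *ᵥ v + d q₂) + d q₁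
        rw [map_mul, dmul, Matrix.mulVec_add, Matrix.mulVec_mulVec]
        have : (lin q₁ * lin q₂).1 = (lin q₁).1 * (lin q₂).1 := rfl
        rw [this]
        abel }
  have hsmul : ∀ (q : ↥(Cfsg.qd 2)) (v : Fin 2 → ZMod 2), q • v = (lin q).1 *ᵥ v + d q := fun _ _ => rfl
  let φ : ↥(Cfsg.qd 2) →* Equiv.Perm (Fin 2 → ZMod 2) := MulAction.toPermHom _ _
  have hφ : Function.Injective φ := by
    rw [injective_iff_map_eq_one]
    intro q hq
    have h1 : ∀ v, q • v = v := fun v => by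
      have := congrArg (fun e : Equiv.Perm (Fin 2 → ZMod 2) => e v) hq
      simpa [φ] using this
    have h2 : d q = 0 := by
      have := h1 0
      rwa [hsmul, Matrix.mulVec_zero, zero_add] at this
    have h3 : lin q = 1 := by
      apply sl_eq_of_mulVec
      intro v
      have := h1 v
      rw [hsmul, h2, add_zero] at this
      rw [this]
      show v = (1 : Matrix (Fin 2) (Fin 2) (ZMod 2)) *ᵥ v
      rw [Matrix.one_mulVec]
    apply Subtype.ext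
    rw [hlin' q, h2, h3, aff_one]
    rfl
  have hSL : Fintype.card (Matrix.SpecialLinearGroup (Fin 2) (ZMod 2)) = 6 := by decide
  have hV : Fintype.card (Fin 2 → ZMod 2) = 4 := by simp [ZMod.card]
  have hcard : Nat.card (Equiv.Perm (Fin 2 → ZMod 2)) ≤ Nat.card ↥(Cfsg.qd 2) := by
    let f : Matrix.SpecialLinearGroup (Fin 2) (ZMod 2) × (Fin 2 → ZMod 2) → ↥(Cfsg.qd 2) :=
      fun a => ⟨aff a.1 a.2, aff_mem_qd a.1 a.2⟩
    have hf : Function.Injective f := by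
      intro a b hab
      have h1 := aff_inj (congrArg Subtype.val hab)
      exact Prod.ext h1.1 h1.2
    have h2 := Nat.card_le_card_of_injective f hf
    rw [Nat.card_prod, Nat.card_eq_fintype_card, Nat.card_eq_fintype_card, hSL, hV] at h2
    rw [Nat.card_eq_fintype_card, Fintype.card_perm, hV]
    exact h2
  have hbij : Function.Bijective φ := hφ.bijective_of_nat_card_le hcard
  let e : (Fin 2 → ZMod 2) ≃ Fin 4 := Fintype.equivFinOfCardEq hV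
  exact ⟨(MulEquiv.ofBijective φ hbij).trans e.permCongrHom⟩

/-- A natural plane for `SL₂(2)` inside a finite group gives a section `Qd(2)`. -/
theorem involves_qd_two_of_natural {Y : Type*} [Group Y] [Finite Y]
    (Θ : (Fin 2 → ZMod 2) → Y) (hadd : ∀ w w', Θ (w + w') = Θ w * Θ w')
    (hinj : Function.Injective Θ) (τ : Y →* SL2 (ZMod 2)) (hτ : Function.Surjective τ)
    (hact : ∀ y w, y * Θ w * y⁻¹ = Θ ((τ y).1 *ᵥ w)) : Cfsg.Involves ↥(Cfsg.qd 2) Y := by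
  classical
  haveI : Fact (Nat.Prime 3) := ⟨Nat.prime_three⟩
  have hΘ0 : Θ 0 = 1 := by
    have := hadd 0 0
    rw [add_zero] at this
    exact left_eq_mul.1 this
  have hΘneg : ∀ w, Θ (-w) = (Θ w)⁻¹ := by
    intro w
    have := hadd (-w) w
    rw [neg_add_cancel, hΘ0] at this
    exact eq_inv_of_mul_eq_one_left this.symm
  have hΘcomm : ∀ w w', Θ w * Θ w' = Θ w' * Θ w := by
    intro w w'
    rw [← hadd, ← hadd, add_comm]
  have hτΘ : ∀ w, τ (Θ w) = 1 := by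
    intro w
    apply sl_eq_of_mulVec
    intro w'
    apply hinj
    rw [← hact, hΘcomm, mul_inv_cancel_right]
    simp
  have hΘsq : ∀ w, (Θ w) ^ 2 = 1 := by
    intro w
    rw [sq, ← hadd, ← hΘ0]
    congr 1
    funext i
    exact CharTwo.add_self_eq_zero _
  -- the element of order three
  let ω : SL2 (ZMod 2) := omegaTwo
  have hω3 : ω ^ 3 = 1 := omegaTwo_pow
  have hωfix : ∀ w : Fin 2 → ZMod 2, ω.1 *ᵥ w = w → w = 0 := omegaTwo_fix
  let A₃ : Subgroup (SL2 (ZMod 2)) := Subgroup.zpowers ω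
  have hA₃n : A₃.Normal := by
    have : ∀ (g : SL2 (ZMod 2)), g * ω * g⁻¹ = 1 ∨ g * ω * g⁻¹ = ω ∨ g * ω * g⁻¹ = ω * ω := omegaTwo_conj
    refine ⟨?_⟩
    intro n hn g
    obtain ⟨k, rfl⟩ := Subgroup.mem_zpowers_iff.1 hn
    have e : g * ω ^ k * g⁻¹ = (g * ω * g⁻¹) ^ k := by
      rw [conj_zpow]
    rw [e]
    refine zpow_mem ?_ k
    rcases this g with h | h | h
    · rw [h]; exact one_mem _
    · rw [h]; exact Subgroup.mem_zpowers ω
    · rw [h]; exact mul_mem (Subgroup.mem_zpowers ω) (Subgroup.mem_zpowers ω)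
  have hA₃p : IsPGroup 3 A₃ := by
    rintro ⟨g, hg⟩
    obtain ⟨k, rfl⟩ := Subgroup.mem_zpowers_iff.1 hg
    refine ⟨1, Subtype.ext ?_⟩
    show (ω ^ k) ^ 3 ^ 1 = 1
    rw [pow_one, ← zpow_natCast, ← _root_.zpow_mul, mul_comm, _root_.zpow_mul, zpow_natCast, hω3, _root_.one_zpow]
  let V₀ : Subgroup Y :=
    { carrier := Set.range Θ
      mul_mem' := by
        rintro _ _ ⟨w, rfl⟩ ⟨w', rfl⟩
        exact ⟨w + w', hadd w w'⟩
      one_mem' := ⟨0, hΘ0⟩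
      inv_mem' := by
        rintro _ ⟨w, rfl⟩
        exact ⟨-w, hΘneg w⟩ }
  haveI hV₀ : V₀.Normal := ⟨by
    rintro _ ⟨w, rfl⟩ y
    exact ⟨_, (hact y w).symm⟩⟩
  let W : Subgroup Y := A₃.comap τ
  haveI hW : W.Normal := Subgroup.Normal.comap hA₃n τ
  obtain Z₃ : Sylow 3 W := default
  let πW : W →* A₃ := (τ.comp W.subtype).codRestrict A₃ (fun w => w.2)
  have hπW : Function.Surjective πW := by
    rintro ⟨r, hr⟩
    obtain ⟨k, rfl⟩ := hτ r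
    exact ⟨⟨k, hr⟩, rfl⟩
  have hZ₃top : (Z₃ : Subgroup W).map πW = ⊤ := by
    have h3 := (Z₃.mapSurjective hπW).is_maximal' (IsPGroup.to_subgroup hA₃p ⊤) le_top
    exact h3.symm
  have hcoverZ : ∀ r : A₃, ∃ z ∈ (Z₃ : Subgroup W), πW z = r := by
    intro r
    have : r ∈ (Z₃ : Subgroup W).map πW := by rw [hZ₃top]; trivial
    exact this
  obtain ⟨z, hz, hzτ⟩ := hcoverZ ⟨ω, Subgroup.mem_zpowers ω⟩
  have hzτ' : τ z.1 = ω := congrArg Subtype.val hzτ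
  let Z₃' : Subgroup Y := (Z₃ : Subgroup W).map W.subtype
  have hZ₃'3 : ∀ x ∈ Z₃', ∃ k : ℕ, x ^ 3 ^ k = 1 := by
    rintro _ ⟨x, hx, rfl⟩
    obtain ⟨k, hk⟩ := Z₃.isPGroup' ⟨x, hx⟩
    refine ⟨k, ?_⟩
    have := congrArg (fun u : ↥(Z₃ : Subgroup W) => ((u : W) : Y)) hk
    simpa using this
  let T₂ : Subgroup Y := Subgroup.normalizer (Z₃' : Set Y)
  have hfrat : T₂ ⊔ W = ⊤ := Sylow.normalizer_sup_eq_top Z₃
  have hZT₂ : Z₃' ≤ T₂ := Subgroup.le_normalizer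
  have hcover : ∀ t, ∃ n ∈ T₂, τ n = t := by
    intro t
    obtain ⟨y, rfl⟩ := hτ t
    have hy : y ∈ T₂ ⊔ W := by rw [hfrat]; trivial
    obtain ⟨n, hn, w, hw, rfl⟩ := Subgroup.mem_sup_of_normal_right.1 hy
    obtain ⟨z', hz', hz'τ⟩ := hcoverZ ⟨τ w, hw⟩
    have hz'τ' : τ z'.1 = τ w := congrArg Subtype.val hz'τ
    refine ⟨n * z'.1, T₂.mul_mem hn (hZT₂ ⟨z', hz', rfl⟩), ?_⟩
    rw [map_mul, map_mul, hz'τ']
  have hT₂V : ∀ w, Θ w ∈ T₂ → w = 0 := by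
    intro w hw
    have h3 : Θ w * z.1 * (Θ w)⁻¹ ∈ Z₃' := (Subgroup.mem_normalizer_iff.1 hw z.1).1 ⟨z, hz, rfl⟩
    have h4 : z.1⁻¹ ∈ Z₃' := Z₃'.inv_mem ⟨z, hz, rfl⟩
    have h5 := Z₃'.mul_mem h3 h4
    have h6 : z.1 * (Θ w)⁻¹ * z.1⁻¹ = Θ (- (ω.1 *ᵥ w)) := by
      rw [← hΘneg, hact, hzτ', Matrix.mulVec_neg]
    have h7 : Θ w * z.1 * (Θ w)⁻¹ * z.1⁻¹ = Θ (w + - (ω.1 *ᵥ w)) := by
      calc Θ w * z.1 * (Θ w)⁻¹ * z.1⁻¹ = Θ w * (z.1 * (Θ w)⁻¹ * z.1⁻¹) := by group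
        _ = Θ w * Θ (- (ω.1 *ᵥ w)) := by rw [h6]
        _ = _ := (hadd _ _).symm
    rw [h7] at h5
    obtain ⟨k, hk⟩ := hZ₃'3 _ h5
    set c := w + - (ω.1 *ᵥ w) with hc
    have h8 : Θ c = 1 := by
      have h9 : (Θ c) ^ 2 = 1 := hΘsq c
      have h10 := Nat.dvd_gcd (orderOf_dvd_of_pow_eq_one h9) (orderOf_dvd_of_pow_eq_one hk)
      have h11 : Nat.gcd 2 (3 ^ k) = 1 := by
        apply Nat.Coprime.pow_right
        norm_num
      rw [h11] at h10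
      exact orderOf_eq_one_iff.1 (Nat.dvd_one.1 h10)
    have h12 : c = 0 := hinj (h8.trans hΘ0.symm)
    apply hωfix
    have h13 : w + - (ω.1 *ᵥ w) = 0 := h12
    exact (add_neg_eq_zero.1 h13).symm
  have huniq : ∀ w w' n n', n ∈ T₂ → n' ∈ T₂ → Θ w * n = Θ w' * n' → w = w' := by
    intro w w' n n' hn hn' h
    have h3 : Θ (w - w') = n' * n⁻¹ := by
      rw [sub_eq_neg_add, hadd, hΘneg]
      calc (Θ w')⁻¹ * Θ w = (Θ w')⁻¹ * (Θ w * n) * n⁻¹ := by group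
        _ = (Θ w')⁻¹ * (Θ w' * n') * n⁻¹ := by rw [h]
        _ = n' * n⁻¹ := by group
    have h4 := hT₂V _ (h3 ▸ T₂.mul_mem hn' (T₂.inv_mem hn))
    exact sub_eq_zero.1 h4
  -- the semidirect product
  let Y₀ : Subgroup Y := V₀ ⊔ T₂
  have hdec : ∀ y : Y₀, ∃ w, ∃ n ∈ T₂, y.1 = Θ w * n := by
    rintro ⟨y, hy⟩
    obtain ⟨_, ⟨w, rfl⟩, n, hn, rfl⟩ := Subgroup.mem_sup_of_normal_left.1 hy
    exact ⟨w, n, hn, rfl⟩
  choose c n hn hcn using hdec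
  have hτy : ∀ y : Y₀, τ y.1 = τ (n y) := by
    intro y
    rw [hcn y, map_mul, hτΘ, one_mul]
  have hcmul : ∀ y₁ y₂ : Y₀, c (y₁ * y₂) = c y₁ + (τ y₁.1).1 *ᵥ c y₂ := by
    intro y₁ y₂
    have e1 : (y₁ * y₂).1 = Θ (c y₁ + (τ y₁.1).1 *ᵥ c y₂) * (n y₁ * n y₂) := by
      show y₁.1 * y₂.1 = _
      rw [hadd, hτy, ← hact]
      nth_rewrite 1 [hcn y₁]
      nth_rewrite 1 [hcn y₂]
      group
    exact huniq _ _ _ _ (hn _) (T₂.mul_mem (hn _) (hn _)) ((hcn _).symm.trans e1)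
  let Ψ : Y₀ →* Matrix.SpecialLinearGroup (Fin 3) (ZMod 2) := MonoidHom.mk' (fun y => aff (τ y.1) (c y)) (by
    intro a b
    rw [aff_mul, ← hcmul]
    congr 1
    exact map_mul τ a.1 b.1)
  have hle : Cfsg.qd 2 ≤ Ψ.range := by
    intro M hM
    obtain ⟨A, d, rfl⟩ := exists_aff_of_mem_qd hM
    obtain ⟨t, ht, rfl⟩ := hcover A
    let y : Y₀ := ⟨Θ d * t, Subgroup.mul_mem_sup ⟨d, rfl⟩ ht⟩
    have e1 : c y = d := huniq _ _ _ _ (hn y) ht (hcn y).symm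
    refine ⟨y, ?_⟩
    show aff (τ (Θ d * t)) (c y) = _
    rw [e1, map_mul, hτΘ, one_mul]
  obtain ⟨K, L, hL, _, hiso⟩ := section_of_hom Y₀ Ψ (Cfsg.qd 2) hle (MulEquiv.refl _)
  exact ⟨K, L, hL, hiso⟩

end Cfsg.Agent.Lib.LQd
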