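import Mathlib
import Cfsg.Agent.Lib.LQdTwo
import Cfsg.Agent.Lib.LQd3
import Cfsg.Agent.Lib.PZJ5

/-! A natural plane for `SL₂(2)` gives a section `S₄`; Thompson replacement for abelian groups. -/

set_option autoImplicit false
set_option linter.unusedSectionVars false
set_option linter.unusedVariables false
set_option linter.style.haveILetI false

namespace Cfsg.Agent.Lib.LQd

open Matrix Cfsg.Agent.Lib.LDick Cfsg.Agent.Lib.LQuad
open scoped commutatorElement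

theorem involves_of_natural_in_two {Γ : Type*} [Group Γ] [Finite Γ]
    (Θ : (Fin 2 → ZMod 2) → Γ) (hinj : Function.Injective Θ)
    (hadd : ∀ w w', Θ (w + w') = Θ w * Θ w')
    (hs : ∀ t : SL2 (ZMod 2), ∃ n : Γ, ∀ w, n * Θ w * n⁻¹ = Θ (t.1 *ᵥ w)) :
    Cfsg.Involves ↥(Cfsg.qd 2) Γ := by
  classical
  have hcm : ∀ w w', Θ w * Θ w' = Θ w' * Θ w := by
    intro w w'
    rw [← hadd, ← hadd, add_comm]
  have huniq : ∀ (n : Γ) (γ γ' : SL2 (ZMod 2)), (∀ w, n * Θ w * n⁻¹ = Θ (γ.1 *ᵥ w)) →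
      (∀ w, n * Θ w * n⁻¹ = Θ (γ'.1 *ᵥ w)) → γ = γ' := by
    intro n γ γ' h h'
    apply sl_eq_of_mulVec
    intro w
    apply hinj
    rw [← h, ← h']
  let Y : Subgroup Γ :=
    { carrier := {n | ∃ γ : SL2 (ZMod 2), ∀ w, n * Θ w * n⁻¹ = Θ (γ.1 *ᵥ w)}
      mul_mem' := by
        rintro a b ⟨γ, hγ⟩ ⟨δ, hδ⟩
        refine ⟨γ * δ, fun w => ?_⟩
        have e : (a * b) * Θ w * (a * b)⁻¹ = a * (b * Θ w * b⁻¹) * a⁻¹ := by group
        rw [e, hδ, hγ, Matrix.mulVec_mulVec]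
        rfl
      one_mem' := ⟨1, fun w => by simp⟩
      inv_mem' := by
        rintro a ⟨γ, hγ⟩
        refine ⟨γ⁻¹, fun w => ?_⟩
        have h1 := hγ ((γ⁻¹).1 *ᵥ w)
        have h2 : γ.1 *ᵥ ((γ⁻¹).1 *ᵥ w) = w := by
          rw [Matrix.mulVec_mulVec]
          have : γ.1 * (γ⁻¹).1 = 1 := congrArg Subtype.val (mul_inv_cancel γ)
          rw [this, Matrix.one_mulVec]
        rw [h2] at h1
        rw [← h1]
        group }
  let τf : Y → SL2 (ZMod 2) := fun y => y.2.choose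
  have hτf : ∀ (y : Y) w, y.1 * Θ w * y.1⁻¹ = Θ ((τf y).1 *ᵥ w) := fun y => y.2.choose_spec
  let τ : Y →* SL2 (ZMod 2) := MonoidHom.mk' τf (by
    intro a b
    apply huniq (a.1 * b.1) _ _ (hτf (a * b))
    intro w
    have e : (a.1 * b.1) * Θ w * (a.1 * b.1)⁻¹ = a.1 * (b.1 * Θ w * b.1⁻¹) * a.1⁻¹ := by group
    rw [e, hτf, hτf, Matrix.mulVec_mulVec]
    rfl)
  have hτ : Function.Surjective τ := by
    intro t
    obtain ⟨n, hn⟩ := hs t
    exact ⟨⟨n, t, hn⟩, huniq n _ _ (hτf ⟨n, t, hn⟩) hn⟩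
  have hmem : ∀ w, Θ w ∈ Y := fun w => ⟨1, fun w' => by
    rw [hcm w w', mul_inv_cancel_right]
    simp⟩
  let ΘY : (Fin 2 → ZMod 2) → Y := fun w => ⟨Θ w, hmem w⟩
  have h1 : Cfsg.Involves ↥(Cfsg.qd 2) Y := involves_qd_two_of_natural ΘY
    (fun w w' => Subtype.ext (hadd w w')) (fun w w' h => hinj (congrArg Subtype.val h)) τ hτ
    (fun y w => Subtype.ext (hτf y w))
  exact involves_of_surj Y (MonoidHom.id Y) Function.surjective_id h1

theorem involves_perm_of_qd_two {Γ : Type*} [Group Γ] (h : Cfsg.Involves ↥(Cfsg.qd 2) Γ) :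
    Cfsg.Involves (Equiv.Perm (Fin 4)) Γ := by
  obtain ⟨K, R, hR, ⟨e⟩⟩ := h
  obtain ⟨f⟩ := qd_two_iso
  exact ⟨K, R, hR, ⟨e.trans f⟩⟩

/-- The transvection-like element. -/
def alphaTwo : SL2 (ZMod 2) := e12 1

theorem slTwo_gen : ∀ t : SL2 (ZMod 2), t = 1 ∨ t = omegaTwo ∨ t = omegaTwo * omegaTwo ∨ t = alphaTwo ∨
    t = omegaTwo * alphaTwo ∨ t = omegaTwo * omegaTwo * alphaTwo := by decide

theorem zmod_two_cases (c : ZMod 2) : c = 0 ∨ c = 1 := by
  revert c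
  decide

/-- The plane lemma. -/
theorem involves_s4_of_plane {Γ : Type*} [Group Γ] [Finite Γ] (u v x a : Γ) (hu : u * u = 1) (hv : v * v = 1)
    (huv : u * v = v * u) (hu1 : u ≠ 1) (hv1 : v ≠ 1) (hne : u ≠ v) (hxu : x * u * x⁻¹ = v)
    (hxv : x * v * x⁻¹ = u * v) (hau : a * u * a⁻¹ = u) (hav : a * v * a⁻¹ = u * v) :
    Cfsg.Involves (Equiv.Perm (Fin 4)) Γ := by
  classical
  apply involves_perm_of_qd_two
  have hpow : ∀ (g : Γ), g * g = 1 → ∀ b c : ZMod 2, g ^ (b + c).val = g ^ b.val * g ^ c.val := by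
    intro g hg b c
    rcases zmod_two_cases b with rfl | rfl <;> rcases zmod_two_cases c with rfl | rfl <;>
      simp [ZMod.val_one, hg]
    · have : (1 + 1 : ZMod 2) = 0 := by decide
      simp [this, hg]
  let Θ : (Fin 2 → ZMod 2) → Γ := fun c => u ^ (c 0).val * v ^ (c 1).val
  have hΘ : ∀ c, Θ c = u ^ (c 0).val * v ^ (c 1).val := fun _ => rfl
  have hcomm : ∀ m n : ℕ, u ^ m * v ^ n = v ^ n * u ^ m := fun m n =>
    (Commute.pow_pow (show Commute u v from huv) m n).eq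
  have hadd : ∀ w w', Θ (w + w') = Θ w * Θ w' := by
    intro w w'
    rw [hΘ, hΘ, hΘ, Pi.add_apply, Pi.add_apply, hpow u hu, hpow v hv]
    have := hcomm (w' 0).val (w 1).val
    calc u ^ (w 0).val * u ^ (w' 0).val * (v ^ (w 1).val * v ^ (w' 1).val)
        = u ^ (w 0).val * (u ^ (w' 0).val * v ^ (w 1).val) * v ^ (w' 1).val := by group
      _ = u ^ (w 0).val * (v ^ (w 1).val * u ^ (w' 0).val) * v ^ (w' 1).val := by rw [this]
      _ = _ := by group
  have hinj : Function.Injective Θ := by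
    intro w w' h
    have huv' : u * v ≠ 1 := by
      intro h1
      apply hne
      have := mul_eq_one_iff_eq_inv.1 h1
      have hvi : v⁻¹ = v := inv_eq_of_mul_eq_one_left hv
      rw [this, hvi]
    have hne1 : u * v ≠ u := fun h1 => hv1 (by simpa using h1)
    have hne2 : u * v ≠ v := fun h1 => hu1 (by simpa using h1)
    have e0 : w 0 = w' 0 ∧ w 1 = w' 1 := by
      rw [hΘ, hΘ] at h
      rcases zmod_two_cases (w 0) with h0 | h0 <;> rcases zmod_two_cases (w 1) with h1 | h1 <;>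
        rcases zmod_two_cases (w' 0) with h2 | h2 <;> rcases zmod_two_cases (w' 1) with h3 | h3 <;>
        rw [h0, h1, h2, h3] at h ⊢ <;> simp [ZMod.val_one] at h ⊢
      all_goals first
        | exact absurd h hv1
        | exact absurd h.symm hv1
        | exact absurd h hu1
        | exact absurd h.symm hu1
        | exact absurd h hne
        | exact absurd h.symm hne
        | exact absurd h huv'
        | exact absurd h.symm huv'
        | exact absurd h hne1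
        | exact absurd h.symm hne1
        | exact absurd h hne2
        | exact absurd h.symm hne2
        | skip
    funext i
    fin_cases i
    · exact e0.1
    · exact e0.2
  -- the actions of `x` and `a`
  have hωc : ∀ w : Fin 2 → ZMod 2, omegaTwo.1 *ᵥ w = ![w 1, w 0 + w 1] := by decide
  have hαc : ∀ w : Fin 2 → ZMod 2, alphaTwo.1 *ᵥ w = ![w 0 + w 1, w 1] := by decide
  have hx : ∀ w, x * Θ w * x⁻¹ = Θ (omegaTwo.1 *ᵥ w) := by
    intro w
    rw [hωc, hΘ, hΘ]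
    simp only [Matrix.cons_val_zero, Matrix.cons_val_one, Matrix.cons_val_fin_one]
    rcases zmod_two_cases (w 0) with h0 | h0 <;> rcases zmod_two_cases (w 1) with h1 | h1 <;>
      rw [h0, h1] <;> simp [ZMod.val_one]
    · have e : x * v * x⁻¹ = u * v := hxv
      have : x * v * x⁻¹ = u * v := hxv
      rw [this]
    · have : x * u * x⁻¹ = v := hxu
      rw [this]
    · have h11 : (1 + 1 : ZMod 2) = 0 := by decide
      rw [h11]
      have e : x * (u * v) * x⁻¹ = (x * u * x⁻¹) * (x * v * x⁻¹) := by group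
      rw [e, hxu, hxv]
      simp only [ZMod.val_zero, pow_zero, mul_one]
      calc v * (u * v) = u * (v * v) := by rw [← mul_assoc, ← huv, mul_assoc]
        _ = u := by rw [hv, mul_one]
  have ha : ∀ w, a * Θ w * a⁻¹ = Θ (alphaTwo.1 *ᵥ w) := by
    intro w
    rw [hαc, hΘ, hΘ]
    simp only [Matrix.cons_val_zero, Matrix.cons_val_one, Matrix.cons_val_fin_one]
    rcases zmod_two_cases (w 0) with h0 | h0 <;> rcases zmod_two_cases (w 1) with h1 | h1 <;>
      rw [h0, h1] <;> simp [ZMod.val_one]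
    · rw [hav]
    · rw [hau]
    · have h11 : (1 + 1 : ZMod 2) = 0 := by decide
      rw [h11]
      have e : a * (u * v) * a⁻¹ = (a * u * a⁻¹) * (a * v * a⁻¹) := by group
      rw [e, hau, hav]
      simp only [ZMod.val_zero, pow_zero, one_mul]
      calc u * (u * v) = (u * u) * v := by group
        _ = v := by rw [hu, one_mul]
  have hcl : ∀ (n₁ n₂ : Γ) (t₁ t₂ : SL2 (ZMod 2)), (∀ w, n₁ * Θ w * n₁⁻¹ = Θ (t₁.1 *ᵥ w)) →
      (∀ w, n₂ * Θ w * n₂⁻¹ = Θ (t₂.1 *ᵥ w)) → ∀ w, (n₁ * n₂) * Θ w * (n₁ * n₂)⁻¹ = Θ ((t₁ * t₂).1 *ᵥ w) := by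
    intro n₁ n₂ t₁ t₂ h₁ h₂ w
    have e : (n₁ * n₂) * Θ w * (n₁ * n₂)⁻¹ = n₁ * (n₂ * Θ w * n₂⁻¹) * n₁⁻¹ := by group
    rw [e, h₂, h₁, Matrix.mulVec_mulVec]
    rfl
  have h1c : ∀ w, (1 : Γ) * Θ w * (1 : Γ)⁻¹ = Θ ((1 : SL2 (ZMod 2)).1 *ᵥ w) := by
    intro w
    have : (1 : SL2 (ZMod 2)).1 = (1 : Matrix (Fin 2) (Fin 2) (ZMod 2)) := rfl
    rw [this, Matrix.one_mulVec]
    simp
  refine involves_of_natural_in_two Θ hinj hadd (fun t => ?_)
  rcases slTwo_gen t with rfl | rfl | rfl | rfl | rfl | rfl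
  · exact ⟨1, h1c⟩
  · exact ⟨x, hx⟩
  · exact ⟨x * x, hcl _ _ _ _ hx hx⟩
  · exact ⟨a, ha⟩
  · exact ⟨x * a, hcl _ _ _ _ hx ha⟩
  · exact ⟨x * x * a, hcl _ _ _ _ (hcl _ _ _ _ hx hx) ha⟩

end Cfsg.Agent.Lib.LQd
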