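import Mathlib
import Cfsg.Agent.Lib.LOff1

/-! Two elements acting on an abelian subgroup: `a` as a transvection, `x` of odd order inverted by `a`. -/

set_option autoImplicit false
set_option linter.unusedSectionVars false
set_option linter.unusedVariables false
set_option linter.style.haveILetI false

namespace Cfsg.Agent.Lib.LOff

open Subgroup Cfsg
open scoped commutatorElement

variable {G : Type*} [Group G]

/-- If `g^m` (with `m` odd) and `g^2` fix an element under conjugation, so does `g`. -/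
theorem fix_of_odd_two (g w : G) (m : ℕ) (hm : Nat.Coprime m 2) (h1 : g ^ m * w * (g ^ m)⁻¹ = w)
    (h2 : g ^ 2 * w * (g ^ 2)⁻¹ = w) : g * w * g⁻¹ = w := by
  have hm1 : g ^ m ∈ centralizer ({w} : Set G) := by
    rw [mem_centralizer_iff]
    intro y hy
    have hy' : y = w := hy
    rw [hy']
    calc w * g ^ m = (g ^ m * w * (g ^ m)⁻¹) * g ^ m := by rw [h1]
      _ = _ := by group
  have hm2 : g ^ 2 ∈ centralizer ({w} : Set G) := by
    rw [mem_centralizer_iff]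
    intro y hy
    have hy' : y = w := hy
    rw [hy']
    calc w * g ^ 2 = (g ^ 2 * w * (g ^ 2)⁻¹) * g ^ 2 := by rw [h2]
      _ = _ := by group
  obtain ⟨k, hk⟩ : ∃ k, m = 2 * k + 1 := by
    have : Odd m := Nat.Coprime.odd_of_right hm
    exact this
  have e : g = g ^ m * ((g ^ 2) ^ k)⁻¹ := by
    rw [hk, pow_succ, pow_mul]
    group
  have hg : g ∈ centralizer ({w} : Set G) := by
    rw [e]
    exact mul_mem hm1 (inv_mem (pow_mem hm2 k))
  have h3 := (mem_centralizer_iff.1 hg) w rfl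
  rw [← h3]
  group

theorem fix_of_odd_four (g w : G) (m : ℕ) (hm : Nat.Coprime m 2) (h1 : g ^ m * w * (g ^ m)⁻¹ = w)
    (h2 : (g ^ 2) ^ 2 * w * ((g ^ 2) ^ 2)⁻¹ = w) : g * w * g⁻¹ = w := by
  have h3 : (g ^ 2) ^ m * w * ((g ^ 2) ^ m)⁻¹ = w := by
    have e : (g ^ 2) ^ m = (g ^ m) ^ 2 := by rw [← pow_mul, ← pow_mul, mul_comm]
    rw [e]
    have e2 : (g ^ m) ^ 2 * w * ((g ^ m) ^ 2)⁻¹ = g ^ m * (g ^ m * w * (g ^ m)⁻¹) * (g ^ m)⁻¹ := by group
    rw [e2, h1, h1]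
  have h4 := fix_of_odd_two (g ^ 2) w m hm h3 h2
  exact fix_of_odd_two g w m hm h1 h4

/-- The key lemma on the plane. -/
theorem plane_core [Finite G] (W : Subgroup G) (hWab : ∀ w ∈ W, ∀ w' ∈ W, w * w' = w' * w)
    (a x u : G) (hu : u ∈ W) (hu1 : u ≠ 1) (huu : u * u = 1) (hau : a * u * a⁻¹ = u)
    (hT1 : ∀ w ∈ W, a * w * a⁻¹ = w ∨ a * w * a⁻¹ = u * w)
    (hinv : ∀ w ∈ W, a⁻¹ * w * a = a * w * a⁻¹)
    (hxW : ∀ w ∈ W, x * w * x⁻¹ ∈ W) (hxW' : ∀ w ∈ W, x⁻¹ * w * x ∈ W)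
    (hax : ∀ w ∈ W, (a * x * a⁻¹) * w * (a * x * a⁻¹)⁻¹ = x⁻¹ * w * x)
    (m : ℕ) (hm : Nat.Coprime m 2) (hxm : ∀ w ∈ W, x ^ m * w * (x ^ m)⁻¹ = w)
    (hne : ∃ w ∈ W, x * w * x⁻¹ ≠ w) :
    Cfsg.Involves (Equiv.Perm (Fin 4)) G := by
  classical
  -- the action of `x²`
  set v := x * u * x⁻¹ with hv
  have hvW : v ∈ W := hxW u hu
  have hv1 : v ≠ 1 := by
    intro h
    apply hu1
    have : x⁻¹ * (x * u * x⁻¹) * x = u := by group
    rw [← this, ← hv, h]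
    group
  have hvv : v * v = 1 := by
    have : v * v = x * (u * u) * x⁻¹ := by rw [hv]; group
    rw [this, huu]
    group
  have hauW : ∀ w ∈ W, a * w * a⁻¹ ∈ W := by
    intro w hw
    rcases hT1 w hw with h | h <;> rw [h]
    · exact hw
    · exact mul_mem hu hw
  have hT2 : ∀ w ∈ W, x * (a * (x⁻¹ * w * x) * a⁻¹) * x⁻¹ = w ∨ x * (a * (x⁻¹ * w * x) * a⁻¹) * x⁻¹ = v * w := by
    intro w hw
    rcases hT1 _ (hxW' w hw) with h | h
    · left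
      rw [h]
      group
    · right
      rw [h, hv]
      group
  have hx2 : ∀ w ∈ W, x ^ 2 * w * (x ^ 2)⁻¹ = x * (a * (x⁻¹ * (a⁻¹ * w * a) * x) * a⁻¹) * x⁻¹ := by
    intro w hw
    have h1 := hax (x * w * x⁻¹) (hxW w hw)
    -- `(a x⁻¹ a⁻¹)` acts as `x`
    have h2 : x * w * x⁻¹ = (a * x⁻¹ * a⁻¹) * w * (a * x⁻¹ * a⁻¹)⁻¹ := by
      have h3 := hax ((a * x⁻¹ * a⁻¹) * w * (a * x⁻¹ * a⁻¹)⁻¹) (by
        have e : (a * x⁻¹ * a⁻¹) * w * (a * x⁻¹ * a⁻¹)⁻¹ = a * (x⁻¹ * (a⁻¹ * w * a) * x) * a⁻¹ := by group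
        rw [e]
        apply hauW _ (hxW' _ _)
        rw [hinv w hw]
        exact hauW w hw)
      have e1 : (a * x * a⁻¹) * ((a * x⁻¹ * a⁻¹) * w * (a * x⁻¹ * a⁻¹)⁻¹) * (a * x * a⁻¹)⁻¹ = w := by group
      rw [e1] at h3
      have e2 : x * (x⁻¹ * ((a * x⁻¹ * a⁻¹) * w * (a * x⁻¹ * a⁻¹)⁻¹) * x) * x⁻¹ = (a * x⁻¹ * a⁻¹) * w * (a * x⁻¹ * a⁻¹)⁻¹ := by group
      rw [← e2, ← h3]
    calc x ^ 2 * w * (x ^ 2)⁻¹ = x * (x * w * x⁻¹) * x⁻¹ := by rw [pow_two]; group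
      _ = x * ((a * x⁻¹ * a⁻¹) * w * (a * x⁻¹ * a⁻¹)⁻¹) * x⁻¹ := by rw [← h2]
      _ = _ := by group
  have hT3 : ∀ w ∈ W, x ^ 2 * w * (x ^ 2)⁻¹ = w ∨ x ^ 2 * w * (x ^ 2)⁻¹ = u * w ∨ x ^ 2 * w * (x ^ 2)⁻¹ = v * w ∨
      x ^ 2 * w * (x ^ 2)⁻¹ = v * (u * w) := by
    intro w hw
    rw [hx2 w hw, hinv w hw]
    have hw1 : a * w * a⁻¹ ∈ W := hauW w hw
    rcases hT1 w hw with h | h <;> rcases hT2 _ hw1 with h' | h' <;> rw [h'] <;> rw [h]
    · simp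
    · simp
    · simp
    · simp
  have hxfix : ∀ w ∈ W, x ^ 2 * w * (x ^ 2)⁻¹ = w → x * w * x⁻¹ = w := fun w hw h =>
    fix_of_odd_two x w m hm (hxm w hw) h
  -- `u ≠ v`
  have hne' : u ≠ v := by
    intro huv
    obtain ⟨w, hw, hwne⟩ := hne
    apply hwne
    refine fix_of_odd_four x w m hm (hxm w hw) ?_
    have hxu2 : x ^ 2 * u * (x ^ 2)⁻¹ = u := by
      have : x ^ 2 * u * (x ^ 2)⁻¹ = x * (x * u * x⁻¹) * x⁻¹ := by rw [pow_two]; group
      have hxuu : x * u * x⁻¹ = u := huv.symm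
      rw [this, hxuu, hxuu]
    have hw2 : x ^ 2 * w * (x ^ 2)⁻¹ = w ∨ x ^ 2 * w * (x ^ 2)⁻¹ = u * w := by
      rcases hT3 w hw with h | h | h | h
      · exact Or.inl h
      · exact Or.inr h
      · rw [← huv] at h
        exact Or.inr h
      · rw [← huv, ← mul_assoc, huu, one_mul] at h
        exact Or.inl h
    have e : (x ^ 2) ^ 2 * w * ((x ^ 2) ^ 2)⁻¹ = x ^ 2 * (x ^ 2 * w * (x ^ 2)⁻¹) * (x ^ 2)⁻¹ := by group
    rw [e]
    rcases hw2 with h | h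
    · rw [h, h]
    · rw [h]
      have e2 : x ^ 2 * (u * w) * (x ^ 2)⁻¹ = (x ^ 2 * u * (x ^ 2)⁻¹) * (x ^ 2 * w * (x ^ 2)⁻¹) := by group
      rw [e2, hxu2, h, ← mul_assoc, huu, one_mul]
  -- action on the plane
  have huv : u * v = v * u := hWab u hu v hvW
  have hxu : x * u * x⁻¹ = v := rfl
  have hxv : x * v * x⁻¹ = u * v := by
    have h1 : x ^ 2 * u * (x ^ 2)⁻¹ = x * v * x⁻¹ := by rw [hv, pow_two]; group
    rcases hT3 u hu with h | h | h | h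
    · exfalso
      apply hne'
      have := hxfix u hu h
      exact this.symm
    · exfalso
      apply hv1
      rw [huu] at h
      have h2 : x * v * x⁻¹ = 1 := h1.symm.trans h
      have : x⁻¹ * (x * v * x⁻¹) * x = v := by group
      rw [← this, h2]
      group
    · rw [← h1, h, huv]
    · exfalso
      apply hne'
      have h2 : x * v * x⁻¹ = v := by
        rw [← h1, h, huu, mul_one]
      have h3 : x * v * x⁻¹ = x * u * x⁻¹ := by rw [h2]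
      exact (mul_left_cancel (mul_right_cancel h3)).symm
  have hav : a * v * a⁻¹ = u * v := by
    rcases hT1 v hvW with h | h
    · exfalso
      apply hne'
      have h1 := hax u hu
      have e : (a * x * a⁻¹) * u * (a * x * a⁻¹)⁻¹ = a * (x * (a⁻¹ * u * a) * x⁻¹) * a⁻¹ := by group
      rw [e, hinv u hu, hau, ← hv, h] at h1
      have h2 : x ^ 2 * u * (x ^ 2)⁻¹ = u := by
        have e2 : x ^ 2 * u * (x ^ 2)⁻¹ = x * (x * u * x⁻¹) * x⁻¹ := by rw [pow_two]; group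
        rw [e2, ← hv, h1]
        group
      exact (hxfix u hu h2).symm
    · exact h
  exact Cfsg.Agent.Lib.LQd.involves_s4_of_plane u v x a huu hvv huv hu1 hv1 hne' hxu hxv hau hav

end Cfsg.Agent.Lib.LOff
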