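import Mathlib
import Cfsg.Prelude.Def_PLocal
import Cfsg.Agent.Lib.PMin5

set_option autoImplicit false
set_option linter.unusedSectionVars false
set_option linter.unusedVariables false
set_option linter.style.haveILetI false

/-!
# Thompson's normal `p`-complement theorem
-/

namespace Cfsg.Agent.Lib.PZJ

open Subgroup Cfsg Cfsg.Agent.Lib.PQuad Cfsg.Agent.Lib.PNilp Cfsg.Agent.Lib.H1Core Cfsg.Agent.Lib.PQA
open scoped commutatorElement

universe u

section Aux

variable {p : ℕ} [Fact p.Prime] {G : Type u} [Group G] [Finite G]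

/-- A `p`-nilpotent subgroup containing `O_p(G)`, when `C_G(O_p(G)) ≤ O_p(G)`, is a `p`-group. -/
theorem isPGroup_of_npc_overgroup (hc : centralizer (pCore p G : Set G) ≤ pCore p G) (X : Subgroup G)
    (hDX : pCore p G ≤ X) (hnpc : HasNormalPComplement p ↥X) : IsPGroup p ↥X := by
  classical
  haveI hDn : (pCore p G).Normal := pCore_normal p G
  have hDp : IsPGroup p (pCore p G) := pCore_isPGroup p
  rw [hasNormalPComplement_iff] at hnpc
  obtain ⟨X₀, hX₀n, hX₀c, hX₀q⟩ := hnpc
  haveI := hX₀n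
  have hX₀pow : ∀ y ∈ X₀, y ^ Nat.card X₀ = 1 := fun y hy => by
    have := pow_card_eq_one' (x := (⟨y, hy⟩ : X₀))
    exact congrArg Subtype.val this
  have hcop1 : ∀ c ∈ X₀, ((c : ↥X) : G) ∈ pCore p G → c = 1 := by
    intro c hc1 hc2
    obtain ⟨k, hk⟩ := (isPGroup_iff_pow_pow_eq_one.1 hDp) ⟨c, hc2⟩
    have hk' : ((c : ↥X) : G) ^ (p ^ k) = 1 := congrArg Subtype.val hk
    exact eq_one_of_pow_of_coprime hX₀c (hX₀pow c hc1) (Subtype.ext hk')
  have hX₀bot : X₀ = ⊥ := by
    rw [eq_bot_iff]
    intro x hx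
    have hxC : ((x : ↥X) : G) ∈ centralizer (pCore p G : Set G) := by
      rw [mem_centralizer_iff]
      intro d hd
      have hd' : d ∈ X := hDX hd
      have h1 : x * (⟨d, hd'⟩ : ↥X) * x⁻¹ * (⟨d, hd'⟩ : ↥X)⁻¹ ∈ X₀ := by
        have := hX₀n.conj_mem _ (inv_mem hx) (⟨d, hd'⟩ : ↥X)
        have e : x * (⟨d, hd'⟩ : ↥X) * x⁻¹ * (⟨d, hd'⟩ : ↥X)⁻¹ =
            x * ((⟨d, hd'⟩ : ↥X) * x⁻¹ * (⟨d, hd'⟩ : ↥X)⁻¹) := by group
        rw [e]
        exact mul_mem hx this
      have h2 : ((x * (⟨d, hd'⟩ : ↥X) * x⁻¹ * (⟨d, hd'⟩ : ↥X)⁻¹ : ↥X) : G) ∈ pCore p G := by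
        have : ((x * (⟨d, hd'⟩ : ↥X) * x⁻¹ * (⟨d, hd'⟩ : ↥X)⁻¹ : ↥X) : G) =
            ((x : ↥X) : G) * d * ((x : ↥X) : G)⁻¹ * d⁻¹ := rfl
        rw [this]
        exact mul_mem (hDn.conj_mem d hd _) (inv_mem hd)
      have h3 := hcop1 _ h1 h2
      have h4 : ((x : ↥X) : G) * d * ((x : ↥X) : G)⁻¹ * d⁻¹ = 1 := congrArg Subtype.val h3
      have h5 : ((x : ↥X) : G) * d * ((x : ↥X) : G)⁻¹ = d := mul_inv_eq_one.1 h4
      calc d * ((x : ↥X) : G) = (((x : ↥X) : G) * d * ((x : ↥X) : G)⁻¹) * ((x : ↥X) : G) := by rw [h5]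
        _ = _ := by group
    exact mem_bot.2 (hcop1 x hx (hc hxC))
  rw [isPGroup_iff_pow_pow_eq_one]
  intro x
  obtain ⟨k, hk⟩ := (isPGroup_iff_pow_pow_eq_one.1 hX₀q) (x : ↥X ⧸ X₀)
  refine ⟨k, ?_⟩
  rw [← QuotientGroup.mk_pow, QuotientGroup.eq_one_iff, hX₀bot, mem_bot] at hk
  exact hk

/-- A normal subgroup with a normal `p`-complement, when `O_{p'}(G) = 1`, is a `p`-group. -/
theorem isPGroup_of_npc_normal (hO : pPrimeCore p G = ⊥) (C : Subgroup G) [hCn : C.Normal]
    (hnpc : HasNormalPComplement p ↥C) : IsPGroup p ↥C := by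
  classical
  rw [hasNormalPComplement_iff] at hnpc
  obtain ⟨C₀, hC₀n, hC₀c, hC₀q⟩ := hnpc
  haveI := hC₀n
  have hC₀mem : ∀ x : ↥C, x ∈ C₀ ↔ Nat.Coprime (orderOf x) p := by
    intro x
    constructor
    · intro hx
      have h1 : orderOf x ∣ Nat.card C₀ := by
        have := orderOf_dvd_natCard (⟨x, hx⟩ : C₀)
        simpa using this
      exact Nat.Coprime.coprime_dvd_left h1 hC₀c
    · exact mem_of_coprime_of_isPGroup_quotient C₀ hC₀q x
  have hn : (C₀.map C.subtype).Normal := by
    refine ⟨?_⟩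
    rintro _ ⟨x, hx, rfl⟩ g
    have hxg : g * (x : G) * g⁻¹ ∈ C := hCn.conj_mem _ x.2 g
    refine ⟨⟨_, hxg⟩, (hC₀mem _).2 ?_, rfl⟩
    have h1 : orderOf (⟨g * (x : G) * g⁻¹, hxg⟩ : ↥C) = orderOf (g * (x : G) * g⁻¹) := Subgroup.orderOf_mk _ _
    have h2 : orderOf ((x : ↥C) : G) = orderOf x := Subgroup.orderOf_coe x
    rw [h1, orderOf_conj', h2]
    exact (hC₀mem x).1 hx
  have hcard : (Nat.card ↥(C₀.map C.subtype)).Coprime p := by
    rw [Subgroup.card_map_of_injective C.subtype_injective]
    exact hC₀c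
  have hle := le_pPrimeCore hn hcard
  rw [hO, le_bot_iff, Subgroup.map_eq_bot_iff_of_injective _ C.subtype_injective] at hle
  rw [isPGroup_iff_pow_pow_eq_one]
  intro x
  obtain ⟨k, hk⟩ := (isPGroup_iff_pow_pow_eq_one.1 hC₀q) (x : ↥C ⧸ C₀)
  refine ⟨k, ?_⟩
  rw [← QuotientGroup.mk_pow, QuotientGroup.eq_one_iff, hle, mem_bot] at hk
  exact hk

theorem center_ne_bot {T : Subgroup G} (hT : IsPGroup p T) (hne : T ≠ ⊥) :
    T ⊓ centralizer (T : Set G) ≠ ⊥ := by
  haveI : Nontrivial T := (Subgroup.nontrivial_iff_ne_bot T).2 hne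
  have hcen : Nontrivial (center ↥T) := hT.center_nontrivial
  obtain ⟨z, hz⟩ := exists_ne (1 : center ↥T)
  intro hbot
  apply hz
  have hzJ : ((z : T) : G) ∈ T ⊓ centralizer (T : Set G) := by
    refine mem_inf.2 ⟨(z : T).2, ?_⟩
    rw [mem_centralizer_iff]
    intro j hj
    have := (mem_center_iff.1 z.2) ⟨j, hj⟩
    exact congrArg Subtype.val this
  rw [hbot, mem_bot] at hzJ
  exact Subtype.ext (Subtype.ext hzJ)

end Aux

section Thompson

variable {p : ℕ} [Fact p.Prime]

/-- The two local functors of Thompson's theorem. -/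
def thQ (p : ℕ) : Bool → ∀ (G : Type u) [Group G], Subgroup G → Subgroup G
  | true, _, _, T => thompsonSubgroupOf p T
  | false, G, _, T => T ⊓ centralizer (T : Set G)

def thL (p : ℕ) : Bool → ∀ (G : Type u) [Group G], Subgroup G → Subgroup G
  | true, _, _, T => normalizer ((thompsonSubgroupOf p T : Subgroup _) : Set _)
  | false, G, _, T => centralizer (((T ⊓ centralizer (T : Set G) : Subgroup G)) : Set G)

theorem thompsonOf_ne_bot {G : Type u} [Group G] [Finite G] {T : Subgroup G} (hT : IsPGroup p T) (hne : T ≠ ⊥) :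
    thompsonSubgroupOf p T ≠ ⊥ := by
  intro h
  have h1 := centerThompsonOf_ne_bot hT hne
  apply h1
  rw [centerThompsonOf, h, bot_inf_eq]

theorem th_axioms : LocalAxioms p (thQ.{u} p) (thL.{u} p) := by
  have hA := localAxioms_normalizer (p := p) (ι := Unit) (Q := fun _ G _ T => thompsonSubgroupOf p T)
    (fun _ G _ T => map_subtype_le _)
    (fun _ G H _ _ f T h => Cfsg.Agent.Lib.PJ.thompsonOf_map f T h p)
    (fun _ G _ _ T hT hne => thompsonOf_ne_bot hT hne)
  refine ⟨?_, ?_, ?_, ?_, ?_, ?_, ?_, ?_⟩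
  · rintro (_ | _) G _ T
    · exact inf_le_left
    · exact map_subtype_le _
  · rintro (_ | _) G H _ _ f T hf
    · exact inf_centralizer_map f T hf
    · exact Cfsg.Agent.Lib.PJ.thompsonOf_map f T hf p
  · rintro (_ | _) G _ _ T hT hne
    · exact center_ne_bot hT hne
    · exact thompsonOf_ne_bot hT hne
  · rintro (_ | _) G _ T
    · exact centralizer_le_normalizer _
    · exact le_rfl
  · rintro (_ | _) G _ _ T hT
    · intro t ht
      show t ∈ centralizer _
      rw [mem_centralizer_iff]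
      intro z hz
      exact (mem_centralizer_iff.1 (mem_inf.1 hz).2) t ht |>.symm ▸ rfl
    · exact hA.T_le () G T hT
  · rintro (_ | _) G _ _ H T
    · rintro _ ⟨x, hx, rfl⟩
      show _ ∈ centralizer _
      rw [mem_centralizer_iff]
      have h1 := inf_centralizer_map H.subtype T (fun x _ h => Subtype.ext h)
      rintro z hz
      rw [SetLike.mem_coe, h1] at hz
      obtain ⟨z', hz', rfl⟩ := hz
      have := (mem_centralizer_iff.1 hx) z' hz'
      exact congrArg Subtype.val this
    · exact hA.L_sub () G H T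
  · rintro (_ | _) G _ _ T hT
    · intro y hy
      haveI hOn : (pPrimeCore p G).Normal := pPrimeCore_normal p G
      have hsurj := QuotientGroup.mk'_surjective (pPrimeCore p G)
      have hinj : ∀ x ∈ T, QuotientGroup.mk' (pPrimeCore p G) x = 1 → x = 1 := by
        intro x hx h1
        have hxO : x ∈ pPrimeCore p G := by
          rwa [QuotientGroup.mk'_apply, QuotientGroup.eq_one_iff] at h1
        exact Cfsg.Agent.Lib.PJ.eq_one_of_mem_pPrimeCore hT hx hxO
      have hmap := inf_centralizer_map (QuotientGroup.mk' (pPrimeCore p G)) T hinj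
      obtain ⟨g, rfl⟩ := hsurj y
      have hZp : IsPGroup p ↥(T ⊓ centralizer (T : Set G)) := hT.to_le inf_le_left
      have hy' : (QuotientGroup.mk' (pPrimeCore p G)) g ∈ centralizer
          (((T.map (QuotientGroup.mk' (pPrimeCore p G))) ⊓ centralizer (((T.map (QuotientGroup.mk' (pPrimeCore p G))) : Subgroup _) : Set _) : Subgroup _) : Set _) := hy
      obtain ⟨o, ho, c, hc, rfl⟩ := Cfsg.Agent.Lib.PJ.exists_mul_centralizer (p := p) _ hZp g (by
        intro x hx
        apply (QuotientGroup.eq_one_iff _).1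
        have h1 := (mem_centralizer_iff.1 hy') (QuotientGroup.mk' (pPrimeCore p G) x) (by
          rw [SetLike.mem_coe, hmap]; exact ⟨x, hx, rfl⟩)
        change QuotientGroup.mk' (pPrimeCore p G) (g * x * g⁻¹ * x⁻¹) = 1
        rw [map_mul, map_mul, map_mul, map_inv, map_inv, ← h1]
        group)
      refine ⟨c, hc, ?_⟩
      rw [map_mul]
      have h6 : QuotientGroup.mk' (pPrimeCore p G) o = 1 := by
        rw [QuotientGroup.mk'_apply, QuotientGroup.eq_one_iff]; exact ho
      rw [h6, one_mul]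
    · exact hA.L_quot () G T hT
  · rintro (_ | _) G _ _ T hT hne hD htop
    · have h1 : (T ⊓ centralizer (T : Set G)).Normal := by
        refine ⟨fun z hz g => ?_⟩
        have hg : g ∈ centralizer (((T ⊓ centralizer (T : Set G) : Subgroup G)) : Set G) := by
          have := htop
          change centralizer _ = ⊤ at this
          rw [this]; exact mem_top g
        have h2 := (mem_centralizer_iff.1 hg) z hz
        rw [← h2]
        group
        exact hz
      have h2 := le_pCore h1 (hT.to_le inf_le_left)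
      rw [hD, le_bot_iff] at h2
      exact center_ne_bot hT hne h2
    · exact hA.L_ne_top () G T hT hne hD htop

/-- **Core factorization** for the Thompson subgroup with `W = Z(P)`. -/
theorem thompson_factorization (hp : p ≠ 2) {G : Type u} [Group G] [Finite G] (P : Sylow p G)
    (hc : centralizer (pCore p G : Set G) ≤ pCore p G)
    (W : Subgroup G) (hWP : W ≤ (P : Subgroup G) ⊓ centralizer ((P : Subgroup G) : Set G))
    (hst : ∀ B₁ : Subgroup G, B₁.Normal → B₁ ≤ pCore p G → IsElementaryAbelian p B₁ → ∃ M, StabOn p B₁ M)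
    (g : G) : ∃ n ∈ normalizer ((sSup (FamE p (P : Subgroup G)) : Subgroup G) : Set G),
      ∃ c ∈ centralizer ((normalClosure (W : Set G) : Subgroup G) : Set G), g = n * c := by
  classical
  haveI hDn : (pCore p G).Normal := pCore_normal p G
  have hDP := pCore_le_sylow p P
  have hWD : W ≤ pCore p G := by
    intro w hw
    apply hc
    rw [mem_centralizer_iff]
    intro d hd
    exact (mem_centralizer_iff.1 (mem_inf.1 (hWP hw)).2) d (hDP hd)
  have hWC : W ≤ centralizer (pCore p G : Set G) := by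
    intro w hw
    rw [mem_centralizer_iff]
    intro d hd
    exact (mem_centralizer_iff.1 (mem_inf.1 (hWP hw)).2) d (hDP hd)
  haveI hCn : (centralizer (pCore p G : Set G)).Normal := Subgroup.normal_centralizer
  set B : Subgroup G := normalClosure (W : Set G) with hB
  haveI hBn : B.Normal := normalClosure_normal
  have hBD : B ≤ pCore p G := normalClosure_le_normal hWD
  have hBC : B ≤ centralizer (pCore p G : Set G) := normalClosure_le_normal hWC
  have hBcomm : ⁅B, B⁆ ≤ (⊥ : Subgroup G) := by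
    rw [commutator_le]
    intro x hx y hy
    rw [mem_bot, commutatorElement_eq_one_iff_mul_comm]
    exact ((mem_centralizer_iff.1 (hBC hx)) y (hBD hy)).symm
  have hBbot : B ≤ centralizer (((⊥ : Subgroup G)) : Set G) := by
    intro x _
    rw [mem_centralizer_iff]
    intro y hy
    have hy' : y = 1 := by simpa using hy
    rw [hy']; simp
  have hBp : IsPGroup p B := (pCore_isPGroup p).to_le hBD
  have hom := omegaOne_exponent hp B ⊥ hBcomm hBbot
  haveI hon : (omegaOne p B).Normal := omegaOne_normal B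
  have hoB : omegaOne p B ≤ B := fun x hx => (hom x hx).1
  have hoab : IsElementaryAbelian p (omegaOne p B) := by
    refine ⟨isMulComm_of_forall ?_, fun a ha => (hom a ha).2⟩
    intro x hx y hy
    exact ((mem_centralizer_iff.1 (hBC (hoB hx))) y (hBD (hoB hy))).symm
  obtain ⟨M, hMn, hCM, hidx, hM⟩ := hst (omegaOne p B) hon (hoB.trans hBD) hoab
  haveI := hMn
  haveI hCon : (centralizer ((omegaOne p B : Subgroup G) : Set G)).Normal := Subgroup.normal_centralizer
  have hF := fun (A : Subgroup G) (hA : A ∈ FamE p (P : Subgroup G)) => hA.1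
  have hW : ∀ A ∈ FamE p (P : Subgroup G), W ≤ centralizer (A : Set G) := by
    intro A hA w hw
    exact centralizer_le (show (A : Set G) ⊆ (P : Subgroup G) from hA.1) (mem_inf.1 (hWP hw)).2
  have hall := core_step2 P (FamE p (P : Subgroup G)) hF (famE_conj (P : Subgroup G)) W hW (omegaOne p B) hoB
    (fun A hA x hx hxc => famE_mem _ A hA x (hDP (hBD (hoB hx))) hxc (hom x hx).2)
    (by
      intro A hA hnot
      have hcomm : ⁅omegaOne p B, omegaOne p B⁆ ≤ A := by
        refine le_trans ?_ (bot_le : (⊥ : Subgroup G) ≤ A)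
        exact (Subgroup.commutator_mono hoB hoB).trans hBcomm
      obtain ⟨A', h1, h2, h3, h4, h5, h6⟩ := replacement_G (P : Subgroup G) P.2 hp (omegaOne p B)
        (hoB.trans (hBD.trans hDP)) (le_normalizer_of_normal.trans (le_of_eq rfl)) A hA.1 hA.2.1.1 hcomm hnot
      refine ⟨A', ⟨h1, ⟨h3, h6 p ((Fact.out : p.Prime).odd_of_ne_two hp) hA.2.1.2⟩, fun U hU hUa => ?_⟩, h4, h5⟩
      rw [h2]
      exact hA.2.2 U hU hUa)
    (centralizer ((omegaOne p B : Subgroup G) : Set G)) M hCM hidx
    (fun x hx hxc => centralizer_le (show (W : Set G) ⊆ B from subset_normalClosure)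
      (centralizes_of_omega hp B hBp x hxc hx))
    (fun A hA hAN => hM A (P.2.to_le hA.1) (quadratic_of_normalizes hA.2.1.1 hAN))
  exact core_step3 P (FamE p (P : Subgroup G)) hF (famE_conj (P : Subgroup G)) B hall g

/-- **Thompson's normal `p`-complement theorem.** -/
theorem thompson_npc (hp : p ≠ 2) {G : Type u} [Group G] [Finite G] (P : Sylow p G)
    (hN : HasNormalPComplement p ↥(normalizer (thompsonSubgroupOf p (P : Subgroup G) : Set G)))
    (hC : HasNormalPComplement p ↥(centralizer (((P : Subgroup G) ⊓ centralizer ((P : Subgroup G) : Set G) : Subgroup G) : Set G))) :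
    HasNormalPComplement p G := by
  refine npc_main (ι := Bool) (Q := thQ p) (L := thL p) hp th_axioms ?_ G P (fun i => ?_)
  · intro G _ _ P hO hc hst hyp
    haveI hDn : (pCore p G).Normal := pCore_normal p G
    have hDP := pCore_le_sylow p P
    have hN' := hyp true
    have hC' := hyp false
    change HasNormalPComplement p ↥(normalizer (thompsonSubgroupOf p (P : Subgroup G) : Set G)) at hN'
    change HasNormalPComplement p ↥(centralizer (((P : Subgroup G) ⊓ centralizer ((P : Subgroup G) : Set G) : Subgroup G) : Set G)) at hC'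
    have hfac := thompson_factorization hp P hc ((P : Subgroup G) ⊓ centralizer ((P : Subgroup G) : Set G)) le_rfl
      (fun B₁ hB₁ hB₁D hB₁e => hst B₁ hB₁ ((pCore_isPGroup p).to_le hB₁D))
    rw [thompsonOf_eq_sSup] at hN'
    -- `N(J)` is a `p`-group, hence `P`
    have hPN : (P : Subgroup G) ≤ normalizer ((sSup (FamE p (P : Subgroup G)) : Subgroup G) : Set G) := by
      intro n hn
      refine mem_normalizer_sSup _ P (famE_conj (P : Subgroup G)) n (fun A hA => ?_)
      rintro _ ⟨a, ha, rfl⟩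
      exact mul_mem (mul_mem hn (hA.1 ha)) (inv_mem hn)
    have hNp := isPGroup_of_npc_overgroup hc _ (hDP.trans hPN) hN'
    have hNP : normalizer ((sSup (FamE p (P : Subgroup G)) : Subgroup G) : Set G) ≤ (P : Subgroup G) :=
      (P.3 hNp hPN).le
    -- `C(B)` is a `p`-group, hence in `D`
    set W := (P : Subgroup G) ⊓ centralizer ((P : Subgroup G) : Set G) with hW
    set B : Subgroup G := normalClosure (W : Set G) with hB
    haveI hBn : B.Normal := normalClosure_normal
    haveI hCBn : (centralizer (B : Set G)).Normal := Subgroup.normal_centralizer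
    have hCle : centralizer (B : Set G) ≤ centralizer (W : Set G) :=
      centralizer_le (subset_normalClosure)
    have hCnpc : HasNormalPComplement p ↥(centralizer (B : Set G)) := npc_le _ _ hCle hC'
    have hCp := isPGroup_of_npc_normal hO (centralizer (B : Set G)) hCnpc
    have hCD := le_pCore hCBn hCp
    have htop : (P : Subgroup G) = ⊤ := by
      rw [eq_top_iff]
      intro g _
      obtain ⟨n, hn, c, hcc, rfl⟩ := hfac g
      exact mul_mem (hNP hn) (hDP (hCD hcc))
    rw [hasNormalPComplement_iff]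
    refine ⟨⊥, Subgroup.normal_bot, ?_, ?_⟩
    · simp
    · rw [isPGroup_iff_pow_pow_eq_one]
      intro y
      obtain ⟨x, rfl⟩ := QuotientGroup.mk_surjective y
      have hx : x ∈ (P : Subgroup G) := by rw [htop]; exact mem_top x
      obtain ⟨k, hk⟩ := (isPGroup_iff_pow_pow_eq_one.1 P.2) ⟨x, hx⟩
      refine ⟨k, ?_⟩
      have hk' : x ^ (p ^ k) = 1 := congrArg Subtype.val hk
      rw [← QuotientGroup.mk_pow, hk']
      rfl
  · cases i
    · exact hC
    · exact hN

end Thompson

end Cfsg.Agent.Lib.PZJ
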