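import Mathlib
import Cfsg.Agent.Lib.LOff2
import Cfsg.Agent.Lib.PMin6

/-! A largest abelian subgroup normalized by an elementary abelian normal `2`-subgroup: offenders yield `S₄`. -/

set_option autoImplicit false
set_option linter.unusedSectionVars false
set_option linter.unusedVariables false
set_option linter.style.haveILetI false

namespace Cfsg.Agent.Lib.LOff

open Subgroup Cfsg Cfsg.Agent.Lib.PZJ
open scoped commutatorElement

universe u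

theorem exists_char_elt {Γ : Type*} [Group Γ] [Finite Γ] (Kb Ab : Subgroup Γ)
    (hKab : ∀ x ∈ Kb, ∀ y ∈ Kb, x * y = y * x)
    (hAab : ∀ a ∈ Ab, ∀ b ∈ Ab, a * b = b * a)
    (hA2 : ∀ a ∈ Ab, a * a = 1)
    (hN : ∀ a ∈ Ab, ∀ x ∈ Kb, a * x * a⁻¹ ∈ Kb)
    (a₀ y : Γ) (ha₀ : a₀ ∈ Ab) (hy : y ∈ Kb) (hne : a₀ * y * a₀⁻¹ ≠ y) :
    ∃ t ∈ Kb, t ≠ 1 ∧ a₀ * t * a₀⁻¹ = t⁻¹ ∧ ∀ b ∈ Ab, b * t * b⁻¹ = t ∨ b * t * b⁻¹ = t⁻¹ := by
  classical
  have hinvA : ∀ b ∈ Ab, b⁻¹ = b := fun b hb => inv_eq_of_mul_eq_one_left (hA2 b hb)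
  let 𝒮 : Set (Subgroup Γ) := {T | T ≤ Kb ∧ T ≠ ⊥ ∧ (∀ b ∈ Ab, ∀ t ∈ T, b * t * b⁻¹ ∈ T) ∧
    ∀ t ∈ T, a₀ * t * a₀⁻¹ = t⁻¹}
  let T₀ : Subgroup Γ :=
    { carrier := {t | t ∈ Kb ∧ a₀ * t * a₀⁻¹ = t⁻¹}
      one_mem' := ⟨one_mem _, by simp⟩
      mul_mem' := by
        rintro s t ⟨hs, hs'⟩ ⟨ht, ht'⟩
        refine ⟨mul_mem hs ht, ?_⟩
        have e : a₀ * (s * t) * a₀⁻¹ = (a₀ * s * a₀⁻¹) * (a₀ * t * a₀⁻¹) := by group
        rw [e, hs', ht', mul_inv_rev, hKab t⁻¹ (inv_mem ht) s⁻¹ (inv_mem hs)]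
      inv_mem' := by
        rintro t ⟨ht, ht'⟩
        refine ⟨inv_mem ht, ?_⟩
        have e : a₀ * t⁻¹ * a₀⁻¹ = (a₀ * t * a₀⁻¹)⁻¹ := by group
        rw [e, ht'] }
  have hT₀ : T₀ ∈ 𝒮 := by
    refine ⟨fun t ht => ht.1, ?_, ?_, fun t ht => ht.2⟩
    · intro hbot
      have hu : a₀ * y * a₀⁻¹ * y⁻¹ ∈ T₀ := by
        refine ⟨mul_mem (hN a₀ ha₀ y hy) (inv_mem hy), ?_⟩
        have e : a₀ * (a₀ * y * a₀⁻¹ * y⁻¹) * a₀⁻¹ = (a₀ * a₀) * y * (a₀ * a₀)⁻¹ * (a₀ * y⁻¹ * a₀⁻¹) := by group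
        rw [e, hA2 a₀ ha₀]
        group
      rw [hbot, mem_bot] at hu
      exact hne (mul_inv_eq_one.1 hu)
    · rintro b hb t ⟨ht, ht'⟩
      refine ⟨hN b hb t ht, ?_⟩
      have e : a₀ * (b * t * b⁻¹) * a₀⁻¹ = (a₀ * b) * t * (a₀ * b)⁻¹ := by group
      rw [e, hAab a₀ ha₀ b hb]
      have e2 : (b * a₀) * t * (b * a₀)⁻¹ = b * (a₀ * t * a₀⁻¹) * b⁻¹ := by group
      rw [e2, ht']
      group
  obtain ⟨T, ⟨hTK, hTne, hTinv, hTa⟩, hmin⟩ :=
    Set.exists_min_image 𝒮 (fun U => Nat.card U) (Set.toFinite 𝒮) ⟨T₀, hT₀⟩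
  obtain ⟨t, ht1⟩ := (Subgroup.ne_bot_iff_exists_ne_one.1 hTne)
  have ht1' : (t : Γ) ≠ 1 := fun h => ht1 (Subtype.ext h)
  refine ⟨t, hTK t.2, ht1', hTa _ t.2, fun b hb => ?_⟩
  let Tp : Subgroup Γ :=
    { carrier := {s | s ∈ T ∧ b * s * b⁻¹ = s}
      one_mem' := ⟨one_mem _, by simp⟩
      mul_mem' := by
        rintro s s' ⟨hs, hs'⟩ ⟨ht, ht'⟩
        refine ⟨mul_mem hs ht, ?_⟩
        have e : b * (s * s') * b⁻¹ = (b * s * b⁻¹) * (b * s' * b⁻¹) := by group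
        rw [e, hs', ht']
      inv_mem' := by
        rintro s ⟨hs, hs'⟩
        refine ⟨inv_mem hs, ?_⟩
        have e : b * s⁻¹ * b⁻¹ = (b * s * b⁻¹)⁻¹ := by group
        rw [e, hs'] }
  by_cases hTp : Tp = ⊥
  · right
    have h1 : (t : Γ) * (b * t * b⁻¹) ∈ Tp := by
      refine ⟨mul_mem t.2 (hTinv b hb _ t.2), ?_⟩
      have e : b * ((t : Γ) * (b * t * b⁻¹)) * b⁻¹ = (b * t * b⁻¹) * ((b * b) * t * (b * b)⁻¹) := by group
      rw [e, hA2 b hb]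
      have : (b * (t : Γ) * b⁻¹) * (1 * (t : Γ) * 1⁻¹) = (b * t * b⁻¹) * t := by group
      rw [this]
      exact hKab _ (hTK (hTinv b hb _ t.2)) _ (hTK t.2)
    rw [hTp, mem_bot] at h1
    exact (inv_eq_of_mul_eq_one_right h1).symm
  · left
    have hTpS : Tp ∈ 𝒮 := by
      refine ⟨fun s hs => hTK hs.1, hTp, ?_, fun s hs => hTa s hs.1⟩
      rintro c hc s ⟨hs, hs'⟩
      refine ⟨hTinv c hc s hs, ?_⟩
      have e : b * (c * s * c⁻¹) * b⁻¹ = (b * c) * s * (b * c)⁻¹ := by group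
      rw [e, hAab b hb c hc]
      have e2 : (c * b) * s * (c * b)⁻¹ = c * (b * s * b⁻¹) * c⁻¹ := by group
      rw [e2, hs']
    have h1 := hmin Tp hTpS
    have h2 : Tp ≤ T := fun s hs => hs.1
    have h3 : Tp = T := Subgroup.eq_of_le_of_card_ge h2 h1
    have h4 : (t : Γ) ∈ Tp := by rw [h3]; exact t.2
    exact h4.2

variable {G : Type u} [Group G] [Finite G]

theorem offender_elem (P : Subgroup G) (hP : IsPGroup 2 P) (V : Subgroup G) [hVn : V.Normal]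
    (hVab : ∀ v ∈ V, ∀ w ∈ V, v * w = w * v) (hV2 : ∀ v ∈ V, v * v = 1) (hVP : V ≤ P)
    (hred : ∀ R : Subgroup G, R.Normal → R ≤ P ⊔ centralizer (V : Set G) → R ≤ centralizer (V : Set G))
    (K : Subgroup G) [hKn : K.Normal] (hKab : ∀ x ∈ K, ∀ y ∈ K, ⁅x, y⁆ ∈ centralizer (V : Set G))
    (hKodd : ∀ x ∈ K, ∃ m : ℕ, Nat.Coprime m 2 ∧ x ^ m ∈ centralizer (V : Set G)) (hPK : P ⊔ K = ⊤)
    (A : Subgroup G) (hA : A ∈ FamA P) (hAV : V ≤ normalizer (A : Set G))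
    (hnot : ¬ A ≤ centralizer (V : Set G)) :
    Cfsg.Involves (Equiv.Perm (Fin 4)) G := by
  classical
  set C : Subgroup G := centralizer (V : Set G) with hC
  haveI hCn : C.Normal := Subgroup.normal_centralizer
  have hcV : ∀ c ∈ C, ∀ v ∈ V, c * v * c⁻¹ = v := by
    intro c hc v hv
    have := (mem_centralizer_iff.1 hc) v hv
    rw [← this]
    group
  have hAab : ∀ a ∈ A, ∀ b ∈ A, a * b = b * a := fun a ha b hb => Cfsg.Agent.Lib.PQuad.comm_of_isMulComm hA.2.1 ha hb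
  -- commutators
  have hcomm : ∀ a ∈ A, ∀ v ∈ V, a * v * a⁻¹ * v⁻¹ ∈ A ⊓ V := by
    intro a ha v hv
    refine mem_inf.2 ⟨?_, mul_mem (hVn.conj_mem v hv a) (inv_mem hv)⟩
    have e : a * v * a⁻¹ * v⁻¹ = a * (v * a⁻¹ * v⁻¹) := by group
    rw [e]
    exact mul_mem ha ((mem_normalizer_iff.1 (hAV hv) _).1 (inv_mem ha))
  have hAcs : ∀ a ∈ A, ∀ s ∈ A ⊓ V, a * s * a⁻¹ = s := by
    intro a ha s hs
    rw [hAab a ha s (mem_inf.1 hs).1]
    group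
  have hsq : ∀ a ∈ A, a * a ∈ C := by
    intro a ha
    rw [hC, mem_centralizer_iff]
    intro v hv
    have h1 := hcomm a ha v hv
    set s := a * v * a⁻¹ * v⁻¹ with hs
    have h2 : a * v * a⁻¹ = s * v := by rw [hs]; group
    have h3 : (a * a) * v * (a * a)⁻¹ = v := by
      have e : (a * a) * v * (a * a)⁻¹ = a * (a * v * a⁻¹) * a⁻¹ := by group
      rw [e, h2]
      have e2 : a * (s * v) * a⁻¹ = (a * s * a⁻¹) * (a * v * a⁻¹) := by group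
      rw [e2, hAcs a ha s h1, h2, ← mul_assoc, hV2 s (mem_inf.1 h1).2, one_mul]
    calc v * (a * a) = ((a * a) * v * (a * a)⁻¹) * (a * a) := by rw [h3]
      _ = _ := by group
  -- choose `a₀`
  obtain ⟨a₀, ha₀, ha₀C⟩ := SetLike.not_le_iff_exists.1 hnot
  have hy : ∃ y ∈ K, ⁅a₀, y⁆ ∉ C := by
    by_contra hall
    push Not at hall
    have hR : normalClosure ({a₀} : Set G) ≤ P ⊔ C := by
      rw [normalClosure, closure_le]
      intro z hz
      obtain ⟨w, hw, hwz⟩ := Group.mem_conjugatesOfSet_iff.1 hz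
      have hw' : w = a₀ := hw
      subst hw'
      obtain ⟨g, rfl⟩ := isConj_iff.1 hwz
      have hg : g ∈ P ⊔ K := by rw [hPK]; exact mem_top g
      obtain ⟨t, ht, k, hk, rfl⟩ := Subgroup.mem_sup_of_normal_right.1 hg
      have h1 := hall k hk
      have e : t * k * w * (t * k)⁻¹ = (t * (⁅w, k⁆)⁻¹ * t⁻¹) * (t * w * t⁻¹) := by
        rw [commutatorElement_def]
        group
      rw [SetLike.mem_coe, e]
      have h2 : t * (⁅w, k⁆)⁻¹ * t⁻¹ ∈ C := hCn.conj_mem _ (inv_mem h1) t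
      have h3 : t * w * t⁻¹ ∈ P := mul_mem (mul_mem ht (hA.1 ha₀)) (inv_mem ht)
      have h4 := mul_mem_sup h2 h3
      rw [sup_comm] at h4
      exact h4
    have h1 := hred _ normalClosure_normal hR
    exact ha₀C (h1 (subset_normalClosure (Set.mem_singleton a₀)))
  obtain ⟨y, hyK, hyC⟩ := hy
  -- the quotient
  set π := QuotientGroup.mk' C with hπ
  have hker : ∀ z : G, π z = 1 ↔ z ∈ C := fun z => by
    rw [hπ, QuotientGroup.mk'_apply, QuotientGroup.eq_one_iff]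
  have hπcomm : ∀ z w : G, π z * π w = π w * π z ↔ ⁅z, w⁆ ∈ C := by
    intro z w
    rw [← hker, map_commutatorElement, commutatorElement_eq_one_iff_mul_comm]
  obtain ⟨tb, htb, htb1, htba, htbb⟩ := exists_char_elt (K.map π) (A.map π)
    (by
      rintro _ ⟨z, hz, rfl⟩ _ ⟨w, hw, rfl⟩
      exact (hπcomm z w).2 (hKab z hz w hw))
    (by
      rintro _ ⟨z, hz, rfl⟩ _ ⟨w, hw, rfl⟩
      rw [← map_mul, ← map_mul, hAab z hz w hw])
    (by
      rintro _ ⟨z, hz, rfl⟩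
      rw [← map_mul]
      exact (hker _).2 (hsq z hz))
    (by
      rintro _ ⟨z, hz, rfl⟩ _ ⟨w, hw, rfl⟩
      refine ⟨z * w * z⁻¹, hKn.conj_mem w hw z, ?_⟩
      simp)
    (π a₀) (π y) ⟨a₀, ha₀, rfl⟩ ⟨y, hyK, rfl⟩
    (by
      intro h
      apply hyC
      apply (hπcomm a₀ y).1
      calc π a₀ * π y = (π a₀ * π y * (π a₀)⁻¹) * π a₀ := by group
        _ = π y * π a₀ := by rw [h])
  obtain ⟨x, hxK, rfl⟩ := htb
  have hxC : x ∉ C := fun h => htb1 ((hker x).2 h)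
  obtain ⟨m, hm, hxm⟩ := hKodd x hxK
  have hodd : ∀ z : G, z ^ m ∈ C → z ^ 2 ∈ C → z ∈ C := by
    intro z h1 h2
    obtain ⟨k, hk⟩ : ∃ k, m = 2 * k + 1 := Nat.Coprime.odd_of_right hm
    have e : z = z ^ m * ((z ^ 2) ^ k)⁻¹ := by
      rw [hk, pow_succ, pow_mul]
      group
    rw [e]
    exact mul_mem h1 (inv_mem (pow_mem h2 k))
  -- `A₀`
  let A₀ : Subgroup G := A ⊓ (centralizer ({π x} : Set (G ⧸ C))).comap π
  have hA₀mem : ∀ b, b ∈ A₀ ↔ b ∈ A ∧ π b * π x * (π b)⁻¹ = π x := by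
    intro b
    rw [mem_inf, mem_comap, mem_centralizer_iff]
    constructor
    · rintro ⟨h1, h2⟩
      refine ⟨h1, ?_⟩
      rw [← h2 (π x) rfl]
      group
    · rintro ⟨h1, h2⟩
      refine ⟨h1, ?_⟩
      intro z hz
      have hz' : z = π x := hz
      rw [hz']
      calc π x * π b = (π b * π x * (π b)⁻¹) * π b := by rw [h2]
        _ = _ := by group
  have hA₀A : A₀ ≤ A := inf_le_left
  have ha₀A₀ : a₀ ∉ A₀ := by
    intro h
    have h1 := ((hA₀mem a₀).1 h).2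
    rw [htba] at h1
    apply hxC
    apply hodd x hxm
    apply (hker _).1
    rw [map_pow, pow_two]
    nth_rw 1 [← h1]
    group
  have hcover : ∀ b ∈ A, b ∈ A₀ ∨ a₀ * b ∈ A₀ := by
    intro b hb
    rcases htbb (π b) ⟨b, hb, rfl⟩ with h | h
    · exact Or.inl ((hA₀mem b).2 ⟨hb, h⟩)
    · refine Or.inr ((hA₀mem _).2 ⟨mul_mem ha₀ hb, ?_⟩)
      rw [map_mul]
      have e : π a₀ * π b * π x * (π a₀ * π b)⁻¹ = π a₀ * (π b * π x * (π b)⁻¹) * (π a₀)⁻¹ := by group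
      rw [e, h]
      have e2 : π a₀ * (π x)⁻¹ * (π a₀)⁻¹ = (π a₀ * π x * (π a₀)⁻¹)⁻¹ := by group
      rw [e2, htba, inv_inv]
  have hcardA : Nat.card A ≤ 2 * Nat.card A₀ := by
    let f : A → A₀ × Bool := fun b =>
      if h : (b : G) ∈ A₀ then (⟨b, h⟩, false)
      else (⟨a₀ * b, (hcover b b.2).resolve_left h⟩, true)
    have hf : Function.Injective f := by
      intro b c hbc
      by_cases hb : (b : G) ∈ A₀ <;> by_cases hc : (c : G) ∈ A₀ <;> simp only [f, hb, hc, dif_pos, dif_neg,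
        not_false_eq_true, Prod.mk.injEq, Subtype.mk.injEq, Bool.false_eq_true, Bool.true_eq_false, and_false, and_true] at hbc
      · exact Subtype.ext hbc
      · exact Subtype.ext (mul_left_cancel hbc)
    have h1 := Nat.card_le_card_of_injective f hf
    rw [Nat.card_prod, Nat.card_eq_fintype_card (α := Bool), Fintype.card_bool, mul_comm] at h1
    exact h1
  -- `W`
  let W : Subgroup G := V ⊓ centralizer (A₀ : Set G)
  have hWmem : ∀ w, w ∈ W ↔ w ∈ V ∧ ∀ b ∈ A₀, b * w * b⁻¹ = w := by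
    intro w
    rw [mem_inf, mem_centralizer_iff]
    constructor
    · rintro ⟨h1, h2⟩
      refine ⟨h1, fun b hb => ?_⟩
      rw [h2 b hb]
      group
    · rintro ⟨h1, h2⟩
      refine ⟨h1, fun b hb => ?_⟩
      calc b * w = (b * w * b⁻¹) * b := by group
        _ = _ := by rw [h2 b hb]
  have hUW : A ⊓ V ≤ W := by
    intro u hu
    rw [hWmem]
    refine ⟨(mem_inf.1 hu).2, fun b hb => ?_⟩
    exact hAcs b (hA₀A hb) u hu
  have hWab : IsMulCommutative W := isMulComm_of_forall (fun a ha b hb => hVab a (mem_inf.1 ha).1 b (mem_inf.1 hb).1)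
  have hA₀ab : IsMulCommutative A₀ := isMulComm_of_forall (fun a ha b hb => hAab a (hA₀A ha) b (hA₀A hb))
  have hWC : W ≤ centralizer (A₀ : Set G) := inf_le_right
  have hsupab := isMulComm_sup hA₀ab hWab hWC
  have hcard1 := hA.2.2 _ (sup_le (hA₀A.trans hA.1) (inf_le_left.trans hVP)) hsupab
  have hcard2 := Cfsg.Agent.Lib.PQuad.card_sup_mul_inf_of_normalizes A₀ W
    (by
      intro b hb
      rw [mem_normalizer_iff]
      intro w
      constructor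
      · intro hw
        rw [((hWmem w).1 hw).2 b hb]
        exact hw
      · intro hw
        have h1 := ((hWmem _).1 hw).2 b hb
        have h2 : b * (b * w * b⁻¹) * b⁻¹ = b * w * b⁻¹ := h1
        have h3 : b * w * b⁻¹ = w := by
          have h4 : b⁻¹ * (b * (b * w * b⁻¹) * b⁻¹) * b = b⁻¹ * (b * w * b⁻¹) * b := by rw [h2]
          have e1 : b⁻¹ * (b * (b * w * b⁻¹) * b⁻¹) * b = b * w * b⁻¹ := by group
          have e2 : b⁻¹ * (b * w * b⁻¹) * b = w := by group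
          rw [e1, e2] at h4
          exact h4
        rw [← h3]
        exact hw)
  have hcard3 : Nat.card ↥(A₀ ⊓ W) ≤ Nat.card ↥(A ⊓ V) := by
    apply Subgroup.card_le_of_le
    intro z hz
    exact mem_inf.2 ⟨hA₀A (mem_inf.1 hz).1, (mem_inf.1 (mem_inf.1 hz).2).1⟩
  have hcardW : Nat.card W ≤ 2 * Nat.card ↥(A ⊓ V) := by
    have hpos : 0 < Nat.card A₀ := Nat.card_pos
    have h1 : Nat.card A₀ * Nat.card W ≤ Nat.card A₀ * (2 * Nat.card ↥(A ⊓ V)) := by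
      rw [← hcard2]
      calc Nat.card ↥(A₀ ⊔ W) * Nat.card ↥(A₀ ⊓ W) ≤ Nat.card A * Nat.card ↥(A ⊓ V) := Nat.mul_le_mul hcard1 hcard3
        _ ≤ (2 * Nat.card A₀) * Nat.card ↥(A ⊓ V) := Nat.mul_le_mul_right _ hcardA
        _ = _ := by ring
    exact Nat.le_of_mul_le_mul_left h1 hpos
  -- the element `x`
  have hb_x : ∀ b ∈ A₀, ∃ c ∈ C, b * x * b⁻¹ = x * c := by
    intro b hb
    have h1 := ((hA₀mem b).1 hb).2
    refine ⟨x⁻¹ * (b * x * b⁻¹), ?_, by group⟩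
    apply (hker _).1
    rw [map_mul, map_inv, map_mul, map_mul, map_inv, h1]
    group
  have hW_of : ∀ g : G, (∀ b ∈ A₀, ∃ c ∈ C, b * g * b⁻¹ = g * c) → ∀ w ∈ W, g * w * g⁻¹ ∈ W := by
    intro g hg w hw
    obtain ⟨hw1, hw2⟩ := (hWmem w).1 hw
    rw [hWmem]
    refine ⟨hVn.conj_mem w hw1 g, fun b hb => ?_⟩
    obtain ⟨c, hc, hgc⟩ := hg b hb
    have e : b * (g * w * g⁻¹) * b⁻¹ = (b * g * b⁻¹) * (b * w * b⁻¹) * (b * g * b⁻¹)⁻¹ := by group
    rw [e, hw2 b hb, hgc]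
    have e2 : g * c * w * (g * c)⁻¹ = g * (c * w * c⁻¹) * g⁻¹ := by group
    rw [e2, hcV c hc w hw1]
  have hxW : ∀ w ∈ W, x * w * x⁻¹ ∈ W := hW_of x hb_x
  have hxW' : ∀ w ∈ W, x⁻¹ * w * x ∈ W := by
    intro w hw
    have h1 := hW_of x⁻¹ (by
      intro b hb
      obtain ⟨c, hc, hgc⟩ := hb_x b hb
      refine ⟨x * c⁻¹ * x⁻¹, hCn.conj_mem _ (inv_mem hc) x, ?_⟩
      have e : b * x⁻¹ * b⁻¹ = (b * x * b⁻¹)⁻¹ := by group
      rw [e, hgc]
      group) w hw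
    rwa [inv_inv] at h1
  have hax : ∀ w ∈ W, (a₀ * x * a₀⁻¹) * w * (a₀ * x * a₀⁻¹)⁻¹ = x⁻¹ * w * x := by
    intro w hw
    have h1 : x * (a₀ * x * a₀⁻¹) ∈ C := by
      apply (hker _).1
      rw [map_mul, map_mul, map_mul, map_inv, htba]
      group
    have e : (a₀ * x * a₀⁻¹) * w * (a₀ * x * a₀⁻¹)⁻¹ =
        x⁻¹ * ((x * (a₀ * x * a₀⁻¹)) * w * (x * (a₀ * x * a₀⁻¹))⁻¹) * x := by group
    rw [e, hcV _ h1 w (mem_inf.1 hw).1]
  have hxm' : ∀ w ∈ W, x ^ m * w * (x ^ m)⁻¹ = w := fun w hw => hcV _ hxm w (mem_inf.1 hw).1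
  -- `x` does not centralize `W`
  have hne : ∃ w ∈ W, x * w * x⁻¹ ≠ w := by
    by_contra hall
    push Not at hall
    let Y₁ : Subgroup G :=
      { carrier := {z | ∃ v ∈ V, z = x * v * x⁻¹ * v⁻¹}
        one_mem' := ⟨1, one_mem _, by simp⟩
        mul_mem' := by
          rintro _ _ ⟨v, hv, rfl⟩ ⟨v', hv', rfl⟩
          refine ⟨v * v', mul_mem hv hv', ?_⟩
          have h1 : v⁻¹ * (x * v' * x⁻¹) = (x * v' * x⁻¹) * v⁻¹ := hVab _ (inv_mem hv) _ (hVn.conj_mem v' hv' x)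
          have e3 : v⁻¹ * v'⁻¹ = v'⁻¹ * v⁻¹ := hVab _ (inv_mem hv) _ (inv_mem hv')
          calc x * v * x⁻¹ * v⁻¹ * (x * v' * x⁻¹ * v'⁻¹) = (x * v * x⁻¹) * (v⁻¹ * (x * v' * x⁻¹)) * v'⁻¹ := by group
            _ = (x * v * x⁻¹) * ((x * v' * x⁻¹) * v⁻¹) * v'⁻¹ := by rw [h1]
            _ = (x * v * x⁻¹) * (x * v' * x⁻¹) * (v⁻¹ * v'⁻¹) := by group
            _ = (x * v * x⁻¹) * (x * v' * x⁻¹) * (v'⁻¹ * v⁻¹) := by rw [e3]
            _ = x * (v * v') * x⁻¹ * (v * v')⁻¹ := by group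
        inv_mem' := by
          rintro _ ⟨v, hv, rfl⟩
          refine ⟨v⁻¹, inv_mem hv, ?_⟩
          have h1 := hVab _ (hVn.conj_mem v hv x) _ (inv_mem hv)
          have e1 : (x * v * x⁻¹ * v⁻¹)⁻¹ = v * (x * v⁻¹ * x⁻¹) := by group
          have e2 : x * v⁻¹ * x⁻¹ * v⁻¹⁻¹ = (x * v⁻¹ * x⁻¹) * v := by group
          rw [e1, e2]
          exact hVab _ hv _ (hVn.conj_mem _ (inv_mem hv) x) }
    have hY₁V : Y₁ ≤ V := by
      rintro _ ⟨v, hv, rfl⟩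
      exact mul_mem (hVn.conj_mem v hv x) (inv_mem hv)
    have hY₁ne : Y₁ ≠ ⊥ := by
      intro hbot
      apply hxC
      rw [hC, mem_centralizer_iff]
      intro v hv
      have h1 : x * v * x⁻¹ * v⁻¹ ∈ Y₁ := ⟨v, hv, rfl⟩
      rw [hbot, mem_bot] at h1
      have h2 : x * v * x⁻¹ = v := mul_inv_eq_one.1 h1
      calc v * x = (x * v * x⁻¹) * x := by rw [h2]
        _ = _ := by group
    -- the group generated
    let L : Subgroup G := P ⊓ normalizer (Y₁ : Set G)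
    have hA₀L : A₀ ≤ L := by
      intro b hb
      refine mem_inf.2 ⟨hA.1 (hA₀A hb), ?_⟩
      obtain ⟨c, hc, hgc⟩ := hb_x b hb
      refine Cfsg.Agent.Lib.PGlaub.mem_normalizer_of_conj_mem ?_
      rintro _ ⟨v, hv, rfl⟩
      refine ⟨b * v * b⁻¹, hVn.conj_mem v hv b, ?_⟩
      have hcv := hcV c hc _ (hVn.conj_mem v hv b)
      have e : b * (x * v * x⁻¹ * v⁻¹) * b⁻¹ =
          (b * x * b⁻¹) * (b * v * b⁻¹) * (b * x * b⁻¹)⁻¹ * (b * v * b⁻¹)⁻¹ := by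
        group
      rw [e, hgc]
      have e2 : x * c * (b * v * b⁻¹) * (x * c)⁻¹ = x * (c * (b * v * b⁻¹) * c⁻¹) * x⁻¹ := by group
      rw [e2, hcv]
    have hY₁L : Y₁ ≤ L := le_inf (hY₁V.trans hVP) le_normalizer
    haveI : Group.IsNilpotent ↥L := (hP.to_le inf_le_left).isNilpotent
    let Y₂ : Subgroup ↥L := Y₁.comap L.subtype
    haveI hY₂n : Y₂.Normal := by
      refine ⟨fun n hn g => ?_⟩
      exact (mem_normalizer_iff.1 (mem_inf.1 g.2).2 n).1 hn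
    have hY₂ne : Y₂ ≠ ⊥ := by
      intro hbot
      apply hY₁ne
      rw [eq_bot_iff]
      intro z hz
      have h1 : (⟨z, hY₁L hz⟩ : L) ∈ Y₂ := hz
      rw [hbot, mem_bot] at h1
      exact mem_bot.2 (congrArg Subtype.val h1)
    have hc := Cfsg.Agent.Lib.H1Frat.normal_inf_center_ne_bot Y₂ hY₂ne
    obtain ⟨y₁', hy₁1⟩ := Subgroup.ne_bot_iff_exists_ne_one.1 hc
    set y₁ : ↥L := (y₁' : ↥L) with hy₁def
    have hy₁Y : y₁ ∈ Y₂ := (mem_inf.1 y₁'.2).1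
    have hy₁Z : y₁ ∈ center ↥L := (mem_inf.1 y₁'.2).2
    have hy₁1' : ((y₁ : L) : G) ≠ 1 := fun h => hy₁1 (Subtype.ext (Subtype.ext h))
    have hy₁Y' : ((y₁ : L) : G) ∈ Y₁ := hy₁Y
    obtain ⟨v, hv, hvy⟩ : ((y₁ : L) : G) ∈ Y₁ := id hy₁Y'
    have hy₁W : ((y₁ : L) : G) ∈ W := by
      rw [hWmem]
      refine ⟨hY₁V hy₁Y', fun b hb => ?_⟩
      have h1 := (mem_center_iff.1 hy₁Z) ⟨b, hA₀L hb⟩
      have h2 : b * ((y₁ : L) : G) = ((y₁ : L) : G) * b := congrArg Subtype.val h1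
      rw [h2]
      group
    have hxy : x * ((y₁ : L) : G) * x⁻¹ = (y₁ : L) := hall _ hy₁W
    set z₁ : G := ((y₁ : L) : G) with hz₁
    have hpow : ∀ k : ℕ, x ^ k * v * (x ^ k)⁻¹ = z₁ ^ k * v := by
      intro k
      induction k with
      | zero => simp
      | succ k ih =>
        have e : x ^ (k + 1) * v * (x ^ (k + 1))⁻¹ = x * (x ^ k * v * (x ^ k)⁻¹) * x⁻¹ := by
          rw [pow_succ']
          group
        rw [e, ih]
        have e2 : x * (z₁ ^ k * v) * x⁻¹ = (x * z₁ * x⁻¹) ^ k * (x * v * x⁻¹) := by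
          rw [conj_pow]
          group
        rw [e2, hxy, pow_succ]
        have e3 : x * v * x⁻¹ = z₁ * v := by rw [hvy]; group
        rw [e3]
        group
    have hm1 : z₁ ^ m = 1 := by
      have h1 := hpow m
      rw [hcV _ hxm v hv] at h1
      exact mul_eq_right.1 h1.symm
    have hz2 : z₁ ^ 2 = 1 := by
      rw [pow_two]
      exact hV2 _ (hY₁V hy₁Y')
    have h3 := Nat.dvd_gcd (orderOf_dvd_of_pow_eq_one hm1) (orderOf_dvd_of_pow_eq_one hz2)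
    rw [hm] at h3
    exact hy₁1' (orderOf_eq_one_iff.1 (Nat.dvd_one.1 h3))
  -- `a₀` does not centralize `W`
  have hne2 : ∃ w₀ ∈ W, a₀ * w₀ * a₀⁻¹ ≠ w₀ := by
    by_contra hall
    push Not at hall
    obtain ⟨w, hw, hwne⟩ := hne
    apply hwne
    refine fix_of_odd_two x w m hm (hxm' w hw) ?_
    have h1 := hax w hw
    have h2 : a₀⁻¹ * w * a₀ = w := by
      have := hall w hw
      nth_rw 1 [← this]
      group
    have e : (a₀ * x * a₀⁻¹) * w * (a₀ * x * a₀⁻¹)⁻¹ = a₀ * (x * (a₀⁻¹ * w * a₀) * x⁻¹) * a₀⁻¹ := by group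
    rw [e, h2, hall _ (hxW w hw)] at h1
    have e2 : x ^ 2 * w * (x ^ 2)⁻¹ = x * (x * w * x⁻¹) * x⁻¹ := by rw [pow_two]; group
    rw [e2, h1]
    group
  obtain ⟨w₀, hw₀, hw₀a⟩ := hne2
  have hw₀V : w₀ ∈ V := (mem_inf.1 hw₀).1
  set u := a₀ * w₀ * a₀⁻¹ * w₀⁻¹ with hu
  have hu1 := hcomm a₀ ha₀ w₀ hw₀V
  have hw₀e : a₀ * w₀ * a₀⁻¹ = u * w₀ := by rw [hu]; group
  -- index two
  have hw₀U : w₀ ∉ A ⊓ V := fun h => hw₀a (hAcs a₀ ha₀ w₀ h)
  let U₁ : Subgroup ↥W := (A ⊓ V).comap W.subtype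
  have hU₁card : Nat.card U₁ = Nat.card ↥(A ⊓ V) := by
    have h1 : U₁.map W.subtype = A ⊓ V := by
      rw [Subgroup.map_comap_eq, range_subtype]
      exact inf_eq_right.2 hUW
    rw [← h1, Subgroup.card_map_of_injective W.subtype_injective]
  have hidx : U₁.index = 2 := by
    have h1 := Subgroup.card_mul_index U₁
    rw [hU₁card] at h1
    have h2 : Nat.card W = Nat.card ↥W := rfl
    have hpos : 0 < Nat.card ↥(A ⊓ V) := Nat.card_pos
    have h3 : U₁.index ≤ 2 := by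
      have : Nat.card ↥(A ⊓ V) * U₁.index ≤ Nat.card ↥(A ⊓ V) * 2 := by
        rw [h1]; rw [mul_comm _ 2]; exact hcardW
      exact Nat.le_of_mul_le_mul_left this hpos
    have h4 : U₁.index ≠ 1 := by
      intro h
      rw [Subgroup.index_eq_one] at h
      apply hw₀U
      have : (⟨w₀, hw₀⟩ : W) ∈ U₁ := by rw [h]; exact mem_top _
      exact this
    have h5 : U₁.index ≠ 0 := Subgroup.index_ne_zero_of_finite
    omega
  have hT1 : ∀ w ∈ W, a₀ * w * a₀⁻¹ = w ∨ a₀ * w * a₀⁻¹ = u * w := by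
    intro w hw
    by_cases hwU : w ∈ A ⊓ V
    · exact Or.inl (hAcs a₀ ha₀ w hwU)
    · right
      have h1 : (⟨w, hw⟩ * (⟨w₀, hw₀⟩ : W)⁻¹ : W) ∈ U₁ := by
        rw [Subgroup.mul_mem_iff_of_index_two hidx]
        constructor
        · intro h; exact absurd h hwU
        · intro h
          have h' : w₀⁻¹ ∈ A ⊓ V := h
          exact absurd (by simpa using inv_mem h') hw₀U
      have h2 : w * w₀⁻¹ ∈ A ⊓ V := h1
      have h3 := hAcs a₀ ha₀ _ h2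
      have e : a₀ * w * a₀⁻¹ = (a₀ * (w * w₀⁻¹) * a₀⁻¹) * (a₀ * w₀ * a₀⁻¹) := by group
      rw [e, h3, hw₀e]
      have h4 : w * w₀⁻¹ * (u * w₀) = u * (w * w₀⁻¹) * w₀ := by
        have := hVab _ (mem_inf.1 h2).2 _ (mem_inf.1 hu1).2
        rw [← mul_assoc, this]
      rw [h4]
      group
  have hinv : ∀ w ∈ W, a₀⁻¹ * w * a₀ = a₀ * w * a₀⁻¹ := by
    intro w hw
    have h1 := hcV _ (hsq a₀ ha₀) (a₀⁻¹ * w * a₀) (by
      have := hVn.conj_mem w (mem_inf.1 hw).1 a₀⁻¹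
      simpa using this)
    rw [← h1]
    group
  exact plane_core W (fun v hv w hw => hVab v (mem_inf.1 hv).1 w (mem_inf.1 hw).1) a₀ x u (hUW hu1)
    (by
      intro h
      apply hw₀a
      rw [hw₀e, h, one_mul])
    (hV2 u (mem_inf.1 hu1).2) (hAcs a₀ ha₀ u hu1) hT1 hinv hxW hxW' hax m hm hxm' hne

end Cfsg.Agent.Lib.LOff
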