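import Mathlib
import Cfsg.Agent.Lib.LOff3
import Cfsg.Agent.Lib.PJ4
import Cfsg.Agent.Lib.H9Two
import Cfsg.Agent.Lib.H1Fit
import Cfsg.Agent.Lib.H9Bender
import Cfsg.Agent.Lib.PNilp
import Cfsg.Agent.Lib.H1Cop2
import Cfsg.Agent.Lib.FusSubModel

/-! Solvable groups without `S₄` sections and with Sylow `2`-subgroups of class at most two: eigen-elements. -/

set_option autoImplicit false
set_option linter.unusedSectionVars false
set_option linter.unusedVariables false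
set_option linter.style.haveILetI false

namespace Cfsg.Agent.Lib.H9SF

open Subgroup Cfsg Cfsg.Agent.Lib.PZJ Cfsg.Agent.Lib.LOff
open scoped commutatorElement

universe u

/-- A `2`-group of conjugations fixing a coset of an odd normal subgroup fixes a point of it. -/
theorem exists_fixed_in_coset {Γ : Type*} [Group Γ] [Finite Γ] (Z : Subgroup Γ) [hZ : Z.Normal]
    (hZodd : Odd (Nat.card Z)) (B : Subgroup Γ) (hB : IsPGroup 2 B) (t : Γ)
    (ht : ∀ b ∈ B, t⁻¹ * (b * t * b⁻¹) ∈ Z) :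
    ∃ z ∈ Z, ∀ b ∈ B, b * (t * z) * b⁻¹ = t * z := by
  classical
  haveI : Fact (Nat.Prime 2) := ⟨Nat.prime_two⟩
  let X := {y : Γ // t⁻¹ * y ∈ Z}
  have hmem : ∀ (b : B) (y : X), t⁻¹ * ((b : Γ) * y.1 * (b : Γ)⁻¹) ∈ Z := by
    intro b y
    have h1 := ht b b.2
    have h2 := hZ.conj_mem _ y.2 (b : Γ)
    have e : t⁻¹ * ((b : Γ) * y.1 * (b : Γ)⁻¹) = (t⁻¹ * ((b : Γ) * t * (b : Γ)⁻¹)) * ((b : Γ) * (t⁻¹ * y.1) * (b : Γ)⁻¹) := by group
    rw [e]
    exact mul_mem h1 h2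
  letI : MulAction B X :=
    { smul := fun b y => ⟨(b : Γ) * y.1 * (b : Γ)⁻¹, hmem b y⟩
      one_smul := fun y => Subtype.ext (by
        change ((1 : B) : Γ) * y.1 * ((1 : B) : Γ)⁻¹ = y.1
        simp)
      mul_smul := fun b c y => Subtype.ext (by
        change ((b * c : B) : Γ) * y.1 * ((b * c : B) : Γ)⁻¹ = (b : Γ) * ((c : Γ) * y.1 * (c : Γ)⁻¹) * (b : Γ)⁻¹
        simp only [Subgroup.coe_mul]
        group) }
  have hsmul : ∀ (b : B) (y : X), ((b • y : X) : Γ) = (b : Γ) * y.1 * (b : Γ)⁻¹ := fun _ _ => rfl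
  let e : X ≃ Z :=
    { toFun := fun y => ⟨t⁻¹ * y.1, y.2⟩
      invFun := fun z => ⟨t * z, by simp⟩
      left_inv := fun y => Subtype.ext (by simp)
      right_inv := fun z => Subtype.ext (by simp) }
  have hcard : Nat.card X = Nat.card Z := Nat.card_congr e
  haveI : Finite X := Finite.of_equiv Z e.symm
  have hmod := hB.card_modEq_card_fixedPoints X
  rw [hcard] at hmod
  have hne : Nat.card (MulAction.fixedPoints B X) ≠ 0 := by
    intro h0
    rw [h0] at hmod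
    have h1 : 2 ∣ Nat.card Z := (Nat.modEq_zero_iff_dvd).1 hmod
    exact (Nat.not_even_iff_odd.2 hZodd) (even_iff_two_dvd.2 h1)
  haveI : Finite (MulAction.fixedPoints B X) := inferInstance
  obtain ⟨⟨y, hy⟩⟩ : Nonempty (MulAction.fixedPoints B X) := by
    by_contra hemp
    rw [not_nonempty_iff] at hemp
    exact hne (Nat.card_of_isEmpty)
  refine ⟨t⁻¹ * y.1, y.2, fun b hb => ?_⟩
  have h1 : (⟨b, hb⟩ : B) • y = y := hy ⟨b, hb⟩
  have h2 := congrArg Subtype.val h1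
  rw [hsmul] at h2
  have e3 : t * (t⁻¹ * y.1) = y.1 := by group
  rw [e3]
  exact h2

/-- The eigen-element in a normal `r`-subgroup, `r` odd. -/
theorem exists_eigen {r : ℕ} [hr : Fact r.Prime] (hr2 : r ≠ 2) :
    ∀ (n : ℕ) (Γ : Type u) [Group Γ] [Finite Γ] (R Ab : Subgroup Γ) [hRn : R.Normal] (hR : IsPGroup r R),
      Nat.card R = n →
      (∀ a ∈ Ab, ∀ b ∈ Ab, a * b = b * a) → (∀ a ∈ Ab, a * a = 1) →
      ∀ (a₀ y : Γ), a₀ ∈ Ab → y ∈ R → a₀ * y * a₀⁻¹ ≠ y →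
      ∃ t ∈ R, t ≠ 1 ∧ a₀ * t * a₀⁻¹ = t⁻¹ ∧ ∀ b ∈ Ab, b * t * b⁻¹ = t ∨ b * t * b⁻¹ = t⁻¹ := by
  intro n
  induction n using Nat.strong_induction_on with
  | _ n ih =>
  intro Γ _ _ R Ab hRn hR hcard hAab hA2 a₀ y ha₀ hy hne
  classical
  have hrodd : Odd r := hr.out.odd_of_ne_two hr2
  have hoddel : ∀ g ∈ R, g * g = 1 → g = 1 := by
    intro g hg h2
    obtain ⟨k, hk⟩ := (IsPGroup.iff_orderOf.1 hR) ⟨g, hg⟩
    rw [Subgroup.orderOf_mk] at hk
    have h3 : orderOf g ∣ 2 := orderOf_dvd_of_pow_eq_one (by rw [pow_two]; exact h2)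
    have h4 : Odd (orderOf g) := by rw [hk]; exact hrodd.pow
    have h5 : orderOf g = 1 := by
      rcases (Nat.dvd_prime Nat.prime_two).1 h3 with h | h
      · exact h
      · rw [h] at h4; exact absurd h4 (by decide)
    exact orderOf_eq_one_iff.1 h5
  set Z : Subgroup Γ := R ⊓ centralizer (R : Set Γ) with hZdef
  haveI hCn : (centralizer (R : Set Γ)).Normal := Subgroup.normal_centralizer
  haveI hZn : Z.Normal := Subgroup.normal_inf_normal _ _
  have hinvA : ∀ b ∈ Ab, b⁻¹ = b := fun b hb => inv_eq_of_mul_eq_one_left (hA2 b hb)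
  by_cases hZ : ∃ z ∈ Z, a₀ * z * a₀⁻¹ ≠ z
  · obtain ⟨z, hz, hzne⟩ := hZ
    obtain ⟨t, ht, h1, h2, h3⟩ := exists_char_elt Z Ab
      (by
        intro x hx w hw
        exact ((mem_centralizer_iff.1 (mem_inf.1 hw).2) x (mem_inf.1 hx).1))
      hAab hA2 (fun a _ x hx => hZn.conj_mem x hx a) a₀ z ha₀ hz hzne
    exact ⟨t, (mem_inf.1 ht).1, h1, h2, h3⟩
  · push Not at hZ
    let π : Γ →* Γ ⧸ Z := QuotientGroup.mk' Z
    have hker : ∀ g : Γ, π g = 1 ↔ g ∈ Z := fun g => by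
      change ((g : Γ ⧸ Z)) = 1 ↔ _
      exact QuotientGroup.eq_one_iff g
    have hsurj : Function.Surjective π := QuotientGroup.mk'_surjective Z
    haveI hRn' : (R.map π).Normal := hRn.map π hsurj
    have hR' : IsPGroup r (R.map π) := hR.map π
    have hAab' : ∀ a ∈ Ab.map π, ∀ b ∈ Ab.map π, a * b = b * a := by
      rintro _ ⟨a, ha, rfl⟩ _ ⟨b, hb, rfl⟩
      rw [← map_mul, ← map_mul, hAab a ha b hb]
    have hA2' : ∀ a ∈ Ab.map π, a * a = 1 := by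
      rintro _ ⟨a, ha, rfl⟩
      rw [← map_mul, hA2 a ha, map_one]
    have hne' : π a₀ * π y * (π a₀)⁻¹ ≠ π y := by
      intro h
      apply hne
      have hz : y⁻¹ * (a₀ * y * a₀⁻¹) ∈ Z := by
        apply (hker _).1
        rw [map_mul, map_inv, map_mul, map_mul, map_inv, h]
        group
      set z := y⁻¹ * (a₀ * y * a₀⁻¹) with hzdef
      have h1 : a₀ * y * a₀⁻¹ = y * z := by rw [hzdef]; group
      have h2 : a₀ * (y * z) * a₀⁻¹ = y := by
        rw [← h1]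
        have e : a₀ * (a₀ * y * a₀⁻¹) * a₀⁻¹ = (a₀ * a₀) * y * (a₀ * a₀)⁻¹ := by group
        rw [e, hA2 a₀ ha₀]
        group
      have e : a₀ * (y * z) * a₀⁻¹ = (a₀ * y * a₀⁻¹) * (a₀ * z * a₀⁻¹) := by group
      rw [e, h1, hZ z hz] at h2
      have h3 : z * z = 1 := by
        have : y * (z * z) = y * 1 := by rw [mul_one, ← mul_assoc]; exact h2
        exact mul_left_cancel this
      have h4 := hoddel z (mem_inf.1 hz).1 h3
      rw [h1, h4, mul_one]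
    -- `Z ≠ ⊥`
    have hlt : Nat.card (R.map π) < n := by
      rw [← hcard]
      haveI hRnt : Nontrivial R := by
        refine ⟨⟨y, hy⟩, 1, fun h => hne ?_⟩
        have : y = 1 := congrArg Subtype.val h
        rw [this]; simp
      haveI := hR.center_nontrivial
      obtain ⟨c, hc⟩ := exists_ne (1 : Subgroup.center R)
      have hc1 : ((c : R) : Γ) ≠ 1 := fun h => hc (Subtype.ext (Subtype.ext h))
      have hcZ : ((c : R) : Γ) ∈ Z := by
        refine mem_inf.2 ⟨(c : R).2, ?_⟩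
        rw [mem_centralizer_iff]
        intro w hw
        have := (Subgroup.mem_center_iff.1 c.2) ⟨w, hw⟩
        exact congrArg Subtype.val this
      let f : R → R.map π := fun w => ⟨π w, (w : Γ), w.2, rfl⟩
      have hf : Function.Surjective f := by
        rintro ⟨_, w, hw, rfl⟩
        exact ⟨⟨w, hw⟩, rfl⟩
      have hfn : ¬ Function.Injective f := by
        intro hi
        have h1 : f (c : R) = f 1 := Subtype.ext (by
          change π ((c : R) : Γ) = π ((1 : R) : Γ)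
          rw [(hker _).2 hcZ]
          simp)
        have h2 := hi h1
        exact hc1 (congrArg Subtype.val h2)
      haveI := Fintype.ofFinite R
      haveI := Fintype.ofFinite (R.map π)
      rw [Nat.card_eq_fintype_card, Nat.card_eq_fintype_card]
      exact Fintype.card_lt_of_surjective_not_injective f hf hfn
    obtain ⟨t', ht'R, ht'1, ht'a, ht'b⟩ := ih _ hlt (Γ ⧸ Z) (R.map π) (Ab.map π) hR' rfl hAab' hA2' (π a₀) (π y)
      ⟨a₀, ha₀, rfl⟩ ⟨y, hy, rfl⟩ hne'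
    obtain ⟨t₁, ht₁R, rfl⟩ := ht'R
    -- the fixer
    let B : Subgroup Γ := Ab ⊓ (centralizer ({π t₁} : Set (Γ ⧸ Z))).comap π
    have hBmem : ∀ b, b ∈ B ↔ b ∈ Ab ∧ π b * π t₁ * (π b)⁻¹ = π t₁ := by
      intro b
      rw [mem_inf, mem_comap, mem_centralizer_iff]
      constructor
      · rintro ⟨h1, h2⟩
        refine ⟨h1, ?_⟩
        rw [← h2 (π t₁) rfl]
        group
      · rintro ⟨h1, h2⟩
        refine ⟨h1, ?_⟩
        intro z hz
        have hz' : z = π t₁ := hz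
        rw [hz']
        calc π t₁ * π b = (π b * π t₁ * (π b)⁻¹) * π b := by rw [h2]
          _ = _ := by group
    have hBp : IsPGroup 2 B := by
      intro b
      refine ⟨1, Subtype.ext ?_⟩
      have h := hA2 b ((hBmem b).1 b.2).1
      change ((b ^ 2 ^ 1 : B) : Γ) = 1
      rw [pow_one, pow_two, Subgroup.coe_mul]
      exact h
    have hZodd : Odd (Nat.card Z) := by
      obtain ⟨k, hk⟩ := IsPGroup.iff_card.1 (hR.to_le (inf_le_left : Z ≤ R))
      rw [hk]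
      exact hrodd.pow
    obtain ⟨z, hzZ, hfix⟩ := exists_fixed_in_coset Z hZodd B hBp t₁ (by
      intro b hb
      apply (hker _).1
      rw [map_mul, map_inv, map_mul, map_mul, map_inv, ((hBmem b).1 hb).2]
      group)
    obtain ⟨y₀, hy₀⟩ : ∃ y₀, y₀ = t₁ * z := ⟨_, rfl⟩
    rw [← hy₀] at hfix
    have hy₀R : y₀ ∈ R := by rw [hy₀]; exact mul_mem ht₁R (mem_inf.1 hzZ).1
    have hπy₀ : π y₀ = π t₁ := by rw [hy₀, map_mul, (hker z).2 hzZ, mul_one]
    obtain ⟨w, hw⟩ : ∃ w, w = y₀⁻¹ * (a₀ * y₀ * a₀⁻¹) := ⟨_, rfl⟩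
    have hwR : w ∈ R := by rw [hw]; exact mul_mem (inv_mem hy₀R) (hRn.conj_mem _ hy₀R a₀)
    have hwa : a₀ * w * a₀⁻¹ = w⁻¹ := by
      have e : a₀ * w * a₀⁻¹ = (a₀ * y₀ * a₀⁻¹)⁻¹ * ((a₀ * a₀) * y₀ * (a₀ * a₀)⁻¹) := by rw [hw]; group
      rw [e, hA2 a₀ ha₀, hw]
      group
    have hπw : π w = (π t₁)⁻¹ * (π t₁)⁻¹ := by
      rw [hw, map_mul, map_inv, map_mul, map_mul, map_inv, hπy₀, ht'a]
    have hw1 : w ≠ 1 := by
      intro h
      rw [h, map_one] at hπw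
      apply ht'1
      have h2 : π t₁ * π t₁ = 1 := by
        have := congrArg (fun u => (u * π t₁ * π t₁)) hπw
        simp only [one_mul] at this
        rw [this]
        group
      -- odd order in the quotient
      let u : ↥(R.map π) := ⟨π t₁, t₁, ht₁R, rfl⟩
      obtain ⟨k, hk0⟩ := (IsPGroup.iff_orderOf.1 hR') u
      have hk : orderOf (π t₁) = r ^ k := by rw [← hk0, ← Subgroup.orderOf_coe]
      have h3 : orderOf (π t₁) ∣ 2 := orderOf_dvd_of_pow_eq_one (by rw [pow_two]; exact h2)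
      have h4 : Odd (orderOf (π t₁)) := by rw [hk]; exact hrodd.pow
      have h5 : orderOf (π t₁) = 1 := by
        rcases (Nat.dvd_prime Nat.prime_two).1 h3 with h | h
        · exact h
        · rw [h] at h4; exact absurd h4 (by decide)
      exact orderOf_eq_one_iff.1 h5
    have hwB : ∀ b ∈ B, b * w * b⁻¹ = w := by
      intro b hb
      have hbA := ((hBmem b).1 hb).1
      have h1 := hfix b hb
      have e : b * w * b⁻¹ = (b * y₀ * b⁻¹)⁻¹ * ((b * a₀) * y₀ * (b * a₀)⁻¹) := by rw [hw]; group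
      rw [e, h1, hAab b hbA a₀ ha₀]
      have e2 : (a₀ * b) * y₀ * (a₀ * b)⁻¹ = a₀ * (b * y₀ * b⁻¹) * a₀⁻¹ := by group
      rw [e2, h1]
      exact hw.symm
    refine ⟨w, hwR, hw1, hwa, fun b hb => ?_⟩
    rcases ht'b (π b) ⟨b, hb, rfl⟩ with h | h
    · exact Or.inl (hwB b ((hBmem b).2 ⟨hb, h⟩))
    · right
      have h1 : a₀ * b ∈ B := by
        refine (hBmem _).2 ⟨mul_mem ha₀ hb, ?_⟩
        rw [map_mul]
        have e : π a₀ * π b * π t₁ * (π a₀ * π b)⁻¹ = π a₀ * (π b * π t₁ * (π b)⁻¹) * (π a₀)⁻¹ := by group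
        rw [e, h]
        have e2 : π a₀ * (π t₁)⁻¹ * (π a₀)⁻¹ = (π a₀ * π t₁ * (π a₀)⁻¹)⁻¹ := by group
        rw [e2, ht'a, inv_inv]
      have h2 := hwB _ h1
      have e : b * w * b⁻¹ = a₀ * ((a₀ * b) * w * (a₀ * b)⁻¹) * a₀⁻¹ := by
        have : (a₀ * a₀) = 1 := hA2 a₀ ha₀
        calc b * w * b⁻¹ = (a₀ * a₀) * b * w * b⁻¹ * (a₀ * a₀)⁻¹ := by rw [this]; group
          _ = _ := by group
      rw [e, h2, hwa]

variable {G : Type u} [Group G] [Finite G]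

/-- The offender lemma with an eigen-element given. -/
theorem eigen_offender (P : Subgroup G) (hP : IsPGroup 2 P) (V : Subgroup G) [hVn : V.Normal]
    (hVab : ∀ v ∈ V, ∀ w ∈ V, v * w = w * v) (hV2 : ∀ v ∈ V, v * v = 1) (hVP : V ≤ P)
    (A : Subgroup G) (hAP : A ≤ P) (hAab : ∀ a ∈ A, ∀ b ∈ A, a * b = b * a) (hA2 : ∀ a ∈ A, a * a = 1)
    (hmax : ∀ X : Subgroup G, X ≤ P → IsElementaryAbelian 2 X → Nat.card X ≤ Nat.card A)
    (hAV : V ≤ normalizer (A : Set G)) (a₀ x : G) (ha₀ : a₀ ∈ A)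
    (π : G →* G ⧸ centralizer (V : Set G)) (hπ : π = QuotientGroup.mk' (centralizer (V : Set G)))
    (hxC : x ∉ centralizer (V : Set G)) (m : ℕ) (hm : Nat.Coprime m 2) (hxm : x ^ m ∈ centralizer (V : Set G))
    (htba : π a₀ * π x * (π a₀)⁻¹ = (π x)⁻¹)
    (htbb : ∀ b ∈ A, π b * π x * (π b)⁻¹ = π x ∨ π b * π x * (π b)⁻¹ = (π x)⁻¹) :
    Cfsg.Involves (Equiv.Perm (Fin 4)) G := by
  classical
  set C : Subgroup G := centralizer (V : Set G) with hC
  haveI hCn : C.Normal := Subgroup.normal_centralizer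
  have hcV : ∀ c ∈ C, ∀ v ∈ V, c * v * c⁻¹ = v := by
    intro c hc v hv
    have := (mem_centralizer_iff.1 hc) v hv
    rw [← this]
    group
  have hcomm : ∀ a ∈ A, ∀ v ∈ V, a * v * a⁻¹ * v⁻¹ ∈ A ⊓ V := by
    intro a ha v hv
    refine mem_inf.2 ⟨?_, mul_mem (hVn.conj_mem v hv a) (inv_mem hv)⟩
    have e : a * v * a⁻¹ * v⁻¹ = a * (v * a⁻¹ * v⁻¹) := by group
    rw [e]
    exact mul_mem ha ((mem_normalizer_iff.1 (hAV hv) _).1 (inv_mem ha))
  have hAcs : ∀ a ∈ A, ∀ s ∈ A ⊓ V, a * s * a⁻¹ = s := by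
    intro a ha s hs
    rw [hAab a ha s (mem_inf.1 hs).1]
    group
  have hsq : ∀ a ∈ A, a * a ∈ C := by
    intro a ha
    rw [hA2 a ha]
    exact one_mem _
  have hker : ∀ z : G, π z = 1 ↔ z ∈ C := fun z => by
    rw [hπ, QuotientGroup.mk'_apply, QuotientGroup.eq_one_iff]
  have hodd : ∀ z : G, z ^ m ∈ C → z ^ 2 ∈ C → z ∈ C := by
    intro z h1 h2
    obtain ⟨k, hk⟩ : ∃ k, m = 2 * k + 1 := Nat.Coprime.odd_of_right hm
    have e : z = z ^ m * ((z ^ 2) ^ k)⁻¹ := by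
      rw [hk, pow_succ, pow_mul]
      group
    rw [e]
    exact mul_mem h1 (inv_mem (pow_mem h2 k))
  -- `A₀`
  let A₀ : Subgroup G := A ⊓ (centralizer ({π x} : Set (G ⧸ C))).comap π
  have hA₀mem : ∀ b, b ∈ A₀ ↔ b ∈ A ∧ π b * π x * (π b)⁻¹ = π x := by
    intro b
    rw [mem_inf, mem_comap, mem_centralizer_iff]
    constructor
    · rintro ⟨h1, h2⟩
      refine ⟨h1, ?_⟩
      rw [← h2 (π x) rfl]
      group
    · rintro ⟨h1, h2⟩
      refine ⟨h1, ?_⟩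
      intro z hz
      have hz' : z = π x := hz
      rw [hz']
      calc π x * π b = (π b * π x * (π b)⁻¹) * π b := by rw [h2]
        _ = _ := by group
  have hA₀A : A₀ ≤ A := inf_le_left
  have ha₀A₀ : a₀ ∉ A₀ := by
    intro h
    have h1 := ((hA₀mem a₀).1 h).2
    rw [htba] at h1
    apply hxC
    apply hodd x hxm
    apply (hker _).1
    rw [map_pow, pow_two]
    nth_rw 1 [← h1]
    group
  have hcover : ∀ b ∈ A, b ∈ A₀ ∨ a₀ * b ∈ A₀ := by
    intro b hb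
    rcases htbb b hb with h | h
    · exact Or.inl ((hA₀mem b).2 ⟨hb, h⟩)
    · refine Or.inr ((hA₀mem _).2 ⟨mul_mem ha₀ hb, ?_⟩)
      rw [map_mul]
      have e : π a₀ * π b * π x * (π a₀ * π b)⁻¹ = π a₀ * (π b * π x * (π b)⁻¹) * (π a₀)⁻¹ := by group
      rw [e, h]
      have e2 : π a₀ * (π x)⁻¹ * (π a₀)⁻¹ = (π a₀ * π x * (π a₀)⁻¹)⁻¹ := by group
      rw [e2, htba, inv_inv]
  have hcardA : Nat.card A ≤ 2 * Nat.card A₀ := by
    let f : A → A₀ × Bool := fun b =>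
      if h : (b : G) ∈ A₀ then (⟨b, h⟩, false)
      else (⟨a₀ * b, (hcover b b.2).resolve_left h⟩, true)
    have hf : Function.Injective f := by
      intro b c hbc
      by_cases hb : (b : G) ∈ A₀ <;> by_cases hc : (c : G) ∈ A₀ <;> simp only [f, hb, hc, dif_pos, dif_neg,
        not_false_eq_true, Prod.mk.injEq, Subtype.mk.injEq, Bool.false_eq_true, Bool.true_eq_false, and_false, and_true] at hbc
      · exact Subtype.ext hbc
      · exact Subtype.ext (mul_left_cancel hbc)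
    have h1 := Nat.card_le_card_of_injective f hf
    rw [Nat.card_prod, Nat.card_eq_fintype_card (α := Bool), Fintype.card_bool, mul_comm] at h1
    exact h1
  -- `W`
  let W : Subgroup G := V ⊓ centralizer (A₀ : Set G)
  have hWmem : ∀ w, w ∈ W ↔ w ∈ V ∧ ∀ b ∈ A₀, b * w * b⁻¹ = w := by
    intro w
    rw [mem_inf, mem_centralizer_iff]
    constructor
    · rintro ⟨h1, h2⟩
      refine ⟨h1, fun b hb => ?_⟩
      rw [h2 b hb]
      group
    · rintro ⟨h1, h2⟩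
      refine ⟨h1, fun b hb => ?_⟩
      calc b * w = (b * w * b⁻¹) * b := by group
        _ = _ := by rw [h2 b hb]
  have hUW : A ⊓ V ≤ W := by
    intro u hu
    rw [hWmem]
    refine ⟨(mem_inf.1 hu).2, fun b hb => ?_⟩
    exact hAcs b (hA₀A hb) u hu
  have hWab : IsMulCommutative W := isMulComm_of_forall (fun a ha b hb => hVab a (mem_inf.1 ha).1 b (mem_inf.1 hb).1)
  have hA₀ab : IsMulCommutative A₀ := isMulComm_of_forall (fun a ha b hb => hAab a (hA₀A ha) b (hA₀A hb))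
  have hWC : W ≤ centralizer (A₀ : Set G) := inf_le_right
  have hsupab := isMulComm_sup hA₀ab hWab hWC
  have hcard1 : Nat.card ↥(A₀ ⊔ W) ≤ Nat.card A := by
    refine hmax _ (sup_le (hA₀A.trans hAP) (inf_le_left.trans hVP)) ?_
    refine Cfsg.Agent.Lib.PQuad.isElementaryAbelian_sup ⟨hA₀ab, fun b hb => ?_⟩ ⟨hWab, fun w hw => ?_⟩ hWC
    · rw [pow_two]; exact hA2 b (hA₀A hb)
    · rw [pow_two]; exact hV2 w (mem_inf.1 hw).1
  have hcard2 := Cfsg.Agent.Lib.PQuad.card_sup_mul_inf_of_normalizes A₀ W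
    (by
      intro b hb
      rw [mem_normalizer_iff]
      intro w
      constructor
      · intro hw
        rw [((hWmem w).1 hw).2 b hb]
        exact hw
      · intro hw
        have h1 := ((hWmem _).1 hw).2 b hb
        have h2 : b * (b * w * b⁻¹) * b⁻¹ = b * w * b⁻¹ := h1
        have h3 : b * w * b⁻¹ = w := by
          have h4 : b⁻¹ * (b * (b * w * b⁻¹) * b⁻¹) * b = b⁻¹ * (b * w * b⁻¹) * b := by rw [h2]
          have e1 : b⁻¹ * (b * (b * w * b⁻¹) * b⁻¹) * b = b * w * b⁻¹ := by group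
          have e2 : b⁻¹ * (b * w * b⁻¹) * b = w := by group
          rw [e1, e2] at h4
          exact h4
        rw [← h3]
        exact hw)
  have hcard3 : Nat.card ↥(A₀ ⊓ W) ≤ Nat.card ↥(A ⊓ V) := by
    apply Subgroup.card_le_of_le
    intro z hz
    exact mem_inf.2 ⟨hA₀A (mem_inf.1 hz).1, (mem_inf.1 (mem_inf.1 hz).2).1⟩
  have hcardW : Nat.card W ≤ 2 * Nat.card ↥(A ⊓ V) := by
    have hpos : 0 < Nat.card A₀ := Nat.card_pos
    have h1 : Nat.card A₀ * Nat.card W ≤ Nat.card A₀ * (2 * Nat.card ↥(A ⊓ V)) := by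
      rw [← hcard2]
      calc Nat.card ↥(A₀ ⊔ W) * Nat.card ↥(A₀ ⊓ W) ≤ Nat.card A * Nat.card ↥(A ⊓ V) := Nat.mul_le_mul hcard1 hcard3
        _ ≤ (2 * Nat.card A₀) * Nat.card ↥(A ⊓ V) := Nat.mul_le_mul_right _ hcardA
        _ = _ := by ring
    exact Nat.le_of_mul_le_mul_left h1 hpos
  -- the element `x`
  have hb_x : ∀ b ∈ A₀, ∃ c ∈ C, b * x * b⁻¹ = x * c := by
    intro b hb
    have h1 := ((hA₀mem b).1 hb).2
    refine ⟨x⁻¹ * (b * x * b⁻¹), ?_, by group⟩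
    apply (hker _).1
    rw [map_mul, map_inv, map_mul, map_mul, map_inv, h1]
    group
  have hW_of : ∀ g : G, (∀ b ∈ A₀, ∃ c ∈ C, b * g * b⁻¹ = g * c) → ∀ w ∈ W, g * w * g⁻¹ ∈ W := by
    intro g hg w hw
    obtain ⟨hw1, hw2⟩ := (hWmem w).1 hw
    rw [hWmem]
    refine ⟨hVn.conj_mem w hw1 g, fun b hb => ?_⟩
    obtain ⟨c, hc, hgc⟩ := hg b hb
    have e : b * (g * w * g⁻¹) * b⁻¹ = (b * g * b⁻¹) * (b * w * b⁻¹) * (b * g * b⁻¹)⁻¹ := by group
    rw [e, hw2 b hb, hgc]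
    have e2 : g * c * w * (g * c)⁻¹ = g * (c * w * c⁻¹) * g⁻¹ := by group
    rw [e2, hcV c hc w hw1]
  have hxW : ∀ w ∈ W, x * w * x⁻¹ ∈ W := hW_of x hb_x
  have hxW' : ∀ w ∈ W, x⁻¹ * w * x ∈ W := by
    intro w hw
    have h1 := hW_of x⁻¹ (by
      intro b hb
      obtain ⟨c, hc, hgc⟩ := hb_x b hb
      refine ⟨x * c⁻¹ * x⁻¹, hCn.conj_mem _ (inv_mem hc) x, ?_⟩
      have e : b * x⁻¹ * b⁻¹ = (b * x * b⁻¹)⁻¹ := by group
      rw [e, hgc]
      group) w hw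
    rwa [inv_inv] at h1
  have hax : ∀ w ∈ W, (a₀ * x * a₀⁻¹) * w * (a₀ * x * a₀⁻¹)⁻¹ = x⁻¹ * w * x := by
    intro w hw
    have h1 : x * (a₀ * x * a₀⁻¹) ∈ C := by
      apply (hker _).1
      rw [map_mul, map_mul, map_mul, map_inv, htba]
      group
    have e : (a₀ * x * a₀⁻¹) * w * (a₀ * x * a₀⁻¹)⁻¹ =
        x⁻¹ * ((x * (a₀ * x * a₀⁻¹)) * w * (x * (a₀ * x * a₀⁻¹))⁻¹) * x := by group
    rw [e, hcV _ h1 w (mem_inf.1 hw).1]
  have hxm' : ∀ w ∈ W, x ^ m * w * (x ^ m)⁻¹ = w := fun w hw => hcV _ hxm w (mem_inf.1 hw).1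
  -- `x` does not centralize `W`
  have hne : ∃ w ∈ W, x * w * x⁻¹ ≠ w := by
    by_contra hall
    push Not at hall
    let Y₁ : Subgroup G :=
      { carrier := {z | ∃ v ∈ V, z = x * v * x⁻¹ * v⁻¹}
        one_mem' := ⟨1, one_mem _, by simp⟩
        mul_mem' := by
          rintro _ _ ⟨v, hv, rfl⟩ ⟨v', hv', rfl⟩
          refine ⟨v * v', mul_mem hv hv', ?_⟩
          have h1 : v⁻¹ * (x * v' * x⁻¹) = (x * v' * x⁻¹) * v⁻¹ := hVab _ (inv_mem hv) _ (hVn.conj_mem v' hv' x)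
          have e3 : v⁻¹ * v'⁻¹ = v'⁻¹ * v⁻¹ := hVab _ (inv_mem hv) _ (inv_mem hv')
          calc x * v * x⁻¹ * v⁻¹ * (x * v' * x⁻¹ * v'⁻¹) = (x * v * x⁻¹) * (v⁻¹ * (x * v' * x⁻¹)) * v'⁻¹ := by group
            _ = (x * v * x⁻¹) * ((x * v' * x⁻¹) * v⁻¹) * v'⁻¹ := by rw [h1]
            _ = (x * v * x⁻¹) * (x * v' * x⁻¹) * (v⁻¹ * v'⁻¹) := by group
            _ = (x * v * x⁻¹) * (x * v' * x⁻¹) * (v'⁻¹ * v⁻¹) := by rw [e3]
            _ = x * (v * v') * x⁻¹ * (v * v')⁻¹ := by group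
        inv_mem' := by
          rintro _ ⟨v, hv, rfl⟩
          refine ⟨v⁻¹, inv_mem hv, ?_⟩
          have h1 := hVab _ (hVn.conj_mem v hv x) _ (inv_mem hv)
          have e1 : (x * v * x⁻¹ * v⁻¹)⁻¹ = v * (x * v⁻¹ * x⁻¹) := by group
          have e2 : x * v⁻¹ * x⁻¹ * v⁻¹⁻¹ = (x * v⁻¹ * x⁻¹) * v := by group
          rw [e1, e2]
          exact hVab _ hv _ (hVn.conj_mem _ (inv_mem hv) x) }
    have hY₁V : Y₁ ≤ V := by
      rintro _ ⟨v, hv, rfl⟩
      exact mul_mem (hVn.conj_mem v hv x) (inv_mem hv)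
    have hY₁ne : Y₁ ≠ ⊥ := by
      intro hbot
      apply hxC
      rw [hC, mem_centralizer_iff]
      intro v hv
      have h1 : x * v * x⁻¹ * v⁻¹ ∈ Y₁ := ⟨v, hv, rfl⟩
      rw [hbot, mem_bot] at h1
      have h2 : x * v * x⁻¹ = v := mul_inv_eq_one.1 h1
      calc v * x = (x * v * x⁻¹) * x := by rw [h2]
        _ = _ := by group
    -- the group generated
    let L : Subgroup G := P ⊓ normalizer (Y₁ : Set G)
    have hA₀L : A₀ ≤ L := by
      intro b hb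
      refine mem_inf.2 ⟨hAP (hA₀A hb), ?_⟩
      obtain ⟨c, hc, hgc⟩ := hb_x b hb
      refine Cfsg.Agent.Lib.PGlaub.mem_normalizer_of_conj_mem ?_
      rintro _ ⟨v, hv, rfl⟩
      refine ⟨b * v * b⁻¹, hVn.conj_mem v hv b, ?_⟩
      have hcv := hcV c hc _ (hVn.conj_mem v hv b)
      have e : b * (x * v * x⁻¹ * v⁻¹) * b⁻¹ =
          (b * x * b⁻¹) * (b * v * b⁻¹) * (b * x * b⁻¹)⁻¹ * (b * v * b⁻¹)⁻¹ := by
        group
      rw [e, hgc]
      have e2 : x * c * (b * v * b⁻¹) * (x * c)⁻¹ = x * (c * (b * v * b⁻¹) * c⁻¹) * x⁻¹ := by group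
      rw [e2, hcv]
    have hY₁L : Y₁ ≤ L := le_inf (hY₁V.trans hVP) le_normalizer
    haveI : Group.IsNilpotent ↥L := (hP.to_le inf_le_left).isNilpotent
    let Y₂ : Subgroup ↥L := Y₁.comap L.subtype
    haveI hY₂n : Y₂.Normal := by
      refine ⟨fun n hn g => ?_⟩
      exact (mem_normalizer_iff.1 (mem_inf.1 g.2).2 n).1 hn
    have hY₂ne : Y₂ ≠ ⊥ := by
      intro hbot
      apply hY₁ne
      rw [eq_bot_iff]
      intro z hz
      have h1 : (⟨z, hY₁L hz⟩ : L) ∈ Y₂ := hz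
      rw [hbot, mem_bot] at h1
      exact mem_bot.2 (congrArg Subtype.val h1)
    have hc := Cfsg.Agent.Lib.H1Frat.normal_inf_center_ne_bot Y₂ hY₂ne
    obtain ⟨y₁', hy₁1⟩ := Subgroup.ne_bot_iff_exists_ne_one.1 hc
    set y₁ : ↥L := (y₁' : ↥L) with hy₁def
    have hy₁Y : y₁ ∈ Y₂ := (mem_inf.1 y₁'.2).1
    have hy₁Z : y₁ ∈ center ↥L := (mem_inf.1 y₁'.2).2
    have hy₁1' : ((y₁ : L) : G) ≠ 1 := fun h => hy₁1 (Subtype.ext (Subtype.ext h))
    have hy₁Y' : ((y₁ : L) : G) ∈ Y₁ := hy₁Y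
    obtain ⟨v, hv, hvy⟩ : ((y₁ : L) : G) ∈ Y₁ := id hy₁Y'
    have hy₁W : ((y₁ : L) : G) ∈ W := by
      rw [hWmem]
      refine ⟨hY₁V hy₁Y', fun b hb => ?_⟩
      have h1 := (mem_center_iff.1 hy₁Z) ⟨b, hA₀L hb⟩
      have h2 : b * ((y₁ : L) : G) = ((y₁ : L) : G) * b := congrArg Subtype.val h1
      rw [h2]
      group
    have hxy : x * ((y₁ : L) : G) * x⁻¹ = (y₁ : L) := hall _ hy₁W
    set z₁ : G := ((y₁ : L) : G) with hz₁
    have hpow : ∀ k : ℕ, x ^ k * v * (x ^ k)⁻¹ = z₁ ^ k * v := by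
      intro k
      induction k with
      | zero => simp
      | succ k ih =>
        have e : x ^ (k + 1) * v * (x ^ (k + 1))⁻¹ = x * (x ^ k * v * (x ^ k)⁻¹) * x⁻¹ := by
          rw [pow_succ']
          group
        rw [e, ih]
        have e2 : x * (z₁ ^ k * v) * x⁻¹ = (x * z₁ * x⁻¹) ^ k * (x * v * x⁻¹) := by
          rw [conj_pow]
          group
        rw [e2, hxy, pow_succ]
        have e3 : x * v * x⁻¹ = z₁ * v := by rw [hvy]; group
        rw [e3]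
        group
    have hm1 : z₁ ^ m = 1 := by
      have h1 := hpow m
      rw [hcV _ hxm v hv] at h1
      exact mul_eq_right.1 h1.symm
    have hz2 : z₁ ^ 2 = 1 := by
      rw [pow_two]
      exact hV2 _ (hY₁V hy₁Y')
    have h3 := Nat.dvd_gcd (orderOf_dvd_of_pow_eq_one hm1) (orderOf_dvd_of_pow_eq_one hz2)
    rw [hm] at h3
    exact hy₁1' (orderOf_eq_one_iff.1 (Nat.dvd_one.1 h3))
  -- `a₀` does not centralize `W`
  have hne2 : ∃ w₀ ∈ W, a₀ * w₀ * a₀⁻¹ ≠ w₀ := by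
    by_contra hall
    push Not at hall
    obtain ⟨w, hw, hwne⟩ := hne
    apply hwne
    refine fix_of_odd_two x w m hm (hxm' w hw) ?_
    have h1 := hax w hw
    have h2 : a₀⁻¹ * w * a₀ = w := by
      have := hall w hw
      nth_rw 1 [← this]
      group
    have e : (a₀ * x * a₀⁻¹) * w * (a₀ * x * a₀⁻¹)⁻¹ = a₀ * (x * (a₀⁻¹ * w * a₀) * x⁻¹) * a₀⁻¹ := by group
    rw [e, h2, hall _ (hxW w hw)] at h1
    have e2 : x ^ 2 * w * (x ^ 2)⁻¹ = x * (x * w * x⁻¹) * x⁻¹ := by rw [pow_two]; group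
    rw [e2, h1]
    group
  obtain ⟨w₀, hw₀, hw₀a⟩ := hne2
  have hw₀V : w₀ ∈ V := (mem_inf.1 hw₀).1
  set u := a₀ * w₀ * a₀⁻¹ * w₀⁻¹ with hu
  have hu1 := hcomm a₀ ha₀ w₀ hw₀V
  have hw₀e : a₀ * w₀ * a₀⁻¹ = u * w₀ := by rw [hu]; group
  -- index two
  have hw₀U : w₀ ∉ A ⊓ V := fun h => hw₀a (hAcs a₀ ha₀ w₀ h)
  let U₁ : Subgroup ↥W := (A ⊓ V).comap W.subtype
  have hU₁card : Nat.card U₁ = Nat.card ↥(A ⊓ V) := by
    have h1 : U₁.map W.subtype = A ⊓ V := by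
      rw [Subgroup.map_comap_eq, range_subtype]
      exact inf_eq_right.2 hUW
    rw [← h1, Subgroup.card_map_of_injective W.subtype_injective]
  have hidx : U₁.index = 2 := by
    have h1 := Subgroup.card_mul_index U₁
    rw [hU₁card] at h1
    have h2 : Nat.card W = Nat.card ↥W := rfl
    have hpos : 0 < Nat.card ↥(A ⊓ V) := Nat.card_pos
    have h3 : U₁.index ≤ 2 := by
      have : Nat.card ↥(A ⊓ V) * U₁.index ≤ Nat.card ↥(A ⊓ V) * 2 := by
        rw [h1]; rw [mul_comm _ 2]; exact hcardW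
      exact Nat.le_of_mul_le_mul_left this hpos
    have h4 : U₁.index ≠ 1 := by
      intro h
      rw [Subgroup.index_eq_one] at h
      apply hw₀U
      have : (⟨w₀, hw₀⟩ : W) ∈ U₁ := by rw [h]; exact mem_top _
      exact this
    have h5 : U₁.index ≠ 0 := Subgroup.index_ne_zero_of_finite
    omega
  have hT1 : ∀ w ∈ W, a₀ * w * a₀⁻¹ = w ∨ a₀ * w * a₀⁻¹ = u * w := by
    intro w hw
    by_cases hwU : w ∈ A ⊓ V
    · exact Or.inl (hAcs a₀ ha₀ w hwU)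
    · right
      have h1 : (⟨w, hw⟩ * (⟨w₀, hw₀⟩ : W)⁻¹ : W) ∈ U₁ := by
        rw [Subgroup.mul_mem_iff_of_index_two hidx]
        constructor
        · intro h; exact absurd h hwU
        · intro h
          have h' : w₀⁻¹ ∈ A ⊓ V := h
          exact absurd (by simpa using inv_mem h') hw₀U
      have h2 : w * w₀⁻¹ ∈ A ⊓ V := h1
      have h3 := hAcs a₀ ha₀ _ h2
      have e : a₀ * w * a₀⁻¹ = (a₀ * (w * w₀⁻¹) * a₀⁻¹) * (a₀ * w₀ * a₀⁻¹) := by group
      rw [e, h3, hw₀e]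
      have h4 : w * w₀⁻¹ * (u * w₀) = u * (w * w₀⁻¹) * w₀ := by
        have := hVab _ (mem_inf.1 h2).2 _ (mem_inf.1 hu1).2
        rw [← mul_assoc, this]
      rw [h4]
      group
  have hinv : ∀ w ∈ W, a₀⁻¹ * w * a₀ = a₀ * w * a₀⁻¹ := by
    intro w hw
    have h1 := hcV _ (hsq a₀ ha₀) (a₀⁻¹ * w * a₀) (by
      have := hVn.conj_mem w (mem_inf.1 hw).1 a₀⁻¹
      simpa using this)
    rw [← h1]
    group
  exact plane_core W (fun v hv w hw => hVab v (mem_inf.1 hv).1 w (mem_inf.1 hw).1) a₀ x u (hUW hu1)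
    (by
      intro h
      apply hw₀a
      rw [hw₀e, h, one_mul])
    (hV2 u (mem_inf.1 hu1).2) (hAcs a₀ ha₀ u hu1) hT1 hinv hxW hxW' hax m hm hxm' hne

end Cfsg.Agent.Lib.H9SF
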