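import Mathlib
import Cfsg.Agent.Lib.H9SF
import Cfsg.Agent.Lib.Comp2

/-! `G = N_G(J_e(S)) O_{2'}(G)` for solvable `S₄`-free groups with Sylow `2`-subgroups of class at most two. -/

set_option autoImplicit false
set_option linter.unusedSectionVars false
set_option linter.unusedVariables false
set_option linter.style.haveILetI false

namespace Cfsg.Agent.Lib.H9SF

open Subgroup Cfsg Cfsg.Agent.Lib.LOff
open scoped commutatorElement

universe u

/-- An element of odd order fixing the involutions of an abelian normalized `2`-group fixes the group. -/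
theorem fix_of_invol {G : Type*} [Group G] (Z : Subgroup G) (hZab : ∀ a ∈ Z, ∀ b ∈ Z, a * b = b * a)
    (y : G) (hy : ∀ z ∈ Z, y * z * y⁻¹ ∈ Z) (m : ℕ) (hm : m.Coprime 2) (hym : y ^ m = 1)
    (hfix : ∀ v ∈ Z, v * v = 1 → y * v * y⁻¹ = v) :
    ∀ (k : ℕ) (z : G), z ∈ Z → z ^ 2 ^ k = 1 → y * z * y⁻¹ = z := by
  intro k
  induction k with
  | zero =>
    intro z hz h
    have : z = 1 := by simpa using h
    rw [this]; group
  | succ k ih =>
    intro z hz h
    have h1 : y * (z * z) * y⁻¹ = z * z := by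
      apply ih (z * z) (mul_mem hz hz)
      rw [← pow_two, ← pow_mul, ← pow_succ']
      exact h
    set z' := y * z * y⁻¹ with hz'
    have hz'Z : z' ∈ Z := hy z hz
    have h2 : z' * z' = z * z := by
      rw [← h1, hz']; group
    set u := z⁻¹ * z' with hu
    have huZ : u ∈ Z := mul_mem (inv_mem hz) hz'Z
    have hu2 : u * u = 1 := by
      have e : u * u = z⁻¹ * (z' * z⁻¹) * z' := by rw [hu]; group
      rw [e, hZab z' hz'Z _ (inv_mem hz)]
      have e2 : z⁻¹ * (z⁻¹ * z') * z' = (z * z)⁻¹ * (z' * z') := by group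
      rw [e2, h2]
      group
    have h3 := hfix u huZ hu2
    have h4 : z' = z * u := by rw [hu]; group
    have h5 : y ^ 2 * z * (y ^ 2)⁻¹ = z := by
      have e : y ^ 2 * z * (y ^ 2)⁻¹ = y * z' * y⁻¹ := by rw [hz', pow_two]; group
      rw [e, h4]
      have e2 : y * (z * u) * y⁻¹ = (y * z * y⁻¹) * (y * u * y⁻¹) := by group
      rw [e2, h3, ← hz', h4, mul_assoc, hu2, mul_one]
    exact fix_of_odd_two y z m hm (by rw [hym]; group) h5

theorem main_aux : ∀ (n : ℕ) (G : Type u) [Group G] [Finite G] [Group.IsSolvable G],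
    ¬ Cfsg.Involves (Equiv.Perm (Fin 4)) G → ∀ S : Sylow 2 G,
    (∀ x ∈ (S : Subgroup G), ∀ y ∈ (S : Subgroup G), ∀ z ∈ (S : Subgroup G), ⁅⁅x, y⁆, z⁆ = 1) →
    Nat.card G = n →
    normalizer ((thompsonSubgroupOf 2 (S : Subgroup G) : Subgroup G) : Set G) ⊔ pPrimeCore 2 G = ⊤ := by
  intro n
  induction n using Nat.strong_induction_on with
  | _ n ih =>
  intro G _ _ _ hS4 S hcl hcard
  classical
  haveI : Fact (Nat.Prime 2) := ⟨Nat.prime_two⟩
  by_cases hO : pPrimeCore 2 G = ⊥
  swap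
  · set O := pPrimeCore 2 G with hOdef
    haveI hOn : O.Normal := Cfsg.Agent.Lib.H1Core.pPrimeCore_normal 2 G
    have hcop : (Nat.card O).Coprime 2 := Cfsg.Agent.Lib.H1Core.pPrimeCore_coprime 2
    let π : G →* G ⧸ O := QuotientGroup.mk' O
    have hsurj : Function.Surjective π := QuotientGroup.mk'_surjective O
    have hinj : ∀ x ∈ (S : Subgroup G), π x = 1 → x = 1 := by
      intro x hx h
      exact Cfsg.Agent.Lib.PJ.eq_one_of_mem_pPrimeCore S.2 hx ((QuotientGroup.eq_one_iff x).1 h)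
    have hcoe : ((Sylow.mapSurjective hsurj S : Sylow 2 (G ⧸ O)) : Subgroup (G ⧸ O)) = (S : Subgroup G).map π := rfl
    have hlt : Nat.card (G ⧸ O) < n := by
      rw [← hcard]
      have h1 := Subgroup.card_eq_card_quotient_mul_card_subgroup O
      have hne : 1 < Nat.card O := by
        have hpos : 0 < Nat.card O := Nat.card_pos
        have : Nat.card O ≠ 1 := by
          intro h
          exact hO ((Subgroup.card_eq_one).1 h)
        omega
      have hpos : 0 < Nat.card (G ⧸ O) := Nat.card_pos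
      rw [h1]
      nlinarith
    have hS4' : ¬ Cfsg.Involves (Equiv.Perm (Fin 4)) (G ⧸ O) := fun h =>
      hS4 (Cfsg.Agent.Lib.FusSubModel.involves_of_surjective π hsurj h)
    have hcl' : ∀ x ∈ ((Sylow.mapSurjective hsurj S : Sylow 2 (G ⧸ O)) : Subgroup (G ⧸ O)),
        ∀ y ∈ ((Sylow.mapSurjective hsurj S : Sylow 2 (G ⧸ O)) : Subgroup (G ⧸ O)),
        ∀ z ∈ ((Sylow.mapSurjective hsurj S : Sylow 2 (G ⧸ O)) : Subgroup (G ⧸ O)), ⁅⁅x, y⁆, z⁆ = 1 := by
      rw [hcoe]
      rintro _ ⟨x, hx, rfl⟩ _ ⟨y, hy, rfl⟩ _ ⟨z, hz, rfl⟩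
      rw [← map_commutatorElement, ← map_commutatorElement, hcl x hx y hy z hz, map_one]
    have h := ih _ hlt (G ⧸ O) hS4' (Sylow.mapSurjective hsurj S) hcl' rfl
    rw [Cfsg.Agent.Lib.PJ.pPrimeCore_quot, sup_bot_eq, hcoe, Cfsg.Agent.Lib.PJ.thompsonOf_map π (S : Subgroup G) hinj 2] at h
    have hJp : IsPGroup 2 (thompsonSubgroupOf 2 (S : Subgroup G)) := S.2.to_le (Cfsg.Agent.Lib.PJ.thompsonOf_le 2 _)
    rw [eq_top_iff]
    intro g _
    obtain ⟨o, ho, m, hm, rfl⟩ := Cfsg.Agent.Lib.PJ.exists_mul_normalizer O hcop (thompsonSubgroupOf 2 (S : Subgroup G)) hJp g (by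
      intro j hj
      have hn : π g ∈ normalizer (((thompsonSubgroupOf 2 (S : Subgroup G)).map π : Subgroup (G ⧸ O)) : Set (G ⧸ O)) := by
        rw [h]; exact mem_top _
      have h1 : π g * π j * (π g)⁻¹ ∈ (thompsonSubgroupOf 2 (S : Subgroup G)).map π :=
        (mem_normalizer_iff.1 hn (π j)).1 ⟨j, hj, rfl⟩
      obtain ⟨j', hj', he'⟩ := h1
      have h2 : j'⁻¹ * (g * j * g⁻¹) ∈ O := by
        apply (QuotientGroup.eq_one_iff _).1
        change π (j'⁻¹ * (g * j * g⁻¹)) = 1
        have e : π (g * j * g⁻¹) = π g * π j * (π g)⁻¹ := by simp [map_mul]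
        rw [map_mul, map_inv, e, ← he', inv_mul_cancel]
      have e : g * j * g⁻¹ = j' * (j'⁻¹ * (g * j * g⁻¹)) := by group
      rw [e, sup_comm]
      exact mul_mem_sup hj' h2)
    have := mul_mem_sup ho hm
    rwa [sup_comm] at this
  -- main case
  rw [hO, sup_bot_eq]
  set T := pCore 2 G with hT
  haveI hTn : T.Normal := Cfsg.Agent.Lib.H1Core.pCore_normal 2 G
  have hTp : IsPGroup 2 T := Cfsg.Agent.Lib.H1Core.pCore_isPGroup 2
  have hTS : T ≤ (S : Subgroup G) := Cfsg.Agent.Lib.H1Core.pCore_le_sylow 2 S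
  have hCT : centralizer (T : Set G) ≤ T := Cfsg.Agent.Lib.H9Two.centralizer_core_le 2 hO
  have hcen : ∀ x ∈ (S : Subgroup G), ∀ y ∈ (S : Subgroup G), ∀ z ∈ (S : Subgroup G), ⁅x, y⁆ * z = z * ⁅x, y⁆ :=
    fun x hx y hy z hz => commutatorElement_eq_one_iff_mul_comm.1 (hcl x hx y hy z hz)
  haveI hCTn : (centralizer (T : Set G)).Normal := Subgroup.normal_centralizer
  set Z : Subgroup G := T ⊓ centralizer (T : Set G) with hZ
  haveI hZn : Z.Normal := Subgroup.normal_inf_normal _ _
  have hZab : ∀ a ∈ Z, ∀ b ∈ Z, a * b = b * a := by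
    intro a ha b hb
    exact (mem_centralizer_iff.1 (mem_inf.1 hb).2 a (mem_inf.1 ha).1)
  let V : Subgroup G :=
    { carrier := {v | v ∈ Z ∧ v * v = 1}
      one_mem' := ⟨one_mem _, by simp⟩
      mul_mem' := by
        rintro v w ⟨hv, hv'⟩ ⟨hw, hw'⟩
        refine ⟨mul_mem hv hw, ?_⟩
        have e : v * w * (v * w) = v * (w * v) * w := by group
        rw [e, hZab w hw v hv]
        have e2 : v * (v * w) * w = (v * v) * (w * w) := by group
        rw [e2, hv', hw', one_mul]
      inv_mem' := by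
        rintro v ⟨hv, hv'⟩
        refine ⟨inv_mem hv, ?_⟩
        rw [← mul_inv_rev, hv', inv_one] }
  have hVmem : ∀ v, v ∈ V ↔ v ∈ Z ∧ v * v = 1 := fun v => Iff.rfl
  haveI hVn : V.Normal := by
    refine ⟨?_⟩
    rintro v ⟨hv, hv'⟩ g
    refine ⟨hZn.conj_mem v hv g, ?_⟩
    have e : g * v * g⁻¹ * (g * v * g⁻¹) = g * (v * v) * g⁻¹ := by group
    rw [e, hv']
    group
  have hVab : ∀ v ∈ V, ∀ w ∈ V, v * w = w * v := fun v hv w hw => hZab v hv.1 w hw.1
  have hV2 : ∀ v ∈ V, v * v = 1 := fun v hv => hv.2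
  have hVS : V ≤ (S : Subgroup G) := fun v hv => hTS (mem_inf.1 hv.1).1
  set C : Subgroup G := centralizer (V : Set G) with hC
  haveI hCn : C.Normal := Subgroup.normal_centralizer
  let π : G →* G ⧸ C := QuotientGroup.mk' C
  have hπdef : π = QuotientGroup.mk' (centralizer (V : Set G)) := rfl
  have hker : ∀ z : G, π z = 1 ↔ z ∈ C := fun z => by
    change ((z : G ⧸ C)) = 1 ↔ _
    exact QuotientGroup.eq_one_iff z
  have hsurj : Function.Surjective π := QuotientGroup.mk'_surjective C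
  haveI hSC : Group.IsSolvable (G ⧸ C) := inferInstance
  set N : Subgroup G := (pCore 2 (G ⧸ C)).comap π with hN
  haveI hNb : (pCore 2 (G ⧸ C)).Normal := Cfsg.Agent.Lib.H1Core.pCore_normal 2 _
  haveI hNn : N.Normal := Subgroup.Normal.comap hNb π
  -- `S` acts abelianly
  have hSab : ∀ x ∈ (S : Subgroup G), ∀ y ∈ (S : Subgroup G), π x * π y = π y * π x := by
    intro x hx y hy
    have h1 : ⁅x, y⁆ ∈ C := by
      rw [hC, mem_centralizer_iff]
      intro v hv
      exact (hcen x hx y hy v (hVS hv)).symm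
    have h2 := (hker _).2 h1
    rw [map_commutatorElement] at h2
    exact commutatorElement_eq_one_iff_mul_comm.1 h2
  -- all maximal elementary abelian subgroups lie in `N`
  have hmaxN : ∀ A ∈ maxElementaryAbelianSubgroups 2 ↥(S : Subgroup G), ∀ a ∈ A, ((a : ↥(S : Subgroup G)) : G) ∈ N := by
    intro A hA
    set A' : Subgroup G := A.map (S : Subgroup G).subtype with hA'
    have hA'S : A' ≤ (S : Subgroup G) := by
      rintro _ ⟨a, -, rfl⟩
      exact a.2
    have hAab : ∀ a ∈ A', ∀ b ∈ A', a * b = b * a := by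
      rintro _ ⟨a, ha, rfl⟩ _ ⟨b, hb, rfl⟩
      haveI := hA.1.1
      have h1 := Cfsg.Agent.Lib.PQuad.comm_of_isMulComm hA.1.1 ha hb
      exact congrArg Subtype.val h1
    have hA2 : ∀ a ∈ A', a * a = 1 := by
      rintro _ ⟨a, ha, rfl⟩
      have h1 := hA.1.2 a ha
      rw [pow_two] at h1
      exact congrArg Subtype.val h1
    have hcardA' : Nat.card A' = Nat.card A := Subgroup.card_map_of_injective (S : Subgroup G).subtype_injective
    have hmax : ∀ X : Subgroup G, X ≤ (S : Subgroup G) → IsElementaryAbelian 2 X → Nat.card X ≤ Nat.card A' := by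
      intro X hX hXe
      rw [hcardA']
      have hE : IsElementaryAbelian 2 (X.subgroupOf (S : Subgroup G)) := by
        constructor
        · have h1 := hXe.1
          exact ⟨⟨fun a b => Subtype.ext (Subtype.ext (by
            have := Cfsg.Agent.Lib.PQuad.comm_of_isMulComm h1 (show ((a : ↥(S : Subgroup G)) : G) ∈ X from a.2)
              (show ((b : ↥(S : Subgroup G)) : G) ∈ X from b.2)
            exact this))⟩⟩
        · intro a ha
          exact Subtype.ext (hXe.2 _ ha)
      have h1 := hA.2 _ hE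
      have h2 : Nat.card (X.subgroupOf (S : Subgroup G)) = Nat.card X :=
        Nat.card_congr (Subgroup.subgroupOfEquivOfLe hX).toEquiv
      rwa [h2] at h1
    have hAV : V ≤ normalizer (A' : Set G) := by
      intro v hv
      refine Cfsg.Agent.Lib.PGlaub.mem_normalizer_of_conj_mem (fun a ha => ?_)
      obtain ⟨a₁, ha₁, rfl⟩ := ha
      set a : G := (S : Subgroup G).subtype a₁ with ha
      have haS : a ∈ (S : Subgroup G) := a₁.2
      set u := ⁅v, a⁆ with hu
      have huV : u ∈ V := by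
        have e : u = v * (a * v⁻¹ * a⁻¹) := by rw [hu, commutatorElement_def]; group
        rw [e]
        exact mul_mem hv (hVn.conj_mem _ (inv_mem hv) a)
      have huS : u ∈ (S : Subgroup G) := hVS huV
      have huA : (⟨u, huS⟩ : ↥(S : Subgroup G)) ∈ A := by
        apply Cfsg.Agent.Lib.PJ.mem_of_commute hA
        · rw [mem_centralizer_iff]
          intro b _
          apply Subtype.ext
          exact (hcen v (hVS hv) a haS b b.2).symm
        · apply Subtype.ext
          change u ^ 2 = 1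
          rw [pow_two]
          exact hV2 u huV
      have e : v * a * v⁻¹ = u * a := by
        rw [hu, commutatorElement_def]
        group
      rw [e]
      refine mul_mem ⟨_, huA, rfl⟩ ⟨a₁, ha₁, rfl⟩
    -- the action on the odd cores
    by_cases hact : ∀ r : ℕ, r.Prime → r ≠ 2 → ∀ a ∈ A', ∀ y ∈ pCore r (G ⧸ C), π a * y * (π a)⁻¹ = y
    · intro a ha
      have haA' : (a : G) ∈ A' := ⟨a, ha, rfl⟩
      have hF : fittingSubgroup (G ⧸ C) ≤ centralizer ({π (a : G)} : Set (G ⧸ C)) := by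
        rw [Cfsg.Agent.Lib.H1Core.fittingSubgroup_eq_iSup_pCore]
        refine iSup_le fun r => ?_
        intro y hy
        rw [mem_centralizer_iff]
        rintro _ rfl
        by_cases hr : (r : ℕ) = 2
        · have hr' : y ∈ pCore 2 (G ⧸ C) := by rwa [hr] at hy
          have hyS : y ∈ (S : Subgroup G).map π :=
            Cfsg.Agent.Lib.H1Core.pCore_le_sylow 2 (Sylow.mapSurjective hsurj S) hr'
          obtain ⟨s, hs, rfl⟩ := hyS
          exact hSab a a.2 s hs
        · have h1 := hact r r.2 hr a haA' y hy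
          calc π (a : G) * y = (π (a : G) * y * (π (a : G))⁻¹) * π (a : G) := by group
            _ = y * π (a : G) := by rw [h1]
      have h1 : π (a : G) ∈ centralizer ((fittingSubgroup (G ⧸ C) : Subgroup (G ⧸ C)) : Set (G ⧸ C)) := by
        rw [mem_centralizer_iff]
        intro y hy
        have := mem_centralizer_iff.1 (hF hy) (π (a : G)) rfl
        exact this.symm
      have h2 := Cfsg.Agent.Lib.H1Fit.centralizer_fitting_le h1
      refine Cfsg.Agent.Lib.H9Bender.mem_pCore_of_fitting (r := 2) (k := 1) h2 ?_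
      rw [pow_one, pow_two, ← map_mul, hA2 _ haA', map_one]
    · exfalso
      push Not at hact
      obtain ⟨r, hr, hr2, a₀, ha₀, y, hy, hne⟩ := hact
      haveI : Fact r.Prime := ⟨hr⟩
      haveI hRn : (pCore r (G ⧸ C)).Normal := Cfsg.Agent.Lib.H1Core.pCore_normal r _
      have hR : IsPGroup r (pCore r (G ⧸ C)) := Cfsg.Agent.Lib.H1Core.pCore_isPGroup r
      obtain ⟨t, htR, ht1, hta, htb⟩ := exists_eigen (r := r) hr2 _ (G ⧸ C) (pCore r (G ⧸ C)) (A'.map π) hR rfl
        (by
          rintro _ ⟨a, ha, rfl⟩ _ ⟨b, hb, rfl⟩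
          rw [← map_mul, ← map_mul, hAab a ha b hb])
        (by
          rintro _ ⟨a, ha, rfl⟩
          rw [← map_mul, hA2 a ha, map_one])
        (π a₀) y ⟨a₀, ha₀, rfl⟩ hy hne
      obtain ⟨x, rfl⟩ := hsurj t
      have hxC : x ∉ C := fun h => ht1 ((hker x).2 h)
      obtain ⟨k, hk⟩ := (IsPGroup.iff_orderOf.1 hR) ⟨π x, htR⟩
      rw [Subgroup.orderOf_mk] at hk
      have hm : Nat.Coprime (r ^ k) 2 := by
        apply Nat.Coprime.pow_left
        exact (Nat.coprime_primes hr Nat.prime_two).2 hr2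
      have hxm : x ^ (r ^ k) ∈ C := by
        apply (hker _).1
        rw [map_pow, ← hk]
        exact pow_orderOf_eq_one _
      exact hS4 (eigen_offender (S : Subgroup G) S.2 V hVab hV2 hVS A' hA'S hAab hA2 hmax hAV a₀ x ha₀ π hπdef hxC (r ^ k) hm hxm hta
        (fun b hb => htb (π b) ⟨b, hb, rfl⟩))
  -- `J ≤ N`
  have hJN : thompsonSubgroupOf 2 (S : Subgroup G) ≤ N := by
    rw [thompsonSubgroupOf, thompsonSubgroup, Subgroup.map_le_iff_le_comap]
    refine sSup_le fun A hA a ha => ?_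
    exact hmaxN A hA a ha
  by_cases hNtop : N = ⊤
  · -- `S` is normal
    have hall : ∀ g : G, π g ∈ pCore 2 (G ⧸ C) := by
      intro g
      have : g ∈ N := by rw [hNtop]; exact mem_top g
      exact this
    have hoddC : ∀ (g : G) (m : ℕ), m.Coprime 2 → g ^ m = 1 → g ∈ C := by
      intro g m hm hg
      apply (hker _).1
      have hb : IsPGroup 2 (pCore 2 (G ⧸ C)) := Cfsg.Agent.Lib.H1Core.pCore_isPGroup 2
      obtain ⟨k, hk⟩ := (IsPGroup.iff_orderOf.1 hb) ⟨π g, hall g⟩
      rw [Subgroup.orderOf_mk] at hk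
      have h1 : orderOf (π g) ∣ m := orderOf_dvd_of_pow_eq_one (by rw [← map_pow, hg, map_one])
      have h2 : Nat.Coprime (orderOf (π g)) 2 := Nat.Coprime.coprime_dvd_left h1 hm
      rw [hk] at h2
      have h3 : k = 0 := by
        by_contra hne
        have h4 : 2 ∣ 2 ^ k := dvd_pow_self 2 hne
        have h5 := Nat.Coprime.eq_one_of_dvd h2.symm h4
        omega
      rw [h3, pow_zero] at hk
      exact orderOf_eq_one_iff.1 hk
    let R : Subgroup G :=
      { carrier := {g | ∀ t ∈ T, t⁻¹ * (g * t * g⁻¹) ∈ Z}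
        one_mem' := by
          intro t _
          simp
        mul_mem' := by
          intro a b ha hb t ht
          have e : t⁻¹ * (a * b * t * (a * b)⁻¹) = (t⁻¹ * (a * t * a⁻¹)) * (a * (t⁻¹ * (b * t * b⁻¹)) * a⁻¹) := by group
          rw [e]
          exact mul_mem (ha t ht) (hZn.conj_mem _ (hb t ht) a)
        inv_mem' := by
          intro a ha t ht
          have h1 := ha (a⁻¹ * t * a) (by
            have := hTn.conj_mem t ht a⁻¹
            simpa using this)
          have e : (a⁻¹ * t * a)⁻¹ * (a * (a⁻¹ * t * a) * a⁻¹) = a⁻¹ * t⁻¹ * a * t := by group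
          rw [e] at h1
          have h2 := inv_mem h1
          have e2 : t⁻¹ * (a⁻¹ * t * a⁻¹⁻¹) = (a⁻¹ * t⁻¹ * a * t)⁻¹ := by group
          rw [e2]
          exact h2 }
    have hRmem : ∀ g, g ∈ R ↔ ∀ t ∈ T, t⁻¹ * (g * t * g⁻¹) ∈ Z := fun g => Iff.rfl
    have hSR : (S : Subgroup G) ≤ R := by
      intro s hs t ht
      set u := ⁅t⁻¹, s⁆ with hu
      have e : t⁻¹ * (s * t * s⁻¹) = u := by
        rw [hu, commutatorElement_def]
        group
      rw [e]
      have huS : ∀ z ∈ (S : Subgroup G), u * z = z * u := hcen _ (inv_mem (hTS ht)) _ hs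
      refine mem_inf.2 ⟨?_, ?_⟩
      · rw [← e]
        exact mul_mem (inv_mem ht) (hTn.conj_mem t ht s)
      · rw [mem_centralizer_iff]
        intro w hw
        exact (huS w (hTS hw)).symm
    have hRodd : ∀ y ∈ R, ∀ m : ℕ, m.Coprime 2 → y ^ m = 1 → y = 1 := by
      intro y hy m hm hym
      have hyC := hoddC y m hm hym
      have hyV : ∀ v ∈ V, y * v * y⁻¹ = v := by
        intro v hv
        have := (mem_centralizer_iff.1 hyC) v hv
        rw [← this]
        group
      have hyZ : ∀ z ∈ Z, y * z * y⁻¹ = z := by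
        intro z hz
        obtain ⟨k, hk⟩ := hTp ⟨z, (mem_inf.1 hz).1⟩
        have hk' : z ^ 2 ^ k = 1 := congrArg Subtype.val hk
        exact fix_of_invol Z hZab y (fun w hw => hZn.conj_mem w hw y) m hm hym
          (fun v hv hv2 => hyV v ⟨hv, hv2⟩) k z hz hk'
      have hyT : y ∈ centralizer (T : Set G) := by
        rw [mem_centralizer_iff]
        intro t ht
        have hz := hy t ht
        set z := t⁻¹ * (y * t * y⁻¹) with hzdef
        have h1 : y * t * y⁻¹ = t * z := by rw [hzdef]; group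
        have hpow : ∀ j : ℕ, y ^ j * t * (y ^ j)⁻¹ = t * z ^ j := by
          intro j
          induction j with
          | zero => simp
          | succ j ihj =>
            have e : y ^ (j + 1) * t * (y ^ (j + 1))⁻¹ = y * (y ^ j * t * (y ^ j)⁻¹) * y⁻¹ := by
              rw [pow_succ']
              group
            rw [e, ihj]
            have e2 : y * (t * z ^ j) * y⁻¹ = (y * t * y⁻¹) * (y * z * y⁻¹) ^ j := by
              rw [conj_pow]
              group
            rw [e2, hyZ z hz, h1, pow_succ]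
            group
        have h2 := hpow m
        rw [hym] at h2
        have h3 : z ^ m = 1 := by
          have h4 : t * z ^ m = t := by rw [← h2]; group
          exact mul_eq_left.1 h4
        obtain ⟨k, hk⟩ := hTp ⟨z, (mem_inf.1 hz).1⟩
        have hk' : z ^ 2 ^ k = 1 := congrArg Subtype.val hk
        have h5 := Nat.dvd_gcd (orderOf_dvd_of_pow_eq_one h3) (orderOf_dvd_of_pow_eq_one hk')
        rw [(Nat.Coprime.pow_right k hm : Nat.gcd m (2 ^ k) = 1)] at h5
        have h6 : z = 1 := orderOf_eq_one_iff.1 (Nat.dvd_one.1 h5)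
        rw [h6, mul_one] at h1
        calc t * y = (y * t * y⁻¹) * y := by rw [h1]
          _ = y * t := by group
      have hyT' := hCT hyT
      obtain ⟨k, hk⟩ := hTp ⟨y, hyT'⟩
      have hk' : y ^ 2 ^ k = 1 := congrArg Subtype.val hk
      have h5 := Nat.dvd_gcd (orderOf_dvd_of_pow_eq_one hym) (orderOf_dvd_of_pow_eq_one hk')
      rw [(Nat.Coprime.pow_right k hm : Nat.gcd m (2 ^ k) = 1)] at h5
      exact orderOf_eq_one_iff.1 (Nat.dvd_one.1 h5)
    have hRp : IsPGroup 2 R := by
      intro r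
      obtain ⟨k, m, hm, hn⟩ := Nat.exists_eq_two_pow_mul_odd (orderOf_pos (r : G)).ne'
      refine ⟨k, Subtype.ext ?_⟩
      change (r : G) ^ 2 ^ k = 1
      refine hRodd _ (pow_mem r.2 _) m (Nat.coprime_two_right.2 hm) ?_
      rw [← pow_mul, ← hn]
      exact pow_orderOf_eq_one _
    have hRS : R = (S : Subgroup G) := S.is_maximal' hRp hSR
    have hRn : R.Normal := by
      refine ⟨?_⟩
      intro x hx g t ht
      have h1 := hx (g⁻¹ * t * g) (by
        have := hTn.conj_mem t ht g⁻¹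
        simpa using this)
      have e : t⁻¹ * (g * x * g⁻¹ * t * (g * x * g⁻¹)⁻¹) = g * ((g⁻¹ * t * g)⁻¹ * (x * (g⁻¹ * t * g) * x⁻¹)) * g⁻¹ := by group
      rw [e]
      exact hZn.conj_mem _ h1 g
    have hSn : (S : Subgroup G).Normal := hRS ▸ hRn
    have htop : normalizer ((S : Subgroup G) : Set G) = ⊤ := normalizer_eq_top_iff.2 hSn
    haveI hch : (thompsonSubgroup 2 ↥(S : Subgroup G)).Characteristic := Cfsg.Agent.Lib.PJ.thompson_characteristic 2
    have hle := Cfsg.Agent.Lib.H1Cop2.normalizer_le_normalizer_map_of_characteristic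
      (K := (S : Subgroup G)) (thompsonSubgroup 2 ↥(S : Subgroup G))
    rw [eq_top_iff, ← htop]
    exact hle
  · -- induction on `N`
    have hltN : Nat.card N < n := by
      rw [← hcard]
      exact Cfsg.Agent.Lib.Comp.card_lt_of_ne_top hNtop
    have hS4N : ¬ Cfsg.Involves (Equiv.Perm (Fin 4)) ↥N := fun h =>
      hS4 (Cfsg.Agent.Lib.FusSubModel.involves_of_le h)
    let S₁ : Sylow 2 ↥N := Cfsg.Agent.Lib.PNilp.sylowOfNormal S N
    have hS₁ : (S₁ : Subgroup ↥N) = (S : Subgroup G).comap N.subtype := rfl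
    have hcl₁ : ∀ x ∈ (S₁ : Subgroup ↥N), ∀ y ∈ (S₁ : Subgroup ↥N), ∀ z ∈ (S₁ : Subgroup ↥N), ⁅⁅x, y⁆, z⁆ = 1 := by
      intro x hx y hy z hz
      apply Subtype.ext
      change N.subtype ⁅⁅x, y⁆, z⁆ = N.subtype 1
      rw [map_commutatorElement, map_commutatorElement, map_one]
      exact hcl _ hx _ hy _ hz
    have h := ih _ hltN ↥N hS4N S₁ hcl₁ rfl
    -- the core of `N` is trivial
    have hcore : pPrimeCore 2 ↥N = ⊥ := by
      have h1 : (pPrimeCore 2 ↥N).map N.subtype ≤ pPrimeCore 2 G :=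
        Cfsg.Agent.Lib.H1Core.le_pPrimeCore
          (Cfsg.Agent.Lib.Comp.normal_map_of_char hNn _ (Cfsg.Agent.Lib.Comp2.pPrimeCore_char 2))
          (by
            rw [Subgroup.card_map_of_injective N.subtype_injective]
            exact Cfsg.Agent.Lib.H1Core.pPrimeCore_coprime 2)
      rw [hO, le_bot_iff] at h1
      exact (Subgroup.map_eq_bot_iff_of_injective _ N.subtype_injective).1 h1
    rw [hcore, sup_bot_eq] at h
    -- compare the Thompson subgroups
    set S₂ : Subgroup G := (S₁ : Subgroup ↥N).map N.subtype with hS₂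
    have hS₂le : S₂ ≤ (S : Subgroup G) := by
      rintro _ ⟨x, hx, rfl⟩
      exact hx
    have hJS₂ : thompsonSubgroupOf 2 (S : Subgroup G) ≤ S₂ := by
      intro j hj
      refine ⟨⟨j, hJN hj⟩, ?_, rfl⟩
      exact Cfsg.Agent.Lib.PJ.thompsonOf_le 2 (S : Subgroup G) hj
    have hJeq : thompsonSubgroupOf 2 S₂ = thompsonSubgroupOf 2 (S : Subgroup G) :=
      Cfsg.Agent.Lib.PJ.thompsonOf_eq_of_le S₂ S hS₂le hJS₂
    have hJmap : (thompsonSubgroupOf 2 (S₁ : Subgroup ↥N)).map N.subtype = thompsonSubgroupOf 2 (S : Subgroup G) := by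
      rw [← hJeq, hS₂]
      exact (Cfsg.Agent.Lib.PJ.thompsonOf_map N.subtype (S₁ : Subgroup ↥N)
        (fun x _ hx => Subtype.ext hx) 2).symm
    have hNJ : N ≤ normalizer ((thompsonSubgroupOf 2 (S : Subgroup G) : Subgroup G) : Set G) := by
      intro g hg
      have hg' : (⟨g, hg⟩ : ↥N) ∈ normalizer ((thompsonSubgroupOf 2 (S₁ : Subgroup ↥N) : Subgroup ↥N) : Set ↥N) := by
        rw [h]; exact mem_top _
      rw [← hJmap]
      refine Cfsg.Agent.Lib.PGlaub.mem_normalizer_of_conj_mem ?_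
      rintro _ ⟨j, hj, rfl⟩
      exact ⟨_, (mem_normalizer_iff.1 hg' j).1 hj, rfl⟩
    have hfr := Sylow.normalizer_sup_eq_top S₁
    have hle : normalizer ((S₂ : Subgroup G) : Set G) ≤ normalizer ((thompsonSubgroupOf 2 (S : Subgroup G) : Subgroup G) : Set G) := by
      rw [← hJeq]
      haveI hch : (thompsonSubgroup 2 ↥S₂).Characteristic := Cfsg.Agent.Lib.PJ.thompson_characteristic 2
      exact Cfsg.Agent.Lib.H1Cop2.normalizer_le_normalizer_map_of_characteristic
        (K := S₂) (thompsonSubgroup 2 ↥S₂)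
    rw [eq_top_iff]
    intro g _
    have hg : g ∈ normalizer ((S₂ : Subgroup G) : Set G) ⊔ N := by
      change g ∈ normalizer (((S₁ : Subgroup ↥N).map N.subtype : Subgroup G) : Set G) ⊔ N
      rw [hfr]; exact mem_top g
    obtain ⟨a, ha, b, hb, rfl⟩ := Subgroup.mem_sup_of_normal_right.1 hg
    exact mul_mem (hle ha) (hNJ hb)

theorem main {G : Type u} [Group G] [Finite G] [Group.IsSolvable G]
    (hS4 : ¬ Cfsg.Involves (Equiv.Perm (Fin 4)) G) (S : Sylow 2 G)
    (hcl : Subgroup.lowerCentralSeries (S : Subgroup G) 2 = ⊥) :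
    normalizer ((thompsonSubgroupOf 2 (S : Subgroup G) : Subgroup G) : Set G) ⊔ pPrimeCore 2 G = ⊤ := by
  refine main_aux _ G hS4 S ?_ rfl
  intro x hx y hy z hz
  have h1 : ⁅⁅x, y⁆, z⁆ ∈ (S : Subgroup G).lowerCentralSeries 2 := by
    change _ ∈ ⁅⁅(S : Subgroup G), (S : Subgroup G)⁆, (S : Subgroup G)⁆
    exact Subgroup.commutator_mem_commutator (Subgroup.commutator_mem_commutator hx hy) hz
  rw [hcl, mem_bot] at h1
  exact h1

end Cfsg.Agent.Lib.H9SF
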