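import Cfsg.Agent.Lib.SpGL
import Cfsg.Agent.Lib.WittAlt
import Cfsg.Agent.Lib.SympOrder
import Cfsg.Agent.Lib.LeadAffine
import Cfsg.Agent.Lib.TICount

set_option autoImplicit false

namespace Cfsg.Agent.Lib.SpFrames

open Matrix Cfsg.Agent.Lib.SympBasic Cfsg.Agent.Lib.SympTrans Cfsg.Agent.Lib.FormVec Cfsg.Agent.Lib.SpGL
open Cfsg.Agent.Lib.TICount

section gen

variable {F V : Type*} [Field F] [Fintype F] [AddCommGroup V] [Module F V] [Finite V]

/-- One step of the count of chains of linearly independent vectors. -/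
theorem card_step {k : ℕ} (A : (Fin k → V) → Prop) (A' : (Fin (k + 1) → V) → Prop)
    (U : (Fin k → V) → Submodule F V) (u : ℕ)
    (hA' : ∀ f v, LinearIndependent F f → (A' (Fin.snoc f v : Fin (k + 1) → V) ↔ A f ∧ v ∈ U f))
    (hU : ∀ f, LinearIndependent F f → A f → Submodule.span F (Set.range f) ≤ U f ∧ Nat.card (U f) = u) :
    Nat.card {f : Fin (k + 1) → V // LinearIndependent F f ∧ A' f} =
      Nat.card {f : Fin k → V // LinearIndependent F f ∧ A f} * (u - Fintype.card F ^ k) := by
  classical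
  haveI : Fintype V := Fintype.ofFinite V
  have hsnoc : ∀ (f : Fin k → V) (v : V), LinearIndependent F (Fin.snoc f v : Fin (k + 1) → V) ↔
      LinearIndependent F f ∧ v ∉ Submodule.span F (Set.range f) := fun f v => linearIndependent_fin_snoc
  let π : {f : Fin (k + 1) → V // LinearIndependent F f ∧ A' f} → {f : Fin k → V // LinearIndependent F f ∧ A f} :=
    fun x => ⟨Fin.init x.1, by
      obtain ⟨x, hx, hx'⟩ := x
      have e : x = Fin.snoc (Fin.init x) (x (Fin.last k)) := (Fin.snoc_init_self x).symm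
      rw [e] at hx hx'
      have h1 := (hsnoc _ _).1 hx
      exact ⟨h1.1, ((hA' _ _ h1.1).1 hx').1⟩⟩
  have hfib : ∀ y : {f : Fin k → V // LinearIndependent F f ∧ A f},
      Nat.card {x // π x = y} = u - Fintype.card F ^ k := by
    rintro ⟨f, hf, hA⟩
    obtain ⟨h1, h2⟩ := hU f hf hA
    have h3 := card_diff h1
    rw [h2, card_sub (Submodule.span F (Set.range f)), finrank_span_eq_card hf, Fintype.card_fin] at h3
    have h4 : Nat.card {x // π x = ⟨f, hf, hA⟩} = Nat.card {w : V // w ∈ U f ∧ w ∉ Submodule.span F (Set.range f)} := by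
      apply Nat.card_congr
      refine
        { toFun := fun x => ⟨x.1.1 (Fin.last k), ?_⟩
          invFun := fun w => ⟨⟨Fin.snoc f w.1, (hsnoc _ _).2 ⟨hf, w.2.2⟩, (hA' _ _ hf).2 ⟨hA, w.2.1⟩⟩, ?_⟩
          left_inv := ?_
          right_inv := ?_ }
      · obtain ⟨⟨x, hx, hx'⟩, hxy⟩ := x
        have e0 : Fin.init x = f := congrArg Subtype.val hxy
        have e : x = Fin.snoc f (x (Fin.last k)) := by rw [← e0]; exact (Fin.snoc_init_self x).symm
        rw [e] at hx hx'
        exact ⟨((hA' _ _ hf).1 hx').2, ((hsnoc _ _).1 hx).2⟩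
      · apply Subtype.ext
        show Fin.init (Fin.snoc f w.1 : Fin (k + 1) → V) = f
        exact Fin.init_snoc _ _
      · rintro ⟨⟨x, hx, hx'⟩, hxy⟩
        have e0 : Fin.init x = f := congrArg Subtype.val hxy
        apply Subtype.ext
        apply Subtype.ext
        show Fin.snoc f (x (Fin.last k)) = x
        rw [← e0]
        exact Fin.snoc_init_self x
      · rintro ⟨w, hw⟩
        apply Subtype.ext
        show (Fin.snoc f w : Fin (k + 1) → V) (Fin.last k) = w
        exact Fin.snoc_last _ _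
    rw [h4]
    omega
  have hE := Nat.card_congr (Equiv.sigmaFiberEquiv π)
  rw [Nat.card_sigma] at hE
  simp only [hfib] at hE
  rw [← hE, Finset.sum_const, Finset.card_univ, smul_eq_mul, Nat.card_eq_fintype_card]

/-- Count of chains. -/
theorem card_chain (A : ∀ k, (Fin k → V) → Prop) (U : ∀ k, (Fin k → V) → Submodule F V) (u : ℕ → ℕ) (n : ℕ)
    (h0 : ∀ f, A 0 f)
    (hA' : ∀ k, k < n → ∀ (f : Fin k → V) v, LinearIndependent F f →
      (A (k + 1) (Fin.snoc f v : Fin (k + 1) → V) ↔ A k f ∧ v ∈ U k f))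
    (hU : ∀ k, k < n → ∀ f, LinearIndependent F f → A k f →
      Submodule.span F (Set.range f) ≤ U k f ∧ Nat.card (U k f) = u k) :
    Nat.card {f : Fin n → V // LinearIndependent F f ∧ A n f} =
      ∏ i ∈ Finset.range n, (u i - Fintype.card F ^ i) := by
  induction n with
  | zero =>
    simp only [Finset.range_zero, Finset.prod_empty]
    have : Unique {f : Fin 0 → V // LinearIndependent F f ∧ A 0 f} :=
      { default := ⟨default, linearIndependent_empty_type, h0 _⟩
        uniq := fun x => Subtype.ext (Subsingleton.elim _ _) }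
    exact Nat.card_unique
  | succ n ih =>
    rw [Finset.prod_range_succ, ← ih (fun k hk => hA' k (by omega)) (fun k hk => hU k (by omega))]
    exact card_step (A n) (A (n + 1)) (U n) (u n) (hA' n (by omega)) (hU n (by omega))

/-- Frames in a fixed subspace. -/
theorem card_frames_in (W : Submodule F V) (n : ℕ) :
    Nat.card {f : Fin n → V // LinearIndependent F f ∧ ∀ i, f i ∈ W} =
      ∏ i ∈ Finset.range n, (Fintype.card F ^ Module.finrank F W - Fintype.card F ^ i) := by
  apply card_chain (fun k (f : Fin k → V) => ∀ i, f i ∈ W) (fun _ _ => W)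
    (fun _ => Fintype.card F ^ Module.finrank F W) n
  · intro f i
    exact i.elim0
  · intro k _ f v _
    constructor
    · intro h
      refine ⟨fun i => ?_, ?_⟩
      · have := h i.castSucc
        rwa [Fin.snoc_castSucc] at this
      · have := h (Fin.last k)
        rwa [Fin.snoc_last] at this
    · rintro ⟨h1, h2⟩ i
      refine Fin.lastCases ?_ (fun j => ?_) i
      · rwa [Fin.snoc_last]
      · rw [Fin.snoc_castSucc]
        exact h1 j
  · intro k _ f _ h
    refine ⟨?_, card_sub W⟩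
    rw [Submodule.span_le]
    rintro _ ⟨i, rfl⟩
    exact h i

end gen

section symp

variable {F : Type*} [Field F] {m : ℕ}

local notation "BB" => toB (symp_bilinear (m := m) (F := F))
local notation "ff" => Cfsg.sympForm m F
local notation "VV" => (Fin m ⊕ Fin m → F)

/-- A frame is a linearly independent totally isotropic family. -/
def TIf {k : ℕ} (f : Fin k → VV) : Prop := ∀ i j, ff (f i) (f j) = 0

theorem span_ti {k : ℕ} {f : Fin k → VV} (hf : TIf f) {x y : VV}
    (hx : x ∈ Submodule.span F (Set.range f)) (hy : y ∈ Submodule.span F (Set.range f)) : ff x y = 0 := by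
  have h1 : ∀ j, ff x (f j) = 0 := by
    intro j
    induction hx using Submodule.span_induction with
    | mem x hx =>
      obtain ⟨i, rfl⟩ := hx
      exact hf i j
    | zero => rw [show (0 : VV) = (0 : F) • 0 by simp, sympForm_smul_left]; simp
    | add a b _ _ ha hb => rw [sympForm_add_left, ha, hb, add_zero]
    | smul c a _ ha => rw [sympForm_smul_left, ha, mul_zero]
  induction hy using Submodule.span_induction with
  | mem y hy =>
    obtain ⟨j, rfl⟩ := hy
    exact h1 j
  | zero => rw [show (0 : VV) = (0 : F) • 0 by simp, sympForm_smul_right]; simp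
  | add a b _ _ ha hb => rw [sympForm_add_right, ha, hb, add_zero]
  | smul c a _ ha => rw [sympForm_smul_right, ha, mul_zero]

/-- Witt transitivity on frames. -/
theorem exists_sp_map {k : ℕ} {f f' : Fin k → VV} (hf : LinearIndependent F f) (hf' : LinearIndependent F f')
    (hT : TIf f) (hT' : TIf f') : ∃ g : Sp m F, ∀ i, (g : Matrix (Fin m ⊕ Fin m) (Fin m ⊕ Fin m) F) *ᵥ f i = f' i := by
  classical
  obtain ⟨A, hA⟩ := Cfsg.Agent.Lib.LeadAffine.exists_linearEquiv_of_linearIndependent hf hf'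
  let X : Submodule F VV := Submodule.span F (Set.range f)
  have hmap : ∀ x ∈ X, A x ∈ Submodule.span F (Set.range f') := by
    intro x hx
    have : Submodule.map (A : VV →ₗ[F] VV) X ≤ Submodule.span F (Set.range f') := by
      show Submodule.map (A : VV →ₗ[F] VV) (Submodule.span F (Set.range f)) ≤ _
      rw [Submodule.map_span, Submodule.span_le]
      rintro _ ⟨_, ⟨i, rfl⟩, rfl⟩
      exact Submodule.subset_span ⟨i, (hA i).symm⟩
    exact this ⟨x, hx, rfl⟩
  obtain ⟨g, hg, hg'⟩ := Cfsg.Agent.Lib.WittAlt.witt_alt (BB) ((toB_nondeg _ symp_nondeg)) symp_B_alt X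
    ((A : VV →ₗ[F] VV) ∘ₗ X.subtype) (by
      intro a b hab
      exact Subtype.ext (A.injective hab)) (by
      rintro ⟨x, hx⟩ ⟨y, hy⟩
      show ff (A x) (A y) = ff x y
      rw [span_ti hT hx hy, span_ti hT' (hmap x hx) (hmap y hy)])
  refine ⟨⟨(glOf g : Matrix _ _ F), ?_⟩, fun i => ?_⟩
  · apply (preserves_iff_mem _).1
    intro u v
    rw [glOf_mulVec, glOf_mulVec]
    exact hg u v
  · show (glOf g : Matrix _ _ F) *ᵥ f i = f' i
    rw [glOf_mulVec, ← hA i]
    exact hg' ⟨f i, Submodule.subset_span ⟨i, rfl⟩⟩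

theorem sp_inj (g : Sp m F) : Function.Injective (fun x : VV => (g : Matrix (Fin m ⊕ Fin m) (Fin m ⊕ Fin m) F) *ᵥ x) := by
  intro x y hxy
  have h1 : ∀ z : VV, ((g⁻¹ : Sp m F) : Matrix (Fin m ⊕ Fin m) (Fin m ⊕ Fin m) F) *ᵥ ((g : Matrix (Fin m ⊕ Fin m) (Fin m ⊕ Fin m) F) *ᵥ z) = z := by
    intro z
    rw [← sp_mul_mulVec, inv_mul_cancel]
    exact one_mulVec z
  rw [← h1 x, ← h1 y]
  exact congrArg _ hxy

theorem sp_li {k : ℕ} {f : Fin k → VV} (hf : LinearIndependent F f) (g : Sp m F) :
    LinearIndependent F (fun i => (g : Matrix (Fin m ⊕ Fin m) (Fin m ⊕ Fin m) F) *ᵥ f i) := by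
  have h1 : LinearMap.ker ((g : Matrix (Fin m ⊕ Fin m) (Fin m ⊕ Fin m) F).mulVecLin) = ⊥ :=
    LinearMap.ker_eq_bot.mpr (sp_inj g)
  have h2 := hf.map' (g : Matrix (Fin m ⊕ Fin m) (Fin m ⊕ Fin m) F).mulVecLin h1
  have e : ((g : Matrix (Fin m ⊕ Fin m) (Fin m ⊕ Fin m) F).mulVecLin ∘ f) = fun i => (g : Matrix (Fin m ⊕ Fin m) (Fin m ⊕ Fin m) F) *ᵥ f i := by
    funext i
    simp
  rwa [e] at h2

theorem sp_ti {k : ℕ} {f : Fin k → VV} (hf : TIf f) (g : Sp m F) :
    TIf (fun i => (g : Matrix (Fin m ⊕ Fin m) (Fin m ⊕ Fin m) F) *ᵥ f i) := by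
  intro i j
  show ff _ _ = 0
  rw [(preserves_iff_mem _).2 g.2]
  exact hf i j

/-- Orbit count: comparing a group `T` acting transitively on a set `Y` of frames, to the whole group. -/
theorem card_orbit [Finite F] {k : ℕ} (e : Fin k → VV) (he : LinearIndependent F e) (heT : TIf e)
    (T : Subgroup (Sp m F)) (Y : (Fin k → VV) → Prop)
    (hY : ∀ g : Sp m F, g ∈ T ↔ Y (fun i => (g : Matrix (Fin m ⊕ Fin m) (Fin m ⊕ Fin m) F) *ᵥ e i))
    (hY' : ∀ f, Y f → LinearIndependent F f ∧ TIf f) :
    Nat.card T * Nat.card {f : Fin k → VV // LinearIndependent F f ∧ TIf f} =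
      Nat.card {f : Fin k → VV // Y f} * Nat.card (Sp m F) := by
  classical
  let P : Subgroup (Sp m F) :=
    { carrier := {g | ∀ i, (g : Matrix (Fin m ⊕ Fin m) (Fin m ⊕ Fin m) F) *ᵥ e i = e i}
      mul_mem' := by
        intro a b ha hb i
        rw [sp_mul_mulVec, hb i, ha i]
      one_mem' := by
        intro i
        simp
      inv_mem' := by
        intro a ha i
        have h1 : ((a⁻¹ * a : Sp m F) : Matrix (Fin m ⊕ Fin m) (Fin m ⊕ Fin m) F) *ᵥ e i = e i := by simp
        rw [sp_mul_mulVec, ha i] at h1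
        exact h1 }
  have hP : ∀ a b : Sp m F, (∀ i, (a : Matrix (Fin m ⊕ Fin m) (Fin m ⊕ Fin m) F) *ᵥ e i = (b : Matrix (Fin m ⊕ Fin m) (Fin m ⊕ Fin m) F) *ᵥ e i) ↔ a⁻¹ * b ∈ P := by
    intro a b
    constructor
    · intro h i
      rw [sp_mul_mulVec, ← h i, ← sp_mul_mulVec]
      simp
    · intro h i
      have h1 := h i
      rw [sp_mul_mulVec] at h1
      calc (a : Matrix (Fin m ⊕ Fin m) (Fin m ⊕ Fin m) F) *ᵥ e i
          = (a : Matrix (Fin m ⊕ Fin m) (Fin m ⊕ Fin m) F) *ᵥ (((a⁻¹ : Sp m F) : Matrix (Fin m ⊕ Fin m) (Fin m ⊕ Fin m) F) *ᵥ ((b : Matrix (Fin m ⊕ Fin m) (Fin m ⊕ Fin m) F) *ᵥ e i)) := by rw [h1]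
        _ = _ := by
          rw [← sp_mul_mulVec]
          simp
  -- the whole group
  have h1 : Nat.card (Sp m F) = Nat.card {f : Fin k → VV // LinearIndependent F f ∧ TIf f} * Nat.card P := by
    apply Cfsg.Agent.Lib.SympOrder.card_eq_of_fiber P
      (fun g => (⟨fun i => (g : Matrix (Fin m ⊕ Fin m) (Fin m ⊕ Fin m) F) *ᵥ e i, sp_li he g, sp_ti heT g⟩ :
        {f : Fin k → VV // LinearIndependent F f ∧ TIf f}))
    · rintro ⟨f, hf, hfT⟩
      obtain ⟨g, hg⟩ := exists_sp_map he hf heT hfT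
      exact ⟨g, Subtype.ext (funext hg)⟩
    · intro a b
      rw [← hP, Subtype.mk.injEq, funext_iff]
  have hPT : P ≤ T := by
    intro g hg
    rw [hY]
    have : Y (fun i => ((1 : Sp m F) : Matrix (Fin m ⊕ Fin m) (Fin m ⊕ Fin m) F) *ᵥ e i) := (hY 1).1 T.one_mem
    have e2 : (fun i => (g : Matrix (Fin m ⊕ Fin m) (Fin m ⊕ Fin m) F) *ᵥ e i) = (fun i => ((1 : Sp m F) : Matrix (Fin m ⊕ Fin m) (Fin m ⊕ Fin m) F) *ᵥ e i) := by
      funext i
      rw [hg i]
      simp
    rw [e2]
    exact this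
  have h2 : Nat.card T = Nat.card {f : Fin k → VV // Y f} * Nat.card (P.subgroupOf T) := by
    apply Cfsg.Agent.Lib.SympOrder.card_eq_of_fiber (P.subgroupOf T)
      (fun g : T => (⟨fun i => ((g : Sp m F) : Matrix (Fin m ⊕ Fin m) (Fin m ⊕ Fin m) F) *ᵥ e i, (hY g).1 g.2⟩ :
        {f : Fin k → VV // Y f}))
    · rintro ⟨f, hf⟩
      obtain ⟨h3, h4⟩ := hY' f hf
      obtain ⟨g, hg⟩ := exists_sp_map he h3 heT h4
      have e1 : (fun i => (g : Matrix (Fin m ⊕ Fin m) (Fin m ⊕ Fin m) F) *ᵥ e i) = f := funext hg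
      refine ⟨⟨g, (hY g).2 (by rw [e1]; exact hf)⟩, Subtype.ext e1⟩
    · intro a b
      rw [Subgroup.mem_subgroupOf, Subtype.mk.injEq, funext_iff]
      exact hP a b
  have h3 : Nat.card (P.subgroupOf T) = Nat.card P := Nat.card_congr (Subgroup.subgroupOfEquivOfLe hPT).toEquiv
  rw [h2, h1, h3]
  ring

/-- Frames count. -/
theorem card_frames [Fintype F] (k : ℕ) (hk : k ≤ 2 * m) :
    Nat.card {f : Fin k → VV // LinearIndependent F f ∧ TIf f} =
      ∏ i ∈ Finset.range k, (Fintype.card F ^ (2 * m - i) - Fintype.card F ^ i) := by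
  classical
  apply card_chain (fun k (f : Fin k → VV) => TIf f) (fun k f => (BB).orthogonal (Submodule.span F (Set.range f)))
    (fun i => Fintype.card F ^ (2 * m - i)) k
  · intro f i
    exact i.elim0
  · intro j _ f v _
    have hmem : v ∈ (BB).orthogonal (Submodule.span F (Set.range f)) ↔ ∀ i, ff (f i) v = 0 := by
      rw [LinearMap.BilinForm.mem_orthogonal_iff]
      constructor
      · intro h i
        exact h _ (Submodule.subset_span ⟨i, rfl⟩)
      · intro h x hx
        induction hx using Submodule.span_induction with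
        | mem x hx =>
          obtain ⟨i, rfl⟩ := hx
          exact h i
        | zero => exact (BB).isOrtho_zero_left v
        | add a b _ _ ha hb =>
          show ff (a + b) v = 0
          rw [sympForm_add_left]
          have ha' : ff a v = 0 := ha
          have hb' : ff b v = 0 := hb
          rw [ha', hb', add_zero]
        | smul c a _ ha =>
          show ff (c • a) v = 0
          rw [sympForm_smul_left]
          have ha' : ff a v = 0 := ha
          rw [ha', mul_zero]
    rw [hmem]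
    constructor
    · intro h
      refine ⟨fun a b => ?_, fun i => ?_⟩
      · have := h a.castSucc b.castSucc
        rwa [Fin.snoc_castSucc, Fin.snoc_castSucc] at this
      · have := h i.castSucc (Fin.last j)
        rwa [Fin.snoc_castSucc, Fin.snoc_last] at this
    · rintro ⟨h1, h2⟩ a b
      refine Fin.lastCases ?_ (fun a' => ?_) a
      · refine Fin.lastCases ?_ (fun b' => ?_) b
        · rw [Fin.snoc_last]
          exact sympForm_self v
        · rw [Fin.snoc_castSucc, Fin.snoc_last, sympForm_skew, h2 b', neg_zero]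
      · refine Fin.lastCases ?_ (fun b' => ?_) b
        · rw [Fin.snoc_castSucc, Fin.snoc_last]
          exact h2 a'
        · rw [Fin.snoc_castSucc, Fin.snoc_castSucc]
          exact h1 a' b'
  · intro j _ f hf hT
    constructor
    · intro x hx
      rw [LinearMap.BilinForm.mem_orthogonal_iff]
      intro y hy
      exact span_ti hT hy hx
    · rw [card_sub, LinearMap.BilinForm.finrank_orthogonal (toB_nondeg _ symp_nondeg),
        finrank_span_eq_card hf]
      simp [two_mul]

/-- Being in the stabiliser only needs one inclusion, by finiteness. -/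
theorem mem_stabilizing_of_map [Finite F] (W : Submodule F VV) (g : Sp m F)
    (hg : ∀ v ∈ W, (g : Matrix (Fin m ⊕ Fin m) (Fin m ⊕ Fin m) F) *ᵥ v ∈ W) :
    g ∈ Cfsg.stabilizing (Cfsg.spToMat m F) (W : Set VV) := by
  intro v
  constructor
  · exact hg v
  · intro hv
    let r : W → W := fun x => ⟨(g : Matrix (Fin m ⊕ Fin m) (Fin m ⊕ Fin m) F) *ᵥ x.1, hg x.1 x.2⟩
    have hr : Function.Injective r := by
      intro x y hxy
      exact Subtype.ext (sp_inj g (congrArg Subtype.val hxy))
    obtain ⟨x, hx⟩ := (Finite.injective_iff_surjective.1 hr) ⟨_, hv⟩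
    have e : (g : Matrix (Fin m ⊕ Fin m) (Fin m ⊕ Fin m) F) *ᵥ x.1 = (g : Matrix (Fin m ⊕ Fin m) (Fin m ⊕ Fin m) F) *ᵥ v :=
      congrArg Subtype.val hx
    have e' : x.1 = v := sp_inj g e
    rw [← e']
    exact x.2

end symp

section arith

theorem prod_frames_eq (q m k : ℕ) (hk : k ≤ m) (hq : 0 < q) :
    ∏ i ∈ Finset.range k, (q ^ (2 * m - i) - q ^ i) =
      q ^ (k * (k - 1) / 2) * ∏ i ∈ Finset.range k, (q ^ (2 * (m - i)) - 1) := by
  have h1 : ∀ i ∈ Finset.range k, q ^ (2 * m - i) - q ^ i = q ^ i * (q ^ (2 * (m - i)) - 1) := by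
    intro i hi
    have hi' : i < k := Finset.mem_range.1 hi
    have e : 2 * m - i = i + 2 * (m - i) := by omega
    rw [e, pow_add, Nat.mul_sub_one]
  rw [Finset.prod_congr rfl h1, Finset.prod_mul_distrib, Finset.prod_pow_eq_pow_sum, Finset.sum_range_id]

theorem prod_split (q l k : ℕ) :
    ∏ i ∈ Finset.range (l + k), (q ^ (2 * (i + 1)) - 1) =
      (∏ i ∈ Finset.range l, (q ^ (2 * (i + 1)) - 1)) * ∏ i ∈ Finset.range k, (q ^ (2 * (l + k - i)) - 1) := by
  induction k with
  | zero => simp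
  | succ k ih =>
    rw [← add_assoc, Finset.prod_range_succ, ih, Finset.prod_range_succ' _ k, mul_assoc]
    have : ∀ i, l + k + 1 - (i + 1) = l + k - i := fun i => by omega
    simp only [this, Nat.sub_zero]

theorem tri_add (k : ℕ) : k * (k + 1) / 2 + k * (k - 1) / 2 = k ^ 2 := by
  induction k with
  | zero => simp
  | succ k ih =>
    have h1 : (k + 1) * (k + 1 + 1) / 2 = k * (k + 1) / 2 + (k + 1) := by
      have : (k + 1) * (k + 1 + 1) = k * (k + 1) + (k + 1) * 2 := by ring
      rw [this, Nat.add_mul_div_right _ _ (by norm_num)]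
    have h2 : (k + 1) * (k + 1 - 1) / 2 = k * (k - 1) / 2 + k := by
      rcases k with _ | k
      · simp
      · have : (k + 1 + 1) * (k + 1 + 1 - 1) = (k + 1) * (k + 1 - 1) + (k + 1) * 2 := by
          simp only [Nat.add_sub_cancel]
          ring
        rw [this, Nat.add_mul_div_right _ _ (by norm_num)]
    rw [h1, h2]
    nlinarith [ih]

end arith

end Cfsg.Agent.Lib.SpFrames
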