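import Cfsg.Agent.Lib.UnitCount
import Cfsg.Agent.Lib.SpFrames

set_option autoImplicit false

namespace Cfsg.Agent.Lib.HermFrames

open Matrix Cfsg Cfsg.Agent.Lib.HermStd Cfsg.Agent.Lib.HermForm Cfsg.Agent.Lib.HermCount Cfsg.Agent.Lib.HermBasic Cfsg.Agent.Lib.UnitBasic Cfsg.Agent.Lib.SUBasic Cfsg.Agent.Lib.UnitCount Cfsg.Agent.Lib.TICount
open scoped MatrixGroups

section gen

variable {F V : Type*} [Field F] [Fintype F] [AddCommGroup V] [Module F V] [Finite V]

theorem card_diff_set {S : Submodule F V} {U : Set V} (h : (S : Set V) ⊆ U) :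
    Nat.card {w : V // w ∈ U ∧ w ∉ S} + Nat.card S = Nat.card U := by
  classical
  haveI : Fintype V := Fintype.ofFinite V
  simp only [Nat.card_eq_fintype_card]
  rw [Fintype.card_subtype, Fintype.card_ofFinset (s := Finset.univ.filter (· ∈ U)) (by simp), Fintype.card_subtype (· ∈ S)]
  rw [← Finset.card_union_of_disjoint]
  · congr 1
    ext x
    simp only [Finset.mem_union, Finset.mem_filter, Finset.mem_univ, true_and]
    constructor
    · rintro (h1 | h1)
      · exact h1.1
      · exact h h1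
    · intro h1
      by_cases h2 : x ∈ S
      · exact Or.inr h2
      · exact Or.inl ⟨h1, h2⟩
  · rw [Finset.disjoint_left]
    intro x hx hx'
    simp only [Finset.mem_filter, Finset.mem_univ, true_and] at hx hx'
    exact hx.2 hx'

/-- One step of the count of chains of linearly independent vectors. -/
theorem card_step_set {k : ℕ} (A : (Fin k → V) → Prop) (A' : (Fin (k + 1) → V) → Prop)
    (U : (Fin k → V) → Set V) (u : ℕ)
    (hA' : ∀ f v, LinearIndependent F f → (A' (Fin.snoc f v : Fin (k + 1) → V) ↔ A f ∧ v ∈ U f))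
    (hU : ∀ f, LinearIndependent F f → A f → ((Submodule.span F (Set.range f) : Submodule F V) : Set V) ⊆ U f ∧ Nat.card (U f) = u) :
    Nat.card {f : Fin (k + 1) → V // LinearIndependent F f ∧ A' f} =
      Nat.card {f : Fin k → V // LinearIndependent F f ∧ A f} * (u - Fintype.card F ^ k) := by
  classical
  haveI : Fintype V := Fintype.ofFinite V
  have hsnoc : ∀ (f : Fin k → V) (v : V), LinearIndependent F (Fin.snoc f v : Fin (k + 1) → V) ↔
      LinearIndependent F f ∧ v ∉ Submodule.span F (Set.range f) := fun f v => linearIndependent_fin_snoc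
  let π : {f : Fin (k + 1) → V // LinearIndependent F f ∧ A' f} → {f : Fin k → V // LinearIndependent F f ∧ A f} :=
    fun x => ⟨Fin.init x.1, by
      obtain ⟨x, hx, hx'⟩ := x
      have e : x = Fin.snoc (Fin.init x) (x (Fin.last k)) := (Fin.snoc_init_self x).symm
      rw [e] at hx hx'
      have h1 := (hsnoc _ _).1 hx
      exact ⟨h1.1, ((hA' _ _ h1.1).1 hx').1⟩⟩
  have hfib : ∀ y : {f : Fin k → V // LinearIndependent F f ∧ A f},
      Nat.card {x // π x = y} = u - Fintype.card F ^ k := by
    rintro ⟨f, hf, hA⟩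
    obtain ⟨h1, h2⟩ := hU f hf hA
    have h3 := card_diff_set h1
    rw [h2, card_sub (Submodule.span F (Set.range f)), finrank_span_eq_card hf, Fintype.card_fin] at h3
    have h4 : Nat.card {x // π x = ⟨f, hf, hA⟩} = Nat.card {w : V // w ∈ U f ∧ w ∉ Submodule.span F (Set.range f)} := by
      apply Nat.card_congr
      refine
        { toFun := fun x => ⟨x.1.1 (Fin.last k), ?_⟩
          invFun := fun w => ⟨⟨Fin.snoc f w.1, (hsnoc _ _).2 ⟨hf, w.2.2⟩, (hA' _ _ hf).2 ⟨hA, w.2.1⟩⟩, ?_⟩
          left_inv := ?_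
          right_inv := ?_ }
      · obtain ⟨⟨x, hx, hx'⟩, hxy⟩ := x
        have e0 : Fin.init x = f := congrArg Subtype.val hxy
        have e : x = Fin.snoc f (x (Fin.last k)) := by rw [← e0]; exact (Fin.snoc_init_self x).symm
        rw [e] at hx hx'
        exact ⟨((hA' _ _ hf).1 hx').2, ((hsnoc _ _).1 hx).2⟩
      · apply Subtype.ext
        show Fin.init (Fin.snoc f w.1 : Fin (k + 1) → V) = f
        exact Fin.init_snoc _ _
      · rintro ⟨⟨x, hx, hx'⟩, hxy⟩
        have e0 : Fin.init x = f := congrArg Subtype.val hxy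
        apply Subtype.ext
        apply Subtype.ext
        show Fin.snoc f (x (Fin.last k)) = x
        rw [← e0]
        exact Fin.snoc_init_self x
      · rintro ⟨w, hw⟩
        apply Subtype.ext
        show (Fin.snoc f w : Fin (k + 1) → V) (Fin.last k) = w
        exact Fin.snoc_last _ _
    rw [h4]
    omega
  have hE := Nat.card_congr (Equiv.sigmaFiberEquiv π)
  rw [Nat.card_sigma] at hE
  simp only [hfib] at hE
  rw [← hE, Finset.sum_const, Finset.card_univ, smul_eq_mul, Nat.card_eq_fintype_card]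

/-- Count of chains. -/
theorem card_chain_set (A : ∀ k, (Fin k → V) → Prop) (U : ∀ k, (Fin k → V) → Set V) (u : ℕ → ℕ) (n : ℕ)
    (h0 : ∀ f, A 0 f)
    (hA' : ∀ k, k < n → ∀ (f : Fin k → V) v, LinearIndependent F f →
      (A (k + 1) (Fin.snoc f v : Fin (k + 1) → V) ↔ A k f ∧ v ∈ U k f))
    (hU : ∀ k, k < n → ∀ f, LinearIndependent F f → A k f →
      ((Submodule.span F (Set.range f) : Submodule F V) : Set V) ⊆ U k f ∧ Nat.card (U k f) = u k) :
    Nat.card {f : Fin n → V // LinearIndependent F f ∧ A n f} =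
      ∏ i ∈ Finset.range n, (u i - Fintype.card F ^ i) := by
  induction n with
  | zero =>
    simp only [Finset.range_zero, Finset.prod_empty]
    have : Unique {f : Fin 0 → V // LinearIndependent F f ∧ A 0 f} :=
      { default := ⟨default, linearIndependent_empty_type, h0 _⟩
        uniq := fun x => Subtype.ext (Subsingleton.elim _ _) }
    exact Nat.card_unique
  | succ n ih =>
    rw [Finset.prod_range_succ, ← ih (fun k hk => hA' k (by omega)) (fun k hk => hU k (by omega))]
    exact card_step_set (A n) (A (n + 1)) (U n) (u n) (hA' n (by omega)) (hU n (by omega))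

end gen

section herm

variable {F : Type*} [Field F] [Fintype F] {q : ℕ}

/-- Totally isotropic families. -/
def TIf (q : ℕ) {n k : ℕ} (f : Fin k → Fin n → F) : Prop := ∀ i j, hermForm n F q (f i) (f j) = 0

/-- The isotropic vectors perpendicular to a family. -/
def Iso (q : ℕ) {n k : ℕ} (f : Fin k → Fin n → F) : Set (Fin n → F) :=
  {w | (∀ i, hermForm n F q w (f i) = 0) ∧ hermForm n F q w w = 0}

theorem span_ti (hF : Fintype.card F = q ^ 2) {n k : ℕ} {f : Fin k → Fin n → F} (hf : TIf q f) {x y : Fin n → F}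
    (hx : x ∈ Submodule.span F (Set.range f)) (hy : y ∈ Submodule.span F (Set.range f)) : hermForm n F q x y = 0 := by
  have hq := one_lt_q hF
  have h1 : ∀ j, hermForm n F q x (f j) = 0 := by
    intro j
    induction hx using Submodule.span_induction with
    | mem x hx =>
      obtain ⟨i, rfl⟩ := hx
      exact hf i j
    | zero => rw [show (0 : Fin n → F) = (0 : F) • 0 by simp, hf_smul_left]; simp
    | add a b _ _ ha hb => rw [hf_add_left, ha, hb, add_zero]
    | smul c a _ ha => rw [hf_smul_left, ha, mul_zero]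
  induction hy using Submodule.span_induction with
  | mem y hy =>
    obtain ⟨j, rfl⟩ := hy
    exact h1 j
  | zero => exact herm_zero _ _ (by omega)
  | add a b _ _ ha hb => rw [hf_add_right hF, ha, hb, add_zero]
  | smul c a _ ha => rw [hf_smul_right hF, ha, mul_zero]

/-- Witt transitivity on frames. -/
theorem exists_gu_map (hF : Fintype.card F = q ^ 2) {n k : ℕ} {f f' : Fin k → Fin n → F}
    (hf : LinearIndependent F f) (hf' : LinearIndependent F f')
    (hT : TIf q f) (hT' : TIf q f') :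
    ∃ g : GL (Fin n) F, g ∈ GU n F q ∧ ∀ i, (g : Matrix (Fin n) (Fin n) F) *ᵥ f i = f' i := by
  classical
  obtain ⟨A, hA⟩ := Cfsg.Agent.Lib.LeadAffine.exists_linearEquiv_of_linearIndependent hf hf'
  let X : Submodule F (Fin n → F) := Submodule.span F (Set.range f)
  have hmap : ∀ x ∈ X, A x ∈ Submodule.span F (Set.range f') := by
    intro x hx
    have : Submodule.map (A : (Fin n → F) →ₗ[F] (Fin n → F)) X ≤ Submodule.span F (Set.range f') := by
      show Submodule.map (A : (Fin n → F) →ₗ[F] (Fin n → F)) (Submodule.span F (Set.range f)) ≤ _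
      rw [Submodule.map_span, Submodule.span_le]
      rintro _ ⟨_, ⟨i, rfl⟩, rfl⟩
      exact Submodule.subset_span ⟨i, (hA i).symm⟩
    exact this ⟨x, hx, rfl⟩
  obtain ⟨g, hg, hg'⟩ := witt hF X ((A : (Fin n → F) →ₗ[F] (Fin n → F)) ∘ₗ X.subtype) (by
      intro a b hab
      exact Subtype.ext (A.injective hab)) (by
      rintro ⟨x, hx⟩ ⟨y, hy⟩
      show hermForm n F q (A x) (A y) = hermForm n F q x y
      rw [span_ti hF hT hx hy, span_ti hF hT' (hmap x hx) (hmap y hy)])
  refine ⟨g, hg, fun i => ?_⟩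
  rw [← hA i]
  exact hg' ⟨f i, Submodule.subset_span ⟨i, rfl⟩⟩

theorem card_iso_eq (hF : Fintype.card F = q ^ 2) {n k : ℕ} {f f' : Fin k → Fin n → F}
    (hf : LinearIndependent F f) (hf' : LinearIndependent F f')
    (hT : TIf q f) (hT' : TIf q f') : Nat.card (Iso q f) = Nat.card (Iso q f') := by
  obtain ⟨g, hg, hgf⟩ := exists_gu_map hF hf hf' hT hT'
  apply Nat.card_congr
  refine Equiv.subtypeEquiv (mv g) ?_
  intro w
  have hg' := (mem_GU_iff g).1 hg
  show _ ↔ (∀ i, hermForm n F q ((g : Matrix (Fin n) (Fin n) F) *ᵥ w) (f' i) = 0) ∧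
    hermForm n F q ((g : Matrix (Fin n) (Fin n) F) *ᵥ w) ((g : Matrix (Fin n) (Fin n) F) *ᵥ w) = 0
  simp only [← hgf, hg']
  rfl

/-- The embedding of the smaller space. -/
def iota {m : ℕ} (u : Fin m → F) : Fin (m + 2) → F := Fin.cons 0 (Fin.cons 0 u)

theorem herm_iota (hF : Fintype.card F = q ^ 2) {m : ℕ} (w : Fin (m + 2) → F) (u : Fin m → F) :
    hermForm (m + 2) F q w (iota u) = hermForm m F q (Fin.tail (Fin.tail w)) u := by
  have hq := one_lt_q hF
  conv_lhs => rw [eq_cons2 m w, iota, herm_cons, herm_cons]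
  simp [zero_pow (show q ≠ 0 by omega)]

theorem herm_iota_iota (hF : Fintype.card F = q ^ 2) {m : ℕ} (w u : Fin m → F) :
    hermForm (m + 2) F q (iota w) (iota u) = hermForm m F q w u := by
  rw [herm_iota hF]
  rfl

/-- Extending a frame by a hyperbolic vector. -/
def cf (a : F) {m k : ℕ} (f : Fin k → Fin m → F) : Fin (k + 1) → Fin (m + 2) → F :=
  Fin.cons (vv a m) (fun i => iota (f i))

theorem cf_li {a : F} {m k : ℕ} {f : Fin k → Fin m → F} (hf : LinearIndependent F f) :
    LinearIndependent F (cf a f) := by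
  let ι : (Fin m → F) →ₗ[F] (Fin (m + 2) → F) :=
    { toFun := iota
      map_add' := by
        intro x y
        funext i
        refine Fin.cases ?_ (fun i' => ?_) i
        · simp [iota]
        · refine Fin.cases ?_ (fun i'' => ?_) i'
          · simp [iota]
          · simp [iota]
      map_smul' := by
        intro c x
        funext i
        refine Fin.cases ?_ (fun i' => ?_) i
        · simp [iota]
        · refine Fin.cases ?_ (fun i'' => ?_) i'
          · simp [iota]
          · simp [iota] }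
  have hinj : LinearMap.ker ι = ⊥ := by
    rw [LinearMap.ker_eq_bot]
    intro x y hxy
    funext i
    have := congrFun hxy i.succ.succ
    simpa [ι, iota] using this
  have h1 : LinearIndependent F (fun i => iota (f i)) := hf.map' ι hinj
  unfold cf
  rw [linearIndependent_fin_cons]
  refine ⟨h1, ?_⟩
  intro hmem
  have h2 : Submodule.span F (Set.range fun i => iota (f i)) ≤ LinearMap.ker (LinearMap.proj (0 : Fin (m + 2)) : (Fin (m + 2) → F) →ₗ[F] F) := by
    rw [Submodule.span_le]
    rintro _ ⟨i, rfl⟩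
    simp [iota]
  have h3 := h2 hmem
  simp [vv] at h3

theorem cf_ti (hF : Fintype.card F = q ^ 2) {a : F} (ha : a * a ^ q = -1) {m k : ℕ} {f : Fin k → Fin m → F}
    (hf : TIf q f) : TIf q (cf a f) := by
  intro i j
  refine Fin.cases ?_ (fun i' => ?_) i
  · refine Fin.cases ?_ (fun j' => ?_) j
    · exact herm_vv_self hF ha m
    · have hq := one_lt_q hF
      show hermForm (m + 2) F q (vv a m) (iota (f j')) = 0
      rw [herm_iota hF]
      have e : Fin.tail (Fin.tail (vv a m)) = 0 := rfl
      rw [e]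
      simp [hermForm]
  · refine Fin.cases ?_ (fun j' => ?_) j
    · show hermForm (m + 2) F q (iota (f i')) (vv a m) = 0
      rw [herm_vv_right hF]
      simp [iota]
    · show hermForm (m + 2) F q (iota (f i')) (iota (f j')) = 0
      rw [herm_iota_iota hF]
      exact hf i' j'

theorem card_iso_cf (hF : Fintype.card F = q ^ 2) {a : F} (ha : a * a ^ q = -1) {m k : ℕ} (f : Fin k → Fin m → F) :
    Nat.card (Iso q (cf a f)) = q ^ 2 * Nat.card (Iso q f) := by
  classical
  have hq := one_lt_q hF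
  have hn : ∀ s : F, (-(s * a ^ q)) * (-(s * a ^ q)) ^ q + s * s ^ q = 0 := by
    intro s
    have h1 : (a ^ q) ^ q = a := by
      rw [← pow_mul, ← sq, ← hF, FiniteField.pow_card]
    have h2 : (-(s * a ^ q)) ^ q = - (s ^ q * a) := by
      rw [← sig_apply hF, map_neg, map_mul, sig_apply, sig_apply, h1]
    rw [h2]
    linear_combination (s * s ^ q) * ha
  have hself : ∀ (m : ℕ) (x y : F) (v : Fin m → F), hermForm (m + 2) F q (Fin.cons x (Fin.cons y v)) (Fin.cons x (Fin.cons y v)) =
      x * x ^ q + (y * y ^ q + hermForm m F q v v) := by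
    intro m x y v
    rw [herm_cons, herm_cons]
  have hmem : ∀ w : Fin (m + 2) → F, w ∈ Iso q (cf a f) ↔
      w 0 = -(w 1 * a ^ q) ∧ Fin.tail (Fin.tail w) ∈ Iso q f := by
    intro w
    have h0 : hermForm (m + 2) F q w w = hermForm m F q (Fin.tail (Fin.tail w)) (Fin.tail (Fin.tail w)) +
        (w 0 * w 0 ^ q + w 1 * w 1 ^ q) := by
      conv_lhs => rw [eq_cons2 m w, hself]
      ring
    constructor
    · rintro ⟨h1, h2⟩
      have h3 := h1 0
      have h4 : hermForm (m + 2) F q w (vv a m) = 0 := h3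
      rw [herm_vv_right hF] at h4
      have h5 : w 0 = -(w 1 * a ^ q) := by linear_combination h4
      refine ⟨h5, fun i => ?_, ?_⟩
      · have h6 : hermForm (m + 2) F q w (iota (f i)) = 0 := h1 i.succ
        rwa [herm_iota hF] at h6
      · rw [h0, h5] at h2
        have h7 := hn (w 1)
        linear_combination h2 - h7
    · rintro ⟨h5, h6, h7⟩
      refine ⟨fun i => ?_, ?_⟩
      · refine Fin.cases ?_ (fun i' => ?_) i
        · show hermForm (m + 2) F q w (vv a m) = 0
          rw [herm_vv_right hF, h5]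
          ring
        · show hermForm (m + 2) F q w (iota (f i')) = 0
          rw [herm_iota hF]
          exact h6 i'
      · rw [h0, h5, h7]
        have h8 := hn (w 1)
        linear_combination h8
  let E : Iso q (cf a f) ≃ F × Iso q f :=
    { toFun := fun w => (w.1 1, ⟨Fin.tail (Fin.tail w.1), ((hmem w.1).1 w.2).2⟩)
      invFun := fun x => ⟨Fin.cons (-(x.1 * a ^ q)) (Fin.cons x.1 x.2.1), by
        rw [hmem]
        exact ⟨rfl, x.2.2⟩⟩
      left_inv := by
        rintro ⟨w, hw⟩
        apply Subtype.ext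
        have h3 := ((hmem w).1 hw).1
        show (Fin.cons (-(w 1 * a ^ q)) (Fin.cons (w 1) (Fin.tail (Fin.tail w))) : Fin (m + 2) → F) = w
        rw [← h3]
        exact (eq_cons2 m w).symm
      right_inv := by
        rintro ⟨s, v, hv⟩
        apply Prod.ext
        · rfl
        · apply Subtype.ext
          rfl }
  rw [Nat.card_congr E, Nat.card_prod, Nat.card_eq_fintype_card, hF]

/-- A frame with the right count. -/
theorem exists_frame (hF : Fintype.card F = q ^ 2) (k m : ℕ) : ∀ n, n = m + 2 * k →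
    ∃ f : Fin k → Fin n → F, LinearIndependent F f ∧ TIf q f ∧
      Nat.card (Iso q f) = q ^ (2 * k) * Nat.card {v : Fin m → F // hermForm m F q v v = 0} := by
  obtain ⟨a, ha⟩ := exists_a hF
  induction k with
  | zero =>
    intro n hn
    simp only [mul_zero, add_zero] at hn
    subst hn
    refine ⟨Fin.elim0, linearIndependent_empty_type, fun i => i.elim0, ?_⟩
    simp only [mul_zero, pow_zero, one_mul]
    apply Nat.card_congr
    refine Equiv.subtypeEquivRight ?_
    intro w
    constructor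
    · exact fun h => h.2
    · exact fun h => ⟨fun i => i.elim0, h⟩
  | succ k ih =>
    intro n hn
    obtain rfl : n = (m + 2 * k) + 2 := by omega
    obtain ⟨f, h1, h2, h3⟩ := ih (m + 2 * k) rfl
    refine ⟨cf a f, cf_li h1, cf_ti hF ha h2, ?_⟩
    rw [card_iso_cf hF ha, h3]
    ring

theorem card_iso_all (hF : Fintype.card F = q ^ 2) {n k : ℕ} (m : ℕ) (hn : n = m + 2 * k) {f : Fin k → Fin n → F}
    (h1 : LinearIndependent F f) (h2 : TIf q f) :
    Nat.card (Iso q f) = q ^ (2 * k) * Nat.card {v : Fin m → F // hermForm m F q v v = 0} := by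
  obtain ⟨f', h3, h4, h5⟩ := exists_frame hF k m n hn
  rw [card_iso_eq hF h1 h3 h2 h4, h5]

/-- The count of frames. -/
theorem card_Fr (hF : Fintype.card F = q ^ 2) {n : ℕ} (k : ℕ) (hk : 2 * k ≤ n) :
    Nat.card {f : Fin k → Fin n → F // LinearIndependent F f ∧ TIf q f} =
      ∏ i ∈ Finset.range k, (q ^ (2 * i) * Nat.card {v : Fin (n - 2 * i) → F // hermForm (n - 2 * i) F q v v = 0} - (Fintype.card F) ^ i) := by
  classical
  apply card_chain_set (fun k (f : Fin k → Fin n → F) => TIf q f) (fun k f => Iso q f)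
    (fun i => q ^ (2 * i) * Nat.card {v : Fin (n - 2 * i) → F // hermForm (n - 2 * i) F q v v = 0}) k
  · intro f i
    exact i.elim0
  · intro j _ f v _
    constructor
    · intro h
      refine ⟨fun a b => ?_, fun i => ?_, ?_⟩
      · have := h a.castSucc b.castSucc
        rwa [Fin.snoc_castSucc, Fin.snoc_castSucc] at this
      · have := h (Fin.last j) i.castSucc
        rwa [Fin.snoc_castSucc, Fin.snoc_last] at this
      · have := h (Fin.last j) (Fin.last j)
        rwa [Fin.snoc_last] at this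
    · rintro ⟨h1, h2, h3⟩ a b
      refine Fin.lastCases ?_ (fun a' => ?_) a
      · refine Fin.lastCases ?_ (fun b' => ?_) b
        · rw [Fin.snoc_last]
          exact h3
        · rw [Fin.snoc_castSucc, Fin.snoc_last]
          exact h2 b'
      · refine Fin.lastCases ?_ (fun b' => ?_) b
        · rw [Fin.snoc_castSucc, Fin.snoc_last, hf_conj hF, h2 a']
          have hq := one_lt_q hF
          exact zero_pow (by omega)
        · rw [Fin.snoc_castSucc, Fin.snoc_castSucc]
          exact h1 a' b'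
  · intro j hj f hf hT
    constructor
    · intro x hx
      exact ⟨fun i => span_ti hF hT hx (Submodule.subset_span ⟨i, rfl⟩), span_ti hF hT hx hx⟩
    · exact card_iso_all hF (n - 2 * j) (by omega) hf hT

/-- Orbit count for `GU`. -/
theorem card_orbit (hF : Fintype.card F = q ^ 2) {n k : ℕ} (e : Fin k → Fin n → F) (he : LinearIndependent F e) (heT : TIf q e)
    (T : Subgroup (GU n F q)) (Y : (Fin k → Fin n → F) → Prop)
    (hY : ∀ g : GU n F q, g ∈ T ↔ Y (fun i => ((g : GL (Fin n) F) : Matrix (Fin n) (Fin n) F) *ᵥ e i))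
    (hY' : ∀ f, Y f → LinearIndependent F f ∧ TIf q f) :
    Nat.card T * Nat.card {f : Fin k → Fin n → F // LinearIndependent F f ∧ TIf q f} =
      Nat.card {f : Fin k → Fin n → F // Y f} * Nat.card (GU n F q) := by
  classical
  have hmul : ∀ (a b : GU n F q) (x : Fin n → F), (((a * b : GU n F q) : GL (Fin n) F) : Matrix (Fin n) (Fin n) F) *ᵥ x =
      ((a : GL (Fin n) F) : Matrix (Fin n) (Fin n) F) *ᵥ (((b : GL (Fin n) F) : Matrix (Fin n) (Fin n) F) *ᵥ x) := by
    intro a b x
    rw [Matrix.mulVec_mulVec]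
    rfl
  have hone : ∀ x : Fin n → F, (((1 : GU n F q) : GL (Fin n) F) : Matrix (Fin n) (Fin n) F) *ᵥ x = x := by
    intro x
    exact Matrix.one_mulVec x
  have hinv : ∀ (a : GU n F q) (x : Fin n → F), (((a⁻¹ : GU n F q) : GL (Fin n) F) : Matrix (Fin n) (Fin n) F) *ᵥ (((a : GL (Fin n) F) : Matrix (Fin n) (Fin n) F) *ᵥ x) = x := by
    intro a x
    rw [← hmul, inv_mul_cancel, hone]
  have hinv' : ∀ (a : GU n F q) (x : Fin n → F), ((a : GL (Fin n) F) : Matrix (Fin n) (Fin n) F) *ᵥ (((a⁻¹ : GU n F q) : GL (Fin n) F) : Matrix (Fin n) (Fin n) F) *ᵥ x = x := by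
    intro a x
    rw [← hmul, mul_inv_cancel, hone]
  have hli : ∀ g : GU n F q, LinearIndependent F (fun i => ((g : GL (Fin n) F) : Matrix (Fin n) (Fin n) F) *ᵥ e i) := by
    intro g
    have h1 : LinearMap.ker (((g : GL (Fin n) F) : Matrix (Fin n) (Fin n) F).mulVecLin) = ⊥ := by
      rw [LinearMap.ker_eq_bot]
      intro x y hxy
      have h2 : ((g : GL (Fin n) F) : Matrix (Fin n) (Fin n) F) *ᵥ x = ((g : GL (Fin n) F) : Matrix (Fin n) (Fin n) F) *ᵥ y := hxy
      rw [← hinv g x, ← hinv g y, h2]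
    have h2 := he.map' ((g : GL (Fin n) F) : Matrix (Fin n) (Fin n) F).mulVecLin h1
    have e3 : (((g : GL (Fin n) F) : Matrix (Fin n) (Fin n) F).mulVecLin ∘ e) = fun i => ((g : GL (Fin n) F) : Matrix (Fin n) (Fin n) F) *ᵥ e i := by
      funext i
      simp
    rwa [e3] at h2
  have hti : ∀ g : GU n F q, TIf q (fun i => ((g : GL (Fin n) F) : Matrix (Fin n) (Fin n) F) *ᵥ e i) := by
    intro g i j
    show hermForm n F q _ _ = 0
    rw [(mem_GU_iff _).1 g.2]
    exact heT i j
  let P : Subgroup (GU n F q) :=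
    { carrier := {g | ∀ i, ((g : GL (Fin n) F) : Matrix (Fin n) (Fin n) F) *ᵥ e i = e i}
      mul_mem' := by
        intro a b ha hb i
        rw [hmul, hb i, ha i]
      one_mem' := by
        intro i
        exact hone _
      inv_mem' := by
        intro a ha i
        have h1 := hinv a (e i)
        rwa [ha i] at h1 }
  have hP : ∀ a b : GU n F q, (∀ i, ((a : GL (Fin n) F) : Matrix (Fin n) (Fin n) F) *ᵥ e i = ((b : GL (Fin n) F) : Matrix (Fin n) (Fin n) F) *ᵥ e i) ↔ a⁻¹ * b ∈ P := by
    intro a b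
    constructor
    · intro h i
      rw [hmul, ← h i, hinv]
    · intro h i
      have h1 := h i
      rw [hmul] at h1
      calc ((a : GL (Fin n) F) : Matrix (Fin n) (Fin n) F) *ᵥ e i
          = ((a : GL (Fin n) F) : Matrix (Fin n) (Fin n) F) *ᵥ (((a⁻¹ : GU n F q) : GL (Fin n) F) : Matrix (Fin n) (Fin n) F) *ᵥ ((b : GL (Fin n) F) : Matrix (Fin n) (Fin n) F) *ᵥ e i := by rw [h1]
        _ = _ := hinv' _ _
  have h1 : Nat.card (GU n F q) = Nat.card {f : Fin k → Fin n → F // LinearIndependent F f ∧ TIf q f} * Nat.card P := by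
    apply Cfsg.Agent.Lib.SympOrder.card_eq_of_fiber P
      (fun g => (⟨fun i => ((g : GL (Fin n) F) : Matrix (Fin n) (Fin n) F) *ᵥ e i, hli g, hti g⟩ :
        {f : Fin k → Fin n → F // LinearIndependent F f ∧ TIf q f}))
    · rintro ⟨f, hf, hfT⟩
      obtain ⟨g, hg, hg'⟩ := exists_gu_map hF he hf heT hfT
      exact ⟨⟨g, hg⟩, Subtype.ext (funext hg')⟩
    · intro a b
      rw [← hP, Subtype.mk.injEq, funext_iff]
  have hPT : P ≤ T := by
    intro g hg
    rw [hY]
    have h3 : Y (fun i => (((1 : GU n F q) : GL (Fin n) F) : Matrix (Fin n) (Fin n) F) *ᵥ e i) := (hY 1).1 T.one_mem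
    have e2 : (fun i => ((g : GL (Fin n) F) : Matrix (Fin n) (Fin n) F) *ᵥ e i) = (fun i => (((1 : GU n F q) : GL (Fin n) F) : Matrix (Fin n) (Fin n) F) *ᵥ e i) := by
      funext i
      rw [hg i, hone]
    rw [e2]
    exact h3
  have h2 : Nat.card T = Nat.card {f : Fin k → Fin n → F // Y f} * Nat.card (P.subgroupOf T) := by
    apply Cfsg.Agent.Lib.SympOrder.card_eq_of_fiber (P.subgroupOf T)
      (fun g : T => (⟨fun i => (((g : GU n F q) : GL (Fin n) F) : Matrix (Fin n) (Fin n) F) *ᵥ e i, (hY g).1 g.2⟩ :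
        {f : Fin k → Fin n → F // Y f}))
    · rintro ⟨f, hf⟩
      obtain ⟨h3, h4⟩ := hY' f hf
      obtain ⟨g, hg, hg'⟩ := exists_gu_map hF he h3 heT h4
      have e1 : (fun i => (((⟨g, hg⟩ : GU n F q) : GL (Fin n) F) : Matrix (Fin n) (Fin n) F) *ᵥ e i) = f := funext hg'
      refine ⟨⟨⟨g, hg⟩, (hY _).2 (by rw [e1]; exact hf)⟩, Subtype.ext e1⟩
    · intro a b
      rw [Subgroup.mem_subgroupOf, Subtype.mk.injEq, funext_iff]
      exact hP a b
  have h3 : Nat.card (P.subgroupOf T) = Nat.card P := Nat.card_congr (Subgroup.subgroupOfEquivOfLe hPT).toEquiv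
  rw [h2, h1, h3]
  ring

/-- rank one updates. -/
def R1 (q : ℕ) {n : ℕ} (c : F) (x y : Fin n → F) : Matrix (Fin n) (Fin n) F :=
  1 + replicateCol Unit (c • x) * replicateRow Unit (fun i => y i ^ q)

theorem R1_mulVec {n : ℕ} (c : F) (x y v : Fin n → F) :
    R1 q c x y *ᵥ v = v + (c * hermForm n F q v y) • x := by
  funext i
  simp only [R1, Matrix.add_mulVec, Matrix.one_mulVec, Pi.add_apply, Pi.smul_apply, smul_eq_mul, hermForm]
  congr 1
  simp only [Matrix.mulVec, dotProduct, Matrix.mul_apply, replicateCol_apply, replicateRow_apply, Fintype.sum_unique, Pi.smul_apply, smul_eq_mul, Finset.mul_sum, Finset.sum_mul]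
  refine Finset.sum_congr rfl fun j _ => ?_
  ring

theorem R1_det {n : ℕ} (c : F) (x y : Fin n → F) :
    (R1 q c x y).det = 1 + c * hermForm n F q x y := by
  rw [R1, det_one_add_replicateCol_mul_replicateRow]
  congr 1
  simp only [dotProduct, Pi.smul_apply, smul_eq_mul, hermForm, Finset.mul_sum]
  refine Finset.sum_congr rfl fun j _ => ?_
  ring

theorem exists_partner (hF : Fintype.card F = q ^ 2) {n k : ℕ} (e : Fin (k + 1) → Fin n → F)
    (he : LinearIndependent F e) (hT : TIf q e) :
    ∃ w : Fin n → F, hermForm n F q (e 0) w = 1 ∧ (∀ i : Fin k, hermForm n F q (e i.succ) w = 0) ∧ hermForm n F q w w = 0 := by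
  classical
  have he' : LinearIndependent F (Fin.cons (e 0) (Fin.tail e) : Fin (k + 1) → Fin n → F) := by
    rwa [Fin.cons_self_tail]
  rw [linearIndependent_fin_cons] at he'
  obtain ⟨y, hy1, hy2⟩ := exists_perp (Bh_nondeg hF n) (Submodule.span F (Set.range (Fin.tail e))) he'.2
  have hy1' : ∀ i : Fin k, hermForm n F q (e i.succ) y = 0 := fun i => hy1 _ (Submodule.subset_span ⟨i, rfl⟩)
  have hy2' : hermForm n F q (e 0) y = 1 := hy2
  have hy3 : hermForm n F q y (e 0) = 1 := by
    rw [hf_conj hF (e 0) y, hy2', one_pow]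
  obtain ⟨t, ht⟩ := trace_surj (sig hF) (sig_ne hF) (sig_sig hF) (-hermForm n F q y y) (by
    rw [map_neg, sig_apply, ← hf_conj hF])
  rw [sig_apply] at ht
  refine ⟨y + t • e 0, ?_, fun i => ?_, ?_⟩
  · rw [hf_add_right hF, hf_smul_right hF, hy2', hT 0 0]
    ring
  · rw [hf_add_right hF, hf_smul_right hF, hy1' i, hT i.succ 0]
    ring
  · rw [hf_add_right hF, hf_add_left, hf_add_left, hf_smul_right hF, hf_smul_right hF, hf_smul_left, hf_smul_left,
      hy3, hy2', hT 0 0]
    linear_combination ht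

theorem exists_scale (hF : Fintype.card F = q ^ 2) {n k : ℕ} (e : Fin (k + 1) → Fin n → F)
    (he : LinearIndependent F e) (hT : TIf q e) (x : F) (hx : x ^ (q + 1) = 1) :
    ∃ g : GL (Fin n) F, g ∈ GU n F q ∧ (g : Matrix (Fin n) (Fin n) F).det = x ∧
      (∃ b : F, (g : Matrix (Fin n) (Fin n) F) *ᵥ e 0 = b • e 0) ∧
      ∀ i : Fin k, (g : Matrix (Fin n) (Fin n) F) *ᵥ e i.succ = e i.succ := by
  classical
  obtain ⟨w, h1, h2, h3⟩ := exists_partner hF e he hT
  have h1' : hermForm n F q w (e 0) = 1 := by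
    rw [hf_conj hF (e 0) w, h1, one_pow]
  obtain ⟨b, hb0, hb⟩ := hilbert90 (sig hF) (sig_ne hF) (sig_sig hF) x (by
    rw [sig_apply, ← pow_succ']
    exact hx)
  rw [sig_apply] at hb
  have hx0 : x ≠ 0 := by
    intro h0
    rw [h0, zero_pow (by omega)] at hx
    exact zero_ne_one hx
  have hbq : b ^ q ≠ 0 := pow_ne_zero _ hb0
  let c : F := (b ^ q)⁻¹
  have hc1 : c * b ^ q = 1 := inv_mul_cancel₀ hbq
  have hc0 : c ≠ 0 := inv_ne_zero hbq
  have hbb : (b ^ q) ^ q = b := by
    rw [← pow_mul, ← sq, ← hF, FiniteField.pow_card]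
  have hc2 : b * c ^ q = 1 := by
    have : c ^ q * (b ^ q) ^ q = 1 := by rw [← mul_pow, hc1, one_pow]
    rwa [hbb, mul_comm] at this
  have hbc : b * c = x := by
    have : b * c = x * b ^ q * c := by rw [hb]
    rw [this, mul_assoc, mul_comm (b ^ q), hc1, mul_one]
  let G : Matrix (Fin n) (Fin n) F := R1 q (b - 1) (e 0) w * R1 q (c - 1) w (e 0)
  have hG : ∀ v, G *ᵥ v = v + ((c - 1) * hermForm n F q v (e 0)) • w + ((b - 1) * hermForm n F q v w) • e 0 := by
    intro v
    show (R1 q (b - 1) (e 0) w * R1 q (c - 1) w (e 0)) *ᵥ v = _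
    rw [← Matrix.mulVec_mulVec, R1_mulVec, R1_mulVec, hf_add_left, hf_smul_left, h3, mul_zero, add_zero]
  have hdet : G.det = x := by
    show (R1 q (b - 1) (e 0) w * R1 q (c - 1) w (e 0)).det = x
    rw [Matrix.det_mul, R1_det, R1_det, h1, h1', ← hbc]
    ring
  have hσ : ∀ y : F, (y - 1) ^ q = y ^ q - 1 := by
    intro y
    rw [← sig_apply hF, map_sub, map_one, sig_apply]
  refine ⟨Matrix.GeneralLinearGroup.mkOfDetNeZero G (by rw [hdet]; exact hx0), ?_, hdet, ⟨b, ?_⟩, fun i => ?_⟩
  · rw [mem_GU_iff]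
    intro u v
    show hermForm n F q (G *ᵥ u) (G *ᵥ v) = _
    rw [hG, hG]
    simp only [hf_add_left, hf_add_right hF, hf_smul_left, hf_smul_right hF, h1, h1', h3, hT 0 0, mul_pow, hσ]
    rw [hf_conj hF v w, hf_conj hF v (e 0)]
    linear_combination (hermForm n F q u w * (hermForm n F q v (e 0)) ^ q) * hc2 + (hermForm n F q u (e 0) * (hermForm n F q v w) ^ q) * hc1
  · show G *ᵥ e 0 = _
    rw [hG, h1, hT 0 0]
    simp only [mul_zero, zero_smul, add_zero, mul_one, sub_smul, one_smul]
    abel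
  · show G *ᵥ e i.succ = _
    rw [hG, h2 i, hT i.succ 0]
    simp

end herm

end Cfsg.Agent.Lib.HermFrames
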