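import Mathlib
import Cfsg.Agent.Lib.ItoRank
import Cfsg.Agent.Lib.FGSBasic
import Cfsg.Agent.Lib.PNilp
import Cfsg.Agent.Lib.ExtraIdx

set_option autoImplicit false

/-! Ito's theorem on groups with two class sizes (seat helper2). -/

namespace Cfsg.Agent.Lib.ItoTwo

open Subgroup

variable {G : Type*} [Group G]

/-- part of a product of commuting elements of coprime orders is a power of the product -/
theorem pow_of_commute_coprime [Finite G] {x y : G} (hc : Commute x y) (hco : Nat.Coprime (orderOf x) (orderOf y)) :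
    ∃ m : ℕ, (x * y) ^ m = x := by
  obtain ⟨m, hm1, hm2⟩ := Nat.chineseRemainder hco 1 0
  refine ⟨m, ?_⟩
  rw [hc.mul_pow]
  have h1 : x ^ m = x ^ 1 := pow_eq_pow_iff_modEq.mpr hm1
  have h2 : y ^ m = y ^ 0 := pow_eq_pow_iff_modEq.mpr hm2
  rw [h1, h2, pow_one, pow_zero, mul_one]

theorem cent_le_of_eq_pow {x y : G} {m : ℕ} (h : x ^ m = y) :
    centralizer ({x} : Set G) ≤ centralizer ({y} : Set G) := by
  intro u hu
  rw [Subgroup.mem_centralizer_singleton_iff] at hu ⊢
  rw [← h]
  exact Commute.pow_right hu m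

/-- commuting modulo the center, for coprime orders, is commuting -/
theorem commute_of_central_commutator [Finite G] {u l : G} (hc : u * l * u⁻¹ * l⁻¹ ∈ center G)
    (hco : Nat.Coprime (orderOf u) (orderOf l)) : Commute u l := by
  set c := u * l * u⁻¹ * l⁻¹ with hcdef
  have hcc : ∀ v : G, Commute c v := fun v => (Subgroup.mem_center_iff.mp hc v).symm
  have h1 : u * l = c * l * u := by rw [hcdef]; group
  have h2 : ∀ m : ℕ, u ^ m * l = c ^ m * l * u ^ m := by
    intro m
    induction m with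
    | zero => simp
    | succ m ih =>
      rw [pow_succ, pow_succ]
      calc u ^ m * u * l = u ^ m * (u * l) := by group
        _ = u ^ m * (c * l * u) := by rw [h1]
        _ = (u ^ m * c) * l * u := by group
        _ = (c * u ^ m) * l * u := by rw [(hcc (u ^ m)).eq]
        _ = c * (u ^ m * l) * u := by group
        _ = c * (c ^ m * l * u ^ m) * u := by rw [ih]
        _ = (c * c ^ m) * l * (u ^ m * u) := by group
        _ = c ^ m * c * l * (u ^ m * u) := by rw [(Commute.pow_right (Commute.refl c) m).eq]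
  have h3 := h2 (orderOf u)
  rw [pow_orderOf_eq_one, one_mul, mul_one] at h3
  have h4 : c ^ orderOf u = 1 := by
    have : c ^ orderOf u * l = 1 * l := by rw [one_mul]; exact h3.symm
    exact mul_right_cancel this
  have h5 : (c * l) ^ orderOf l = u * l ^ orderOf l * u⁻¹ := by
    have : c * l = u * l * u⁻¹ := by
      rw [hcdef]; group
    rw [this, conj_pow]
  rw [pow_orderOf_eq_one, mul_one, mul_inv_cancel, (hcc l).mul_pow, pow_orderOf_eq_one, mul_one] at h5
  have h6 : orderOf c ∣ orderOf u := orderOf_dvd_of_pow_eq_one h4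
  have h7 : orderOf c ∣ orderOf l := orderOf_dvd_of_pow_eq_one h5
  have h8 : orderOf c = 1 := Nat.eq_one_of_dvd_coprimes hco h6 h7
  have h9 : c = 1 := orderOf_eq_one_iff.mp h8
  rw [h9] at h1
  simpa [Commute, SemiconjBy] using h1

section main

variable [Finite G] {n : ℕ} (hn : 1 < n)
  (h : ∀ x : G, (centralizer ({x} : Set G)).index = 1 ∨ (centralizer ({x} : Set G)).index = n)

include h in
theorem idx_noncentral {x : G} (hx : x ∉ center G) : (centralizer ({x} : Set G)).index = n := by
  refine (h x).resolve_left (fun h1 => hx ?_)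
  rw [Subgroup.index_eq_one] at h1
  rw [Subgroup.mem_center_iff]
  intro v
  have : v ∈ centralizer ({x} : Set G) := by rw [h1]; trivial
  exact Subgroup.mem_centralizer_singleton_iff.mp this

include hn h in
theorem eq_of_le {u v : G} (hu : u ∉ center G) (hv : v ∉ center G)
    (hle : centralizer ({u} : Set G) ≤ centralizer ({v} : Set G)) :
    centralizer ({u} : Set G) = centralizer ({v} : Set G) := by
  have h1 := Subgroup.relIndex_mul_index hle
  rw [idx_noncentral h hu, idx_noncentral h hv] at h1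
  have h2 : (centralizer ({u} : Set G)).relIndex (centralizer ({v} : Set G)) = 1 := by
    have h3 : 0 < n := by omega
    exact Nat.eq_of_mul_eq_mul_right h3 (by rw [h1, one_mul])
  exact le_antisymm hle (Subgroup.relIndex_eq_one.mp h2)

include hn h in
theorem cent_eq_of_commute {x y : G} (hx : x ∉ center G) (hy : y ∉ center G) (hc : Commute x y)
    (hco : Nat.Coprime (orderOf x) (orderOf y)) : centralizer ({x} : Set G) = centralizer ({y} : Set G) := by
  obtain ⟨m, hm⟩ := pow_of_commute_coprime hc hco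
  obtain ⟨m', hm'⟩ := pow_of_commute_coprime hc.symm hco.symm
  have hxy : x * y ∉ center G := by
    intro h1
    apply hx
    rw [← hm]
    exact pow_mem h1 m
  have h1 := eq_of_le hn h hxy hx (cent_le_of_eq_pow hm)
  have h2 : y * x = x * y := hc.symm.eq
  rw [h2] at hm'
  have h3 := eq_of_le hn h hxy hy (cent_le_of_eq_pow hm')
  exact h1.symm.trans h3

/-- prime-power part which is not central -/
theorem exists_part {x : G} (hx : x ∉ center G) :
    ∃ u ∈ zpowers x, u ∉ center G ∧ ∃ s k : ℕ, s.Prime ∧ orderOf u = s ^ k := by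
  by_contra hcon
  push Not at hcon
  apply hx
  have h1 := Lib.FGSBasic.mem_closure_primePow_parts x
  refine (Subgroup.closure_le _).mpr ?_ h1
  rintro y ⟨hy, s, k, hs, hsk⟩
  by_contra hyc
  exact hcon y hy hyc s k hs hsk

include hn h in
theorem cent_eq_of_part {x u : G} (hx : x ∉ center G) (hu : u ∈ zpowers x) (huc : u ∉ center G) :
    centralizer ({x} : Set G) = centralizer ({u} : Set G) := by
  apply eq_of_le hn h hx huc
  intro v hv
  rw [Subgroup.mem_centralizer_singleton_iff] at hv ⊢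
  obtain ⟨i, rfl⟩ := hu
  exact Commute.zpow_right hv i

include hn h in
/-- noncentral elements of any other prime in a centralizer -/
theorem exists_other {x : G} (hx : x ∉ center G) {s k : ℕ} (hs : s.Prime) (hxo : orderOf x = s ^ k)
    {t : ℕ} (ht : t.Prime) (hts : t ≠ s) {y : G} (hy : y ∉ center G) {j : ℕ} (hyo : orderOf y = t ^ j) :
    ∃ w ∈ centralizer ({x} : Set G), w ∉ center G ∧ (∃ i, orderOf w = t ^ i) ∧
      centralizer ({w} : Set G) = centralizer ({x} : Set G) := by
  classical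
  haveI : Fact t.Prime := ⟨ht⟩
  set C : Subgroup G := centralizer ({x} : Set G) with hC
  obtain Q₀ : Sylow t C := default
  by_cases hall : ∀ w : C, w ∈ (Q₀ : Subgroup C) → (w : G) ∈ center G
  · exfalso
    set Q' : Subgroup G := (Q₀ : Subgroup C).map C.subtype with hQ'
    have hQ'Z : Q' ≤ center G := by
      rintro _ ⟨w, hw, rfl⟩
      exact hall w hw
    haveI hQ'n : Q'.Normal := ⟨fun u hu g => by
      have h1 := hQ'Z hu
      have h2 : g * u * g⁻¹ = u := by
        rw [Subgroup.mem_center_iff.mp h1 g]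
        group
      rw [h2]
      exact hu⟩
    have hQ'p : IsPGroup t Q' := Q₀.isPGroup'.map _
    have hyz : IsPGroup t (zpowers y) := by
      apply IsPGroup.of_card (n := j)
      rw [Nat.card_zpowers, hyo]
    have hT : IsPGroup t ↥(Q' ⊔ zpowers y) := hQ'p.to_sup_of_normal_left hyz
    have hTC : Q' ⊔ zpowers y ≤ centralizer ({y} : Set G) := by
      refine sup_le ?_ ?_
      · intro u hu
        rw [Subgroup.mem_centralizer_singleton_iff]
        exact (Subgroup.mem_center_iff.mp (hQ'Z hu) y).symm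
      · rw [Subgroup.zpowers_le, Subgroup.mem_centralizer_singleton_iff]
    have hcards : Nat.card (centralizer ({y} : Set G)) = Nat.card C := by
      have h1 := Subgroup.card_mul_index (centralizer ({y} : Set G))
      have h2 := Subgroup.card_mul_index C
      rw [idx_noncentral h hy] at h1
      rw [hC, idx_noncentral h hx] at h2
      rw [hC]
      have h3 : 0 < n := by omega
      exact Nat.eq_of_mul_eq_mul_right h3 (h1.trans h2.symm)
    obtain ⟨b, hb⟩ := IsPGroup.iff_card.mp hT
    have hd : t ^ b ∣ Nat.card C := by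
      rw [← hb, ← hcards]
      exact Subgroup.card_dvd_of_le hTC
    have hQ0 := Sylow.card_eq_multiplicity Q₀
    have hle : b ≤ (Nat.card C).factorization t :=
      (Nat.Prime.pow_dvd_iff_le_factorization ht Nat.card_pos.ne').mp hd
    have hQc : Nat.card Q' = Nat.card Q₀ :=
      (Nat.card_congr (Subgroup.equivMapOfInjective _ _ C.subtype_injective).toEquiv).symm
    have heq : Q' = Q' ⊔ zpowers y := by
      apply Subgroup.eq_of_le_of_card_ge le_sup_left
      rw [hb, hQc, hQ0]
      exact Nat.pow_le_pow_right ht.pos hle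
    have hyQ : y ∈ Q' := by
      rw [heq]
      exact Subgroup.mem_sup_right (mem_zpowers y)
    exact hy (hQ'Z hyQ)
  · push Not at hall
    obtain ⟨w, hw, hwZ⟩ := hall
    obtain ⟨i, hi⟩ := IsPGroup.iff_orderOf.mp Q₀.isPGroup' ⟨w, hw⟩
    have hi' : orderOf (w : G) = t ^ i := by
      rw [← hi, Subgroup.orderOf_mk, Subgroup.orderOf_coe]
    have hwx : Commute (w : G) x := Subgroup.mem_centralizer_singleton_iff.mp w.2
    have hco : Nat.Coprime (orderOf (w : G)) (orderOf x) := by
      rw [hi', hxo]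
      exact Nat.Coprime.pow _ _ ((Nat.coprime_primes ht hs).mpr hts)
    exact ⟨w, w.2, hwZ, ⟨i, hi'⟩, cent_eq_of_commute hn h hwZ hx hwx hco⟩

/-- two primes: the centralizers are abelian -/
theorem key_abelian (hn : 1 < n)
    (h : ∀ x : G, (centralizer ({x} : Set G)).index = 1 ∨ (centralizer ({x} : Set G)).index = n)
    {q r : ℕ} (hq : q.Prime) (hr : r.Prime) (hqr : q ≠ r) {y₁ y₂ : G} (hy₁ : y₁ ∉ center G) (hy₂ : y₂ ∉ center G)
    {k₁ k₂ : ℕ} (hk₁ : orderOf y₁ = q ^ k₁) (hk₂ : orderOf y₂ = r ^ k₂) {x : G} (hx : x ∉ center G) :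
    ∀ a ∈ centralizer ({x} : Set G), ∀ b ∈ centralizer ({x} : Set G), a * b = b * a := by
  classical
  obtain ⟨u, hu, huc, s, k, hs, hso⟩ := exists_part hx
  have hCu := cent_eq_of_part hn h hx hu huc
  set C : Subgroup G := centralizer ({x} : Set G) with hC
  -- prime-power elements are central in `C`
  have hkey : ∀ c ∈ C, ∀ s' k' : ℕ, s'.Prime → orderOf c = s' ^ k' → ∀ d ∈ C, c * d = d * c := by
    intro c hc s' k' hs' hck d hd
    by_cases hcZ : c ∈ center G
    · exact (Subgroup.mem_center_iff.mp hcZ d).symm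
    obtain ⟨w, hwC, hwZ, ⟨i, t, ht, hts', hwo⟩⟩ : ∃ w ∈ C, w ∉ center G ∧ ∃ i t : ℕ, t.Prime ∧ t ≠ s' ∧ orderOf w = t ^ i ∧
        centralizer ({w} : Set G) = C := by
      by_cases hss : s = s'
      · subst hss
        by_cases hqs : q = s
        · obtain ⟨w, hw, hwZ, ⟨i, hi⟩, hwe⟩ := exists_other hn h huc hs hso hr (fun h' => hqr (hqs.trans h'.symm)) hy₂ hk₂
          rw [← hCu] at hw hwe
          exact ⟨w, hw, hwZ, i, r, hr, fun h' => hqr (hqs.trans h'.symm), hi, hwe⟩
        · obtain ⟨w, hw, hwZ, ⟨i, hi⟩, hwe⟩ := exists_other hn h huc hs hso hq hqs hy₁ hk₁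
          rw [← hCu] at hw hwe
          exact ⟨w, hw, hwZ, i, q, hq, hqs, hi, hwe⟩
      · refine ⟨u, ?_, huc, k, s, hs, hss, hso, hCu.symm⟩
        rw [hCu, Subgroup.mem_centralizer_singleton_iff]
    obtain ⟨hwo, hwe⟩ := hwo
    have hcw : Commute c w := by
      rw [← hwe] at hc
      exact Subgroup.mem_centralizer_singleton_iff.mp hc
    have hco : Nat.Coprime (orderOf c) (orderOf w) := by
      rw [hck, hwo]
      exact Nat.Coprime.pow _ _ ((Nat.coprime_primes hs' ht).mpr (Ne.symm hts'))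
    have h1 := cent_eq_of_commute hn h hcZ hwZ hcw hco
    have h2 : d ∈ centralizer ({c} : Set G) := by
      rw [h1, hwe]; exact hd
    exact (Subgroup.mem_centralizer_singleton_iff.mp h2).symm
  intro a ha b hb
  have h1 := Lib.FGSBasic.mem_closure_primePow_parts a
  have h2 : Subgroup.closure {y | y ∈ zpowers a ∧ ∃ q k : ℕ, q.Prime ∧ orderOf y = q ^ k} ≤ centralizer (C : Set G) := by
    rw [Subgroup.closure_le]
    rintro y ⟨hy, s', k', hs', hk'⟩
    have hyC : y ∈ C := by
      have : zpowers a ≤ C := by rwa [Subgroup.zpowers_le]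
      exact this hy
    show y ∈ centralizer (C : Set G)
    rw [Subgroup.mem_centralizer_iff]
    intro d hd
    exact (hkey y hyC s' k' hs' hk' d hd).symm
  have h3 := h2 h1
  exact (Subgroup.mem_centralizer_iff.mp h3 b hb).symm

/-- the elements in an abelian centralizer have the same centralizer -/
theorem cent_eq_of_mem (hn : 1 < n)
    (h : ∀ x : G, (centralizer ({x} : Set G)).index = 1 ∨ (centralizer ({x} : Set G)).index = n)
    {x a : G} (hx : x ∉ center G) (hab : ∀ a ∈ centralizer ({x} : Set G), ∀ b ∈ centralizer ({x} : Set G), a * b = b * a)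
    (ha : a ∈ centralizer ({x} : Set G)) (haZ : a ∉ center G) : centralizer ({a} : Set G) = centralizer ({x} : Set G) := by
  symm
  apply eq_of_le hn h hx haZ
  intro b hb
  rw [Subgroup.mem_centralizer_singleton_iff]
  exact hab b hb a ha

/-- `|C(x) : Z| ≤ n` -/
theorem relIndex_le (hn : 1 < n)
    (h : ∀ x : G, (centralizer ({x} : Set G)).index = 1 ∨ (centralizer ({x} : Set G)).index = n)
    {x : G} (hx : x ∉ center G) (hab : ∀ a ∈ centralizer ({x} : Set G), ∀ b ∈ centralizer ({x} : Set G), a * b = b * a) :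
    (center G).relIndex (centralizer ({x} : Set G)) ≤ n := by
  classical
  have hZ : center G ≤ centralizer ({x} : Set G) := by
    intro u hu
    rw [Subgroup.mem_centralizer_singleton_iff]
    exact (Subgroup.mem_center_iff.mp hu x).symm
  have hidx := idx_noncentral h hx
  obtain ⟨y, hy⟩ : ∃ y : G, y ∉ centralizer ({x} : Set G) := by
    by_contra hall
    push Not at hall
    have : centralizer ({x} : Set G) = ⊤ := eq_top_iff.mpr (fun g _ => hall g)
    rw [this, Subgroup.index_top] at hidx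
    omega
  have hyZ : y ∉ center G := fun h' => hy (hZ h')
  have hinf : centralizer ({y} : Set G) ⊓ centralizer ({x} : Set G) = center G := by
    apply le_antisymm
    · rintro a ⟨ha1, ha2⟩
      by_contra haZ
      have h1 := cent_eq_of_mem hn h hx hab ha2 haZ
      apply hy
      rw [← h1, Subgroup.mem_centralizer_singleton_iff]
      exact (Subgroup.mem_centralizer_singleton_iff.mp ha1).symm
    · intro u hu
      refine ⟨?_, hZ hu⟩
      show u ∈ centralizer ({y} : Set G)
      rw [Subgroup.mem_centralizer_singleton_iff]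
      exact (Subgroup.mem_center_iff.mp hu y).symm
  rw [← hinf, Subgroup.inf_relIndex_right]
  have h1 : (centralizer ({y} : Set G)).relIndex (centralizer ({x} : Set G)) ≤
      (centralizer ({y} : Set G)).relIndex ⊤ := by
    apply Subgroup.relIndex_le_of_le_right le_top
    rw [Subgroup.relIndex_top_right]
    exact Subgroup.index_ne_zero_of_finite
  rw [Subgroup.relIndex_top_right, idx_noncentral h hyZ] at h1
  exact h1

/-- noncentral element of each prime dividing `|G : Z|` -/
theorem exists_noncentral_of_dvd {s : ℕ} (hs : s.Prime) (hd : s ∣ (center G).index) :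
    ∃ y : G, y ∉ center G ∧ ∃ k, orderOf y = s ^ k := by
  haveI : Fact s.Prime := ⟨hs⟩
  rw [Subgroup.index_eq_card] at hd
  obtain ⟨yb, hyb⟩ := exists_prime_orderOf_dvd_card' (G := G ⧸ center G) s hd
  obtain ⟨y, rfl⟩ := QuotientGroup.mk_surjective yb
  obtain ⟨a, b, -, -, hab, ⟨k, hk⟩, hb⟩ := Lib.FGSBasic.exists_p_decomp s y
  refine ⟨a, ?_, k, hk⟩
  intro haZ
  have h1 : (y : G ⧸ center G) = (b : G ⧸ center G) := by
    rw [← hab, QuotientGroup.mk_mul, (QuotientGroup.eq_one_iff a).mpr haZ, one_mul]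
  have h2 : orderOf (y : G ⧸ center G) ∣ orderOf b := by
    rw [h1]
    exact orderOf_map_dvd (QuotientGroup.mk' (center G)) b
  rw [hyb] at h2
  exact (Nat.Prime.coprime_iff_not_dvd hs).mp hb.symm h2

/-- the local inequality -/
theorem local_ineq (hn : 1 < n)
    (h : ∀ x : G, (centralizer ({x} : Set G)).index = 1 ∨ (centralizer ({x} : Set G)).index = n)
    (hab : ∀ x : G, x ∉ center G → ∀ a ∈ centralizer ({x} : Set G), ∀ b ∈ centralizer ({x} : Set G), a * b = b * a)
    {K : ℕ} (hK : ∀ x : G, x ∉ center G → (center G).relIndex (centralizer ({x} : Set G)) = K)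
    {p t : ℕ} (hp : p.Prime) (ht : t.Prime) (hpt : p ≠ t) (hpd : p ∣ (center G).index) (htd : t ∣ (center G).index) :
    p ^ n.factorization p < t ^ K.factorization t := by
  classical
  haveI : Fact p.Prime := ⟨hp⟩
  haveI : Fact t.Prime := ⟨ht⟩
  obtain ⟨y₁, hy₁, k₁, hk₁⟩ := exists_noncentral_of_dvd hp hpd
  obtain ⟨y₂, hy₂, k₂, hk₂⟩ := exists_noncentral_of_dvd ht htd
  obtain P : Sylow p G := default
  let π := QuotientGroup.mk' (center G)
  -- `P` is not central
  obtain ⟨g₀, hg₀⟩ := Lib.PNilp.exists_conj_mem_sylow P y₁ ⟨k₁, by rw [← hk₁, pow_orderOf_eq_one]⟩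
  have hcn : (center G).Normal := inferInstance
  have hPnc : ∃ v ∈ (P : Subgroup G), v ∉ center G := ⟨g₀ * y₁ * g₀⁻¹, hg₀, fun h1 => hy₁ (by
    have := hcn.conj_mem _ h1 g₀⁻¹
    simpa [mul_assoc] using this)⟩
  set Pb : Subgroup (G ⧸ center G) := (P : Subgroup G).map π with hPb
  have hPbp : IsPGroup p Pb := P.isPGroup'.map π
  haveI hPbnt : Nontrivial Pb := by
    obtain ⟨v, hv, hvZ⟩ := hPnc
    refine ⟨⟨⟨π v, ⟨v, hv, rfl⟩⟩, 1, ?_⟩⟩
    intro h1
    exact hvZ ((QuotientGroup.eq_one_iff v).mp (congrArg Subtype.val h1))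
  haveI := hPbp.center_nontrivial
  obtain ⟨wb, hwb⟩ := exists_ne (1 : center Pb)
  obtain ⟨a, haP, hae⟩ : ∃ a ∈ (P : Subgroup G), π a = (((wb : Pb) : G ⧸ center G)) := (wb : Pb).2
  have haZ : a ∉ center G := by
    intro h1
    apply hwb
    apply Subtype.ext
    apply Subtype.ext
    rw [← hae]
    exact (QuotientGroup.eq_one_iff a).mpr h1
  have hcomm : ∀ g ∈ (P : Subgroup G), π (g⁻¹ * a * g) = π a := by
    intro g hg
    have h1 := Subgroup.mem_center_iff.mp wb.2 ⟨π g, ⟨g, hg, rfl⟩⟩
    have h2 : π g * π a = π a * π g := by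
      rw [hae]
      exact congrArg Subtype.val h1
    rw [map_mul, map_mul, map_inv, mul_assoc, ← h2]
    group
  set B : Subgroup G := centralizer ({a} : Set G) with hB
  have hPB : ∀ g ∈ (P : Subgroup G), ∀ b ∈ B, g * b * g⁻¹ ∈ B := by
    intro g hg b hb
    have hc : a⁻¹ * (g⁻¹ * a * g) ∈ center G := by
      rw [← QuotientGroup.eq_one_iff]
      show π (a⁻¹ * (g⁻¹ * a * g)) = 1
      rw [map_mul, hcomm g hg, map_inv]
      group
    have hba : Commute b a := Subgroup.mem_centralizer_singleton_iff.mp hb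
    have hbc : Commute b (a⁻¹ * (g⁻¹ * a * g)) := (Subgroup.mem_center_iff.mp hc b)
    have h1 : Commute b (g⁻¹ * a * g) := by
      have h2 : g⁻¹ * a * g = a * (a⁻¹ * (g⁻¹ * a * g)) := by group
      rw [h2]
      exact hba.mul_right hbc
    show g * b * g⁻¹ ∈ centralizer ({a} : Set G)
    rw [Subgroup.mem_centralizer_singleton_iff]
    calc g * b * g⁻¹ * a = g * (b * (g⁻¹ * a * g)) * g⁻¹ := by group
      _ = g * ((g⁻¹ * a * g) * b) * g⁻¹ := by rw [h1.eq]
      _ = a * (g * b * g⁻¹) := by group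
  have hPord : ∀ g ∈ (P : Subgroup G), ∃ k, orderOf g = p ^ k := by
    intro g hg
    obtain ⟨k, hk⟩ := IsPGroup.iff_orderOf.mp P.isPGroup' ⟨g, hg⟩
    exact ⟨k, by rw [← hk, Subgroup.orderOf_mk]⟩
  obtain ⟨k₀, hao⟩ := hPord a haP
  obtain ⟨u, huB, huZ, ⟨i, hi⟩, hue⟩ := exists_other hn h haZ hp hao ht (Ne.symm hpt) hy₂ hk₂
  have hue' : centralizer ({u} : Set G) = B := hue
  -- the quotient `B/Z`
  have hZB : center G ≤ B := by
    intro w hw
    rw [hB, Subgroup.mem_centralizer_singleton_iff]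
    exact (Subgroup.mem_center_iff.mp hw a).symm
  haveI hB'n : ((center G).subgroupOf B).Normal := hcn.subgroupOf B
  have hQcard : Nat.card (↥B ⧸ (center G).subgroupOf B) = K := by
    rw [← hK a haZ]; rfl
  have hQcomm : ∀ x y : ↥B ⧸ (center G).subgroupOf B, x * y = y * x := by
    intro x y
    obtain ⟨x, rfl⟩ := QuotientGroup.mk_surjective x
    obtain ⟨y, rfl⟩ := QuotientGroup.mk_surjective y
    rw [← QuotientGroup.mk_mul, ← QuotientGroup.mk_mul]
    congr 1
    apply Subtype.ext
    exact hab a haZ x x.2 y y.2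
  obtain S₀ : Sylow t (↥B ⧸ (center G).subgroupOf B) := default
  have hS₀n : (S₀ : Subgroup (↥B ⧸ (center G).subgroupOf B)).Normal := by
    refine ⟨fun x hx g => ?_⟩
    rw [hQcomm g x]
    simpa using hx
  have hS₀c : Nat.card S₀ = t ^ K.factorization t := by
    rw [Sylow.card_eq_multiplicity S₀, hQcard]
  have huu : ∀ g : (P : Subgroup G), (g : G) * u * (g : G)⁻¹ ∈ B := fun g => hPB g g.2 u huB
  let ψ₀ : ↥(P : Subgroup G) → ↥B ⧸ (center G).subgroupOf B := fun g => ((⟨(g : G) * u * (g : G)⁻¹, huu g⟩ : B) : ↥B ⧸ (center G).subgroupOf B)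
  have hψ₀S : ∀ g, ψ₀ g ∈ (S₀ : Subgroup (↥B ⧸ (center G).subgroupOf B)) := by
    intro g
    apply Lib.FGSBasic.mem_sylow_of_normal S₀ hS₀n
    have h1 : orderOf (ψ₀ g) ∣ orderOf (⟨(g : G) * u * (g : G)⁻¹, huu g⟩ : B) :=
      orderOf_map_dvd (QuotientGroup.mk' ((center G).subgroupOf B)) _
    rw [Subgroup.orderOf_mk, Lib.FGSBasic.orderOf_conj, hi] at h1
    obtain ⟨j, -, hj⟩ := (Nat.dvd_prime_pow ht).mp h1
    exact ⟨j, hj⟩
  let ψ : ↥(P : Subgroup G) → (S₀ : Subgroup (↥B ⧸ (center G).subgroupOf B)) := fun g => ⟨ψ₀ g, hψ₀S g⟩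
  have hψeq : ∀ a' b' : (P : Subgroup G), ψ a' = ψ b' ↔ a'⁻¹ * b' ∈ B.subgroupOf (P : Subgroup G) := by
    intro a' b'
    constructor
    · intro hab'
      have h1 : ψ₀ a' = ψ₀ b' := congrArg Subtype.val hab'
      rw [QuotientGroup.eq] at h1
      have h2 : ((a' : G) * u * (a' : G)⁻¹)⁻¹ * ((b' : G) * u * (b' : G)⁻¹) ∈ center G := h1
      set l : G := (a' : G)⁻¹ * (b' : G) with hl
      have h3 : u⁻¹ * l * u⁻¹⁻¹ * l⁻¹ ∈ center G := by
        have h4 := hcn.conj_mem _ h2 (a' : G)⁻¹
        have h5 : (a' : G)⁻¹ * (((a' : G) * u * (a' : G)⁻¹)⁻¹ * ((b' : G) * u * (b' : G)⁻¹)) * (a' : G)⁻¹⁻¹ = u⁻¹ * l * u⁻¹⁻¹ * l⁻¹ := by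
          rw [hl]; group
        rwa [h5] at h4
      have hlP : l ∈ (P : Subgroup G) := mul_mem (inv_mem a'.2) b'.2
      obtain ⟨c, hc⟩ := hPord l hlP
      have hco : Nat.Coprime (orderOf u⁻¹) (orderOf l) := by
        rw [orderOf_inv, hi, hc]
        exact Nat.Coprime.pow _ _ ((Nat.coprime_primes ht hp).mpr (Ne.symm hpt))
      have h6 := commute_of_central_commutator h3 hco
      have h7 : Commute l u := (Commute.inv_left_iff.mp h6).symm
      rw [Subgroup.mem_subgroupOf]
      show l ∈ B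
      rw [← hue', Subgroup.mem_centralizer_singleton_iff]
      exact h7
    · intro hab'
      rw [Subgroup.mem_subgroupOf] at hab'
      have h0 : ((a' : G))⁻¹ * (b' : G) ∈ B := hab'
      rw [← hue', Subgroup.mem_centralizer_singleton_iff] at h0
      apply Subtype.ext
      show ψ₀ a' = ψ₀ b'
      show (((⟨(a' : G) * u * (a' : G)⁻¹, huu a'⟩ : B)) : ↥B ⧸ (center G).subgroupOf B) = _
      congr 1
      apply Subtype.ext
      show (a' : G) * u * (a' : G)⁻¹ = (b' : G) * u * (b' : G)⁻¹
      calc (a' : G) * u * (a' : G)⁻¹ = (a' : G) * u * (a' : G)⁻¹ * 1 := by group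
        _ = (a' : G) * (u * ((a' : G)⁻¹ * (b' : G))) * ((a' : G)⁻¹ * (b' : G))⁻¹ * (a' : G)⁻¹ := by group
        _ = (a' : G) * (((a' : G)⁻¹ * (b' : G)) * u) * ((a' : G)⁻¹ * (b' : G))⁻¹ * (a' : G)⁻¹ := by rw [h0]
        _ = (b' : G) * u * (b' : G)⁻¹ := by group
  have hψne : ∀ g, ψ g ≠ 1 := by
    intro g hg
    have h1 : ψ₀ g = 1 := congrArg Subtype.val hg
    have h2 : (⟨(g : G) * u * (g : G)⁻¹, huu g⟩ : B) ∈ (center G).subgroupOf B := (QuotientGroup.eq_one_iff _).mp h1
    have h3 : (g : G) * u * (g : G)⁻¹ ∈ center G := h2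
    apply huZ
    have h4 := hcn.conj_mem _ h3 (g : G)⁻¹
    simpa [mul_assoc] using h4
  let Ψ : (P : Subgroup G) ⧸ B.subgroupOf (P : Subgroup G) → (S₀ : Subgroup (↥B ⧸ (center G).subgroupOf B)) :=
    Quotient.lift ψ (fun a' b' hab' => (hψeq a' b').mpr (QuotientGroup.leftRel_apply.mp hab'))
  have hΨinj : Function.Injective Ψ := by
    intro x y hxy
    obtain ⟨x, rfl⟩ := QuotientGroup.mk_surjective x
    obtain ⟨y, rfl⟩ := QuotientGroup.mk_surjective y
    exact QuotientGroup.eq.mpr ((hψeq x y).mp hxy)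
  have hΨne : (1 : (S₀ : Subgroup (↥B ⧸ (center G).subgroupOf B))) ∉ Set.range Ψ := by
    rintro ⟨x, hx⟩
    obtain ⟨x, rfl⟩ := QuotientGroup.mk_surjective x
    exact hψne x hx
  have hupper : B.relIndex (P : Subgroup G) < t ^ K.factorization t := by
    rw [← hS₀c]
    show Nat.card ((P : Subgroup G) ⧸ B.subgroupOf (P : Subgroup G)) < _
    haveI := Fintype.ofFinite ((P : Subgroup G) ⧸ B.subgroupOf (P : Subgroup G))
    haveI := Fintype.ofFinite (S₀ : Subgroup (↥B ⧸ (center G).subgroupOf B))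
    rw [Nat.card_eq_fintype_card, Nat.card_eq_fintype_card]
    exact Fintype.card_lt_of_injective_of_notMem Ψ hΨinj hΨne
  -- the lower bound
  have hlower : p ^ n.factorization p ≤ B.relIndex (P : Subgroup G) := by
    have h1 := Lib.ExtraIdx.card_inf_mul_relIndex B (P : Subgroup G)
    rw [Sylow.card_eq_multiplicity P] at h1
    have h2 : Nat.card G = Nat.card B * n := by
      rw [← idx_noncentral h haZ]
      exact (Subgroup.card_mul_index B).symm
    have hBne : Nat.card B ≠ 0 := Nat.card_pos.ne'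
    have hnne : n ≠ 0 := by omega
    rw [h2, Nat.factorization_mul hBne hnne, Finsupp.add_apply, pow_add] at h1
    have h3 : IsPGroup p ↥(B ⊓ (P : Subgroup G)) := P.isPGroup'.to_le inf_le_right
    obtain ⟨c, hc⟩ := IsPGroup.iff_card.mp h3
    have h4 : Nat.card ↥(B ⊓ (P : Subgroup G)) ∣ Nat.card B := Subgroup.card_dvd_of_le inf_le_left
    rw [hc] at h4 h1
    have h5 : c ≤ (Nat.card B).factorization p := (Nat.Prime.pow_dvd_iff_le_factorization hp hBne).mp h4
    obtain ⟨d, hd⟩ := Nat.exists_eq_add_of_le h5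
    rw [hd, pow_add, mul_assoc] at h1
    have h6 : B.relIndex (P : Subgroup G) = p ^ d * p ^ n.factorization p :=
      Nat.eq_of_mul_eq_mul_left (pow_pos hp.pos c) h1
    rw [h6]
    exact Nat.le_mul_of_pos_left _ (pow_pos hp.pos d)
  omega

theorem prod_superset {m : ℕ} (hm : m ≠ 0) (S : Finset ℕ) (hS : m.primeFactors ⊆ S) :
    ∏ s ∈ S, s ^ m.factorization s = m := by
  have h1 := Nat.factorization_prod_pow_eq_self hm
  rw [Finsupp.prod_of_support_subset _ (by simpa using hS) _ (by simp)] at h1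
  exact h1

/-- **Ito**: two different primes give a contradiction. -/
theorem two_primes_false (hn : 1 < n)
    (h : ∀ x : G, (centralizer ({x} : Set G)).index = 1 ∨ (centralizer ({x} : Set G)).index = n)
    {q r : ℕ} (hq : q.Prime) (hr : r.Prime) (hqr : q ≠ r) {y₁ y₂ : G} (hy₁ : y₁ ∉ center G) (hy₂ : y₂ ∉ center G)
    {k₁ k₂ : ℕ} (hk₁ : orderOf y₁ = q ^ k₁) (hk₂ : orderOf y₂ = r ^ k₂) : False := by
  classical
  have hab : ∀ x : G, x ∉ center G → ∀ a ∈ centralizer ({x} : Set G), ∀ b ∈ centralizer ({x} : Set G), a * b = b * a :=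
    fun x hx => key_abelian hn h hq hr hqr hy₁ hy₂ hk₁ hk₂ hx
  have hZle : ∀ x : G, center G ≤ centralizer ({x} : Set G) := by
    intro x u hu
    rw [Subgroup.mem_centralizer_singleton_iff]
    exact (Subgroup.mem_center_iff.mp hu x).symm
  set K : ℕ := (center G).relIndex (centralizer ({y₁} : Set G)) with hKdef
  have hKn : K * n = (center G).index := by
    have h1 := Subgroup.relIndex_mul_index (hZle y₁)
    rwa [idx_noncentral h hy₁] at h1
  have hK : ∀ x : G, x ∉ center G → (center G).relIndex (centralizer ({x} : Set G)) = K := by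
    intro x hx
    have h1 := Subgroup.relIndex_mul_index (hZle x)
    rw [idx_noncentral h hx, ← hKn] at h1
    exact Nat.eq_of_mul_eq_mul_right (by omega) h1
  have hKle : K ≤ n := relIndex_le hn h hy₁ (hab y₁ hy₁)
  have hidx0 : (center G).index ≠ 0 := Subgroup.index_ne_zero_of_finite
  have hK0 : K ≠ 0 := by
    rintro h0
    rw [h0, zero_mul] at hKn
    exact hidx0 hKn.symm
  have hn0 : n ≠ 0 := by omega
  set π : Finset ℕ := ((center G).index).primeFactors with hπ
  have hsn : n.primeFactors ⊆ π := by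
    apply Nat.primeFactors_mono _ hidx0
    exact ⟨K, by rw [← hKn, mul_comm]⟩
  have hsK : K.primeFactors ⊆ π := by
    apply Nat.primeFactors_mono _ hidx0
    exact ⟨n, by rw [← hKn]⟩
  have hmemπ : ∀ s k : ℕ, s.Prime → ∀ y : G, y ∉ center G → orderOf y = s ^ k → s ∈ π := by
    intro s k hs y hy hk
    rw [hπ, Nat.mem_primeFactors]
    refine ⟨hs, ?_, hidx0⟩
    rw [Subgroup.index_eq_card]
    have h1 : orderOf (y : G ⧸ center G) ∣ s ^ k := by
      rw [← hk]
      exact orderOf_map_dvd (QuotientGroup.mk' (center G)) y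
    obtain ⟨j, -, hj⟩ := (Nat.dvd_prime_pow hs).mp h1
    have hj0 : j ≠ 0 := by
      rintro rfl
      rw [pow_zero] at hj
      have := orderOf_eq_one_iff.mp hj
      exact hy ((QuotientGroup.eq_one_iff y).mp this)
    have h2 : s ∣ orderOf (y : G ⧸ center G) := by
      rw [hj]; exact dvd_pow_self s hj0
    exact h2.trans (orderOf_dvd_natCard _)
  have hqπ := hmemπ q k₁ hq y₁ hy₁ hk₁
  have hrπ := hmemπ r k₂ hr y₂ hy₂ hk₂
  -- a fixed-point-free permutation
  have hcard : 2 ≤ π.card := by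
    have : ({q, r} : Finset ℕ) ⊆ π := by
      intro s hs
      simp only [Finset.mem_insert, Finset.mem_singleton] at hs
      rcases hs with rfl | rfl
      · exact hqπ
      · exact hrπ
    have h1 := Finset.card_le_card this
    rwa [Finset.card_pair hqr] at h1
  obtain ⟨m, hm⟩ : ∃ m, π.card = m + 2 := ⟨π.card - 2, by omega⟩
  let e : π ≃ Fin (m + 2) := (π.equivFinOfCardEq hm)
  let σ : π ≃ π := e.trans ((finRotate (m + 2)).trans e.symm)
  have hσ : ∀ s : π, σ s ≠ s := by
    intro s hs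
    have h1 : e.symm (finRotate (m + 2) (e s)) = s := hs
    have h2 : finRotate (m + 2) (e s) = e s := by
      rw [Equiv.symm_apply_eq] at h1
      exact h1
    rw [finRotate_succ_apply] at h2
    have h3 : (1 : Fin (m + 2)) = 0 := by
      have h4 : e s + 1 = e s + 0 := by rw [h2, add_zero]
      exact add_left_cancel h4
    exact absurd h3 (by simp)
  have hlt : ∏ s : π, ((s : ℕ) ^ n.factorization s) < ∏ s : π, (((σ s : π) : ℕ) ^ K.factorization (σ s : π)) := by
    apply Finset.prod_lt_prod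
    · intro s _
      exact pow_pos (Nat.pos_of_mem_primeFactors s.2) _
    · intro s _
      have hs := Nat.mem_primeFactors.mp s.2
      have hs' := Nat.mem_primeFactors.mp (σ s).2
      exact (local_ineq hn h hab hK hs.1 hs'.1 (fun h' => hσ s (Subtype.ext h'.symm)) hs.2.1 hs'.2.1).le
    · obtain ⟨s⟩ : Nonempty π := ⟨⟨q, hqπ⟩⟩
      refine ⟨s, Finset.mem_univ _, ?_⟩
      have hs := Nat.mem_primeFactors.mp s.2
      have hs' := Nat.mem_primeFactors.mp (σ s).2
      exact local_ineq hn h hab hK hs.1 hs'.1 (fun h' => hσ s (Subtype.ext h'.symm)) hs.2.1 hs'.2.1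
  have h1 : ∏ s : π, ((s : ℕ) ^ n.factorization s) = n := by
    rw [Finset.prod_coe_sort π (fun s => s ^ n.factorization s)]
    exact prod_superset hn0 π hsn
  have h2 : ∏ s : π, (((σ s : π) : ℕ) ^ K.factorization (σ s : π)) = K := by
    rw [Equiv.prod_comp σ (fun s : π => (s : ℕ) ^ K.factorization (s : ℕ)),
      Finset.prod_coe_sort π (fun s => s ^ K.factorization s)]
    exact prod_superset hK0 π hsK
  rw [h1, h2] at hlt
  omega

end main

end Cfsg.Agent.Lib.ItoTwo
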