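import Mathlib
import Cfsg.Prelude.Def_Balance
import Cfsg.Agent.Lib.Comp3
import Cfsg.Agent.Lib.H1Cop
import Cfsg.Agent.S1304
import Cfsg.Agent.Lib.H1Frat
import Cfsg.Agent.Lib.H1Fit

set_option autoImplicit false
set_option linter.style.haveILetI false
set_option linter.unusedSectionVars false

/-! L-balance: components and the `p'`-core of centralizers of elements of order `p`. -/

namespace Cfsg.Agent.Lib.LBal

open Cfsg Cfsg.Agent.Lib.H1Core Cfsg.Agent.Lib.Comp Cfsg.Agent.Lib.Comp2 Cfsg.Agent.Lib.Comp3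
open scoped commutatorElement

section Pref

variable {G H : Type*} [Group G] [Group H]

/-- ordered product of the first `n` values of `f`. -/
def pref (f : ℕ → G) : ℕ → G
  | 0 => 1
  | n + 1 => pref f n * f n

@[simp] theorem pref_zero (f : ℕ → G) : pref f 0 = 1 := rfl

theorem pref_succ (f : ℕ → G) (n : ℕ) : pref f (n + 1) = pref f n * f n := rfl

theorem pref_succ' (f : ℕ → G) (n : ℕ) :
    pref f (n + 1) = f 0 * pref (fun i => f (i + 1)) n := by
  induction n with
  | zero => simp [pref]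
  | succ n ih =>
    rw [pref_succ, ih, pref_succ]
    simp [mul_assoc]

theorem commute_pref {m : G} {f : ℕ → G} {n : ℕ} (h : ∀ i < n, Commute m (f i)) :
    Commute m (pref f n) := by
  induction n with
  | zero => exact Commute.one_right m
  | succ n ih =>
    rw [pref_succ]
    exact (ih fun i hi => h i (by omega)).mul_right (h n (by omega))

theorem pref_map (φ : G →* H) (f : ℕ → G) (n : ℕ) :
    φ (pref f n) = pref (fun i => φ (f i)) n := by
  induction n with
  | zero => simp
  | succ n ih => rw [pref_succ, pref_succ, map_mul, ih]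

theorem pref_mul {f g : ℕ → G} {n : ℕ} (h : ∀ i < n, ∀ j < i, Commute (f i) (g j)) :
    pref (fun i => f i * g i) n = pref f n * pref g n := by
  induction n with
  | zero => simp
  | succ n ih =>
    rw [pref_succ, pref_succ, pref_succ, ih fun i hi j hj => h i (by omega) j hj]
    have h1 : Commute (f n) (pref g n) := commute_pref fun j hj => h n (by omega) j hj
    calc pref f n * pref g n * (f n * g n) = pref f n * (pref g n * f n) * g n := by group
      _ = pref f n * (f n * pref g n) * g n := by rw [h1.eq]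
      _ = pref f n * f n * (pref g n * g n) := by group

theorem pref_mem {S : Subgroup G} {f : ℕ → G} {n : ℕ} (h : ∀ i < n, f i ∈ S) : pref f n ∈ S := by
  induction n with
  | zero => exact S.one_mem
  | succ n ih =>
    rw [pref_succ]
    exact S.mul_mem (ih fun i hi => h i (by omega)) (h n (by omega))

end Pref

section Diag

variable {G : Type*} [Group G]

/-- the `i`-th conjugate. -/
def cf (x l : G) (i : ℕ) : G := x ^ i * l * (x ^ i)⁻¹

theorem cf_zero (x l : G) : cf x l 0 = l := by simp [cf]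

theorem cf_mul (x a b : G) (i : ℕ) : cf x (a * b) i = cf x a i * cf x b i := by
  simp only [cf]
  group

theorem cf_one (x : G) (i : ℕ) : cf x 1 i = 1 := by simp [cf]

theorem conj_cf (x l : G) (i : ℕ) : x * cf x l i * x⁻¹ = cf x l (i + 1) := by
  simp only [cf, pow_succ']
  group

/-- the diagonal homomorphism. -/
def diag (x : G) (p : ℕ) (L : Subgroup G)
    (hc : ∀ i < p, ∀ j < p, i ≠ j → ∀ a ∈ L, ∀ b ∈ L, Commute (cf x a i) (cf x b j)) :
    ↥L →* G where
  toFun l := pref (cf x l) p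
  map_one' := by
    have : cf x (1 : G) = fun _ => 1 := funext (cf_one x)
    show pref (cf x (1 : G)) p = 1
    rw [this]
    have key : ∀ n, pref (fun _ : ℕ => (1 : G)) n = 1 := by
      intro n
      induction n with
      | zero => rfl
      | succ n ih => rw [pref_succ, ih, one_mul]
    exact key p
  map_mul' := by
    intro a b
    show pref (cf x ((a : G) * b)) p = pref (cf x a) p * pref (cf x b) p
    have : cf x ((a : G) * b) = fun i => cf x a i * cf x b i := funext (cf_mul x a b)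
    rw [this]
    exact pref_mul fun i hi j hj => hc i hi j (hj.trans hi) (by omega) a a.2 b b.2

variable {x : G} {p : ℕ} {L : Subgroup G}
  {hc : ∀ i < p, ∀ j < p, i ≠ j → ∀ a ∈ L, ∀ b ∈ L, Commute (cf x a i) (cf x b j)}

theorem diag_apply (l : ↥L) : diag x p L hc l = pref (cf x l) p := rfl

/-- The tail of the diagonal. -/
def tl (x : G) (p : ℕ) (l : G) : G := pref (fun i => cf x l (i + 1)) (p - 1)

theorem diag_eq_head (hp : 0 < p) (l : ↥L) : diag x p L hc l = l * tl x p l := by
  obtain ⟨q, rfl⟩ : ∃ q, p = q + 1 := ⟨p - 1, by omega⟩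
  rw [diag_apply, pref_succ', cf_zero]
  rfl

theorem tl_comm (hc : ∀ i < p, ∀ j < p, i ≠ j → ∀ a ∈ L, ∀ b ∈ L, Commute (cf x a i) (cf x b j))
    (hp : 0 < p) (l : ↥L) {m : G} (hm : m ∈ L) : Commute m (tl x p l) := by
  apply commute_pref
  intro i hi
  have := hc 0 hp (i + 1) (by omega) (by omega) m hm l l.2
  rwa [cf_zero] at this

theorem diag_fix (hp : 0 < p) (hx : x ^ p = 1) (l : ↥L) :
    x * diag x p L hc l * x⁻¹ = diag x p L hc l := by
  rw [diag_apply]
  have h1 := pref_map (MulAut.conj x).toMonoidHom (cf x l) p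
  have h2 : (fun i => (MulAut.conj x).toMonoidHom (cf x l i)) = fun i => cf x l (i + 1) := by
    funext i
    exact conj_cf x l i
  rw [h2] at h1
  have h3 : x * pref (cf x l) p * x⁻¹ = pref (fun i => cf x l (i + 1)) p := h1
  rw [h3]
  obtain ⟨q, rfl⟩ : ∃ q, p = q + 1 := ⟨p - 1, by omega⟩
  rw [pref_succ, pref_succ']
  have h4 : cf x l (q + 1) = l := by
    simp [cf, hx]
  rw [h4, cf_zero]
  exact (tl_comm hc (Nat.succ_pos q) l l.2).eq.symm

theorem diag_ker (hp : 0 < p) {l : ↥L} (hl : diag x p L hc l = 1) {m : G} (hm : m ∈ L) :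
    m * l = l * m := by
  rw [diag_eq_head hp] at hl
  have h1 : (l : G) = (tl x p l)⁻¹ := eq_inv_of_mul_eq_one_left hl
  have h2 := tl_comm hc hp l hm
  rw [h1]
  exact (h2.inv_right).eq

theorem diag_ker_le (hp : 0 < p) : (diag x p L hc).ker ≤ Subgroup.center ↥L := by
  intro l hl
  rw [Subgroup.mem_center_iff]
  intro m
  apply Subtype.ext
  exact diag_ker hp (MonoidHom.mem_ker.mp hl) m.2

theorem diag_conj {c : G} (hcx : c * x = x * c) (l m : ↥L) (hm : (m : G) = c * l * c⁻¹) :
    diag x p L hc m = c * diag x p L hc l * c⁻¹ := by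
  rw [diag_apply, diag_apply]
  have h1 := pref_map (MulAut.conj c).toMonoidHom (cf x l) p
  have h3 : c * pref (cf x l) p * c⁻¹ = pref (fun i => (MulAut.conj c).toMonoidHom (cf x l i)) p := h1
  rw [h3]
  congr 1
  funext i
  have hci : Commute c (x ^ i) := (show Commute c x from hcx).pow_right i
  show cf x m i = c * (x ^ i * l * (x ^ i)⁻¹) * c⁻¹
  rw [cf, hm]
  have h5 : c⁻¹ * x ^ i = x ^ i * c⁻¹ := (hci.inv_left).eq
  calc x ^ i * (c * l * c⁻¹) * (x ^ i)⁻¹
      = (x ^ i * c) * l * c⁻¹ * (x ^ i)⁻¹ := by group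
    _ = (c * x ^ i) * l * c⁻¹ * (x ^ i)⁻¹ := by rw [hci.eq]
    _ = c * (x ^ i * l * (x ^ i)⁻¹) * c⁻¹ := by
        have h6 : c⁻¹ * (x ^ i)⁻¹ = (x ^ i)⁻¹ * c⁻¹ := (hci.inv_left.inv_right).eq
        calc c * x ^ i * l * c⁻¹ * (x ^ i)⁻¹ = c * x ^ i * l * (c⁻¹ * (x ^ i)⁻¹) := by group
          _ = c * x ^ i * l * ((x ^ i)⁻¹ * c⁻¹) := by rw [h6]
          _ = c * (x ^ i * l * (x ^ i)⁻¹) * c⁻¹ := by group

end Diag

section Aut

variable {G : Type*} [Group G]

/-- an element normalizing a perfect subgroup and acting trivially modulo its center centralizes it. -/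
theorem central_action_trivial {L : Subgroup G} (hperf : commutator ↥L = ⊤) {y : G}
    (hy : y ∈ Subgroup.normalizer (L : Set G))
    (h : ∀ l ∈ L, ∀ m ∈ L, m * (y * l * y⁻¹ * l⁻¹) = (y * l * y⁻¹ * l⁻¹) * m) :
    ∀ l ∈ L, y * l = l * y := by
  have hy' : y⁻¹ ∈ Subgroup.normalizer (L : Set G) := Subgroup.inv_mem _ hy
  let α : ↥L ≃* ↥L :=
    { toFun := fun l => ⟨y * l * y⁻¹, (Subgroup.mem_normalizer_iff.mp hy l).mp l.2⟩
      invFun := fun l => ⟨y⁻¹ * l * y, by
        have := (Subgroup.mem_normalizer_iff.mp hy' l).mp l.2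
        simpa using this⟩
      left_inv := fun l => by
        apply Subtype.ext
        simp [mul_assoc]
      right_inv := fun l => by
        apply Subtype.ext
        simp [mul_assoc]
      map_mul' := fun a b => by
        apply Subtype.ext
        simp [mul_assoc] }
  have h1 := Cfsg.Agent.S1304.result hperf α (fun l => by
    rw [Subgroup.mem_center_iff]
    intro m
    apply Subtype.ext
    exact h l l.2 m m.2)
  intro l hl
  have h2 := congrArg Subtype.val (h1 ⟨l, hl⟩)
  have h3 : y * l * y⁻¹ = l := h2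
  rwa [mul_inv_eq_iff_eq_mul] at h3

theorem comp_normalizes {K M : Subgroup G} (hK : IsComponent K) (hM : IsComponent M) :
    K ≤ Subgroup.normalizer (M : Set G) := by
  by_cases h : K = M
  · rw [h]
    exact Subgroup.le_normalizer
  · have := comm_iff.mp (comp_comm_comp hK hM h)
    refine Subgroup.le_normalizer_iff.mpr fun k hk m hm => ?_
    rw [this k hk m hm]
    simpa using hm

end Aut

section Main

variable {G : Type*} [Group G] [Finite G] {p : ℕ} [hp : Fact p.Prime]

/-- the conjugate of a subgroup. -/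
abbrev cj (g : G) (A : Subgroup G) : Subgroup G := A.map (MulAut.conj g).toMonoidHom

theorem mem_cj {g x : G} {A : Subgroup G} : x ∈ cj g A ↔ g⁻¹ * x * g ∈ A := by
  constructor
  · rintro ⟨u, hu, rfl⟩
    have : g⁻¹ * ((MulAut.conj g).toMonoidHom u) * g = u := by
      simp [MulAut.conj_apply]
      group
    rwa [this]
  · intro h
    refine ⟨_, h, ?_⟩
    simp [MulAut.conj_apply]
    group

theorem cj_mem {g x : G} {A : Subgroup G} (h : x ∈ A) : g * x * g⁻¹ ∈ cj g A :=
  ⟨x, h, rfl⟩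

theorem cj_cj (g h : G) (A : Subgroup G) : cj g (cj h A) = cj (g * h) A := by
  ext x
  simp only [mem_cj]
  have e : h⁻¹ * (g⁻¹ * x * g) * h = (g * h)⁻¹ * x * (g * h) := by group
  rw [e]

theorem cj_one (A : Subgroup G) : cj (1 : G) A = A := by
  ext x
  simp [mem_cj]

theorem isComponent_cj {L : Subgroup G} (hL : IsComponent L) (g : G) : IsComponent (cj g L) :=
  isComponent_map_equiv hL (MulAut.conj g)

theorem comp_not_coprime (hO : pPrimeCore p G = ⊥) {L : Subgroup G} (hL : IsComponent L) :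
    ¬ (Nat.card L).Coprime p := by
  intro hc
  have h1 := coprime_subnormal_le hL.1 hc
  rw [hO] at h1
  exact comp_ne_bot hL (le_bot_iff.mp h1)

/-- Case: `x` centralizes `L`. -/
theorem lbal_central_case (hO : pPrimeCore p G = ⊥) {x : G} {L Y : Subgroup G} (hL : IsComponent L)
    (hYC : Y ≤ Subgroup.centralizer ({x} : Set G))
    (hYn : Subgroup.centralizer ({x} : Set G) ≤ Subgroup.normalizer (Y : Set G))
    (hYc : (Nat.card Y).Coprime p) (hc : ∀ l ∈ L, x * l = l * x) : ⁅L, Y⁆ = ⊥ := by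
  have hLC : L ≤ Subgroup.centralizer ({x} : Set G) := fun l hl => by
    rw [Subgroup.mem_centralizer_iff]
    intro y hy
    rw [Set.mem_singleton_iff] at hy
    rw [hy]
    exact hc l hl
  have hY0n : (Y.subgroupOf (Subgroup.centralizer ({x} : Set G))).Normal :=
    Subgroup.normal_subgroupOf_of_le_normalizer hYn
  have hL0 := isComponent_subgroupOf hLC hL
  rcases comp_normal hL0 hY0n with h | h
  · exfalso
    have hLY : L ≤ Y := by
      intro l hl
      have := h (show (⟨l, hLC hl⟩ : ↥(Subgroup.centralizer ({x} : Set G))) ∈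
        L.subgroupOf (Subgroup.centralizer ({x} : Set G)) from Subgroup.mem_subgroupOf.mpr hl)
      exact Subgroup.mem_subgroupOf.mp this
    exact comp_not_coprime hO hL (Nat.Coprime.coprime_dvd_left (Subgroup.card_dvd_of_le hLY) hYc)
  · rw [comm_iff] at h ⊢
    intro l hl y hy
    have := h ⟨l, hLC hl⟩ (Subgroup.mem_subgroupOf.mpr hl) ⟨y, hYC hy⟩
      (Subgroup.mem_subgroupOf.mpr hy)
    exact congrArg Subtype.val this

/-- a nontrivial power of an element of order `p` normalizing `L`. -/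
theorem mem_normalizer_of_pow {x : G} (hx : x ^ p = 1) {L : Subgroup G} {i : ℕ}
    (hi : i.Coprime p) (hm : x ^ i ∈ Subgroup.normalizer (L : Set G)) :
    x ∈ Subgroup.normalizer (L : Set G) := by
  obtain ⟨m, -, hm1⟩ := Nat.exists_mul_mod_eq_one_of_coprime hi hp.out.one_lt
  have : x = (x ^ i) ^ m := by
    rw [← pow_mul, pow_eq_pow_mod (i * m) hx, hm1, pow_one]
  rw [this]
  exact Subgroup.pow_mem _ hm m

theorem mem_normalizer_of_cj_eq {g : G} {L : Subgroup G} (h : cj g L = L) :
    g ∈ Subgroup.normalizer (L : Set G) := mem_normalizer_iff_map.mpr h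

/-- Case: `x` does not normalize `L`. -/
theorem lbal_nonnormal_case (hO : pPrimeCore p G = ⊥) {x : G} (hx : orderOf x = p) {L Y : Subgroup G}
    (hL : IsComponent L)
    (hYC : Y ≤ Subgroup.centralizer ({x} : Set G))
    (hYn : Subgroup.centralizer ({x} : Set G) ≤ Subgroup.normalizer (Y : Set G))
    (hYc : (Nat.card Y).Coprime p) (hxL : x ∉ Subgroup.normalizer (L : Set G)) : ⁅L, Y⁆ = ⊥ := by
  classical
  have hxp : x ^ p = 1 := by rw [← hx]; exact pow_orderOf_eq_one x
  have hp0 : 0 < p := hp.out.pos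
  have hcopi : ∀ i, 0 < i → i < p → i.Coprime p := fun i h0 hi =>
    (Nat.coprime_of_lt_prime h0.ne' hi hp.out).symm
  have hLqs := hL.2
  -- conjugates are distinct
  have hdist : ∀ i < p, ∀ j < i, cj (x ^ i) L ≠ cj (x ^ j) L := by
    intro i hi j hj he
    apply hxL
    have h1 : cj (x ^ (i - j)) L = L := by
      have h2 : x ^ i = x ^ j * x ^ (i - j) := by
        rw [← pow_add]
        congr 1
        omega
      rw [h2, ← cj_cj] at he
      have h3 := congrArg (cj (x ^ j)⁻¹) he
      rw [cj_cj, cj_cj, cj_cj, inv_mul_cancel, one_mul, cj_one] at h3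
      exact h3
    exact mem_normalizer_of_pow hxp (hcopi _ (by omega) (by omega)) (mem_normalizer_of_cj_eq h1)
  have hcompi : ∀ i, IsComponent (cj (x ^ i) L) := fun i => isComponent_cj hL _
  have hc : ∀ i < p, ∀ j < p, i ≠ j → ∀ a ∈ L, ∀ b ∈ L, Commute (cf x a i) (cf x b j) := by
    intro i hi j hj hij a ha b hb
    have hne : cj (x ^ i) L ≠ cj (x ^ j) L := by
      rcases lt_or_gt_of_ne hij with h | h
      · exact (hdist j hj i h).symm
      · exact hdist i hi j h
    exact comm_iff.mp (comp_comm_comp (hcompi i) (hcompi j) hne) _ (cj_mem ha) _ (cj_mem hb)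
  set δ := diag x p L hc with hδ
  have hfix : ∀ l, x * δ l * x⁻¹ = δ l := diag_fix hp0 hxp
  set Δ : Subgroup G := δ.range with hΔ
  have hker : δ.ker ≤ Subgroup.center ↥L := diag_ker_le hp0
  have hLperf : commutator ↥L = ⊤ := qs_commutator hLqs
  have hΔqs : IsQuasisimple ↥Δ :=
    qs_of_surjective_of_ker_le_center δ.rangeRestrict δ.rangeRestrict_surjective hLqs (by
      rw [MonoidHom.ker_rangeRestrict]
      exact hker)
  have hΔC : Δ ≤ Subgroup.centralizer ({x} : Set G) := by
    rintro _ ⟨l, rfl⟩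
    rw [Subgroup.mem_centralizer_iff]
    intro y hy
    rw [Set.mem_singleton_iff] at hy
    rw [hy]
    have := hfix l
    rwa [mul_inv_eq_iff_eq_mul] at this
  -- the group `D`
  set D : Subgroup G := ⨆ i : Fin p, cj (x ^ (i : ℕ)) L with hD
  have hDmem : ∀ i < p, cj (x ^ i) L ≤ D := fun i hi =>
    le_iSup (fun i : Fin p => cj (x ^ (i : ℕ)) L) ⟨i, hi⟩
  have hΔD : Δ ≤ D := by
    rintro _ ⟨l, rfl⟩
    exact pref_mem fun i hi => hDmem i hi (cj_mem l.2)
  have hDlayer : D ≤ layer G := iSup_le fun i => comp_le_layer (hcompi i)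
  have hDnorm : layer G ≤ Subgroup.normalizer (D : Set G) := by
    refine sSup_le fun K hK => ?_
    refine Subgroup.le_normalizer_iff.mpr fun k hk d hd => ?_
    have hle : D ≤ D.comap (MulAut.conj k).toMonoidHom := by
      refine iSup_le fun i => ?_
      intro z hz
      have h1 := (Subgroup.le_normalizer_iff.mp (comp_normalizes hK (hcompi i))) k hk z hz
      exact hDmem i i.2 h1
    exact hle hd
  have hDsub : D.IsSubnormal :=
    subnormal_of_le_normalizer hDlayer (layer_normal.isSubnormal) hDnorm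
  have hDNL : D ≤ Subgroup.normalizer (L : Set G) := by
    refine iSup_le fun i => ?_
    have := comp_normalizes (hcompi i) hL
    exact this
  set C : Subgroup G := Subgroup.centralizer ({x} : Set G) with hC
  have hcomm_c : ∀ c ∈ C, c * x = x * c := fun c hc' =>
    (Subgroup.mem_centralizer_iff.mp hc' x rfl).symm
  -- `Δ` is normalized by `D ∩ C`
  have hΔnorm : ∀ c ∈ C, c ∈ Subgroup.normalizer (L : Set G) → ∀ l : ↥L,
      c * δ l * c⁻¹ ∈ Δ := by
    intro c hcC hcN l
    have hm : c * (l : G) * c⁻¹ ∈ L := (Subgroup.mem_normalizer_iff.mp hcN l).mp l.2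
    have := diag_conj (hc := hc) (hcomm_c c hcC) l ⟨_, hm⟩ rfl
    rw [← this]
    exact ⟨_, rfl⟩
  have hΔ0 : IsComponent (Δ.subgroupOf C) := by
    refine ⟨?_, qs_of_equiv (Subgroup.subgroupOfEquivOfLe hΔC).symm hΔqs⟩
    refine subnormal_of_le_normalizer (K := D.subgroupOf C) ?_ hDsub.subgroupOf ?_
    · intro c hc'
      rw [Subgroup.mem_subgroupOf] at hc' ⊢
      exact hΔD hc'
    · refine Subgroup.le_normalizer_iff.mpr ?_
      intro c hc' z hz
      rw [Subgroup.mem_subgroupOf] at hc' hz ⊢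
      obtain ⟨l, hl⟩ := hz
      have := hΔnorm c c.2 (hDNL hc') l
      rw [hl] at this
      exact this
  have hY0n : (Y.subgroupOf C).Normal := Subgroup.normal_subgroupOf_of_le_normalizer hYn
  have hΔY : ∀ l : ↥L, ∀ y ∈ Y, y * δ l = δ l * y := by
    rcases comp_normal hΔ0 hY0n with h | h
    · exfalso
      have hle : Δ ≤ Y := by
        intro z hz
        have := h (show (⟨z, hΔC hz⟩ : ↥C) ∈ Δ.subgroupOf C from Subgroup.mem_subgroupOf.mpr hz)
        exact Subgroup.mem_subgroupOf.mp this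
      have hΔcop : (Nat.card Δ).Coprime p :=
        Nat.Coprime.coprime_dvd_left (Subgroup.card_dvd_of_le hle) hYc
      have hidx : (Subgroup.center ↥L).index ∣ Nat.card Δ := by
        rw [hΔ, ← Subgroup.index_ker]
        exact Subgroup.index_dvd_of_le hker
      have h1 := coprime_of_perfect_center hLperf (Nat.Coprime.coprime_dvd_left hidx hΔcop)
      exact comp_not_coprime hO hL h1
    · rw [comm_iff] at h
      intro l y hy
      have := h ⟨δ l, hΔC ⟨l, rfl⟩⟩ (Subgroup.mem_subgroupOf.mpr ⟨l, rfl⟩) ⟨y, hYC hy⟩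
        (Subgroup.mem_subgroupOf.mpr hy)
      exact (congrArg Subtype.val this).symm
  -- the main claim
  rw [comm_iff]
  intro l hl y hy
  have hyC : y ∈ C := hYC hy
  have hyx : y * x = x * y := hcomm_c y hyC
  -- claim 1
  have h1 : ∃ k < p, cj y L = cj (x ^ k) L := by
    by_contra hno
    push Not at hno
    apply qs_not_comm hLqs
    refine IsMulCommutative.of_comm ?_
    intro a b
    -- `n = y a y⁻¹` commutes with `y b y⁻¹`
    set n := y * (a : G) * y⁻¹ with hn
    have hnL : n ∈ cj y L := cj_mem a.2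
    have hn1 : Commute n (δ b) := by
      apply commute_pref
      intro i hi
      exact comm_iff.mp (comp_comm_comp (isComponent_cj hL y) (hcompi i) (hno i hi)) _ hnL _
        (cj_mem b.2)
    have hb1 : y * δ b * y⁻¹ = δ b := by
      rw [hΔY b y hy]
      simp
    have hb2 : δ b = (b : G) * tl x p b := diag_eq_head hp0 b
    have h3 : Commute n (y * (tl x p b) * y⁻¹) := by
      have h4 := tl_comm hc hp0 b a.2
      show y * (a : G) * y⁻¹ * (y * tl x p b * y⁻¹) = y * tl x p b * y⁻¹ * (y * a * y⁻¹)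
      have h5 : (a : G) * tl x p b = tl x p b * a := h4.eq
      calc y * (a : G) * y⁻¹ * (y * tl x p b * y⁻¹) = y * (a * tl x p b) * y⁻¹ := by group
        _ = y * (tl x p b * a) * y⁻¹ := by rw [h5]
        _ = y * tl x p b * y⁻¹ * (y * a * y⁻¹) := by group
    have h6 : δ b = (y * (b : G) * y⁻¹) * (y * tl x p b * y⁻¹) := by
      rw [← hb1]
      nth_rewrite 1 [hb2]
      group
    have h7 : Commute n (y * (b : G) * y⁻¹) := by
      have h8 : y * (b : G) * y⁻¹ = δ b * (y * tl x p b * y⁻¹)⁻¹ := by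
        rw [h6, mul_inv_cancel_right]
      rw [h8]
      exact hn1.mul_right h3.inv_right
    apply Subtype.ext
    show (a : G) * b = b * a
    have h9 : y * ((a : G) * b) * y⁻¹ = y * ((b : G) * a) * y⁻¹ := by
      have := h7.eq
      rw [hn] at this
      calc y * ((a : G) * b) * y⁻¹ = y * (a : G) * y⁻¹ * (y * (b : G) * y⁻¹) := by group
        _ = y * (b : G) * y⁻¹ * (y * (a : G) * y⁻¹) := this
        _ = y * ((b : G) * a) * y⁻¹ := by group
    simpa using h9
  obtain ⟨k, hk, hyk⟩ := h1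
  -- claim 2
  have hyxk : ∀ j : ℕ, cj (y ^ j) L = cj (x ^ (k * j)) L := by
    intro j
    induction j with
    | zero => simp
    | succ j ih =>
      have hc1 : Commute y x := hyx
      have h2 : y ^ (j + 1) = (x ^ (k * j)) * y * (x ^ (k * j))⁻¹ * y ^ j := by
        have h3 : Commute y (x ^ (k * j)) := hc1.pow_right _
        rw [← h3.eq]
        simp [pow_succ']
      rw [pow_succ, ← cj_cj, hyk, cj_cj]
      have hc2 : Commute (y ^ j) (x ^ k) := (hc1.pow_left j).pow_right k
      rw [hc2.eq, ← cj_cj, ih, cj_cj, ← pow_add]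
      congr 2
      ring
  have hk0 : k = 0 := by
    by_contra hk0
    have hn : (orderOf y).Coprime p :=
      Nat.Coprime.coprime_dvd_left (Subgroup.orderOf_dvd_natCard Y hy) hYc
    have h2 := hyxk (orderOf y)
    rw [pow_orderOf_eq_one, cj_one] at h2
    apply hxL
    refine mem_normalizer_of_pow hxp (i := k * orderOf y) ?_ (mem_normalizer_of_cj_eq h2.symm)
    exact Nat.Coprime.mul_left (hcopi k (Nat.pos_of_ne_zero hk0) hk) hn
  rw [hk0, pow_zero, cj_one] at hyk
  have hyN : y ∈ Subgroup.normalizer (L : Set G) := mem_normalizer_of_cj_eq hyk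
  -- claim 3
  have h3 := central_action_trivial hLperf hyN (by
    intro a ha m hm
    have h4 : y * a * y⁻¹ ∈ L := (Subgroup.mem_normalizer_iff.mp hyN a).mp ha
    have h5 := diag_conj (hc := hc) (hcomm_c y hyC) ⟨a, ha⟩ ⟨_, h4⟩ rfl
    have h6 : δ ⟨_, h4⟩ = δ ⟨a, ha⟩ := by
      rw [h5, hΔY ⟨a, ha⟩ y hy]
      simp
    have h7 : δ (⟨_, h4⟩ * (⟨a, ha⟩ : ↥L)⁻¹) = 1 := by
      rw [map_mul, map_inv, h6, mul_inv_cancel]
    exact diag_ker hp0 h7 hm)
  exact (h3 l hl).symm

/-- **L-balance**, general form: `Y` a `p'`-subgroup normal in `C(x)`. -/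
theorem lbal (hO : pPrimeCore p G = ⊥) {x : G} (hx : orderOf x = p) {L Y : Subgroup G}
    (hL : IsComponent L)
    (hYC : Y ≤ Subgroup.centralizer ({x} : Set G))
    (hYn : Subgroup.centralizer ({x} : Set G) ≤ Subgroup.normalizer (Y : Set G))
    (hYc : (Nat.card Y).Coprime p) (hne : ⁅L, Subgroup.zpowers x⁆ ≠ L) : ⁅L, Y⁆ = ⊥ := by
  by_cases hxL : x ∈ Subgroup.normalizer (L : Set G)
  · -- `x` normalizes `L`
    apply lbal_central_case hO hL hYC hYn hYc
    have hzN : Subgroup.zpowers x ≤ Subgroup.normalizer (L : Set G) := by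
      rw [Subgroup.zpowers_le]
      exact hxL
    have hle : ⁅L, Subgroup.zpowers x⁆ ≤ L := H1Cop.commutator_le_left hzN
    have hN : (⁅L, Subgroup.zpowers x⁆.subgroupOf L).Normal :=
      Subgroup.normal_subgroupOf_of_le_normalizer (H1Cop.commutator_normalized_left L _)
    rcases qs_normal hL.2 (⁅L, Subgroup.zpowers x⁆.subgroupOf L) with h | h
    · exfalso
      apply hne
      rw [Subgroup.subgroupOf_eq_top] at h
      exact le_antisymm hle h
    · have hcen : ∀ l ∈ L, ∀ m ∈ L, m * (x * l * x⁻¹ * l⁻¹) = (x * l * x⁻¹ * l⁻¹) * m := by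
        intro l hl m hm
        have h1 : l * x * l⁻¹ * x⁻¹ ∈ ⁅L, Subgroup.zpowers x⁆ :=
          Subgroup.commutator_mem_commutator hl (Subgroup.mem_zpowers x)
        have h2 : (⟨_, hle h1⟩ : ↥L) ∈ Subgroup.center ↥L := h (Subgroup.mem_subgroupOf.mpr h1)
        have h3 := Subgroup.mem_center_iff.mp h2 ⟨m, hm⟩
        have h4 : m * (l * x * l⁻¹ * x⁻¹) = (l * x * l⁻¹ * x⁻¹) * m := congrArg Subtype.val h3
        have e : x * l * x⁻¹ * l⁻¹ = (l * x * l⁻¹ * x⁻¹)⁻¹ := by group
        rw [e]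
        have h5 : Commute m (l * x * l⁻¹ * x⁻¹) := h4
        exact h5.inv_right.eq
      exact central_action_trivial (qs_commutator hL.2) hxL hcen
  · exact lbal_nonnormal_case hO hx hL hYC hYn hYc hxL

theorem zpowers_pgroup {X : Type*} [Group X] {a : X} (h : a ^ p = 1) :
    IsPGroup p (Subgroup.zpowers a) := by
  rintro ⟨g, k, rfl⟩
  refine ⟨1, Subtype.ext ?_⟩
  show ((a ^ k) ^ p ^ 1 : X) = 1
  rw [pow_one, ← zpow_natCast, ← zpow_mul, mul_comm, zpow_mul, zpow_natCast, h, one_zpow]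

/-- `Y` centralizes `O_p(G)` -/
theorem Y_centralizes_pCore {x : G} (hx : x ^ p = 1) {Y : Subgroup G}
    (hYC : Y ≤ Subgroup.centralizer ({x} : Set G))
    (hYn : Subgroup.centralizer ({x} : Set G) ≤ Subgroup.normalizer (Y : Set G))
    (hYc : (Nat.card Y).Coprime p) {y v : G} (hy : y ∈ Y) (hv : v ∈ pCore p G) : y * v = v * y := by
  have hPn : (pCore p G).Normal := pCore_normal p G
  have hPp : IsPGroup p (pCore p G) := pCore_isPGroup p
  have hnormal : ∀ g : G, g ∈ Subgroup.normalizer ((pCore p G : Subgroup G) : Set G) := by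
    intro g
    rw [Subgroup.mem_normalizer_iff]
    intro h
    exact ⟨fun hh => hPn.conj_mem h hh g, fun hh => by
      have := hPn.conj_mem _ hh g⁻¹
      simpa [mul_assoc] using this⟩
  have hzp : IsPGroup p (Subgroup.zpowers x) := by
    intro g
    refine ⟨1, ?_⟩
    obtain ⟨g, k, rfl⟩ := g
    ext
    simp only [pow_one, SubgroupClass.coe_pow, OneMemClass.coe_one]
    rw [← zpow_natCast, ← zpow_mul, mul_comm, zpow_mul, zpow_natCast, hx, one_zpow]
  have hco : (orderOf y).Coprime p := orderOf_coprime_of_mem hYc hy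
  refine ab_lemma (B := Subgroup.zpowers x) hPp hzp (fun g _ => hnormal g) hco (hnormal y) ?_ ?_ v hv
  · intro b hb
    have : Subgroup.zpowers x ≤ Subgroup.centralizer ({y} : Set G) := by
      rw [Subgroup.zpowers_le, Subgroup.mem_centralizer_iff]
      intro w hw
      rw [Set.mem_singleton_iff] at hw
      rw [hw]
      exact (Subgroup.mem_centralizer_iff.mp (hYC hy) x rfl).symm
    exact Subgroup.mem_centralizer_iff.mp (this hb) y rfl
  · intro u hu huc
    -- `[y, u] ∈ Y ∩ O_p(G)`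
    have hux : u ∈ Subgroup.centralizer ({x} : Set G) := by
      rw [Subgroup.mem_centralizer_iff]
      intro w hw
      rw [Set.mem_singleton_iff] at hw
      rw [hw]
      exact (huc x (Subgroup.mem_zpowers x)).symm
    have h1 : u * y⁻¹ * u⁻¹ ∈ Y := (Subgroup.le_normalizer_iff.mp hYn) u hux _ (Y.inv_mem hy)
    have h2 : y * u * y⁻¹ * u⁻¹ ∈ Y := by
      have e : y * u * y⁻¹ * u⁻¹ = y * (u * y⁻¹ * u⁻¹) := by group
      rw [e]
      exact Y.mul_mem hy h1
    have h3 : y * u * y⁻¹ * u⁻¹ ∈ pCore p G :=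
      (pCore p G).mul_mem (hPn.conj_mem u hu y) ((pCore p G).inv_mem hu)
    have h4 := eq_one_of_mem_pgroup_coprime hPp hYc h3 h2
    rw [mul_inv_eq_one, mul_inv_eq_iff_eq_mul] at h4
    exact h4

/-- The center of a component lies in `O_p(G)` when `O_{p'}(G) = 1`. -/
theorem center_comp_le_pCore (hO : pPrimeCore p G = ⊥) {L : Subgroup G} (hL : IsComponent L) {z : G}
    (hz : z ∈ L) (hzc : ∀ m ∈ L, m * z = z * m) : z ∈ pCore p G := by
  have hF : fittingSubgroup G = pCore p G := H1Fit.fitting_eq_pCore_of_pPrimeCore_eq_bot p hO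
  rw [← hF]
  set Z : Subgroup G := (Subgroup.center ↥L).map L.subtype with hZ
  have hzZ : z ∈ Z := by
    refine ⟨⟨z, hz⟩, Subgroup.mem_center_iff.mpr ?_, rfl⟩
    intro m
    exact Subtype.ext (hzc m m.2)
  have hZsub : Z.IsSubnormal := by
    refine subnormal_of_le_normalizer (K := L) (Subgroup.map_subtype_le _) hL.1 ?_
    refine Subgroup.le_normalizer_iff.mpr ?_
    rintro l hl _ ⟨c, hc, rfl⟩
    refine ⟨⟨l, hl⟩ * c * (⟨l, hl⟩ : ↥L)⁻¹, ?_, rfl⟩
    exact (inferInstance : (Subgroup.center ↥L).Normal).conj_mem c hc _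
  have hZnil : Group.IsNilpotent Z := by
    refine nilp_of_comm ?_
    rintro ⟨_, a, ha, rfl⟩ ⟨_, b, hb, rfl⟩
    apply Subtype.ext
    show (a : G) * b = b * a
    exact congrArg Subtype.val (Subgroup.mem_center_iff.mp ha b).symm
  exact nilp_subnormal_le_fitting hZsub hZnil hzZ

/-- Existence of a noncentral `p`-element of `L` fixed by `x` modulo the center. -/
theorem exists_fixed_mod_center (hO : pPrimeCore p G = ⊥) {x : G} (hxp : x ^ p = 1) {L : Subgroup G}
    (hL : IsComponent L) (hxL : x ∈ Subgroup.normalizer (L : Set G)) :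
    ∃ l ∈ L, (∃ k : ℕ, l ^ p ^ k = 1) ∧ (¬ ∀ m ∈ L, m * l = l * m) ∧
      ∀ m ∈ L, m * (x * l * x⁻¹ * l⁻¹) = (x * l * x⁻¹ * l⁻¹) * m := by
  classical
  have hle : L ≤ L ⊔ Subgroup.zpowers x := le_sup_left
  set B : Subgroup G := L ⊔ Subgroup.zpowers x with hB
  have hzN : Subgroup.zpowers x ≤ Subgroup.normalizer (L : Set G) := by
    rw [Subgroup.zpowers_le]
    exact hxL
  have hBN : B ≤ Subgroup.normalizer (L : Set G) := sup_le Subgroup.le_normalizer hzN
  set Lb : Subgroup ↥B := L.subgroupOf B with hLb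
  haveI hLbn : Lb.Normal := Subgroup.normal_subgroupOf_of_le_normalizer hBN
  have hxB : x ∈ B := Subgroup.mem_sup_right (Subgroup.mem_zpowers x)
  let x' : ↥B := ⟨x, hxB⟩
  have hzp : IsPGroup p (Subgroup.zpowers x') := zpowers_pgroup (Subtype.ext hxp)
  obtain ⟨S, hxS⟩ := hzp.exists_le_sylow
  set T : Subgroup ↥B := (S : Subgroup ↥B) with hT
  have hx'T : x' ∈ T := hxS (Subgroup.mem_zpowers x')
  -- the center of `L`, inside `B`
  set Z : Subgroup ↥B := Lb ⊓ Subgroup.centralizer (Lb : Set ↥B) with hZ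
  haveI hZn : Z.Normal := inferInstance
  have hmemZ : ∀ b : ↥B, b ∈ Z ↔ (b : G) ∈ L ∧ ∀ m ∈ L, m * (b : G) = b * m := by
    intro b
    rw [hZ, Subgroup.mem_inf, hLb, Subgroup.mem_subgroupOf, Subgroup.mem_centralizer_iff]
    constructor
    · rintro ⟨h1, h2⟩
      refine ⟨h1, fun m hm => ?_⟩
      have h3 := h2 ⟨m, hle hm⟩ (by
        show (⟨m, hle hm⟩ : ↥B) ∈ L.subgroupOf B
        exact Subgroup.mem_subgroupOf.mpr hm)
      exact congrArg Subtype.val h3
    · rintro ⟨h1, h2⟩
      refine ⟨h1, fun m hm => ?_⟩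
      have hm' : (m : G) ∈ L := Subgroup.mem_subgroupOf.mp hm
      exact Subtype.ext (h2 m hm')
  have hZpg : IsPGroup p Z := by
    rintro ⟨z, hz⟩
    obtain ⟨h1, h2⟩ := (hmemZ z).mp hz
    have h3 := center_comp_le_pCore hO hL h1 h2
    obtain ⟨k, hk⟩ := (pCore_isPGroup (G := G) p) ⟨z, h3⟩
    refine ⟨k, Subtype.ext (Subtype.ext ?_)⟩
    have := congrArg Subtype.val hk
    simpa using this
  have hZT : Z ≤ T := by
    have h1 : IsPGroup p ↥(Z ⊔ T) := IsPGroup.to_sup_of_normal_left hZpg S.isPGroup'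
    have h2 : Z ⊔ T = T := S.is_maximal' h1 le_sup_right
    exact sup_eq_right.mp h2
  -- `T ⊓ Lb` is not contained in `Z`
  have hLcard : ¬ (Nat.card L).Coprime p := comp_not_coprime hO hL
  have hTL : ¬ (T ⊓ Lb ≤ Z) := by
    intro h
    apply hLcard
    have hTn : T ≤ Subgroup.normalizer (Lb : Set ↥B) := by
      intro t _
      rw [Subgroup.mem_normalizer_iff]
      intro u
      exact ⟨fun hh => hLbn.conj_mem u hh t, fun hh => by
        have := hLbn.conj_mem _ hh t⁻¹
        simpa [mul_assoc] using this⟩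
    have h1 := H1Cop.card_sup_mul_inf_of_normalizes hTn
    have hn1 : (T ⊓ Lb).relIndex Lb * Nat.card ↥(T ⊓ Lb) = Nat.card Lb := by
      have h2 : (T ⊓ Lb).relIndex Lb = ((T ⊓ Lb).subgroupOf Lb).index := rfl
      have h3 : Nat.card ↥((T ⊓ Lb).subgroupOf Lb) = Nat.card ↥(T ⊓ Lb) := by
        apply Comp2.card_subgroupOf_of_le inf_le_right
      rw [h2, ← h3, mul_comm]
      exact Subgroup.card_mul_index _
    have hpos : 0 < Nat.card ↥(T ⊓ Lb) := Nat.card_pos
    have hdvd : (T ⊓ Lb).relIndex Lb ∣ T.index := by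
      have h4 : Nat.card ↥(T ⊔ Lb) = Nat.card T * (T ⊓ Lb).relIndex Lb := by
        have h5 : Nat.card ↥(T ⊔ Lb) * Nat.card ↥(T ⊓ Lb) =
            Nat.card T * (T ⊓ Lb).relIndex Lb * Nat.card ↥(T ⊓ Lb) := by
          rw [h1, mul_assoc, hn1]
        exact Nat.eq_of_mul_eq_mul_right hpos h5
      have h6 : Nat.card ↥(T ⊔ Lb) ∣ Nat.card ↥B := Subgroup.card_subgroup_dvd_card _
      rw [h4] at h6
      rw [← Subgroup.card_mul_index T] at h6
      exact (Nat.mul_dvd_mul_iff_left Nat.card_pos).mp h6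
    have hnotp : ¬ p ∣ (T ⊓ Lb).relIndex Lb := fun hh => S.not_dvd_index (hh.trans hdvd)
    -- pass to the center
    have hZL : Z ≤ Lb := inf_le_left
    have hdvd2 : Z.relIndex Lb ∣ (T ⊓ Lb).relIndex Lb :=
      Subgroup.relIndex_dvd_of_le_left _ h
    have hcardZ : Nat.card Z = Nat.card (Subgroup.center ↥L) := by
      have h7 : Z.map B.subtype = (Subgroup.center ↥L).map L.subtype := by
        ext y
        constructor
        · rintro ⟨b, hb, rfl⟩
          obtain ⟨h8, h9⟩ := (hmemZ b).mp hb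
          refine ⟨⟨b, h8⟩, Subgroup.mem_center_iff.mpr fun m => ?_, rfl⟩
          exact Subtype.ext (h9 m m.2)
        · rintro ⟨c, hc, rfl⟩
          refine ⟨⟨c, hle c.2⟩, (hmemZ _).mpr ⟨c.2, fun m hm => ?_⟩, rfl⟩
          exact congrArg Subtype.val (Subgroup.mem_center_iff.mp hc ⟨m, hm⟩)
      have h10 : Nat.card (Z.map B.subtype) = Nat.card ((Subgroup.center ↥L).map L.subtype) := by
        rw [h7]
      rwa [Subgroup.card_map_of_injective B.subtype_injective,
        Subgroup.card_map_of_injective L.subtype_injective] at h10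
    have hcardLb : Nat.card Lb = Nat.card L := Comp2.card_subgroupOf_of_le hle
    have hidx : (Subgroup.center ↥L).index = Z.relIndex Lb := by
      have h11 : Z.relIndex Lb * Nat.card Z = Nat.card Lb := by
        have h12 : Nat.card ↥(Z.subgroupOf Lb) = Nat.card Z := Comp2.card_subgroupOf_of_le hZL
        rw [Subgroup.relIndex, ← h12, mul_comm]
        exact Subgroup.card_mul_index _
      have h13 := Subgroup.card_mul_index (Subgroup.center ↥L)
      rw [hcardZ, hcardLb, ← h13] at h11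
      have hp3 : 0 < Nat.card (Subgroup.center ↥L) := Nat.card_pos
      rw [mul_comm] at h11
      exact (Nat.eq_of_mul_eq_mul_left hp3 h11).symm
    refine Comp2.coprime_of_perfect_center (qs_commutator hL.2) ?_
    rw [hidx]
    exact ((Nat.Prime.coprime_iff_not_dvd hp.out).mpr fun hh => hnotp (hh.trans hdvd2)).symm
  -- the quotient
  haveI hZT' : (Z.subgroupOf T).Normal := Subgroup.normal_subgroupOf
  let π : ↥T →* ↥T ⧸ Z.subgroupOf T := QuotientGroup.mk' _
  haveI hΓnil : Group.IsNilpotent (↥T ⧸ Z.subgroupOf T) :=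
    (S.isPGroup'.to_quotient _).isNilpotent
  set N : Subgroup (↥T ⧸ Z.subgroupOf T) := (Lb.subgroupOf T).map π with hN
  haveI hNn : N.Normal := Subgroup.Normal.map (Subgroup.normal_subgroupOf) π
    (QuotientGroup.mk'_surjective _)
  have hNne : N ≠ ⊥ := by
    intro hbot
    apply hTL
    intro t ht
    obtain ⟨ht1, ht2⟩ := Subgroup.mem_inf.mp ht
    have h1 : π ⟨t, ht1⟩ ∈ N := Subgroup.mem_map_of_mem _ (Subgroup.mem_subgroupOf.mpr ht2)
    rw [hbot, Subgroup.mem_bot] at h1
    have h2 : ((⟨t, ht1⟩ : ↥T) : ↥T ⧸ Z.subgroupOf T) = 1 := h1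
    rw [QuotientGroup.eq_one_iff] at h2
    exact Subgroup.mem_subgroupOf.mp h2
  have hne := H1Frat.normal_inf_center_ne_bot N hNne
  obtain ⟨γ, hγ, hγ1⟩ := (Subgroup.bot_or_exists_ne_one _).resolve_left hne
  obtain ⟨hγN, hγC⟩ := Subgroup.mem_inf.mp hγ
  obtain ⟨t, ht, rfl⟩ := Subgroup.mem_map.mp hγN
  have htL : ((t : ↥B) : G) ∈ L := by
    have h1 : (t : ↥B) ∈ Lb := Subgroup.mem_subgroupOf.mp ht
    exact Subgroup.mem_subgroupOf.mp h1
  refine ⟨((t : ↥B) : G), htL, ?_, ?_, ?_⟩
  · obtain ⟨k, hk⟩ := S.isPGroup' t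
    refine ⟨k, ?_⟩
    have := congrArg (fun u : ↥T => ((u : ↥B) : G)) hk
    simpa using this
  · intro hcom
    apply hγ1
    have h1 : (t : ↥B) ∈ Z := (hmemZ _).mpr ⟨htL, hcom⟩
    show ((t : ↥T) : ↥T ⧸ Z.subgroupOf T) = 1
    rw [QuotientGroup.eq_one_iff]
    exact Subgroup.mem_subgroupOf.mpr h1
  · have h1 := Subgroup.mem_center_iff.mp hγC (π ⟨x', hx'T⟩)
    have h2 : π (⟨x', hx'T⟩ * t * (⟨x', hx'T⟩ : ↥T)⁻¹ * t⁻¹) = 1 := by
      simp only [map_mul, map_inv]
      rw [h1]
      group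
    have h3 : (⟨x', hx'T⟩ * t * (⟨x', hx'T⟩ : ↥T)⁻¹ * t⁻¹ : ↥T) ∈ Z.subgroupOf T := by
      rw [← QuotientGroup.ker_mk' (Z.subgroupOf T), MonoidHom.mem_ker]
      exact h2
    have h4 := Subgroup.mem_subgroupOf.mp h3
    have h5 := ((hmemZ _).mp h4).2
    intro m hm
    exact h5 m hm


theorem exists_sq_pow {y : G} (hy : (orderOf y).Coprime 2) : ∃ m : ℕ, y = (y * y) ^ m := by
  by_cases h1 : orderOf y = 1
  · rw [orderOf_eq_one_iff] at h1
    exact ⟨0, by simp [h1]⟩
  have hlt : 1 < orderOf y := by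
    have := orderOf_pos y
    omega
  obtain ⟨m, -, hm⟩ := Nat.exists_mul_mod_eq_one_of_coprime hy.symm hlt
  refine ⟨m, ?_⟩
  rw [← pow_two, ← pow_mul, pow_eq_pow_mod (2 * m) (pow_orderOf_eq_one y), hm, pow_one]

/-- `y` of odd order with `y²` normalizing `L` normalizes `L`. -/
theorem mem_normalizer_of_sq {y : G} {L : Subgroup G} (hy : (orderOf y).Coprime 2)
    (h : y * y ∈ Subgroup.normalizer (L : Set G)) : y ∈ Subgroup.normalizer (L : Set G) := by
  obtain ⟨m, hm⟩ := exists_sq_pow hy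
  rw [hm]
  exact Subgroup.pow_mem _ h m

/-- The `p'`-group `Y` normalizes the components normalized by `x`. -/
theorem comp_normalized (hO : pPrimeCore p G = ⊥) {x : G} (hx : orderOf x = p) {L Y : Subgroup G}
    (hL : IsComponent L) (hxL : x ∈ Subgroup.normalizer (L : Set G))
    (hYC : Y ≤ Subgroup.centralizer ({x} : Set G))
    (hYn : Subgroup.centralizer ({x} : Set G) ≤ Subgroup.normalizer (Y : Set G))
    (hYc : (Nat.card Y).Coprime p)
    (h2 : p = 2 ∨ ∀ w ∈ Y, w ∈ Subgroup.normalizer (L : Set G) → ∀ l ∈ L, w * l = l * w) :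
    Y ≤ Subgroup.normalizer (L : Set G) := by
  have hxp : x ^ p = 1 := by rw [← hx]; exact pow_orderOf_eq_one x
  intro y hy
  by_contra hyN
  have hyx : y * x = x * y := (Subgroup.mem_centralizer_iff.mp (hYC hy) x rfl).symm
  have hne1 : L ≠ cj y L := fun h => hyN (mem_normalizer_iff_map.mpr h.symm)
  have hLy : IsComponent (cj y L) := isComponent_cj hL y
  have hc1 := comm_iff.mp (comp_comm_comp hL hLy hne1)
  obtain ⟨l, hl, ⟨k, hk⟩, hlnc, hlz⟩ := exists_fixed_mod_center hO hxp hL hxL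
  set z := x * l * x⁻¹ * l⁻¹ with hz
  have hzL : z ∈ L := by
    refine L.mul_mem ?_ (L.inv_mem hl)
    exact (Subgroup.mem_normalizer_iff.mp hxL l).mp hl
  have hzP := center_comp_le_pCore hO hL hzL hlz
  have hyz : y * z = z * y := Y_centralizes_pCore hxp hYC hYn hYc hy hzP
  have hxl : x * l * x⁻¹ = z * l := by rw [hz]; group
  set b := y * l * y⁻¹ with hb
  have hbLy : b ∈ cj y L := cj_mem hl
  have hzb : z * b = b * z := hc1 z hzL b hbLy
  have hlb : l * b = b * l := hc1 l hl b hbLy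
  have hxb : x * b * x⁻¹ = z * b := by
    have h3 : y⁻¹ * x⁻¹ = x⁻¹ * y⁻¹ := by
      rw [← mul_inv_rev, ← mul_inv_rev, hyx]
    calc x * b * x⁻¹ = (x * y) * l * (y⁻¹ * x⁻¹) := by rw [hb]; group
      _ = (y * x) * l * (x⁻¹ * y⁻¹) := by rw [hyx, h3]
      _ = y * (x * l * x⁻¹) * y⁻¹ := by group
      _ = y * (z * l) * y⁻¹ := by rw [hxl]
      _ = (y * z) * l * y⁻¹ := by group
      _ = (z * y) * l * y⁻¹ := by rw [hyz]
      _ = z * b := by rw [hb]; group
  set c := l * b⁻¹ with hc
  have hxc : x * c * x⁻¹ = c := by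
    have h4 : z⁻¹ * l * b⁻¹ * z = l * b⁻¹ := by
      have h5 : l * z = z * l := hlz l hl
      have h6 : b⁻¹ * z = z * b⁻¹ := by
        rw [inv_mul_eq_iff_eq_mul, ← mul_assoc, ← hzb, mul_assoc, mul_inv_cancel, mul_one]
      calc z⁻¹ * l * b⁻¹ * z = z⁻¹ * l * (b⁻¹ * z) := by group
        _ = z⁻¹ * l * (z * b⁻¹) := by rw [h6]
        _ = z⁻¹ * (l * z) * b⁻¹ := by group
        _ = z⁻¹ * (z * l) * b⁻¹ := by rw [h5]
        _ = l * b⁻¹ := by group
    calc x * c * x⁻¹ = (x * l * x⁻¹) * (x * b * x⁻¹)⁻¹ := by rw [hc]; group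
      _ = (z * l) * (z * b)⁻¹ := by rw [hxl, hxb]
      _ = z * l * b⁻¹ * z⁻¹ := by group
      _ = z * (l * b⁻¹) * z⁻¹ := by group
      _ = z * (z⁻¹ * l * b⁻¹ * z) * z⁻¹ := by rw [h4]
      _ = l * b⁻¹ := by group
  have hcC : c ∈ Subgroup.centralizer ({x} : Set G) := by
    rw [Subgroup.mem_centralizer_iff]
    intro w hw
    rw [Set.mem_singleton_iff] at hw
    rw [hw]
    rw [mul_inv_eq_iff_eq_mul] at hxc
    exact hxc
  set d := y * b * y⁻¹ with hd
  have hw : y * c * y⁻¹ * c⁻¹ ∈ Y := by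
    have e : y * c * y⁻¹ * c⁻¹ = y * (c * y⁻¹ * c⁻¹) := by group
    rw [e]
    exact Y.mul_mem hy ((Subgroup.le_normalizer_iff.mp hYn) c hcC _ (Y.inv_mem hy))
  have hweq : y * c * y⁻¹ * c⁻¹ = b * d⁻¹ * b * l⁻¹ := by
    rw [hc, hd, hb]
    group
  rw [hweq] at hw
  have hbd : b * d = d * b := by
    have h3 : l * b = b * l := hlb
    calc b * d = y * (l * b) * y⁻¹ := by rw [hd, hb]; group
      _ = y * (b * l) * y⁻¹ := by rw [h3]
      _ = d * b := by rw [hd, hb]; group
  have hbk : b ^ p ^ k = 1 := by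
    rw [hb]
    have := map_pow (MulAut.conj y).toMonoidHom l (p ^ k)
    rw [hk, map_one] at this
    exact this.symm
  have hdk : d ^ p ^ k = 1 := by
    rw [hd]
    have := map_pow (MulAut.conj y).toMonoidHom b (p ^ k)
    rw [hbk, map_one] at this
    exact this.symm
  apply hlnc
  by_cases hyy : y * y ∈ Subgroup.normalizer (L : Set G)
  · -- `y² ` normalizes `L`
    by_cases hp2 : p = 2
    · exfalso
      apply hyN
      refine mem_normalizer_of_sq ?_ hyy
      have := orderOf_coprime_of_mem hYc hy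
      rwa [hp2] at this
    · have hyyY : y * y ∈ Y := Y.mul_mem hy hy
      have hc2 := h2.resolve_left hp2 (y * y) hyyY hyy
      have hdl : d = l := by
        have h3 := hc2 l hl
        rw [hd, hb]
        calc y * (y * l * y⁻¹) * y⁻¹ = (y * y) * l * (y * y)⁻¹ := by group
          _ = l * (y * y) * (y * y)⁻¹ := by rw [h3]
          _ = l := by group
      rw [hdl] at hw
      have hw2 : (b * l⁻¹ * b * l⁻¹) ^ p ^ k = 1 := by
        have h4 : b * l⁻¹ * b * l⁻¹ = (b * b) * (l * l)⁻¹ := by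
          have h5 : l⁻¹ * b = b * l⁻¹ := by
            rw [inv_mul_eq_iff_eq_mul, ← mul_assoc, hlb, mul_assoc, mul_inv_cancel, mul_one]
          calc b * l⁻¹ * b * l⁻¹ = b * (l⁻¹ * b) * l⁻¹ := by group
            _ = b * (b * l⁻¹) * l⁻¹ := by rw [h5]
            _ = (b * b) * (l * l)⁻¹ := by group
        rw [h4]
        have h6 : Commute (b * b) (l * l)⁻¹ := by
          have h7 : Commute b l := hlb.symm
          exact ((h7.mul_left h7).mul_right (h7.mul_left h7)).inv_right
        rw [h6.mul_pow, (Commute.refl b).mul_pow, inv_pow, (Commute.refl l).mul_pow, hbk, hk]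
        simp
      have hw3 := eq_one_of_mem_coprime_pow hYc hw hw2
      have h8 : b * b = l * l := by
        have h5 : l⁻¹ * b = b * l⁻¹ := by
          rw [inv_mul_eq_iff_eq_mul, ← mul_assoc, hlb, mul_assoc, mul_inv_cancel, mul_one]
        have h9 : b * l⁻¹ * b * l⁻¹ = (b * b) * (l * l)⁻¹ := by
          calc b * l⁻¹ * b * l⁻¹ = b * (l⁻¹ * b) * l⁻¹ := by group
            _ = b * (b * l⁻¹) * l⁻¹ := by rw [h5]
            _ = (b * b) * (l * l)⁻¹ := by group
        rw [h9, mul_inv_eq_one] at hw3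
        exact hw3
      have hlodd : (orderOf l).Coprime 2 := by
        have h10 : orderOf l ∣ p ^ k := orderOf_dvd_of_pow_eq_one hk
        refine Nat.Coprime.coprime_dvd_left h10 ?_
        exact Nat.Coprime.pow_left _ ((Nat.coprime_primes hp.out Nat.prime_two).mpr hp2)
      obtain ⟨u, hu⟩ := exists_sq_pow hlodd
      intro m hm
      have hmb : Commute m b := hc1 m hm b hbLy
      have hmll : Commute m (l * l) := by
        rw [← h8]
        exact hmb.mul_right hmb
      rw [hu]
      exact (hmll.pow_right u).eq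
  · -- `L^{y²} ≠ L`
    have hne2 : L ≠ cj (y * y) L := fun h => hyy (mem_normalizer_iff_map.mpr h.symm)
    have hc2 := comm_iff.mp (comp_comm_comp hL (isComponent_cj hL (y * y)) hne2)
    have hdL : d ∈ cj (y * y) L := by
      have : d = (y * y) * l * (y * y)⁻¹ := by
        rw [hd, hb]
        group
      rw [this]
      exact cj_mem hl
    have hld : Commute l d := hc2 l hl d hdL
    have hbd' : Commute b d := hbd
    have hbl : Commute b l := hlb.symm
    have he : Commute (b * d⁻¹) (b * l⁻¹) := by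
      refine Commute.mul_left ?_ ?_
      · exact (Commute.refl b).mul_right hbl.inv_right
      · exact (hbd'.symm.inv_left).mul_right (hld.symm.inv_left.inv_right)
    have hw2 : (b * d⁻¹ * b * l⁻¹) ^ p ^ k = 1 := by
      have e : b * d⁻¹ * b * l⁻¹ = (b * d⁻¹) * (b * l⁻¹) := by group
      rw [e, he.mul_pow, (hbd'.inv_right).mul_pow, hbl.inv_right.mul_pow, inv_pow, inv_pow, hbk,
        hdk, hk]
      simp
    have hw3 := eq_one_of_mem_coprime_pow hYc hw hw2
    have hleq : l = b * d⁻¹ * b := by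
      rw [mul_inv_eq_one] at hw3
      exact hw3.symm
    intro m hm
    have hmb : Commute m b := hc1 m hm b hbLy
    have hmd : Commute m d := hc2 m hm d hdL
    rw [hleq]
    exact ((hmb.mul_right hmd.inv_right).mul_right hmb).eq

end Main

end Cfsg.Agent.Lib.LBal
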