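import Mathlib
import Cfsg.Prelude.Def_Balance
import Cfsg.Agent.Lib.LBal

set_option autoImplicit false
set_option linter.style.haveILetI false
set_option linter.unusedSectionVars false

/-! L-balance: the action of the `p'`-core on components, under balance hypotheses. -/

namespace Cfsg.Agent.Lib.LBal2

open Cfsg Cfsg.Agent.Lib.H1Core Cfsg.Agent.Lib.Comp Cfsg.Agent.Lib.Comp2 Cfsg.Agent.Lib.Comp3
  Cfsg.Agent.Lib.LBal
open scoped commutatorElement

section Main

variable {G : Type*} [Group G] [Finite G] {p : ℕ} [hp : Fact p.Prime]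

theorem le_normalizer_centralizer {H L : Subgroup G} (h : H ≤ Subgroup.normalizer (L : Set G)) :
    H ≤ Subgroup.normalizer (Subgroup.centralizer (L : Set G) : Set G) := by
  refine Subgroup.le_normalizer_iff.mpr ?_
  intro g hg c hc
  rw [Subgroup.mem_centralizer_iff] at hc ⊢
  intro m hm
  have hgN : g⁻¹ ∈ Subgroup.normalizer (L : Set G) := Subgroup.inv_mem _ (h hg)
  have h1 : g⁻¹ * m * g ∈ L := by
    have := (Subgroup.mem_normalizer_iff.mp hgN m).mp hm
    simpa using this
  have h2 := hc _ h1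
  calc m * (g * c * g⁻¹) = g * ((g⁻¹ * m * g) * c) * g⁻¹ := by group
    _ = g * (c * (g⁻¹ * m * g)) * g⁻¹ := by rw [h2]
    _ = g * c * g⁻¹ * m := by group

/-- the core of `H / C_H(L)` is trivial. -/
theorem core_quotient_trivial (hO : pPrimeCore p G = ⊥) {L H : Subgroup G} (hL : IsComponent L)
    (hLH : L ≤ H) (hHN : H ≤ Subgroup.normalizer (L : Set G))
    [hCn : ((Subgroup.centralizer (L : Set G)).subgroupOf H).Normal] :
    pPrimeCore p (↥H ⧸ (Subgroup.centralizer (L : Set G)).subgroupOf H) = ⊥ := by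
  classical
  set CL := (Subgroup.centralizer (L : Set G)).subgroupOf H with hCL
  let π : ↥H →* ↥H ⧸ CL := QuotientGroup.mk' CL
  set O := pPrimeCore p (↥H ⧸ CL) with hOdef
  haveI hOn : O.Normal := pPrimeCore_normal p _
  have hOc : (Nat.card O).Coprime p := pPrimeCore_coprime p
  have hkerπ : ∀ u : ↥H, π u = 1 ↔ (u : G) ∈ Subgroup.centralizer (L : Set G) := by
    intro u
    show ((u : ↥H) : ↥H ⧸ CL) = 1 ↔ _
    rw [QuotientGroup.eq_one_iff, hCL, Subgroup.mem_subgroupOf]
  -- the preimage in `L`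
  set D : Subgroup ↥L := (O.comap π).comap (Subgroup.inclusion hLH) with hD
  haveI hDn : D.Normal := by
    constructor
    intro n hn g
    rw [hD, Subgroup.mem_comap, Subgroup.mem_comap] at hn ⊢
    rw [map_mul, map_mul, map_mul, map_mul, map_inv, map_inv]
    exact hOn.conj_mem _ hn _
  rcases qs_normal hL.2 D with hDtop | hDc
  · exfalso
    -- `L/Z(L)` embeds in `O`
    apply comp_not_coprime hO hL
    refine coprime_of_perfect_center (qs_commutator hL.2) ?_
    let f : ↥L →* ↥O := ((π.comp (Subgroup.inclusion hLH))).codRestrict O (fun l => by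
      have : l ∈ D := by rw [hDtop]; trivial
      exact this)
    have hker : f.ker ≤ Subgroup.center ↥L := by
      intro l hl
      have h1 : π (Subgroup.inclusion hLH l) = 1 := by
        have := congrArg Subtype.val (MonoidHom.mem_ker.mp hl)
        exact this
      rw [hkerπ] at h1
      rw [Subgroup.mem_center_iff]
      intro m
      apply Subtype.ext
      exact Subgroup.mem_centralizer_iff.mp h1 m m.2
    have hdvd : (Subgroup.center ↥L).index ∣ Nat.card O := by
      refine (Subgroup.index_dvd_of_le hker).trans ?_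
      rw [Subgroup.index_ker]
      exact Subgroup.card_subgroup_dvd_card _
    exact Nat.Coprime.coprime_dvd_left hdvd hOc
  · -- `O` meets the image of `L` trivially
    rw [eq_bot_iff]
    intro o ho
    obtain ⟨h, rfl⟩ := QuotientGroup.mk'_surjective CL o
    rw [Subgroup.mem_bot]
    have hcen := central_action_trivial (y := (h : G)) (qs_commutator hL.2) (hHN h.2) ?_
    · show π h = 1
      rw [hkerπ, Subgroup.mem_centralizer_iff]
      intro l hl
      exact (hcen l hl).symm
    · intro l hl m hm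
      set e : ↥L := ⟨(h : G) * l * (h : G)⁻¹ * l⁻¹, by
        refine L.mul_mem ?_ (L.inv_mem hl)
        exact (Subgroup.mem_normalizer_iff.mp (hHN h.2) l).mp hl⟩ with he
      have hl' : (⟨l, hLH hl⟩ : ↥H) = Subgroup.inclusion hLH ⟨l, hl⟩ := rfl
      have heD : e ∈ D := by
        rw [hD, Subgroup.mem_comap, Subgroup.mem_comap]
        have e1 : π (Subgroup.inclusion hLH e) =
            (π h * π ⟨l, hLH hl⟩ * (π h)⁻¹) * (π ⟨l, hLH hl⟩)⁻¹ := by
          rw [← map_inv, ← map_inv, ← map_mul, ← map_mul, ← map_mul]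
          rfl
        rw [e1]
        -- in `O ∩ L̄`
        have h1 : (π h * π ⟨l, hLH hl⟩ * (π h)⁻¹) * (π ⟨l, hLH hl⟩)⁻¹ =
            π h * (π ⟨l, hLH hl⟩ * (π h)⁻¹ * (π ⟨l, hLH hl⟩)⁻¹) := by group
        rw [h1]
        exact O.mul_mem ho (hOn.conj_mem _ (O.inv_mem ho) _)
      have h2 := hDc heD
      have h3 := Subgroup.mem_center_iff.mp h2 ⟨m, hm⟩
      exact congrArg Subtype.val h3

/-- Elements of `Y` normalizing a component act trivially, under the balance hypothesis. -/
theorem comp_action_trivial (hO : pPrimeCore p G = ⊥) {x : G} (hx : orderOf x = p) {L Y : Subgroup G}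
    (hL : IsComponent L) (hxL : x ∈ Subgroup.normalizer (L : Set G))
    (hxc : ¬ ∀ l ∈ L, x * l = l * x)
    (hYC : Y ≤ Subgroup.centralizer ({x} : Set G))
    (hYn : Subgroup.centralizer ({x} : Set G) ≤ Subgroup.normalizer (Y : Set G))
    (hYc : (Nat.card Y).Coprime p)
    (hbal : ∀ H : Subgroup G, L ≤ H → (L.subgroupOf H).Normal →
      ∀ [((Subgroup.centralizer (L : Set G)).subgroupOf H).Normal],
        IsBalancedFor p (↥H ⧸ (Subgroup.centralizer (L : Set G)).subgroupOf H)) :
    ∀ w ∈ Y, w ∈ Subgroup.normalizer (L : Set G) → ∀ l ∈ L, w * l = l * w := by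
  classical
  have hxp : x ^ p = 1 := by rw [← hx]; exact pow_orderOf_eq_one x
  set CX : Subgroup G := Subgroup.centralizer ({x} : Set G) with hCX
  have hcomm_x : ∀ c ∈ CX, c * x = x * c := fun c hc =>
    (Subgroup.mem_centralizer_iff.mp hc x rfl).symm
  have hmem_CX : ∀ c : G, c * x = x * c → c ∈ CX := by
    intro c hc
    rw [hCX, Subgroup.mem_centralizer_iff]
    intro w hw
    rw [Set.mem_singleton_iff] at hw
    rw [hw]
    exact hc.symm
  set K₀ : Subgroup G := CX ⊓ Subgroup.normalizer (L : Set G) with hK₀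
  have hxK₀ : x ∈ K₀ := Subgroup.mem_inf.mpr ⟨hmem_CX x rfl, hxL⟩
  have hK₀N : K₀ ≤ Subgroup.normalizer (L : Set G) := inf_le_right
  set H : Subgroup G := L ⊔ K₀ with hH
  have hLH : L ≤ H := le_sup_left
  have hHN : H ≤ Subgroup.normalizer (L : Set G) := sup_le Subgroup.le_normalizer hK₀N
  have hLHn : (L.subgroupOf H).Normal := Subgroup.normal_subgroupOf_of_le_normalizer hHN
  haveI hCn : ((Subgroup.centralizer (L : Set G)).subgroupOf H).Normal :=
    Subgroup.normal_subgroupOf_of_le_normalizer (le_normalizer_centralizer hHN)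
  have hb := hbal H hLH hLHn
  have hcore := core_quotient_trivial hO hL hLH hHN (p := p)
  set CL := (Subgroup.centralizer (L : Set G)).subgroupOf H with hCL
  let π : ↥H →* ↥H ⧸ CL := QuotientGroup.mk' CL
  have hkerπ : ∀ u : ↥H, π u = 1 ↔ (u : G) ∈ Subgroup.centralizer (L : Set G) := by
    intro u
    show ((u : ↥H) : ↥H ⧸ CL) = 1 ↔ _
    rw [QuotientGroup.eq_one_iff, hCL, Subgroup.mem_subgroupOf]
  have hxH : x ∈ H := Subgroup.mem_sup_right hxK₀
  let x' : ↥H := ⟨x, hxH⟩
  have hord : orderOf (π x') = p := by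
    refine orderOf_eq_prime ?_ ?_
    · rw [← map_pow]
      have : x' ^ p = 1 := Subtype.ext hxp
      rw [this, map_one]
    · intro h1
      rw [hkerπ, Subgroup.mem_centralizer_iff] at h1
      apply hxc
      intro l hl
      exact (h1 l hl).symm
  have hbx := hb (π x') hord
  rw [hcore, le_bot_iff] at hbx
  -- the subgroups
  set W : Subgroup G := Y ⊓ Subgroup.normalizer (L : Set G) with hW
  set T : Subgroup G := L ⊓ CX with hT
  set R : Subgroup G := T ⊔ W with hR
  have hWH : W ≤ H := by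
    refine le_trans ?_ (le_sup_right : K₀ ≤ H)
    exact le_inf (inf_le_left.trans hYC) inf_le_right
  have hTH : T ≤ H := inf_le_left.trans hLH
  have hRH : R ≤ H := sup_le hTH hWH
  -- normalization by `K₀`
  have hK₀T : ∀ k ∈ K₀, ∀ t ∈ T, k * t * k⁻¹ ∈ T := by
    intro k hk t ht
    obtain ⟨hk1, hk2⟩ := Subgroup.mem_inf.mp hk
    obtain ⟨ht1, ht2⟩ := Subgroup.mem_inf.mp ht
    exact Subgroup.mem_inf.mpr ⟨(Subgroup.mem_normalizer_iff.mp hk2 t).mp ht1,
      Subgroup.mul_mem _ (Subgroup.mul_mem _ hk1 ht2) (Subgroup.inv_mem _ hk1)⟩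
  have hK₀W : ∀ k ∈ K₀, ∀ w ∈ W, k * w * k⁻¹ ∈ W := by
    intro k hk w hw
    obtain ⟨hk1, hk2⟩ := Subgroup.mem_inf.mp hk
    obtain ⟨hw1, hw2⟩ := Subgroup.mem_inf.mp hw
    exact Subgroup.mem_inf.mpr ⟨(Subgroup.le_normalizer_iff.mp hYn) k hk1 w hw1,
      Subgroup.mul_mem _ (Subgroup.mul_mem _ hk2 hw2) (Subgroup.inv_mem _ hk2)⟩
  have hTK₀ : T ≤ K₀ := by
    intro t ht
    obtain ⟨ht1, ht2⟩ := Subgroup.mem_inf.mp ht
    exact Subgroup.mem_inf.mpr ⟨ht2, Subgroup.le_normalizer ht1⟩
  have hWK₀ : W ≤ K₀ := le_inf (inf_le_left.trans hYC) inf_le_right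
  have hK₀R : ∀ k ∈ K₀, ∀ r ∈ R, k * r * k⁻¹ ∈ R := by
    intro k hk r hr
    have hle : R ≤ R.comap (MulAut.conj k).toMonoidHom := by
      refine sup_le (fun t ht => ?_) (fun w hw => ?_)
      · exact Subgroup.mem_sup_left (hK₀T k hk t ht)
      · exact Subgroup.mem_sup_right (hK₀W k hk w hw)
    exact hle hr
  -- normalization by `l`
  have hlR : ∀ l ∈ L, (∀ m ∈ L, m * (x * l * x⁻¹ * l⁻¹) = (x * l * x⁻¹ * l⁻¹) * m) →
      ∀ r ∈ R, l * r * l⁻¹ ∈ R := by
    intro l hl hz r hr
    set z := x * l * x⁻¹ * l⁻¹ with hzdef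
    have hzL : z ∈ L := by
      refine L.mul_mem ?_ (L.inv_mem hl)
      exact (Subgroup.mem_normalizer_iff.mp hxL l).mp hl
    have hzP := center_comp_le_pCore hO hL hzL hz
    have hxl : x * l * x⁻¹ = z * l := by rw [hzdef]; group
    have hle : R ≤ R.comap (MulAut.conj l).toMonoidHom := by
      refine sup_le (fun t ht => ?_) (fun w hw => ?_)
      · obtain ⟨ht1, ht2⟩ := Subgroup.mem_inf.mp ht
        refine Subgroup.mem_sup_left (Subgroup.mem_inf.mpr ⟨?_, hmem_CX _ ?_⟩)
        · exact L.mul_mem (L.mul_mem hl ht1) (L.inv_mem hl)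
        · have hAL : l * t * l⁻¹ ∈ L := L.mul_mem (L.mul_mem hl ht1) (L.inv_mem hl)
          have h1 : x * (l * t * l⁻¹) * x⁻¹ = l * t * l⁻¹ := by
            have ht3 : x * t * x⁻¹ = t := by
              rw [mul_inv_eq_iff_eq_mul]
              exact (hcomm_x t ht2).symm
            calc x * (l * t * l⁻¹) * x⁻¹ = (x * l * x⁻¹) * (x * t * x⁻¹) * (x * l * x⁻¹)⁻¹ := by group
              _ = (z * l) * t * (z * l)⁻¹ := by rw [hxl, ht3]
              _ = z * (l * t * l⁻¹) * z⁻¹ := by group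
              _ = (l * t * l⁻¹) * z * z⁻¹ := by rw [hz _ hAL]
              _ = l * t * l⁻¹ := by group
          rw [mul_inv_eq_iff_eq_mul] at h1
          exact h1.symm
      · obtain ⟨hw1, hw2⟩ := Subgroup.mem_inf.mp hw
        have hwz : w * z = z * w := Y_centralizes_pCore hxp hYC hYn hYc hw1 hzP
        have hwx : w * x = x * w := hcomm_x w (hYC hw1)
        set e := l * (w * l⁻¹ * w⁻¹) with he
        have heL : e ∈ L := L.mul_mem hl ((Subgroup.mem_normalizer_iff.mp hw2 _).mp (L.inv_mem hl))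
        have h1 : x * e * x⁻¹ = e := by
          have hxw : x * w * x⁻¹ = w := by
            rw [mul_inv_eq_iff_eq_mul]
            exact hwx.symm
          calc x * e * x⁻¹ = (x * l * x⁻¹) * ((x * w * x⁻¹) * (x * l * x⁻¹)⁻¹ * (x * w * x⁻¹)⁻¹) := by
                rw [he]; group
            _ = (z * l) * (w * (z * l)⁻¹ * w⁻¹) := by rw [hxl, hxw]
            _ = z * l * ((w * l⁻¹ * w⁻¹) * (w * z⁻¹ * w⁻¹)) := by group
            _ = z * l * ((w * l⁻¹ * w⁻¹) * z⁻¹) := by
                have : w * z⁻¹ * w⁻¹ = z⁻¹ := by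
                  have h2 : w * z * w⁻¹ = z := by
                    rw [mul_inv_eq_iff_eq_mul]
                    exact hwz
                  calc w * z⁻¹ * w⁻¹ = (w * z * w⁻¹)⁻¹ := by group
                    _ = z⁻¹ := by rw [h2]
                rw [this]
            _ = z * e * z⁻¹ := by rw [he]; group
            _ = e * z * z⁻¹ := by rw [hz e heL]
            _ = e := by group
        have heT : e ∈ T := Subgroup.mem_inf.mpr ⟨heL, hmem_CX _ (by
          rw [mul_inv_eq_iff_eq_mul] at h1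
          exact h1.symm)⟩
        have e2 : l * w * l⁻¹ = e * w := by
          rw [he]
          group
        show l * w * l⁻¹ ∈ R
        rw [e2]
        exact R.mul_mem (Subgroup.mem_sup_left heT) (Subgroup.mem_sup_right hw)
    exact hle hr
  -- now the images
  set Wb : Subgroup (↥H ⧸ CL) := (W.subgroupOf H).map π with hWb
  set Rb : Subgroup (↥H ⧸ CL) := (R.subgroupOf H).map π with hRb
  set Cb : Subgroup (↥H ⧸ CL) := Subgroup.centralizer ({π x'} : Set (↥H ⧸ CL)) with hCb
  have hRbC : Rb ≤ Cb := by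
    rintro _ ⟨r, hr, rfl⟩
    rw [hCb, Subgroup.mem_centralizer_iff]
    intro w hw
    rw [Set.mem_singleton_iff] at hw
    rw [hw, ← map_mul, ← map_mul]
    have hrR : (r : G) ∈ R := Subgroup.mem_subgroupOf.mp hr
    have hrCX : (r : G) ∈ CX := by
      refine (sup_le (inf_le_right) (inf_le_left.trans hYC) : R ≤ CX) hrR
    have : x' * r = r * x' := Subtype.ext (hcomm_x _ hrCX).symm
    rw [this]
  have hWbRb : Wb ≤ Rb := Subgroup.map_mono (by
    intro w hw
    rw [Subgroup.mem_subgroupOf] at hw ⊢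
    exact Subgroup.mem_sup_right hw)
  have hWbC : Wb ≤ Cb := hWbRb.trans hRbC
  -- normalizers
  have hCbR : Cb ≤ Subgroup.normalizer (Rb : Set (↥H ⧸ CL)) := by
    refine Subgroup.le_normalizer_iff.mpr ?_
    intro c hc r hr
    obtain ⟨u, rfl⟩ := QuotientGroup.mk'_surjective CL c
    obtain ⟨r, hr1, rfl⟩ := hr
    obtain ⟨l, hl, k, hk, hlk⟩ := (H1Cop.mem_sup_iff hK₀N).mp u.2
    have hcomm : π u * π x' = π x' * π u := by
      have := Subgroup.mem_centralizer_iff.mp hc (π x') rfl
      exact this.symm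
    have h1 : π (u * x' * u⁻¹ * x'⁻¹) = 1 := by
      simp only [map_mul, map_inv]
      rw [hcomm]
      group
    rw [hkerπ] at h1
    have hxk : k * x = x * k := hcomm_x k (Subgroup.mem_inf.mp hk).1
    have h2 : ((u * x' * u⁻¹ * x'⁻¹ : ↥H) : G) = l * x * l⁻¹ * x⁻¹ := by
      show (u : G) * x * (u : G)⁻¹ * x⁻¹ = _
      rw [← hlk]
      have : k * x * k⁻¹ = x := by
        rw [mul_inv_eq_iff_eq_mul]
        exact hxk
      calc l * k * x * (l * k)⁻¹ * x⁻¹ = l * (k * x * k⁻¹) * l⁻¹ * x⁻¹ := by group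
        _ = l * x * l⁻¹ * x⁻¹ := by rw [this]
    rw [h2] at h1
    have hz : ∀ m ∈ L, m * (x * l * x⁻¹ * l⁻¹) = (x * l * x⁻¹ * l⁻¹) * m := by
      intro m hm
      have h3 := Subgroup.mem_centralizer_iff.mp h1 m hm
      have e : x * l * x⁻¹ * l⁻¹ = (l * x * l⁻¹ * x⁻¹)⁻¹ := by group
      rw [e]
      have h4 : Commute m (l * x * l⁻¹ * x⁻¹) := h3
      exact h4.inv_right.eq
    have hrR : (r : G) ∈ R := Subgroup.mem_subgroupOf.mp hr1
    refine ⟨u * r * u⁻¹, ?_, ?_⟩
    · refine Subgroup.mem_subgroupOf.mpr ?_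
      show (u : G) * r * (u : G)⁻¹ ∈ R
      rw [← hlk]
      have h5 := hK₀R k hk r hrR
      have h6 := hlR l hl hz _ h5
      have e : l * k * (r : G) * (l * k)⁻¹ = l * (k * r * k⁻¹) * l⁻¹ := by group
      rw [e]
      exact h6
    · simp only [map_mul, map_inv]
      rfl
  have hRbW : Rb ≤ Subgroup.normalizer (Wb : Set (↥H ⧸ CL)) := by
    refine Subgroup.le_normalizer_iff.mpr ?_
    rintro _ ⟨r, hr, rfl⟩ _ ⟨w, hw, rfl⟩
    have hrR : (r : G) ∈ R := Subgroup.mem_subgroupOf.mp hr
    have hwW : (w : G) ∈ W := Subgroup.mem_subgroupOf.mp hw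
    have hRK₀ : R ≤ K₀ := sup_le hTK₀ hWK₀
    refine ⟨r * w * r⁻¹, ?_, ?_⟩
    · refine Subgroup.mem_subgroupOf.mpr ?_
      exact hK₀W r (hRK₀ hrR) w hwW
    · simp only [map_mul, map_inv]
  -- conclusion
  intro w hw hwN l hl
  have hwW : w ∈ W := Subgroup.mem_inf.mpr ⟨hw, hwN⟩
  have hS : (Wb.subgroupOf Cb).IsSubnormal := by
    refine subnormal_of_le_normalizer (K := Rb.subgroupOf Cb) ?_ ?_ ?_
    · intro c hc
      rw [Subgroup.mem_subgroupOf] at hc ⊢
      exact hWbRb hc
    · refine Subgroup.Normal.isSubnormal ?_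
      exact Subgroup.normal_subgroupOf_of_le_normalizer hCbR
    · refine Subgroup.le_normalizer_iff.mpr ?_
      intro r hr c hc
      rw [Subgroup.mem_subgroupOf] at hr hc ⊢
      exact (Subgroup.le_normalizer_iff.mp hRbW) _ hr _ hc
  have hScop : (Nat.card ↥(Wb.subgroupOf Cb)).Coprime p := by
    rw [card_subgroupOf_of_le hWbC]
    have h1 : Nat.card Wb ∣ Nat.card ↥(W.subgroupOf H) := Subgroup.card_map_dvd _ _
    have h2 : Nat.card ↥(W.subgroupOf H) = Nat.card W := card_subgroupOf_of_le hWH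
    rw [h2] at h1
    have h3 : Nat.card W ∣ Nat.card Y := Subgroup.card_dvd_of_le inf_le_left
    exact Nat.Coprime.coprime_dvd_left (h1.trans h3) hYc
  have hle := coprime_subnormal_le hS hScop
  have hwH : w ∈ H := hWH hwW
  have hπw : π ⟨w, hwH⟩ ∈ Wb := Subgroup.mem_map_of_mem _ (Subgroup.mem_subgroupOf.mpr hwW)
  have hmem : (⟨π ⟨w, hwH⟩, hWbC hπw⟩ : ↥Cb) ∈ pPrimeCore p ↥Cb :=
    hle (Subgroup.mem_subgroupOf.mpr hπw)
  have hone : π ⟨w, hwH⟩ = 1 := by
    have h1 : π ⟨w, hwH⟩ ∈ centralizerPPrimeCore p (π x') :=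
      Subgroup.mem_map_of_mem _ hmem
    rw [hbx, Subgroup.mem_bot] at h1
    exact h1
  rw [hkerπ, Subgroup.mem_centralizer_iff] at hone
  exact (hone l hl).symm

theorem mem_normalizer_of_conj_le {g : G} {L : Subgroup G} (h : ∀ l ∈ L, g * l * g⁻¹ ∈ L) :
    g ∈ Subgroup.normalizer (L : Set G) := by
  rw [mem_normalizer_iff_map]
  apply Subgroup.eq_of_le_of_card_ge
  · rintro _ ⟨l, hl, rfl⟩
    exact h l hl
  · rw [Subgroup.card_map_of_injective (MulAut.conj g).injective]

/-- From the commutator condition `[L, x] = L`: `x` normalizes and does not centralize `L`. -/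
theorem of_commutator_eq {x : G} {L : Subgroup G} (hL : IsComponent L)
    (h : ⁅L, Subgroup.zpowers x⁆ = L) :
    x ∈ Subgroup.normalizer (L : Set G) ∧ ¬ ∀ l ∈ L, x * l = l * x := by
  constructor
  · apply mem_normalizer_of_conj_le
    intro l hl
    have h1 : ⁅l⁻¹, x⁆ ∈ ⁅L, Subgroup.zpowers x⁆ :=
      Subgroup.commutator_mem_commutator (L.inv_mem hl) (Subgroup.mem_zpowers x)
    rw [h] at h1
    have e : x * l * x⁻¹ = l * ⁅l⁻¹, x⁆ := by
      rw [commutatorElement_def]
      group
    rw [e]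
    exact L.mul_mem hl h1
  · intro hc
    apply comp_ne_bot hL
    rw [← h, eq_bot_iff, Subgroup.commutator_le]
    intro l hl z hz
    rw [Subgroup.mem_bot, commutatorElement_eq_one_iff_mul_comm]
    have hzc : Subgroup.zpowers x ≤ Subgroup.centralizer ({l} : Set G) := by
      rw [Subgroup.zpowers_le, Subgroup.mem_centralizer_iff]
      intro w hw
      rw [Set.mem_singleton_iff] at hw
      rw [hw]
      exact (hc l hl).symm
    exact Subgroup.mem_centralizer_iff.mp (hzc hz) l rfl

/-- If `Y ≤ C(x)` is a `p'`-group normal in `C(x)` and centralizes the layer, it is trivial -/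
theorem eq_bot_of_comm_layer (hO : pPrimeCore p G = ⊥) {x : G} (hxp : x ^ p = 1) {Y : Subgroup G}
    (hYC : Y ≤ Subgroup.centralizer ({x} : Set G))
    (hYn : Subgroup.centralizer ({x} : Set G) ≤ Subgroup.normalizer (Y : Set G))
    (hYc : (Nat.card Y).Coprime p) (hlay : ∀ L : Subgroup G, IsComponent L → ⁅L, Y⁆ = ⊥) :
    Y = ⊥ := by
  have hF : fittingSubgroup G = pCore p G := H1Fit.fitting_eq_pCore_of_pPrimeCore_eq_bot p hO
  rw [eq_bot_iff]
  intro y hy
  rw [Subgroup.mem_bot]
  have hyF : y ∈ Subgroup.centralizer (generalizedFittingSubgroup G : Set G) := by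
    have hle : generalizedFittingSubgroup G ≤ Subgroup.centralizer ({y} : Set G) := by
      refine sup_le ?_ ?_
      · refine sSup_le fun L hL => ?_
        intro l hl
        rw [Subgroup.mem_centralizer_iff]
        intro w hw
        rw [Set.mem_singleton_iff] at hw
        rw [hw]
        exact (comm_iff.mp (hlay L hL) l hl y hy).symm
      · intro v hv
        rw [hF] at hv
        rw [Subgroup.mem_centralizer_iff]
        intro w hw
        rw [Set.mem_singleton_iff] at hw
        rw [hw]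
        exact Y_centralizes_pCore hxp hYC hYn hYc hy hv
    rw [Subgroup.mem_centralizer_iff]
    intro f hf
    have := Subgroup.mem_centralizer_iff.mp (hle hf) y rfl
    exact this.symm
  have hyF2 := centralizer_Fstar_le hyF
  -- `y` lies in the center of `F*`
  set ZF : Subgroup G := (Subgroup.center ↥(generalizedFittingSubgroup G)).map
    (generalizedFittingSubgroup G).subtype with hZF
  have hyZ : y ∈ ZF := by
    refine ⟨⟨y, hyF2⟩, Subgroup.mem_center_iff.mpr fun g => ?_, rfl⟩
    apply Subtype.ext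
    exact Subgroup.mem_centralizer_iff.mp hyF g g.2
  have hZn : ZF.Normal := normal_map_of_char inferInstance _ inferInstance
  have hZnil : Group.IsNilpotent ZF := by
    refine nilp_of_comm ?_
    rintro ⟨_, a, ha, rfl⟩ ⟨_, b, hb, rfl⟩
    apply Subtype.ext
    show (a : G) * b = b * a
    exact congrArg Subtype.val (Subgroup.mem_center_iff.mp ha b).symm
  have h1 := nilp_subnormal_le_fitting hZn.isSubnormal hZnil hyZ
  rw [hF] at h1
  exact eq_one_of_mem_pgroup_coprime (pCore_isPGroup p) hYc h1 hy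

end Main

end Cfsg.Agent.Lib.LBal2
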