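import Mathlib
import Cfsg.Prelude.Def_Balance
import Cfsg.Agent.Lib.LBal2

set_option autoImplicit false
set_option linter.style.haveILetI false
set_option linter.unusedSectionVars false

/-! L-balance: the existence of components moved by a signalizer. -/

namespace Cfsg.Agent.Lib.LBal3

open Cfsg Cfsg.Agent.Lib.H1Core Cfsg.Agent.Lib.Comp Cfsg.Agent.Lib.Comp2 Cfsg.Agent.Lib.Comp3
  Cfsg.Agent.Lib.LBal Cfsg.Agent.Lib.LBal2
open scoped commutatorElement

section Main

variable {G : Type*} [Group G] [Finite G] {p : ℕ} [hp : Fact p.Prime]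

/-- variant of `eq_bot_of_comm_layer` with a subgroup `Y` of the signalizer `Y₀`. -/
theorem eq_bot_of_comm_layer' (hO : pPrimeCore p G = ⊥) {x : G} (hxp : x ^ p = 1) {Y₀ Y : Subgroup G}
    (hYY : Y ≤ Y₀)
    (hYC : Y₀ ≤ Subgroup.centralizer ({x} : Set G))
    (hYn : Subgroup.centralizer ({x} : Set G) ≤ Subgroup.normalizer (Y₀ : Set G))
    (hYc : (Nat.card Y₀).Coprime p) (hlay : ∀ L : Subgroup G, IsComponent L → ⁅L, Y⁆ = ⊥) :
    Y = ⊥ := by
  have hF : fittingSubgroup G = pCore p G := H1Fit.fitting_eq_pCore_of_pPrimeCore_eq_bot p hO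
  rw [eq_bot_iff]
  intro y hy
  rw [Subgroup.mem_bot]
  have hyF : y ∈ Subgroup.centralizer (generalizedFittingSubgroup G : Set G) := by
    have hle : generalizedFittingSubgroup G ≤ Subgroup.centralizer ({y} : Set G) := by
      refine sup_le ?_ ?_
      · refine sSup_le fun L hL => ?_
        intro l hl
        rw [Subgroup.mem_centralizer_iff]
        intro w hw
        rw [Set.mem_singleton_iff] at hw
        rw [hw]
        exact (comm_iff.mp (hlay L hL) l hl y hy).symm
      · intro v hv
        rw [hF] at hv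
        rw [Subgroup.mem_centralizer_iff]
        intro w hw
        rw [Set.mem_singleton_iff] at hw
        rw [hw]
        exact Y_centralizes_pCore hxp hYC hYn hYc (hYY hy) hv
    rw [Subgroup.mem_centralizer_iff]
    intro f hf
    have := Subgroup.mem_centralizer_iff.mp (hle hf) y rfl
    exact this.symm
  have hyF2 := centralizer_Fstar_le hyF
  -- `y` lies in the center of `F*`
  set ZF : Subgroup G := (Subgroup.center ↥(generalizedFittingSubgroup G)).map
    (generalizedFittingSubgroup G).subtype with hZF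
  have hyZ : y ∈ ZF := by
    refine ⟨⟨y, hyF2⟩, Subgroup.mem_center_iff.mpr fun g => ?_, rfl⟩
    apply Subtype.ext
    exact Subgroup.mem_centralizer_iff.mp hyF g g.2
  have hZn : ZF.Normal := normal_map_of_char inferInstance _ inferInstance
  have hZnil : Group.IsNilpotent ZF := by
    refine nilp_of_comm ?_
    rintro ⟨_, a, ha, rfl⟩ ⟨_, b, hb, rfl⟩
    apply Subtype.ext
    show (a : G) * b = b * a
    exact congrArg Subtype.val (Subgroup.mem_center_iff.mp ha b).symm
  have h1 := nilp_subnormal_le_fitting hZn.isSubnormal hZnil hyZ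
  rw [hF] at h1
  have hYcY : (Nat.card Y).Coprime p := by
    exact Nat.Coprime.coprime_dvd_left (Subgroup.card_dvd_of_le hYY) hYc
  exact eq_one_of_mem_pgroup_coprime (pCore_isPGroup p) hYcY h1 hy

/-- the key lemma behind "L-balance gives moved components". -/
theorem exists_moved_comp {H₁ : Subgroup G} (hH₁ : H₁.Normal)
    (hO : pPrimeCore 2 G = ⊥) [Fact (Nat.Prime 2)] {t : G} (ht : orderOf t = 2) {Y₀ Y : Subgroup G}
    (hY1 : Y ≠ ⊥) (hYY : Y ≤ Y₀) (hYH : Y ≤ H₁)
    (hYC : Y₀ ≤ Subgroup.centralizer ({t} : Set G))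
    (hYn : Subgroup.centralizer ({t} : Set G) ≤ Subgroup.normalizer (Y₀ : Set G))
    (hYc : (Nat.card Y₀).Coprime 2) :
    ∃ E : Subgroup G, IsComponent E ∧ E ≤ H₁ ∧ t ∈ Subgroup.normalizer (E : Set G) ∧
      Y₀ ≤ Subgroup.normalizer (E : Set G) ∧ (¬ ∀ l ∈ E, t * l = l * t) ∧
      ¬ Y ≤ Subgroup.centralizer (E : Set G) := by
  by_contra hcon
  push Not at hcon
  apply hY1
  refine eq_bot_of_comm_layer' hO (x := t) (by rw [← ht]; exact pow_orderOf_eq_one t) hYY hYC hYn hYc ?_
  intro L hL
  rcases comp_normal hL hH₁ with hLH | hLc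
  · by_cases hne : ⁅L, Subgroup.zpowers t⁆ = L
    · obtain ⟨h1, h2⟩ := of_commutator_eq hL hne
      have h3 := comp_normalized hO ht hL h1 hYC hYn hYc (Or.inl rfl)
      have h4 := hcon L hL hLH h1 h3 (by push Not at h2; exact h2)
      rw [comm_iff]
      intro l hl y hy
      exact Subgroup.mem_centralizer_iff.mp (h4 hy) l hl
    · have := lbal hO ht hL hYC hYn hYc hne
      rw [comm_iff] at this ⊢
      intro l hl y hy
      exact this l hl y (hYY hy)
  · rw [comm_iff] at hLc ⊢
    intro l hl y hy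
    exact hLc l hl y (hYH hy)

/-- conjugation by an element of the normalizer, as an automorphism. -/
def conjEquiv (R : Subgroup G) (c : G) (hc : c ∈ Subgroup.normalizer (R : Set G)) : ↥R ≃* ↥R where
  toFun x := ⟨c * x * c⁻¹, (Subgroup.mem_normalizer_iff.mp hc x).mp x.2⟩
  invFun x := ⟨c⁻¹ * x * c, by
    have := (Subgroup.mem_normalizer_iff.mp (Subgroup.inv_mem _ hc) x).mp x.2
    simpa using this⟩
  left_inv x := by apply Subtype.ext; simp [mul_assoc]
  right_inv x := by apply Subtype.ext; simp [mul_assoc]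
  map_mul' x y := by apply Subtype.ext; simp [mul_assoc]

/-- the `p'`-core of a subgroup is normalized by the normalizer of the subgroup. -/
theorem pPrimeCore_conj (R : Subgroup G) (q : ℕ) {c : G} (hc : c ∈ Subgroup.normalizer (R : Set G))
    {x : G} (hx : x ∈ (pPrimeCore q ↥R).map R.subtype) :
    c * x * c⁻¹ ∈ (pPrimeCore q ↥R).map R.subtype := by
  obtain ⟨y, hy, rfl⟩ := hx
  have h := (Comp2.pPrimeCore_char (G := ↥R) q).fixed (conjEquiv R c hc)
  have hy' : y ∈ (pPrimeCore q ↥R).comap (conjEquiv R c hc).toMonoidHom := by rw [h]; exact hy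
  exact ⟨_, hy', rfl⟩

end Main

end Cfsg.Agent.Lib.LBal3
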