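import Mathlib
import Cfsg.Agent.Lib.LCD2

set_option autoImplicit false
set_option linter.unusedSectionVars false
set_option linter.unusedVariables false
set_option linter.style.haveILetI false

/-! Minimal centrally large subgroups. -/

namespace Cfsg.Agent.Lib.LCD

open Subgroup Cfsg
open scoped commutatorElement Pointwise

variable {G : Type*} [Group G] [Finite G]

/-- `Q ⊔ J` is centrally large. -/
theorem cl_sup_J {p : ℕ} [hp : Fact p.Prime] (hP : IsPGroup p G) {Q : Subgroup G} (hQ : IsCL Q) :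
    IsCL (Q ⊔ Cfsg.thompsonSubgroupA G) := by
  obtain ⟨T, hT, hmax⟩ := (Set.toFinite {Y : Subgroup G | IsCL Y ∧ Y ≤ Q ⊔ Cfsg.thompsonSubgroupA G}).exists_le_maximal
    (show Q ∈ {Y : Subgroup G | IsCL Y ∧ Y ≤ Q ⊔ Cfsg.thompsonSubgroupA G} from ⟨hQ, le_sup_left⟩)
  have hle : Q ⊔ Cfsg.thompsonSubgroupA G ≤ T := by
    apply sup_le hT
    apply sSup_le
    intro A hA
    have h1 := (cl_abelian_main hP _ T A hmax.1.1 hA rfl).1
    have h2 : T ⊔ A ≤ Q ⊔ Cfsg.thompsonSubgroupA G :=
      sup_le hmax.1.2 (le_trans (le_sSup hA) le_sup_right)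
    have h3 : T ⊔ A ≤ T := hmax.2 ⟨h1, h2⟩ le_sup_left
    exact le_trans le_sup_right h3
  have : T = Q ⊔ Cfsg.thompsonSubgroupA G := le_antisymm hmax.1.2 hle
  rw [← this]
  exact hmax.1.1

/-- Every `Q` centrally large containing `J` contains `C(Z(J))`. -/
theorem centralizer_center_J_le {Q : Subgroup G} (hQ : IsCL Q) (hJ : Cfsg.thompsonSubgroupA G ≤ Q) :
    centralizer ((Cfsg.thompsonSubgroupA G ⊓ centralizer (Cfsg.thompsonSubgroupA G : Set G) : Subgroup G) : Set G) ≤ Q := by
  obtain ⟨hml, hC⟩ := cl_ml hQ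
  have h1 : centralizer (Q : Set G) ≤ Cfsg.thompsonSubgroupA G ⊓ centralizer (Cfsg.thompsonSubgroupA G : Set G) := by
    intro x hx
    refine mem_inf.2 ⟨?_, centralizer_le (SetLike.coe_subset_coe.2 hJ) hx⟩
    obtain ⟨A, hA⟩ := exists_maxAb (G := G)
    have hAJ : A ≤ Cfsg.thompsonSubgroupA G := le_sSup hA
    exact hAJ (maxAb_self hA (centralizer_le (SetLike.coe_subset_coe.2 (hAJ.trans hJ)) hx))
  have h2 := centralizer_le (SetLike.coe_subset_coe.2 h1)
  have h3 := (ml_centralizer hml).2
  rw [h3]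
  exact h2

theorem comm_mul_central {f f' w w' : G} (h1 : w * f' = f' * w) (h2 : w * w' = w' * w)
    (h3 : w' * f = f * w') (h4 : w * f = f * w) : ⁅f * w, f' * w'⁆ = ⁅f, f'⁆ := by
  simp only [commutatorElement_def]
  have e1 : f * w * (f' * w') = f * f' * (w * w') := by
    calc f * w * (f' * w') = f * (w * f') * w' := by group
      _ = f * (f' * w) * w' := by rw [h1]
      _ = _ := by group
  have e2 : f' * w' * (f * w) = f' * f * (w * w') := by
    calc f' * w' * (f * w) = f' * (w' * f) * w := by group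
      _ = f' * (f * w') * w := by rw [h3]
      _ = f' * f * (w' * w) := by group
      _ = _ := by rw [h2]
  have e3 : f * w * (f' * w') * (f * w)⁻¹ * (f' * w')⁻¹ = (f * w * (f' * w')) * (f' * w' * (f * w))⁻¹ := by group
  rw [e3, e1, e2]
  group

/-- Structure of two minimal centrally large subgroups. -/
theorem min_pair {Q R : Subgroup G} (hQ : IsCL Q) (hR : IsCL R)
    (hQm : ∀ R' : Subgroup G, R' ≤ Q → IsCL R' → R' = Q) :
    (Q ⊓ R) ⊔ (Q ⊓ centralizer (Q : Set G)) = Q := by
  obtain ⟨hQml, hQC⟩ := cl_ml hQ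
  obtain ⟨hRml, hRC⟩ := cl_ml hR
  obtain ⟨h1, h2, h3, h4⟩ := ml_pair hQml hRml
  obtain ⟨h5, h6⟩ := ml_centralizer hQml
  obtain ⟨h7, h8⟩ := ml_centralizer hRml
  obtain ⟨h9, h10, h11, h12⟩ := ml_pair h5 h7
  have hCF : centralizer ((Q ⊓ R : Subgroup G) : Set G) = centralizer (Q : Set G) ⊔ centralizer (R : Set G) :=
    (Subgroup.eq_of_le_of_card_ge (centralizer_sup_le Q R) h4.symm.le).symm
  have hset : ((centralizer (Q : Set G) ⊔ centralizer (R : Set G) : Subgroup G) : Set G) =
      (centralizer (Q : Set G) : Set G) * (centralizer (R : Set G) : Set G) :=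
    coe_sup_eq_of_card h11.le
  have hW : Q ⊓ centralizer (Q : Set G) = centralizer (Q : Set G) := inf_eq_right.2 hQC
  rw [hW]
  set U : Subgroup G := (Q ⊓ R) ⊔ centralizer (Q : Set G) with hU
  have hUml : IsML U := (ml_pair h2 h5).1
  have hUQ : U ≤ Q := sup_le inf_le_left hQC
  have hCU : centralizer (U : Set G) ≤ U := by
    rw [hU, centralizer_sup', ← h6, hCF]
    intro x hx
    have hx1 : x ∈ ((centralizer (Q : Set G) ⊔ centralizer (R : Set G) : Subgroup G) : Set G) := (mem_inf.1 hx).1
    rw [hset] at hx1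
    obtain ⟨c₁, hc₁, c₂, hc₂, rfl⟩ := hx1
    have hc₂Q : c₂ ∈ Q := by
      have : c₂ = c₁⁻¹ * (c₁ * c₂) := by group
      rw [this]
      exact mul_mem (inv_mem (hQC hc₁)) (mem_inf.1 hx).2
    exact mul_mem (mem_sup_right hc₁) (mem_sup_left (mem_inf.2 ⟨hc₂Q, hRC hc₂⟩))
  exact hQm U hUQ (ml_cl hUml hCU)

/-- Abelian centrally large subgroups: measure. -/
theorem zdm_of_comm {A : Subgroup G} (hA : IsMulCommutative A) : zdm A = Nat.card A * Nat.card A := by
  unfold zdm
  rw [inf_eq_left.2 (le_centralizer_of_comm hA)]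

/-- The theorem on minimal centrally large subgroups. -/
theorem min_cl_main {Q R : Subgroup G} (hQ : IsCL Q) (hR : IsCL R)
    (hQm : ∀ R' : Subgroup G, R' ≤ Q → IsCL R' → R' = Q)
    (hRm : ∀ R' : Subgroup G, R' ≤ R → IsCL R' → R' = R) :
    (Q ⊓ R) ⊔ (Q ⊓ centralizer (Q : Set G)) = Q ∧ ⁅Q, Q⁆ = ⁅R, R⁆ ∧ Nat.card Q = Nat.card R ∧
      Nat.card ↥(Q ⊓ centralizer (Q : Set G)) = Nat.card ↥(R ⊓ centralizer (R : Set G)) := by
  have h1 := min_pair hQ hR hQm
  have h2 := min_pair hR hQ hRm
  rw [inf_comm R Q] at h2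
  set F : Subgroup G := Q ⊓ R with hF
  -- general facts for one side
  have key : ∀ Y : Subgroup G, F ≤ Y → F ⊔ (Y ⊓ centralizer (Y : Set G)) = Y →
      ⁅Y, Y⁆ = ⁅F, F⁆ ∧ Nat.card Y * Nat.card ↥(F ⊓ centralizer (F : Set G)) =
        Nat.card F * Nat.card ↥(Y ⊓ centralizer (Y : Set G)) := by
    intro Y hFY hY
    have hWn : Y ⊓ centralizer (Y : Set G) ≤ normalizer (F : Set G) := by
      intro w hw
      refine centralizer_le_normalizer (s := (F : Set G)) ?_
      refine mem_centralizer_iff.2 ?_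
      intro f hf
      exact (mem_centralizer_iff.1 (mem_inf.1 hw).2) f (hFY hf)
    constructor
    · apply le_antisymm
      · rw [Subgroup.commutator_le]
        intro x hx y hy
        have hx' : x ∈ F ⊔ (Y ⊓ centralizer (Y : Set G)) := by rw [hY]; exact hx
        have hy' : y ∈ F ⊔ (Y ⊓ centralizer (Y : Set G)) := by rw [hY]; exact hy
        obtain ⟨f, hf, w, hw, rfl⟩ := (Cfsg.Agent.Lib.H1Cop.mem_sup_iff hWn).1 hx'
        obtain ⟨f', hf', w', hw', rfl⟩ := (Cfsg.Agent.Lib.H1Cop.mem_sup_iff hWn).1 hy'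
        have c : ∀ z ∈ Y, ∀ u ∈ Y ⊓ centralizer (Y : Set G), u * z = z * u := fun z hz u hu =>
          ((mem_centralizer_iff.1 (mem_inf.1 hu).2) z hz).symm
        rw [comm_mul_central (c f' (hFY hf') w hw) (c w' (mem_inf.1 hw').1 w hw)
          (c f (hFY hf) w' hw') (c f (hFY hf) w hw)]
        exact commutator_mem_commutator hf hf'
      · exact commutator_mono hFY hFY
    · have h3 := Cfsg.Agent.Lib.H1Cop.card_sup_mul_inf_of_normalizes hWn
      rw [sup_comm, hY] at h3
      have h4 : (Y ⊓ centralizer (Y : Set G)) ⊓ F = F ⊓ centralizer (F : Set G) := by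
        apply le_antisymm
        · intro x hx
          refine mem_inf.2 ⟨(mem_inf.1 hx).2, ?_⟩
          exact centralizer_le (SetLike.coe_subset_coe.2 hFY) (mem_inf.1 (mem_inf.1 hx).1).2
        · intro x hx
          have hxY : x ∈ Y := hFY (mem_inf.1 hx).1
          have hxC : x ∈ centralizer (Y : Set G) := by
            have hle : Y ≤ centralizer ({x} : Set G) := by
              rw [← hY]
              apply sup_le
              · intro f hf
                refine mem_centralizer_iff.2 ?_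
                intro z hz
                rw [Set.mem_singleton_iff] at hz
                subst hz
                exact ((mem_centralizer_iff.1 (mem_inf.1 hx).2) f hf).symm
              · intro w hw
                refine mem_centralizer_iff.2 ?_
                intro z hz
                rw [Set.mem_singleton_iff] at hz
                subst hz
                exact (mem_centralizer_iff.1 (mem_inf.1 hw).2) z hxY
            refine mem_centralizer_iff.2 ?_
            intro y hy
            exact ((mem_centralizer_iff.1 (hle hy)) x (Set.mem_singleton x)).symm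
          exact mem_inf.2 ⟨mem_inf.2 ⟨hxY, hxC⟩, (mem_inf.1 hx).1⟩
      rw [h4] at h3
      rw [h3, mul_comm]
  obtain ⟨kQ1, kQ2⟩ := key Q inf_le_left h1
  obtain ⟨kR1, kR2⟩ := key R inf_le_right h2
  refine ⟨h1, kQ1.trans kR1.symm, ?_, ?_⟩
  all_goals
    have hzeq : zdm Q = zdm R := le_antisymm (hR Q) (hQ R)
    unfold zdm at hzeq
    set a := Nat.card Q
    set b := Nat.card R
    set x := Nat.card ↥(Q ⊓ centralizer (Q : Set G))
    set y := Nat.card ↥(R ⊓ centralizer (R : Set G))
    set z₀ := Nat.card ↥(F ⊓ centralizer (F : Set G))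
    set f := Nat.card F
    have hf : 0 < f := Nat.card_pos
    have hz : 0 < z₀ := Nat.card_pos
    have hxy : x = y := by
      have e : f * (x * x) = f * (y * y) := by
        calc f * (x * x) = (f * x) * x := by ring
          _ = (a * z₀) * x := by rw [kQ2]
          _ = (a * x) * z₀ := by ring
          _ = (b * y) * z₀ := by rw [hzeq]
          _ = (b * z₀) * y := by ring
          _ = (f * y) * y := by rw [kR2]
          _ = f * (y * y) := by ring
      have e2 : x * x = y * y := Nat.eq_of_mul_eq_mul_left hf e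
      nlinarith [Nat.mul_self_inj.1 e2]
  · have e : a * z₀ = b * z₀ := by rw [kQ2, kR2, hxy]
    exact Nat.eq_of_mul_eq_mul_right hz e
  · exact hxy

end Cfsg.Agent.Lib.LCD
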