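import Mathlib
import Cfsg.Agent.Lib.LMisc
import Cfsg.Agent.Lib.PGrp6
import Cfsg.Agent.Lib.LCD
import Cfsg.Agent.Lib.LSpe
import Cfsg.Agent.Lib.H1Cop
import Cfsg.Agent.Lib.PGlaub
import Cfsg.Agent.Lib.LPRed3

set_option autoImplicit false
set_option linter.unusedSectionVars false
set_option linter.unusedVariables false
set_option linter.style.haveILetI false

/-! Thompson replacement for abelian subgroups of largest order, and `D*`. -/

namespace Cfsg.Agent.Lib.LDStar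

open Subgroup Cfsg Cfsg.Agent.Lib.LMisc
open scoped commutatorElement

variable {S : Type*} [Group S] [Finite S] {p : ℕ} [Fact p.Prime]

theorem comm_sup {B C : Subgroup S} (hB : ∀ x ∈ B, ∀ y ∈ B, x * y = y * x) (hC : ∀ x ∈ C, ∀ y ∈ C, x * y = y * x)
    (hBC : ∀ x ∈ B, ∀ y ∈ C, x * y = y * x) : ∀ u ∈ B ⊔ C, ∀ v ∈ B ⊔ C, u * v = v * u := by
  have h : B ⊔ C ≤ centralizer ((B ⊔ C : Subgroup S) : Set S) := by
    rw [Cfsg.Agent.Lib.LCD.centralizer_sup']
    refine sup_le (le_inf ?_ ?_) (le_inf ?_ ?_)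
    · intro x hx
      rw [mem_centralizer_iff]
      intro y hy
      exact hB y hy x hx
    · intro x hx
      rw [mem_centralizer_iff]
      intro y hy
      exact (hBC x hx y hy).symm
    · intro x hx
      rw [mem_centralizer_iff]
      intro y hy
      exact hBC y hy x hx
    · intro x hx
      rw [mem_centralizer_iff]
      intro y hy
      exact hC y hy x hx
  intro u hu v hv
  exact mem_centralizer_iff.1 (h hv) u hu

/-- `[x, A]` -/
def mSub (A : Subgroup S) (x : S) : Subgroup S := closure {y | ∃ a ∈ A, y = x * a * x⁻¹ * a⁻¹}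

/-- `A ∩ A^x` -/
def dSub (A : Subgroup S) (x : S) : Subgroup S := A ⊓ A.map (MulAut.conj x).toMonoidHom

theorem mem_conj_iff {A : Subgroup S} {x u : S} : u ∈ A.map (MulAut.conj x).toMonoidHom ↔ x⁻¹ * u * x ∈ A := by
  constructor
  · rintro ⟨a, ha, rfl⟩
    have : x⁻¹ * ((MulAut.conj x).toMonoidHom a) * x = a := by
      simp [MulAut.conj_apply]; group
    rwa [this]
  · intro h
    exact ⟨_, h, by simp [MulAut.conj_apply]; group⟩

/-- the core replacement -/
theorem core {A X : Subgroup S} {x : S} (hA : A ∈ maxAbelianSubgroups S) (hX : IsMulCommutative X)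
    (h1 : ∀ a ∈ A, x * a * x⁻¹ * a⁻¹ ∈ X) (h2 : ∀ a ∈ A, x * a * x⁻¹ ∈ normalizer (A : Set S))
    (h3 : ∀ a ∈ A, x⁻¹ * a * x ∈ normalizer (A : Set S)) :
    mSub A x ⊔ dSub A x ∈ maxAbelianSubgroups S := by
  have hAc : ∀ a ∈ A, ∀ b ∈ A, a * b = b * a := fun a ha b hb => comm_of_isMulComm hA.1 ha hb
  set M := mSub A x with hM
  set D := dSub A x with hD
  have hMX : M ≤ X := by
    refine (closure_le _).2 ?_
    rintro _ ⟨a, ha, rfl⟩
    exact h1 a ha
  have hXc : ∀ a ∈ X, ∀ b ∈ X, a * b = b * a := fun a ha b hb => comm_of_isMulComm hX ha hb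
  have hDA : D ≤ A := inf_le_left
  have hMD : M ≤ centralizer (D : Set S) := by
    refine (closure_le _).2 ?_
    rintro _ ⟨a, ha, rfl⟩
    simp only [SetLike.mem_coe, mem_centralizer_iff]
    intro d hd
    have hd1 : d ∈ A := hd.1
    have hd2 : x⁻¹ * d * x ∈ A := mem_conj_iff.1 hd.2
    have h4 : d * a = a * d := hAc d hd1 a ha
    have h5 : (x⁻¹ * d * x) * a = a * (x⁻¹ * d * x) := hAc _ hd2 a ha
    have h6 : d * (x * a * x⁻¹) = (x * a * x⁻¹) * d := by
      calc d * (x * a * x⁻¹) = x * ((x⁻¹ * d * x) * a) * x⁻¹ := by group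
        _ = x * (a * (x⁻¹ * d * x)) * x⁻¹ := by rw [h5]
        _ = (x * a * x⁻¹) * d := by group
    have h7 : d * a⁻¹ = a⁻¹ * d := (show Commute d a from h4).inv_right.eq
    calc d * (x * a * x⁻¹ * a⁻¹) = (d * (x * a * x⁻¹)) * a⁻¹ := by group
      _ = (x * a * x⁻¹) * (d * a⁻¹) := by rw [h6]; group
      _ = (x * a * x⁻¹) * a⁻¹ * d := by rw [h7]; group
  set H := M ⊔ D with hH
  have hHc : ∀ u ∈ H, ∀ v ∈ H, u * v = v * u := by
    refine comm_sup (fun u hu v hv => hXc u (hMX hu) v (hMX hv)) (fun u hu v hv => hAc u (hDA hu) v (hDA hv)) ?_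
    intro u hu v hv
    exact mem_centralizer_iff.1 (hMD hu) v hv |>.symm
  have hHab : IsMulCommutative H := Cfsg.Agent.Lib.PGrp.isMulComm_of_comm hHc
  have hDH : D ≤ H := le_sup_right
  have hmH : ∀ a ∈ A, x * a * x⁻¹ * a⁻¹ ∈ H := fun a ha => mem_sup_left (subset_closure ⟨a, ha, rfl⟩)
  -- the normal subgroup
  set N : Subgroup ↥H := D.subgroupOf H with hN
  haveI hNn : N.Normal := by
    refine ⟨fun n hn g => ?_⟩
    have h4 : (g : S) * n = n * g := hHc _ g.2 _ n.2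
    have h5 : g * n * g⁻¹ = n := by
      apply Subtype.ext
      show (g : S) * n * (g : S)⁻¹ = n
      rw [h4, mul_inv_cancel_right]
    rw [h5]; exact hn
  -- commutators of `A` with `A^x`
  have hy : ∀ a ∈ A, ∀ b ∈ A, a * (x * b * x⁻¹)⁻¹ * a⁻¹ * (x * b * x⁻¹) ∈ D := by
    intro a ha b hb
    have hc : x * b * x⁻¹ ∈ normalizer (A : Set S) := h2 b hb
    refine mem_inf.2 ⟨?_, mem_conj_iff.2 ?_⟩
    · have h4 : (x * b * x⁻¹)⁻¹ * a⁻¹ * (x * b * x⁻¹) ∈ A := by
        have := (mem_normalizer_iff.1 (inv_mem hc) a⁻¹).1 (inv_mem ha)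
        simpa using this
      have e : a * (x * b * x⁻¹)⁻¹ * a⁻¹ * (x * b * x⁻¹) = a * ((x * b * x⁻¹)⁻¹ * a⁻¹ * (x * b * x⁻¹)) := by group
      rw [e]
      exact mul_mem ha h4
    · have h4 : x⁻¹ * a * x ∈ normalizer (A : Set S) := h3 a ha
      have h5 := (mem_normalizer_iff.1 h4 b⁻¹).1 (inv_mem hb)
      have e : x⁻¹ * (a * (x * b * x⁻¹)⁻¹ * a⁻¹ * (x * b * x⁻¹)) * x = (x⁻¹ * a * x) * b⁻¹ * (x⁻¹ * a * x)⁻¹ * b := by group
      rw [e]
      exact mul_mem h5 hb
  let f : ↥A →* ↥H ⧸ N := MonoidHom.mk' (fun a => (QuotientGroup.mk ⟨x * a * x⁻¹ * (a : S)⁻¹, hmH a a.2⟩ : ↥H ⧸ N)) (by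
    rintro ⟨a, ha⟩ ⟨b, hb⟩
    rw [← QuotientGroup.mk_mul, QuotientGroup.eq, hN, mem_subgroupOf]
    show (x * (a * b) * x⁻¹ * (a * b)⁻¹)⁻¹ * ((x * a * x⁻¹ * a⁻¹) * (x * b * x⁻¹ * b⁻¹)) ∈ D
    have hyy := hy a ha b hb
    have hc1 : b * (a * (x * b * x⁻¹)⁻¹ * a⁻¹ * (x * b * x⁻¹)) * b⁻¹ = a * (x * b * x⁻¹)⁻¹ * a⁻¹ * (x * b * x⁻¹) := by
      rw [hAc b hb _ (hDA hyy), mul_inv_cancel_right]
    have e : (x * (a * b) * x⁻¹ * (a * b)⁻¹)⁻¹ * ((x * a * x⁻¹ * a⁻¹) * (x * b * x⁻¹ * b⁻¹))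
        = a * (b * (x * b * x⁻¹)⁻¹ * a⁻¹ * (x * b * x⁻¹)) * b⁻¹ := by group
    have e2 : a * (b * (x * b * x⁻¹)⁻¹ * a⁻¹ * (x * b * x⁻¹)) * b⁻¹
        = b * (a * (x * b * x⁻¹)⁻¹ * a⁻¹ * (x * b * x⁻¹)) * b⁻¹ := by
      have : a * b = b * a := hAc a ha b hb
      calc a * (b * (x * b * x⁻¹)⁻¹ * a⁻¹ * (x * b * x⁻¹)) * b⁻¹
          = (a * b) * ((x * b * x⁻¹)⁻¹ * a⁻¹ * (x * b * x⁻¹)) * b⁻¹ := by group
        _ = (b * a) * ((x * b * x⁻¹)⁻¹ * a⁻¹ * (x * b * x⁻¹)) * b⁻¹ := by rw [this]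
        _ = _ := by group
    rw [e, e2, hc1]
    exact hyy)
  have hfk : ∀ a : ↥A, a ∈ f.ker → x * (a : S) * x⁻¹ ∈ D := by
    rintro ⟨a, ha⟩ h
    have h4 : (QuotientGroup.mk (⟨x * a * x⁻¹ * a⁻¹, hmH a ha⟩ : ↥H) : ↥H ⧸ N) = 1 := h
    have h5 : (⟨x * a * x⁻¹ * a⁻¹, hmH a ha⟩ : ↥H) ∈ N := (QuotientGroup.eq_one_iff _).1 h4
    have h6 : x * a * x⁻¹ * a⁻¹ ∈ D := mem_subgroupOf.1 h5
    have e : x * a * x⁻¹ = (x * a * x⁻¹ * a⁻¹) * a := by group
    refine mem_inf.2 ⟨?_, ?_⟩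
    · rw [e]
      exact mul_mem (hDA h6) ha
    · exact ⟨a, ha, by simp [MulAut.conj_apply]⟩
  have hkc : Nat.card f.ker ≤ Nat.card D := by
    refine Nat.card_le_card_of_injective (fun a : f.ker => (⟨x * (a.1 : S) * x⁻¹, hfk a.1 a.2⟩ : D)) ?_
    rintro ⟨⟨a, ha⟩, _⟩ ⟨⟨b, hb⟩, _⟩ h
    have h4 : x * a * x⁻¹ = x * b * x⁻¹ := congrArg Subtype.val h
    have h5 : a = b := by simpa using h4
    subst h5
    rfl
  have hcA : Nat.card A ≤ Nat.card H := by
    have e1 : Nat.card A = Nat.card f.ker * f.ker.index := (Subgroup.card_mul_index f.ker).symm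
    have e2 : f.ker.index = Nat.card f.range := Subgroup.index_ker f
    have e3 : Nat.card f.range ≤ Nat.card (↥H ⧸ N) := Subgroup.card_le_card_group _
    have e4 : Nat.card ↥H = Nat.card (↥H ⧸ N) * Nat.card N := Subgroup.card_eq_card_quotient_mul_card_subgroup N
    have e5 : Nat.card N = Nat.card D := Nat.card_congr (subgroupOfEquivOfLe hDH).toEquiv
    rw [e1, e2, e4, e5, mul_comm]
    exact Nat.mul_le_mul e3 hkc
  exact ⟨hHab, fun B hB => le_trans (hA.2 B hB) hcA⟩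

theorem core_mSub_le {A X : Subgroup S} {x : S} (h1 : ∀ a ∈ A, x * a * x⁻¹ * a⁻¹ ∈ X) : mSub A x ≤ X := by
  refine (closure_le _).2 ?_
  rintro _ ⟨a, ha, rfl⟩
  exact h1 a ha

theorem card_lt_of_lt' {U W : Subgroup S} (h : U < W) : Nat.card U < Nat.card W := by
  rcases lt_or_eq_of_le (Subgroup.card_le_of_le h.le) with h1 | h1
  · exact h1
  · exact absurd (Subgroup.eq_of_le_of_card_ge h.le (le_of_eq h1.symm)) h.ne

/-- Thompson replacement. -/
theorem tr (hS : IsPGroup p S) {A X : Subgroup S} (hA : A ∈ maxAbelianSubgroups S) (hX : IsMulCommutative X)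
    (hAX : A ≤ normalizer (X : Set S)) (hn : ¬ X ≤ normalizer (A : Set S)) :
    ∃ Astar ∈ maxAbelianSubgroups S, Astar ≤ normalizer (A : Set S) ∧ A ⊓ X < Astar ⊓ X ∧ Astar ≤ A ⊔ X := by
  set X₀ := X ⊓ normalizer (A : Set S) with hX₀
  set N₁ := X₀ ⊔ A with hN₁
  have hAX₀ : A ≤ normalizer (X₀ : Set S) := fun a ha =>
    Cfsg.Agent.Lib.LPRed.mem_normalizer_inf (hAX ha) (le_normalizer (le_normalizer ha))
  have hN₁A : N₁ ≤ normalizer (A : Set S) := sup_le inf_le_right le_normalizer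
  have hlt : N₁ < X ⊔ A := by
    refine lt_of_le_of_ne (sup_le_sup_right inf_le_left _) ?_
    intro e
    apply hn
    refine le_trans ?_ hN₁A
    rw [e]
    exact le_sup_left
  obtain ⟨g, hg, hgN, hgn⟩ := Cfsg.Agent.Lib.LSpe.exists_normalizer_gt (hS.to_subgroup _) hlt
  obtain ⟨x, hx, a₀, ha₀, rfl⟩ := (Cfsg.Agent.Lib.H1Cop.mem_sup_iff hAX).1 hg
  have ha₀N : a₀ ∈ N₁ := mem_sup_right ha₀
  have hxN : x ∈ normalizer (N₁ : Set S) := by
    have := mul_mem hgN (inv_mem (le_normalizer ha₀N))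
    simpa using this
  have hxn : x ∉ N₁ := fun h => hgn (mul_mem h ha₀N)
  have hcap : ∀ y ∈ X, y ∈ N₁ → y ∈ X₀ := by
    intro y hy hyN
    obtain ⟨k, hk, a, ha, rfl⟩ := (Cfsg.Agent.Lib.H1Cop.mem_sup_iff hAX₀).1 hyN
    have hk1 : k ∈ X := (inf_le_left : X₀ ≤ X) hk
    have h1 : a ∈ X := by
      have := mul_mem (inv_mem hk1) hy
      simpa using this
    exact mul_mem hk ⟨h1, le_normalizer ha⟩
  have hm : ∀ z ∈ X, z ∈ normalizer (N₁ : Set S) → ∀ a ∈ A, z * a * z⁻¹ * a⁻¹ ∈ X₀ := by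
    intro z hz hzN a ha
    refine hcap _ ?_ ?_
    · have h1 : a * z⁻¹ * a⁻¹ ∈ X := (mem_normalizer_iff.1 (hAX ha) _).1 (inv_mem hz)
      have e : z * a * z⁻¹ * a⁻¹ = z * (a * z⁻¹ * a⁻¹) := by group
      rw [e]
      exact mul_mem hz h1
    · have haN : a ∈ N₁ := mem_sup_right ha
      exact mul_mem ((mem_normalizer_iff.1 hzN a).1 haN) (inv_mem haN)
  have hconj : ∀ z ∈ X, z ∈ normalizer (N₁ : Set S) → ∀ a ∈ A, z * a * z⁻¹ ∈ normalizer (A : Set S) := by
    intro z hz hzN a ha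
    have h1 := (hm z hz hzN a ha).2
    have e : z * a * z⁻¹ = (z * a * z⁻¹ * a⁻¹) * a := by group
    rw [e]
    exact mul_mem h1 (le_normalizer ha)
  have h1 : ∀ a ∈ A, x * a * x⁻¹ * a⁻¹ ∈ X := fun a ha => (hm x hx hxN a ha).1
  have h2 := hconj x hx hxN
  have h3 : ∀ a ∈ A, x⁻¹ * a * x ∈ normalizer (A : Set S) := by
    intro a ha
    have := hconj x⁻¹ (inv_mem hx) (inv_mem hxN) a ha
    simpa using this
  have hstar := core hA hX h1 h2 h3
  refine ⟨_, hstar, ?_, ?_, ?_⟩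
  · refine sup_le ?_ (le_trans inf_le_left le_normalizer)
    refine (closure_le _).2 ?_
    rintro _ ⟨a, ha, rfl⟩
    exact (hm x hx hxN a ha).2
  · have hle : A ⊓ X ≤ (mSub A x ⊔ dSub A x) ⊓ X := by
      refine le_inf (le_trans ?_ le_sup_right) inf_le_right
      rintro a₁ ⟨ha1, ha2⟩
      refine mem_inf.2 ⟨ha1, mem_conj_iff.2 ?_⟩
      have h4 : a₁ * x = x * a₁ := comm_of_isMulComm hX ha2 hx
      have e : x⁻¹ * a₁ * x = a₁ := by
        rw [mul_assoc, h4]; group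
      rw [e]; exact ha1
    refine lt_of_le_of_ne hle ?_
    intro e
    apply hxn
    have hxA : x ∈ normalizer (A : Set S) := by
      refine Cfsg.Agent.Lib.PGlaub.mem_normalizer_of_conj_mem (fun a ha => ?_)
      have h4 : x * a * x⁻¹ * a⁻¹ ∈ (mSub A x ⊔ dSub A x) ⊓ X :=
        mem_inf.2 ⟨mem_sup_left (subset_closure ⟨a, ha, rfl⟩), h1 a ha⟩
      rw [← e] at h4
      have e2 : x * a * x⁻¹ = (x * a * x⁻¹ * a⁻¹) * a := by group
      rw [e2]
      exact mul_mem h4.1 ha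
    exact mem_sup_left ⟨hx, hxA⟩
  · refine sup_le ?_ (le_trans inf_le_left le_sup_left)
    exact le_trans (core_mSub_le h1) le_sup_right

/-- a member of the family centralizes every abelian subgroup it normalizes -/
theorem family_centralizes (hS : IsPGroup p S) {A V : Subgroup S} (hA : A ∈ dStarFamily S) (hV : IsMulCommutative V)
    (hAV : A ≤ normalizer (V : Set S)) : A ≤ centralizer (V : Set S) := by
  by_contra hcon
  set F : Set (Subgroup S) := {W | W ≤ V ∧ A ≤ normalizer (W : Set S) ∧ ¬ A ≤ centralizer (W : Set S)} with hF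
  have hVF : V ∈ F := ⟨le_rfl, hAV, hcon⟩
  obtain ⟨W, -, hW⟩ := (Set.toFinite F).exists_le_minimal hVF
  obtain ⟨⟨hWV, hWN, hWC⟩, hWm⟩ := hW
  set Z := ⁅W, A⁆ with hZ
  have hZW : Z ≤ W := Cfsg.Agent.Lib.H1Cop.commutator_le_left hWN
  have hZN : A ≤ normalizer (Z : Set S) := Cfsg.Agent.Lib.H1Cop.commutator_normalized_right W A
  have hZC : A ≤ centralizer (Z : Set S) := by
    by_contra h
    have h1 : W ≤ Z := hWm ⟨le_trans hZW hWV, hZN, h⟩ hZW
    haveI : Group.IsNilpotent S := hS.isNilpotent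
    obtain ⟨n, hn⟩ := _root_.nilpotent_iff_lowerCentralSeries.1 (inferInstance : Group.IsNilpotent S)
    have h2 : ∀ k, W ≤ (⊤ : Subgroup S).lowerCentralSeries k := by
      intro k
      induction k with
      | zero => exact le_top
      | succ k ih =>
        refine le_trans h1 ?_
        exact commutator_mono ih le_top
    have h3 := h2 n
    rw [hn] at h3
    apply hWC
    intro a _
    rw [mem_centralizer_iff]
    intro w hw
    have : w = 1 := mem_bot.1 (h3 hw)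
    simp [this]
  apply hWC
  intro a ha
  rw [mem_centralizer_iff]
  intro x hx
  have hxV := hWV hx
  set T : Set S := (A : Set S) ∪ {x} with hT
  have hcl : A ⊔ zpowers x = closure T := by
    rw [hT, Subgroup.closure_union, Subgroup.closure_eq, zpowers_eq_closure]
  have hcen : ∀ n ∈ Z, ∀ s ∈ T, n * s = s * n := by
    intro n hn s hs
    rcases hs with hs | hs
    · exact mem_centralizer_iff.1 (hZC hs) n hn
    · rw [Set.mem_singleton_iff] at hs
      rw [hs]
      exact comm_of_isMulComm hV (hWV (hZW hn)) hxV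
  have hgen : ∀ s ∈ T, ∀ t ∈ T, ⁅s, t⁆ ∈ Z := by
    intro s hs t ht
    rcases hs with hs | hs
    · rcases ht with ht | ht
      · have : ⁅s, t⁆ = 1 := commutatorElement_eq_one_iff_mul_comm.2 (comm_of_isMulComm hA.1 hs ht)
        rw [this]; exact one_mem _
      · rw [Set.mem_singleton_iff] at ht
        rw [ht, ← commutatorElement_inv]
        exact inv_mem (commutator_mem_commutator hx hs)
    · rw [Set.mem_singleton_iff] at hs
      rcases ht with ht | ht
      · rw [hs]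
        exact commutator_mem_commutator hx ht
      · rw [Set.mem_singleton_iff] at ht
        rw [hs, ht, commutatorElement_self]
        exact one_mem _
  have hclass : ⁅⁅A ⊔ zpowers x, A ⊔ zpowers x⁆, A ⊔ zpowers x⁆ = ⊥ := by
    have hle : ⁅A ⊔ zpowers x, A ⊔ zpowers x⁆ ≤ Z := by
      rw [commutator_le, hcl]
      intro u hu v hv
      exact comm_closure_mem T Z hcen hgen u hu v hv
    rw [eq_bot_iff, commutator_le]
    intro c hc u hu
    rw [mem_bot, commutatorElement_eq_one_iff_mul_comm]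
    have hc' := hle hc
    rw [hcl] at hu
    have : closure T ≤ centralizer ({c} : Set S) := by
      rw [closure_le]
      intro s hs
      simp only [SetLike.mem_coe, mem_centralizer_singleton_iff]
      exact (hcen c hc' s hs).symm
    exact (mem_centralizer_singleton_iff.1 (this hu)).symm
  exact (hA.2 x hclass a ha).symm

theorem exists_max : (maxAbelianSubgroups S).Nonempty := by
  classical
  set F : Set (Subgroup S) := {B | IsMulCommutative B} with hF
  have hbot : (⊥ : Subgroup S) ∈ F := Cfsg.Agent.Lib.PGrp.isMulComm_of_comm (by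
    intro a ha b hb
    rw [mem_bot.1 ha, mem_bot.1 hb])
  obtain ⟨A, hA, hmax⟩ := Set.exists_max_image F (fun B => Nat.card B) (Set.toFinite F) ⟨⊥, hbot⟩
  exact ⟨A, hA, fun B hB => hmax B hB⟩

theorem le_of_centralizes {X A : Subgroup S} (hX : X ∈ maxAbelianSubgroups S) (hA : IsMulCommutative A)
    (h : A ≤ centralizer (X : Set S)) : A ≤ X := by
  have h1 : ∀ u ∈ A ⊔ X, ∀ v ∈ A ⊔ X, u * v = v * u := by
    refine comm_sup (fun u hu v hv => comm_of_isMulComm hA hu hv) (fun u hu v hv => comm_of_isMulComm hX.1 hu hv) ?_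
    intro u hu v hv
    exact (mem_centralizer_iff.1 (h hu) v hv).symm
  have h2 := hX.2 _ (Cfsg.Agent.Lib.PGrp.isMulComm_of_comm h1)
  have h3 : A ⊔ X = X := (Subgroup.eq_of_le_of_card_ge le_sup_right h2).symm
  rw [← h3]
  exact le_sup_left

theorem family_subgroupOf {A T : Subgroup S} (hA : A ∈ dStarFamily S) (hAT : A ≤ T) : A.subgroupOf T ∈ dStarFamily ↥T := by
  refine ⟨Cfsg.Agent.Lib.PGrp.isMulComm_of_comm ?_, ?_⟩
  · rintro a ha b hb
    exact Subtype.ext (comm_of_isMulComm hA.1 (mem_subgroupOf.1 ha) (mem_subgroupOf.1 hb))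
  · intro x hx a ha
    have h1 : (A.subgroupOf T).map T.subtype = A := map_subgroupOf_eq_of_le hAT
    have h2 : (A.subgroupOf T ⊔ zpowers x).map T.subtype = A ⊔ zpowers (x : S) := by
      rw [Subgroup.map_sup, h1, MonoidHom.map_zpowers]
      rfl
    have h3 : ⁅⁅A ⊔ zpowers (x : S), A ⊔ zpowers (x : S)⁆, A ⊔ zpowers (x : S)⁆ = ⊥ := by
      rw [← h2, ← Subgroup.map_commutator, ← Subgroup.map_commutator, hx]
      exact Subgroup.map_bot _
    exact Subtype.ext (hA.2 _ h3 _ (mem_subgroupOf.1 ha))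

/-- a member of the family lies in every abelian subgroup of largest order -/
theorem family_le_max (hS : IsPGroup p S) {A X : Subgroup S} (hA : A ∈ dStarFamily S) (hX : X ∈ maxAbelianSubgroups S) : A ≤ X := by
  by_contra hcon
  set T := A ⊔ X with hT
  have hAT : A ≤ T := le_sup_left
  have hXT : X ≤ T := le_sup_right
  have hTp : IsPGroup p ↥T := hS.to_subgroup _
  -- a maximal normal abelian subgroup of `T`
  set F : Set (Subgroup ↥T) := {B | B.Normal ∧ IsMulCommutative B} with hF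
  have hbot : (⊥ : Subgroup ↥T) ∈ F := ⟨inferInstance, Cfsg.Agent.Lib.PGrp.isMulComm_of_comm (by
    intro a ha b hb
    rw [mem_bot.1 ha, mem_bot.1 hb])⟩
  obtain ⟨V', -, hV'⟩ := (Set.toFinite F).exists_le_maximal hbot
  obtain ⟨⟨hV'n, hV'a⟩, hV'm⟩ := hV'
  haveI := hV'n
  have hV'C : centralizer (V' : Set ↥T) ≤ V' := Cfsg.Agent.Lib.PGrp.centralizer_le_of_max hTp V' hV'a
    (fun B hBn hBa hle => le_antisymm (hV'm ⟨hBn, hBa⟩ hle) hle)
  have hA' : A.subgroupOf T ≤ V' := by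
    refine le_trans (family_centralizes hTp (family_subgroupOf hA hAT) hV'a ?_) hV'C
    rw [normalizer_eq_top_iff.2 hV'n]
    exact le_top
  set V := V'.map T.subtype with hV
  have hVab : IsMulCommutative V := Cfsg.Agent.Lib.PGrp.isMulComm_of_comm (by
    rintro _ ⟨a, ha, rfl⟩ _ ⟨b, hb, rfl⟩
    exact congrArg Subtype.val (comm_of_isMulComm hV'a ha hb))
  have hAV : A ≤ V := by
    intro a ha
    exact ⟨⟨a, hAT ha⟩, hA' (mem_subgroupOf.2 ha), rfl⟩
  have hVT : V ≤ T := by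
    rintro _ ⟨a, _, rfl⟩
    exact a.2
  have hTV : T ≤ normalizer (V : Set S) := by
    intro t ht
    refine Cfsg.Agent.Lib.PGlaub.mem_normalizer_of_conj_mem (fun v hv => ?_)
    obtain ⟨v', hv', rfl⟩ := hv
    exact ⟨⟨t, ht⟩ * v' * ⟨t, ht⟩⁻¹, hV'n.conj_mem _ hv' _, rfl⟩
  -- maximize
  set E : Set (Subgroup S) := {Y | Y ∈ maxAbelianSubgroups S ∧ Y ≤ T ∧ ¬ A ≤ Y} with hE
  obtain ⟨Y, hY, hYm⟩ := Set.exists_max_image E (fun B => Nat.card ↥(B ⊓ V)) (Set.toFinite E) ⟨X, hX, hXT, hcon⟩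
  obtain ⟨hY1, hY2, hY3⟩ := hY
  have hkey : ¬ A ≤ normalizer (Y : Set S) := by
    intro h
    exact hY3 (le_of_centralizes hY1 hA.1 (family_centralizes hS hA hY1.1 h))
  have hVY : ¬ V ≤ normalizer (Y : Set S) := fun h => hkey (le_trans hAV h)
  obtain ⟨Y', h1, h2, h3, h4⟩ := tr hS hY1 hVab (le_trans hY2 hTV) hVY
  have hY'T : Y' ≤ T := le_trans h4 (sup_le hY2 hVT)
  by_cases hAY' : A ≤ Y'
  · exact hkey (le_trans hAY' h2)
  · have := hYm Y' ⟨h1, hY'T, hAY'⟩
    exact absurd (card_lt_of_lt' h3) (not_lt.2 this)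

/-- S3062 -/
theorem s3062 (hS : IsPGroup p S) :
    center S ≤ dStar S ∧ dStar S ≤ thompsonSubgroupA S ⊓ centralizer (thompsonSubgroupA S : Set S) ∧
    ∀ A : Subgroup S, A.Normal → IsMulCommutative A →
      (∀ B : Subgroup S, B.Normal → IsMulCommutative B → A ≤ B → B = A) → dStar S ≤ A := by
  refine ⟨?_, ?_, ?_⟩
  · refine le_sSup ⟨?_, ?_⟩
    · exact Cfsg.Agent.Lib.PGrp.isMulComm_of_comm (fun a ha b hb => (mem_center_iff.1 ha b).symm)
    · intro x _ a ha
      exact (mem_center_iff.1 ha x).symm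
  · refine sSup_le fun A hA => le_inf ?_ ?_
    · obtain ⟨X, hX⟩ := exists_max (S := S)
      exact le_trans (family_le_max hS hA hX) (le_sSup hX)
    · rw [Subgroup.le_centralizer_iff]
      refine sSup_le fun X hX => ?_
      intro x hx
      rw [mem_centralizer_iff]
      intro a ha
      exact comm_of_isMulComm hX.1 (family_le_max hS hA hX ha) hx
  · intro A hAn hAa hAm
    haveI := hAn
    refine sSup_le fun B hB => ?_
    refine le_trans (family_centralizes hS hB hAa ?_) (Cfsg.Agent.Lib.PGrp.centralizer_le_of_max hS A hAa hAm)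
    rw [normalizer_eq_top_iff.2 hAn]
    exact le_top

/-- S3063 -/
theorem s3063 (hS : IsPGroup p S) (hmeta : IsMulCommutative ↥(commutator S)) (A : Subgroup S) (hA : A ∈ maxAbelianSubgroups S) :
    ∃ B ∈ maxAbelianSubgroups S, B.Normal ∧ B ≤ normalClosure (A : Set S) := by
  set N := normalClosure (A : Set S) with hN
  haveI hNn : N.Normal := normalClosure_normal
  set V := commutator S ⊓ N with hV
  haveI hVn : V.Normal := inferInstance
  have hVab : IsMulCommutative V := Cfsg.Agent.Lib.PGrp.isMulComm_of_comm (fun a ha b hb =>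
    comm_of_isMulComm hmeta ha.1 hb.1)
  have hVN : V ≤ N := inf_le_right
  have hcomm : ∀ n ∈ N, ∀ s : S, s * n * s⁻¹ * n⁻¹ ∈ V := by
    intro n hn s
    refine mem_inf.2 ⟨?_, mul_mem (hNn.conj_mem _ hn s) (inv_mem hn)⟩
    have := Subgroup.commutator_mem_commutator (mem_top s) (mem_top n)
    rw [commutatorElement_def] at this
    exact this
  have hAN : A ≤ N := subset_normalClosure
  set E : Set (Subgroup S) := {Y | Y ∈ maxAbelianSubgroups S ∧ Y ≤ N} with hE
  obtain ⟨B, hB, hBm⟩ := Set.exists_max_image E (fun B => Nat.card ↥(B ⊓ V)) (Set.toFinite E) ⟨A, hA, hAN⟩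
  obtain ⟨hB1, hB2⟩ := hB
  have hBV : B ≤ normalizer (V : Set S) := by
    rw [normalizer_eq_top_iff.2 hVn]; exact le_top
  have hstep1 : V ≤ normalizer (B : Set S) := by
    by_contra h
    obtain ⟨Y', h1, h2, h3, h4⟩ := tr hS hB1 hVab hBV h
    have := hBm Y' ⟨h1, le_trans h4 (sup_le hB2 hVN)⟩
    exact absurd (card_lt_of_lt' h3) (not_lt.2 this)
  have hallN : ∀ s : S, s ∈ normalizer (B : Set S) := by
    intro s
    have hmm : ∀ z : S, ∀ a ∈ B, z * a * z⁻¹ ∈ normalizer (B : Set S) := by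
      intro z a ha
      have e : z * a * z⁻¹ = (z * a * z⁻¹ * a⁻¹) * a := by group
      rw [e]
      exact mul_mem (hstep1 (hcomm a (hB2 ha) z)) (le_normalizer ha)
    have h1 : ∀ a ∈ B, s * a * s⁻¹ * a⁻¹ ∈ V := fun a ha => hcomm a (hB2 ha) s
    have hstar := core hB1 hVab h1 (hmm s) (by
      intro a ha
      have := hmm s⁻¹ a ha
      simpa using this)
    have hHN : mSub B s ⊔ dSub B s ≤ N := sup_le (le_trans (core_mSub_le h1) hVN) (le_trans inf_le_left hB2)
    have hcap : B ⊓ V ≤ (mSub B s ⊔ dSub B s) ⊓ V := by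
      refine le_inf (le_trans ?_ le_sup_right) inf_le_right
      rintro c ⟨hc1, hc2⟩
      refine mem_inf.2 ⟨hc1, mem_conj_iff.2 ?_⟩
      have hzp : zpowers (s⁻¹ * c * s) ≤ B := by
        refine le_of_centralizes hB1 ?_ ?_
        · exact Cfsg.Agent.Lib.PGrp.isMulComm_of_comm (by
            intro u hu v hv
            obtain ⟨i, rfl⟩ := mem_zpowers_iff.1 hu
            obtain ⟨j, rfl⟩ := mem_zpowers_iff.1 hv
            exact ((Commute.refl _).zpow_zpow i j).eq)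
        · rw [zpowers_le, mem_centralizer_iff]
          intro b hb
          -- `c` commutes with `s b s⁻¹ = m(b) b`
          have h4 : c * (s * b * s⁻¹ * b⁻¹) = (s * b * s⁻¹ * b⁻¹) * c := comm_of_isMulComm hVab hc2 (h1 b hb)
          have h5 : c * b = b * c := comm_of_isMulComm hB1.1 hc1 hb
          have h6 : c * (s * b * s⁻¹) = (s * b * s⁻¹) * c := by
            have e : s * b * s⁻¹ = (s * b * s⁻¹ * b⁻¹) * b := by group
            rw [e, ← mul_assoc, h4, mul_assoc, h5, mul_assoc]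
            group
          have h7 : b * (s⁻¹ * c * s) = s⁻¹ * ((s * b * s⁻¹) * c) * s := by group
          have h8 : (s⁻¹ * c * s) * b = s⁻¹ * (c * (s * b * s⁻¹)) * s := by group
          rw [h7, h8, h6]
      exact hzp (mem_zpowers _)
    have hle := hBm _ ⟨hstar, hHN⟩
    have heq : B ⊓ V = (mSub B s ⊔ dSub B s) ⊓ V := Subgroup.eq_of_le_of_card_ge hcap hle
    refine Cfsg.Agent.Lib.PGlaub.mem_normalizer_of_conj_mem (fun a ha => ?_)
    have h4 : s * a * s⁻¹ * a⁻¹ ∈ (mSub B s ⊔ dSub B s) ⊓ V :=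
      mem_inf.2 ⟨mem_sup_left (subset_closure ⟨a, ha, rfl⟩), h1 a ha⟩
    rw [← heq] at h4
    have e2 : s * a * s⁻¹ = (s * a * s⁻¹ * a⁻¹) * a := by group
    rw [e2]
    exact mul_mem h4.1 ha
  refine ⟨B, hB1, ?_, hB2⟩
  rw [← normalizer_eq_top_iff, eq_top_iff]
  exact fun s _ => hallN s

end Cfsg.Agent.Lib.LDStar
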