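import Mathlib
import Cfsg.Prelude.Def_PLocal
import Cfsg.Agent.Lib.PGlaub

set_option autoImplicit false
set_option linter.unusedSectionVars false
set_option linter.unusedVariables false
set_option linter.style.haveILetI false

namespace Cfsg.Agent.Lib.LGlaubRep

open Subgroup Cfsg Cfsg.Agent.Lib.PGlaub

variable {S : Type*} [Group S] [Finite S]

theorem card_le_of_quasi (X Y Z : Subgroup S) (hZX : Z ≤ X) (hZY : Z ≤ Y)
    (hY : ∀ x ∈ Y, ∀ y ∈ Y, x * y = y * x) (f : S → S) (hf : ∀ x ∈ X, f x ∈ Y)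
    (hm : ∀ x ∈ X, ∀ y ∈ X, (f x * f y)⁻¹ * f (x * y) ∈ Z)
    (hk : ∀ x ∈ X, f x ∈ Z ↔ x ∈ Z) : Nat.card X ≤ Nat.card Y := by
  classical
  set Dst : Subgroup Y := Z.subgroupOf Y with hDst
  haveI hDstn : Dst.Normal := by
    constructor
    intro n hn g
    have : g * n * g⁻¹ = n := by
      have h1 : (g : S) * n = n * g := hY _ g.2 _ n.2
      apply Subtype.ext
      simp only [Subgroup.coe_mul, InvMemClass.coe_inv]
      rw [h1]; group
    rw [this]; exact hn
  let ψ : X →* (Y ⧸ Dst) := MonoidHom.mk' (fun a => QuotientGroup.mk' Dst ⟨f a, hf a a.2⟩) (by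
    intro x y
    rw [← map_mul]
    change (QuotientGroup.mk _ : Y ⧸ Dst) = QuotientGroup.mk _
    rw [QuotientGroup.eq]
    rw [mem_subgroupOf]
    change (f ((x : S) * y))⁻¹ * (f x * f y) ∈ Z
    have h := inv_mem (hm x x.2 y y.2)
    rwa [mul_inv_rev, inv_inv] at h)
  have hψ : ∀ a : X, ψ a = QuotientGroup.mk' Dst ⟨f a, hf a a.2⟩ := fun a => rfl
  have hker : ψ.ker = Z.subgroupOf X := by
    ext a
    rw [MonoidHom.mem_ker, hψ, QuotientGroup.mk'_apply, QuotientGroup.eq_one_iff, mem_subgroupOf, mem_subgroupOf]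
    exact hk a a.2
  have e1 : Nat.card (X ⧸ ψ.ker) ≤ Nat.card (Y ⧸ Dst) :=
    Nat.card_le_card_of_injective _ (QuotientGroup.kerLift_injective ψ)
  rw [hker] at e1
  have h1 := Cfsg.Agent.Lib.PNilp.card_mul_relIndex' _ _ hZX
  have h2 := Cfsg.Agent.Lib.PNilp.card_mul_relIndex' _ _ hZY
  have e2 : Z.relIndex X ≤ Z.relIndex Y := e1
  rw [← h1, ← h2]
  exact Nat.mul_le_mul_left _ e2

theorem mem_omegaOne_iff {p : ℕ} {H : Subgroup S} (hc : ∀ x ∈ H, ∀ y ∈ H, x * y = y * x) {x : S} :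
    x ∈ omegaOne p H ↔ x ∈ H ∧ x ^ p = 1 := by
  constructor
  · intro hx
    have hT : ∀ y ∈ closure {x : S | x ∈ H ∧ x ^ p = 1}, y ∈ H ∧ y ^ p = 1 := by
      intro y hy
      induction hy using closure_induction with
      | mem y hy => exact hy
      | one => simp [one_mem]
      | mul u v _ _ iu iv =>
        have hc' : Commute u v := hc u iu.1 v iv.1
        exact ⟨mul_mem iu.1 iv.1, by rw [hc'.mul_pow, iu.2, iv.2, one_mul]⟩
      | inv u _ iu =>
        exact ⟨inv_mem iu.1, by rw [inv_pow, iu.2, inv_one]⟩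
    exact hT x hx
  · intro hx
    exact subset_closure hx

section Star

variable {A B : Subgroup S} {b : S} {p : ℕ} [hp : Fact p.Prime] (hS : IsPGroup p S)
  (hA : IsMulCommutative A) (hbN : b ∈ normalizer ((normalizer (A : Set S)) : Set S))
  [hBn : B.Normal] (hBA : ⁅B, B⁆ ≤ A) (hb : b ∈ B)
  (hB2 : p = 2 → IsMulCommutative B)

include hS hA hbN hBn hBA hb hB2

theorem wd_pow_prime (hodd : p ≠ 2) {a : S} (ha : a ∈ A) (hap : a ^ p = 1) : wd b a ^ p = 1 := by
  rw [wd_eq]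
  have hpa := pr_mem_conjB (b := b) ha
  set h := (b⁻¹ * a * b)⁻¹ with hh
  have hhm : h ∈ conjB A b := inv_mem hpa
  have hc := kappa_mem hbN hhm ha
  set c := h * a * h⁻¹ * a⁻¹ with hcd
  have h1 : h * a = c * a * h := by rw [hcd]; group
  have hca : Commute c a := D_comm_A hA hc ha
  have hch : Commute c h := D_comm_conjB hA hc hhm
  rw [Cfsg.Agent.Lib.PGrp.pow_mul_class2 h1 hca hch p, hap, one_mul]
  have h2 : h ^ p = 1 := by
    have h5 : (b⁻¹ * a * b) ^ p = 1 := by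
      have e5 : b⁻¹ * a * b = b⁻¹ * a * (b⁻¹)⁻¹ := by simp
      rw [e5, conj_pow, hap]; simp
    rw [hh, inv_pow, h5, inv_one]
  have h3 : c ^ p = 1 := by
    -- `c = (h a h⁻¹) a⁻¹` is a product of commuting elements of order dividing `p`
    have h6 : (h * a * h⁻¹) ^ p = 1 := by rw [conj_pow, hap]; simp
    have hc1 : h * a * h⁻¹ ∈ A := (mem_normalizer_iff.1 (conjB_le_normalizer hbN hhm) a).1 ha
    have hcomm : Commute (h * a * h⁻¹) a⁻¹ :=
      Cfsg.Agent.Lib.PQuad.comm_of_isMulComm hA hc1 (inv_mem ha)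
    rw [hcd, hcomm.mul_pow, h6, inv_pow, hap]; simp
  obtain ⟨m, hm⟩ := (hp.out.odd_of_ne_two hodd)
  have h4 : p.choose 2 = p * m := by
    rw [Nat.choose_two_right, hm]
    simp only [Nat.add_sub_cancel]
    rw [show (2 * m + 1) * (2 * m) = 2 * ((2 * m + 1) * m) by ring]
    simp
  rw [h2, one_mul, h4, pow_mul, h3, one_pow]

theorem card_omega_le (hodd : p ≠ 2) :
    Nat.card (omegaOne p A) ≤ Nat.card (omegaOne p (Astar A b)) := by
  have hcA : ∀ x ∈ A, ∀ y ∈ A, x * y = y * x :=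
    fun x hx y hy => Cfsg.Agent.Lib.PQuad.comm_of_isMulComm hA hx hy
  have hcS := astar_comm hS hA hbN hBA hb hB2
  have hcD : ∀ x ∈ Dd A b, ∀ y ∈ Dd A b, x * y = y * x :=
    fun x hx y hy => hcA x (mem_inf.1 hx).1 y (mem_inf.1 hy).1
  apply card_le_of_quasi (omegaOne p A) (omegaOne p (Astar A b)) (omegaOne p (Dd A b))
  · intro x hx
    rw [mem_omegaOne_iff hcD] at hx
    rw [mem_omegaOne_iff hcA]
    exact ⟨(mem_inf.1 hx.1).1, hx.2⟩
  · intro x hx
    rw [mem_omegaOne_iff hcD] at hx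
    rw [mem_omegaOne_iff hcS]
    exact ⟨mem_sup_left hx.1, hx.2⟩
  · intro x hx y hy
    rw [mem_omegaOne_iff hcS] at hx hy
    exact hcS x hx.1 y hy.1
  · intro x hx
    rw [mem_omegaOne_iff hcA] at hx
    rw [mem_omegaOne_iff hcS]
    exact ⟨wd_mem_astar hx.1, wd_pow_prime hS hA hbN hBA hb hB2 hodd hx.1 hx.2⟩
  · intro x hx y hy
    rw [mem_omegaOne_iff hcA] at hx hy
    rw [mem_omegaOne_iff hcD]
    refine ⟨wd_mul hS hA hbN hBA hb hB2 hx.1 hy.1, ?_⟩
    have hxm : wd b x ∈ Astar A b := wd_mem_astar hx.1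
    have hym : wd b y ∈ Astar A b := wd_mem_astar hy.1
    have hxym : wd b (x * y) ∈ Astar A b := wd_mem_astar (mul_mem hx.1 hy.1)
    have hxp := wd_pow_prime hS hA hbN hBA hb hB2 hodd hx.1 hx.2
    have hyp := wd_pow_prime hS hA hbN hBA hb hB2 hodd hy.1 hy.2
    have hxyp : wd b (x * y) ^ p = 1 := by
      apply wd_pow_prime hS hA hbN hBA hb hB2 hodd (mul_mem hx.1 hy.1)
      have : Commute x y := hcA x hx.1 y hy.1
      rw [this.mul_pow, hx.2, hy.2, one_mul]
    have c1 : Commute (wd b x) (wd b y) := hcS _ hxm _ hym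
    have c2 : Commute (wd b x * wd b y)⁻¹ (wd b (x * y)) :=
      hcS _ (inv_mem (mul_mem hxm hym)) _ hxym
    rw [c2.mul_pow, inv_pow, c1.mul_pow, hxp, hyp, hxyp]; simp
  · intro x hx
    rw [mem_omegaOne_iff hcA] at hx
    rw [mem_omegaOne_iff hcD, mem_omegaOne_iff hcD]
    have hw := wd_pow_prime hS hA hbN hBA hb hB2 hodd hx.1 hx.2
    constructor
    · rintro ⟨h1, -⟩
      exact ⟨(wd_mem_D_iff hS hA hbN hBA hb hB2 hx.1).1 h1, hx.2⟩
    · rintro ⟨h1, -⟩
      exact ⟨(wd_mem_D_iff hS hA hbN hBA hb hB2 hx.1).2 h1, hw⟩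

end Star

theorem omegaOne_map {G : Type*} [Group G] (T : Subgroup G) (p : ℕ) (H : Subgroup T) :
    omegaOne p (H.map T.subtype) = (omegaOne p H).map T.subtype := by
  rw [omegaOne, omegaOne, MonoidHom.map_closure]
  congr 1
  ext x
  constructor
  · rintro ⟨⟨y, hy, rfl⟩, h2⟩
    refine ⟨y, ⟨hy, ?_⟩, rfl⟩
    apply Subtype.ext
    simpa using h2
  · rintro ⟨y, ⟨hy, h2⟩, rfl⟩
    refine ⟨⟨y, hy, rfl⟩, ?_⟩
    have := congrArg T.subtype h2
    simpa using this

theorem s3078 {G : Type*} [Group G] [Finite G] {p : ℕ} [Fact p.Prime] (hp : p ≠ 2) (hG : IsPGroup p G) (A B : Subgroup G) (hA : IsMulCommutative A) (hB2 : ⁅⁅B, B⁆, B⁆ = ⊥) (hBA : ⁅B, B⁆ ≤ A) (hAB : A ≤ Subgroup.normalizer (B : Set G)) (hBnA : ¬ B ≤ Subgroup.normalizer (A : Set G)) : ∃ Astar : Subgroup G, IsMulCommutative Astar ∧ Nat.card Astar = Nat.card A ∧ A ⊓ B < Astar ⊓ B ∧ Astar ≤ Subgroup.normalizer (A : Set G) ∧ Astar ≤ Subgroup.normalClosure (A : Set G) ∧ Monoid.exponent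 Astar ∣ Monoid.exponent A ∧ Nat.card (Cfsg.omegaOne p A) ≤ Nat.card (Cfsg.omegaOne p Astar) := by
  classical
  set T := A ⊔ B with hT
  have hAT : A ≤ T := le_sup_left
  have hBT : B ≤ T := le_sup_right
  have hTB : T ≤ normalizer (B : Set G) := sup_le hAB le_normalizer
  set A' : Subgroup T := A.subgroupOf T with hA'
  set B' : Subgroup T := B.subgroupOf T with hB'
  haveI hBn : B'.Normal := (normal_subgroupOf_iff_le_normalizer hBT).2 hTB
  have hS : IsPGroup p T := hG.to_subgroup T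
  have hmapA : A'.map T.subtype = A := by
    rw [hA', map_subgroupOf_eq_of_le hAT]
  have hmapB : B'.map T.subtype = B := by
    rw [hB', map_subgroupOf_eq_of_le hBT]
  have hA'c : IsMulCommutative A' := by
    refine ⟨⟨fun x y => ?_⟩⟩
    apply Subtype.ext
    apply Subtype.ext
    exact Cfsg.Agent.Lib.PQuad.comm_of_isMulComm hA x.2 y.2
  have hcomm : ⁅B', B'⁆ ≤ A' := by
    intro x hx
    rw [hA', mem_subgroupOf]
    apply hBA
    have h1 : (x : G) ∈ (⁅B', B'⁆).map T.subtype := ⟨x, hx, rfl⟩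
    rw [Subgroup.map_commutator, hmapB] at h1
    exact h1
  have hnot : ¬ B' ≤ normalizer (A' : Set T) := by
    intro h
    apply hBnA
    intro x hx
    apply mem_normalizer_of_conj_mem
    intro a ha
    have hxT : x ∈ T := hBT hx
    have h1 := (mem_normalizer_iff.1 (h (show (⟨x, hxT⟩ : T) ∈ B' from hx)) ⟨a, hAT ha⟩).1 ha
    exact h1
  have hlt : normalizer (A' : Set T) < ⊤ := by
    refine lt_top_iff_ne_top.2 ?_
    intro h
    apply hnot
    rw [h]
    exact le_top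
  have hnil : Group.IsNilpotent T := hS.isNilpotent
  have hnc := Group.normalizerCondition_of_isNilpotent (G := T) _ hlt
  obtain ⟨g, hg1, hg2⟩ := SetLike.exists_of_lt hnc
  have hgsup : g ∈ A' ⊔ B' := by
    have : A' ⊔ B' = ⊤ := by
      apply Subgroup.map_injective T.subtype_injective
      rw [Subgroup.map_sup, hmapA, hmapB, ← MonoidHom.range_eq_map, range_subtype]
    rw [this]
    trivial
  rw [mem_sup_of_normal_right] at hgsup
  obtain ⟨a', ha', b, hb, rfl⟩ := hgsup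
  have ha'N : a' ∈ normalizer (A' : Set T) := le_normalizer ha'
  have ha'NN : a' ∈ normalizer ((normalizer (A' : Set T)) : Set T) := le_normalizer ha'N
  have hbNN : b ∈ normalizer ((normalizer (A' : Set T)) : Set T) := by
    have : b = a'⁻¹ * (a' * b) := by group
    rw [this]
    exact mul_mem (inv_mem ha'NN) hg1
  have hbnN : b ∉ normalizer (A' : Set T) := by
    intro h
    exact hg2 (mul_mem ha'N h)
  have hB2' : p = 2 → IsMulCommutative B' := fun h => absurd h hp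
  obtain ⟨h1, h2, h3, h4, h5, h6, h7, h8, h9, h10⟩ :=
    glauberman_replacement hS B' hB2' A' hA'c hcomm hnot b hb hbNN hbnN
  have hcS := astar_comm hS hA'c hbNN hcomm hb hB2'
  have hinj : Function.Injective T.subtype := T.subtype_injective
  refine ⟨(Astar A' b).map T.subtype, ?_, ?_, ?_, ?_, ?_, ?_, ?_⟩
  · refine ⟨⟨fun x y => ?_⟩⟩
    apply Subtype.ext
    obtain ⟨x, u, hu, hx⟩ := x
    obtain ⟨y, v, hv, hy⟩ := y
    subst hx; subst hy
    change ((u * v : T) : G) = ((v * u : T) : G)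
    rw [hcS u hu v hv]
  · rw [Subgroup.card_map_of_injective hinj, h1, ← hmapA, Subgroup.card_map_of_injective hinj]
  · refine lt_of_le_not_ge ?_ ?_
    · intro x hx
      have hxT : x ∈ T := hAT (mem_inf.1 hx).1
      have h11 : (⟨x, hxT⟩ : T) ∈ A' ⊓ B' := mem_inf.2 ⟨(mem_inf.1 hx).1, (mem_inf.1 hx).2⟩
      have h12 := h4.le h11
      exact mem_inf.2 ⟨⟨_, (mem_inf.1 h12).1, rfl⟩, (mem_inf.1 hx).2⟩
    · intro hle
      apply h4.not_ge
      intro x hx
      have h13 : (x : G) ∈ (Astar A' b).map T.subtype ⊓ B :=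
        mem_inf.2 ⟨⟨x, (mem_inf.1 hx).1, rfl⟩, (mem_inf.1 hx).2⟩
      have h14 := hle h13
      exact mem_inf.2 ⟨(mem_inf.1 h14).1, (mem_inf.1 h14).2⟩
  · rintro _ ⟨x, hx, rfl⟩
    apply mem_normalizer_of_conj_mem
    intro a ha
    have h15 := (mem_normalizer_iff.1 (h7 hx) ⟨a, hAT ha⟩).1 ha
    exact h15
  · rw [Subgroup.map_le_iff_le_comap, astar_eq_closure hS hA'c hbNN hcomm hb hB2', closure_le]
    rintro x (hx | ⟨a, ha, rfl⟩)
    · exact subset_normalClosure (mem_inf.1 hx).1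
    · change ((a * b⁻¹ * a⁻¹ * b : T) : G) ∈ normalClosure (A : Set G)
      have e : ((a * b⁻¹ * a⁻¹ * b : T) : G) = (a : G) * ((b : G)⁻¹ * (a : G)⁻¹ * b) := by
        simp [mul_assoc]
      rw [e]
      have haN : (a : G) ∈ normalClosure (A : Set G) := subset_normalClosure ha
      exact mul_mem haN ((normalClosure_normal (s := (A : Set G))).conj_mem' _ (inv_mem haN) _)
  · have h16 : Monoid.exponent ((Astar A' b).map T.subtype) = Monoid.exponent (Astar A' b) :=
      (Monoid.exponent_eq_of_mulEquiv (Subgroup.equivMapOfInjective _ _ hinj)).symm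
    have h17 : Monoid.exponent A = Monoid.exponent A' := by
      conv_lhs => rw [← hmapA]
      exact (Monoid.exponent_eq_of_mulEquiv (Subgroup.equivMapOfInjective _ _ hinj)).symm
    rw [h16, h17]
    exact h10 hp
  · rw [omegaOne_map, Subgroup.card_map_of_injective hinj]
    conv_lhs => rw [← hmapA, omegaOne_map, Subgroup.card_map_of_injective hinj]
    exact card_omega_le hS hA'c hbNN hcomm hb hB2' hp

end Cfsg.Agent.Lib.LGlaubRep
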