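import Mathlib
import Cfsg.Agent.Lib.PGrp2
import Cfsg.Agent.Lib.PGlaub
import Cfsg.Agent.Lib.PNilp
import Cfsg.Agent.Lib.H1Frat
import Cfsg.Agent.Lib.LQd4
import Cfsg.Agent.Lib.LExtraFus

/-! Frattini subgroups inside an ambient group; sections of order `p`. -/

set_option autoImplicit false
set_option linter.unusedSectionVars false
set_option linter.unusedVariables false
set_option linter.style.haveILetI false

namespace Cfsg.Agent.Lib.LHSub

open Subgroup Cfsg Cfsg.Agent.Lib.PGrp Cfsg.Agent.Lib.H1Frat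
open scoped commutatorElement

variable {G : Type*} [Group G] [Finite G] {p : ℕ} [hp : Fact p.Prime]

/-- The Frattini subgroup of `M`, as a subgroup of the ambient group. -/
noncomputable def phi (M : Subgroup G) : Subgroup G := (frattini ↥M).map M.subtype

theorem phi_le (M : Subgroup G) : phi M ≤ M := map_subtype_le _

theorem card_rel {H K : Subgroup G} (h : H ≤ K) : Nat.card H * H.relIndex K = Nat.card K :=
  Cfsg.Agent.Lib.PNilp.card_mul_relIndex' H K h

theorem rel_map {M : Subgroup G} (A' : Subgroup ↥M) : (A'.map M.subtype).relIndex M = A'.index := by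
  have : (A'.map M.subtype).subgroupOf M = A' := by
    ext x
    simp [Subgroup.mem_subgroupOf]
  rw [Subgroup.relIndex, this]

theorem mem_phi_of_forall {M : Subgroup G} (hM : IsPGroup p M) {x : G} (hx : x ∈ M)
    (h : ∀ B : Subgroup G, B ≤ M → B.relIndex M = p → x ∈ B) : x ∈ phi M := by
  refine ⟨⟨x, hx⟩, mem_frattini.2 fun B' hB' => ?_, rfl⟩
  obtain ⟨-, h2, -⟩ := coatom_index_of_isPGroup hM hB'
  have h3 : (B'.map M.subtype).relIndex M = p := by
    rw [rel_map, h2]
  have h4 := h _ (map_subtype_le _) h3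
  obtain ⟨b, hb, hbx⟩ := h4
  have : b = ⟨x, hx⟩ := Subtype.ext hbx
  rwa [← this]

theorem isCoatom_of_relIndex {M B : Subgroup G} (hBM : B ≤ M) (h : B.relIndex M = p) :
    IsCoatom (B.subgroupOf M) := by
  have hidx : (B.subgroupOf M).index = p := h
  refine ⟨fun ht => ?_, fun K hK => ?_⟩
  · rw [ht, Subgroup.index_top] at hidx
    exact hp.out.one_lt.ne hidx
  · have h1 := Subgroup.relIndex_mul_index hK.le
    rw [hidx] at h1
    have h2 : K.index ∣ p := ⟨_, h1.symm.trans (mul_comm _ _)⟩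
    rcases (Nat.dvd_prime hp.out).1 h2 with h3 | h3
    · exact Subgroup.index_eq_one.1 h3
    · exfalso
      rw [h3] at h1
      have h4 : (B.subgroupOf M).relIndex K = 1 := by
        have := hp.out.pos
        nlinarith
      have h5 : K ≤ B.subgroupOf M := Subgroup.relIndex_eq_one.1 h4
      exact absurd (le_antisymm h5 hK.le) hK.ne'

theorem phi_le_of_index {M B : Subgroup G} (hBM : B ≤ M) (h : B.relIndex M = p) : phi M ≤ B := by
  rintro _ ⟨x, hx, rfl⟩
  have h1 := frattini_le_coatom (isCoatom_of_relIndex hBM h) hx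
  exact h1

theorem exists_index_of_ne {M B : Subgroup G} (hM : IsPGroup p M) (hBM : B ≤ M) (hne : B ≠ M) :
    ∃ A : Subgroup G, B ≤ A ∧ A ≤ M ∧ A.relIndex M = p := by
  rcases eq_top_or_exists_le_coatom (B.subgroupOf M) with h | ⟨A', hA', hle⟩
  · exfalso
    apply hne
    refine le_antisymm hBM fun x hx => ?_
    have : (⟨x, hx⟩ : ↥M) ∈ B.subgroupOf M := by rw [h]; trivial
    exact this
  · obtain ⟨-, h2, -⟩ := coatom_index_of_isPGroup hM hA'
    refine ⟨A'.map M.subtype, fun x hx => ?_, map_subtype_le _, ?_⟩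
    · by_cases hxM : x ∈ M
      · exact ⟨⟨x, hxM⟩, hle hx, rfl⟩
      · exact absurd (hBM hx) hxM
    · rw [rel_map, h2]

theorem comm_mem_phi {M : Subgroup G} (hM : IsPGroup p M) {a b : G} (ha : a ∈ M) (hb : b ∈ M) :
    ⁅a, b⁆ ∈ phi M := by
  refine ⟨⁅(⟨a, ha⟩ : ↥M), (⟨b, hb⟩ : ↥M)⁆, commutator_le_frattini hM (Subgroup.commutator_mem_commutator (by trivial) (by trivial)), ?_⟩
  simp [commutatorElement_def]

theorem pow_mem_phi {M : Subgroup G} (hM : IsPGroup p M) {x : G} (hx : x ∈ M) : x ^ p ∈ phi M :=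
  pow_mem_frattini_map M hM x hx

/-- A subgroup containing `Φ(M)` is normalized by `M`. -/
theorem mem_of_phi_le {M U : Subgroup G} (hM : IsPGroup p M) (hU : phi M ≤ U) (hUM : U ≤ M) {m u : G}
    (hm : m ∈ M) (hu : u ∈ U) : m * u * m⁻¹ ∈ U := by
  have h1 : ⁅m, u⁆ ∈ U := hU (comm_mem_phi hM hm (hUM hu))
  have h2 : m * u * m⁻¹ = ⁅m, u⁆ * u := by rw [commutatorElement_def]; group
  rw [h2]; exact mul_mem h1 hu

/-- Conjugation preserves index `p` in a normalized subgroup. -/
theorem relIndex_conj {M B : Subgroup G} {g : G} (hg : g ∈ normalizer (M : Set G)) (hBM : B ≤ M)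
    (h : B.relIndex M = p) : (B.map (MulAut.conj g).toMonoidHom).relIndex M = p := by
  have hinj : Function.Injective (MulAut.conj g).toMonoidHom := (MulAut.conj g).injective
  have hMap : M.map (MulAut.conj g).toMonoidHom = M := by
    apply Subgroup.eq_of_le_of_card_ge
    · rintro _ ⟨m, hm, rfl⟩
      exact (mem_normalizer_iff.1 hg m).1 hm
    · rw [Subgroup.card_map_of_injective hinj]
  have := Subgroup.relIndex_map_map_of_injective B M hinj
  rw [hMap] at this
  rw [this, h]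

/-- `Φ(M)` is normalized by `N(M)`. -/
theorem phi_inv {M : Subgroup G} (hM : IsPGroup p M) {g : G} (hg : g ∈ normalizer (M : Set G)) :
    g ∈ normalizer (phi M : Set G) := by
  apply Cfsg.Agent.Lib.PGlaub.mem_normalizer_of_conj_mem
  intro x hx
  have hxM : x ∈ M := phi_le M hx
  refine mem_phi_of_forall hM ((mem_normalizer_iff.1 hg x).1 hxM) fun B hBM hB => ?_
  have hg' : g⁻¹ ∈ normalizer (M : Set G) := inv_mem hg
  have h1 : (B.map (MulAut.conj g⁻¹).toMonoidHom).relIndex M = p := relIndex_conj hg' hBM hB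
  have h2 : B.map (MulAut.conj g⁻¹).toMonoidHom ≤ M := by
    rintro _ ⟨b, hb, rfl⟩
    exact (mem_normalizer_iff.1 hg' b).1 (hBM hb)
  have h3 := phi_le_of_index h2 h1 hx
  obtain ⟨b, hb, hbx⟩ := h3
  have : g * x * g⁻¹ = b := by
    have hb' : g⁻¹ * b * g⁻¹⁻¹ = x := hbx
    rw [← hb']; group
  rw [this]; exact hb

theorem phi_ne {M : Subgroup G} (hM : IsPGroup p M) (hne : M ≠ ⊥) : phi M ≠ M := by
  intro h
  have hnt : Nontrivial ↥M := (Subgroup.nontrivial_iff_ne_bot M).2 hne
  obtain ⟨A', hA', hle⟩ : ∃ A' : Subgroup ↥M, IsCoatom A' ∧ ⊥ ≤ A' := by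
    rcases eq_top_or_exists_le_coatom (⊥ : Subgroup ↥M) with h0 | ⟨A', hA', hle⟩
    · exfalso; exact bot_ne_top h0
    · exact ⟨A', hA', hle⟩
  obtain ⟨-, h2, -⟩ := coatom_index_of_isPGroup hM hA'
  have hB : (A'.map M.subtype).relIndex M = p := by
    rw [rel_map, h2]
  have h3 := phi_le_of_index (map_subtype_le _) hB
  rw [h] at h3
  have h4 := Subgroup.relIndex_eq_one.2 h3
  rw [hB] at h4
  exact hp.out.one_lt.ne' h4

/-- `Φ(M)` consists of non-generators. -/
theorem sup_phi_ne {M B : Subgroup G} (hM : IsPGroup p M) (hBM : B ≤ M) (hne : B ≠ M) :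
    B ⊔ phi M ≠ M := by
  intro h
  obtain ⟨A, hBA, hAM, hA⟩ := exists_index_of_ne hM hBM hne
  have h1 : B ⊔ phi M ≤ A := sup_le hBA (phi_le_of_index hAM hA)
  rw [h] at h1
  have h4 := Subgroup.relIndex_eq_one.2 h1
  rw [hA] at h4
  exact hp.out.one_lt.ne' h4

/-- A subgroup `H ≤ K` of `p`-power order and a prescribed intermediate order. -/
theorem exists_between {H K : Subgroup G} (hK : IsPGroup p K) (hHK : H ≤ K) {m : ℕ}
    (h1 : Nat.card H ≤ p ^ m) (h2 : p ^ m ≤ Nat.card K) :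
    ∃ E : Subgroup G, H ≤ E ∧ E ≤ K ∧ Nat.card E = p ^ m := by
  obtain ⟨k, hk⟩ := IsPGroup.iff_card.1 hK
  have hmk : m ≤ k := by
    rw [hk] at h2
    exact (Nat.pow_le_pow_iff_right hp.out.one_lt).1 h2
  have hH : IsPGroup p H := hK.to_le hHK
  obtain ⟨a, ha⟩ := IsPGroup.iff_card.1 hH
  have ham : a ≤ m := by
    rw [ha] at h1
    exact (Nat.pow_le_pow_iff_right hp.out.one_lt).1 h1
  have hdvd : p ^ m ∣ Nat.card K := by rw [hk]; exact pow_dvd_pow p hmk
  have hH' : Nat.card (H.subgroupOf K) = p ^ a := by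
    rw [← ha]
    exact Nat.card_congr (Subgroup.subgroupOfEquivOfLe hHK).toEquiv
  obtain ⟨E', hE', hle⟩ := Sylow.exists_subgroup_card_pow_prime_le p hdvd (H.subgroupOf K) hH' ham
  refine ⟨E'.map K.subtype, fun x hx => ⟨⟨x, hHK hx⟩, hle hx, rfl⟩, map_subtype_le _, ?_⟩
  rw [Subgroup.card_map_of_injective K.subtype_injective, hE']

/-- An automorphism-free computation: `y^k m y^{-k} = m x^k` if `y` commutes with the commutator. -/
theorem comm_eq_one {y m x : G} (hx : x = m⁻¹ * (y * m * y⁻¹)) (hc : Commute x y)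
    (hpx : ∃ a : ℕ, orderOf x = p ^ a) (hcop : Nat.Coprime (orderOf y) p) : x = 1 := by
  have h1 : y * m * y⁻¹ = m * x := by rw [hx]; group
  have h2 : ∀ k : ℕ, y ^ k * m * (y ^ k)⁻¹ = m * x ^ k := by
    intro k
    induction k with
    | zero => simp
    | succ k ih =>
      have e1 : y ^ (k + 1) * m * (y ^ (k + 1))⁻¹ = y * (y ^ k * m * (y ^ k)⁻¹) * y⁻¹ := by
        rw [pow_succ']; group
      rw [e1, ih]
      have e2 : y * (m * x ^ k) * y⁻¹ = (y * m * y⁻¹) * (y * x ^ k * y⁻¹) := by group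
      rw [e2, h1]
      have e3 : y * x ^ k * y⁻¹ = x ^ k := by
        have := (hc.pow_left k).symm.eq
        rw [this]; group
      rw [e3, pow_succ', mul_assoc]
  have h3 := h2 (orderOf y)
  rw [pow_orderOf_eq_one] at h3
  have h4 : x ^ orderOf y = 1 := by
    have : m = m * x ^ orderOf y := by simpa using h3
    exact (mul_eq_left.1 this.symm)
  obtain ⟨a, ha⟩ := hpx
  have h5 : orderOf x ∣ orderOf y := orderOf_dvd_of_pow_eq_one h4
  have h6 : orderOf x = 1 := by
    have h7 : Nat.Coprime (orderOf x) (orderOf y) := by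
      rw [ha]; exact (hcop.symm).pow_left a
    exact Nat.Coprime.eq_one_of_dvd h7 h5
  exact orderOf_eq_one_iff.1 h6

end Cfsg.Agent.Lib.LHSub
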