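import Mathlib
import Cfsg.Agent.Lib.LHSub4
import Cfsg.Agent.Lib.PZJ7
import Cfsg.Agent.Lib.PTate
import Cfsg.Agent.Lib.PNilp3
import Cfsg.Agent.Lib.LPIrr

/-! Subgroups `E` with `E^g ∩ N(E) ≤ E`: control of fusion modulo the Frattini subgroup. -/

set_option autoImplicit false
set_option linter.unusedSectionVars false
set_option linter.unusedVariables false
set_option linter.style.haveILetI false

namespace Cfsg.Agent.Lib.LHSub

open Subgroup Cfsg Cfsg.Agent.Lib.PGrp Cfsg.Agent.Lib.H1Frat Cfsg.Agent.Lib.PNilp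
open scoped commutatorElement

variable {G : Type*} [Group G] [Finite G] {p : ℕ} [hp : Fact p.Prime]

/-- The condition `E^g ∩ N(E) ≤ E`. -/
def HSub (E : Subgroup G) : Prop :=
  ∀ g : G, E.map (MulAut.conj g).toMonoidHom ⊓ normalizer (E : Set G) ≤ E

theorem normal_of_hsub {E P : Subgroup G} (hE : HSub E) (hEP : E ≤ P) (hP : IsPGroup p P) :
    P ≤ normalizer (E : Set G) := by
  by_contra hcon
  have hlt : P ⊓ normalizer (E : Set G) < P :=
    lt_of_le_of_ne inf_le_left (fun h => hcon (h ▸ inf_le_right))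
  obtain ⟨x, hxP, hxT, hxN⟩ := Cfsg.Agent.Lib.PZJ.exists_normalizing_elt hP hlt
  apply hxT
  refine ⟨hxP, ?_⟩
  apply Cfsg.Agent.Lib.PGlaub.mem_normalizer_of_conj_mem
  intro k hk
  have hkT : k ∈ P ⊓ normalizer (E : Set G) := ⟨hEP hk, Subgroup.le_normalizer hk⟩
  have h1 := (mem_normalizer_iff.1 hxN k).1 hkT
  exact hE x ⟨⟨k, hk, rfl⟩, h1.2⟩

theorem conj_mem_of_hsub {E P : Subgroup G} (hE : HSub E) (hP : P ≤ normalizer (E : Set G)) {w y : G}
    (hw : w ∈ E) (hy : y * w * y⁻¹ ∈ P) : y * w * y⁻¹ ∈ E :=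
  hE y ⟨⟨w, hw, rfl⟩, hP hy⟩

/-- An order-coprime-to-`p` element of a group whose smallest prime is `p` is prime to `p-1`. -/
theorem coprime_pred (hmin : ∀ q : ℕ, q.Prime → q ∣ Nat.card G → p ≤ q) {y : G} :
    Nat.Coprime (orderOf y) (p - 1) := by
  by_contra hcon
  obtain ⟨q, hq, h1, h2⟩ := Nat.Prime.not_coprime_iff_dvd.1 hcon
  have h3 := hmin q hq (h1.trans (orderOf_dvd_natCard y))
  have hp2 := hp.out.two_le
  have h4 := Nat.le_of_dvd (by omega) h2
  omega

theorem sec1_y {Q : Subgroup G} (hQ : IsPGroup p Q) {y : G} (hc2 : Nat.Coprime (orderOf y) (p - 1)) :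
    ∀ M A : Subgroup G, M ≤ Q → A ≤ M → zpowers y ≤ normalizer (M : Set G) → zpowers y ≤ normalizer (A : Set G) →
      A.relIndex M = p → ∀ z ∈ ({y} : Set G), ∀ m ∈ M, m⁻¹ * (z * m * z⁻¹) ∈ A := by
  rintro M A hMQ hAM hMX hAX hidx z rfl m hm
  exact sec_coprime (hQ.to_le hMQ) hAM hidx (zpowers_le.1 hMX) (zpowers_le.1 hAX) hc2 m hm

theorem sec2_y {Q : Subgroup G} (hQ : IsPGroup p Q) {y : G} :
    ∀ M A : Subgroup G, M ≤ Q → A ≤ M → A ≠ M → zpowers y ≤ normalizer (M : Set G) → zpowers y ≤ normalizer (A : Set G) →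
      (∀ W : Subgroup G, A ≤ W → W ≤ M → W ≠ M → zpowers y ≤ normalizer (W : Set G) → W = A) →
      (∀ z ∈ ({y} : Set G), ∀ m ∈ M, m⁻¹ * (z * m * z⁻¹) ∈ A) → A.relIndex M = p := by
  intro M A hMQ hAM hne hMX hAX hmax h
  have hMp := hQ.to_le hMQ
  obtain ⟨B, hAB, hBM, hB⟩ := exists_index_of_ne hMp hAM hne
  have hBne : B ≠ M := by
    rintro rfl
    rw [Subgroup.relIndex_self] at hB
    exact hp.out.one_lt.ne hB
  have hBX : zpowers y ≤ normalizer (B : Set G) := by
    rw [zpowers_le]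
    apply Cfsg.Agent.Lib.PGlaub.mem_normalizer_of_conj_mem
    intro b hb
    have h1 := hAB (h y rfl b (hBM hb))
    have e : y * b * y⁻¹ = b * (b⁻¹ * (y * b * y⁻¹)) := by group
    rw [e]; exact mul_mem hb h1
  have := hmax B hAB hBM hBne hBX
  rwa [this] at hB

/-- The hypothesis on subgroups of order `n`. -/
def HH (P : Subgroup G) (n : ℕ) : Prop :=
  ∀ E : Subgroup G, E ≤ P → (Nat.card E = n ∨ (n = 2 ∧ Nat.card E = 4)) → HSub E

theorem big_cent {P R : Subgroup G} (hP : IsPGroup p P) {n : ℕ} (hH : HH P n) (hn : ∃ d, 1 ≤ d ∧ n = p ^ d)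
    (hRP : R ≤ P) {y : G} (hyR : y ∈ normalizer (R : Set G)) (hc : Nat.Coprime (orderOf y) p)
    (hc2 : Nat.Coprime (orderOf y) (p - 1)) (hcard : n < Nat.card R) : y ∈ centralizer (R : Set G) := by
  have hR : IsPGroup p R := hP.to_le hRP
  refine gl (zpowers y) {y} n hn ?_ ?_ ?_ R hR (sec1_y hR hc2) (sec2_y hR) ?_ (zpowers_le.2 hyR) hcard y rfl
  · rintro _ rfl; exact mem_zpowers _
  · intro g hg z hz
    have hz' : z = y := hz
    rw [hz']
    obtain ⟨k, rfl⟩ := mem_zpowers_iff.1 hg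
    show _ = y
    have : Commute (y ^ k) y := (Commute.refl y).zpow_left k
    rw [this.eq]; group
  · rintro _ rfl; exact hc
  · intro E hER hEc
    rw [zpowers_le]
    apply Cfsg.Agent.Lib.PGlaub.mem_normalizer_of_conj_mem
    intro e he
    have hE := hH E (hER.trans hRP) hEc
    have h1 := normal_of_hsub hE (hER.trans hRP) hP
    exact conj_mem_of_hsub hE h1 he (hRP ((mem_normalizer_iff.1 hyR e).1 (hER he)))

theorem small_fr {P R : Subgroup G} (hP : IsPGroup p P) {d : ℕ} (hH : HH P (p ^ d))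
    (hlt : p ^ d < Nat.card P) (hRP : R ≤ P) (hRc : Nat.card R ≤ p ^ d) {y : G}
    (hyR : y ∈ normalizer (R : Set G)) (hc2 : Nat.Coprime (orderOf y) (p - 1)) :
    ∀ w ∈ R, w⁻¹ * (y * w * y⁻¹) ∈ phi P := by
  intro w hw
  have hR : IsPGroup p R := hP.to_le hRP
  have hconj : y * w * y⁻¹ ∈ R := (mem_normalizer_iff.1 hyR w).1 hw
  refine mem_phi_of_forall hP (hRP (mul_mem (inv_mem hw) hconj)) fun B hBP hB => ?_
  have hBp : IsPGroup p B := hP.to_le hBP
  have hcB := card_rel hBP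
  rw [hB] at hcB
  have hnB : p ^ d ≤ Nat.card B := by
    obtain ⟨b, hb⟩ := IsPGroup.iff_card.1 hBp
    rw [← hcB, hb, ← pow_succ] at hlt
    rw [hb]
    have := (Nat.pow_lt_pow_iff_right hp.out.one_lt).1 hlt
    exact Nat.pow_le_pow_right hp.out.pos (by omega)
  have hinv : y ∈ normalizer ((R ⊓ B : Subgroup G) : Set G) := by
    apply Cfsg.Agent.Lib.PGlaub.mem_normalizer_of_conj_mem
    rintro v ⟨hvR, hvB⟩
    have hv2 : y * v * y⁻¹ ∈ R := (mem_normalizer_iff.1 hyR v).1 hvR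
    refine ⟨hv2, ?_⟩
    have hord : Nat.card (zpowers v) ≤ p ^ d :=
      (Subgroup.card_le_of_le (zpowers_le.2 hvR)).trans hRc
    obtain ⟨E, hE1, hE2, hE3⟩ := exists_between hBp (zpowers_le.2 hvB) (m := d) hord hnB
    have hE := hH E (hE2.trans hBP) (Or.inl hE3)
    have h1 := normal_of_hsub hE (hE2.trans hBP) hP
    exact hE2 (conj_mem_of_hsub hE h1 (hE1 (mem_zpowers v)) (hRP hv2))
  by_cases hRB : R ≤ B
  · exact hRB (mul_mem (inv_mem hw) hconj)
  · have hidx : (R ⊓ B).relIndex R = p := by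
      rw [Subgroup.inf_relIndex_left]
      have h1 : B.relIndex R ≤ p := by
        rw [← hB]
        exact Subgroup.relIndex_le_of_le_right hRP (by rw [hB]; exact hp.out.ne_zero)
      have h2 : B.relIndex R ≠ 1 := fun h => hRB (Subgroup.relIndex_eq_one.1 h)
      have h3 : (R ⊓ B).relIndex R = B.relIndex R := Subgroup.inf_relIndex_left _ _
      obtain ⟨r, hr⟩ := IsPGroup.iff_card.1 hR
      have h4 := card_rel (inf_le_left : R ⊓ B ≤ R)
      rw [h3, hr] at h4
      have h5 : B.relIndex R ∣ p ^ r := ⟨_, by rw [← h4, mul_comm]⟩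
      obtain ⟨j, -, hj⟩ := (Nat.dvd_prime_pow hp.out).1 h5
      rw [hj] at h1 h2 ⊢
      rcases j with _ | _ | j
      · simp at h2
      · simp
      · exfalso
        have : p ^ 2 ≤ p ^ (j + 1 + 1) := Nat.pow_le_pow_right hp.out.pos (by omega)
        have h6 := hp.out.two_le
        nlinarith
    have := sec_coprime hR inf_le_left hidx hyR hinv hc2 w hw
    exact this.2

theorem cyc_step {P R : Subgroup G} (hP : IsPGroup p P) (hcyc : IsCyclic ↥P) (hRP : R ≤ P) {y : G}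
    (hyR : y ∈ normalizer (R : Set G)) (hc : Nat.Coprime (orderOf y) p)
    (hc2 : Nat.Coprime (orderOf y) (p - 1)) : y ∈ centralizer (R : Set G) := by
  have hR : IsPGroup p R := hP.to_le hRP
  haveI hcR : IsCyclic ↥R := by
    have : IsCyclic ↥(R.subgroupOf P) := inferInstance
    exact isCyclic_of_surjective (Subgroup.subgroupOfEquivOfLe hRP) (MulEquiv.surjective _)
  obtain ⟨w', hw'⟩ := IsCyclic.exists_generator (α := ↥R)
  have hRz : R = zpowers (w' : G) := by
    ext z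
    constructor
    · intro hz
      obtain ⟨k, hk⟩ := mem_zpowers_iff.1 (hw' ⟨z, hz⟩)
      exact mem_zpowers_iff.2 ⟨k, by rw [← Subgroup.coe_zpow, hk]⟩
    · intro hz
      exact (zpowers_le.2 w'.2) hz
  have hw2 : (w' : G) ∈ R := w'.2
  have hX : zpowers y ≤ normalizer ((zpowers (w' : G) : Subgroup G) : Set G) := by
    rw [zpowers_le, ← hRz]; exact hyR
  have h := cyc_cent (zpowers y) {y} (by rintro _ rfl; exact mem_zpowers _) (by rintro _ rfl; exact hc)
    R hR (sec1_y hR hc2) hw2 hX y rfl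
  rwa [← hRz] at h

end Cfsg.Agent.Lib.LHSub
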