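import Mathlib
import Cfsg.Agent.Lib.LHSub5

/-! From local control modulo the Frattini subgroup to a normal `p`-complement. -/

set_option autoImplicit false
set_option linter.unusedSectionVars false
set_option linter.unusedVariables false
set_option linter.style.haveILetI false

namespace Cfsg.Agent.Lib.LHSub

open Subgroup Cfsg Cfsg.Agent.Lib.PGrp Cfsg.Agent.Lib.H1Frat Cfsg.Agent.Lib.PNilp
open scoped commutatorElement

variable {G : Type*} [Group G] [Finite G] {p : ℕ} [hp : Fact p.Prime]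

/-- A subgroup of index prime to `p` together with `O^p` generates. -/
theorem sup_pResidual_eq_top {X : Type*} [Group X] [Finite X] (H : Subgroup X) (hH : ¬ p ∣ H.index) :
    H ⊔ pResidual p X = ⊤ := by
  have hq : IsPGroup p (X ⧸ pResidual p X) := isPGroup_quotient_pResidual
  have h1 : (H ⊔ pResidual p X).index ∣ H.index := Subgroup.index_dvd_of_le le_sup_left
  have h2 : (H ⊔ pResidual p X).index ∣ (pResidual p X).index := Subgroup.index_dvd_of_le le_sup_right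
  obtain ⟨k, hk⟩ := IsPGroup.iff_card.1 hq
  have h3 : (pResidual p X).index = p ^ k := hk
  rw [h3] at h2
  obtain ⟨j, -, hj⟩ := (Nat.dvd_prime_pow hp.out).1 h2
  rw [hj] at h1
  rcases j with _ | j
  · rw [pow_zero] at hj
    exact Subgroup.index_eq_one.1 hj
  · exact absurd ((dvd_pow_self p (Nat.succ_ne_zero j)).trans h1) hH

theorem tame_step {P R : Subgroup G} (hP : IsPGroup p P) (hRP : R ≤ P)
    (hpp : ∀ y ∈ normalizer (R : Set G), Nat.Coprime (orderOf y) p → ∀ w ∈ R, w⁻¹ * (y * w * y⁻¹) ∈ phi P)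
    (htame : ¬ p ∣ (P ⊓ normalizer (R : Set G)).relIndex (normalizer (R : Set G))) :
    ∀ c ∈ normalizer (R : Set G), ∀ w ∈ R, w⁻¹ * (c * w * c⁻¹) ∈ phi P := by
  intro c hc w hw
  let T : Subgroup G := stab R (R ⊓ phi P) inf_le_left
  let X := normalizer (R : Set G)
  have hgen : ∀ y ∈ X, (∀ w ∈ R, w⁻¹ * (y * w * y⁻¹) ∈ phi P) → y ∈ T := by
    intro y hy h
    refine ⟨hy, fun m hm => Subgroup.mem_inf.2 ⟨mul_mem (inv_mem hm) ((mem_normalizer_iff.1 hy m).1 hm), h m hm⟩⟩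
  have h1 : ((P ⊓ X).subgroupOf X) ≤ T.subgroupOf X := by
    rintro ⟨s, hs⟩ ⟨hsP, -⟩
    apply hgen s hs
    intro w hw
    have e : w⁻¹ * (s * w * s⁻¹) = ⁅w⁻¹, s⁆ := by rw [commutatorElement_def]; group
    rw [e]
    exact comm_mem_phi hP (inv_mem (hRP hw)) hsP
  have h2 : pResidual p ↥X ≤ T.subgroupOf X := by
    unfold pResidual
    rw [closure_le]
    rintro ⟨y, hy⟩ hyc
    apply hgen y hy
    have hyc' : Nat.Coprime (orderOf y) p := by
      rw [← Subgroup.orderOf_mk y hy]; exact hyc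
    exact hpp y hy hyc'
  have h3 := sup_pResidual_eq_top (p := p) ((P ⊓ X).subgroupOf X) htame
  have h4 : (⟨c, hc⟩ : ↥X) ∈ T.subgroupOf X := by
    have : (⊤ : Subgroup ↥X) ≤ T.subgroupOf X := by
      rw [← h3]; exact sup_le h1 h2
    exact this (by trivial)
  exact (h4.2 w hw).2

theorem chain_step {P : Sylow p G}
    (hpp : ∀ R : Subgroup G, R ≤ (P : Subgroup G) → ∀ y ∈ normalizer (R : Set G), Nat.Coprime (orderOf y) p →
      ∀ w ∈ R, w⁻¹ * (y * w * y⁻¹) ∈ phi (P : Subgroup G))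
    {A : Set G} {g : G} (h : AChain P A g) :
    ∀ a ∈ A, a⁻¹ * (g⁻¹ * a * g) ∈ phi (P : Subgroup G) := by
  have hP : IsPGroup p (P : Subgroup G) := P.isPGroup'
  induction h with
  | nil A => intro a _; simp
  | cons A Q x y hA hx ht hy ih =>
    intro a ha
    have h1 := tame_step hP (inf_le_left : (P : Subgroup G) ⊓ (Q : Subgroup G) ≤ P) (hpp _ inf_le_left) ht.1 x⁻¹ (inv_mem hx) a (hA ha)
    have h2 := ih (x⁻¹ * a * x) ⟨a, ha, rfl⟩
    have e : a⁻¹ * ((x * y)⁻¹ * a * (x * y)) = (a⁻¹ * (x⁻¹ * a * x⁻¹⁻¹)) * ((x⁻¹ * a * x)⁻¹ * (y⁻¹ * (x⁻¹ * a * x) * y)) := by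
      group
    rw [e]
    exact mul_mem h1 h2

theorem focal_le_phi {P : Sylow p G}
    (hpp : ∀ R : Subgroup G, R ≤ (P : Subgroup G) → ∀ y ∈ normalizer (R : Set G), Nat.Coprime (orderOf y) p →
      ∀ w ∈ R, w⁻¹ * (y * w * y⁻¹) ∈ phi (P : Subgroup G)) :
    (P : Subgroup G).focalSubgroup ≤ phi (P : Subgroup G) := by
  rw [Subgroup.focalSubgroup_def, closure_le]
  rintro g ⟨hg, x, hx, u, rfl⟩
  have hA : ({x⁻¹} : Set G) ⊆ (P : Subgroup G) := by
    rintro _ rfl; exact inv_mem hx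
  have hAg : (fun a => (u⁻¹)⁻¹ * a * u⁻¹) '' ({x⁻¹} : Set G) ⊆ (P : Subgroup G) := by
    rintro _ ⟨_, rfl, rfl⟩
    have e : (u⁻¹)⁻¹ * x⁻¹ * u⁻¹ = x⁻¹ * ⁅x, u⁆ := by rw [commutatorElement_def]; group
    show (u⁻¹)⁻¹ * x⁻¹ * u⁻¹ ∈ (P : Subgroup G)
    rw [e]
    exact mul_mem (inv_mem hx) hg
  have h := chain_step hpp (alperin_fusion P _ _ hA hAg) x⁻¹ rfl
  have e : (x⁻¹)⁻¹ * ((u⁻¹)⁻¹ * x⁻¹ * u⁻¹) = ⁅x, u⁆ := by rw [commutatorElement_def]; group
  rw [e] at h
  exact h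

/-- Control of `p'`-elements in normalizers modulo `Φ(P)` yields a normal `p`-complement. -/
theorem npc_of_frat_control (P : Sylow p G)
    (hpp : ∀ R : Subgroup G, R ≤ (P : Subgroup G) → ∀ y ∈ normalizer (R : Set G), Nat.Coprime (orderOf y) p →
      ∀ w ∈ R, w⁻¹ * (y * w * y⁻¹) ∈ phi (P : Subgroup G)) : HasNormalPComplement p G := by
  have hP : IsPGroup p (P : Subgroup G) := P.isPGroup'
  have hcop : Nat.Coprime (P : Subgroup G).index (⁅(P : Subgroup G), (P : Subgroup G)⁆.relIndex (P : Subgroup G)) := by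
    obtain ⟨k, hk⟩ := IsPGroup.iff_card.1 hP
    have h1 : ⁅(P : Subgroup G), (P : Subgroup G)⁆.relIndex (P : Subgroup G) ∣ p ^ k := by
      rw [← hk]
      exact Subgroup.relIndex_dvd_card _ _
    have h2 : Nat.Coprime (P : Subgroup G).index (p ^ k) :=
      Nat.Coprime.pow_right k ((Nat.Prime.coprime_iff_not_dvd hp.out).2 P.not_dvd_index).symm
    exact Nat.Coprime.coprime_dvd_right h1 h2
  obtain ⟨h1, N, hN, h2, h3⟩ := Cfsg.Agent.Lib.PNilp3.focal_of_coprime_commutator (P : Subgroup G) hcop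
  have h4 : N ⊓ (P : Subgroup G) ≤ (frattini P).map (P : Subgroup G).subtype := by
    rw [h2, ← h1]
    exact focal_le_phi hpp
  have h5 := Cfsg.Agent.Lib.PTate.tate P N h4
  have hq : IsPGroup p (G ⧸ N) := Cfsg.Agent.Lib.LPIrr.isPGroup_quotient_of_sup N (P : Subgroup G) hP h3
  rw [hasNormalPComplement_iff_pResidual] at h5 ⊢
  have h6 : pResidual p G ≤ (pResidual p ↥N).map N.subtype := by
    unfold pResidual
    rw [closure_le]
    intro g hg
    have hgN : g ∈ N := mem_of_coprime_of_isPGroup_quotient N hq g hg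
    refine ⟨⟨g, hgN⟩, subset_closure ?_, rfl⟩
    show Nat.Coprime (orderOf (⟨g, hgN⟩ : ↥N)) p
    rw [Subgroup.orderOf_mk]
    exact hg
  have h7 := Subgroup.card_dvd_of_le h6
  rw [Subgroup.card_map_of_injective N.subtype_injective] at h7
  exact Nat.Coprime.coprime_dvd_left h7 h5

end Cfsg.Agent.Lib.LHSub
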