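import Mathlib
import Cfsg.Agent.Lib.LHSub4

/-! The key lemma on subgroups of a fixed order, second form. -/

set_option autoImplicit false
set_option linter.unusedSectionVars false
set_option linter.unusedVariables false
set_option linter.style.haveILetI false

namespace Cfsg.Agent.Lib.LHSub

open Subgroup Cfsg Cfsg.Agent.Lib.PGrp Cfsg.Agent.Lib.H1Frat
open scoped commutatorElement

variable {G : Type*} [Group G] [Finite G] {p : ℕ} [hp : Fact p.Prime]

theorem gl2 (X : Subgroup G) (Y : Set G) (n : ℕ) (hn : ∃ d, 1 ≤ d ∧ n = p ^ d)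
    (hYX : ∀ y ∈ Y, y ∈ X) (hYconj : ∀ g ∈ X, ∀ y ∈ Y, g * y * g⁻¹ ∈ Y)
    (hYc : ∀ y ∈ Y, Nat.Coprime (orderOf y) p)
    (Q : Subgroup G) (hQ : IsPGroup p Q)
    (hsec1 : ∀ M A : Subgroup G, M ≤ Q → A ≤ M → X ≤ normalizer (M : Set G) → X ≤ normalizer (A : Set G) →
      A.relIndex M = p → ∀ y ∈ Y, ∀ m ∈ M, m⁻¹ * (y * m * y⁻¹) ∈ A)
    (hinv : ∀ E : Subgroup G, E ≤ Q → (Nat.card E = n ∨ (n = 2 ∧ Nat.card E = 4)) →
      X ≤ normalizer (E : Set G))
    (hQX : X ≤ normalizer (Q : Set G)) (hcard : n < Nat.card Q) :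
    ∀ y ∈ Y, y ∈ centralizer (Q : Set G) := by
  classical
  by_contra hcon
  push Not at hcon
  obtain ⟨yQ, hyQ, hyQC⟩ := hcon
  obtain ⟨d, hd1, rfl⟩ := hn
  -- the minimal counterexample
  let S : Set (Subgroup G) := {M | M ≤ Q ∧ X ≤ normalizer (M : Set G) ∧ p ^ d < Nat.card M ∧
    ∃ y ∈ Y, y ∉ centralizer (M : Set G)}
  have hS : S.Nonempty := ⟨Q, le_rfl, hQX, hcard, yQ, hyQ, hyQC⟩
  obtain ⟨M, hMS, hmin⟩ := Set.exists_min_image S (fun H => Nat.card H) (Set.toFinite S) hS
  obtain ⟨hMQ, hMX, hMn, y₀, hy₀, hy₀C⟩ := hMS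
  have hMp : IsPGroup p M := hQ.to_le hMQ
  have hMbot : M ≠ ⊥ := by
    rintro rfl
    rw [Subgroup.card_bot] at hMn
    have := Nat.one_le_two_pow (n := 0)
    have h1 : 0 < p ^ d := pow_pos hp.out.pos d
    omega
  -- small subgroups
  have hlt : ∀ W : Subgroup G, W ≤ M → W ≠ M → Nat.card W < Nat.card M := fun W hW hne =>
    Cfsg.Agent.Lib.PNilp.card_lt_of_lt' (lt_of_le_of_ne hW hne)
  have hsmall : ∀ W : Subgroup G, W ≤ M → W ≠ M → X ≤ normalizer (W : Set G) →
      p ^ d < Nat.card W → ∀ y ∈ Y, y ∈ centralizer (W : Set G) := by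
    intro W hW hne hWX hc y hy
    by_contra hnot
    have := hmin W ⟨hW.trans hMQ, hWX, hc, y, hy, hnot⟩
    exact absurd (hlt W hW hne) (not_lt.2 this)
  have hYM : ∀ y ∈ Y, y ∈ normalizer (M : Set G) := fun y hy => hMX (hYX y hy)
  have hgenM : ∀ y ∈ Y, ∀ m ∈ M, m⁻¹ * (y * m * y⁻¹) ∈ M := fun y hy m hm =>
    mul_mem (inv_mem hm) ((mem_normalizer_iff.1 (hYM y hy) m).1 hm)
  -- the commutator subgroup
  let M₁ : Subgroup G := closure {z | ∃ m ∈ M, ∃ y ∈ Y, z = m⁻¹ * (y * m * y⁻¹)}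
  have hM₁M : M₁ ≤ M := by
    rw [closure_le]
    rintro _ ⟨m, hm, y, hy, rfl⟩
    exact hgenM y hy m hm
  have hgen₁ : ∀ y ∈ Y, ∀ m ∈ M, m⁻¹ * (y * m * y⁻¹) ∈ M₁ := fun y hy m hm =>
    subset_closure ⟨m, hm, y, hy, rfl⟩
  have hM₁X : X ≤ normalizer (M₁ : Set G) := by
    intro g hg
    apply Cfsg.Agent.Lib.PGlaub.mem_normalizer_of_conj_mem
    intro k hk
    have h1 : M₁.map (MulAut.conj g).toMonoidHom ≤ M₁ := by
      rw [MonoidHom.map_closure, closure_le]
      rintro _ ⟨_, ⟨m, hm, y, hy, rfl⟩, rfl⟩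
      have hm' : g * m * g⁻¹ ∈ M := (mem_normalizer_iff.1 (hMX hg) m).1 hm
      have h2 := hgen₁ _ (hYconj g hg y hy) _ hm'
      have e : (g * m * g⁻¹)⁻¹ * (g * y * g⁻¹ * (g * m * g⁻¹) * (g * y * g⁻¹)⁻¹) =
          (MulAut.conj g).toMonoidHom (m⁻¹ * (y * m * y⁻¹)) := by
        simp only [MulEquiv.toMonoidHom_eq_coe, MonoidHom.coe_coe, MulAut.conj_apply]
        group
      rw [e] at h2
      exact h2
    exact h1 ⟨k, hk, rfl⟩
  -- coprime action
  have hpel : ∀ z ∈ M, ∃ a : ℕ, orderOf z = p ^ a := by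
    intro z hz
    have := (IsPGroup.iff_orderOf.1 hMp) ⟨z, hz⟩
    obtain ⟨a, ha⟩ := this
    exact ⟨a, by rw [← ha, Subgroup.orderOf_mk]⟩
  have hkey : ∀ y ∈ Y, ∀ A : Subgroup G, A ≤ M → y ∈ centralizer (A : Set G) →
      (∀ m ∈ M, m⁻¹ * (y * m * y⁻¹) ∈ A) → y ∈ centralizer (M : Set G) := by
    intro y hy A hAM hyA h
    rw [Subgroup.mem_centralizer_iff]
    intro m hm
    have hx := h m hm
    have hc : Commute (m⁻¹ * (y * m * y⁻¹)) y := (Subgroup.mem_centralizer_iff.1 hyA _ hx)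
    have h1 := comm_eq_one rfl hc (hpel _ (hAM hx)) (hYc y hy)
    have e : m = y * m * y⁻¹ := inv_mul_eq_one.1 h1
    rw [eq_mul_inv_iff_mul_eq] at e
    exact e
  have hcentmono : ∀ {y : G} {A B : Subgroup G}, A ≤ B → y ∈ centralizer (B : Set G) →
      y ∈ centralizer (A : Set G) := fun hAB hy =>
    Subgroup.mem_centralizer_iff.2 fun h hh => Subgroup.mem_centralizer_iff.1 hy h (hAB hh)
  have hφne := phi_ne hMp hMbot
  have phiX : X ≤ normalizer (phi M : Set G) := fun g hg => phi_inv hMp (hMX hg)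
  -- Step 1
  have hM₁eq : M₁ = M := by
    by_contra hne
    obtain ⟨A, hM₁A, hAM, hAne, hAX, hAmax⟩ := exists_max_inv X hM₁M hne hM₁X
    have hφA : phi M ≤ A := by
      have hsup := inv_sup hAX phiX
      by_cases h : A ⊔ phi M = M
      · exact absurd h (sup_phi_ne hMp hAM hAne)
      · have := hAmax _ le_sup_left (sup_le hAM (phi_le M)) h hsup
        rw [← this]; exact le_sup_right
    by_cases hA : p ^ d < Nat.card A
    · exact hy₀C (hkey y₀ hy₀ A hAM (hsmall A hAM hAne hAX hA y₀ hy₀)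
        (fun m hm => hM₁A (hgen₁ y₀ hy₀ m hm)))
    · have hAn : Nat.card A = p ^ d := by
        obtain ⟨E, hE1, hE2, hE3⟩ := exists_between hMp hAM (m := d) (not_lt.1 hA) hMn.le
        have hEX := hinv E (hE2.trans hMQ) (Or.inl hE3)
        have hEne : E ≠ M := by
          intro h
          rw [h] at hE3
          omega
        have := hAmax E hE1 hE2 hEne hEX
        rw [← this]; exact hE3
      obtain ⟨x, hxM, hxA⟩ : ∃ x ∈ M, x ∉ A :=
        SetLike.not_le_iff_exists.1 (fun h => hAne (le_antisymm hAM h))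
      have hW₀M' : A ⊔ zpowers x ≤ M := sup_le hAM (zpowers_le.2 hxM)
      by_cases hsm : orderOf x ≤ p ^ d ∨ (p ^ d = 2 ∧ orderOf x = 4)
      · have hW₀X : X ≤ normalizer ((A ⊔ zpowers x : Subgroup G) : Set G) := by
          rcases hsm with h | h
          · have hc : p ^ d ≤ Nat.card ↥(A ⊔ zpowers x) := by
              rw [← hAn]; exact Subgroup.card_le_of_le le_sup_left
            obtain ⟨E, hE1, hE2, hE3⟩ := exists_between (hMp.to_le hW₀M') (le_sup_right : zpowers x ≤ A ⊔ zpowers x) (m := d)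
              (by rw [Nat.card_zpowers]; exact h) hc
            have hEX := hinv E ((hE2.trans hW₀M').trans hMQ) (Or.inl hE3)
            have : A ⊔ E = A ⊔ zpowers x :=
              le_antisymm (sup_le le_sup_left hE2) (sup_le le_sup_left (hE1.trans le_sup_right))
            exact this ▸ inv_sup hAX hEX
          · have hE := hinv (zpowers x) ((zpowers_le.2 hxM).trans hMQ)
              (Or.inr ⟨h.1, by rw [Nat.card_zpowers]; exact h.2⟩)
            exact inv_sup hAX hE
        have hW₀M : A ⊔ zpowers x = M := by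
          by_contra h
          have := hAmax _ le_sup_left hW₀M' h hW₀X
          exact hxA (this ▸ mem_sup_right (mem_zpowers x))
        have hidx := index_of_sup_zpowers hMp hφA hAM hxM hxA hW₀M
        have hcA := card_rel hAM
        rw [hidx] at hcA
        apply hy₀C
        refine cent_of_phi hMp (hYc _ hy₀) (hYM _ hy₀) fun m hm => ?_
        refine mem_phi_of_forall hMp (hgenM _ hy₀ m hm) fun B hBM hB => ?_
        have hcB := card_rel hBM
        rw [hB, ← hcA] at hcB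
        have hcard : Nat.card B = p ^ d := by
          have := Nat.eq_of_mul_eq_mul_right hp.out.pos hcB
          rw [this, hAn]
        exact hsec1 M B hMQ hBM hMX (hinv B (hBM.trans hMQ) (Or.inl hcard)) hB y₀ hy₀ m hm
      · push Not at hsm
        obtain ⟨a, ha⟩ := hpel x hxM
        have hx_1 : x ≠ 1 := fun h => hxA (h ▸ one_mem A)
        have ha0 : a ≠ 0 := by
          rintro rfl
          rw [pow_zero] at ha
          exact hx_1 (orderOf_eq_one_iff.1 ha)
        have h1 : orderOf (x ^ p) = p ^ (a - 1) := by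
          rw [orderOf_pow' x hp.out.ne_zero, ha]
          have : Nat.gcd (p ^ a) p = p := Nat.gcd_eq_right (dvd_pow_self p ha0)
          rw [this]
          obtain ⟨b, rfl⟩ := Nat.exists_eq_succ_of_ne_zero ha0
          simp [pow_succ, hp.out.pos]
        have hle : zpowers (x ^ p) ≤ A := zpowers_le.2 (hφA (pow_mem_phi hMp hxM))
        have h2 : a - 1 ≤ d := by
          have := Subgroup.card_le_of_le hle
          rw [Nat.card_zpowers, h1, hAn] at this
          exact (Nat.pow_le_pow_iff_right hp.out.one_lt).1 this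
        have h4 : d < a := by
          have := hsm.1
          rw [ha] at this
          exact (Nat.pow_lt_pow_iff_right hp.out.one_lt).1 this
        have hba : a - 1 = d := by omega
        have hAeq : zpowers (x ^ p) = A := by
          apply Subgroup.eq_of_le_of_card_ge hle
          rw [Nat.card_zpowers, h1, hAn, hba]
        have hcyc := cyc_cent X Y hYX hYc Q hQ hsec1 (w := x ^ p)
          (hMQ (hAM (hle (mem_zpowers _)))) (hAeq ▸ hAX) y₀ hy₀
        rw [hAeq] at hcyc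
        exact hy₀C (hkey y₀ hy₀ A hAM hcyc (fun m hm => hM₁A (hgen₁ y₀ hy₀ m hm)))
  -- Step 2
  obtain ⟨U, hUφ, hUM, hUne, hUX, hUmax⟩ := exists_max_inv X (phi_le M) hφne phiX
  have hU2 : U.relIndex M ≠ p := by
    intro h
    apply hUne
    refine le_antisymm hUM ?_
    have h1 : M₁ ≤ U := by
      rw [closure_le]
      rintro _ ⟨m, hm, y, hy, rfl⟩
      exact hsec1 M U hMQ hUM hMX hUX h y hy m hm
    intro z hz
    have hz' : z ∈ M₁ := by rw [hM₁eq]; exact hz
    exact h1 hz'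
  -- Step 3
  have hlarge : ∀ x ∈ M, x ∉ U → p ^ d < orderOf x ∧ ¬ (p ^ d = 2 ∧ orderOf x = 4) := by
    intro x hx hxU
    by_contra hsm
    have hW₀M : U ⊔ zpowers x ≤ M := sup_le hUM (zpowers_le.2 hx)
    have hW₀U : U ≤ U ⊔ zpowers x := le_sup_left
    have hxW₀ : x ∈ U ⊔ zpowers x := mem_sup_right (mem_zpowers x)
    have hinvW : X ≤ normalizer ((U ⊔ zpowers x : Subgroup G) : Set G) → False := by
      intro hWX
      by_cases hWM : U ⊔ zpowers x = M
      · exact hU2 (index_of_sup_zpowers hMp hUφ hUM hx hxU hWM)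
      · have := hUmax _ hW₀U hW₀M hWM hWX
        exact hxU (this ▸ hxW₀)
    by_cases hcase : p ^ d = 2 ∧ orderOf x = 4
    · have hE := hinv (zpowers x) ((zpowers_le.2 hx).trans hMQ)
        (Or.inr ⟨hcase.1, by rw [Nat.card_zpowers]; exact hcase.2⟩)
      exact hinvW (inv_sup hUX hE)
    · have hord : orderOf x ≤ p ^ d := by
        by_contra h
        exact hsm ⟨not_le.1 h, hcase⟩
      by_cases hc : p ^ d ≤ Nat.card ↥(U ⊔ zpowers x)
      · obtain ⟨E, hE1, hE2, hE3⟩ := exists_between (hMp.to_le hW₀M) (le_sup_right : zpowers x ≤ U ⊔ zpowers x) (m := d)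
          (by rw [Nat.card_zpowers]; exact hord) hc
        have hEX := hinv E ((hE2.trans hW₀M).trans hMQ) (Or.inl hE3)
        have : U ⊔ E = U ⊔ zpowers x :=
          le_antisymm (sup_le le_sup_left hE2) (sup_le le_sup_left (hE1.trans le_sup_right))
        exact hinvW (this ▸ inv_sup hUX hEX)
      · obtain ⟨E, hE1, hE2, hE3⟩ := exists_between hMp hW₀M (m := d) (not_le.1 hc).le hMn.le
        have hEX := hinv E (hE2.trans hMQ) (Or.inl hE3)
        have hEne : E ≠ M := by
          intro h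
          rw [h] at hE3
          omega
        have := hUmax E (hW₀U.trans hE1) hE2 hEne hEX
        exact hxU (this ▸ hE1 hxW₀)
  -- Step 4
  obtain ⟨x, hxM, hxU⟩ : ∃ x ∈ M, x ∉ U :=
    SetLike.not_le_iff_exists.1 (fun h => hUne (le_antisymm hUM h))
  obtain ⟨hx1, hx2⟩ := hlarge x hxM hxU
  by_cases hall : ∀ W : Subgroup G, W ≤ M → W ≠ M → X ≤ normalizer (W : Set G) → ∀ y ∈ Y,
      y ∈ centralizer (W : Set G)
  · have hΦ := hall (phi M) (phi_le M) hφne phiX
    have hcen : ∀ c ∈ phi M, ∀ z ∈ M, z * c = c * z := by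
      intro c hc z hz
      have h1 : M₁ ≤ centralizer ({c} : Set G) := by
        rw [closure_le]
        rintro _ ⟨m, hm, y, hy, rfl⟩
        show m⁻¹ * (y * m * y⁻¹) ∈ centralizer ({c} : Set G)
        rw [Subgroup.mem_centralizer_singleton_iff]
        have hcy : c * y = y * c := Subgroup.mem_centralizer_iff.1 (hΦ y hy) c hc
        have hc' : m * c * m⁻¹ ∈ phi M := (mem_normalizer_iff.1 (phi_inv hMp (show m ∈ normalizer (M : Set G) from ?_)) c).1 hc
        have hcy2 : m * c * m⁻¹ * y = y * (m * c * m⁻¹) := Subgroup.mem_centralizer_iff.1 (hΦ y hy) _ hc'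
        have h3 : y⁻¹ * c * y = c := by
          rw [mul_assoc, hcy]; group
        have h4 : y * (m * c * m⁻¹) * y⁻¹ = m * c * m⁻¹ := by
          rw [← hcy2]; group
        have e : (m⁻¹ * (y * m * y⁻¹)) * c * (m⁻¹ * (y * m * y⁻¹))⁻¹ =
            m⁻¹ * (y * (m * (y⁻¹ * c * y) * m⁻¹) * y⁻¹) * m := by group
        rw [h3, h4] at e
        have e2 : (m⁻¹ * (y * m * y⁻¹)) * c * (m⁻¹ * (y * m * y⁻¹))⁻¹ = c := by
          rw [e]; group
        rw [mul_inv_eq_iff_eq_mul] at e2
        exact e2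
        · exact Subgroup.le_normalizer hm
      have hz' : z ∈ M₁ := by rw [hM₁eq]; exact hz
      exact Subgroup.mem_centralizer_singleton_iff.1 (h1 hz')
    obtain ⟨e, he⟩ : ∃ e : ℕ, (e = p ∧ p ≠ 2) ∨ (e = 4 ∧ p = 2) := by
      by_cases hp2 : p = 2
      · exact ⟨4, Or.inr ⟨rfl, hp2⟩⟩
      · exact ⟨p, Or.inl ⟨rfl, hp2⟩⟩
    have hmul : ∀ a ∈ M, ∀ b ∈ M, (a * b) ^ e = a ^ e * b ^ e := fun a ha b hb =>
      mul_pow_e hMp hcen ha hb e he
    have hphie : ∀ m ∈ M, m ^ e ∈ phi M := by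
      intro m hm
      rcases he with ⟨rfl, -⟩ | ⟨rfl, hp2⟩
      · exact pow_mem_phi hMp hm
      · have h2 : m ^ 2 ∈ phi M := by
          have := pow_mem_phi hMp hm
          rwa [hp2] at this
        have : m ^ 4 = m ^ 2 * m ^ 2 := by rw [← pow_add]
        rw [this]; exact mul_mem h2 h2
    let K : Subgroup G :=
      { carrier := {z | z ∈ M ∧ z ^ e = 1}
        one_mem' := ⟨one_mem _, one_pow _⟩
        mul_mem' := by
          rintro a b ⟨ha, ha'⟩ ⟨hb, hb'⟩
          refine ⟨mul_mem ha hb, ?_⟩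
          rw [hmul a ha b hb, ha', hb', one_mul]
        inv_mem' := by
          rintro a ⟨ha, ha'⟩
          exact ⟨inv_mem ha, by rw [inv_pow, ha', inv_one]⟩ }
    have hM₁K : M₁ ≤ K := by
      rw [closure_le]
      rintro _ ⟨m, hm, y, hy, rfl⟩
      refine ⟨hgenM y hy m hm, ?_⟩
      have hm2 : y * m * y⁻¹ ∈ M := (mem_normalizer_iff.1 (hYM y hy) m).1 hm
      rw [hmul _ (inv_mem hm) _ hm2, inv_pow, conj_pow]
      have hcy : m ^ e * y = y * m ^ e := Subgroup.mem_centralizer_iff.1 (hΦ y hy) _ (hphie m hm)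
      rw [← hcy]; group
    have hxK : x ∈ M₁ := by rw [hM₁eq]; exact hxM
    have hxe : x ^ e = 1 := (hM₁K hxK).2
    have hdvd : orderOf x ∣ e := orderOf_dvd_of_pow_eq_one hxe
    have hepos : 0 < e := by
      rcases he with ⟨rfl, -⟩ | ⟨rfl, -⟩
      · exact hp.out.pos
      · norm_num
    have hle := Nat.le_of_dvd hepos hdvd
    have hpd : p ≤ p ^ d := by
      calc p = p ^ 1 := (pow_one p).symm
        _ ≤ p ^ d := Nat.pow_le_pow_right hp.out.pos hd1
    rcases he with ⟨rfl, -⟩ | ⟨rfl, hp2⟩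
    · omega
    · subst hp2
      have hd2 : d = 1 := by
        by_contra hd
        have : 2 ≤ d := by omega
        have h4 : 2 ^ 2 ≤ 2 ^ d := Nat.pow_le_pow_right (by norm_num) this
        omega
      subst hd2
      have : orderOf x = 4 := by
        have h3 : orderOf x ≤ 4 := hle
        have h4 : 2 ^ 1 < orderOf x := hx1
        have h5 : orderOf x = 3 ∨ orderOf x = 4 := by omega
        rcases h5 with h5 | h5
        · rw [h5] at hdvd
          norm_num at hdvd
        · exact h5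
      exact hx2 ⟨by norm_num, this⟩
  · push Not at hall
    obtain ⟨Q₂, hQ₂M, hQ₂ne, hQ₂X, y₂, hy₂, hy₂C⟩ := hall
    have hT : Q₂ ⊔ phi M ≠ M := sup_phi_ne hMp hQ₂M hQ₂ne
    have hTM : Q₂ ⊔ phi M ≤ M := sup_le hQ₂M (phi_le M)
    have hTX := inv_sup hQ₂X phiX
    have hT2 : ¬ p ^ d < Nat.card ↥(Q₂ ⊔ phi M) := by
      intro h
      exact hy₂C (hcentmono le_sup_left (hsmall _ hTM hT hTX h y₂ hy₂))
    have hcφ : Nat.card ↥(phi M) ≤ p ^ d :=
      (Subgroup.card_le_of_le le_sup_right).trans (not_lt.1 hT2)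
    obtain ⟨a, ha⟩ := hpel x hxM
    have hx_1 : x ≠ 1 := fun h => hxU (h ▸ one_mem U)
    have ha0 : a ≠ 0 := by
      rintro rfl
      rw [pow_zero] at ha
      exact hx_1 (orderOf_eq_one_iff.1 ha)
    have h1 : orderOf (x ^ p) = p ^ (a - 1) := by
      rw [orderOf_pow' x hp.out.ne_zero, ha]
      have : Nat.gcd (p ^ a) p = p := Nat.gcd_eq_right (dvd_pow_self p ha0)
      rw [this]
      obtain ⟨b, rfl⟩ := Nat.exists_eq_succ_of_ne_zero ha0
      simp [pow_succ, hp.out.pos]
    have hle : zpowers (x ^ p) ≤ phi M := zpowers_le.2 (pow_mem_phi hMp hxM)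
    obtain ⟨b, hb⟩ := IsPGroup.iff_card.1 (hMp.to_le (phi_le M))
    have h2 : a - 1 ≤ b := by
      have := Subgroup.card_le_of_le hle
      rw [Nat.card_zpowers, h1, hb] at this
      exact (Nat.pow_le_pow_iff_right hp.out.one_lt).1 this
    have h3 : b ≤ d := by
      rw [hb] at hcφ
      exact (Nat.pow_le_pow_iff_right hp.out.one_lt).1 hcφ
    have h4 : d < a := by
      rw [ha] at hx1
      exact (Nat.pow_lt_pow_iff_right hp.out.one_lt).1 hx1
    have hbd : b = d := by omega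
    have hba : a - 1 = b := by omega
    have hφeq : zpowers (x ^ p) = phi M := by
      apply Subgroup.eq_of_le_of_card_ge hle
      rw [Nat.card_zpowers, h1, hb, hba]
    have hcyc := cyc_cent X Y hYX hYc Q hQ hsec1 (w := x ^ p)
      (hMQ (phi_le M (pow_mem_phi hMp hxM))) (hφeq ▸ phiX) y₂ hy₂
    have hTeq : phi M = Q₂ ⊔ phi M := by
      apply Subgroup.eq_of_le_of_card_ge le_sup_right
      rw [hb, hbd]
      exact not_lt.1 hT2
    have hQ₂φ : Q₂ ≤ zpowers (x ^ p) := by
      rw [hφeq, hTeq]; exact le_sup_left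
    exact hy₂C (hcentmono hQ₂φ hcyc)

end Cfsg.Agent.Lib.LHSub
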