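import Mathlib
import Cfsg.Agent.Lib.LHSub7

/-! Minimal normal `r`-subgroups on which the residual acts trivially have order `r`. -/

set_option autoImplicit false
set_option linter.unusedSectionVars false
set_option linter.unusedVariables false
set_option linter.style.haveILetI false

namespace Cfsg.Agent.Lib.LHSub

open Subgroup Cfsg Cfsg.Agent.Lib.PGrp Cfsg.Agent.Lib.H1Frat Cfsg.Agent.Lib.PNilp
open scoped commutatorElement

open Polynomial in
theorem eig_lin {F : Type*} [Field F] [Fintype F] {V : Type*} [AddCommGroup V] [Module F V] [FiniteDimensional F V]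
    [Nontrivial V] (T : V →ₗ[F] V) (h : T ^ (Fintype.card F - 1) = 1) :
    ∃ (a : F) (v : V), v ≠ 0 ∧ T v = a • v := by
  have hq : 1 < Fintype.card F := Fintype.one_lt_card
  have hsplit : (X ^ Fintype.card F - X : F[X]).Splits := by
    rw [Polynomial.splits_iff_card_roots, FiniteField.roots_X_pow_card_sub_X, FiniteField.X_pow_card_sub_X_natDegree_eq _ hq]
    simp
  have hne : (X ^ Fintype.card F - X : F[X]) ≠ 0 := FiniteField.X_pow_card_sub_X_ne_zero F hq
  have hint : IsIntegral F T := Algebra.IsIntegral.isIntegral T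
  have hd : minpoly F T ∣ (X ^ Fintype.card F - X : F[X]) := by
    apply minpoly.dvd
    simp only [map_sub, map_pow, aeval_X]
    have e : T ^ Fintype.card F = T ^ (Fintype.card F - 1) * T := by
      rw [← pow_succ]; congr 1; omega
    rw [e, h, one_mul, sub_self]
  have hs := hsplit.of_dvd hne hd
  have hdeg : (minpoly F T).degree ≠ 0 :=
    (Polynomial.natDegree_pos_iff_degree_pos.1 (minpoly.natDegree_pos hint)).ne'
  obtain ⟨a, ha⟩ := hs.exists_eval_eq_zero hdeg
  have hev : Module.End.HasEigenvalue T a := Module.End.hasEigenvalue_of_isRoot ha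
  obtain ⟨v, hv⟩ := hev.exists_hasEigenvector
  exact ⟨a, v, hv.2, hv.apply_eq_smul⟩

/-- Eigenvectors of an endomorphism of exponent dividing `r - 1` on an elementary abelian group. -/
theorem eig_mul {A : Type*} [CommGroup A] [Finite A] [Nontrivial A] {r : ℕ} [hr : Fact r.Prime]
    (hA : ∀ a : A, a ^ r = 1) (τ : A →* A) (hτ : ∀ a, τ^[r - 1] a = a) :
    ∃ (l : ℕ) (v : A), v ≠ 1 ∧ τ v = v ^ l := by
  classical
  obtain ⟨inst⟩ : Nonempty (Module (ZMod r) (Additive A)) :=
    ⟨AddCommGroup.zmodModule (n := r) (fun x => by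
      show Additive.ofMul ((x.toMul) ^ r) = 0
      rw [hA]; rfl)⟩
  haveI : Module.Finite (ZMod r) (Additive A) := Module.Finite.of_finite
  let T : Additive A →ₗ[ZMod r] Additive A := AddMonoidHom.toZModLinearMap r (MonoidHom.toAdditive τ)
  have hTk : ∀ (k : ℕ) (x : Additive A), (T ^ k) x = Additive.ofMul (τ^[k] x.toMul) := by
    intro k x
    rw [Module.End.pow_apply]
    induction k generalizing x with
    | zero => rfl
    | succ k ih =>
      rw [Function.iterate_succ_apply', Function.iterate_succ_apply', ih]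
      rfl
  have hT : T ^ (Fintype.card (ZMod r) - 1) = 1 := by
    rw [ZMod.card]
    ext x
    rw [hTk, hτ]
    rfl
  obtain ⟨a, v, hv, hTv⟩ := eig_lin T hT
  refine ⟨a.val, v.toMul, fun h => hv (by
    show v = Additive.ofMul 1
    rw [← h]; rfl), ?_⟩
  have h1 : T v = a • v := hTv
  have h2 : a • v = a.val • v := by
    conv_lhs => rw [← ZMod.natCast_zmod_val a]
    exact Nat.cast_smul_eq_nsmul (ZMod r) a.val v
  rw [h2] at h1
  exact h1

variable {G : Type*} [Group G] [Finite G]

/-- The residual of exponent dividing `r - 1`. -/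
def DD (r : ℕ) (G : Type*) [Group G] : Subgroup G :=
  closure {z | (∃ a b : G, z = ⁅a, b⁆) ∨ ∃ g : G, z = g ^ (r - 1)}

theorem comm_mem_DD (r : ℕ) (a b : G) : ⁅a, b⁆ ∈ DD r G := subset_closure (Or.inl ⟨a, b, rfl⟩)

theorem pow_mem_DD (r : ℕ) (g : G) : g ^ (r - 1) ∈ DD r G := subset_closure (Or.inr ⟨g, rfl⟩)

instance DD_normal (r : ℕ) : (DD r G).Normal := by
  refine ⟨fun n hn g => ?_⟩
  have h1 : (DD r G).map (MulAut.conj g).toMonoidHom ≤ DD r G := by
    unfold DD
    rw [MonoidHom.map_closure, closure_le]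
    rintro _ ⟨z, hz, rfl⟩
    rcases hz with ⟨a, b, rfl⟩ | ⟨h, rfl⟩
    · apply Subgroup.subset_closure
      left
      refine ⟨g * a * g⁻¹, g * b * g⁻¹, ?_⟩
      simp only [MulEquiv.toMonoidHom_eq_coe, MonoidHom.coe_coe, MulAut.conj_apply, commutatorElement_def]
      group
    · apply Subgroup.subset_closure
      right
      refine ⟨g * h * g⁻¹, ?_⟩
      simp only [MulEquiv.toMonoidHom_eq_coe, MonoidHom.coe_coe, MulAut.conj_apply]
      rw [conj_pow]
  exact h1 ⟨n, hn, rfl⟩

/-- A minimal normal `r`-subgroup on which the `r'`-elements of the residual act trivially has order `r`. -/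
theorem min_normal_card {r : ℕ} [hr : Fact r.Prime] (N : Subgroup G) [hNn : N.Normal] (hN : IsPGroup r N)
    (hbot : N ≠ ⊥) (hmin : ∀ W : Subgroup G, W.Normal → W ≤ N → W = ⊥ ∨ W = N)
    (hD : ∀ y ∈ DD r G, Nat.Coprime (orderOf y) r → y ∈ centralizer (N : Set G)) : Nat.card N = r := by
  classical
  -- elementary abelian
  have hphi : phi N = ⊥ := by
    have hpn : (phi N).Normal := by
      refine ⟨fun n hn g => ?_⟩
      have hg : g ∈ normalizer (N : Set G) := by
        rw [normalizer_eq_top N]; trivial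
      exact (mem_normalizer_iff.1 (phi_inv hN hg) n).1 hn
    rcases hmin _ hpn (phi_le N) with h | h
    · exact h
    · exact absurd h (phi_ne hN hbot)
  have hcomm : ∀ a ∈ N, ∀ b ∈ N, a * b = b * a := by
    intro a ha b hb
    have h1 := comm_mem_phi hN ha hb
    rw [hphi, Subgroup.mem_bot] at h1
    exact commutatorElement_eq_one_iff_mul_comm.1 h1
  have hpow : ∀ a ∈ N, a ^ r = 1 := by
    intro a ha
    have h1 := pow_mem_phi hN ha
    rwa [hphi, Subgroup.mem_bot] at h1
  -- the residual centralizes `N`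
  have hDC : ∀ d ∈ DD r G, d ∈ centralizer (N : Set G) := by
    obtain ⟨S⟩ : Nonempty (Sylow r ↥(DD r G)) := inferInstance
    let S' : Subgroup G := (S : Subgroup ↥(DD r G)).map (DD r G).subtype
    have hS' : IsPGroup r S' := S.isPGroup'.map _
    have hT : IsPGroup r ↥(N ⊔ S') := IsPGroup.to_sup_of_normal_left hN hS'
    haveI : Group.IsNilpotent ↥(N ⊔ S') := hT.isNilpotent
    have hNT : (N.subgroupOf (N ⊔ S')).Normal := inferInstance
    have hNTne : N.subgroupOf (N ⊔ S') ≠ ⊥ := by
      obtain ⟨x, hx, hx1⟩ := (Subgroup.ne_bot_iff_exists_ne_one.1 hbot |> fun ⟨x, hx⟩ => (⟨x.1, x.2, fun h => hx (Subtype.ext h)⟩ : ∃ x ∈ N, x ≠ 1))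
      intro h
      have h2 : (⟨x, (le_sup_left : N ≤ N ⊔ S') hx⟩ : ↥(N ⊔ S')) ∈ N.subgroupOf (N ⊔ S') := hx
      rw [h, Subgroup.mem_bot] at h2
      exact hx1 (congrArg Subtype.val h2)
    have hZ := normal_inf_center_ne_bot (N.subgroupOf (N ⊔ S')) hNTne
    obtain ⟨⟨v, hvT⟩, hv, hv1⟩ := (Subgroup.ne_bot_iff_exists_ne_one.1 hZ |> fun ⟨x, hx⟩ => (⟨x.1, x.2, fun h => hx (Subtype.ext h)⟩ : ∃ x ∈ N.subgroupOf (N ⊔ S') ⊓ center ↥(N ⊔ S'), x ≠ 1))
    have hvN : v ∈ N := hv.1
    have hv1' : v ≠ 1 := fun h => hv1 (Subtype.ext h)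
    have hvS : ∀ s ∈ S', s * v = v * s := by
      intro s hs
      have hsT : s ∈ N ⊔ S' := (le_sup_right : S' ≤ N ⊔ S') hs
      have := (Subgroup.mem_center_iff.1 hv.2) ⟨s, hsT⟩
      exact congrArg Subtype.val this
    have hvD : DD r G ≤ centralizer ({v} : Set G) := by
      have h1 := sylow_sup_pResidual S
      have h2 : (S : Subgroup ↥(DD r G)) ≤ (centralizer ({v} : Set G)).subgroupOf (DD r G) := by
        intro s hs
        show (s : G) ∈ centralizer ({v} : Set G)
        rw [Subgroup.mem_centralizer_singleton_iff]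
        exact hvS s ⟨s, hs, rfl⟩
      have h3 : pResidual r ↥(DD r G) ≤ (centralizer ({v} : Set G)).subgroupOf (DD r G) := by
        unfold pResidual
        rw [closure_le]
        intro z hz
        show (z : G) ∈ centralizer ({v} : Set G)
        rw [Subgroup.mem_centralizer_singleton_iff]
        have hz' : Nat.Coprime (orderOf (z : G)) r := by
          rw [Subgroup.orderOf_coe]; exact hz
        exact (Subgroup.mem_centralizer_iff.1 (hD z z.2 hz') v hvN).symm
      have h4 : (⊤ : Subgroup ↥(DD r G)) ≤ (centralizer ({v} : Set G)).subgroupOf (DD r G) := by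
        rw [← h1]; exact sup_le h2 h3
      intro d hd
      exact h4 (show (⟨d, hd⟩ : ↥(DD r G)) ∈ ⊤ from trivial)
    have hW : (N ⊓ centralizer ((DD r G : Subgroup G) : Set G)).Normal := by
      haveI : (centralizer ((DD r G : Subgroup G) : Set G)).Normal := centralizer_normal_of_normal (DD r G)
      exact Subgroup.normal_inf_normal _ _
    have hvW : v ∈ N ⊓ centralizer ((DD r G : Subgroup G) : Set G) := by
      refine Subgroup.mem_inf.2 ⟨hvN, Subgroup.mem_centralizer_iff.2 fun d hd => ?_⟩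
      exact (Subgroup.mem_centralizer_singleton_iff.1 (hvD hd))
    rcases hmin _ hW inf_le_left with h | h
    · rw [h, Subgroup.mem_bot] at hvW
      exact absurd hvW hv1'
    · intro d hd
      rw [Subgroup.mem_centralizer_iff]
      intro n hn
      have hn' : n ∈ N ⊓ centralizer ((DD r G : Subgroup G) : Set G) := by rw [h]; exact hn
      exact (Subgroup.mem_centralizer_iff.1 hn'.2 d hd).symm
  -- scalars
  have hscal : ∀ y : G, ∃ l : ℕ, ∀ n ∈ N, y * n * y⁻¹ = n ^ l := by
    intro y
    letI : CommGroup ↥N := { (inferInstance : Group ↥N) with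
      mul_comm := fun a b => Subtype.ext (hcomm a a.2 b b.2) }
    haveI : Nontrivial ↥N := (Subgroup.nontrivial_iff_ne_bot N).2 hbot
    let τ : ↥N →* ↥N := (MulAut.conjNormal y : ↥N ≃* ↥N).toMonoidHom
    have hτk : ∀ (k : ℕ) (a : ↥N), ((τ^[k] a : ↥N) : G) = y ^ k * a * (y ^ k)⁻¹ := by
      intro k a
      induction k with
      | zero => simp
      | succ k ih =>
        rw [Function.iterate_succ_apply']
        have e : ((τ (τ^[k] a) : ↥N) : G) = y * ((τ^[k] a : ↥N) : G) * y⁻¹ := rfl
        rw [e, ih, pow_succ']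
        group
    have hτ : ∀ a, τ^[r - 1] a = a := by
      intro a
      apply Subtype.ext
      rw [hτk]
      have h1 := hDC _ (pow_mem_DD r y)
      have h2 : (a : G) * y ^ (r - 1) = y ^ (r - 1) * a := Subgroup.mem_centralizer_iff.1 h1 a a.2
      rw [← h2]; group
    obtain ⟨l, v, hv, hτv⟩ := eig_mul (r := r) (fun a => Subtype.ext (by
      show ((a : G)) ^ r = 1
      exact hpow a a.2)) τ hτ
    refine ⟨l, ?_⟩
    let E : Subgroup G :=
      { carrier := {n | n ∈ N ∧ y * n * y⁻¹ = n ^ l}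
        one_mem' := ⟨one_mem _, by simp⟩
        mul_mem' := by
          rintro a b ⟨ha, ha'⟩ ⟨hb, hb'⟩
          refine ⟨mul_mem ha hb, ?_⟩
          have hc : Commute a b := hcomm a ha b hb
          rw [hc.mul_pow, ← ha', ← hb']
          group
        inv_mem' := by
          rintro a ⟨ha, ha'⟩
          refine ⟨inv_mem ha, ?_⟩
          rw [inv_pow, ← ha']
          group }
    have hEn : E.Normal := by
      refine ⟨fun n hn g => ⟨hNn.conj_mem n hn.1 g, ?_⟩⟩
      have hc := hDC _ (comm_mem_DD r y g)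
      have hm : g * n ^ l * g⁻¹ ∈ N := hNn.conj_mem _ (pow_mem hn.1 l) g
      have h1 : (g * n ^ l * g⁻¹) * ⁅y, g⁆ = ⁅y, g⁆ * (g * n ^ l * g⁻¹) :=
        Subgroup.mem_centralizer_iff.1 hc _ hm
      have e1 : y * (g * n * g⁻¹) * y⁻¹ = ⁅y, g⁆ * (g * (y * n * y⁻¹) * g⁻¹) * ⁅y, g⁆⁻¹ := by
        rw [commutatorElement_def]; group
      rw [e1, hn.2, ← h1, conj_pow]
      group
    have hvE : (v : G) ∈ E := by
      refine ⟨v.2, ?_⟩
      have := congrArg Subtype.val hτv
      exact this
    rcases hmin E hEn (fun n hn => hn.1) with h | h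
    · rw [h, Subgroup.mem_bot] at hvE
      exact absurd (Subtype.ext hvE) hv
    · intro n hn
      have hn' : n ∈ E := by rw [h]; exact hn
      exact hn'.2
  -- cyclic
  obtain ⟨v, hv, hv1⟩ : ∃ x ∈ N, x ≠ 1 :=
    (Subgroup.ne_bot_iff_exists_ne_one.1 hbot |> fun ⟨x, hx⟩ => ⟨x.1, x.2, fun h => hx (Subtype.ext h)⟩)
  have hzn : (zpowers v).Normal := by
    refine ⟨fun n hn g => ?_⟩
    obtain ⟨k, rfl⟩ := mem_zpowers_iff.1 hn
    obtain ⟨l, hl⟩ := hscal g
    have e : g * v ^ k * g⁻¹ = (g * v * g⁻¹) ^ k := conj_zpow.symm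
    rw [e, hl v hv]
    exact zpow_mem (pow_mem (mem_zpowers v) l) k
  rcases hmin _ hzn (zpowers_le.2 hv) with h | h
  · rw [Subgroup.zpowers_eq_bot] at h
    exact absurd h hv1
  · rw [← h, Nat.card_zpowers]
    exact orderOf_eq_prime (hpow v hv) hv1

end Cfsg.Agent.Lib.LHSub
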