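import Mathlib
import Cfsg.Agent.Lib.LHSub8
import Cfsg.Agent.Lib.H1Quat
import Cfsg.Prelude.Def_Transfer
import Cfsg.Prelude.Def_LocalEven
import Cfsg.Prelude.Def_SolvableStructure

/-! Chains with cyclic factors. -/

set_option autoImplicit false
set_option linter.unusedSectionVars false
set_option linter.unusedVariables false
set_option linter.style.haveILetI false

namespace Cfsg.Agent.Lib.LHSub

open Subgroup Cfsg Cfsg.Agent.Lib.PGrp Cfsg.Agent.Lib.H1Frat Cfsg.Agent.Lib.PNilp
open scoped commutatorElement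

/-- Normal chains with cyclic factors. -/
inductive SC (G : Type*) [Group G] : Subgroup G → Prop
  | bot : SC G ⊥
  | step (N : Subgroup G) (g : G) (hN : SC G N) (hn : (N ⊔ zpowers g).Normal) : SC G (N ⊔ zpowers g)

theorem sc_normal {G : Type*} [Group G] {N : Subgroup G} (h : SC G N) : N.Normal := by
  cases h with
  | bot => infer_instance
  | step N g hN hn => exact hn

theorem sc_chain {G : Type*} [Group G] {N : Subgroup G} (h : SC G N) :
    ∃ (n : ℕ) (H : Fin (n + 1) → Subgroup G), H 0 = ⊥ ∧ H (Fin.last n) = N ∧ (∀ i, (H i).Normal) ∧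
      ∀ i : Fin n, ∃ g : G, H i.succ = H i.castSucc ⊔ zpowers g := by
  induction h with
  | bot =>
    refine ⟨0, fun _ => ⊥, rfl, rfl, fun _ => inferInstance, fun i => i.elim0⟩
  | step N g hN hn ih =>
    obtain ⟨n, H, h0, hl, hnorm, hstep⟩ := ih
    refine ⟨n + 1, Fin.snoc H (N ⊔ zpowers g), ?_, ?_, ?_, ?_⟩
    · have : (0 : Fin (n + 1 + 1)) = Fin.castSucc (0 : Fin (n + 1)) := rfl
      rw [this, Fin.snoc_castSucc, h0]
    · rw [Fin.snoc_last]
    · intro i
      refine Fin.lastCases ?_ (fun j => ?_) i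
      · rw [Fin.snoc_last]; exact hn
      · rw [Fin.snoc_castSucc]; exact hnorm j
    · intro i
      refine Fin.lastCases ?_ (fun j => ?_) i
      · refine ⟨g, ?_⟩
        have e1 : (Fin.last n).succ = Fin.last (n + 1) := rfl
        rw [e1, Fin.snoc_last, Fin.snoc_castSucc, hl]
      · obtain ⟨g', hg'⟩ := hstep j
        refine ⟨g', ?_⟩
        have e1 : (Fin.castSucc j).succ = Fin.castSucc j.succ := rfl
        rw [e1, Fin.snoc_castSucc, Fin.snoc_castSucc, hg']

theorem sc_super {G : Type*} [Group G] (h : SC G ⊤) : IsSupersolvable G := by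
  obtain ⟨n, H, h0, hl, hnorm, hstep⟩ := sc_chain h
  exact ⟨n, H, h0, hl, hnorm, hstep⟩

/-- Surjective images of supersolvable groups are supersolvable. -/
theorem super_of_surj {G H : Type*} [Group G] [Group H] (f : G →* H) (hf : Function.Surjective f)
    (h : IsSupersolvable G) : IsSupersolvable H := by
  obtain ⟨n, K, h0, hl, hnorm, hstep⟩ := h
  refine ⟨n, fun i => (K i).map f, ?_, ?_, ?_, ?_⟩
  · simp only; rw [h0, Subgroup.map_bot]
  · simp only; rw [hl, ← MonoidHom.range_eq_map, MonoidHom.range_eq_top.2 hf]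
  · intro i
    haveI := hnorm i
    exact Subgroup.Normal.map inferInstance f hf
  · intro i
    obtain ⟨g, hg⟩ := hstep i
    refine ⟨f g, ?_⟩
    simp only
    rw [hg, Subgroup.map_sup, MonoidHom.map_zpowers]

/-- Lifting chains through a quotient. -/
theorem sc_top_of_quot {G : Type*} [Group G] (R : Subgroup G) [R.Normal] (hR : SC G R)
    (h : IsSupersolvable (G ⧸ R)) : SC G ⊤ := by
  obtain ⟨n, H, h0, hl, hnorm, hstep⟩ := h
  let π := QuotientGroup.mk' R
  have hsurj : Function.Surjective π := QuotientGroup.mk'_surjective R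
  have key : ∀ i : Fin (n + 1), SC G ((H i).comap π) := by
    intro i
    induction i using Fin.induction with
    | zero =>
      rw [h0]
      have : (⊥ : Subgroup (G ⧸ R)).comap π = R := by
        ext z
        rw [Subgroup.mem_comap, Subgroup.mem_bot]
        exact QuotientGroup.eq_one_iff z
      rw [this]; exact hR
    | succ i ih =>
      obtain ⟨g, hg⟩ := hstep i
      obtain ⟨g', rfl⟩ := hsurj g
      have e : (H i.succ).comap π = (H i.castSucc).comap π ⊔ zpowers g' := by
        rw [hg]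
        have h1 : π.ker ≤ (H i.castSucc).comap π ⊔ zpowers g' := by
          refine le_sup_of_le_left fun z hz => ?_
          have hz' : π z = 1 := hz
          show π z ∈ H i.castSucc
          rw [hz']; exact one_mem _
        have h2 := Subgroup.comap_map_eq_self h1
        rw [← h2, Subgroup.map_sup, Subgroup.map_comap_eq_self_of_surjective hsurj, MonoidHom.map_zpowers]
      rw [e]
      refine SC.step _ _ ih ?_
      rw [← e]
      haveI := hnorm i.succ
      exact Subgroup.Normal.comap inferInstance π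
  have := key (Fin.last n)
  rw [hl, Subgroup.comap_top] at this
  exact this

variable {G : Type*} [Group G] [Finite G]

/-- An `r'`-element of the residual of a quotient lifts to such an element. -/
theorem lift_rprime {r : ℕ} [hr : Fact r.Prime] {Γ : Type*} [Group Γ] [Finite Γ] (π : G →* Γ)
    (hπ : Function.Surjective π) {y : Γ} (hy : y ∈ DD r Γ) (hc : Nat.Coprime (orderOf y) r) :
    ∃ z ∈ DD r G, Nat.Coprime (orderOf z) r ∧ π z = y := by
  have h1 : DD r Γ ≤ (DD r G).map π := by
    unfold DD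
    rw [closure_le]
    rintro _ (⟨a, b, rfl⟩ | ⟨g, rfl⟩)
    · obtain ⟨a', rfl⟩ := hπ a
      obtain ⟨b', rfl⟩ := hπ b
      exact ⟨⁅a', b'⁆, comm_mem_DD r a' b', by rw [map_commutatorElement]⟩
    · obtain ⟨g', rfl⟩ := hπ g
      exact ⟨g' ^ (r - 1), pow_mem_DD r g', by rw [map_pow]⟩
  obtain ⟨d, hd, rfl⟩ := h1 hy
  obtain ⟨a, m, hm, hdm⟩ := Nat.exists_eq_pow_mul_and_not_dvd (orderOf_pos d).ne' r hr.out.ne_one
  have hord : orderOf (d ^ (r ^ a)) = m := by
    have h2 : m ∣ orderOf d := ⟨r ^ a, by rw [hdm, mul_comm]⟩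
    have h3 := orderOf_pow_orderOf_div (orderOf_pos d).ne' h2
    have h4 : orderOf d / m = r ^ a := by
      rw [hdm]
      exact Nat.mul_div_cancel _ (Nat.pos_of_ne_zero (fun h => hm (h ▸ dvd_zero r)))
    rwa [h4] at h3
  have hcm : Nat.Coprime m r := ((Nat.Prime.coprime_iff_not_dvd hr.out).2 hm).symm
  have hmem : π d ∈ zpowers ((π d) ^ (r ^ a)) :=
    Cfsg.Agent.Lib.H1Quat.mem_zpowers_pow_of_coprime (Nat.Coprime.pow_left a hc.symm)
  obtain ⟨c, hcc⟩ := mem_zpowers_iff.1 hmem
  refine ⟨(d ^ (r ^ a)) ^ c, zpow_mem (pow_mem hd _) c, ?_, ?_⟩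
  · have h5 : orderOf ((d ^ (r ^ a)) ^ c) ∣ m := by
      rw [← hord]; exact orderOf_dvd_of_pow_eq_one (by
        rw [← zpow_natCast, ← zpow_mul, mul_comm, zpow_mul, zpow_natCast, pow_orderOf_eq_one, one_zpow])
    exact Nat.Coprime.coprime_dvd_left h5 hcm
  · rw [map_zpow, map_pow]; exact hcc

/-- Chain through normal `r`-subgroups centralized by the `r'`-elements of the residual. -/
theorem chain_of_cent {r : ℕ} [hr : Fact r.Prime] (R : Subgroup G) (hR : IsPGroup r R)
    (hD : ∀ y ∈ DD r G, Nat.Coprime (orderOf y) r → y ∈ centralizer (R : Set G)) :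
    ∀ M : Subgroup G, M.Normal → M ≤ R → SC G M := by
  intro M
  induction' hn : Nat.card M using Nat.strong_induction_on with n ih generalizing M
  intro hMn hMR
  by_cases hbot : M = ⊥
  · rw [hbot]; exact SC.bot
  have hMp : IsPGroup r M := hR.to_le hMR
  obtain ⟨U, -, hUM, hUne, hUX, hUmax⟩ := exists_max_inv (⊤ : Subgroup G) (bot_le : ⊥ ≤ M) (Ne.symm hbot)
    (by rw [normalizer_eq_top (⊥ : Subgroup G)])
  haveI hUn : U.Normal := Subgroup.normalizer_eq_top_iff.1 (top_le_iff.1 hUX)
  have hSCU : SC G U := ih (Nat.card U) (hn ▸ Cfsg.Agent.Lib.PNilp.card_lt_of_lt' (lt_of_le_of_ne hUM hUne)) U rfl hUn (hUM.trans hMR)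
  let π := QuotientGroup.mk' U
  have hsurj : Function.Surjective π := QuotientGroup.mk'_surjective U
  haveI hMn' : M.Normal := hMn
  obtain ⟨x, hxM, hxU⟩ : ∃ x ∈ M, x ∉ U := SetLike.not_le_iff_exists.1 (fun h => hUne (le_antisymm hUM h))
  have hkerU : π.ker = U := QuotientGroup.ker_mk' U
  have hπx : π x ≠ 1 := by
    intro h
    apply hxU
    have : x ∈ π.ker := h
    rwa [hkerU] at this
  have hNn : (M.map π).Normal := Subgroup.Normal.map inferInstance π hsurj
  have hNp : IsPGroup r (M.map π) := hMp.map π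
  have hNbot : M.map π ≠ ⊥ := by
    intro h
    have : π x ∈ M.map π := ⟨x, hxM, rfl⟩
    rw [h, Subgroup.mem_bot] at this
    exact hπx this
  have hmin : ∀ W : Subgroup (G ⧸ U), W.Normal → W ≤ M.map π → W = ⊥ ∨ W = M.map π := by
    intro W hWn hWM
    have h1 : W.comap π ≤ M := by
      intro z hz
      obtain ⟨m, hm, hmz⟩ := hWM hz
      have h2 : m⁻¹ * z ∈ π.ker := by
        show π (m⁻¹ * z) = 1
        rw [map_mul, map_inv, hmz, inv_mul_cancel]
      rw [hkerU] at h2
      have e : z = m * (m⁻¹ * z) := by group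
      rw [e]
      exact mul_mem hm (hUM h2)
    have h2 : U ≤ W.comap π := by
      intro u hu
      have : u ∈ π.ker := by rwa [hkerU]
      show π u ∈ W
      rw [this]; exact one_mem _
    by_cases h3 : W.comap π = M
    · right
      rw [← h3, Subgroup.map_comap_eq_self_of_surjective hsurj]
    · left
      have hWn' : (W.comap π).Normal := Subgroup.Normal.comap hWn π
      have h4 := hUmax _ h2 h1 h3 (by rw [Subgroup.normalizer_eq_top_iff.2 hWn'])
      rw [eq_bot_iff]
      intro w hw
      obtain ⟨g, rfl⟩ := hsurj w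
      have h5 : g ∈ W.comap π := hw
      rw [h4] at h5
      have h6 : g ∈ π.ker := by rwa [hkerU]
      exact h6
  have hD' : ∀ y ∈ DD r (G ⧸ U), Nat.Coprime (orderOf y) r → y ∈ centralizer ((M.map π : Subgroup (G ⧸ U)) : Set (G ⧸ U)) := by
    intro y hy hc
    obtain ⟨z, hz, hzc, rfl⟩ := lift_rprime π hsurj hy hc
    rw [Subgroup.mem_centralizer_iff]
    rintro _ ⟨m, hm, rfl⟩
    have := Subgroup.mem_centralizer_iff.1 (hD z hz hzc) m (hMR hm)
    show π m * π z = π z * π m
    rw [← map_mul, ← map_mul, this]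
  have hcard := min_normal_card (M.map π) hNp hNbot hmin hD'
  -- `M = U ⊔ ⟨x⟩`
  have hxmem : π x ∈ M.map π := Subgroup.mem_map_of_mem π hxM
  have hzp : zpowers (π x) = M.map π := by
    apply Subgroup.eq_of_le_of_card_ge (zpowers_le.2 hxmem)
    rw [hcard, Nat.card_zpowers]
    have h1 : orderOf (π x) ∣ r := by
      rw [← hcard]
      exact Subgroup.orderOf_dvd_natCard (M.map π) hxmem
    rcases (Nat.dvd_prime hr.out).1 h1 with h | h
    · exact absurd (orderOf_eq_one_iff.1 h) hπx
    · exact h.ge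
  have hMeq : M = U ⊔ zpowers x := by
    apply le_antisymm
    · intro m hm
      have h1 : π m ∈ zpowers (π x) := by rw [hzp]; exact Subgroup.mem_map_of_mem π hm
      obtain ⟨k, hk⟩ := mem_zpowers_iff.1 h1
      have h2 : (x ^ k)⁻¹ * m ∈ π.ker := by
        show π ((x ^ k)⁻¹ * m) = 1
        rw [map_mul, map_inv, map_zpow, hk, inv_mul_cancel]
      rw [hkerU] at h2
      have e2 : m = x ^ k * ((x ^ k)⁻¹ * m) := by group
      rw [e2]
      exact mul_mem (mem_sup_right (zpow_mem (mem_zpowers x) k)) (mem_sup_left h2)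
    · exact sup_le hUM (zpowers_le.2 hxM)
  rw [hMeq]
  refine SC.step U x hSCU ?_
  rw [← hMeq]; exact hMn

end Cfsg.Agent.Lib.LHSub
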