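import Mathlib
import Cfsg.Agent.Lib.LHSub9
import Cfsg.Agent.Lib.LHSub6
import Cfsg.Agent.Lib.H1Core
import Cfsg.Agent.Lib.PQuad2

/-! Normal complements for the smallest prime; Sylow towers. -/

set_option autoImplicit false
set_option linter.unusedSectionVars false
set_option linter.unusedVariables false
set_option linter.style.haveILetI false

namespace Cfsg.Agent.Lib.LHSub

open Subgroup Cfsg Cfsg.Agent.Lib.PGrp Cfsg.Agent.Lib.H1Frat Cfsg.Agent.Lib.PNilp
open scoped commutatorElement

variable {G : Type*} [Group G] [Finite G]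

theorem npc_main {p : ℕ} [hp : Fact p.Prime] (hmin : ∀ q : ℕ, q.Prime → q ∣ Nat.card G → p ≤ q) (P : Sylow p G)
    (h : IsCyclic ↥(P : Subgroup G) ∨ ∃ D : Subgroup G, D ≤ (P : Subgroup G) ∧ 1 < Nat.card D ∧ Nat.card D < Nat.card (P : Subgroup G) ∧
      ∀ E : Subgroup G, E ≤ (P : Subgroup G) → (Nat.card E = Nat.card D ∨ (Nat.card D = 2 ∧ Nat.card E = 4)) → HSub E) :
    Cfsg.HasNormalPComplement p G := by
  refine npc_of_frat_control P fun R hRP y hy hc w hw => ?_
  have hPp : IsPGroup p (P : Subgroup G) := P.isPGroup'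
  have hc2 : Nat.Coprime (orderOf y) (p - 1) := coprime_pred hmin
  have hone : y ∈ Subgroup.centralizer (R : Set G) → w⁻¹ * (y * w * y⁻¹) ∈ phi (P : Subgroup G) := by
    intro hcent
    have e : w * y = y * w := Subgroup.mem_centralizer_iff.1 hcent w hw
    have e2 : w⁻¹ * (y * w * y⁻¹) = 1 := by
      rw [← e]; group
    rw [e2]; exact one_mem _
  rcases h with hcyc | ⟨D, hDP, h1, h2, hD⟩
  · exact hone (cyc_step hPp hcyc hRP hy hc hc2)
  · obtain ⟨d, hd⟩ := IsPGroup.iff_card.1 (hPp.to_le hDP)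
    have hd1 : 1 ≤ d := by
      rw [hd] at h1
      by_contra hcon
      have : d = 0 := by omega
      rw [this] at h1
      simp at h1
    have hH : HH (P : Subgroup G) (p ^ d) := by
      intro E hEP hE
      refine hD E hEP ?_
      rw [hd]
      exact hE
    by_cases hn : p ^ d < Nat.card R
    · exact hone (big_cent hPp hH ⟨d, hd1, rfl⟩ hRP hy hc hc2 hn)
    · exact small_fr hPp hH (by rw [← hd]; exact h2) hRP (not_lt.1 hn) hy hc2 w hw

/-- The hypothesis of the supersolvability criterion, for the Sylow subgroups of `K`. -/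
def Good (K : Subgroup G) : Prop :=
  ∀ (p : ℕ), p.Prime → ∀ P : Subgroup G, P ≤ K → IsPGroup p P → ¬ p ∣ P.relIndex K → ¬ IsCyclic ↥P →
    ∃ D : Subgroup G, D ≤ P ∧ 1 < Nat.card D ∧ Nat.card D < Nat.card P ∧
      ∀ F : Subgroup G, F ≤ P → (Nat.card F = Nat.card D ∨ (Nat.card D = 2 ∧ Nat.card F = 4)) → HSub F

theorem npc_good {K : Subgroup G} (hK : Good K) {p : ℕ} [hp : Fact p.Prime]
    (hmin : ∀ q : ℕ, q.Prime → q ∣ Nat.card K → p ≤ q) : HasNormalPComplement p ↥K := by
  obtain ⟨P₀⟩ : Nonempty (Sylow p ↥K) := inferInstance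
  refine npc_main hmin P₀ ?_
  by_cases hcyc : IsCyclic ↥(P₀ : Subgroup ↥K)
  · exact Or.inl hcyc
  right
  let P' : Subgroup G := (P₀ : Subgroup ↥K).map K.subtype
  have hP'K : P' ≤ K := map_subtype_le _
  have hmem : ∀ z : ↥K, (z : G) ∈ P' ↔ z ∈ (P₀ : Subgroup ↥K) := by
    intro z
    constructor
    · rintro ⟨a, ha, hz⟩
      have : a = z := Subtype.ext hz
      rwa [← this]
    · intro hz
      exact ⟨z, hz, rfl⟩
  have hP'sub : P'.subgroupOf K = (P₀ : Subgroup ↥K) := by
    ext z
    rw [Subgroup.mem_subgroupOf]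
    exact hmem z
  have hP'p : IsPGroup p P' := P₀.isPGroup'.map _
  have hind : ¬ p ∣ P'.relIndex K := by
    rw [Subgroup.relIndex, hP'sub]
    exact P₀.not_dvd_index
  have hcard : Nat.card ↥(P₀ : Subgroup ↥K) = Nat.card P' := (Subgroup.card_map_of_injective K.subtype_injective).symm
  have hncyc : ¬ IsCyclic ↥P' := by
    intro h
    apply hcyc
    let e : ↥(P₀ : Subgroup ↥K) ≃* ↥P' := (P₀ : Subgroup ↥K).equivMapOfInjective K.subtype K.subtype_injective
    exact isCyclic_of_surjective e.symm e.symm.surjective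
  obtain ⟨D, hDP, h1, h2, hD⟩ := hK p hp.out P' hP'K hP'p hind hncyc
  have hcardsub : ∀ A : Subgroup G, A ≤ K → Nat.card ↥(A.subgroupOf K) = Nat.card A := fun A hA =>
    Nat.card_congr (Subgroup.subgroupOfEquivOfLe hA).toEquiv
  refine ⟨D.subgroupOf K, ?_, ?_, ?_, ?_⟩
  · intro z hz
    exact (hmem z).1 (hDP hz)
  · rw [hcardsub D (hDP.trans hP'K)]; exact h1
  · rw [hcardsub D (hDP.trans hP'K), hcard]; exact h2
  · intro E hEP hE g z hz
    rw [hcardsub D (hDP.trans hP'K)] at hE
    let E' : Subgroup G := E.map K.subtype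
    have hE'card : Nat.card E' = Nat.card E := Subgroup.card_map_of_injective K.subtype_injective
    have hE'P : E' ≤ P' := Subgroup.map_mono hEP
    have hS := hD E' hE'P (by rw [hE'card]; exact hE)
    obtain ⟨⟨e, he, hez⟩, hzN⟩ := hz
    have h3 : (z : G) ∈ E' := by
      refine hS g ⟨?_, ?_⟩
      · refine ⟨(e : G), ⟨e, he, rfl⟩, ?_⟩
        have := congrArg Subtype.val hez
        exact this
      · apply Cfsg.Agent.Lib.PGlaub.mem_normalizer_of_conj_mem
        rintro _ ⟨k, hk, rfl⟩
        exact ⟨z * k * z⁻¹, (mem_normalizer_iff.1 hzN k).1 hk, rfl⟩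
    obtain ⟨a, ha, haz⟩ := h3
    have : a = z := Subtype.ext haz
    rwa [← this]

/-- A Sylow tower: a nontrivial Sylow subgroup containing all elements of its prime power order. -/
theorem tower : ∀ (n : ℕ) (K : Subgroup G), Nat.card K = n → Good K → K ≠ ⊥ →
    ∃ (r : ℕ) (R : Subgroup G), r.Prime ∧ R ≤ K ∧ IsPGroup r R ∧ R ≠ ⊥ ∧ ¬ r ∣ R.relIndex K ∧
      ∀ x ∈ K, (∃ a : ℕ, orderOf x = r ^ a) → x ∈ R := by
  intro n
  induction n using Nat.strong_induction_on with
  | _ n ih =>
    intro K hn hK hbot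
    have hcne : Nat.card K ≠ 1 := by
      intro h
      exact hbot (Subgroup.card_eq_one.1 h)
    let p := Nat.minFac (Nat.card K)
    have hpp : p.Prime := Nat.minFac_prime hcne
    haveI hp : Fact p.Prime := ⟨hpp⟩
    have hpd : p ∣ Nat.card K := Nat.minFac_dvd _
    have hmin : ∀ q : ℕ, q.Prime → q ∣ Nat.card K → p ≤ q := fun q hq hd => Nat.minFac_le_of_dvd hq.two_le hd
    obtain ⟨L₀, hL₀n, hL₀c, hL₀q⟩ := hasNormalPComplement_iff.1 (npc_good hK hmin)
    let L : Subgroup G := L₀.map K.subtype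
    have hLK : L ≤ K := map_subtype_le _
    have hLcard : Nat.card L = Nat.card L₀ := Subgroup.card_map_of_injective K.subtype_injective
    have hLc : Nat.Coprime (Nat.card L) p := by rw [hLcard]; exact hL₀c
    have hLsub : L.subgroupOf K = L₀ := by
      ext z
      rw [Subgroup.mem_subgroupOf]
      constructor
      · rintro ⟨a, ha, hz⟩
        have : a = z := Subtype.ext hz
        rwa [← this]
      · intro hz
        exact ⟨z, hz, rfl⟩
    obtain ⟨k, hk⟩ := IsPGroup.iff_card.1 hL₀q
    have hLidx : L.relIndex K = p ^ k := by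
      rw [Subgroup.relIndex, hLsub]; exact hk
    have hprime : ∀ x ∈ K, Nat.Coprime (orderOf x) p → x ∈ L := by
      intro x hx hc
      have h1 : (⟨x, hx⟩ : ↥K) ∈ L₀ := mem_of_coprime_of_isPGroup_quotient L₀ hL₀q _ (by
        rw [Subgroup.orderOf_mk]; exact hc)
      exact ⟨⟨x, hx⟩, h1, rfl⟩
    by_cases hLbot : L = ⊥
    · refine ⟨p, K, hpp, le_rfl, ?_, hbot, ?_, fun x hx _ => hx⟩
      · have h1 := card_rel hLK
        rw [hLbot, Subgroup.card_bot, one_mul] at h1
        have h2 : (⊥ : Subgroup G).relIndex K = p ^ k := by rw [← hLbot]; exact hLidx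
        rw [h2] at h1
        exact IsPGroup.of_card h1.symm
      · rw [Subgroup.relIndex_self]
        exact hpp.one_lt.ne' ∘ Nat.dvd_one.1
    · have hLlt : Nat.card L < n := by
        rw [← hn]
        apply Cfsg.Agent.Lib.PNilp.card_lt_of_lt' (lt_of_le_of_ne hLK _)
        intro h
        rw [h] at hLc
        exact (Nat.Prime.coprime_iff_not_dvd hpp).1 hLc.symm hpd
      have hLgood : Good L := by
        intro q hq P hPL hPq hPnd hPc
        have hqp : q ≠ p := by
          rintro rfl
          apply hPc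
          have h1 : Nat.card P ∣ Nat.card L := Subgroup.card_dvd_of_le hPL
          have h2 : Nat.card P = 1 := by
            obtain ⟨j, hj⟩ := IsPGroup.iff_card.1 hPq
            rw [hj] at h1 ⊢
            rcases j with _ | j
            · rfl
            · exfalso
              have h3 : p ∣ Nat.card L := (dvd_pow_self p (Nat.succ_ne_zero j)).trans h1
              exact (Nat.Prime.coprime_iff_not_dvd hq).1 hLc.symm h3
          have : P = ⊥ := Subgroup.card_eq_one.1 h2
          rw [this]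
          infer_instance
        have hnd : ¬ q ∣ P.relIndex K := by
          rw [← Subgroup.relIndex_mul_relIndex P L K hPL hLK, hLidx]
          intro h
          rcases (Nat.Prime.dvd_mul hq).1 h with h | h
          · exact hPnd h
          · exact hqp ((Nat.prime_dvd_prime_iff_eq hq hpp).1 (hq.dvd_of_dvd_pow h))
        exact hK q hq P (hPL.trans hLK) hPq hnd hPc
      obtain ⟨r, R, hr, hRL, hRp, hRbot, hRnd, hRall⟩ := ih _ hLlt L rfl hLgood hLbot
      have hrp : r ≠ p := by
        rintro rfl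
        have h1 : p ∣ Nat.card R := by
          obtain ⟨j, hj⟩ := IsPGroup.iff_card.1 hRp
          rcases j with _ | j
          · rw [pow_zero] at hj
            exact absurd (Subgroup.card_eq_one.1 hj) hRbot
          · rw [hj]; exact dvd_pow_self p (Nat.succ_ne_zero j)
        exact (Nat.Prime.coprime_iff_not_dvd hr).1 hLc.symm (h1.trans (Subgroup.card_dvd_of_le hRL))
      refine ⟨r, R, hr, hRL.trans hLK, hRp, hRbot, ?_, ?_⟩
      · rw [← Subgroup.relIndex_mul_relIndex R L K hRL hLK, hLidx]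
        intro h
        rcases (Nat.Prime.dvd_mul hr).1 h with h | h
        · exact hRnd h
        · exact hrp ((Nat.prime_dvd_prime_iff_eq hr hpp).1 (hr.dvd_of_dvd_pow h))
      · rintro x hx ⟨a, ha⟩
        refine hRall x (hprime x hx ?_) ⟨a, ha⟩
        rw [ha]
        exact Nat.Coprime.pow_left a ((Nat.coprime_primes hr hpp).2 hrp)

end Cfsg.Agent.Lib.LHSub
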