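import Mathlib
import Cfsg.Agent.Lib.LHSub10

/-! Passing the hypothesis to a quotient by a normal Sylow subgroup. -/

set_option autoImplicit false
set_option linter.unusedSectionVars false
set_option linter.unusedVariables false
set_option linter.style.haveILetI false

namespace Cfsg.Agent.Lib.LHSub

open Subgroup Cfsg Cfsg.Agent.Lib.PGrp Cfsg.Agent.Lib.H1Frat Cfsg.Agent.Lib.PNilp
open scoped commutatorElement

variable {G : Type*} [Group G] [Finite G]

theorem eq_sylow_of_index {X : Type*} [Group X] [Finite X] {q : ℕ} [hq : Fact q.Prime] (S : Sylow q X)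
    {T : Subgroup X} (hT : T ≤ (S : Subgroup X)) (h : ¬ q ∣ T.index) : T = S := by
  have h1 := Subgroup.relIndex_mul_index hT
  have h2 : T.relIndex (S : Subgroup X) ∣ Nat.card ↥(S : Subgroup X) := Subgroup.relIndex_dvd_card _ _
  obtain ⟨a, ha⟩ := IsPGroup.iff_card.1 S.isPGroup'
  rw [ha] at h2
  obtain ⟨j, -, hj⟩ := (Nat.dvd_prime_pow hq.out).1 h2
  have h3 : T.relIndex (S : Subgroup X) = 1 := by
    rw [hj] at h1 ⊢
    rcases j with _ | j
    · rfl
    · exfalso
      apply h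
      rw [← h1]
      exact Dvd.dvd.mul_right (dvd_pow_self q (Nat.succ_ne_zero j)) _
  exact le_antisymm hT (Subgroup.relIndex_eq_one.1 h3)

theorem gen_conj {q r : ℕ} [hq : Fact q.Prime] [hr : Fact r.Prime] (hqr : q ≠ r) (R : Subgroup G) [hRn : R.Normal]
    (hR : IsPGroup r R) (Y H : Subgroup G) (hH : IsPGroup q H) (hle : H ≤ Y ⊔ R) :
    ∃ s ∈ R, ∀ h ∈ H, s * h * s⁻¹ ∈ Y := by
  let L : Subgroup G := Y ⊔ R
  obtain ⟨T⟩ : Nonempty (Sylow q ↥Y) := inferInstance
  let T' : Subgroup G := (T : Subgroup ↥Y).map Y.subtype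
  have hT'Y : T' ≤ Y := map_subtype_le _
  have hT'q : IsPGroup q T' := T.isPGroup'.map _
  have hYL : Y ≤ L := le_sup_left
  have hT₁q : IsPGroup q ↥(T'.subgroupOf L) := hT'q.comap_subtype
  have hT'sub : T'.subgroupOf Y = (T : Subgroup ↥Y) := by
    ext z
    rw [Subgroup.mem_subgroupOf]
    constructor
    · rintro ⟨a, ha, hz⟩
      have : a = z := Subtype.ext hz
      rwa [← this]
    · intro hz
      exact ⟨z, hz, rfl⟩
  have hidx : ¬ q ∣ (T'.subgroupOf L).index := by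
    show ¬ q ∣ T'.relIndex L
    rw [← Subgroup.relIndex_mul_relIndex T' Y L hT'Y hYL]
    intro h
    rcases (Nat.Prime.dvd_mul hq.out).1 h with h | h
    · rw [Subgroup.relIndex, hT'sub] at h
      exact T.not_dvd_index h
    · have h1 := Cfsg.Agent.Lib.PQuad.card_sup_mul_inf_of_normalizes Y R (by
        rw [normalizer_eq_top R]; exact le_top)
      have h2 := card_rel hYL
      have h3 : Y.relIndex L * Nat.card ↥(Y ⊓ R) = Nat.card R := by
        have hpos : 0 < Nat.card Y := Nat.card_pos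
        apply Nat.eq_of_mul_eq_mul_left hpos
        rw [← mul_assoc, h2]
        exact h1
      have h4 : q ∣ Nat.card R := by rw [← h3]; exact Dvd.dvd.mul_right h _
      obtain ⟨a, ha⟩ := IsPGroup.iff_card.1 hR
      rw [ha] at h4
      exact hqr ((Nat.prime_dvd_prime_iff_eq hq.out hr.out).1 (hq.out.dvd_of_dvd_pow h4))
  obtain ⟨S₁, hS₁⟩ := hT₁q.exists_le_sylow
  have hS₁eq := eq_sylow_of_index S₁ hS₁ hidx
  have hH₁q : IsPGroup q ↥(H.subgroupOf L) := hH.comap_subtype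
  obtain ⟨S₂, hS₂⟩ := hH₁q.exists_le_sylow
  obtain ⟨g, hg⟩ := MulAction.exists_smul_eq ↥L S₁ S₂
  obtain ⟨y, hy, n, hn, hyn⟩ := Subgroup.mem_sup_of_normal_right.1 g.2
  refine ⟨(y * n * y⁻¹)⁻¹, inv_mem (hRn.conj_mem n hn y), fun h hh => ?_⟩
  have hhL : (⟨h, hle hh⟩ : ↥L) ∈ S₂ := hS₂ hh
  rw [← hg] at hhL
  have hhL2 := Cfsg.Agent.Lib.H1Core.mem_sylow_smul.1 (show (⟨h, hle hh⟩ : ↥L) ∈ ((g • S₁ : Sylow q ↥L) : Subgroup ↥L) from hhL)
  rw [← hS₁eq] at hhL2
  have h5 : ((g : G))⁻¹ * h * g ∈ T' := hhL2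
  have h6 := hT'Y h5
  rw [← hyn] at h6
  have e : (y * n * y⁻¹)⁻¹ * h * ((y * n * y⁻¹)⁻¹)⁻¹ = y * ((y * n)⁻¹ * h * (y * n)) * y⁻¹ := by group
  rw [e]
  exact mul_mem (mul_mem hy h6) (inv_mem hy)

theorem hsub_quot {q r : ℕ} [hq : Fact q.Prime] [hr : Fact r.Prime] (hqr : q ≠ r) (R : Subgroup G) [hRn : R.Normal]
    (hR : IsPGroup r R) (F : Subgroup G) (hF : IsPGroup q F) (hS : HSub F) :
    HSub (F.map (QuotientGroup.mk' R)) := by
  let π := QuotientGroup.mk' R
  have hsurj : Function.Surjective π := QuotientGroup.mk'_surjective R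
  have hker : π.ker = R := QuotientGroup.ker_mk' R
  intro gb xb hx
  obtain ⟨⟨_, ⟨f, hf, rfl⟩, rfl⟩, hxN⟩ := hx
  obtain ⟨g, rfl⟩ := hsurj gb
  -- the lift of the element
  let x : G := g * f * g⁻¹
  have hπx : π x = (MulAut.conj (π g)).toMonoidHom (π f) := by
    simp only [x, map_mul, map_inv, MulEquiv.toMonoidHom_eq_coe, MonoidHom.coe_coe, MulAut.conj_apply]
  rw [← hπx] at hxN ⊢
  have hcomap : (F.map π).comap π = F ⊔ R := by
    rw [Subgroup.comap_map_eq, hker]
  -- `x` normalizes `F ⊔ R`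
  have hxL : ∀ k ∈ F ⊔ R, x * k * x⁻¹ ∈ F ⊔ R := by
    intro k hk
    rw [← hcomap] at hk ⊢
    have h1 : π k ∈ F.map π := hk
    have h2 := (mem_normalizer_iff.1 hxN _).1 h1
    show π (x * k * x⁻¹) ∈ F.map π
    rw [map_mul, map_mul, map_inv]
    exact h2
  -- first conjugation
  have hFcq : IsPGroup q ↥(F.map (MulAut.conj x).toMonoidHom) := hF.map _
  have hFcL : F.map (MulAut.conj x).toMonoidHom ≤ F ⊔ R := by
    rintro _ ⟨k, hk, rfl⟩
    exact hxL k (mem_sup_left hk)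
  obtain ⟨s, hs, hsc⟩ := gen_conj hqr R hR F _ hFcq hFcL
  have hsx : s * x ∈ normalizer (F : Set G) := by
    apply Cfsg.Agent.Lib.PGlaub.mem_normalizer_of_conj_mem
    intro k hk
    have := hsc (x * k * x⁻¹) ⟨k, hk, rfl⟩
    have e : s * x * k * (s * x)⁻¹ = s * (x * k * x⁻¹) * s⁻¹ := by group
    rw [e]; exact this
  have hxN2 : x ∈ normalizer (F : Set G) ⊔ R := by
    have e : x = s⁻¹ * (s * x) := by group
    rw [e]
    have e2 : s⁻¹ * (s * x) = (s * x) * ((s * x)⁻¹ * s⁻¹ * (s * x)) := by group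
    rw [e2]
    exact mul_mem (mem_sup_left hsx) (mem_sup_right (by
      have := hRn.conj_mem s⁻¹ (inv_mem hs) (s * x)⁻¹
      simpa using this))
  -- the element is a `q`-element
  have hxq : IsPGroup q ↥(zpowers x) := by
    have h1 : IsPGroup q ↥(zpowers f) := hF.to_le (zpowers_le.2 hf)
    have h2 : (zpowers f).map (MulAut.conj g).toMonoidHom = zpowers x := by
      rw [MonoidHom.map_zpowers]
      rfl
    rw [← h2]
    exact h1.map _
  obtain ⟨s', hs', hsc'⟩ := gen_conj hqr R hR (normalizer (F : Set G)) _ hxq (zpowers_le.2 hxN2)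
  have h3 : s' * x * s'⁻¹ ∈ normalizer (F : Set G) := hsc' x (mem_zpowers x)
  have h4 : s' * x * s'⁻¹ ∈ F := by
    refine hS (s' * g) ⟨⟨f, hf, ?_⟩, h3⟩
    simp only [x, MulEquiv.toMonoidHom_eq_coe, MonoidHom.coe_coe, MulAut.conj_apply]
    group
  have hs'1 : π s' = 1 := by
    have : s' ∈ π.ker := by rwa [hker]
    exact this
  have e : π (s' * x * s'⁻¹) = π x := by
    rw [map_mul π (s' * x), map_mul π s' x, map_inv, hs'1]; simp
  rw [← e]
  exact Subgroup.mem_map_of_mem π h4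

/-- The `r'`-elements of the residual centralize a normal `r`-subgroup with the hypothesis. -/
theorem residual_cent {r : ℕ} [hr : Fact r.Prime] (R : Subgroup G) [hRn : R.Normal] (hR : IsPGroup r R)
    (hh : IsCyclic ↥R ∨ ∃ D : Subgroup G, D ≤ R ∧ 1 < Nat.card D ∧ Nat.card D < Nat.card R ∧
      ∀ F : Subgroup G, F ≤ R → (Nat.card F = Nat.card D ∨ (Nat.card D = 2 ∧ Nat.card F = 4)) → HSub F) :
    ∀ y ∈ DD r G, Nat.Coprime (orderOf y) r → y ∈ centralizer (R : Set G) := by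
  intro y hy hyc
  let Y : Set G := {z | z ∈ DD r G ∧ Nat.Coprime (orderOf z) r}
  have htop : ∀ {A : Subgroup G}, A.Normal → (⊤ : Subgroup G) ≤ normalizer (A : Set G) := by
    intro A hA
    rw [normalizer_eq_top A]
  have hsec1 : ∀ M A : Subgroup G, M ≤ R → A ≤ M → (⊤ : Subgroup G) ≤ normalizer (M : Set G) →
      (⊤ : Subgroup G) ≤ normalizer (A : Set G) →
      A.relIndex M = r → ∀ z ∈ Y, ∀ m ∈ M, m⁻¹ * (z * m * z⁻¹) ∈ A := by
    intro M A hMR hAM hMX hAX hidx z hz m hm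
    have hMp := hR.to_le hMR
    have hD : DD r G ≤ stab M A hAM := by
      unfold DD
      rw [closure_le]
      rintro _ (⟨a, b, rfl⟩ | ⟨g, rfl⟩)
      · refine ⟨hMX trivial, fun m hm => ?_⟩
        exact sec_comm hMp hAM hidx (hMX trivial) (hAX trivial) (hMX trivial) (hAX trivial) m hm
      · refine ⟨hMX trivial, fun m hm => ?_⟩
        exact sec_pow hMp hAM hidx (hMX trivial) (hAX trivial) m hm
    exact (hD hz.1).2 m hm
  have hYconj : ∀ g ∈ (⊤ : Subgroup G), ∀ z ∈ Y, g * z * g⁻¹ ∈ Y := by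
    intro g _ z hz
    refine ⟨(DD_normal r).conj_mem z hz.1 g, ?_⟩
    have : orderOf (g * z * g⁻¹) = orderOf z := by
      rw [← MulAut.conj_apply, MulEquiv.orderOf_eq]
    rw [this]; exact hz.2
  rcases hh with hcyc | ⟨D, hDR, h1, h2, hD⟩
  · obtain ⟨w', hw'⟩ := IsCyclic.exists_generator (α := ↥R)
    have hRz : R = zpowers (w' : G) := by
      ext z
      constructor
      · intro hz
        obtain ⟨k, hk⟩ := mem_zpowers_iff.1 (hw' ⟨z, hz⟩)
        exact mem_zpowers_iff.2 ⟨k, by rw [← Subgroup.coe_zpow, hk]⟩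
      · intro hz
        exact (zpowers_le.2 w'.2) hz
    have hX : (⊤ : Subgroup G) ≤ normalizer ((zpowers (w' : G) : Subgroup G) : Set G) := by
      rw [← hRz]; exact htop hRn
    have h := cyc_cent (⊤ : Subgroup G) Y (fun _ _ => trivial) (fun z hz => hz.2) R hR hsec1 w'.2 hX y ⟨hy, hyc⟩
    rwa [← hRz] at h
  · obtain ⟨d, hd⟩ := IsPGroup.iff_card.1 (hR.to_le hDR)
    have hd1 : 1 ≤ d := by
      rw [hd] at h1
      by_contra hcon
      have : d = 0 := by omega
      rw [this] at h1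
      simp at h1
    refine gl2 (⊤ : Subgroup G) Y (r ^ d) ⟨d, hd1, rfl⟩ (fun _ _ => trivial) hYconj (fun z hz => hz.2) R hR hsec1 ?_ (htop hRn)
      (by rw [← hd]; exact h2) y ⟨hy, hyc⟩
    intro E hER hE g _
    have hS := hD E hER (by rw [hd]; exact hE)
    have hP := normal_of_hsub hS hER hR
    apply Cfsg.Agent.Lib.PGlaub.mem_normalizer_of_conj_mem
    intro k hk
    exact conj_mem_of_hsub hS hP hk (hRn.conj_mem k (hER hk) g)

end Cfsg.Agent.Lib.LHSub
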