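import Mathlib
import Cfsg.Agent.Lib.LHSub11

/-! The supersolvability criterion. -/

set_option autoImplicit false
set_option linter.unusedSectionVars false
set_option linter.unusedVariables false
set_option linter.style.haveILetI false

universe u

namespace Cfsg.Agent.Lib.LHSub

open Subgroup Cfsg Cfsg.Agent.Lib.PGrp Cfsg.Agent.Lib.H1Frat Cfsg.Agent.Lib.PNilp
open scoped commutatorElement

theorem card_map_mk {G : Type*} [Group G] [Finite G] (R E : Subgroup G) [R.Normal] :
    Nat.card ↥(E.map (QuotientGroup.mk' R)) = R.relIndex E := by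
  let f : ↥E →* G ⧸ R := (QuotientGroup.mk' R).comp E.subtype
  have h1 : f.range = E.map (QuotientGroup.mk' R) := by
    rw [MonoidHom.range_comp, Subgroup.range_subtype]
  have h2 : f.ker = R.subgroupOf E := by
    ext z
    rw [MonoidHom.mem_ker, Subgroup.mem_subgroupOf]
    exact QuotientGroup.eq_one_iff (z : G)
  rw [← h1, Subgroup.relIndex, ← h2]
  exact (Subgroup.index_ker f).symm

theorem card_map_of_inf_bot {G : Type*} [Group G] [Finite G] (R A : Subgroup G) [R.Normal] (h : A ⊓ R = ⊥) :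
    Nat.card ↥(A.map (QuotientGroup.mk' R)) = Nat.card A := by
  let f : ↥A →* G ⧸ R := (QuotientGroup.mk' R).comp A.subtype
  have h1 : f.range = A.map (QuotientGroup.mk' R) := by
    rw [MonoidHom.range_comp, Subgroup.range_subtype]
  have hinj : Function.Injective f := by
    rw [injective_iff_map_eq_one]
    intro z hz
    have h2 : (z : G) ∈ R := (QuotientGroup.eq_one_iff (z : G)).1 hz
    have h3 : (z : G) ∈ A ⊓ R := Subgroup.mem_inf.2 ⟨z.2, h2⟩
    rw [h, Subgroup.mem_bot] at h3
    exact Subtype.ext h3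
  rw [← h1]
  exact (Nat.card_congr (MonoidHom.ofInjective hinj).toEquiv).symm

theorem good_quot {G : Type*} [Group G] [Finite G] {E R : Subgroup G} {r : ℕ} [hr : Fact r.Prime] [hEn : E.Normal]
    [hRn : R.Normal] (hRE : R ≤ E) (hRp : IsPGroup r R) (hRall : ∀ x ∈ E, (∃ a : ℕ, orderOf x = r ^ a) → x ∈ R)
    (hgood : Good E) : Good (E.map (QuotientGroup.mk' R)) := by
  let π := QuotientGroup.mk' R
  have hsurj : Function.Surjective π := QuotientGroup.mk'_surjective R
  have hker : ∀ z : G, π z = 1 ↔ z ∈ R := fun z => QuotientGroup.eq_one_iff z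
  intro q hq Pb hPbE hPbq hPbnd hPbc
  haveI hqf : Fact q.Prime := ⟨hq⟩
  let W : Subgroup G := Pb.comap π
  have hRW : R ≤ W := by
    intro z hz
    show π z ∈ Pb
    rw [(hker z).2 hz]; exact one_mem _
  have hWE : W ≤ E := by
    intro z hz
    obtain ⟨e, he, hez⟩ := hPbE (show π z ∈ Pb from hz)
    have h2 : e⁻¹ * z ∈ R := by
      apply (hker _).1
      rw [map_mul, map_inv]
      exact inv_mul_eq_one.2 hez
    have e2 : z = e * (e⁻¹ * z) := by group
    rw [e2]
    exact mul_mem he (hRE h2)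
  have hWmap : W.map π = Pb := Subgroup.map_comap_eq_self_of_surjective hsurj Pb
  have hqr : q ≠ r := by
    rintro rfl
    apply hPbc
    have h1 : Pb = ⊥ := by
      rw [eq_bot_iff]
      intro y hy
      obtain ⟨z, rfl⟩ := hsurj y
      have h2 : z ∈ W := hy
      obtain ⟨a, ha⟩ := (IsPGroup.iff_orderOf.1 hPbq) ⟨π z, hy⟩
      have ha' : orderOf (π z) = q ^ a := by
        rw [← Subgroup.orderOf_mk (π z) hy]; exact ha
      have h3 : z ^ (q ^ a) ∈ R := by
        apply (hker _).1
        rw [map_pow, ← ha', pow_orderOf_eq_one]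
      obtain ⟨b, hb⟩ := (IsPGroup.iff_orderOf.1 hRp) ⟨_, h3⟩
      have hb' : orderOf (z ^ (q ^ a)) = q ^ b := by
        rw [← Subgroup.orderOf_mk _ h3]; exact hb
      have h4 : z ^ (q ^ (a + b)) = 1 := by
        rw [pow_add, pow_mul, ← hb', pow_orderOf_eq_one]
      obtain ⟨c, -, hc⟩ := (Nat.dvd_prime_pow hq).1 (orderOf_dvd_of_pow_eq_one h4)
      have h5 := hRall z (hWE h2) ⟨c, hc⟩
      rw [Subgroup.mem_bot]
      exact (hker z).2 h5
    rw [h1]
    infer_instance
  obtain ⟨Q⟩ : Nonempty (Sylow q ↥W) := inferInstance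
  let Q' : Subgroup G := (Q : Subgroup ↥W).map W.subtype
  have hQ'W : Q' ≤ W := map_subtype_le _
  have hQ'q : IsPGroup q Q' := Q.isPGroup'.map _
  have hQ'sub : Q'.subgroupOf W = (Q : Subgroup ↥W) := by
    ext z
    rw [Subgroup.mem_subgroupOf]
    constructor
    · rintro ⟨a, ha, hz⟩
      have : a = z := Subtype.ext hz
      rwa [← this]
    · intro hz
      exact ⟨z, hz, rfl⟩
  have hQ'nd : ¬ q ∣ Q'.relIndex W := by
    rw [Subgroup.relIndex, hQ'sub]; exact Q.not_dvd_index
  have hQinf : Q' ⊓ R = ⊥ := by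
    have h1 : Nat.Coprime (Nat.card Q') (Nat.card R) := by
      obtain ⟨a, ha⟩ := IsPGroup.iff_card.1 hQ'q
      obtain ⟨b, hb⟩ := IsPGroup.iff_card.1 hRp
      rw [ha, hb]
      exact Nat.Coprime.pow a b ((Nat.coprime_primes hq hr.out).2 hqr)
    exact Subgroup.inf_eq_bot_of_coprime h1
  have hcopR : ¬ q ∣ Nat.card R := by
    obtain ⟨b, hb⟩ := IsPGroup.iff_card.1 hRp
    rw [hb]
    intro h
    exact hqr ((Nat.prime_dvd_prime_iff_eq hq hr.out).1 (hq.dvd_of_dvd_pow h))
  have hQmap : Q'.map π = Pb := by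
    apply Subgroup.eq_of_le_of_card_ge
    · rw [← hWmap]; exact Subgroup.map_mono hQ'W
    · rw [card_map_of_inf_bot R Q' hQinf]
      have h1 : Nat.card Pb = R.relIndex W := by
        rw [← hWmap]; exact card_map_mk R W
      have h2 := card_rel hRW
      have h3 := card_rel hQ'W
      obtain ⟨a, ha⟩ := IsPGroup.iff_card.1 hPbq
      obtain ⟨b, hb⟩ := IsPGroup.iff_card.1 hQ'q
      rw [h1] at ha
      rw [ha] at h2
      rw [← h2, hb] at h3
      have h5 : q ^ a ∣ q ^ b * Q'.relIndex W := ⟨Nat.card R, by rw [h3]; ring⟩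
      have h6 : Nat.Coprime (q ^ a) (Q'.relIndex W) :=
        Nat.Coprime.pow_left a ((Nat.Prime.coprime_iff_not_dvd hq).2 hQ'nd)
      have h7 := h6.dvd_of_dvd_mul_right h5
      rw [h1, ha, hb]
      exact Nat.le_of_dvd (pow_pos hq.pos b) h7
  have hQ'nd2 : ¬ q ∣ Q'.relIndex E := by
    rw [← Subgroup.relIndex_mul_relIndex Q' W E hQ'W hWE]
    intro h
    rcases (Nat.Prime.dvd_mul hq).1 h with h | h
    · exact hQ'nd h
    · have : W.relIndex E = Pb.relIndex (E.map π) := Subgroup.relIndex_comap _ _ _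
      rw [this] at h
      exact hPbnd h
  have hQncyc : ¬ IsCyclic ↥Q' := by
    intro hc
    apply hPbc
    let f : ↥Q' →* ↥Pb := ((π.comp Q'.subtype).codRestrict Pb (fun z => by
      rw [← hQmap]; exact Subgroup.mem_map_of_mem π z.2))
    have hf : Function.Surjective f := by
      rintro ⟨y, hy⟩
      rw [← hQmap] at hy
      obtain ⟨z, hz, rfl⟩ := hy
      exact ⟨⟨z, hz⟩, rfl⟩
    exact isCyclic_of_surjective f hf
  obtain ⟨D, hDQ, h1, h2, hD⟩ := hgood q hq Q' (hQ'W.trans hWE) hQ'q hQ'nd2 hQncyc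
  have hinf : ∀ A : Subgroup G, A ≤ Q' → A ⊓ R = ⊥ := by
    intro A hA
    rw [eq_bot_iff]
    intro z hz
    have : z ∈ Q' ⊓ R := Subgroup.mem_inf.2 ⟨hA hz.1, hz.2⟩
    rwa [hQinf] at this
  have hcardD : Nat.card ↥(D.map π) = Nat.card D := card_map_of_inf_bot R D (hinf D hDQ)
  have hcardQ : Nat.card Pb = Nat.card Q' := by
    rw [← hQmap]; exact card_map_of_inf_bot R Q' hQinf
  refine ⟨D.map π, ?_, ?_, ?_, ?_⟩
  · rw [← hQmap]; exact Subgroup.map_mono hDQ
  · rw [hcardD]; exact h1
  · rw [hcardD, hcardQ]; exact h2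
  · intro Fb hFb hcond
    rw [hcardD] at hcond
    let F : Subgroup G := Q' ⊓ Fb.comap π
    have hFQ : F ≤ Q' := inf_le_left
    have hFmap : F.map π = Fb := by
      apply le_antisymm
      · rintro _ ⟨z, hz, rfl⟩
        exact hz.2
      · intro y hy
        have hy2 := hFb hy
        rw [← hQmap] at hy2
        obtain ⟨z, hz, rfl⟩ := hy2
        exact ⟨z, Subgroup.mem_inf.2 ⟨hz, hy⟩, rfl⟩
    have hFcard : Nat.card F = Nat.card Fb := by
      rw [← hFmap]; exact (card_map_of_inf_bot R F (hinf F hFQ)).symm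
    have hS := hD F hFQ (by rw [hFcard]; exact hcond)
    rw [← hFmap]
    exact hsub_quot hqr R hRp F (hQ'q.to_le hFQ) hS

theorem super_main : ∀ (n : ℕ) {G : Type u} [Group G] [Finite G] (E : Subgroup G) [E.Normal],
    Nat.card E = n → IsSupersolvable (G ⧸ E) → Good E → IsSupersolvable G := by
  intro n
  induction n using Nat.strong_induction_on with
  | _ n ih =>
    intro G _ _ E hEn hn hq hgood
    by_cases hE : E = ⊥
    · subst hE
      exact super_of_surj (QuotientGroup.quotientBot : (G ⧸ (⊥ : Subgroup G)) ≃* G).toMonoidHom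
        (MulEquiv.surjective _) hq
    obtain ⟨r, R, hr, hRE, hRp, hRbot, hRnd, hRall⟩ := tower _ E rfl hgood hE
    haveI hrf : Fact r.Prime := ⟨hr⟩
    haveI hRn : R.Normal := by
      refine ⟨fun z hz g => ?_⟩
      obtain ⟨a, ha⟩ := (IsPGroup.iff_orderOf.1 hRp) ⟨z, hz⟩
      have ha' : orderOf z = r ^ a := by
        rw [← Subgroup.orderOf_mk z hz]; exact ha
      refine hRall _ (hEn.conj_mem z (hRE hz) g) ⟨a, ?_⟩
      rw [← ha', ← MulAut.conj_apply, MulEquiv.orderOf_eq]
    have hcent : ∀ y ∈ DD r G, Nat.Coprime (orderOf y) r → y ∈ centralizer (R : Set G) := by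
      refine residual_cent R hRp ?_
      by_cases hc : IsCyclic ↥R
      · exact Or.inl hc
      · exact Or.inr (hgood r hr R hRE hRp hRnd hc)
    have hSC := chain_of_cent R hRp hcent R hRn le_rfl
    let π := QuotientGroup.mk' R
    have hsurj : Function.Surjective π := QuotientGroup.mk'_surjective R
    haveI hEb : (E.map π).Normal := Subgroup.Normal.map inferInstance π hsurj
    have hlt : Nat.card ↥(E.map π) < n := by
      rw [card_map_mk R E, ← hn]
      have h1 := card_rel hRE
      have h2 : 1 < Nat.card R := by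
        have h3 : Nat.card R ≠ 1 := fun h => hRbot (Subgroup.card_eq_one.1 h)
        have h4 : 0 < Nat.card R := Nat.card_pos
        omega
      have h5 : 0 < R.relIndex E := by
        apply Nat.pos_of_ne_zero
        intro h
        rw [h, mul_zero] at h1
        exact (Nat.card_pos (α := ↥E)).ne h1
      rw [← h1]
      nlinarith
    have hq' : IsSupersolvable ((G ⧸ R) ⧸ E.map π) := by
      refine super_of_surj (QuotientGroup.map E (E.map π) π (Subgroup.le_comap_map π E)) ?_ hq
      intro y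
      obtain ⟨y', rfl⟩ := QuotientGroup.mk'_surjective _ y
      obtain ⟨z, rfl⟩ := hsurj y'
      exact ⟨(z : G ⧸ E), rfl⟩
    have hgood' : Good (E.map π) := good_quot hRE hRp hRall hgood
    have hsuper := ih _ hlt (E.map π) rfl hq' hgood'
    exact sc_super (sc_top_of_quot R hSC hsuper)

end Cfsg.Agent.Lib.LHSub
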