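import Mathlib
import Cfsg.Agent.Lib.LHSub1

/-! Sections of order `p` and stabilizers of series. -/

set_option autoImplicit false
set_option linter.unusedSectionVars false
set_option linter.unusedVariables false
set_option linter.style.haveILetI false

namespace Cfsg.Agent.Lib.LHSub

open Subgroup Cfsg Cfsg.Agent.Lib.PGrp Cfsg.Agent.Lib.H1Frat
open scoped commutatorElement

variable {G : Type*} [Group G] [Finite G] {p : ℕ} [hp : Fact p.Prime]

/-- The stabilizer of the section `M/L`. -/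
def stab (M L : Subgroup G) (hLM : L ≤ M) : Subgroup G where
  carrier := {b | b ∈ normalizer (M : Set G) ∧ ∀ m ∈ M, m⁻¹ * (b * m * b⁻¹) ∈ L}
  one_mem' := ⟨one_mem _, fun m _ => by simp⟩
  mul_mem' := by
    rintro a b ⟨ha, ha'⟩ ⟨hb, hb'⟩
    refine ⟨mul_mem ha hb, fun m hm => ?_⟩
    have hl := hb' m hm
    have h1 := ha' m hm
    have h2 := ha' _ (hLM hl)
    have h3 : a * (m⁻¹ * (b * m * b⁻¹)) * a⁻¹ ∈ L := by
      have := mul_mem hl h2
      have e : m⁻¹ * (b * m * b⁻¹) * ((m⁻¹ * (b * m * b⁻¹))⁻¹ * (a * (m⁻¹ * (b * m * b⁻¹)) * a⁻¹)) =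
        a * (m⁻¹ * (b * m * b⁻¹)) * a⁻¹ := by group
      rwa [e] at this
    have e : m⁻¹ * (a * b * m * (a * b)⁻¹) = (m⁻¹ * (a * m * a⁻¹)) * (a * (m⁻¹ * (b * m * b⁻¹)) * a⁻¹) := by
      group
    rw [e]
    exact mul_mem h1 h3
  inv_mem' := by
    rintro a ⟨ha, ha'⟩
    refine ⟨inv_mem ha, fun m hm => ?_⟩
    have hm' : a⁻¹ * m * a⁻¹⁻¹ ∈ M := (mem_normalizer_iff.1 (inv_mem ha) m).1 hm
    have h1 := ha' _ hm'
    have h2 := inv_mem h1
    have e : (( a⁻¹ * m * a⁻¹⁻¹)⁻¹ * (a * (a⁻¹ * m * a⁻¹⁻¹) * a⁻¹))⁻¹ = m⁻¹ * (a⁻¹ * m * a⁻¹⁻¹) := by group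
    rwa [e] at h2

theorem mem_stab {M L : Subgroup G} {hLM : L ≤ M} {b : G} :
    b ∈ stab M L hLM ↔ b ∈ normalizer (M : Set G) ∧ ∀ m ∈ M, m⁻¹ * (b * m * b⁻¹) ∈ L := Iff.rfl

/-- Acting trivially on `M / Φ(M)` for a coprime element means centralizing `M`. -/
theorem cent_of_phi {M : Subgroup G} (hM : IsPGroup p M) {y : G} (hc : Nat.Coprime (orderOf y) p)
    (hyN : y ∈ normalizer (M : Set G)) (h : ∀ m ∈ M, m⁻¹ * (y * m * y⁻¹) ∈ phi M) :
    y ∈ centralizer (M : Set G) := by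
  apply Cfsg.Agent.Lib.LQd.centralizes_of_frattini' hM hc hyN
  have hs : y ∈ stab M (phi M) (phi_le M) := ⟨hyN, h⟩
  have hz : zpowers y ≤ stab M (phi M) (phi_le M) := zpowers_le.2 hs
  rw [Subgroup.commutator_le]
  intro a ha b hb
  have h1 := (hz hb).2 a⁻¹ (inv_mem ha)
  have e : (a⁻¹)⁻¹ * (b * a⁻¹ * b⁻¹) = ⁅a, b⁆ := by rw [commutatorElement_def]; group
  rw [e] at h1
  exact h1

section Sec

variable (M A : Subgroup G)

theorem normal_of_index {M A : Subgroup G} (hM : IsPGroup p M) (hAM : A ≤ M) (h : A.relIndex M = p) :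
    (A.subgroupOf M).Normal :=
  (coatom_index_of_isPGroup hM (isCoatom_of_relIndex hAM h)).1

theorem he_aux (g : ↥(normalizer (M : Set G) ⊓ normalizer (A : Set G))) :
    (A.subgroupOf M).map
      ((M.normalizerMonoidHom ⟨g, g.2.1⟩ : ↥M ≃* ↥M) : ↥M →* ↥M) = A.subgroupOf M := by
  apply Subgroup.eq_of_le_of_card_ge
  · rintro _ ⟨m, hm, rfl⟩
    have h1 : (m : G) ∈ A := hm
    exact (mem_normalizer_iff.1 g.2.2 _).1 h1
  · have hinj : Function.Injective ((M.normalizerMonoidHom ⟨g, g.2.1⟩ : ↥M ≃* ↥M) : ↥M →* ↥M) :=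
      (M.normalizerMonoidHom ⟨g, g.2.1⟩ : ↥M ≃* ↥M).injective
    exact (Subgroup.card_map_of_injective hinj).ge

/-- The action of `N(M) ∩ N(A)` on the section `M/A`. -/
noncomputable def secHom [(A.subgroupOf M).Normal] :
    ↥(normalizer (M : Set G) ⊓ normalizer (A : Set G)) →* MulAut (↥M ⧸ A.subgroupOf M) :=
  MonoidHom.mk' (fun g => QuotientGroup.congr _ _ (M.normalizerMonoidHom ⟨g, g.2.1⟩) (he_aux M A g))
    (by
      intro a b
      ext x
      induction x using QuotientGroup.induction_on with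
      | H x =>
        have e : ((M.normalizerMonoidHom ⟨(a * b : ↥(normalizer (M : Set G) ⊓ normalizer (A : Set G))), (a * b).2.1⟩) x) =
          (M.normalizerMonoidHom ⟨a, a.2.1⟩) ((M.normalizerMonoidHom ⟨b, b.2.1⟩) x) := by
          apply Subtype.ext
          show (a * b : G) * x * (a * b : G)⁻¹ = a * (b * x * (b : G)⁻¹) * (a : G)⁻¹
          group
        exact congrArg (QuotientGroup.mk (s := A.subgroupOf M)) e)

variable {M A}

theorem secHom_eq_one_iff [(A.subgroupOf M).Normal] (g : ↥(normalizer (M : Set G) ⊓ normalizer (A : Set G))) :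
    secHom M A g = 1 ↔ ∀ m ∈ M, m⁻¹ * ((g : G) * m * (g : G)⁻¹) ∈ A := by
  constructor
  · intro h m hm
    have h1 : (secHom M A g) ((⟨m, hm⟩ : ↥M) : ↥M ⧸ A.subgroupOf M) = ((⟨m, hm⟩ : ↥M) : ↥M ⧸ A.subgroupOf M) := by
      rw [h]; rfl
    have h2 : (((M.normalizerMonoidHom ⟨g, g.2.1⟩) ⟨m, hm⟩ : ↥M) : ↥M ⧸ A.subgroupOf M) =
        ((⟨m, hm⟩ : ↥M) : ↥M ⧸ A.subgroupOf M) := h1
    have h3 := QuotientGroup.eq.1 h2.symm
    exact h3
  · intro h
    ext x
    induction x using QuotientGroup.induction_on with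
    | H x =>
      show (((M.normalizerMonoidHom ⟨g, g.2.1⟩) x : ↥M) : ↥M ⧸ A.subgroupOf M) = (x : ↥M ⧸ A.subgroupOf M)
      symm
      apply QuotientGroup.eq.2
      exact h x x.2

theorem card_sec (hidx : A.relIndex M = p) : Nat.card (↥M ⧸ A.subgroupOf M) = p := hidx

theorem sec_aut_pow [(A.subgroupOf M).Normal] (hidx : A.relIndex M = p) (φ : MulAut (↥M ⧸ A.subgroupOf M)) :
    φ ^ (p - 1) = 1 := by
  have hcard := card_sec (M := M) (A := A) hidx
  haveI : IsCyclic (↥M ⧸ A.subgroupOf M) := isCyclic_of_prime_card hcard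
  have h := IsCyclic.card_mulAut (↥M ⧸ A.subgroupOf M)
  rw [hcard, Nat.totient_prime hp.out] at h
  rw [← h]
  exact pow_card_eq_one'

theorem sec_aut_comm [(A.subgroupOf M).Normal] (hidx : A.relIndex M = p) (φ ψ : MulAut (↥M ⧸ A.subgroupOf M)) :
    φ * ψ = ψ * φ := by
  have hcard := card_sec (M := M) (A := A) hidx
  haveI : IsCyclic (↥M ⧸ A.subgroupOf M) := isCyclic_of_prime_card hcard
  let e := IsCyclic.mulAutMulEquiv (↥M ⧸ A.subgroupOf M)
  apply e.injective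
  rw [map_mul, map_mul, mul_comm]

/-- An element of order prime to `p - 1` acts trivially on a section of order `p`. -/
theorem sec_coprime {M A : Subgroup G} (hM : IsPGroup p M) (hAM : A ≤ M) (hidx : A.relIndex M = p) {y : G}
    (hyM : y ∈ normalizer (M : Set G)) (hyA : y ∈ normalizer (A : Set G))
    (hc : Nat.Coprime (orderOf y) (p - 1)) : ∀ m ∈ M, m⁻¹ * (y * m * y⁻¹) ∈ A := by
  haveI := normal_of_index hM hAM hidx
  let g : ↥(normalizer (M : Set G) ⊓ normalizer (A : Set G)) := ⟨y, hyM, hyA⟩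
  have h1 : (secHom M A g) ^ (p - 1) = 1 := sec_aut_pow hidx _
  have h2 : (secHom M A g) ^ (orderOf y) = 1 := by
    rw [← map_pow]
    have : g ^ orderOf y = 1 := by
      apply Subtype.ext
      show y ^ orderOf y = 1
      exact pow_orderOf_eq_one y
    rw [this, map_one]
  have h3 : secHom M A g = 1 := by
    have := pow_gcd_eq_one.2 ⟨h2, h1⟩
    rwa [hc.gcd_eq_one, pow_one] at this
  exact (secHom_eq_one_iff g).1 h3

/-- A commutator acts trivially on a section of order `p`. -/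
theorem sec_comm {M A : Subgroup G} (hM : IsPGroup p M) (hAM : A ≤ M) (hidx : A.relIndex M = p) {a b : G}
    (haM : a ∈ normalizer (M : Set G)) (haA : a ∈ normalizer (A : Set G))
    (hbM : b ∈ normalizer (M : Set G)) (hbA : b ∈ normalizer (A : Set G)) :
    ∀ m ∈ M, m⁻¹ * (⁅a, b⁆ * m * ⁅a, b⁆⁻¹) ∈ A := by
  haveI := normal_of_index hM hAM hidx
  let a' : ↥(normalizer (M : Set G) ⊓ normalizer (A : Set G)) := ⟨a, haM, haA⟩
  let b' : ↥(normalizer (M : Set G) ⊓ normalizer (A : Set G)) := ⟨b, hbM, hbA⟩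
  have h3 : secHom M A ⁅a', b'⁆ = 1 := by
    rw [map_commutatorElement, commutatorElement_eq_one_iff_mul_comm]
    exact sec_aut_comm hidx _ _
  exact (secHom_eq_one_iff ⁅a', b'⁆).1 h3

/-- A `(p-1)`-st power acts trivially on a section of order `p`. -/
theorem sec_pow {M A : Subgroup G} (hM : IsPGroup p M) (hAM : A ≤ M) (hidx : A.relIndex M = p) {a : G}
    (haM : a ∈ normalizer (M : Set G)) (haA : a ∈ normalizer (A : Set G)) :
    ∀ m ∈ M, m⁻¹ * (a ^ (p - 1) * m * (a ^ (p - 1))⁻¹) ∈ A := by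
  haveI := normal_of_index hM hAM hidx
  let a' : ↥(normalizer (M : Set G) ⊓ normalizer (A : Set G)) := ⟨a, haM, haA⟩
  have h3 : secHom M A (a' ^ (p - 1)) = 1 := by
    rw [map_pow]
    exact sec_aut_pow hidx _
  exact (secHom_eq_one_iff (a' ^ (p - 1))).1 h3

end Sec

end Cfsg.Agent.Lib.LHSub
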