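import Mathlib
import Cfsg.Agent.Lib.LHSub2

/-! The key lemma: all subgroups of a fixed order invariant forces triviality of the residual action. -/

set_option autoImplicit false
set_option linter.unusedSectionVars false
set_option linter.unusedVariables false
set_option linter.style.haveILetI false

namespace Cfsg.Agent.Lib.LHSub

open Subgroup Cfsg Cfsg.Agent.Lib.PGrp Cfsg.Agent.Lib.H1Frat
open scoped commutatorElement

variable {G : Type*} [Group G] [Finite G] {p : ℕ} [hp : Fact p.Prime]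

theorem exists_max_inv (X : Subgroup G) {M B : Subgroup G} (hBM : B ≤ M) (hne : B ≠ M)
    (hB : X ≤ normalizer (B : Set G)) :
    ∃ A : Subgroup G, B ≤ A ∧ A ≤ M ∧ A ≠ M ∧ X ≤ normalizer (A : Set G) ∧
      ∀ W : Subgroup G, A ≤ W → W ≤ M → W ≠ M → X ≤ normalizer (W : Set G) → W = A := by
  let S : Set (Subgroup G) := {A | B ≤ A ∧ A ≤ M ∧ A ≠ M ∧ X ≤ normalizer (A : Set G)}
  have hS : S.Nonempty := ⟨B, le_rfl, hBM, hne, hB⟩
  obtain ⟨A, hA, hmax⟩ := Set.exists_max_image S (fun H => Nat.card H) (Set.toFinite S) hS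
  refine ⟨A, hA.1, hA.2.1, hA.2.2.1, hA.2.2.2, fun W hAW hWM hWne hWX => ?_⟩
  have h := hmax W ⟨hA.1.trans hAW, hWM, hWne, hWX⟩
  exact (Subgroup.eq_of_le_of_card_ge hAW h).symm

theorem inv_sup {X A B : Subgroup G} (hA : X ≤ normalizer (A : Set G)) (hB : X ≤ normalizer (B : Set G)) :
    X ≤ normalizer ((A ⊔ B : Subgroup G) : Set G) := by
  intro g hg
  have h1 : (A ⊔ B).map (MulAut.conj g).toMonoidHom ≤ A ⊔ B := by
    rw [Subgroup.map_sup]
    apply sup_le_sup
    · rintro _ ⟨a, ha, rfl⟩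
      exact (mem_normalizer_iff.1 (hA hg) a).1 ha
    · rintro _ ⟨a, ha, rfl⟩
      exact (mem_normalizer_iff.1 (hB hg) a).1 ha
  apply Cfsg.Agent.Lib.PGlaub.mem_normalizer_of_conj_mem
  intro k hk
  exact h1 ⟨k, hk, rfl⟩

/-- Section generated by one element modulo `U ≥ Φ(M)` has order `p`. -/
theorem index_of_sup_zpowers {M U : Subgroup G} (hM : IsPGroup p M) (hU : phi M ≤ U) (hUM : U ≤ M) {x : G}
    (hx : x ∈ M) (hxU : x ∉ U) (hsup : U ⊔ zpowers x = M) : U.relIndex M = p := by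
  have hne : U ≠ M := fun h => hxU (h ▸ hx)
  obtain ⟨A, hUA, hAM, hA⟩ := exists_index_of_ne hM hUM hne
  have hxA : x ∉ A := by
    intro hxA
    have h1 : M ≤ A := by rw [← hsup]; exact sup_le hUA (zpowers_le.2 hxA)
    have h4 := Subgroup.relIndex_eq_one.2 h1
    rw [hA] at h4
    exact hp.out.one_lt.ne' h4
  have hxp : x ^ p ∈ U := hU (pow_mem_phi hM hx)
  have hN : zpowers x ≤ normalizer (U : Set G) := by
    rw [zpowers_le]
    exact Cfsg.Agent.Lib.PGlaub.mem_normalizer_of_conj_mem fun k hk => mem_of_phi_le hM hU hUM hx hk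
  have hAU : A ≤ U := by
    intro a ha
    have ha' : a ∈ ((U ⊔ zpowers x : Subgroup G) : Set G) := by
      rw [hsup]; exact hAM ha
    rw [Subgroup.coe_mul_of_right_le_normalizer_left U (zpowers x) hN] at ha'
    obtain ⟨u, hu, z, hz, rfl⟩ := Set.mem_mul.1 ha'
    obtain ⟨k, rfl⟩ := mem_zpowers_iff.1 hz
    have hzA : x ^ k ∈ A := by
      have : u⁻¹ * (u * x ^ k) ∈ A := mul_mem (inv_mem (hUA hu)) ha
      simpa using this
    refine mul_mem hu ?_
    by_cases hpk : (p : ℤ) ∣ k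
    · obtain ⟨t, rfl⟩ := hpk
      rw [zpow_mul]
      have : x ^ (p : ℤ) = x ^ p := zpow_natCast x p
      rw [this]
      exact zpow_mem hxp t
    · exfalso
      apply hxA
      have hcop : IsCoprime k (p : ℤ) := by
        have h1 : IsCoprime (p : ℤ) k := by
          rw [Int.isCoprime_iff_gcd_eq_one]
          have hpp : Prime (p : ℤ) := Nat.prime_iff_prime_int.1 hp.out
          exact (Int.prime_iff_natAbs_prime.1 hpp) |> fun h => by
            have h2 : Nat.Coprime (p : ℤ).natAbs k.natAbs := by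
              rw [Nat.Prime.coprime_iff_not_dvd h]
              intro h3
              exact hpk (Int.natAbs_dvd_natAbs.1 h3)
            exact h2
        exact h1.symm
      obtain ⟨a, b, hab⟩ := hcop
      have e : x = (x ^ k) ^ a * (x ^ p) ^ b := by
        have e1 : (x ^ p) ^ b = (x ^ (p : ℤ)) ^ b := by rw [zpow_natCast]
        rw [e1, ← zpow_mul, ← zpow_mul, ← zpow_add]
        have : k * a + ↑p * b = 1 := by linarith
        rw [this, zpow_one]
      rw [e]
      exact mul_mem (zpow_mem hzA a) (zpow_mem (hUA hxp) b)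
  rw [le_antisymm hAU hUA] at hA
  exact hA

/-- Class at most two: the `e`-th power map is a homomorphism. -/
theorem mul_pow_e {M : Subgroup G} (hM : IsPGroup p M)
    (hcen : ∀ c ∈ phi M, ∀ z ∈ M, z * c = c * z) {a b : G} (ha : a ∈ M) (hb : b ∈ M) (e : ℕ)
    (he : (e = p ∧ p ≠ 2) ∨ (e = 4 ∧ p = 2)) : (a * b) ^ e = a ^ e * b ^ e := by
  have hc : ⁅b, a⁆ ∈ phi M := comm_mem_phi hM hb ha
  have h1 : b * a = ⁅b, a⁆ * a * b := by rw [commutatorElement_def]; group
  have hca : Commute ⁅b, a⁆ a := (hcen _ hc a ha).symm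
  have hcb : Commute ⁅b, a⁆ b := (hcen _ hc b hb).symm
  have h2 := Cfsg.Agent.Lib.LExtraFus.mul_pow_class2 h1 hca hcb e
  rw [h2]
  have hcp : ⁅b, a⁆ ^ p = 1 := by
    have h3 : b * a * b⁻¹ = ⁅b, a⁆ * a := by rw [commutatorElement_def]; group
    have h4 : b * a ^ p * b⁻¹ = (⁅b, a⁆ * a) ^ p := by
      rw [← h3, conj_pow]
    rw [hca.mul_pow] at h4
    have h5 : b * a ^ p * b⁻¹ = a ^ p := by
      have := hcen _ (pow_mem_phi hM ha) b hb
      rw [this]; group
    rw [h5] at h4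
    exact (mul_eq_right.1 h4.symm)
  have hcc : ⁅b, a⁆ ^ e.choose 2 = 1 := by
    rcases he with ⟨rfl, hp2⟩ | ⟨rfl, hp2⟩
    · have h6 : 2 < e := by
        have := hp.out.two_le
        omega
      obtain ⟨q, hq⟩ := hp.out.dvd_choose_self (k := 2) (by norm_num) h6
      rw [hq, pow_mul, hcp, one_pow]
    · rw [hp2] at hcp
      have : (4 : ℕ).choose 2 = 2 * 3 := by decide
      rw [this, pow_mul, hcp, one_pow]
  rw [hcc, mul_one]

/-- Cyclic invariant subgroups are centralized. -/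
theorem cyc_cent (X : Subgroup G) (Y : Set G) (hYX : ∀ y ∈ Y, y ∈ X) (hYc : ∀ y ∈ Y, Nat.Coprime (orderOf y) p)
    (Q : Subgroup G) (hQ : IsPGroup p Q)
    (hsec1 : ∀ M A : Subgroup G, M ≤ Q → A ≤ M → X ≤ normalizer (M : Set G) → X ≤ normalizer (A : Set G) →
      A.relIndex M = p → ∀ y ∈ Y, ∀ m ∈ M, m⁻¹ * (y * m * y⁻¹) ∈ A)
    {w : G} (hw : w ∈ Q) (hX : X ≤ normalizer ((zpowers w : Subgroup G) : Set G)) :
    ∀ y ∈ Y, y ∈ centralizer ((zpowers w : Subgroup G) : Set G) := by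
  intro y hy
  by_cases hw1 : w = 1
  · subst hw1
    rw [Subgroup.zpowers_one_eq_bot]
    rw [Subgroup.mem_centralizer_iff]
    intro h hh
    have : h = 1 := by simpa using hh
    rw [this]; simp
  have hWQ : zpowers w ≤ Q := zpowers_le.2 hw
  have hWp : IsPGroup p (zpowers w) := hQ.to_le hWQ
  have hBinv : X ≤ normalizer ((zpowers (w ^ p) : Subgroup G) : Set G) := by
    intro g hg
    apply Cfsg.Agent.Lib.PGlaub.mem_normalizer_of_conj_mem
    intro k hk
    obtain ⟨t, rfl⟩ := mem_zpowers_iff.1 hk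
    have h1 : g * w * g⁻¹ ∈ zpowers w := (mem_normalizer_iff.1 (hX hg) w).1 (mem_zpowers w)
    obtain ⟨s, hs⟩ := mem_zpowers_iff.1 h1
    have e : g * (w ^ p) ^ t * g⁻¹ = ((w ^ p) ^ s) ^ t := by
      have e1 : g * (w ^ p) ^ t * g⁻¹ = (g * w ^ p * g⁻¹) ^ t := (conj_zpow).symm
      have e2 : g * w ^ p * g⁻¹ = (g * w * g⁻¹) ^ p := (conj_pow).symm
      rw [e1, e2, ← hs]
      congr 1
      rw [← zpow_natCast, ← zpow_mul, ← zpow_natCast (a := w), ← zpow_mul, mul_comm]
    rw [e]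
    exact zpow_mem (zpow_mem (mem_zpowers _) s) t
  have hle : zpowers (w ^ p) ≤ zpowers w := zpowers_le.2 (pow_mem (mem_zpowers w) p)
  obtain ⟨a, ha⟩ : ∃ a, orderOf w = p ^ a := by
    obtain ⟨a, ha⟩ := IsPGroup.iff_card.1 hWp
    exact ⟨a, by rw [← Nat.card_zpowers, ha]⟩
  have ha0 : a ≠ 0 := by
    rintro rfl
    rw [pow_zero] at ha
    exact hw1 (orderOf_eq_one_iff.1 ha)
  have hidx : (zpowers (w ^ p)).relIndex (zpowers w) = p := by
    have h1 := card_rel hle
    rw [Nat.card_zpowers, Nat.card_zpowers] at h1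
    have h2 : orderOf (w ^ p) = p ^ (a - 1) := by
      rw [orderOf_pow' w hp.out.ne_zero, ha]
      have : Nat.gcd (p ^ a) p = p := Nat.gcd_eq_right (dvd_pow_self p ha0)
      rw [this]
      obtain ⟨b, rfl⟩ := Nat.exists_eq_succ_of_ne_zero ha0
      simp [pow_succ, hp.out.pos]
    rw [h2, ha] at h1
    obtain ⟨b, rfl⟩ := Nat.exists_eq_succ_of_ne_zero ha0
    simp only [Nat.succ_sub_one, pow_succ] at h1
    have hpos : 0 < p ^ b := pow_pos hp.out.pos b
    exact Nat.eq_of_mul_eq_mul_left hpos h1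
  have h3 := hsec1 _ _ hWQ hle hX hBinv hidx y hy
  have hle2 : zpowers (w ^ p) ≤ phi (zpowers w) := zpowers_le.2 (pow_mem_phi hWp (mem_zpowers w))
  exact cent_of_phi hWp (hYc y hy) (hX (hYX y hy)) fun m hm => hle2 (h3 m hm)

end Cfsg.Agent.Lib.LHSub
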