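import Mathlib
import Cfsg.Prelude.Def_PLocal
import Cfsg.Prelude.Def_LocalEven
import Cfsg.Agent.Lib.PGrp2
import Cfsg.Agent.Lib.LQd5
import Cfsg.Agent.Lib.H1SL2
import Cfsg.Agent.Lib.LQd6
import Cfsg.Agent.Lib.LSyl

/-! Nonabelian groups of order `p^3` and exponent `p`; Sylow subgroups of `Qd(p)`. -/

set_option autoImplicit false
set_option linter.unusedSectionVars false
set_option linter.unusedVariables false
set_option linter.style.haveILetI false

namespace Cfsg.Agent.Lib.LOrdP3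

open Subgroup Cfsg

variable {p : ℕ} [Fact p.Prime]

theorem extraspecial_of {X : Type*} [Group X] [Finite X] (hcard : Nat.card X = p ^ 3) (hexp : ∀ x : X, x ^ p = 1)
    (hnc : ¬ ∀ a b : X, a * b = b * a) : IsExtraspecial p X ∧ Monoid.exponent X = p := by
  classical
  have hpp : p.Prime := Fact.out
  have hP : IsPGroup p X := IsPGroup.of_card hcard
  haveI : Fact (1 < p) := ⟨hpp.one_lt⟩
  haveI hnt : Nontrivial X := by
    rw [← Finite.one_lt_card_iff_nontrivial, hcard]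
    exact one_lt_pow₀ hpp.one_lt (by norm_num)
  have hZnt := hP.center_nontrivial
  have hZne : center X ≠ ⊥ := (Subgroup.nontrivial_iff_ne_bot _).1 hZnt
  obtain ⟨k, hk⟩ := IsPGroup.iff_card.1 (hP.to_subgroup (center X))
  have hd : p ^ k * (center X).index = p ^ 3 := by
    rw [← hk, ← hcard]
    exact Subgroup.card_mul_index _
  have hk3 : k ≤ 3 := by
    have h1 : p ^ k ∣ p ^ 3 := ⟨_, hd.symm⟩
    exact (Nat.pow_dvd_pow_iff_le_right hpp.one_lt).1 h1
  have hidx : (center X).index = p ^ (3 - k) := by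
    have h1 : p ^ k * p ^ (3 - k) = p ^ 3 := by
      rw [← pow_add]
      congr 1
      omega
    exact Nat.eq_of_mul_eq_mul_left (pow_pos hpp.pos k) (hd.trans h1.symm)
  have hq : Nat.card (X ⧸ center X) = p ^ (3 - k) := by
    rw [← hidx]
    rfl
  have hk0 : k ≠ 0 := by
    rintro rfl
    apply hZne
    rw [pow_zero] at hk
    exact Subgroup.card_eq_one.1 hk
  have hk1 : k = 1 := by
    by_contra hne
    apply hnc
    have hcases : k = 2 ∨ k = 3 := by omega
    rcases hcases with rfl | rfl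
    · have h1 : Nat.card (X ⧸ center X) = p := by simpa using hq
      haveI : IsCyclic (X ⧸ center X) := isCyclic_of_prime_card h1
      exact commutative_of_cyclic_center_quotient (QuotientGroup.mk' (center X)) (by
        rw [QuotientGroup.ker_mk'])
    · have h1 : Nat.card (X ⧸ center X) = 1 := by simpa using hq
      haveI : Subsingleton (X ⧸ center X) := (Nat.card_eq_one_iff_unique.1 h1).1
      haveI : IsCyclic (X ⧸ center X) := inferInstance
      exact commutative_of_cyclic_center_quotient (QuotientGroup.mk' (center X)) (by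
        rw [QuotientGroup.ker_mk'])
  subst hk1
  have hcardZ : Nat.card (center X) = p := by simpa using hk
  have hq2 : Nat.card (X ⧸ center X) = p ^ 2 := by simpa using hq
  have hcl : commutator X ≤ center X := by
    have hab := IsPGroup.isMulCommutative_of_card_eq_prime_sq hq2
    rw [_root_.commutator_def, Subgroup.commutator_le]
    intro a _ b _
    rw [commutatorElement_def, ← QuotientGroup.eq_one_iff, QuotientGroup.mk_mul, QuotientGroup.mk_mul, QuotientGroup.mk_mul, QuotientGroup.mk_inv,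
      QuotientGroup.mk_inv]
    have h1 := hab.is_comm.comm (a : X ⧸ center X) (b : X ⧸ center X)
    rw [h1]
    group
  have hcne : commutator X ≠ ⊥ := by
    intro h
    apply hnc
    intro a b
    have h1 : a * b * a⁻¹ * b⁻¹ ∈ commutator X := by
      rw [_root_.commutator_def, ← commutatorElement_def]
      exact Subgroup.commutator_mem_commutator (mem_top a) (mem_top b)
    rw [h] at h1
    have h2 : a * b * a⁻¹ * b⁻¹ = 1 := h1
    calc a * b = (a * b * a⁻¹ * b⁻¹) * (b * a) := by group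
      _ = b * a := by rw [h2, one_mul]
  have hceq : commutator X = center X := by
    apply Subgroup.eq_of_le_of_card_ge hcl
    have h1 : Nat.card (commutator X) ∣ Nat.card (center X) := Subgroup.card_dvd_of_le hcl
    rw [hcardZ] at h1 ⊢
    rcases (Nat.dvd_prime hpp).1 h1 with h2 | h2
    · exact absurd (Subgroup.card_eq_one.1 h2) hcne
    · exact h2.ge
  have hfr : frattini X = commutator X := by
    apply le_antisymm
    · refine Cfsg.Agent.Lib.PGrp.frattini_le_of hP _ le_rfl (fun x => ?_)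
      rw [hexp]
      exact one_mem _
    · exact Cfsg.Agent.Lib.PGrp.commutator_le_frattini hP
  refine ⟨⟨⟨hP, hfr.trans hceq, hceq⟩, hcardZ⟩, ?_⟩
  rw [Monoid.exponent_eq_prime_iff hpp]
  intro g hg
  exact orderOf_eq_prime (hexp g) hg

section qd

open Matrix Cfsg.Agent.Lib.LDick Cfsg.Agent.Lib.LQd

theorem card_qd : Nat.card ↥(Cfsg.qd p) = p * (p ^ 2 - 1) * p ^ 2 := by
  classical
  let f : SL2 (ZMod p) × (Fin 2 → ZMod p) → ↥(Cfsg.qd p) := fun x => ⟨aff x.1 x.2, aff_mem_qd _ _⟩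
  have hf : Function.Bijective f := by
    constructor
    · rintro ⟨A, c⟩ ⟨A', c'⟩ h
      have h1 : aff A c = aff A' c' := congrArg Subtype.val h
      obtain ⟨h2, h3⟩ := aff_inj h1
      rw [h2, h3]
    · rintro ⟨M, hM⟩
      obtain ⟨A, c, rfl⟩ := exists_aff_of_mem_qd hM
      exact ⟨(A, c), rfl⟩
  rw [← Nat.card_eq_of_bijective f hf, Nat.card_prod]
  have h1 : Nat.card (SL2 (ZMod p)) = p * (p ^ 2 - 1) := by
    have := Cfsg.Agent.Lib.H1SL2.card_sl2 (F := ZMod p)
    rw [ZMod.card] at this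
    exact this
  have h2 : Nat.card (Fin 2 → ZMod p) = p ^ 2 := by
    rw [Nat.card_eq_fintype_card, Fintype.card_fun, ZMod.card, Fintype.card_fin]
  rw [h1, h2]

/-- The upper unitriangular subgroup. -/
def uU (p : ℕ) [Fact p.Prime] : Subgroup ↥(Cfsg.qd p) where
  carrier := {M | ∃ (s : ZMod p) (c : Fin 2 → ZMod p), (M : Matrix.SpecialLinearGroup (Fin 3) (ZMod p)) = aff (e12 s) c}
  mul_mem' := by
    rintro a b ⟨s, c, ha⟩ ⟨t, d, hb⟩
    refine ⟨s + t, c + (e12 s).1 *ᵥ d, ?_⟩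
    show (a : Matrix.SpecialLinearGroup (Fin 3) (ZMod p)) * b = _
    rw [ha, hb, aff_mul, e12_add]
  one_mem' := by
    refine ⟨0, 0, ?_⟩
    have h1 : e12 (0 : ZMod p) = 1 := by
      apply sl_ext <;> simp
    rw [h1, aff_one]
    rfl
  inv_mem' := by
    rintro a ⟨s, c, ha⟩
    refine ⟨-s, - ((e12 s)⁻¹.1 *ᵥ c), ?_⟩
    show (a : Matrix.SpecialLinearGroup (Fin 3) (ZMod p))⁻¹ = _
    rw [ha, aff_inv, e12_inv]

theorem mem_uU {M : ↥(Cfsg.qd p)} : M ∈ uU p ↔ ∃ (s : ZMod p) (c : Fin 2 → ZMod p),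
    (M : Matrix.SpecialLinearGroup (Fin 3) (ZMod p)) = aff (e12 s) c := Iff.rfl

theorem card_uU : Nat.card (uU p) = p ^ 3 := by
  classical
  let f : ZMod p × (Fin 2 → ZMod p) → ↥(uU p) := fun x => ⟨⟨aff (e12 x.1) x.2, aff_mem_qd _ _⟩, x.1, x.2, rfl⟩
  have hf : Function.Bijective f := by
    constructor
    · rintro ⟨A, c⟩ ⟨A', c'⟩ h
      have h1 : aff (e12 A) c = aff (e12 A') c' := congrArg (fun x : ↥(uU p) => ((x : ↥(Cfsg.qd p)) : Matrix.SpecialLinearGroup (Fin 3) (ZMod p))) h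
      obtain ⟨h2, h3⟩ := aff_inj h1
      rw [e12_injective h2, h3]
    · rintro ⟨⟨M, hM⟩, s, c, he⟩
      refine ⟨(s, c), ?_⟩
      apply Subtype.ext
      apply Subtype.ext
      exact he.symm
  rw [← Nat.card_eq_of_bijective f hf, Nat.card_prod, Nat.card_zmod]
  have h2 : Nat.card (Fin 2 → ZMod p) = p ^ 2 := by
    rw [Nat.card_eq_fintype_card, Fintype.card_fun, ZMod.card, Fintype.card_fin]
  rw [h2]
  ring

theorem aff_e12_pow (s : ZMod p) (c : Fin 2 → ZMod p) (n : ℕ) :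
    (aff (e12 s) c) ^ n = aff (e12 ((n : ZMod p) * s)) ![(n : ZMod p) * c 0 + (n.choose 2 : ZMod p) * s * c 1, (n : ZMod p) * c 1] := by
  induction n with
  | zero =>
    have h1 : e12 (0 : ZMod p) = 1 := by
      apply sl_ext <;> simp
    simp only [pow_zero, Nat.cast_zero, zero_mul, Nat.choose_zero_succ, add_zero, h1]
    have h2 : ![(0 : ZMod p), 0] = 0 := by
      funext i
      fin_cases i <;> rfl
    rw [h2, aff_one]
  | succ n ih =>
    rw [pow_succ, ih, aff_mul, e12_add, e12_mulVec]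
    congr 1
    · congr 1
      push_cast
      ring
    · funext i
      fin_cases i
      · simp only [Fin.zero_eta, Fin.isValue, Pi.add_apply, Matrix.cons_val_zero]
        rw [Nat.choose_succ_succ' n 1, Nat.choose_one_right]
        push_cast
        ring
      · simp only [Fin.mk_one, Fin.isValue, Pi.add_apply, Matrix.cons_val_one, Matrix.cons_val_fin_one]
        push_cast
        ring

theorem uU_pow (hp : p ≠ 2) {M : ↥(Cfsg.qd p)} (hM : M ∈ uU p) : M ^ p = 1 := by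
  obtain ⟨s, c, he⟩ := hM
  apply Subtype.ext
  show (M : Matrix.SpecialLinearGroup (Fin 3) (ZMod p)) ^ p = 1
  have hpp : p.Prime := Fact.out
  have h2 : 2 < p := by
    have := hpp.two_le
    omega
  have hc : ((p.choose 2 : ℕ) : ZMod p) = 0 :=
    (ZMod.natCast_eq_zero_iff _ _).2 (hpp.dvd_choose_self (by norm_num) h2)
  have h1 : e12 (0 : ZMod p) = 1 := by
    apply sl_ext <;> simp
  rw [he, aff_e12_pow, hc]
  simp only [CharP.cast_eq_zero, zero_mul, add_zero, h1]
  have h3 : ![(0 : ZMod p), 0] = 0 := by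
    funext i
    fin_cases i <;> rfl
  rw [h3, aff_one]

theorem exists_noncomm : ∃ a ∈ uU p, ∃ b ∈ uU p, a * b ≠ b * a := by
  have hb : aff (1 : SL2 (ZMod p)) ![0, 1] = aff (e12 0) ![0, 1] := by
    have h1 : e12 (0 : ZMod p) = 1 := by
      apply sl_ext <;> simp
    rw [h1]
  refine ⟨⟨aff (e12 1) 0, aff_mem_qd _ _⟩, ⟨1, 0, rfl⟩, ⟨aff (e12 0) ![0, 1], aff_mem_qd _ _⟩, ⟨0, _, rfl⟩, ?_⟩
  intro h
  have h1 : aff (e12 1) 0 * aff (e12 (0 : ZMod p)) ![0, 1] = aff (e12 0) ![0, 1] * aff (e12 1) 0 := congrArg Subtype.val h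
  rw [aff_mul, aff_mul, e12_mulVec, e12_mulVec] at h1
  obtain ⟨-, h2⟩ := aff_inj h1
  have h3 := congrFun h2 0
  simp at h3

theorem sylow_qd (hp : p ≠ 2) (P : Sylow p ↥(Cfsg.qd p)) :
    IsExtraspecial p ↥P ∧ Nat.card P = p ^ 3 ∧ Monoid.exponent ↥P = p := by
  classical
  have hpp : p.Prime := Fact.out
  have hUp : IsPGroup p (uU p) := IsPGroup.of_card card_uU
  obtain ⟨Q, hQ⟩ := hUp.exists_le_sylow
  have hQc : Nat.card (Q : Subgroup ↥(Cfsg.qd p)) = p ^ 3 := by
    obtain ⟨j, hj⟩ := IsPGroup.iff_card.1 Q.2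
    have h1 : Nat.card (Q : Subgroup ↥(Cfsg.qd p)) ∣ Nat.card ↥(Cfsg.qd p) := Subgroup.card_subgroup_dvd_card _
    rw [card_qd, hj] at h1
    have hnd : ¬ p ∣ p ^ 2 - 1 := by
      intro h
      have h2 : p ∣ p ^ 2 := dvd_pow_self p (by norm_num)
      have h3 : p ^ 2 - 1 + 1 = p ^ 2 := Nat.sub_add_cancel (Nat.one_le_pow _ _ hpp.pos)
      rw [← h3] at h2
      have h4 := (Nat.dvd_add_right h).1 h2
      exact hpp.one_lt.ne' (Nat.dvd_one.1 h4)
    have hcop : Nat.Coprime (p ^ j) (p ^ 2 - 1) :=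
      Nat.Coprime.pow_left j ((Nat.Prime.coprime_iff_not_dvd hpp).2 hnd)
    have h2 : p * (p ^ 2 - 1) * p ^ 2 = (p ^ 2 - 1) * p ^ 3 := by ring
    rw [h2] at h1
    have h3 : p ^ j ∣ p ^ 3 := hcop.dvd_of_dvd_mul_left h1
    have h4 := Subgroup.card_le_of_le hQ
    rw [card_uU, hj] at h4
    rw [hj]
    exact le_antisymm (Nat.le_of_dvd (pow_pos hpp.pos 3) h3) h4
  have hPc : Nat.card (P : Subgroup ↥(Cfsg.qd p)) = p ^ 3 := by
    rw [← hQc, Sylow.card_eq_multiplicity, Sylow.card_eq_multiplicity]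
  have hUQ : uU p = (Q : Subgroup ↥(Cfsg.qd p)) :=
    Subgroup.eq_of_le_of_card_ge hQ (by rw [hQc, card_uU])
  obtain ⟨k, hk⟩ := MulAction.exists_smul_eq ↥(Cfsg.qd p) Q P
  have hmem : ∀ x : ↥(Cfsg.qd p), x ∈ (P : Subgroup ↥(Cfsg.qd p)) ↔ k⁻¹ * x * k ∈ uU p := by
    intro x
    rw [← hk, Cfsg.Agent.Lib.LSyl.coe_smul, Cfsg.Agent.Lib.LSyl.mem_map_cn, hUQ]
  have hexp : ∀ x : ↥(P : Subgroup ↥(Cfsg.qd p)), x ^ p = 1 := by
    intro x
    have h1 := uU_pow hp ((hmem x.1).1 x.2)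
    apply Subtype.ext
    show (x : ↥(Cfsg.qd p)) ^ p = 1
    have e : (x : ↥(Cfsg.qd p)) = k * (k⁻¹ * x * k) * k⁻¹ := by group
    rw [e, conj_pow, h1]
    group
  have hnc : ¬ ∀ a b : ↥(P : Subgroup ↥(Cfsg.qd p)), a * b = b * a := by
    intro h
    obtain ⟨a, ha, b, hb, hne⟩ := exists_noncomm (p := p)
    have ha' : k * a * k⁻¹ ∈ (P : Subgroup ↥(Cfsg.qd p)) := by
      rw [hmem]
      have e : k⁻¹ * (k * a * k⁻¹) * k = a := by group
      rwa [e]
    have hb' : k * b * k⁻¹ ∈ (P : Subgroup ↥(Cfsg.qd p)) := by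
      rw [hmem]
      have e : k⁻¹ * (k * b * k⁻¹) * k = b := by group
      rwa [e]
    have h1 := congrArg Subtype.val (h ⟨_, ha'⟩ ⟨_, hb'⟩)
    have h2 : (k * a * k⁻¹) * (k * b * k⁻¹) = (k * b * k⁻¹) * (k * a * k⁻¹) := h1
    apply hne
    have h3 : k⁻¹ * ((k * a * k⁻¹) * (k * b * k⁻¹)) * k = k⁻¹ * ((k * b * k⁻¹) * (k * a * k⁻¹)) * k := by rw [h2]
    have e1 : k⁻¹ * ((k * a * k⁻¹) * (k * b * k⁻¹)) * k = a * b := by group
    have e2 : k⁻¹ * ((k * b * k⁻¹) * (k * a * k⁻¹)) * k = b * a := by group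
    rwa [e1, e2] at h3
  obtain ⟨h1, h2⟩ := extraspecial_of hPc hexp hnc
  exact ⟨h1, hPc, h2⟩

end qd

end Cfsg.Agent.Lib.LOrdP3
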