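import Mathlib
import Cfsg.Prelude.Def_SubgroupEmbedding
import Cfsg.Prelude.Def_LocalEven
import Cfsg.Agent.Lib.BaerSuzuki
import Cfsg.Agent.Lib.H1Core

set_option autoImplicit false
set_option linter.unusedSectionVars false
set_option linter.unusedVariables false
set_option linter.style.haveILetI false

namespace Cfsg.Agent.Lib.LSidki

open Subgroup Cfsg

variable {G : Type*} [Group G] [Finite G]

theorem odd_eq_one {u : G} (hu : Odd (orderOf u)) (h : u = u⁻¹) : u = 1 := by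
  have h2 : u ^ 2 = 1 := by
    rw [sq]; nth_rewrite 1 [h]; simp
  have h3 := orderOf_dvd_of_pow_eq_one h2
  have h4 : orderOf u = 1 := by
    rcases (Nat.dvd_prime Nat.prime_two).1 h3 with h5 | h5
    · exact h5
    · rw [h5] at hu
      exact absurd hu (by decide)
  exact orderOf_eq_one_iff.1 h4

theorem commute_of_sq {k h : G} (hk : Odd (orderOf k)) (hc : k ^ 2 * h = h * k ^ 2) : k * h = h * k := by
  obtain ⟨n, hn⟩ := hk
  have h1 : (k ^ 2) ^ (n + 1) = k := by
    rw [← pow_mul]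
    have : 2 * (n + 1) = orderOf k + 1 := by omega
    rw [this, pow_succ, pow_orderOf_eq_one, one_mul]
  have h2 : Commute (k ^ 2) h := hc
  have h3 := h2.pow_left (n + 1)
  rw [h1] at h3
  exact h3

theorem odd_mul_of_commute {h k : G} (hh : Odd (orderOf h)) (hk : Odd (orderOf k)) (hc : h * k = k * h) :
    Odd (orderOf (h * k)) := by
  have h1 : (h * k) ^ (orderOf h * orderOf k) = 1 := by
    have hc' : Commute h k := hc
    rw [hc'.mul_pow, pow_mul, pow_orderOf_eq_one, one_pow, one_mul, mul_comm, pow_mul, pow_orderOf_eq_one, one_pow]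
  exact Odd.of_dvd_nat (hh.mul hk) (orderOf_dvd_of_pow_eq_one h1)

theorem two_involutions_pgroup {x x' : G} (hx : x * x = 1) (hx' : x' * x' = 1) {e : ℕ}
    (hk : (x * x') ^ (2 ^ e) = 1) : IsPGroup 2 (Subgroup.closure ({x, x'} : Set G)) := by
  have hxi : x⁻¹ = x := inv_eq_of_mul_eq_one_left hx
  have hxi' : x'⁻¹ = x' := inv_eq_of_mul_eq_one_left hx'
  have hR : IsPGroup 2 (zpowers (x * x')) := by
    rintro ⟨y, hy⟩
    obtain ⟨m, rfl⟩ := Subgroup.mem_zpowers_iff.1 hy
    refine ⟨e, Subtype.ext ?_⟩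
    simp only [SubmonoidClass.mk_pow, Subgroup.coe_one]
    rw [← zpow_natCast, ← _root_.zpow_mul, mul_comm, _root_.zpow_mul, zpow_natCast, hk, _root_.one_zpow]
  have hX : IsPGroup 2 (zpowers x) := by
    rintro ⟨y, hy⟩
    obtain ⟨m, rfl⟩ := Subgroup.mem_zpowers_iff.1 hy
    refine ⟨1, Subtype.ext ?_⟩
    simp only [SubmonoidClass.mk_pow, Subgroup.coe_one]
    have : x ^ 2 ^ 1 = 1 := by rw [pow_one, sq]; exact hx
    rw [← zpow_natCast, ← _root_.zpow_mul, mul_comm, _root_.zpow_mul, zpow_natCast, this, _root_.one_zpow]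
  have hN : zpowers x ≤ normalizer (zpowers (x * x') : Set G) := by
    rw [zpowers_le, Subgroup.mem_normalizer_iff]
    intro y
    have hinv : x * (x * x') * x⁻¹ = (x * x')⁻¹ := by
      rw [_root_.mul_inv_rev, hxi, hxi', ← mul_assoc, hx, one_mul]
    have hinv2 : x⁻¹ * (x * x') * x = (x * x')⁻¹ := by
      rw [hxi]; exact (hxi ▸ hinv : x * (x * x') * x⁻¹ = (x * x')⁻¹) ▸ (by rw [hxi])
    constructor
    · intro hy
      obtain ⟨m, rfl⟩ := Subgroup.mem_zpowers_iff.1 hy
      rw [← conj_zpow, hinv]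
      exact zpow_mem (inv_mem (mem_zpowers _)) m
    · intro hy
      obtain ⟨m, hm⟩ := Subgroup.mem_zpowers_iff.1 hy
      have : y = x⁻¹ * (x * x') ^ m * x := by
        rw [hm]; group
      rw [this]
      have h2 : x⁻¹ * (x * x') ^ m * x⁻¹⁻¹ = (x⁻¹ * (x * x') * x⁻¹⁻¹) ^ m := (conj_zpow).symm
      rw [inv_inv] at h2
      rw [h2, hinv2]
      exact zpow_mem (inv_mem (mem_zpowers _)) m
  have h := IsPGroup.to_sup_of_normal_right' hX hR hN
  refine h.to_le ?_
  rw [Subgroup.closure_le]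
  intro y hy
  rcases hy with hy | hy
  · rw [hy]
    exact Subgroup.mem_sup_left (mem_zpowers _)
  · have hy' : y = x' := hy
    have h1 : y = x * (x * x') := by rw [← mul_assoc, hx, one_mul, hy']
    rw [h1]
    exact mul_mem (Subgroup.mem_sup_left (mem_zpowers _)) (Subgroup.mem_sup_right (mem_zpowers _))

/-- An involution inverting no nontrivial odd element lies in `O₂(G)`. -/
theorem mem_pCore_of_no_inverted {x : G} (hx : x * x = 1)
    (h : ∀ u : G, Odd (orderOf u) → x * u * x⁻¹ = u⁻¹ → u = 1) : x ∈ pCore 2 G := by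
  have hxi : x⁻¹ = x := inv_eq_of_mul_eq_one_left hx
  have hX : IsPGroup 2 (zpowers x) := by
    rintro ⟨y, hy⟩
    obtain ⟨m, rfl⟩ := Subgroup.mem_zpowers_iff.1 hy
    refine ⟨1, Subtype.ext ?_⟩
    simp only [SubmonoidClass.mk_pow, Subgroup.coe_one]
    have : x ^ 2 ^ 1 = 1 := by rw [pow_one, sq]; exact hx
    rw [← zpow_natCast, ← _root_.zpow_mul, mul_comm, _root_.zpow_mul, zpow_natCast, this, _root_.one_zpow]
  obtain ⟨N, hN, hNp, hle⟩ := Cfsg.Agent.Lib.BaerSuzuki.baer_suzuki (p := 2) (zpowers x) hX (by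
    intro g
    have h1 : zpowers x ⊔ (zpowers x).map (MulAut.conj g).toMonoidHom =
        Subgroup.closure {x, g * x * g⁻¹} := by
      rw [MonoidHom.map_zpowers]
      have : ((MulAut.conj g).toMonoidHom x) = g * x * g⁻¹ := rfl
      rw [this, Subgroup.zpowers_eq_closure, Subgroup.zpowers_eq_closure, ← Subgroup.closure_union]
      congr 1
    rw [h1]
    have hx' : (g * x * g⁻¹) * (g * x * g⁻¹) = 1 := by
      calc (g * x * g⁻¹) * (g * x * g⁻¹) = g * (x * x) * g⁻¹ := by group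
        _ = 1 := by rw [hx]; group
    obtain ⟨ρ, hρ⟩ : ∃ ρ, ρ = x * (g * x * g⁻¹) := ⟨_, rfl⟩
    have hρne : orderOf ρ ≠ 0 := (orderOf_pos ρ).ne'
    obtain ⟨e, m, hm, he⟩ := Nat.exists_eq_two_pow_mul_odd hρne
    have h2 : (ρ ^ (2 ^ e)) ^ m = 1 := by
      rw [← pow_mul, ← he, pow_orderOf_eq_one]
    have hinv : x * ρ * x⁻¹ = ρ⁻¹ := by
      have hi' : (g * x * g⁻¹)⁻¹ = g * x * g⁻¹ := inv_eq_of_mul_eq_one_left hx'
      rw [hρ, _root_.mul_inv_rev, hi', hxi, ← mul_assoc, hx, one_mul]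
    have h3 : ρ ^ (2 ^ e) = 1 := by
      apply h
      · exact Odd.of_dvd_nat hm (orderOf_dvd_of_pow_eq_one h2)
      · rw [← conj_pow, hinv, inv_pow]
    rw [hρ] at h3
    exact two_involutions_pgroup hx hx' h3)
  exact Cfsg.Agent.Lib.H1Core.le_pCore hN hNp (hle (mem_zpowers x))

theorem s3011 (V : Subgroup G) (hV : IsElementaryAbelian 2 V) (hV1 : V ≠ ⊥) (hS : IsSidkiPair V)
    (h4 : Nat.card V ≤ 4) : V ⊓ pCore 2 G ≠ ⊥ := by
  classical
  have hsq : ∀ v ∈ V, v * v = 1 := fun v hv => by rw [← sq]; exact hV.2 v hv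
  have hinvV : ∀ v ∈ V, v⁻¹ = v := fun v hv => inv_eq_of_mul_eq_one_left (hsq v hv)
  have hab : ∀ a ∈ V, ∀ b ∈ V, a * b = b * a := by
    intro a ha b hb
    have h := hV.1.is_comm.comm (⟨a, ha⟩ : V) ⟨b, hb⟩
    simpa using congrArg Subtype.val h
  -- structure of V
  have hfour : ∀ x ∈ V, ∀ y ∈ V, x ≠ 1 → y ≠ 1 → x ≠ y → ∀ w ∈ V, w ≠ 1 → w = x ∨ w = y ∨ w = x * y := by
    intro x hx y hy hx1 hy1 hxy w hw hw1
    by_contra hcon
    push Not at hcon
    obtain ⟨h1, h2, h3⟩ := hcon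
    have hxy1 : x * y ≠ 1 := by
      intro h
      apply hxy
      have := hsq x hx
      calc x = x * (x * y) := by rw [h, mul_one]
        _ = (x * x) * y := by group
        _ = y := by rw [this, one_mul]
    have hxyx : x * y ≠ x := fun h => hy1 (mul_eq_left.1 h)
    have hxyy : x * y ≠ y := fun h => hx1 (mul_eq_right.1 h)
    let F : Finset G := {1, x, y, x * y, w}
    have hF : F.card = 5 := by
      simp only [F]
      rw [Finset.card_insert_of_notMem, Finset.card_insert_of_notMem, Finset.card_insert_of_notMem,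
        Finset.card_insert_of_notMem, Finset.card_singleton]
      · simp only [Finset.mem_singleton]; exact h3.symm
      · simp only [Finset.mem_insert, Finset.mem_singleton, not_or]
        exact ⟨hxyy.symm, h2.symm⟩
      · simp only [Finset.mem_insert, Finset.mem_singleton, not_or]
        exact ⟨hxy, hxyx.symm, h1.symm⟩
      · simp only [Finset.mem_insert, Finset.mem_singleton, not_or]
        exact ⟨hx1.symm, hy1.symm, hxy1.symm, hw1.symm⟩
    have hsub : ((F : Finset G) : Set G) ⊆ (V : Set G) := by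
      intro a ha
      simp only [F, Finset.coe_insert, Finset.coe_singleton, Set.mem_insert_iff, Set.mem_singleton_iff] at ha
      rcases ha with rfl | rfl | rfl | rfl | rfl
      · exact one_mem _
      · exact hx
      · exact hy
      · exact mul_mem hx hy
      · exact hw
    have := Set.ncard_le_ncard hsub (Set.toFinite _)
    rw [Set.ncard_coe_finset, hF] at this
    have h5 : Nat.card V = (V : Set G).ncard := Nat.card_coe_set_eq (V : Set G)
    omega
  -- the key contradiction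
  have hM : ∀ x ∈ V, ∀ y ∈ V, x ≠ 1 → y ≠ 1 → x ≠ y → ∀ k h : G, k ≠ 1 → h ≠ 1 → Odd (orderOf k) → Odd (orderOf h) →
      x * k = k * x → y * k * y⁻¹ = k⁻¹ → y * h = h * y → x * h * x⁻¹ = h⁻¹ → False := by
    intro x hx y hy hx1 hy1 hxy k h hk1 hh1 hko hho hxk hyk hyh hxh
    have hfo := hfour x hx y hy hx1 hy1 hxy
    -- `k` and `h` commute
    have hkh : k * h = h * k := by
      obtain ⟨h', hh'⟩ : ∃ h', h' = k⁻¹ * h * k := ⟨_, rfl⟩
      have hh'o : Odd (orderOf h') := by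
        have : orderOf h' = orderOf h := by
          rw [hh']
          have := MulEquiv.orderOf_eq (MulAut.conj k⁻¹) h
          simpa [MulAut.conj_apply] using this
        rw [this]; exact hho
      have hxh' : x * h' * x⁻¹ = h'⁻¹ := by
        have hki : x * k⁻¹ = k⁻¹ * x := by
          have h1 : k⁻¹ * (x * k) * k⁻¹ = k⁻¹ * (k * x) * k⁻¹ := by rw [hxk]
          calc x * k⁻¹ = k⁻¹ * (k * x) * k⁻¹ := by group
            _ = k⁻¹ * (x * k) * k⁻¹ := by rw [hxk]
            _ = k⁻¹ * x := by group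
        calc x * h' * x⁻¹ = (x * k⁻¹) * h * k * x⁻¹ := by rw [hh']; group
          _ = k⁻¹ * (x * h * k * x⁻¹) := by rw [hki]; group
          _ = k⁻¹ * (x * h * x⁻¹) * (x * k * x⁻¹) := by group
          _ = k⁻¹ * h⁻¹ * k := by
            rw [hxh, hxk]; group
          _ = h'⁻¹ := by rw [hh']; group
      obtain ⟨w, hw, hw1, hwc⟩ := hS h' x hx hh'o hxh'
      rcases hfo w hw hw1 with rfl | rfl | rfl
      · exfalso
        have h1 : w * h' * w⁻¹ = h' := by rw [hwc]; group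
        rw [h1] at hxh'
        have h2 := odd_eq_one hh'o hxh'
        apply hh1
        rw [hh'] at h2
        have : h = k * (k⁻¹ * h * k) * k⁻¹ := by group
        rw [this, h2]; group
      · have h1 : w * h' * w⁻¹ = h' := by rw [hwc]; group
        have hyki : w * k⁻¹ * w⁻¹ = k := by
          have : w * k⁻¹ * w⁻¹ = (w * k * w⁻¹)⁻¹ := by group
          rw [this, hyk, inv_inv]
        have h2 : w * h' * w⁻¹ = k * h * k⁻¹ := by
          have h3 : w * h * w⁻¹ = h := by rw [hyh]; group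
          calc w * h' * w⁻¹ = (w * k⁻¹ * w⁻¹) * (w * h * w⁻¹) * (w * k * w⁻¹) := by rw [hh']; group
            _ = k * h * k⁻¹ := by rw [hyki, h3, hyk]
        rw [h2, hh'] at h1
        apply commute_of_sq hko
        calc k ^ 2 * h = k * (k * h * k⁻¹) * k := by rw [sq]; group
          _ = k * (k⁻¹ * h * k) * k := by rw [h1]
          _ = h * k ^ 2 := by rw [sq]; group
      · exfalso
        -- `xy` inverts both
        have hcom := hab x hx y hy
        have hw2 : (x * y)⁻¹ = x * y := hinvV _ (mul_mem hx hy)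
        have hyi : y⁻¹ = y := hinvV y hy
        have hxi : x⁻¹ = x := hinvV x hx
        have hck : (x * y) * k * (x * y)⁻¹ = k⁻¹ := by
          have h3 : x * k⁻¹ * x⁻¹ = k⁻¹ := by
            have h4 : x * k * x⁻¹ = k := by rw [hxk]; group
            have : x * k⁻¹ * x⁻¹ = (x * k * x⁻¹)⁻¹ := by group
            rw [this, h4]
          calc (x * y) * k * (x * y)⁻¹ = x * (y * k * y⁻¹) * x⁻¹ := by group
            _ = k⁻¹ := by rw [hyk, h3]
        have hch : (x * y) * h * (x * y)⁻¹ = h⁻¹ := by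
          have h3 : y * h * y⁻¹ = h := by rw [hyh]; group
          calc (x * y) * h * (x * y)⁻¹ = x * (y * h * y⁻¹) * x⁻¹ := by group
            _ = h⁻¹ := by rw [h3, hxh]
        have h1 : (x * y) * h' * (x * y)⁻¹ = h' := by rw [hwc]; group
        have h2 : (x * y) * h' * (x * y)⁻¹ = k * h⁻¹ * k⁻¹ := by
          have hcki : (x * y) * k⁻¹ * (x * y)⁻¹ = k := by
            have : (x * y) * k⁻¹ * (x * y)⁻¹ = ((x * y) * k * (x * y)⁻¹)⁻¹ := by group
            rw [this, hck, inv_inv]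
          calc (x * y) * h' * (x * y)⁻¹
              = ((x * y) * k⁻¹ * (x * y)⁻¹) * ((x * y) * h * (x * y)⁻¹) * ((x * y) * k * (x * y)⁻¹) := by
                rw [hh']; group
            _ = k * h⁻¹ * k⁻¹ := by rw [hcki, hch, hck]
        rw [h2, hh'] at h1
        -- `k⁻² h k² = h⁻¹`
        have h3 : k ^ 2 * h⁻¹ * (k ^ 2)⁻¹ = h := by
          calc k ^ 2 * h⁻¹ * (k ^ 2)⁻¹ = k * (k * h⁻¹ * k⁻¹) * k⁻¹ := by rw [sq]; group
            _ = k * (k⁻¹ * h * k) * k⁻¹ := by rw [h1]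
            _ = h := by group
        have h4 : k ^ 2 * h * (k ^ 2)⁻¹ = h⁻¹ := by
          have : k ^ 2 * h * (k ^ 2)⁻¹ = (k ^ 2 * h⁻¹ * (k ^ 2)⁻¹)⁻¹ := by group
          rw [this, h3]
        have h5 : (k ^ 2) ^ 2 * h = h * (k ^ 2) ^ 2 := by
          have : (k ^ 2) ^ 2 * h * ((k ^ 2) ^ 2)⁻¹ = h := by
            calc (k ^ 2) ^ 2 * h * ((k ^ 2) ^ 2)⁻¹ = k ^ 2 * (k ^ 2 * h * (k ^ 2)⁻¹) * (k ^ 2)⁻¹ := by
                  rw [sq (k ^ 2)]; group
              _ = h := by rw [h4, h3]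
          nth_rewrite 2 [← this]
          group
        have hk2o : Odd (orderOf (k ^ 2)) := by
          apply Odd.of_dvd_nat hko
          rw [orderOf_dvd_iff_pow_eq_one, ← pow_mul, mul_comm, pow_mul, pow_orderOf_eq_one, one_pow]
        have h6 : k ^ 2 * h = h * k ^ 2 := commute_of_sq hk2o h5
        have h7 : k ^ 2 * h * (k ^ 2)⁻¹ = h := by rw [h6]; group
        rw [h7] at h4
        exact hh1 (odd_eq_one hho h4)
    -- commuting elements of different types
    have hhk : h * k = k * h := hkh.symm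
    have ho := odd_mul_of_commute hho hko hhk
    have hxyinv : (x * y) * (h * k) * (x * y)⁻¹ = (h * k)⁻¹ := by
      have hck : (x * y) * k * (x * y)⁻¹ = k⁻¹ := by
        have h3 : x * k⁻¹ * x⁻¹ = k⁻¹ := by
          have h4 : x * k * x⁻¹ = k := by rw [hxk]; group
          have : x * k⁻¹ * x⁻¹ = (x * k * x⁻¹)⁻¹ := by group
          rw [this, h4]
        calc (x * y) * k * (x * y)⁻¹ = x * (y * k * y⁻¹) * x⁻¹ := by group
          _ = k⁻¹ := by rw [hyk, h3]
      have hch : (x * y) * h * (x * y)⁻¹ = h⁻¹ := by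
        have h3 : y * h * y⁻¹ = h := by rw [hyh]; group
        calc (x * y) * h * (x * y)⁻¹ = x * (y * h * y⁻¹) * x⁻¹ := by group
          _ = h⁻¹ := by rw [h3, hxh]
      calc (x * y) * (h * k) * (x * y)⁻¹ = ((x * y) * h * (x * y)⁻¹) * ((x * y) * k * (x * y)⁻¹) := by group
        _ = h⁻¹ * k⁻¹ := by rw [hch, hck]
        _ = (k * h)⁻¹ := by group
        _ = (h * k)⁻¹ := by rw [hkh]
    obtain ⟨w, hw, hw1, hwc⟩ := hS (h * k) (x * y) (mul_mem hx hy) ho hxyinv
    rcases hfo w hw hw1 with rfl | rfl | rfl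
    · -- `x`
      have h1 : w * (h * k) * w⁻¹ = h * k := by rw [hwc]; group
      have h2 : w * (h * k) * w⁻¹ = h⁻¹ * k := by
        have h3 : w * k * w⁻¹ = k := by rw [hxk]; group
        calc w * (h * k) * w⁻¹ = (w * h * w⁻¹) * (w * k * w⁻¹) := by group
          _ = h⁻¹ * k := by rw [hxh, h3]
      rw [h2] at h1
      exact hh1 (odd_eq_one hho (mul_right_cancel h1).symm)
    · -- `y`
      have h1 : w * (h * k) * w⁻¹ = h * k := by rw [hwc]; group
      have h2 : w * (h * k) * w⁻¹ = h * k⁻¹ := by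
        have h3 : w * h * w⁻¹ = h := by rw [hyh]; group
        calc w * (h * k) * w⁻¹ = (w * h * w⁻¹) * (w * k * w⁻¹) := by group
          _ = h * k⁻¹ := by rw [h3, hyk]
      rw [h2] at h1
      exact hk1 (odd_eq_one hko (mul_left_cancel h1).symm)
    · -- `xy`
      have h1 : (x * y) * (h * k) * (x * y)⁻¹ = h * k := by rw [hwc]; group
      rw [h1] at hxyinv
      have h2 := odd_eq_one ho hxyinv
      have h3 : h = k⁻¹ := eq_inv_of_mul_eq_one_left h2
      apply hh1
      apply odd_eq_one hho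
      have h4 : x * k⁻¹ * x⁻¹ = k⁻¹ := by
        have h5 : x * k * x⁻¹ = k := by rw [hxk]; group
        have : x * k⁻¹ * x⁻¹ = (x * k * x⁻¹)⁻¹ := by group
        rw [this, h5]
      rw [h3] at hxh
      rw [h4] at hxh
      rw [h3]
      exact hxh
  -- finish
  by_contra hcon
  have hnot : ∀ x ∈ V, x ≠ 1 → ∃ u : G, Odd (orderOf u) ∧ x * u * x⁻¹ = u⁻¹ ∧ u ≠ 1 := by
    intro x hx hx1
    by_contra hno
    push Not at hno
    have := mem_pCore_of_no_inverted (hsq x hx) (fun u hu hinv => hno u hu hinv)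
    apply hx1
    have h2 : x ∈ V ⊓ pCore 2 G := ⟨hx, this⟩
    rw [hcon] at h2
    exact h2
  obtain ⟨a, ha, ha1⟩ : ∃ a ∈ V, a ≠ 1 := by
    obtain ⟨a', ha'⟩ := Subgroup.ne_bot_iff_exists_ne_one.1 hV1
    exact ⟨a'.1, a'.2, fun h => ha' (Subtype.ext h)⟩
  -- type of an inverted element
  have htype : ∀ v ∈ V, ∀ u : G, Odd (orderOf u) → v * u * v⁻¹ = u⁻¹ → u ≠ 1 →
      ∃ w ∈ V, w ≠ 1 ∧ w ≠ v ∧ w * u = u * w := by
    intro v hv u hu hinv hu1
    obtain ⟨w, hw, hw1, hwc⟩ := hS u v hv hu hinv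
    refine ⟨w, hw, hw1, ?_, hwc⟩
    rintro rfl
    have h1 : w * u * w⁻¹ = u := by rw [hwc]; group
    rw [h1] at hinv
    exact hu1 (odd_eq_one hu hinv)
  obtain ⟨h₁, hh₁o, hh₁i, hh₁1⟩ := hnot a ha ha1
  obtain ⟨b, hb, hb1, hba, hbc⟩ := htype a ha h₁ hh₁o hh₁i hh₁1
  obtain ⟨k, hko, hki, hk1⟩ := hnot b hb hb1
  obtain ⟨c, hc, hc1, hcb, hcc⟩ := htype b hb k hko hki hk1
  -- `h₁` is of type `b`, `k` is of type `c`
  exact hM c hc b hb hc1 hb1 hcb k h₁ hk1 hh₁1 hko hh₁o hcc hki hbc (by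
    -- `c` inverts `h₁`
    rcases hfour a ha b hb ha1 hb1 hba.symm c hc hc1 with h1 | h1 | h1
    · rw [h1]; exact hh₁i
    · exact absurd h1 hcb
    · rw [h1]
      have h3 : b * h₁ * b⁻¹ = h₁ := by rw [hbc]; group
      calc a * b * h₁ * (a * b)⁻¹ = a * (b * h₁ * b⁻¹) * a⁻¹ := by group
        _ = h₁⁻¹ := by rw [h3, hh₁i])

end Cfsg.Agent.Lib.LSidki
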