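import Mathlib
import Cfsg.Agent.Lib.H1FrobThm
import Cfsg.Agent.Lib.H1Cop
import Cfsg.Agent.Lib.PNilp
import Cfsg.Agent.Lib.PQuad2
import Cfsg.Agent.Lib.PGlaub

set_option autoImplicit false
set_option linter.unusedSectionVars false
set_option linter.unusedVariables false
set_option linter.style.haveILetI false

/-! A solvable subgroup central in every solvable overgroup is central. -/

namespace Cfsg.Agent.Lib.LSolvCen

open Subgroup Cfsg
open scoped Pointwise commutatorElement

universe u

theorem card_fix_aux {T : Type*} [Finite T] (f : Function.End T) (r : ℕ) [hr : Fact r.Prime]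
    (hf : f ^ r = 1) (x₀ : T) (hfix : ∀ x, f x = x ↔ x = x₀) (hd : r ∣ Nat.card T) : False := by
  classical
  haveI : Fintype T := Fintype.ofFinite T
  have hf' : f ^ r ^ 1 = 1 := by rw [pow_one]; exact hf
  have h1 := Equiv.Perm.card_fixedPoints_modEq hf'
  have h4 : ∀ (i : Fintype ↑(Function.fixedPoints f)), @Fintype.card _ i = 1 := fun i =>
    Fintype.card_eq_one_iff.2 ⟨⟨x₀, (hfix _).2 rfl⟩, fun y => Subtype.ext ((hfix _).1 y.2)⟩
  rw [h4] at h1
  rw [Nat.card_eq_fintype_card] at hd
  have h5 := (Nat.modEq_iff_dvd' (Fintype.card_pos_iff.2 ⟨x₀⟩)).1 h1.symm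
  have h6 : r ∣ 1 := by
    have := (Nat.dvd_sub hd h5)
    have e : Fintype.card T - (Fintype.card T - 1) = 1 := by
      have := Fintype.card_pos_iff.2 ⟨x₀⟩
      omega
    rwa [e] at this
  exact hr.out.one_lt.ne' (Nat.dvd_one.1 h6)

theorem frob_solvable {Y : Type u} [Group Y] [Finite Y] (B M T : Subgroup Y)
    (hBcomm : ∀ a ∈ B, ∀ b ∈ B, a * b = b * a) (hBM : B ≤ M)
    (hmax : ∀ R : Subgroup Y, B ≤ R → R = ⊤ ∨ R ≤ M) (hF : IsFrobeniusComplement M)
    (hTn : T.Normal) (hT : IsComplement' T M) : Group.IsSolvable Y := by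
  classical
  obtain ⟨hM1, hMtop, hfrob⟩ := hF
  have hdisj : T ⊓ M = ⊥ := disjoint_iff.1 hT.disjoint
  have hsup : T ⊔ M = ⊤ := hT.sup_eq_top
  have hcard : Nat.card T * Nat.card M = Nat.card Y := hT.card_mul
  have hT1 : T ≠ ⊥ := by
    rintro rfl
    rw [bot_sup_eq] at hsup
    exact hMtop hsup
  have hTB : T ⊔ B = ⊤ := by
    rcases hmax (T ⊔ B) le_sup_right with h | h
    · exact h
    · exfalso
      apply hT1
      have h1 : T ≤ T ⊓ M := le_inf le_rfl (le_sup_left.trans h)
      rw [hdisj] at h1
      exact le_bot_iff.1 h1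
  have hMB : M ≤ B := by
    intro m hm
    have h1 : m ∈ ((T ⊔ B : Subgroup Y) : Set Y) := by rw [hTB]; exact mem_top m
    rw [Subgroup.normal_mul] at h1
    obtain ⟨t, ht, b, hb, rfl⟩ := Set.mem_mul.1 h1
    have h2 : t ∈ T ⊓ M := by
      refine mem_inf.2 ⟨ht, ?_⟩
      have : t = t * b * b⁻¹ := by group
      rw [this]
      exact M.mul_mem hm (M.inv_mem (hBM hb))
    rw [hdisj, mem_bot] at h2
    rw [h2, one_mul]
    exact hb
  have hMcomm : ∀ a ∈ M, ∀ b ∈ M, a * b = b * a := fun a ha b hb => hBcomm a (hMB ha) b (hMB hb)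
  -- coprimality
  have hcop : (Nat.card M).Coprime (Nat.card T) := by
    by_contra hne
    obtain ⟨r, hr, hr1, hr2⟩ := Nat.Prime.not_coprime_iff_dvd.1 hne
    haveI : Fact r.Prime := ⟨hr⟩
    obtain ⟨⟨m, hm⟩, hmo⟩ := exists_prime_orderOf_dvd_card' r hr1
    have hmo' : orderOf m = r := by rw [← hmo]; exact (Subgroup.orderOf_mk m hm).symm
    have hm1 : m ≠ 1 := by
      rintro rfl
      rw [orderOf_one] at hmo'
      exact hr.one_lt.ne hmo'
    let f : Function.End T := fun t => ⟨m * t * m⁻¹, hTn.conj_mem _ t.2 _⟩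
    have hfn : ∀ (n : ℕ) (t : T), (((f ^ n) t : T) : Y) = m ^ n * t * (m ^ n)⁻¹ := by
      intro n
      induction n with
      | zero => intro t; simp; rfl
      | succ n ih =>
        intro t
        rw [pow_succ]
        show (((f ^ n) (f t) : T) : Y) = _
        rw [ih]
        show m ^ n * (m * t * m⁻¹) * (m ^ n)⁻¹ = _
        rw [pow_succ]; group
    have hfr : f ^ r = 1 := by
      funext t
      apply Subtype.ext
      rw [hfn, ← hmo', pow_orderOf_eq_one]
      simp
      rfl
    refine card_fix_aux f r hfr 1 ?_ hr2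
    rintro ⟨t, ht⟩
    constructor
    · intro h
      have h1 : m * t * m⁻¹ = t := congrArg Subtype.val h
      by_contra ht1
      have ht1' : t ≠ 1 := fun e => ht1 (Subtype.ext e)
      have htM : t ∉ M := by
        intro htM
        have : t ∈ T ⊓ M := mem_inf.2 ⟨ht, htM⟩
        rw [hdisj, mem_bot] at this
        exact ht1' this
      have h2 := hfrob t htM
      have h3 : m ∈ M ⊓ (MulAut.conj t • M) := by
        refine mem_inf.2 ⟨hm, ?_⟩
        rw [Subgroup.mem_pointwise_smul_iff_inv_smul_mem]
        have e : (MulAut.conj t)⁻¹ • m = t⁻¹ * m * t := by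
          rw [MulAut.smul_def, ← map_inv, MulAut.conj_apply, inv_inv]
        rw [e]
        have e2 : t⁻¹ * m * t = m := by
          have : m * t = t * m := mul_inv_eq_iff_eq_mul.1 h1
          rw [mul_assoc, this]; group
        rw [e2]
        exact hm
      rw [h2, mem_bot] at h3
      exact hm1 h3
    · intro h
      rw [h]
      apply Subtype.ext
      show m * 1 * m⁻¹ = 1
      group
  have hsolvM : Group.IsSolvable M := isSolvable_of_comm (fun a b => Subtype.ext (hMcomm a a.2 b b.2))
  have hcardT : Nat.card T ≠ 1 := fun h => hT1 (Subgroup.card_eq_one.1 h)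
  obtain ⟨q, hq, hqd⟩ := Nat.exists_prime_and_dvd hcardT
  haveI : Fact q.Prime := ⟨hq⟩
  have hMN : M ≤ normalizer (T : Set Y) := by
    haveI := hTn
    rw [normalizer_eq_top T]; exact le_top
  obtain ⟨R, hR, hRM⟩ := Cfsg.Agent.Lib.H1Cop.exists_invariant_sylow hMN hcop (Or.inl hsolvM) q
  obtain ⟨hRT, hRp, hRi⟩ := hR
  have hRtop : M ⊔ R = ⊤ := by
    rcases hmax (M ⊔ R) (hBM.trans le_sup_left) with h | h
    · exact h
    · exfalso
      have hR1 : R ≤ T ⊓ M := le_inf hRT (le_sup_right.trans h)
      rw [hdisj, le_bot_iff] at hR1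
      apply hRi
      rw [hR1, Subgroup.relIndex_bot_left]
      exact hqd
  have hc := Cfsg.Agent.Lib.PQuad.card_sup_mul_inf_of_normalizes M R hRM
  have hinf : M ⊓ R = ⊥ := by
    rw [eq_bot_iff, ← hdisj]
    exact fun x hx => mem_inf.2 ⟨hRT (mem_inf.1 hx).2, (mem_inf.1 hx).1⟩
  rw [hRtop, hinf, Subgroup.card_bot, Subgroup.card_top, mul_one, ← hcard, mul_comm] at hc
  have hc2 : Nat.card T = Nat.card R := Nat.eq_of_mul_eq_mul_left Nat.card_pos hc
  have hRT' : R = T := Subgroup.eq_of_le_of_card_ge hRT hc2.le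
  have hTp : IsPGroup q T := hRT' ▸ hRp
  haveI : Group.IsNilpotent T := hTp.isNilpotent
  haveI : Group.IsSolvable (Y ⧸ T) := by
    apply isSolvable_of_comm
    intro a b
    induction a using QuotientGroup.induction_on with
    | H a =>
    induction b using QuotientGroup.induction_on with
    | H b =>
    have key : ∀ x : Y, ∃ m ∈ M, (x : Y ⧸ T) = (m : Y ⧸ T) := by
      intro x
      have h1 : x ∈ ((T ⊔ M : Subgroup Y) : Set Y) := by rw [hsup]; exact mem_top x
      rw [Subgroup.normal_mul] at h1
      obtain ⟨t, ht, m, hm, rfl⟩ := Set.mem_mul.1 h1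
      refine ⟨m, hm, ?_⟩
      rw [QuotientGroup.mk_mul]
      have : (t : Y ⧸ T) = 1 := (QuotientGroup.eq_one_iff t).2 ht
      rw [this, one_mul]
    obtain ⟨m, hm, e1⟩ := key a
    obtain ⟨n, hn, e2⟩ := key b
    rw [e1, e2, ← QuotientGroup.mk_mul, ← QuotientGroup.mk_mul, hMcomm m hm n hn]
  refine solvable_of_ker_le_range T.subtype (QuotientGroup.mk' T) ?_
  rw [QuotientGroup.ker_mk', Subgroup.range_subtype]

/-- The criterion through the normal closure. -/
theorem central_of_closure (G : Type u) [Group G] [Finite G] (A : Subgroup G)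
    (hc : ∀ S : Subgroup G, A ≤ S → Group.IsSolvable S → ∀ a ∈ A, ∀ s ∈ S, a * s = s * a)
    (hW : Group.IsSolvable (normalClosure (A : Set G))) (a : G) (ha : a ∈ A) (g : G) : a * g = g * a := by
  set W := normalClosure (A : Set G) with hWdef
  haveI hWn : W.Normal := inferInstance
  have hAW : A ≤ W := le_normalClosure
  have h1 := hc W hAW hW
  have hWC : W ≤ centralizer (W : Set G) := by
    apply normalClosure_le_normal
    intro x hx
    rw [SetLike.mem_coe, mem_centralizer_iff]
    intro w hw
    exact (h1 x hx w hw).symm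
  have hWcomm : ∀ x ∈ W, ∀ y ∈ W, x * y = y * x := by
    intro x hx y hy
    exact ((mem_centralizer_iff.1 (hWC hx)) y hy).symm
  -- the solvable overgroup
  set S := W ⊔ zpowers g with hS
  have hWS : W ≤ S := le_sup_left
  have hgS : g ∈ S := (le_sup_right : zpowers g ≤ S) (mem_zpowers g)
  haveI : Group.IsSolvable W := isSolvable_of_comm (fun a b => Subtype.ext (hWcomm a a.2 b b.2))
  haveI : Group.IsSolvable (zpowers (g : G ⧸ W)) := inferInstance
  have hmem : ∀ x ∈ S, (x : G ⧸ W) ∈ zpowers (g : G ⧸ W) := by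
    intro x hx
    have h2 : S.map (QuotientGroup.mk' W) ≤ zpowers (g : G ⧸ W) := by
      rw [hS, Subgroup.map_sup, QuotientGroup.map_mk'_self, bot_sup_eq, MonoidHom.map_zpowers]
      exact le_rfl
    exact h2 (mem_map_of_mem _ hx)
  let f : S →* zpowers (g : G ⧸ W) :=
    ((QuotientGroup.mk' W).comp S.subtype).codRestrict _ (fun x => hmem x x.2)
  have hS' : Group.IsSolvable S := by
    refine solvable_of_ker_le_range (Subgroup.inclusion hWS) f ?_
    rintro ⟨x, hx⟩ hxk
    have h2 : ((x : G) : G ⧸ W) = 1 := congrArg Subtype.val (MonoidHom.mem_ker.1 hxk)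
    have hxW : x ∈ W := (QuotientGroup.eq_one_iff x).1 h2
    exact ⟨⟨x, hxW⟩, rfl⟩
  exact hc S (hAW.trans hWS) hS' a ha g hgS

/-- The main theorem. -/
theorem main : ∀ (n : ℕ) (G : Type u) [Group G] [Finite G] (A : Subgroup G), Nat.card G = n →
    Group.IsSolvable A →
    (∀ S : Subgroup G, A ≤ S → Group.IsSolvable S → ∀ a ∈ A, ∀ s ∈ S, a * s = s * a) →
    ∀ a ∈ A, ∀ g, a * g = g * a := by
  intro n
  induction n using Nat.strong_induction_on with
  | _ n ih =>
  intro G _ _ A hn hA hc
  classical
  set M := centralizer (A : Set G) with hMdef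
  have hAcomm : ∀ a ∈ A, ∀ b ∈ A, a * b = b * a := fun a ha b hb => hc A le_rfl hA a ha b hb
  have hAM : A ≤ M := fun a ha => mem_centralizer_iff.2 (fun b hb => hAcomm b hb a ha)
  have hprop : ∀ H : Subgroup G, A ≤ H → H ≠ ⊤ → H ≤ M := by
    intro H hAH hH h hh
    rw [hMdef, mem_centralizer_iff]
    intro a ha
    have hlt : Nat.card H < n := by
      rw [← hn, ← Subgroup.card_top (G := G)]
      exact Cfsg.Agent.Lib.PNilp.card_lt_of_lt' (lt_top_iff_ne_top.2 hH)
    have hA' : Group.IsSolvable (A.subgroupOf H) :=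
      solvable_of_solvable_injective (f := (Subgroup.subgroupOfEquivOfLe hAH).toMonoidHom)
        (Subgroup.subgroupOfEquivOfLe hAH).injective
    have := ih _ hlt ↥H (A.subgroupOf H) rfl hA' (by
      intro S hS hSs a ha s hs
      have hS' : Group.IsSolvable (S.map H.subtype) :=
        solvable_of_solvable_injective (f := (S.equivMapOfInjective _ H.subtype_injective).symm.toMonoidHom)
          (S.equivMapOfInjective _ H.subtype_injective).symm.injective
      have hAS : A ≤ S.map H.subtype := by
        intro x hx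
        exact ⟨⟨x, hAH hx⟩, hS (mem_subgroupOf.2 hx), rfl⟩
      have h1 := hc _ hAS hS' (a : G) (mem_subgroupOf.1 ha) (s : G) ⟨s, hs, rfl⟩
      exact Subtype.ext h1) ⟨a, hAH ha⟩ (mem_subgroupOf.2 ha) ⟨h, hh⟩
    exact congrArg Subtype.val this
  by_contra hcon
  have hMtop : M ≠ ⊤ := by
    intro h
    apply hcon
    intro a ha g
    have : g ∈ M := by rw [h]; exact mem_top g
    exact ((mem_centralizer_iff.1 this) a ha)
  apply hcon
  apply central_of_closure G A hc
  set W := normalClosure (A : Set G) with hWdef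
  by_cases hMn : M.Normal
  · -- Case II
    haveI := hMn
    have h1 : W ≤ M := normalClosure_le_normal hAM
    have h2 : W ≤ centralizer (M : Set G) := by
      apply normalClosure_le_normal
      intro a ha
      rw [SetLike.mem_coe, mem_centralizer_iff]
      intro m hm
      exact ((mem_centralizer_iff.1 hm) a ha).symm
    exact isSolvable_of_comm (fun a b => Subtype.ext ((mem_centralizer_iff.1 (h2 b.2)) a (h1 a.2)))
  -- Case I
  have hNM : normalizer (M : Set G) ≤ M := by
    apply hprop _ (hAM.trans le_normalizer)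
    intro h
    apply hMn
    exact normalizer_eq_top_iff.1 h
  have hconj : ∀ g, g ∉ M → ∃ a ∈ A, g * a * g⁻¹ ∉ M := by
    intro g hg
    by_contra hall
    push Not at hall
    apply hg
    apply hNM
    apply Cfsg.Agent.Lib.PGlaub.mem_normalizer_of_conj_mem
    set H : Subgroup G := M.map (MulAut.conj g).toMonoidHom with hH
    have hmemH : ∀ x, x ∈ H ↔ g⁻¹ * x * g ∈ M := by
      intro x
      constructor
      · rintro ⟨m, hm, rfl⟩
        have e : g⁻¹ * (MulAut.conj g).toMonoidHom m * g = m := by
          simp [MulAut.conj_apply]; group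
        rw [e]
        exact hm
      · intro hx
        refine ⟨_, hx, ?_⟩
        simp [MulAut.conj_apply]; group
    have hAH : A ≤ H := by
      intro a ha
      rw [hmemH, hMdef, mem_centralizer_iff]
      intro b hb
      have h1 := (mem_centralizer_iff.1 (hall b hb)) a ha
      have h2 : g⁻¹ * (a * (g * b * g⁻¹)) * g = b * (g⁻¹ * a * g) := by
        rw [h1]; group
      calc b * (g⁻¹ * a * g) = g⁻¹ * (a * (g * b * g⁻¹)) * g := h2.symm
        _ = _ := by group
    have hHtop : H ≠ ⊤ := by
      intro h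
      apply hMtop
      rw [eq_top_iff]
      intro x _
      have : g * x * g⁻¹ ∈ H := by rw [h]; exact mem_top _
      rw [hmemH] at this
      have e : g⁻¹ * (g * x * g⁻¹) * g = x := by group
      rwa [e] at this
    intro m hm
    apply hprop H hAH hHtop
    exact ⟨m, hm, rfl⟩
  set K := M.normalCore with hK
  haveI hKn : K.Normal := inferInstance
  have hKM : K ≤ M := normalCore_le M
  have hD : ∀ g, g ∉ M → ∀ x, x ∈ M → g⁻¹ * x * g ∈ M → x ∈ K := by
    intro g hg x hx hx'
    set H : Subgroup G := M.map (MulAut.conj g).toMonoidHom with hH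
    have hmemH : ∀ x, x ∈ H ↔ g⁻¹ * x * g ∈ M := by
      intro x
      constructor
      · rintro ⟨m, hm, rfl⟩
        have e : g⁻¹ * (MulAut.conj g).toMonoidHom m * g = m := by
          simp [MulAut.conj_apply]; group
        rw [e]
        exact hm
      · intro hx
        refine ⟨_, hx, ?_⟩
        simp [MulAut.conj_apply]; group
    set D := M ⊓ H with hDdef
    have hAN : A ≤ normalizer (D : Set G) := by
      intro a ha
      have : a ∈ centralizer (D : Set G) := by
        rw [mem_centralizer_iff]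
        intro d hd
        exact ((mem_centralizer_iff.1 (mem_inf.1 hd).1) a ha).symm
      exact centralizer_le_normalizer _ this
    have hNtop : normalizer (D : Set G) = ⊤ := by
      by_contra hne
      obtain ⟨a, ha, hga⟩ := hconj g hg
      apply hga
      apply hprop _ hAN hne
      apply centralizer_le_normalizer
      rw [mem_centralizer_iff]
      intro d hd
      have hd2 := (hmemH d).1 (mem_inf.1 hd).2
      have h1 := (mem_centralizer_iff.1 hd2) a ha
      have h2 : g * (a * (g⁻¹ * d * g)) * g⁻¹ = d * (g * a * g⁻¹) := by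
        rw [h1]; group
      rw [← h2]; group
    have hDn : D.Normal := normalizer_eq_top_iff.1 hNtop
    have hDK : D ≤ K := by
      haveI := hDn
      exact normal_le_normalCore.2 inf_le_left
    exact hDK (mem_inf.2 ⟨hx, (hmemH x).2 hx'⟩)
  -- the quotient
  set Mb : Subgroup (G ⧸ K) := M.map (QuotientGroup.mk' K) with hMb
  set Bb : Subgroup (G ⧸ K) := A.map (QuotientGroup.mk' K) with hBb
  have hmemMb : ∀ x : G, (x : G ⧸ K) ∈ Mb ↔ x ∈ M := by
    intro x
    constructor
    · rintro ⟨m, hm, e⟩
      have h1 : m⁻¹ * x ∈ K := QuotientGroup.eq.1 e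
      have : x = m * (m⁻¹ * x) := by group
      rw [this]
      exact M.mul_mem hm (hKM h1)
    · intro hx
      exact ⟨x, hx, rfl⟩
  have hFrob : IsFrobeniusComplement Mb := by
    refine ⟨?_, ?_, ?_⟩
    · intro h
      apply hMn
      have h1 : M ≤ K := by
        intro m hm
        have h2 : (m : G ⧸ K) ∈ Mb := (hmemMb m).2 hm
        rw [h, mem_bot, QuotientGroup.eq_one_iff] at h2
        exact h2
      have h2 : M = K := le_antisymm h1 hKM
      rw [h2]
      exact hKn
    · intro h
      apply hMtop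
      rw [eq_top_iff]
      intro x _
      rw [← hmemMb, h]
      exact mem_top _
    · intro g hg
      induction g using QuotientGroup.induction_on with
      | H g =>
      rw [hmemMb] at hg
      rw [eq_bot_iff]
      intro z hz
      induction z using QuotientGroup.induction_on with
      | H x =>
      obtain ⟨h1, h2⟩ := mem_inf.1 hz
      rw [hmemMb] at h1
      rw [Subgroup.mem_pointwise_smul_iff_inv_smul_mem] at h2
      have e : (MulAut.conj (g : G ⧸ K))⁻¹ • (x : G ⧸ K) = ((g⁻¹ * x * g : G) : G ⧸ K) := by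
        rw [MulAut.smul_def, ← map_inv, MulAut.conj_apply, inv_inv]
        rfl
      rw [e, hmemMb] at h2
      rw [mem_bot, QuotientGroup.eq_one_iff]
      exact hD g hg x h1 h2
  haveI : Fintype (G ⧸ K) := Fintype.ofFinite _
  obtain ⟨T, -, hTn, hT⟩ := Cfsg.Agent.Lib.H1FrobThm.frobenius_theorem hFrob
  have hYs : Group.IsSolvable (G ⧸ K) := by
    refine frob_solvable Bb Mb T ?_ (map_mono hAM) ?_ hFrob hTn hT
    · rintro _ ⟨a, ha, rfl⟩ _ ⟨b, hb, rfl⟩
      rw [← map_mul, ← map_mul, hAcomm a ha b hb]
    · intro R hR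
      set S := R.comap (QuotientGroup.mk' K) with hS
      have hAS : A ≤ S := by
        intro a ha
        exact hR ⟨a, ha, rfl⟩
      by_cases hStop : S = ⊤
      · left
        rw [eq_top_iff]
        intro z _
        induction z using QuotientGroup.induction_on with
        | H x =>
        have : x ∈ S := by rw [hStop]; exact mem_top x
        exact this
      · right
        have hSM := hprop S hAS hStop
        intro z hz
        induction z using QuotientGroup.induction_on with
        | H x =>
        rw [hmemMb]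
        exact hSM hz
  -- `W` is solvable
  have hWK : W ≤ centralizer (K : Set G) := by
    apply normalClosure_le_normal
    intro a ha
    rw [SetLike.mem_coe, mem_centralizer_iff]
    intro k hk
    exact ((mem_centralizer_iff.1 (hKM hk)) a ha).symm
  haveI : Group.IsSolvable (K.subgroupOf W) := by
    apply isSolvable_of_comm
    intro a b
    apply Subtype.ext
    apply Subtype.ext
    have h1 : ((b : W) : G) ∈ K := mem_subgroupOf.1 b.2
    exact ((mem_centralizer_iff.1 (hWK (a : W).2)) _ h1).symm
  haveI := hYs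
  refine solvable_of_ker_le_range (K.subgroupOf W).subtype ((QuotientGroup.mk' K).comp W.subtype) ?_
  rintro ⟨x, hx⟩ hxk
  have h2 : ((x : G) : G ⧸ K) = 1 := MonoidHom.mem_ker.1 hxk
  have hxK : x ∈ K := (QuotientGroup.eq_one_iff x).1 h2
  exact ⟨⟨⟨x, hx⟩, mem_subgroupOf.2 hxK⟩, rfl⟩

end Cfsg.Agent.Lib.LSolvCen
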