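import Cfsg.Agent.Lib.LDick2
import Mathlib

set_option autoImplicit false
set_option linter.unusedSectionVars false
set_option linter.unusedVariables false
set_option linter.style.haveILetI false

namespace Cfsg.Agent.Lib.LSplitSL

open Cfsg.Agent.Lib.LDick

/-- A `p`-element normalizing a subgroup of order `p` centralizes it. -/
theorem centralizes_of_card_prime {N : Type*} [Group N] [Finite N] {p : ℕ} [Fact p.Prime]
    (g : N) (m : ℕ) (hg : g ^ (p ^ m) = 1) (X : Subgroup N) (hX : Nat.card X = p)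
    (hn : ∀ x ∈ X, g * x * g⁻¹ ∈ X) : ∀ x ∈ X, g * x * g⁻¹ = x := by
  classical
  intro x hx
  by_cases hx1 : x = 1
  · subst hx1; simp
  have hp : p.Prime := Fact.out
  have hord : orderOf x = p := by
    have h1 : orderOf x ∣ Nat.card X := by
      have := orderOf_dvd_natCard (⟨x, hx⟩ : X)
      rwa [Subgroup.orderOf_mk] at this
    rw [hX] at h1
    rcases (Nat.dvd_prime hp).1 h1 with h | h
    · exact absurd (orderOf_eq_one_iff.1 h) hx1
    · exact h
  have hXz : Subgroup.zpowers x = X := by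
    apply Subgroup.eq_of_le_of_card_ge
    · exact (Subgroup.zpowers_le).2 hx
    · rw [hX, Nat.card_zpowers, hord]
  have h1 : g * x * g⁻¹ ∈ Subgroup.zpowers x := by rw [hXz]; exact hn x hx
  obtain ⟨k, hk⟩ : ∃ k : ℕ, x ^ k = g * x * g⁻¹ := by
    rw [← mem_powers_iff_mem_zpowers] at h1
    exact h1
  have hpow : ∀ i : ℕ, g ^ i * x * (g ^ i)⁻¹ = x ^ (k ^ i) := by
    intro i
    induction i with
    | zero => simp
    | succ n ih =>
      have h2 : g ^ (n + 1) * x * (g ^ (n + 1))⁻¹ = g * (g ^ n * x * (g ^ n)⁻¹) * g⁻¹ := by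
        rw [pow_succ']; group
      rw [h2, ih, ← conj_pow, ← hk, ← pow_mul, pow_succ']
  have h2 := hpow (p ^ m)
  rw [hg] at h2
  simp only [one_mul, inv_one, mul_one] at h2
  have h3 : k ^ (p ^ m) ≡ 1 [MOD p] := by
    have : x ^ (k ^ (p ^ m)) = x ^ 1 := by rw [← h2, pow_one]
    rw [pow_eq_pow_iff_modEq, hord] at this
    exact this
  have h4 : (k : ZMod p) = 1 := by
    have := (ZMod.natCast_eq_natCast_iff _ _ _).2 h3
    rw [Nat.cast_pow, ZMod.pow_card_pow] at this
    simpa using this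
  have h5 : k ≡ 1 [MOD p] := (ZMod.natCast_eq_natCast_iff _ _ _).1 (by simpa using h4)
  rw [← hk]
  have : x ^ k = x ^ 1 := by
    rw [pow_eq_pow_iff_modEq, hord]; exact h5
  rwa [pow_one] at this

theorem split {N : Type*} [Group N] [Finite N] {p : ℕ} [Fact p.Prime] (hp : p ≠ 2)
    (A : Subgroup N) [A.Normal] (hAcomm : IsMulCommutative A) (hAcard : Nat.card A = p ^ 2)
    (hAexp : Monoid.exponent ↥A = p)
    (hAself : Subgroup.centralizer (A : Set N) = A)
    {F : Type*} [Field F] [Fintype F] (hF : Fintype.card F = p)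
    (e : N ⧸ A ≃* Matrix.SpecialLinearGroup (Fin 2) F) :
    ∃ U : Subgroup N, A ⊓ U = ⊥ ∧ A ⊔ U = ⊤ := by
  classical
  have hpp : p.Prime := Fact.out
  obtain ⟨k, hk⟩ : ∃ k, p = 2 * k + 1 := by
    rcases hpp.eq_two_or_odd' with h | h
    · exact absurd h hp
    · exact h
  obtain ⟨π, hπs, hπk⟩ : ∃ π : N →* SL2 F, Function.Surjective π ∧ ∀ g, π g = 1 ↔ g ∈ A := by
    refine ⟨e.toMonoidHom.comp (QuotientGroup.mk' A), e.surjective.comp (QuotientGroup.mk'_surjective A), ?_⟩
    intro g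
    simp [QuotientGroup.eq_one_iff]
  have hexp : ∀ a ∈ A, a ^ p = 1 := by
    intro a ha
    have h := Monoid.pow_exponent_eq_one (⟨a, ha⟩ : A)
    rw [hAexp] at h
    simpa using congrArg Subtype.val h
  have hcomm : ∀ a ∈ A, ∀ b ∈ A, a * b = b * a := by
    intro a ha b hb
    have h := hAcomm.is_comm.comm (⟨a, ha⟩ : A) ⟨b, hb⟩
    simpa using congrArg Subtype.val h
  have hcF : ((p : ℕ) : F) = 0 := by
    rw [← hF]; exact FiniteField.cast_card_eq_zero F
  have hmo1 : (mo : SL2 F) ≠ 1 := by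
    intro h
    have h1 : (-1 : F) = 1 := by
      have := congrArg (fun g : SL2 F => g 0 0) h
      simpa using this
    have h2 : (2 : F) = 0 := by
      have : (1 : F) + 1 = 0 := by nth_rewrite 1 [← h1]; ring
      rw [← this]; norm_num
    have h3 : (1 : F) = 0 := by
      have h4 : ((2 * k + 1 : ℕ) : F) = 0 := by rw [← hk]; exact hcF
      push_cast at h4
      rw [h2] at h4
      simpa using h4
    exact one_ne_zero h3
  obtain ⟨x, hx⟩ := hπs mo
  obtain ⟨z, hzdef⟩ : ∃ z, z = x ^ p := ⟨_, rfl⟩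
  have hz1 : π z = mo := by
    rw [hzdef, map_pow, hx, hk, pow_succ, pow_mul, sq, mo_mul_mo, one_pow, one_mul]
  have hz2 : z * z = 1 := by
    have h1 : x ^ 2 ∈ A := by
      rw [← hπk, map_pow, hx, sq, mo_mul_mo]
    rw [hzdef, ← pow_add, ← two_mul, pow_mul]
    exact hexp _ h1
  have hzi : z⁻¹ = z := by
    rw [inv_eq_iff_mul_eq_one]; exact hz2
  have hzc : ∀ g, g * z * g⁻¹ * z⁻¹ ∈ A := by
    intro g
    rw [← hπk]
    simp only [map_mul, map_inv, hz1]
    rw [← mo_comm, mo_inv, mul_assoc (mo : SL2 F), mul_inv_cancel, mul_one, mo_mul_mo]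
  have hzA : ∀ a ∈ A, z * a * z⁻¹ ∈ A := fun a ha => Subgroup.Normal.conj_mem inferInstance a ha z
  -- key identity
  have hkey : ∀ g, ∀ a ∈ A, z * (g * a * g⁻¹) * z⁻¹ = g * (z * a * z⁻¹) * g⁻¹ := by
    intro g a ha
    have hb : g * a * g⁻¹ ∈ A := Subgroup.Normal.conj_mem inferInstance a ha g
    have hc := hzc g
    have h1 := hcomm _ hc _ (hzA _ hb)
    -- `c * (z b z⁻¹) = (z b z⁻¹) * c`
    have h2 : g * (z * a * z⁻¹) * g⁻¹ =
        (g * z * g⁻¹ * z⁻¹) * (z * (g * a * g⁻¹) * z⁻¹) * (g * z * g⁻¹ * z⁻¹)⁻¹ := by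
      group
    rw [h2, h1]
    group
  -- the centralizer of `z` in `A` is trivial
  have hL : ∀ a ∈ A, z * a * z⁻¹ = a → a = 1 := by
    by_contra hcon
    push Not at hcon
    obtain ⟨l, hlA, hlz, hl1⟩ := hcon
    -- subgroups `L` and `M`
    let L : Subgroup N :=
      { carrier := {a | a ∈ A ∧ z * a * z⁻¹ = a}
        one_mem' := ⟨A.one_mem, by simp⟩
        mul_mem' := by
          rintro a b ⟨ha, ha'⟩ ⟨hb, hb'⟩
          refine ⟨A.mul_mem ha hb, ?_⟩
          calc z * (a * b) * z⁻¹ = (z * a * z⁻¹) * (z * b * z⁻¹) := by group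
            _ = a * b := by rw [ha', hb']
        inv_mem' := by
          rintro a ⟨ha, ha'⟩
          refine ⟨A.inv_mem ha, ?_⟩
          calc z * a⁻¹ * z⁻¹ = (z * a * z⁻¹)⁻¹ := by group
            _ = a⁻¹ := by rw [ha'] }
    let M : Subgroup N :=
      { carrier := {a | a ∈ A ∧ z * a * z⁻¹ = a⁻¹}
        one_mem' := ⟨A.one_mem, by simp⟩
        mul_mem' := by
          rintro a b ⟨ha, ha'⟩ ⟨hb, hb'⟩
          refine ⟨A.mul_mem ha hb, ?_⟩
          calc z * (a * b) * z⁻¹ = (z * a * z⁻¹) * (z * b * z⁻¹) := by group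
            _ = a⁻¹ * b⁻¹ := by rw [ha', hb']
            _ = (a * b)⁻¹ := by
              rw [_root_.mul_inv_rev]
              exact hcomm _ (A.inv_mem ha) _ (A.inv_mem hb)
        inv_mem' := by
          rintro a ⟨ha, ha'⟩
          refine ⟨A.inv_mem ha, ?_⟩
          calc z * a⁻¹ * z⁻¹ = (z * a * z⁻¹)⁻¹ := by group
            _ = (a⁻¹)⁻¹ := by rw [ha'] }
    have hLA : L ≤ A := fun a h => h.1
    have hMA : M ≤ A := fun a h => h.1
    have hLMd : ∀ a, a ∈ L → a ∈ M → a = 1 := by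
      intro a h1 h2
      have h3 : a = a⁻¹ := h1.2.symm.trans h2.2
      have h4 : a ^ 2 = 1 := by
        rw [sq]; nth_rewrite 1 [h3]; simp
      have h5 := hexp a h1.1
      have h6 : orderOf a ∣ 1 := by
        have : orderOf a ∣ Nat.gcd 2 p := Nat.dvd_gcd (orderOf_dvd_of_pow_eq_one h4) (orderOf_dvd_of_pow_eq_one h5)
        have h7 : Nat.gcd 2 p = 1 := by
          rw [hk]; simp
        rwa [h7] at this
      exact orderOf_eq_one_iff.1 (Nat.dvd_one.1 h6)
    -- decomposition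
    have hdec1 : ∀ a ∈ A, a * (z * a * z⁻¹) ∈ L := by
      intro a ha
      refine ⟨A.mul_mem ha (hzA a ha), ?_⟩
      have h1 : z * (z * a * z⁻¹) * z⁻¹ = a := by
        calc z * (z * a * z⁻¹) * z⁻¹ = (z * z) * a * (z * z)⁻¹ := by group
          _ = a := by rw [hz2]; simp
      calc z * (a * (z * a * z⁻¹)) * z⁻¹ = (z * a * z⁻¹) * (z * (z * a * z⁻¹) * z⁻¹) := by group
        _ = (z * a * z⁻¹) * a := by rw [h1]
        _ = a * (z * a * z⁻¹) := hcomm _ (hzA a ha) _ ha
    have hdec2 : ∀ a ∈ A, a * (z * a * z⁻¹)⁻¹ ∈ M := by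
      intro a ha
      refine ⟨A.mul_mem ha (A.inv_mem (hzA a ha)), ?_⟩
      have h1 : z * (z * a * z⁻¹) * z⁻¹ = a := by
        calc z * (z * a * z⁻¹) * z⁻¹ = (z * z) * a * (z * z)⁻¹ := by group
          _ = a := by rw [hz2]; simp
      calc z * (a * (z * a * z⁻¹)⁻¹) * z⁻¹ = (z * a * z⁻¹) * (z * (z * a * z⁻¹) * z⁻¹)⁻¹ := by group
        _ = (z * a * z⁻¹) * a⁻¹ := by rw [h1]
        _ = (a * (z * a * z⁻¹)⁻¹)⁻¹ := by group
    have hdec : ∀ a ∈ A, a ^ 2 = (a * (z * a * z⁻¹)) * (a * (z * a * z⁻¹)⁻¹) := by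
      intro a ha
      have h1 := hcomm _ (hzA a ha) _ ha
      calc a ^ 2 = a * (z * a * z⁻¹) * (z * a * z⁻¹)⁻¹ * a := by rw [sq, mul_inv_cancel_right]
        _ = a * ((z * a * z⁻¹) * ((z * a * z⁻¹)⁻¹ * a)) := by group
        _ = a * ((z * a * z⁻¹) * (a * (z * a * z⁻¹)⁻¹)) := by
            rw [hcomm _ (A.inv_mem (hzA a ha)) _ ha]
        _ = _ := by group
    have hsq : ∀ a ∈ A, (a ^ 2) ^ (k + 1) = a := by
      intro a ha
      have h1 := hexp a ha
      calc (a ^ 2) ^ (k + 1) = a ^ (2 * k + 1) * a := by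
            rw [← pow_mul, ← pow_succ]; congr 1
        _ = a := by rw [← hk, h1, one_mul]
    by_cases hM : ∀ a ∈ M, a = 1
    · -- `z` centralizes `A`
      have hzC : z ∈ Subgroup.centralizer (A : Set N) := by
        rw [Subgroup.mem_centralizer_iff]
        intro a ha
        have h1 := hM _ (hdec2 a ha)
        have h2 : a = z * a * z⁻¹ := by
          rw [mul_inv_eq_one] at h1; exact h1
        calc a * z = (z * a * z⁻¹) * z := by rw [← h2]
          _ = z * a := by group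
      rw [hAself] at hzC
      exact hmo1 (by rw [← hz1]; exact (hπk z).2 hzC)
    · push Not at hM
      obtain ⟨m, hmM, hm1⟩ := hM
      have hcardp : ∀ X : Subgroup N, X ≤ A → (∃ a ∈ X, a ≠ 1) → (∃ a ∈ A, a ∉ X) → Nat.card X = p := by
        intro X hXA h1 h2
        have h3 : Nat.card X ∣ p ^ 2 := by
          rw [← hAcard]; exact Subgroup.card_dvd_of_le hXA
        obtain ⟨i, hi, hi'⟩ := (Nat.dvd_prime_pow hpp).1 h3
        have hi0 : i ≠ 0 := by
          rintro rfl
          obtain ⟨a, ha, ha1⟩ := h1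
          have : X = ⊥ := Subgroup.card_eq_one.1 (by simpa using hi')
          rw [this] at ha
          exact ha1 ((Subgroup.mem_bot).1 ha)
        have hi2 : i ≠ 2 := by
          rintro rfl
          obtain ⟨a, ha, ha1⟩ := h2
          have : X = A := Subgroup.eq_of_le_of_card_ge hXA (by rw [hAcard, hi'])
          rw [this] at ha1
          exact ha1 ha
        have : i = 1 := by omega
        rw [hi', this, pow_one]
      have hLp : Nat.card L = p := hcardp L hLA ⟨l, ⟨hlA, hlz⟩, hl1⟩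
        ⟨m, hMA hmM, fun h => hm1 (hLMd m h hmM)⟩
      have hMp : Nat.card M = p := hcardp M hMA ⟨m, hmM, hm1⟩
        ⟨l, hlA, fun h => hl1 (hLMd l ⟨hlA, hlz⟩ h)⟩
      obtain ⟨u, hu⟩ := hπs (e12 1)
      have hup : u ^ (p ^ 2) = 1 := by
        have h1 : u ^ p ∈ A := by
          rw [← hπk, map_pow, hu, e12_pow, hcF]; simp
        rw [sq, pow_mul]
        exact hexp _ h1
      have huL := centralizes_of_card_prime u 2 hup L hLp (by
        rintro a ⟨ha, ha'⟩
        refine ⟨Subgroup.Normal.conj_mem inferInstance a ha u, ?_⟩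
        rw [hkey u a ha, ha'])
      have huM := centralizes_of_card_prime u 2 hup M hMp (by
        rintro a ⟨ha, ha'⟩
        refine ⟨Subgroup.Normal.conj_mem inferInstance a ha u, ?_⟩
        rw [hkey u a ha, ha']
        group)
      have huC : u ∈ Subgroup.centralizer (A : Set N) := by
        rw [Subgroup.mem_centralizer_iff]
        intro a ha
        have h1 : u * a ^ 2 * u⁻¹ = a ^ 2 := by
          rw [hdec a ha]
          have h2 := huL _ (hdec1 a ha)
          have h3 := huM _ (hdec2 a ha)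
          calc u * ((a * (z * a * z⁻¹)) * (a * (z * a * z⁻¹)⁻¹)) * u⁻¹
              = (u * (a * (z * a * z⁻¹)) * u⁻¹) * (u * (a * (z * a * z⁻¹)⁻¹) * u⁻¹) := by group
            _ = _ := by rw [h2, h3]
        have h2 : u * a * u⁻¹ = a := by
          nth_rewrite 1 [← hsq a ha]
          rw [← conj_pow, h1, hsq a ha]
        calc a * u = (u * a * u⁻¹) * u := by rw [h2]
          _ = u * a := by group
      rw [hAself] at huC
      have h1 := (hπk u).2 huC
      rw [hu] at h1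
      have h2 : e12 (1 : F) = e12 0 := by rw [h1, e12_zero]
      exact one_ne_zero (e12_injective h2)
  refine ⟨Subgroup.centralizer ({z} : Set N), ?_, ?_⟩
  · rw [eq_bot_iff]
    rintro a ⟨ha, ha'⟩
    rw [Subgroup.mem_bot]
    apply hL a ha
    have ha'' : a ∈ Subgroup.centralizer ({z} : Set N) := ha'
    rw [Subgroup.mem_centralizer_iff] at ha''
    have h1 := ha'' z (by simp)
    rw [h1]; group
  · rw [eq_top_iff]
    intro g _
    -- surjectivity
    let ψ : A → A := fun a => ⟨a.1 * (z * a.1 * z⁻¹)⁻¹, A.mul_mem a.2 (A.inv_mem (hzA _ a.2))⟩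
    have hψ : Function.Injective ψ := by
      intro a b hab
      have h1 : a.1 * (z * a.1 * z⁻¹)⁻¹ = b.1 * (z * b.1 * z⁻¹)⁻¹ := congrArg Subtype.val hab
      have hb' := A.inv_mem b.2
      have h2 : b.1⁻¹ * a.1 ∈ A := A.mul_mem hb' a.2
      have h3 : z * (b.1⁻¹ * a.1) * z⁻¹ = b.1⁻¹ * a.1 := by
        -- `b⁻¹ a = (z b z⁻¹)⁻¹ (z a z⁻¹)`
        have h4 : a.1 = b.1 * (z * b.1 * z⁻¹)⁻¹ * (z * a.1 * z⁻¹) := by
          rw [← h1]; group
        have h5 : b.1⁻¹ * a.1 = (z * b.1 * z⁻¹)⁻¹ * (z * a.1 * z⁻¹) := by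
          nth_rewrite 1 [h4]; group
        calc z * (b.1⁻¹ * a.1) * z⁻¹ = (z * b.1 * z⁻¹)⁻¹ * (z * a.1 * z⁻¹) := by group
          _ = b.1⁻¹ * a.1 := h5.symm
      have h6 := hL _ h2 h3
      apply Subtype.ext
      have : b.1⁻¹ * a.1 = 1 := h6
      rw [inv_mul_eq_one] at this
      exact this.symm
    obtain ⟨a, ha⟩ := (Finite.surjective_of_injective hψ) ⟨_, hzc g⟩
    have h1 : a.1 * (z * a.1 * z⁻¹)⁻¹ = g * z * g⁻¹ * z⁻¹ := congrArg Subtype.val ha
    have h2 : g = a.1 * (a.1⁻¹ * g) := by group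
    rw [h2]
    apply Subgroup.mul_mem_sup a.2
    rw [Subgroup.mem_centralizer_iff]
    intro y hy
    have hy' : y = z := by simpa using hy
    subst hy'
    -- `a⁻¹ g` commutes with z
    have h3 : g * y * g⁻¹ = a.1 * y * a.1⁻¹ := by
      have h4 : g * y * g⁻¹ = (g * y * g⁻¹ * y⁻¹) * y := by group
      rw [h4, ← h1]; group
    have h5 : y * (a.1⁻¹ * g) = (a.1⁻¹ * g) * y := by
      calc y * (a.1⁻¹ * g) = a.1⁻¹ * (a.1 * y * a.1⁻¹) * g := by group
        _ = a.1⁻¹ * (g * y * g⁻¹) * g := by rw [h3]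
        _ = _ := by group
    exact h5

end Cfsg.Agent.Lib.LSplitSL
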