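import Mathlib

set_option autoImplicit false
set_option linter.unusedSectionVars false
set_option linter.unusedVariables false
set_option linter.style.haveILetI false

/-! Subnormal supplements of a normal subgroup with perfect quotient. -/

namespace Cfsg.Agent.Lib.LSub

open Subgroup
open scoped commutatorElement

variable {G : Type*} [Group G]

theorem comm_sup (D : Subgroup G) [hD : D.Normal] (hperf : ⁅(⊤ : Subgroup G), (⊤ : Subgroup G)⁆ ⊔ D = ⊤)
    {X Z : Subgroup G} (hX : X ⊔ D = ⊤) (hZ : Z ⊔ D = ⊤) : ⁅X, Z⁆ ⊔ D = ⊤ := by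
  set π := QuotientGroup.mk' D with hπ
  have hsurj : Function.Surjective π := QuotientGroup.mk'_surjective D
  have hker : π.ker = D := QuotientGroup.ker_mk' D
  have hmapD : D.map π = ⊥ := by
    rw [Subgroup.map_eq_bot_iff, hker]
  have hm : ∀ Y : Subgroup G, Y ⊔ D = ⊤ → Y.map π = ⊤ := by
    intro Y hY
    have h1 : (Y ⊔ D).map π = ⊤ := by rw [hY, Subgroup.map_top_of_surjective _ hsurj]
    rwa [Subgroup.map_sup, hmapD, sup_bot_eq] at h1
  have e : ∀ Y : Subgroup G, Y ⊔ D = (Y.map π).comap π := by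
    intro Y
    rw [Subgroup.comap_map_eq, hker]
  have h : (⁅(⊤ : Subgroup G), (⊤ : Subgroup G)⁆).map π = ⁅(⊤ : Subgroup (G ⧸ D)), (⊤ : Subgroup (G ⧸ D))⁆ := by
    rw [Subgroup.map_commutator, Subgroup.map_top_of_surjective _ hsurj]
  rw [e, Subgroup.map_commutator, hm X hX, hm Z hZ, ← h, ← e]
  exact hperf

theorem inf_sup_top (D : Subgroup G) [hD : D.Normal] (hperf : ⁅(⊤ : Subgroup G), (⊤ : Subgroup G)⁆ ⊔ D = ⊤)
    {B : Subgroup G} (hB : B.IsSubnormal) : ∀ {B' : Subgroup G}, B'.IsSubnormal → B ⊔ D = ⊤ → B' ⊔ D = ⊤ →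
      (B ⊓ B') ⊔ D = ⊤ := by
  induction hB with
  | top =>
    intro B' _ _ h
    rwa [top_inf_eq]
  | step H K hHK hK hN ihK =>
    intro B' hB'
    induction hB' with
    | top =>
      intro h _
      rwa [inf_top_eq]
    | step H' K' hHK' hK' hN' ihK' =>
      intro h1 h2
      have hKD : K ⊔ D = ⊤ := by
        rw [eq_top_iff, ← h1]
        exact sup_le_sup_right hHK D
      have hKD' : K' ⊔ D = ⊤ := by
        rw [eq_top_iff, ← h2]
        exact sup_le_sup_right hHK' D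
      have hX : (H ⊓ K') ⊔ D = ⊤ := ihK' h1 hKD'
      have hZ : (K ⊓ H') ⊔ D = ⊤ := ihK (Subgroup.IsSubnormal.step H' K' hHK' hK' hN') hKD h2
      have hc := comm_sup D hperf hX hZ
      have hle : ⁅H ⊓ K', K ⊓ H'⁆ ≤ H ⊓ H' := by
        rw [Subgroup.commutator_le]
        rintro x ⟨hxH, hxK'⟩ z ⟨hzK, hzH'⟩
        have h3 := (Subgroup.normal_subgroupOf_iff_le_normalizer hHK).1 hN
        have h4 := (Subgroup.normal_subgroupOf_iff_le_normalizer hHK').1 hN'
        have a1 : z * x⁻¹ * z⁻¹ ∈ H := by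
          have := (Subgroup.mem_normalizer_iff.1 (h3 hzK) x⁻¹).1 (H.inv_mem hxH)
          exact this
        have a2 : x * z * x⁻¹ ∈ H' := (Subgroup.mem_normalizer_iff.1 (h4 hxK') z).1 hzH'
        refine Subgroup.mem_inf.2 ⟨?_, ?_⟩
        · rw [commutatorElement_def]
          have : x * z * x⁻¹ * z⁻¹ = x * (z * x⁻¹ * z⁻¹) := by group
          rw [this]
          exact H.mul_mem hxH a1
        · rw [commutatorElement_def]
          exact H'.mul_mem a2 (H'.inv_mem hzH')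
      rw [eq_top_iff, ← hc]
      exact sup_le_sup_right hle D

theorem main [Finite G] (D : Subgroup G) [hD : D.Normal]
    (hperf : ⁅(⊤ : Subgroup G), (⊤ : Subgroup G)⁆ ⊔ D = ⊤) :
    ∃ B : Subgroup G, B.Normal ∧ B ⊔ D = ⊤ ∧ ∀ B' : Subgroup G, B'.IsSubnormal → B' ⊔ D = ⊤ → B ≤ B' := by
  classical
  let F : Set (Subgroup G) := {B | B.IsSubnormal ∧ B ⊔ D = ⊤}
  have htop : (⊤ : Subgroup G) ∈ F := ⟨Subgroup.IsSubnormal.top, top_sup_eq _⟩
  obtain ⟨B, -, hmin⟩ := (Set.toFinite F).exists_le_minimal htop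
  have hleast : ∀ B' : Subgroup G, B'.IsSubnormal → B' ⊔ D = ⊤ → B ≤ B' := by
    intro B' h1 h2
    have h3 : (B ⊓ B') ∈ F := ⟨hmin.1.1.inf h1, inf_sup_top D hperf hmin.1.1 h1 hmin.1.2 h2⟩
    have h4 := hmin.2 h3 inf_le_left
    exact h4.trans inf_le_right
  refine ⟨B, ?_, hmin.1.2, hleast⟩
  refine ⟨fun n hn g => ?_⟩
  have h5 : (B.map (MulAut.conj g⁻¹).toMonoidHom).IsSubnormal :=
    Subgroup.IsSubnormal.map (f := (MulAut.conj g⁻¹).toMonoidHom) (MulEquiv.surjective _) hmin.1.1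
  have h6 : (B.map (MulAut.conj g⁻¹).toMonoidHom) ⊔ D = ⊤ := by
    have hD' : D.map (MulAut.conj g⁻¹).toMonoidHom = D := by
      ext x
      constructor
      · rintro ⟨y, hy, rfl⟩
        simpa using hD.conj_mem y hy g⁻¹
      · intro hx
        refine ⟨g * x * g⁻¹, hD.conj_mem x hx g, ?_⟩
        simp [MulAut.conj_apply]; group
    have h7 := congrArg (Subgroup.map (MulAut.conj g⁻¹).toMonoidHom) hmin.1.2
    rw [Subgroup.map_sup, hD', Subgroup.map_top_of_surjective _ (MulEquiv.surjective _)] at h7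
    exact h7
  have h8 := hleast _ h5 h6 hn
  obtain ⟨y, hy, hyE⟩ := h8
  have : y = g * n * g⁻¹ := by
    have : g⁻¹ * y * g⁻¹⁻¹ = n := by simpa [MulAut.conj_apply] using hyE
    rw [← this]; group
  rwa [← this]

end Cfsg.Agent.Lib.LSub
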