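import Mathlib
import Cfsg.Prelude.Def_SylowControl
import Cfsg.Prelude.Def_SylowChains
import Cfsg.Agent.Lib.LSyl2
import Cfsg.Agent.Lib.PZJ7

/-! The functor family together with the singular maximal `p`-locals controls Sylow intersections. -/

set_option autoImplicit false
set_option linter.unusedSectionVars false
set_option linter.unusedVariables false
set_option linter.style.haveILetI false

namespace Cfsg.Agent.Lib.LSyl

open Subgroup Cfsg

variable {p : ℕ} [Fact p.Prime] {G : Type*} [Group G] [Finite G]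

/-- A symmetric link. -/
def Lk (p : ℕ) [Fact p.Prime] (𝓖 : Set (Subgroup G)) (D : Subgroup G) (A B : Sylow p G) : Prop :=
  ∃ X x, X ∈ sylowMembers p 𝓖 (A : Subgroup G) ∧ X ∈ sylowMembers p 𝓖 (B : Subgroup G) ∧ x ∈ X ∧
    subgroupConjRight x (B : Subgroup G) = (A : Subgroup G) ∧ D ≤ (A : Subgroup G) ∧ D ≤ (B : Subgroup G) ∧ D ≤ X

abbrev Cn (p : ℕ) [Fact p.Prime] (𝓖 : Set (Subgroup G)) (D : Subgroup G) : Sylow p G → Sylow p G → Prop :=
  Relation.ReflTransGen (Lk p 𝓖 D)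

theorem lk_symm {𝓖 : Set (Subgroup G)} {D : Subgroup G} {A B : Sylow p G} (h : Lk p 𝓖 D A B) : Lk p 𝓖 D B A := by
  obtain ⟨X, x, h1, h2, h3, h4, h5, h6, h7⟩ := h
  refine ⟨X, x⁻¹, h2, h1, inv_mem h3, ?_, h6, h5, h7⟩
  rw [← h4, subgroupConjRight, subgroupConjRight, map_cn_cn, inv_inv, mul_inv_cancel, map_cn_one]

theorem cn_symm {𝓖 : Set (Subgroup G)} {D : Subgroup G} {A B : Sylow p G} (h : Cn p 𝓖 D A B) : Cn p 𝓖 D B A := by
  induction h with
  | refl => exact Relation.ReflTransGen.refl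
  | tail _ h ih => exact Relation.ReflTransGen.head (lk_symm h) ih

theorem cn_mono {𝓖 : Set (Subgroup G)} {D D' : Subgroup G} (hD : D ≤ D') {A B : Sylow p G} (h : Cn p 𝓖 D' A B) : Cn p 𝓖 D A B := by
  induction h with
  | refl => exact Relation.ReflTransGen.refl
  | tail _ h ih =>
    obtain ⟨X, x, h1, h2, h3, h4, h5, h6, h7⟩ := h
    exact ih.tail ⟨X, x, h1, h2, h3, h4, hD.trans h5, hD.trans h6, hD.trans h7⟩

theorem mem_members_of_le {𝓖 : Set (Subgroup G)} {X : Subgroup G} (hX : X ∈ 𝓖) (A : Sylow p G) (h : (A : Subgroup G) ≤ X) :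
    X ∈ sylowMembers p 𝓖 (A : Subgroup G) := by
  refine ⟨hX, A.subtype h, ?_⟩
  rw [Sylow.coe_subtype, subgroupOf_map_subtype]

theorem exists_max_local {F : Subgroup G} (hF : IsPGroup p F) (hne : F ≠ ⊥) :
    ∃ M, IsMaximalPLocal p M ∧ normalizer (F : Set G) ≤ M := by
  classical
  let s : Set (Subgroup G) := {N | IsPLocal p N ∧ normalizer (F : Set G) ≤ N}
  have hs : s.Nonempty := ⟨_, ⟨F, hF, hne, rfl⟩, le_rfl⟩
  obtain ⟨M, ⟨h1, h2⟩, h3⟩ := Set.exists_max_image s (fun U => Nat.card U) (Set.toFinite s) hs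
  refine ⟨M, ⟨h1, fun N hN hMN => ?_⟩, h2⟩
  have h4 := h3 N ⟨hN, h2.trans hMN⟩
  exact (Subgroup.eq_of_le_of_card_ge hMN h4).symm

/-- The Sylow subgroup of `M` containing `Z` lies in a Sylow subgroup of `G`, which then meets `M` in it. -/
theorem members_of_sylow {𝓖 : Set (Subgroup G)} {M : Subgroup G} (hM : M ∈ 𝓖) (P : Sylow p ↥M) (E : Sylow p G)
    (h : (P : Subgroup ↥M).map M.subtype ≤ (E : Subgroup G)) : M ∈ sylowMembers p 𝓖 (E : Subgroup G) := by
  refine ⟨hM, P, ?_⟩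
  have h1 : IsPGroup p ↥(((E : Subgroup G) ⊓ M).subgroupOf M) := IsPGroup.comap_subtype (E.2.to_le inf_le_left)
  have h2 : (P : Subgroup ↥M) ≤ ((E : Subgroup G) ⊓ M).subgroupOf M := by
    intro y hy
    refine Subgroup.mem_subgroupOf.2 (mem_inf.2 ⟨h ⟨y, hy, rfl⟩, y.2⟩)
  have h3 := P.is_maximal' h1 h2
  rw [← h3, subgroupOf_map_subtype]
  exact inf_eq_left.2 inf_le_right

theorem card_sylow_eq (A B : Sylow p G) : Nat.card (A : Subgroup G) = Nat.card (B : Subgroup G) := by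
  rw [Sylow.card_eq_multiplicity, Sylow.card_eq_multiplicity]

theorem map_conj_sylow_le (E : Sylow p G) {Z : Subgroup G} (h : Z ≤ (E : Subgroup G)) (x : G) :
    Z.map (MulAut.conj x).toMonoidHom ≤ ((x • E : Sylow p G) : Subgroup G) := by
  rw [coe_smul]
  exact Subgroup.map_mono h

/-- The inner induction. -/
theorem inner_step {f : Subgroup G → Set (Subgroup G)} (hf : IsNormalizerFunctor p f)
    (hf1 : ∀ P : Subgroup G, IsPGroup p ↥P → P ≠ ⊥ → ∀ F ∈ f P, F ≠ ⊥)
    (𝓖 : Set (Subgroup G)) (h𝓖1 : functorFamily p f ⊤ ⊆ 𝓖)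
    (h𝓖2 : {M | IsMaximalPLocal p M ∧ ¬ IsFunctorRegular p f M} ⊆ 𝓖)
    (S : Sylow p G) (D : Subgroup G) (hDne : D ≠ ⊥)
    (hup : ∀ (A B : Sylow p G) (D' : Subgroup G), D ≤ D' → Nat.card D < Nat.card D' → D' ≤ (A : Subgroup G) →
      D' ≤ (B : Subgroup G) → Cn p 𝓖 D A B) :
    ∀ (k : ℕ) (Y : Subgroup G) (F : Subgroup G), IsPGroup p F → F ≠ ⊥ → Y ≤ normalizer (F : Set G) →
      ∀ (Zs : Sylow p ↥Y) (E : Sylow p G), (Zs : Subgroup ↥Y).map Y.subtype ≤ (E : Subgroup G) →
      ∀ x ∈ Y, D ≤ (Zs : Subgroup ↥Y).map Y.subtype →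
      D ≤ ((Zs : Subgroup ↥Y).map Y.subtype).map (MulAut.conj x).toMonoidHom →
      Nat.card D < Nat.card ((Zs : Subgroup ↥Y).map Y.subtype : Subgroup G) →
      Nat.card (S : Subgroup G) < Nat.card ((Zs : Subgroup ↥Y).map Y.subtype : Subgroup G) + k →
      Cn p 𝓖 D E (x • E) := by
  classical
  intro k
  induction k with
  | zero =>
    intro Y F hF hFne hYF Zs E hZE x hx hD hDx hc1 hc2
    have h1 := Subgroup.card_le_of_le hZE
    rw [card_sylow_eq E S] at h1
    omega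
  | succ k ih =>
    intro Y F hF hFne hYF Zs E hZE x hx hD hDx hc1 hc2
    set Z : Subgroup G := (Zs : Subgroup ↥Y).map Y.subtype with hZ
    obtain ⟨M, hM, hFM⟩ := exists_max_local hF hFne
    have hYM : Y ≤ M := hYF.trans hFM
    have hZY : Z ≤ Y := Subgroup.map_subtype_le _
    have hZp : IsPGroup p Z := Zs.2.map _
    obtain ⟨P₃, hP₃⟩ := (IsPGroup.comap_subtype hZp : IsPGroup p (Z.subgroupOf M)).exists_le_sylow
    set P₀ : Subgroup G := (P₃ : Subgroup ↥M).map M.subtype with hP₀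
    have hZP₀ : Z ≤ P₀ := by
      intro z hz
      exact ⟨⟨z, hYM (hZY hz)⟩, hP₃ (Subgroup.mem_subgroupOf.2 hz), rfl⟩
    have hP₀p : IsPGroup p P₀ := P₃.2.map _
    obtain ⟨E', hE'⟩ := hP₀p.exists_le_sylow
    have hxM : x ∈ M := hYM hx
    have hDZ' : D ≤ P₀ := hD.trans hZP₀
    have hcP₀ : Nat.card Z ≤ Nat.card P₀ := Subgroup.card_le_of_le hZP₀
    have h1 : Cn p 𝓖 D E E' := hup E E' Z hD hc1 hZE (hZP₀.trans hE')
    have h2 : Cn p 𝓖 D (x • E') (x • E) := by
      refine hup _ _ (Z.map (MulAut.conj x).toMonoidHom) hDx ?_ (map_conj_sylow_le E' (hZP₀.trans hE') x) (map_conj_sylow_le E hZE x)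
      rwa [Subgroup.card_map_of_injective (MulAut.conj x).injective]
    refine h1.trans (Relation.ReflTransGen.trans ?_ h2)
    let xM : ↥M := ⟨x, hxM⟩
    let P₄ : Sylow p ↥M := xM • P₃
    have hP₄map : (P₄ : Subgroup ↥M).map M.subtype = P₀.map (MulAut.conj x).toMonoidHom := by
      show ((xM • P₃ : Sylow p ↥M) : Subgroup ↥M).map M.subtype = _
      rw [coe_smul, hP₀, Subgroup.map_map, Subgroup.map_map]
      rfl
    have hE'x : (P₄ : Subgroup ↥M).map M.subtype ≤ ((x • E' : Sylow p G) : Subgroup G) := by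
      rw [hP₄map]
      exact map_conj_sylow_le E' hE' x
    have hDP₄ : D ≤ (P₄ : Subgroup ↥M).map M.subtype := by
      rw [hP₄map]
      exact hDx.trans (Subgroup.map_mono hZP₀)
    by_cases hreg : IsFunctorRegular p f M
    swap
    · -- singular: a direct link
      have hMG : M ∈ 𝓖 := h𝓖2 ⟨hM, hreg⟩
      refine Relation.ReflTransGen.single ⟨M, x, members_of_sylow hMG P₃ E' hE', members_of_sylow hMG P₄ _ hE'x, hxM, ?_,
        hDZ'.trans hE', hDP₄.trans hE'x, hDZ'.trans (Subgroup.map_subtype_le _)⟩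
      rw [subgroupConjRight, coe_smul, map_cn_cn, inv_mul_cancel, map_cn_one]
    by_cases hP34 : P₃ = P₄
    · -- equal Sylow subgroups
      refine hup _ _ P₀ hDZ' (lt_of_lt_of_le hc1 hcP₀) hE' ?_
      have h3 : (P₄ : Subgroup ↥M).map M.subtype = P₀ := by
        rw [← hP34]
      rw [← h3]
      exact hE'x
    -- regular: use the chain in `M`
    obtain ⟨⟨d₀, hd₀⟩, hd₀1⟩ := (Subgroup.ne_bot_iff_exists_ne_one).1 hDne
    have hint : (P₃ : Subgroup ↥M) ⊓ (P₄ : Subgroup ↥M) ≠ ⊥ := by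
      intro h
      have h3 : d₀ ∈ M := (Subgroup.map_subtype_le _ : P₀ ≤ M) (hDZ' hd₀)
      have h4 : (⟨d₀, h3⟩ : ↥M) ∈ (P₃ : Subgroup ↥M) := by
        obtain ⟨y, hy, he⟩ := hDZ' hd₀
        have : y = ⟨d₀, h3⟩ := Subtype.ext he
        rwa [← this]
      have h5 : (⟨d₀, h3⟩ : ↥M) ∈ (P₄ : Subgroup ↥M) := by
        obtain ⟨y, hy, he⟩ := hDP₄ hd₀
        have : y = ⟨d₀, h3⟩ := Subtype.ext he
        rwa [← this]
      have h6 := mem_inf.2 ⟨h4, h5⟩
      rw [h] at h6
      have h7 : (⟨d₀, h3⟩ : ↥M) = 1 := (Subgroup.mem_bot).1 h6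
      apply hd₀1
      apply Subtype.ext
      exact congrArg (Subtype.val : ↥M → G) h7
    obtain ⟨n, c, X, x', h0, hl, hd⟩ := hreg P₃ P₄ hP34 hint
    have hD' : ∀ j : Fin (n + 1), D ≤ (c j : Subgroup ↥M).map M.subtype := by
      intro j
      induction j using Fin.cases with
      | zero =>
        rw [h0]
        exact hDZ'
      | succ i =>
        intro d hd'
        have h3 : d ∈ M := (Subgroup.map_subtype_le _ : P₀ ≤ M) (hDZ' hd')
        have h4 : (⟨d, h3⟩ : ↥M) ∈ (P₃ : Subgroup ↥M) := by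
          obtain ⟨y, hy, he⟩ := hDZ' hd'
          have : y = ⟨d, h3⟩ := Subtype.ext he
          rwa [← this]
        have h5 : (⟨d, h3⟩ : ↥M) ∈ (P₄ : Subgroup ↥M) := by
          obtain ⟨y, hy, he⟩ := hDP₄ hd'
          have : y = ⟨d, h3⟩ := Subtype.ext he
          rwa [← this]
        have h6 := (hd i).2.2.2.2 (mem_inf.2 ⟨h4, h5⟩)
        exact ⟨⟨d, h3⟩, (mem_inf.1 h6).1, rfl⟩
    have hcardM : ∀ Q : Sylow p ↥M, Nat.card ((Q : Subgroup ↥M).map M.subtype : Subgroup G) = Nat.card P₀ := by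
      intro Q
      rw [hP₀, Subgroup.card_map_of_injective M.subtype_injective, Subgroup.card_map_of_injective M.subtype_injective,
        card_sylow_eq Q P₃]
    choose toE htoE using (fun Q : Sylow p ↥M => IsPGroup.exists_le_sylow
      (Q.2.map M.subtype : IsPGroup p ((Q : Subgroup ↥M).map M.subtype : Subgroup G)))
    have hlink : ∀ i : Fin n, Cn p 𝓖 D (toE (c i.castSucc)) (toE (c i.succ)) := by
      intro i
      obtain ⟨⟨⟨X₀, hX₀, hXe⟩, Q, hQ⟩, ⟨-, Q₂, hQ₂⟩, h3, h4, h5⟩ := hd i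
      obtain ⟨P', F', hF', rfl⟩ := hX₀
      set P'₀ : Subgroup G := (P' : Subgroup ↥M).map M.subtype with hP'₀
      have hP'p : IsPGroup p P'₀ := P'.2.map _
      have hcP' : Nat.card P'₀ = Nat.card P₀ := hcardM P'
      have hP'ne : P'₀ ≠ ⊥ := by
        intro h
        rw [h] at hcP'
        have : Nat.card (⊥ : Subgroup G) = 1 := Nat.card_unique
        have hDpos : 0 < Nat.card D := Nat.card_pos
        omega
      have hF'ne : F' ≠ ⊥ := hf1 _ hP'p hP'ne F' hF'
      obtain ⟨hF'le, hNN⟩ := (hf _ hP'p).1 F' hF'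
      have hF'p : IsPGroup p F' := hP'p.to_le hF'le
      have hPX : (P' : Subgroup ↥M) ≤ X i := by
        intro y hy
        rw [← hXe]
        refine Subgroup.mem_subgroupOf.2 (mem_inf.2 ⟨y.2, hNN ?_⟩)
        exact Subgroup.le_normalizer ⟨y, hy, rfl⟩
      have hc1' := sylow_full (c i.castSucc) P' (X i) hPX Q hQ
      have hc2' := sylow_full (c i.succ) P' (X i) hPX Q₂ hQ₂
      have hXN : ∀ y : ↥M, y ∈ X i → (y : G) ∈ normalizer (F' : Set G) := by
        intro y hy
        rw [← hXe] at hy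
        exact (mem_inf.1 (Subgroup.mem_subgroupOf.1 hy)).2
      set y : G := ((x' i : ↥M) : G) with hy
      have hyN : y ∈ normalizer (F' : Set G) := hXN _ h3
      set Q₀ : Subgroup G := (c i.castSucc : Subgroup ↥M).map M.subtype with hQ₀
      set Q₁ : Subgroup G := (c i.succ : Subgroup ↥M).map M.subtype with hQ₁
      have hQ₀N : Q₀ ≤ normalizer (F' : Set G) := by
        rintro _ ⟨q, hq, rfl⟩
        exact hXN q (hc1' hq)
      have hQ₁N : Q₁ ≤ normalizer (F' : Set G) := by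
        rintro _ ⟨q, hq, rfl⟩
        exact hXN q (hc2' hq)
      have hconj : Q₁.map (MulAut.conj y⁻¹).toMonoidHom = Q₀ := by
        rw [hQ₀, ← h4, hQ₁, subgroupConjRight, Subgroup.map_map, Subgroup.map_map]
        rfl
      have hcQ₁ : Nat.card Q₁ = Nat.card P₀ := hcardM _
      have hcQ₀ : Nat.card Q₀ = Nat.card P₀ := hcardM _
      have hDQ₀ : D ≤ Q₀ := hD' _
      have hDQ₁ : D ≤ Q₁ := hD' _
      by_cases hfull : Nat.card P₀ = Nat.card (S : Subgroup G)
      · -- a direct link through `N(F')`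
        have heq : ∀ Q : Sylow p ↥M, ((toE Q : Sylow p G) : Subgroup G) = (Q : Subgroup ↥M).map M.subtype := by
          intro Q
          symm
          apply Subgroup.eq_of_le_of_card_ge (htoE Q)
          rw [hcardM, hfull, card_sylow_eq (toE Q) S]
        -- a Sylow subgroup of `⊤`
        have hes : Function.Surjective ((Subgroup.topEquiv (G := G)).symm.toMonoidHom : G →* ↥(⊤ : Subgroup G)) :=
          (Subgroup.topEquiv (G := G)).symm.surjective
        have hP'E : P'₀ = ((toE P' : Sylow p G) : Subgroup G) := (heq P').symm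
        have hmemF : (⊤ : Subgroup G) ⊓ normalizer (F' : Set G) ∈ 𝓖 := by
          apply h𝓖1
          refine ⟨(toE P').mapSurjective hes, F', ?_, rfl⟩
          have e : (((toE P').mapSurjective hes : Sylow p ↥(⊤ : Subgroup G)) : Subgroup ↥(⊤ : Subgroup G)).map (⊤ : Subgroup G).subtype = ((toE P' : Sylow p G) : Subgroup G) := by
            rw [Sylow.coe_mapSurjective, Subgroup.map_map]
            ext w
            constructor
            · rintro ⟨z, hz, rfl⟩
              exact hz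
            · intro hw
              exact ⟨w, hw, rfl⟩
          rw [e, ← hP'E]
          exact hF'
        refine Relation.ReflTransGen.single ⟨(⊤ : Subgroup G) ⊓ normalizer (F' : Set G), y,
          mem_members_of_le hmemF _ ?_, mem_members_of_le hmemF _ ?_, mem_inf.2 ⟨mem_top _, hyN⟩, ?_, ?_, ?_, ?_⟩
        · rw [heq]
          exact le_inf le_top hQ₀N
        · rw [heq]
          exact le_inf le_top hQ₁N
        · rw [heq, heq]
          exact hconj
        · rw [heq]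
          exact hDQ₀
        · rw [heq]
          exact hDQ₁
        · exact le_inf le_top (hDQ₀.trans hQ₀N)
      · -- not Sylow: climb in `N(F')`
        have hQ₁E : Q₁ ≤ ((toE (c i.succ) : Sylow p G) : Subgroup G) := htoE _
        have hlt : Q₁ < ((toE (c i.succ) : Sylow p G) : Subgroup G) := by
          refine lt_of_le_of_ne hQ₁E (fun h => hfull ?_)
          rw [← hcQ₁, h, card_sylow_eq _ S]
        obtain ⟨u, huE, huQ, huN⟩ := Cfsg.Agent.Lib.PZJ.exists_normalizing_elt (toE (c i.succ)).2 hlt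
        -- `N(Q₁) ≤ N(F')`
        obtain ⟨m, hm⟩ := MulAction.exists_smul_eq ↥(X i) (P'.subtype hPX) ((c i.succ).subtype hc2')
        have hm0 : (((m : ↥M) : G)) ∈ normalizer (F' : Set G) := hXN _ m.2
        set m₀ : G := ((m : ↥M) : G) with hm₀
        have hQ₁conj : Q₁ = P'₀.map (MulAut.conj m₀).toMonoidHom := by
          apply Subgroup.eq_of_le_of_card_ge
          · rintro _ ⟨q, hq, rfl⟩
            have h6 : (⟨q, hc2' hq⟩ : ↥(X i)) ∈ (((c i.succ).subtype hc2' : Sylow p ↥(X i)) : Subgroup ↥(X i)) := by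
              rw [Sylow.coe_subtype]
              exact Subgroup.mem_subgroupOf.2 hq
            rw [← hm, coe_smul] at h6
            obtain ⟨r, hr, hre⟩ := h6
            rw [Sylow.coe_subtype] at hr
            have h7 : (m : ↥M) * (r : ↥M) * (m : ↥M)⁻¹ = q := congrArg Subtype.val hre
            refine ⟨(r : ↥M), ⟨(r : ↥M), Subgroup.mem_subgroupOf.1 hr, rfl⟩, ?_⟩
            have h8 := congrArg Subtype.val h7
            simpa using h8
          · rw [Subgroup.card_map_of_injective (MulAut.conj m₀).injective, hcQ₁, hcP']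
        have huF : u ∈ normalizer (F' : Set G) := by
          have h6 : m₀⁻¹ * u * m₀ ∈ normalizer (P'₀ : Set G) := by
            refine Cfsg.Agent.Lib.PGlaub.mem_normalizer_of_conj_mem (fun r hr => ?_)
            have h7 : m₀ * r * m₀⁻¹ ∈ Q₁ := by
              rw [hQ₁conj]
              exact ⟨r, hr, by simp⟩
            have h8 := (mem_normalizer_iff.1 huN _).1 h7
            rw [hQ₁conj] at h8
            obtain ⟨t, ht, hte⟩ := h8
            have hte' : m₀ * t * m₀⁻¹ = u * (m₀ * r * m₀⁻¹) * u⁻¹ := by simpa using hte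
            have e : m₀⁻¹ * u * m₀ * r * (m₀⁻¹ * u * m₀)⁻¹ = t := by
              have h9 : m₀⁻¹ * (u * (m₀ * r * m₀⁻¹) * u⁻¹) * m₀ = t := by
                rw [← hte']
                group
              rw [← h9]
              group
            rw [e]
            exact ht
          have h7 := hNN h6
          have e : u = m₀ * (m₀⁻¹ * u * m₀) * m₀⁻¹ := by group
          rw [e]
          exact mul_mem (mul_mem hm0 h7) (inv_mem hm0)
        -- the larger Sylow subgroup of `N(F')`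
        let T₁ : Subgroup G := ((toE (c i.succ) : Sylow p G) : Subgroup G) ⊓ normalizer (F' : Set G)
        have hT₁p : IsPGroup p ↥T₁ := (toE (c i.succ)).2.to_le inf_le_left
        obtain ⟨Z', hZ'⟩ := (IsPGroup.comap_subtype hT₁p : IsPGroup p (T₁.subgroupOf (normalizer (F' : Set G)))).exists_le_sylow
        set Z'₀ : Subgroup G := (Z' : Subgroup ↥(normalizer (F' : Set G))).map (normalizer (F' : Set G)).subtype with hZ'₀
        have hT₁Z' : T₁ ≤ Z'₀ := by
          intro t ht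
          exact ⟨⟨t, (mem_inf.1 ht).2⟩, hZ' (Subgroup.mem_subgroupOf.2 ht), rfl⟩
        have hQ₁T₁ : Q₁ ≤ T₁ := le_inf hQ₁E hQ₁N
        have hQ₁Z' : Q₁ ≤ Z'₀ := hQ₁T₁.trans hT₁Z'
        have hltZ' : Nat.card Q₁ < Nat.card Z'₀ := by
          refine Cfsg.Agent.Lib.PNilp.card_lt_of_lt' (lt_of_lt_of_le ?_ hT₁Z')
          exact (SetLike.lt_iff_le_and_exists).2 ⟨hQ₁T₁, u, mem_inf.2 ⟨huE, huF⟩, huQ⟩
        have hZ'p : IsPGroup p Z'₀ := Z'.2.map _
        obtain ⟨E'', hE''⟩ := hZ'p.exists_le_sylow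
        have hQ₀Z' : Q₀ ≤ Z'₀.map (MulAut.conj y⁻¹).toMonoidHom := by
          rw [← hconj]
          exact Subgroup.map_mono hQ₁Z'
        have hstep := ih (normalizer (F' : Set G)) F' hF'p hF'ne le_rfl Z' E'' hE'' y⁻¹ (inv_mem hyN) (hDQ₁.trans hQ₁Z')
          (hDQ₀.trans hQ₀Z') (by show Nat.card D < Nat.card Z'₀; omega) (by show Nat.card (S : Subgroup G) < Nat.card Z'₀ + k; omega)
        have hc0 : Cn p 𝓖 D (toE (c i.castSucc)) (y⁻¹ • E'') :=
          hup _ _ Q₀ hDQ₀ (by omega) (htoE _) (hQ₀Z'.trans (map_conj_sylow_le E'' hE'' y⁻¹))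
        have hc3 : Cn p 𝓖 D E'' (toE (c i.succ)) :=
          hup _ _ Q₁ hDQ₁ (by omega) (hQ₁Z'.trans hE'') hQ₁E
        exact hc0.trans ((cn_symm hstep).trans hc3)
    have hfin := fin_chain (R := Cn p 𝓖 D) (fun i => toE (c i)) hlink
    have hfin' : Cn p 𝓖 D (toE (c 0)) (toE (c (Fin.last n))) := by
      have h7 : Relation.ReflTransGen (Cn p 𝓖 D) (toE (c 0)) (toE (c (Fin.last n))) := hfin
      rwa [Relation.reflTransGen_idem] at h7
    rw [h0, hl] at hfin'
    have hc4 : Cn p 𝓖 D E' (toE P₃) := hup _ _ P₀ hDZ' (by omega) hE' (htoE _)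
    have hc5 : Cn p 𝓖 D (toE P₄) (x • E') :=
      hup _ _ ((P₄ : Subgroup ↥M).map M.subtype) hDP₄ (by rw [hcardM]; omega) (htoE _) hE'x
    exact hc4.trans (hfin'.trans hc5)

theorem outer {f : Subgroup G → Set (Subgroup G)} (hf : IsNormalizerFunctor p f)
    (hf1 : ∀ P : Subgroup G, IsPGroup p ↥P → P ≠ ⊥ → ∀ F ∈ f P, F ≠ ⊥)
    (𝓖 : Set (Subgroup G)) (h𝓖1 : functorFamily p f ⊤ ⊆ 𝓖)
    (h𝓖2 : {M | IsMaximalPLocal p M ∧ ¬ IsFunctorRegular p f M} ⊆ 𝓖)
    (S : Sylow p G) : ∀ (k : ℕ) (D : Subgroup G), D ≠ ⊥ → Nat.card (S : Subgroup G) < Nat.card D + k →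
      ∀ U V : Sylow p G, D ≤ (U : Subgroup G) → D ≤ (V : Subgroup G) → Cn p 𝓖 D U V := by
  classical
  intro k
  induction k with
  | zero =>
    intro D hD hc U V hDU hDV
    have h1 := Subgroup.card_le_of_le hDU
    rw [card_sylow_eq U S] at h1
    omega
  | succ k ih =>
    intro D hD hc U V hDU hDV
    have hup : ∀ (A B : Sylow p G) (D' : Subgroup G), D ≤ D' → Nat.card D < Nat.card D' → D' ≤ (A : Subgroup G) →
        D' ≤ (B : Subgroup G) → Cn p 𝓖 D A B := by
      intro A B D' hDD' hlt hA hB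
      refine cn_mono hDD' (ih D' ?_ (by omega) A B hA hB)
      intro h
      apply hD
      rw [h] at hDD'
      exact le_bot_iff.1 hDD'
    by_cases hUV : U = V
    · rw [hUV]
    have hlt : ∀ W W' : Sylow p G, D ≤ (W : Subgroup G) → D ≤ (W' : Subgroup G) → W ≠ W' → D < (W : Subgroup G) := by
      intro W W' h1 h2 hne
      refine lt_of_le_of_ne h1 (fun h => hne ?_)
      apply Sylow.ext
      apply Subgroup.eq_of_le_of_card_ge
      · rw [← h]
        exact h2
      · rw [card_sylow_eq]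
    have hDp : IsPGroup p D := U.2.to_le hDU
    have hbig : ∀ W W' : Sylow p G, D ≤ (W : Subgroup G) → D ≤ (W' : Subgroup G) → W ≠ W' →
        Nat.card D < Nat.card ((W : Subgroup G) ⊓ normalizer (D : Set G) : Subgroup G) := by
      intro W W' h1 h2 hne
      obtain ⟨u, huW, huD, huN⟩ := Cfsg.Agent.Lib.PZJ.exists_normalizing_elt W.2 (hlt W W' h1 h2 hne)
      refine Cfsg.Agent.Lib.PNilp.card_lt_of_lt' ((SetLike.lt_iff_le_and_exists).2 ⟨le_inf h1 Subgroup.le_normalizer, u, mem_inf.2 ⟨huW, huN⟩, huD⟩)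
    have hb1 := hbig U V hDU hDV hUV
    have hb2 := hbig V U hDV hDU (Ne.symm hUV)
    let Y : Subgroup G := normalizer (D : Set G)
    have hsub : ∀ W : Sylow p G, ∃ Zs : Sylow p ↥Y, (W : Subgroup G) ⊓ normalizer (D : Set G) ≤ (Zs : Subgroup ↥Y).map Y.subtype := by
      intro W
      have hp : IsPGroup p ↥((W : Subgroup G) ⊓ normalizer (D : Set G) : Subgroup G) := W.2.to_le inf_le_left
      obtain ⟨Zs, hZs⟩ := (IsPGroup.comap_subtype hp : IsPGroup p (((W : Subgroup G) ⊓ normalizer (D : Set G)).subgroupOf Y)).exists_le_sylow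
      refine ⟨Zs, fun t ht => ⟨⟨t, (mem_inf.1 ht).2⟩, hZs (Subgroup.mem_subgroupOf.2 ht), rfl⟩⟩
    obtain ⟨Zs, hZs⟩ := hsub U
    obtain ⟨Zt, hZt⟩ := hsub V
    obtain ⟨x, hx⟩ := MulAction.exists_smul_eq ↥Y Zs Zt
    obtain ⟨E, hE⟩ := (Zs.2.map Y.subtype : IsPGroup p ((Zs : Subgroup ↥Y).map Y.subtype : Subgroup G)).exists_le_sylow
    have hZtmap : (Zt : Subgroup ↥Y).map Y.subtype = ((Zs : Subgroup ↥Y).map Y.subtype).map (MulAut.conj (x : G)).toMonoidHom := by
      rw [← hx, coe_smul, Subgroup.map_map, Subgroup.map_map]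
      rfl
    have hDU' : D ≤ (U : Subgroup G) ⊓ normalizer (D : Set G) := le_inf hDU Subgroup.le_normalizer
    have hDV' : D ≤ (V : Subgroup G) ⊓ normalizer (D : Set G) := le_inf hDV Subgroup.le_normalizer
    have hc1 := Subgroup.card_le_of_le hZs
    have hstep := inner_step hf hf1 𝓖 h𝓖1 h𝓖2 S D hD hup (Nat.card (S : Subgroup G) + 1) Y D hDp hD le_rfl Zs E hE x x.2
      (hDU'.trans hZs) (by
        rw [← hZtmap]
        exact hDV'.trans hZt) (by omega) (by omega)
    have h1 : Cn p 𝓖 D U E := hup U E _ hDU' hb1 inf_le_left (hZs.trans hE)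
    have h2 : Cn p 𝓖 D ((x : G) • E) V := by
      refine hup _ V _ hDV' hb2 ?_ inf_le_left
      refine hZt.trans ?_
      rw [hZtmap]
      exact map_conj_sylow_le E hE x
    exact h1.trans (hstep.trans h2)

theorem functor_control {f : Subgroup G → Set (Subgroup G)} (hf : IsNormalizerFunctor p f)
    (hf1 : ∀ P : Subgroup G, IsPGroup p ↥P → P ≠ ⊥ → ∀ F ∈ f P, F ≠ ⊥) :
    ControlsSylowIntersections p (functorFamily p f ⊤ ∪ {M | IsMaximalPLocal p M ∧ ¬ IsFunctorRegular p f M}) := by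
  classical
  intro U V hne hint
  have h := outer hf hf1 _ Set.subset_union_left Set.subset_union_right U (Nat.card (U : Subgroup G) + 1) _ hint
    (by
      have : 0 < Nat.card ((U : Subgroup G) ⊓ (V : Subgroup G) : Subgroup G) := Nat.card_pos
      omega) U V inf_le_left inf_le_right
  obtain ⟨n, c, h0, hl, hd⟩ := chain_fin h
  choose X x h1 h2 h3 h4 h5 h6 h7 using hd
  exact ⟨n, c, X, x, h0, hl, fun i => ⟨h1 i, h2 i, h3 i, h4 i, le_inf (h6 i) (h7 i)⟩⟩

end Cfsg.Agent.Lib.LSyl
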