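import Mathlib
import Cfsg.Agent.Lib.H1FrobK
import Cfsg.Agent.Lib.H1FC
import Cfsg.Agent.Lib.LRes
import Cfsg.Agent.Lib.FGSBasic

set_option autoImplicit false
set_option linter.unusedSectionVars false
set_option linter.unusedVariables false
set_option linter.style.haveILetI false

/-! An isolated `p`-element which centralizes the `p'`-subgroups it normalizes is central. -/

namespace Cfsg.Agent.Lib.LZStar0

open Subgroup Cfsg Cfsg.Agent.Lib.H1Core Cfsg.Agent.Lib.PNilp Cfsg.Agent.Lib.LPIrr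
open scoped Pointwise

universe u

section Step

variable {G : Type u} [Group G] [Finite G] {p : ℕ} [Fact p.Prime] {x : G}

theorem eq_of_comm (hxp : ∃ k : ℕ, x ^ p ^ k = 1)
    (hU : ∀ g : G, (∃ D : Subgroup G, IsPGroup p D ∧ x ∈ D ∧ g⁻¹ * x * g ∈ D) → g⁻¹ * x * g = x)
    (g : G) (hc : (g⁻¹ * x * g) * x = x * (g⁻¹ * x * g)) : g⁻¹ * x * g = x := by
  apply hU
  set y := g⁻¹ * x * g with hy
  have hyp : ∃ k : ℕ, y ^ p ^ k = 1 := by
    obtain ⟨k, hk⟩ := hxp
    refine ⟨k, ?_⟩
    rw [hy]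
    have : g⁻¹ * x * g = g⁻¹ * x * g⁻¹⁻¹ := by simp
    rw [this, conj_pow, hk]
    simp
  refine ⟨zpowers x ⊔ zpowers y, ?_, mem_sup_left (mem_zpowers x), mem_sup_right (mem_zpowers y)⟩
  refine IsPGroup.to_sup_of_normal_right' (isPGroup_zpowers' hxp) (isPGroup_zpowers' hyp) ?_
  rw [zpowers_le]
  have hcomm : Commute x y := hc.symm
  refine centralizer_le_normalizer (zpowers y : Set G) (mem_centralizer_iff.2 ?_)
  rintro _ ⟨m, rfl⟩
  exact (hcomm.zpow_right m).eq.symm

theorem step (hxp : ∃ k : ℕ, x ^ p ^ k = 1)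
    (hU : ∀ g : G, (∃ D : Subgroup G, IsPGroup p D ∧ x ∈ D ∧ g⁻¹ * x * g ∈ D) → g⁻¹ * x * g = x)
    (hb : ∀ H : Subgroup G, (Nat.card H).Coprime p → (∀ h ∈ H, x * h * x⁻¹ ∈ H) → ∀ h ∈ H, x * h = h * x)
    (hprop : ∀ L : Subgroup G, L ≠ ⊤ → x ∈ L → L ≤ centralizer ({x} : Set G)) :
    x ∈ center G := by
  classical
  by_contra hnot
  set C := centralizer ({x} : Set G) with hC
  have hCtop : C ≠ ⊤ := by
    intro h
    apply hnot
    rw [mem_center_iff]
    intro g
    have : g ∈ C := by rw [h]; trivial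
    exact mem_centralizer_singleton_iff.1 this
  have hZC : center G ≤ C := by
    intro z hz
    exact mem_centralizer_singleton_iff.2 (((mem_center_iff.1 hz) x).symm)
  -- conjugates
  have hprop' : ∀ g : G, ∀ L : Subgroup G, L ≠ ⊤ → g * x * g⁻¹ ∈ L → L ≤ centralizer ({g * x * g⁻¹} : Set G) := by
    intro g L hL hy
    have hM : L.map (MulAut.conj g⁻¹).toMonoidHom ≠ ⊤ := by
      intro h
      apply hL
      rw [eq_top_iff]
      intro l _
      have : g⁻¹ * l * g ∈ L.map (MulAut.conj g⁻¹).toMonoidHom := by rw [h]; trivial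
      obtain ⟨l', hl', he⟩ := this
      have : g⁻¹ * l' * g = g⁻¹ * l * g := by simpa [MulAut.conj_apply] using he
      have h2 : l' = l := by simpa using this
      rwa [← h2]
    have hxM : x ∈ L.map (MulAut.conj g⁻¹).toMonoidHom := ⟨g * x * g⁻¹, hy, by simp [MulAut.conj_apply]; group⟩
    have h1 := hprop _ hM hxM
    intro l hl
    have h2 : g⁻¹ * l * g ∈ C := h1 ⟨l, hl, by simp [MulAut.conj_apply]⟩
    have h3 := mem_centralizer_singleton_iff.1 h2
    refine mem_centralizer_singleton_iff.2 ?_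
    have h4 : g * (g⁻¹ * l * g * x) * g⁻¹ = g * (x * (g⁻¹ * l * g)) * g⁻¹ := by rw [h3]
    calc l * (g * x * g⁻¹) = g * (g⁻¹ * l * g * x) * g⁻¹ := by group
      _ = g * (x * (g⁻¹ * l * g)) * g⁻¹ := h4
      _ = _ := by group
  have hcomm : ∀ g : G, g * x * g⁻¹ * x = x * (g * x * g⁻¹) → g * x * g⁻¹ = x := by
    intro g hc
    have := eq_of_comm hxp hU g⁻¹ (by simpa using hc)
    simpa using this
  -- the normal closure is everything
  have hX : normalClosure ({x} : Set G) = ⊤ := by
    by_contra h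
    apply hnot
    have h1 := hprop _ h (subset_normalClosure (Set.mem_singleton x))
    rw [mem_center_iff]
    intro g
    have h2 : g * x * g⁻¹ ∈ normalClosure ({x} : Set G) :=
      (normalClosure_normal (s := ({x} : Set G))).conj_mem x (subset_normalClosure (Set.mem_singleton x)) g
    have h3 := mem_centralizer_singleton_iff.1 (h1 h2)
    have h4 := hcomm g h3
    calc g * x = (g * x * g⁻¹) * g := by group
      _ = x * g := by rw [h4]
  -- normal subgroups inside `C` are central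
  have hcore : ∀ W : Subgroup G, W.Normal → W ≤ C → W ≤ center G := by
    intro W hW hWC w hw
    have hcn : (centralizer (W : Set G)).Normal := Subgroup.normal_centralizer
    have h1 : normalClosure ({x} : Set G) ≤ centralizer (W : Set G) := by
      refine normalClosure_le_normal ?_
      rintro _ rfl
      refine mem_centralizer_iff.2 fun a ha => ?_
      exact (mem_centralizer_singleton_iff.1 (hWC ha))
    rw [hX] at h1
    rw [mem_center_iff]
    intro g
    exact ((mem_centralizer_iff.1 (h1 (mem_top g))) w hw).symm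
  -- malnormality modulo the centre
  have hmal : ∀ g : G, g ∉ C → C ⊓ centralizer ({g * x * g⁻¹} : Set G) ≤ center G := by
    intro g hg
    by_contra hW
    set y := g * x * g⁻¹ with hy
    set W := C ⊓ centralizer ({y} : Set G) with hWdef
    have h1 : ¬ W.Normal := fun h => hW (hcore W h inf_le_left)
    have h2 : normalizer (W : Set G) ≠ ⊤ := by
      intro h
      exact h1 (Subgroup.normalizer_eq_top_iff.1 h)
    have hyN : y ∈ normalizer (W : Set G) := by
      refine centralizer_le_normalizer (W : Set G) (mem_centralizer_iff.2 fun w hw => ?_)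
      exact mem_centralizer_singleton_iff.1 (inf_le_right (a := C) hw)
    have hxN : x ∈ normalizer (W : Set G) := by
      refine centralizer_le_normalizer (W : Set G) (mem_centralizer_iff.2 fun w hw => ?_)
      exact mem_centralizer_singleton_iff.1 (inf_le_left (b := centralizer ({y} : Set G)) hw)
    have h3 := hprop' g _ h2 hyN hxN
    have h4 := mem_centralizer_singleton_iff.1 h3
    have h5 := hcomm g h4.symm
    apply hg
    refine mem_centralizer_singleton_iff.2 ?_
    calc g * x = (g * x * g⁻¹) * g := by group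
      _ = x * g := by rw [h5]
  -- Frobenius
  set Z := center G with hZ
  let π : G →* G ⧸ Z := QuotientGroup.mk' Z
  have hπs : Function.Surjective π := QuotientGroup.mk'_surjective Z
  have hπk : π.ker = Z := QuotientGroup.ker_mk' Z
  have hcomap : (C.map π).comap π = C := by
    rw [Subgroup.comap_map_eq, hπk]
    exact sup_eq_left.2 hZC
  have hxbar : π x ≠ 1 := by
    intro h
    apply hnot
    have : x ∈ π.ker := h
    rwa [hπk] at this
  have hF : IsFrobeniusComplement (C.map π) := by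
    refine ⟨?_, ?_, ?_⟩
    · intro h
      apply hxbar
      have : π x ∈ C.map π := ⟨x, mem_centralizer_singleton_iff.2 rfl, rfl⟩
      rw [h] at this
      exact this
    · intro h
      apply hCtop
      rw [← hcomap, h, Subgroup.comap_top]
    · intro gb hgb
      obtain ⟨g, rfl⟩ := hπs gb
      have hg : g ∉ C := fun h => hgb ⟨g, h, rfl⟩
      rw [eq_bot_iff]
      rintro zb ⟨hz1, hz2⟩
      obtain ⟨z, hzC, rfl⟩ := hz1
      have hz3 : (π g)⁻¹ * π z * π g ∈ C.map π := mem_conj_smul.1 hz2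
      have hz4 : g⁻¹ * z * g ∈ C := by
        rw [← hcomap]
        show π (g⁻¹ * z * g) ∈ C.map π
        simpa using hz3
      have hz5 : z ∈ centralizer ({g * x * g⁻¹} : Set G) := by
        have h6 := mem_centralizer_singleton_iff.1 hz4
        refine mem_centralizer_singleton_iff.2 ?_
        have h7 : g * (g⁻¹ * z * g * x) * g⁻¹ = g * (x * (g⁻¹ * z * g)) * g⁻¹ := by rw [h6]
        calc z * (g * x * g⁻¹) = g * (g⁻¹ * z * g * x) * g⁻¹ := by group
          _ = g * (x * (g⁻¹ * z * g)) * g⁻¹ := h7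
          _ = _ := by group
      have hz6 : z ∈ Z := hmal g hg ⟨hzC, hz5⟩
      rw [Subgroup.mem_bot]
      have : z ∈ π.ker := by rw [hπk]; exact hz6
      exact this
  letI := Fintype.ofFinite (G ⧸ Z)
  obtain ⟨N, -, hNn, hc⟩ := Cfsg.Agent.Lib.H1FrobThm.frobenius_theorem hF
  have hcop : (Nat.card (C.map π)).Coprime (Nat.card N) := by
    refine Cfsg.Agent.Lib.H1FC.coprime_of_fpf ?_ ?_
    · rw [Subgroup.normalizer_eq_top_iff.2 hNn]; exact le_top
    · intro a ha h1
      exact Cfsg.Agent.Lib.H1FrobK.fpf_of_frob hF hc ha h1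
  have hpC : p ∣ Nat.card (C.map π) := by
    obtain ⟨k, hk⟩ := hxp
    have h1 : (π x) ^ p ^ k = 1 := by rw [← map_pow, hk, map_one]
    obtain ⟨j, -, hj⟩ := (Nat.dvd_prime_pow (Fact.out : p.Prime)).1 (orderOf_dvd_of_pow_eq_one h1)
    have hj0 : j ≠ 0 := by
      rintro rfl
      apply hxbar
      have : orderOf (π x) = 1 := by simpa using hj
      exact orderOf_eq_one_iff.1 this
    have h2 : orderOf (π x) ∣ Nat.card (C.map π) :=
      Subgroup.orderOf_dvd_natCard (C.map π) ⟨x, mem_centralizer_singleton_iff.2 rfl, rfl⟩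
    rw [hj] at h2
    exact (dvd_pow_self p hj0).trans h2
  have hpN : ¬ p ∣ Nat.card N := by
    intro h
    have := Nat.dvd_gcd hpC h
    rw [hcop] at this
    exact (Fact.out : p.Prime).one_lt.ne' (Nat.dvd_one.1 this)
  set K := N.comap π with hK
  have hKn : K.Normal := Subgroup.Normal.comap hNn π
  -- the `p`-elements of `K` are central
  have hKp : ∀ k ∈ K, (∃ n : ℕ, k ^ p ^ n = 1) → k ∈ Z := by
    intro k hk ⟨n, hn⟩
    have h1 : (π k) ^ p ^ n = 1 := by rw [← map_pow, hn, map_one]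
    obtain ⟨j, -, hj⟩ := (Nat.dvd_prime_pow (Fact.out : p.Prime)).1 (orderOf_dvd_of_pow_eq_one h1)
    have hj0 : j = 0 := by
      by_contra hj0
      have h2 : orderOf (π k) ∣ Nat.card N := Subgroup.orderOf_dvd_natCard N hk
      rw [hj] at h2
      exact hpN ((dvd_pow_self p hj0).trans h2)
    have h3 : orderOf (π k) = 1 := by simpa [hj0] using hj
    have h4 : k ∈ π.ker := orderOf_eq_one_iff.1 h3
    rwa [hπk] at h4
  have hnpc : HasNormalPComplement p K := by
    obtain ⟨P⟩ : Nonempty (Sylow p K) := inferInstance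
    refine hasNormalPComplement_of_fusion P ?_
    rintro a ha b hb ⟨g, hg⟩
    refine ⟨1, one_mem _, ?_⟩
    obtain ⟨n, hn⟩ := pelt_of_mem P.2 ha
    have h1 : (a : G) ∈ Z := hKp a a.2 ⟨n, by rw [← Subgroup.coe_pow, hn]; rfl⟩
    have h2 : g * a * g⁻¹ = a := by
      apply Subtype.ext
      have h3 := (mem_center_iff.1 h1) (g : G)
      show (g : G) * a * (g : G)⁻¹ = a
      rw [h3]; group
    rw [h2] at hg
    rw [← hg]; simp
  have hcopR : (Nat.card (pResidual p K)).Coprime p := hasNormalPComplement_iff_pResidual.1 hnpc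
  have hxK : x ∈ normalizer (K : Set G) := by
    rw [Subgroup.normalizer_eq_top_iff.2 hKn]; trivial
  have hR : ∀ h ∈ (pResidual p K).map K.subtype, x * h = h * x := by
    refine hb _ ?_ ?_
    · rw [Subgroup.card_map_of_injective K.subtype_injective]
      exact hcopR
    · intro h hh
      exact (mem_normalizer_iff.1 (Cfsg.Agent.Lib.LRes.res_normal_of_normalizes K hxK) h).1 hh
  have hKC : K ≤ C := by
    intro k hk
    obtain ⟨a, b, ha, hb', hab, ⟨n, hn⟩, hcb⟩ := Cfsg.Agent.Lib.FGSBasic.exists_p_decomp p k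
    have hzk : zpowers k ≤ K := (zpowers_le).2 hk
    have ha' : a ∈ Z := hKp a (hzk ha) ⟨n, by rw [← hn]; exact pow_orderOf_eq_one a⟩
    have hb2 : x * b = b * x := hR b (Cfsg.Agent.Lib.LRes.coprime_mem_res (hzk hb') hcb)
    refine mem_centralizer_singleton_iff.2 ?_
    rw [← hab]
    have h5 := (mem_center_iff.1 ha') x
    calc a * b * x = a * (x * b) := by rw [mul_assoc, hb2]
      _ = x * a * b := by rw [← mul_assoc, ← h5]
      _ = _ := by rw [mul_assoc]
  have hNbot : N = ⊥ := by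
    rw [eq_bot_iff]
    intro nb hnb
    obtain ⟨k, rfl⟩ := hπs nb
    have h1 : π k ∈ C.map π := ⟨k, hKC hnb, rfl⟩
    exact Subgroup.disjoint_def.1 hc.disjoint hnb h1
  have htop := hc.sup_eq_top
  rw [hNbot, bot_sup_eq] at htop
  exact hF.2.1 htop

end Step

theorem aux (p : ℕ) [Fact p.Prime] : ∀ (n : ℕ) (G : Type u) [Group G] [Finite G] (x : G), Nat.card G = n →
    (∃ k : ℕ, x ^ p ^ k = 1) →
    (∀ g : G, (∃ D : Subgroup G, IsPGroup p D ∧ x ∈ D ∧ g⁻¹ * x * g ∈ D) → g⁻¹ * x * g = x) →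
    (∀ H : Subgroup G, (Nat.card H).Coprime p → (∀ h ∈ H, x * h * x⁻¹ ∈ H) → ∀ h ∈ H, x * h = h * x) →
    x ∈ center G := by
  intro n
  induction n using Nat.strong_induction_on with
  | _ n ih =>
    intro G _ _ x hn hxp hU hb
    refine step hxp hU hb ?_
    intro L hL hxL l hl
    have hlt : Nat.card L < n := by
      rw [← hn]
      have h0 := Cfsg.Agent.Lib.PNilp.card_lt_of_lt' (lt_top_iff_ne_top.2 hL)
      rwa [Subgroup.card_top] at h0
    have h1 := ih _ hlt ↥L ⟨x, hxL⟩ rfl ?_ ?_ ?_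
    · have h2 := (mem_center_iff.1 h1) ⟨l, hl⟩
      exact mem_centralizer_singleton_iff.2 (congrArg Subtype.val h2)
    · obtain ⟨k, hk⟩ := hxp
      exact ⟨k, Subtype.ext hk⟩
    · rintro g ⟨D, hDp, hxD, hgD⟩
      apply Subtype.ext
      show (g : G)⁻¹ * x * g = x
      apply hU
      refine ⟨D.map L.subtype, hDp.map _, ⟨_, hxD, rfl⟩, ⟨_, hgD, rfl⟩⟩
    · intro H hH hnorm h hh
      apply Subtype.ext
      show x * h = h * x
      refine hb (H.map L.subtype) ?_ ?_ h ⟨h, hh, rfl⟩
      · rwa [Subgroup.card_map_of_injective L.subtype_injective]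
      · rintro _ ⟨a, ha, rfl⟩
        exact ⟨_, hnorm a ha, rfl⟩

/-- S3064 -/
theorem isolated_central {G : Type u} [Group G] [Finite G] {p : ℕ} [Fact p.Prime]
    (S : Sylow p G) (x : G) (hx : x ∈ S)
    (hU : ∀ g : G, g⁻¹ * x * g ∈ S → g⁻¹ * x * g = x)
    (hb : ∀ H : Subgroup G, (Nat.card H).Coprime p → (∀ h ∈ H, x * h * x⁻¹ ∈ H) → ∀ h ∈ H, x * h = h * x) :
    x ∈ Subgroup.center G := by
  refine aux p _ G x rfl (pelt_of_mem S.2 hx) ?_ hb
  rintro g ⟨D, hDp, hxD, hgD⟩
  obtain ⟨S₁, hS₁⟩ := hDp.exists_le_sylow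
  obtain ⟨h, hh⟩ := MulAction.exists_smul_eq G S S₁
  have hmem : ∀ y : G, y ∈ D → h⁻¹ * y * h ∈ S := by
    intro y hy
    have h1 : y ∈ S₁ := hS₁ hy
    rw [← hh] at h1
    exact Cfsg.Agent.Lib.H1Core.mem_sylow_smul.1 h1
  have h2 := hU h (hmem x hxD)
  have h3 : (g * h)⁻¹ * x * (g * h) = x := by
    apply hU
    have := hmem _ hgD
    have e : (g * h)⁻¹ * x * (g * h) = h⁻¹ * (g⁻¹ * x * g) * h := by group
    rw [e]
    exact this
  have h4 : h⁻¹ * (g⁻¹ * x * g) * h = h⁻¹ * x * h := by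
    rw [h2]
    have e : (g * h)⁻¹ * x * (g * h) = h⁻¹ * (g⁻¹ * x * g) * h := by group
    rw [← e, h3]
  have h5 : h * (h⁻¹ * (g⁻¹ * x * g) * h) * h⁻¹ = h * (h⁻¹ * x * h) * h⁻¹ := by rw [h4]
  simpa [mul_assoc] using h5

end Cfsg.Agent.Lib.LZStar0
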