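import Cfsg.Agent.S5595

/-! Singular subgroups in the presence of a large extraspecial 2-subgroup: element-level tools. -/

set_option autoImplicit false
set_option linter.unusedVariables false
set_option linter.unusedSimpArgs false

namespace Cfsg.Agent.Lib.LargeXS

open Cfsg Cfsg.Agent.S5595

variable {G : Type*} [Group G]

/-- commuting with generators gives commuting with the closure -/
theorem comm_closure (g : G) (S : Set G) (h : ∀ a ∈ S, g * a = a * g) :
    ∀ a ∈ Subgroup.closure S, g * a = a * g := by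
  have h1 : Subgroup.closure S ≤ Subgroup.centralizer ({g} : Set G) :=
    (Subgroup.closure_le _).2 fun a ha => Subgroup.mem_centralizer_singleton_iff.2 (h a ha).symm
  intro a ha
  exact (Subgroup.mem_centralizer_singleton_iff.1 (h1 ha)).symm

theorem nc2 {Q : Subgroup G} {z : G} (h : XS Q z) {g y y' : G} (hg : g ∈ Q) (hy : y ∈ Q) (hy' : y' ∈ Q)
    (h1 : ¬ g * y = y * g) (h2 : ¬ g * y' = y' * g) : g * (y * y') = (y * y') * g := by
  have e1 := (h.comm g hg y hy).resolve_left h1
  have e2 := (h.comm g hg y' hy').resolve_left h2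
  have zz : ∀ x, z * (z * x) = x := fun x => by rw [← mul_assoc, h.z2, one_mul]
  calc g * (y * y') = (g * y) * y' := by group
    _ = z * (y * (g * y')) := by rw [e1]; group
    _ = z * (y * (z * (y' * g))) := by rw [e2]
    _ = z * ((y * z) * (y' * g)) := by group
    _ = z * (z * (y * (y' * g))) := by rw [h.zc y hy]; group
    _ = (y * y') * g := by rw [zz]; group

theorem lnc2 {Q : Subgroup G} {z : G} (h : XS Q z) {g g' y : G} (hg : g ∈ Q) (hg' : g' ∈ Q) (hy : y ∈ Q)
    (h1 : ¬ g * y = y * g) (h2 : ¬ g' * y = y * g') : (g * g') * y = y * (g * g') := by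
  have e1 := (h.comm g hg y hy).resolve_left h1
  have e2 := (h.comm g' hg' y hy).resolve_left h2
  have zz : ∀ x, z * (z * x) = x := fun x => by rw [← mul_assoc, h.z2, one_mul]
  calc (g * g') * y = g * (g' * y) := by group
    _ = g * (z * (y * g')) := by rw [e2]
    _ = (g * z) * (y * g') := by group
    _ = z * ((g * y) * g') := by rw [h.zc g hg]; group
    _ = z * ((z * (y * g)) * g') := by rw [e1]
    _ = z * (z * (y * g * g')) := by group
    _ = y * (g * g') := by rw [zz]; group

theorem lnc1 {g g' y : G} (h1 : ¬ g * y = y * g) (h2 : g' * y = y * g') :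
    ¬ (g * g') * y = y * (g * g') := by
  intro h
  apply h1
  have h3 : (g * y) * g' = (y * g) * g' := by
    calc (g * y) * g' = g * (y * g') := by group
      _ = g * (g' * y) := by rw [h2]
      _ = (g * g') * y := by group
      _ = y * (g * g') := h
      _ = (y * g) * g' := by group
  exact mul_right_cancel h3

/-- a separating element: the centralizer of a subgroup containing the centre has no more centralizer -/
theorem good {Q : Subgroup G} {z : G} (h : XS Q z) (s : Finset G) (hs : (s : Set G) ⊆ Q) :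
    ∀ x ∈ Q, x ∉ Subgroup.closure (insert z (s : Set G)) →
      ∃ g ∈ Q, (∀ a ∈ Subgroup.closure (insert z (s : Set G)), g * a = a * g) ∧ g * x ≠ x * g := by
  classical
  induction s using Finset.induction_on with
  | empty =>
    intro x hx hnx
    have hnc : ¬ ∀ y ∈ Q, x * y = y * x := by
      intro hc
      rcases h.cen x hx hc with h1 | h1
      · exact hnx (by rw [h1]; exact Subgroup.one_mem _)
      · exact hnx (by rw [h1]; exact Subgroup.subset_closure (Set.mem_insert _ _))
    push_neg at hnc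
    obtain ⟨g, hg, hgx⟩ := hnc
    refine ⟨g, hg, ?_, fun h1 => hgx h1.symm⟩
    apply comm_closure
    intro a ha
    simp only [Finset.coe_empty, insert_empty_eq, Set.mem_singleton_iff] at ha
    rw [ha]
    exact h.zc g hg
  | insert a s ha ih =>
    intro x hx hnx
    rw [Finset.coe_insert] at hs hnx ⊢
    have haQ : a ∈ Q := hs (Set.mem_insert _ _)
    have hsQ : (s : Set G) ⊆ Q := fun y hy => hs (Set.mem_insert_of_mem _ hy)
    have hle : Subgroup.closure (insert z (s : Set G)) ≤ Subgroup.closure (insert z (insert a (s : Set G))) :=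
      Subgroup.closure_mono (Set.insert_subset_insert (Set.subset_insert _ _))
    have haA : a ∈ Subgroup.closure (insert z (insert a (s : Set G))) :=
      Subgroup.subset_closure (Set.mem_insert_of_mem _ (Set.mem_insert _ _))
    have hx1 : x ∉ Subgroup.closure (insert z (s : Set G)) := fun h1 => hnx (hle h1)
    have hx2 : x * a ∉ Subgroup.closure (insert z (s : Set G)) := by
      intro h1
      apply hnx
      have h3 := (Subgroup.mul_mem_cancel_right _ haA).1 (hle h1)
      exact h3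
    obtain ⟨g₁, hg₁, hc₁, hn₁⟩ := ih hsQ x hx hx1
    obtain ⟨g₂, hg₂, hc₂, hn₂⟩ := ih hsQ (x * a) (Q.mul_mem hx haQ) hx2
    have key : ∃ g ∈ Q, (∀ b ∈ Subgroup.closure (insert z (s : Set G)), g * b = b * g) ∧ g * a = a * g ∧ g * x ≠ x * g := by
      by_cases h1 : g₁ * a = a * g₁
      · exact ⟨g₁, hg₁, hc₁, h1, hn₁⟩
      · by_cases h2 : g₂ * a = a * g₂
        · refine ⟨g₂, hg₂, hc₂, h2, ?_⟩
          intro h3
          apply hn₂
          calc g₂ * (x * a) = (g₂ * x) * a := by group
            _ = x * (g₂ * a) := by rw [h3]; group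
            _ = x * (a * g₂) := by rw [h2]
            _ = (x * a) * g₂ := by group
        · have h3 : g₂ * x = x * g₂ := by
            by_contra h3
            exact hn₂ (nc2 h hg₂ hx haQ h3 h2)
          refine ⟨g₁ * g₂, Q.mul_mem hg₁ hg₂, ?_, lnc2 h hg₁ hg₂ haQ h1 h2, lnc1 hn₁ h3⟩
          intro b hb
          calc g₁ * g₂ * b = g₁ * (g₂ * b) := by group
            _ = g₁ * (b * g₂) := by rw [hc₂ b hb]
            _ = (g₁ * b) * g₂ := by group
            _ = (b * g₁) * g₂ := by rw [hc₁ b hb]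
            _ = b * (g₁ * g₂) := by group
    obtain ⟨g, hg, hc, hca, hnx'⟩ := key
    refine ⟨g, hg, ?_, hnx'⟩
    apply comm_closure
    intro b hb
    rcases hb with rfl | rfl | hb
    · exact h.zc g hg
    · exact hca
    · exact hc b (Subgroup.subset_closure (Set.mem_insert_of_mem _ hb))

theorem good_sub [Finite G] {Q : Subgroup G} {z : G} (h : XS Q z) (A : Subgroup G) (hAQ : A ≤ Q) (hz : z ∈ A)
    {x : G} (hx : x ∈ Q) (hxA : x ∉ A) : ∃ g ∈ Q, (∀ a ∈ A, g * a = a * g) ∧ g * x ≠ x * g := by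
  classical
  let s : Finset G := (Set.toFinite (A : Set G)).toFinset
  have hs : (s : Set G) = A := by
    simp [s]
  have h1 : Subgroup.closure (insert z (s : Set G)) = A := by
    rw [hs, Set.insert_eq_of_mem hz, Subgroup.closure_eq]
  have := good h s (by rw [hs]; exact hAQ) x hx (by rw [h1]; exact hxA)
  rwa [h1] at this

theorem conj_form {Q : Subgroup G} {z : G} (h : XS Q z) {g x : G} (hg : g ∈ Q) (hx : x ∈ Q)
    (hn : g * x ≠ x * g) : g * x * g⁻¹ = z * x := by
  have e1 := (h.comm g hg x hx).resolve_left hn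
  rw [e1]
  group

theorem conj_cases {Q : Subgroup G} {z : G} (h : XS Q z) {g x : G} (hg : g ∈ Q) (hx : x ∈ Q) :
    g * x * g⁻¹ = x ∨ g * x * g⁻¹ = z * x := by
  by_cases hn : g * x = x * g
  · left
    rw [hn]
    group
  · exact Or.inr (conj_form h hg hx hn)

section setting

variable [Finite G]

theorem xs_all (Q : G → Subgroup G)
    (hQ : ∀ x : G, Q x = (Cfsg.pCore 2 ↥(Subgroup.centralizer ({x} : Set G))).map (Subgroup.centralizer ({x} : Set G)).subtype)
    (z : G) (hz : orderOf z = 2) (hE : Cfsg.IsExtraspecial 2 ↥(Q z)) (g : G) :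
    XS (Q (g * z * g⁻¹)) (g * z * g⁻¹) := by
  have hz2 : z * z = 1 := by
    rw [← pow_two, ← hz]
    exact pow_orderOf_eq_one z
  have hz1 : z ≠ 1 := by
    rintro rfl
    simp at hz
  have hXa : XS (Q z) z := xs_of _ _ hE hz2 hz1 (Q_self Q hQ z hz2) (fun x hx => Q_mem_C Q hQ z x hx)
    (fun c hc x hx => Q_nor Q hQ z c x hc hx)
  obtain ⟨b, hbdef⟩ : ∃ b, b = g * z * g⁻¹ := ⟨_, rfl⟩
  rw [← hbdef]
  have hsurj : ∀ y ∈ Q b, g⁻¹ * y * g ∈ Q z := by
    intro y hy
    have := Q_conj Q hQ g⁻¹ b y hy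
    have h2 : g⁻¹ * b * g⁻¹⁻¹ = z := by
      rw [hbdef]
      group
    rwa [h2, inv_inv] at this
  have hinto : ∀ y ∈ Q z, g * y * g⁻¹ ∈ Q b := by
    intro y hy
    have := Q_conj Q hQ g z y hy
    rwa [← hbdef] at this
  have hb2 : b * b = 1 := by
    rw [hbdef]
    calc g * z * g⁻¹ * (g * z * g⁻¹) = g * (z * z) * g⁻¹ := by group
      _ = 1 := by rw [hz2]; group
  have hb1 : b ≠ 1 := by
    intro h
    apply hz1
    rw [hbdef] at h
    have : z = g⁻¹ * (g * z * g⁻¹) * g := by group
    rw [this, h]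
    group
  refine ⟨hb2, hb1, Q_self Q hQ b hb2, fun x hx => Q_mem_C Q hQ b x hx, ?_, ?_, ?_, fun c hc x hx => Q_nor Q hQ b c x hc hx⟩
  · intro x hx y hy
    rcases hXa.comm _ (hsurj x hx) _ (hsurj y hy) with h | h
    · left
      calc x * y = g * ((g⁻¹ * x * g) * (g⁻¹ * y * g)) * g⁻¹ := by group
        _ = g * ((g⁻¹ * y * g) * (g⁻¹ * x * g)) * g⁻¹ := by rw [h]
        _ = y * x := by group
    · right
      calc x * y = g * ((g⁻¹ * x * g) * (g⁻¹ * y * g)) * g⁻¹ := by group
        _ = g * (z * ((g⁻¹ * y * g) * (g⁻¹ * x * g))) * g⁻¹ := by rw [h]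
        _ = b * (y * x) := by rw [hbdef]; group
  · intro x hx
    rcases hXa.sq _ (hsurj x hx) with h | h
    · left
      calc x * x = g * ((g⁻¹ * x * g) * (g⁻¹ * x * g)) * g⁻¹ := by group
        _ = 1 := by rw [h]; group
    · right
      calc x * x = g * ((g⁻¹ * x * g) * (g⁻¹ * x * g)) * g⁻¹ := by group
        _ = g * z * g⁻¹ := by rw [h]
        _ = b := hbdef.symm
  · intro x hx hc
    have h1 : ∀ y ∈ Q z, (g⁻¹ * x * g) * y = y * (g⁻¹ * x * g) := by
      intro y hy
      have h2 := hc _ (hinto y hy)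
      calc (g⁻¹ * x * g) * y = g⁻¹ * (x * (g * y * g⁻¹)) * g := by group
        _ = g⁻¹ * ((g * y * g⁻¹) * x) * g := by rw [h2]
        _ = y * (g⁻¹ * x * g) := by group
    rcases hXa.cen _ (hsurj x hx) h1 with h | h
    · left
      calc x = g * (g⁻¹ * x * g) * g⁻¹ := by group
        _ = 1 := by rw [h]; group
    · right
      calc x = g * (g⁻¹ * x * g) * g⁻¹ := by group
        _ = b := by rw [h, hbdef]

/-- The singular setting as a bundle of element-level facts. -/
structure Sing (Q : G → Subgroup G) (U : Subgroup G) : Prop where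
  xs : ∀ u ∈ U, u ≠ 1 → XS (Q u) u
  sq : ∀ u ∈ U, u * u = 1
  mem : ∀ u ∈ U, u ≠ 1 → ∀ v ∈ U, v ∈ Q u
  conj : ∀ (p x : G) (y : G), y ∈ Q x → p * y * p⁻¹ ∈ Q (p * x * p⁻¹)

theorem sing_of (Q : G → Subgroup G)
    (hQ : ∀ x : G, Q x = (Cfsg.pCore 2 ↥(Subgroup.centralizer ({x} : Set G))).map (Subgroup.centralizer ({x} : Set G)).subtype)
    (z : G) (hz : orderOf z = 2) (hE : Cfsg.IsExtraspecial 2 ↥(Q z))
    (U : Subgroup G) (hU2 : ∀ u ∈ U, u * u = 1)
    (hS : ∀ u ∈ U, u ≠ 1 → ∃ g : G, g * z * g⁻¹ = u)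
    (hO : ∀ u ∈ U, ∀ v ∈ U, u ≠ 1 → v ≠ 1 → v ∈ Q u) : Sing Q U := by
  refine ⟨?_, hU2, ?_, fun p x y hy => Q_conj Q hQ p x y hy⟩
  · intro u hu hu1
    obtain ⟨g, rfl⟩ := hS u hu hu1
    exact xs_all Q hQ z hz hE g
  · intro u hu hu1 v hv
    by_cases hv1 : v = 1
    · rw [hv1]
      exact Subgroup.one_mem _
    · exact hO u hu v hv hu1 hv1

theorem Sing.comm {Q : G → Subgroup G} {U : Subgroup G} (h : Sing Q U) {u v : G} (hu : u ∈ U) (hv : v ∈ U) :
    u * v = v * u := by
  have h1 := h.sq _ (U.mul_mem hu hv)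
  have h2 := h.sq u hu
  have h3 := h.sq v hv
  calc u * v = u * v * (v * u) * (v * u)⁻¹ := by group
    _ = (v * u)⁻¹ := by
      have : u * v * (v * u) = u * (v * v) * u := by group
      rw [this, h3, mul_one, h2, one_mul]
    _ = v * u := by
      apply inv_eq_of_mul_eq_one_left
      have : v * u * (v * u) = v * u * (v * u) := rfl
      have h4 : v * u * (v * u) = 1 := by
        have h5 := h.sq _ (U.mul_mem hv hu)
        exact h5
      exact h4

/-- intersection of two `Q`'s inside the third one -/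
theorem Sing.inter {Q : G → Subgroup G} {U : Subgroup G} (h : Sing Q U) {u v x : G} (hu : u ∈ U) (hv : v ∈ U)
    (hu1 : u ≠ 1) (hv1 : v ≠ 1) (huv : u ≠ v) (hx : x ∈ Q u) (hx' : x ∈ Q v) : x ∈ Q (u * v) := by
  have hX := h.xs u hu hu1
  have hvQ := h.mem u hu hu1 v hv
  have hnc : ¬ ∀ y ∈ Q u, v * y = y * v := by
    intro hc
    rcases hX.cen v hvQ hc with h1 | h1
    · exact hv1 h1
    · exact huv h1.symm
  push_neg at hnc
  obtain ⟨p, hp, hpv⟩ := hnc
  have e1 : p * v * p⁻¹ = u * v := conj_form hX hp hvQ (fun h1 => hpv h1.symm)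
  have h2 := h.conj p v x hx'
  rw [e1] at h2
  have huv1 : u * v ≠ 1 := by
    intro h1
    apply huv
    have h3 := h.sq v hv
    calc u = u * v * v⁻¹ := by group
      _ = v⁻¹ := by rw [h1, one_mul]
      _ = v := inv_eq_of_mul_eq_one_left h3
  rcases conj_cases hX hp hx with h3 | h3
  · rwa [h3] at h2
  · rw [h3] at h2
    have h4 : u ∈ Q (u * v) := h.mem _ (U.mul_mem hu hv) huv1 u hu
    exact (Subgroup.mul_mem_cancel_left _ h4).1 h2

/-- the action of the join of the `Q u` -/
theorem Sing.lu_props {Q : G → Subgroup G} {U : Subgroup G} (h : Sing Q U) (QU LU : Subgroup G)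
    (hQU : QU = ⨅ u ∈ ((U : Set G) \ {1}), Q u) (hLU : LU = ⨆ u ∈ ((U : Set G) \ {1}), Q u) :
    ∀ g ∈ LU, (∀ v ∈ U, g * v * g⁻¹ ∈ U) ∧ ∀ x ∈ QU, g * x * g⁻¹ * x⁻¹ ∈ U := by
  let M : Submonoid G :=
    { carrier := {g | (∀ v ∈ U, g * v * g⁻¹ ∈ U) ∧ ∀ x ∈ QU, g * x * g⁻¹ * x⁻¹ ∈ U}
      one_mem' := by
        constructor
        · intro v hv
          simpa using hv
        · intro x hx
          simp
      mul_mem' := by
        rintro g₁ g₂ ⟨h1, h2⟩ ⟨h3, h4⟩
        constructor
        · intro v hv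
          have : g₁ * g₂ * v * (g₁ * g₂)⁻¹ = g₁ * (g₂ * v * g₂⁻¹) * g₁⁻¹ := by group
          rw [this]
          exact h1 _ (h3 v hv)
        · intro x hx
          have : g₁ * g₂ * x * (g₁ * g₂)⁻¹ * x⁻¹ = g₁ * (g₂ * x * g₂⁻¹ * x⁻¹) * g₁⁻¹ * (g₁ * x * g₁⁻¹ * x⁻¹) := by group
          rw [this]
          exact U.mul_mem (h1 _ (h4 x hx)) (h2 x hx) }
  let L : Subgroup G :=
    { M with
      inv_mem' := by
        intro g hg
        have h1 : g⁻¹ = g ^ (orderOf g - 1) := by
          apply inv_eq_of_mul_eq_one_right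
          rw [← pow_succ', Nat.sub_add_cancel (orderOf_pos g), pow_orderOf_eq_one]
        rw [h1]
        exact M.pow_mem hg _ }
  have hle : LU ≤ L := by
    rw [hLU]
    refine iSup₂_le ?_
    rintro u ⟨hu, hu1⟩ g hg
    have hu1' : u ≠ 1 := hu1
    have hX := h.xs u hu hu1'
    refine ⟨?_, ?_⟩
    · intro v hv
      rcases conj_cases hX hg (h.mem u hu hu1' v hv) with h1 | h1
      · rwa [h1]
      · rw [h1]
        exact U.mul_mem hu hv
    · intro x hx
      have hxu : x ∈ Q u := by
        rw [hQU] at hx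
        simp only [Subgroup.mem_iInf] at hx
        exact hx u ⟨hu, hu1⟩
      rcases conj_cases hX hg hxu with h1 | h1
      · rw [h1, mul_inv_cancel]
        exact U.one_mem
      · rw [h1, mul_inv_cancel_right]
        exact hu
  intro g hg
  exact hle hg

end setting

end Cfsg.Agent.Lib.LargeXS
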