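import Mathlib

set_option autoImplicit false

namespace Cfsg.Agent.Lib.LatCompl

variable {G : Type*} [Group G]

/-- Main step: a complement of a subgroup not in the unique maximal overgroup of `X`. -/
theorem exists_compl [Finite G] (T X M : Subgroup G)
    (hint : ∀ Y : Subgroup G, T ≤ Y → Y ≤ X → ∃ C : Subgroup G, T ≤ C ∧ C ≤ X ∧ Y ⊔ C = X ∧ Y ⊓ C = T)
    (hTX : T ≤ X) (huniq : ∀ M' : Subgroup G, IsCoatom M' → X ≤ M' → M' = M)
    (H : Subgroup G) (hH : ¬ H ≤ M) (hHT : H ⊓ T = ⊥) :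
    ∃ C : Subgroup G, H ⊔ C = ⊤ ∧ H ⊓ C = ⊥ := by
  obtain ⟨C, hTC, hCX, hsup, hinf⟩ := hint (T ⊔ (H ⊓ X)) le_sup_left (sup_le hTX inf_le_right)
  refine ⟨C, ?_, ?_⟩
  · rcases eq_top_or_exists_le_coatom (H ⊔ C) with h | ⟨M', hM', hle⟩
    · exact h
    · exfalso
      have hXle : X ≤ M' := by
        rw [← hsup]
        refine sup_le (sup_le (hTC.trans (le_sup_right.trans hle)) ?_) (le_sup_right.trans hle)
        exact inf_le_left.trans (le_sup_left.trans hle)
      rw [huniq M' hM' hXle] at hle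
      exact hH (le_sup_left.trans hle)
  · rw [eq_bot_iff, ← hHT]
    apply le_inf inf_le_left
    rw [← hinf]
    apply le_inf _ inf_le_right
    exact (le_inf inf_le_left (inf_le_right.trans hCX)).trans le_sup_right

/-- Complements transfer along conjugation. -/
theorem compl_of_conj (b : G) (H : Subgroup G) (h : ∃ C : Subgroup G, H.map (MulAut.conj b).toMonoidHom ⊔ C = ⊤ ∧ H.map (MulAut.conj b).toMonoidHom ⊓ C = ⊥) :
    ∃ C : Subgroup G, H ⊔ C = ⊤ ∧ H ⊓ C = ⊥ := by
  obtain ⟨C, h1, h2⟩ := h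
  refine ⟨C.map (MulAut.conj b⁻¹).toMonoidHom, ?_, ?_⟩
  · have e := congrArg (Subgroup.map (MulAut.conj b⁻¹).toMonoidHom) h1
    rw [Subgroup.map_sup, Subgroup.map_map] at e
    have e2 : (MulAut.conj b⁻¹).toMonoidHom.comp (MulAut.conj b).toMonoidHom = MonoidHom.id G := by
      ext x
      simp [MulAut.conj_apply]
      group
    rw [e2, Subgroup.map_id] at e
    rw [e]
    exact Subgroup.map_top_of_surjective _ (MulAut.conj b⁻¹).surjective
  · have e := congrArg (Subgroup.map (MulAut.conj b⁻¹).toMonoidHom) h2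
    rw [Subgroup.map_inf _ _ _ (MulAut.conj b⁻¹).injective, Subgroup.map_map] at e
    have e2 : (MulAut.conj b⁻¹).toMonoidHom.comp (MulAut.conj b).toMonoidHom = MonoidHom.id G := by
      ext x
      simp [MulAut.conj_apply]
      group
    rw [e2, Subgroup.map_id, Subgroup.map_bot] at e
    exact e

end Cfsg.Agent.Lib.LatCompl
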