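import Mathlib

set_option autoImplicit false
set_option linter.unusedSectionVars false
set_option linter.unusedVariables false

namespace Cfsg.Agent.Lib.LdAb

open Equiv

/-- The extremal product function. -/
def gg : ℕ → ℕ
  | 0 => 1
  | 1 => 1
  | 2 => 2
  | 3 => 3
  | 4 => 4
  | (n + 5) => 3 * gg (n + 2)

theorem gg_step (n : ℕ) : gg (n + 5) = 3 * gg (n + 2) := by
  rw [gg]

theorem gg_step' (n : ℕ) (hn : 5 ≤ n) : gg n = 3 * gg (n - 3) := by
  obtain ⟨m, rfl⟩ := Nat.exists_eq_add_of_le' hn
  rw [gg_step]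
  congr 2

theorem gg_mul_le : ∀ (s a b : ℕ), a + b = s → gg a * gg b ≤ gg (a + b) := by
  intro s
  induction s using Nat.strong_induction_on with
  | _ s ih =>
    intro a b hab
    by_cases ha : 5 ≤ a
    · have h1 := ih (a - 3 + b) (by omega) (a - 3) b rfl
      rw [gg_step' a ha, gg_step' (a + b) (by omega)]
      have : a - 3 + b = a + b - 3 := by omega
      rw [this] at h1
      calc 3 * gg (a - 3) * gg b = 3 * (gg (a - 3) * gg b) := by ring
        _ ≤ _ := Nat.mul_le_mul_left _ h1
    by_cases hb : 5 ≤ b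
    · have h1 := ih (a + (b - 3)) (by omega) a (b - 3) rfl
      rw [gg_step' b hb, gg_step' (a + b) (by omega)]
      have : a + (b - 3) = a + b - 3 := by omega
      rw [this] at h1
      calc gg a * (3 * gg (b - 3)) = 3 * (gg a * gg (b - 3)) := by ring
        _ ≤ _ := Nat.mul_le_mul_left _ h1
    have ha' : a < 5 := by omega
    have hb' : b < 5 := by omega
    interval_cases a <;> interval_cases b <;> decide

theorem gg_mul_le' (a b : ℕ) : gg a * gg b ≤ gg (a + b) := gg_mul_le _ a b rfl

theorem le_gg : ∀ m : ℕ, m ≤ gg m := by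
  intro m
  induction m using Nat.strong_induction_on with
  | _ m ih =>
    by_cases hm : 5 ≤ m
    · rw [gg_step' m hm]
      have := ih (m - 3) (by omega)
      omega
    · have : m < 5 := by omega
      interval_cases m <;> decide

theorem gg_pos : ∀ m : ℕ, 0 < gg m := by
  intro m
  induction m using Nat.strong_induction_on with
  | _ m ih =>
    by_cases hm : 5 ≤ m
    · rw [gg_step' m hm]
      have := ih (m - 3) (by omega)
      omega
    · have : m < 5 := by omega
      interval_cases m <;> decide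

theorem prod_le_gg {ι : Type*} (s : Finset ι) (m : ι → ℕ) : ∏ i ∈ s, m i ≤ gg (∑ i ∈ s, m i) := by
  classical
  induction s using Finset.induction_on with
  | empty => simp [gg]
  | insert a s ha ih =>
    rw [Finset.prod_insert ha, Finset.sum_insert ha]
    calc m a * ∏ i ∈ s, m i ≤ gg (m a) * gg (∑ i ∈ s, m i) := Nat.mul_le_mul (le_gg _) ih
      _ ≤ _ := gg_mul_le' _ _

theorem gg_three_mul (k : ℕ) : gg (3 * k) = 3 ^ k := by
  induction k using Nat.strong_induction_on with
  | _ k ih =>
    by_cases hk : 2 ≤ k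
    · rw [gg_step' _ (by omega)]
      have := ih (k - 1) (by omega)
      have h2 : 3 * k - 3 = 3 * (k - 1) := by omega
      rw [h2, this]
      obtain ⟨j, rfl⟩ : ∃ j, k = j + 1 := ⟨k - 1, by omega⟩
      simp [pow_succ]
      ring
    · have : k < 2 := by omega
      interval_cases k <;> decide

theorem gg_three_mul_add_one (k : ℕ) (hk : 1 ≤ k) : gg (3 * k + 1) = 4 * 3 ^ (k - 1) := by
  induction k using Nat.strong_induction_on with
  | _ k ih =>
    by_cases hk2 : 2 ≤ k
    · rw [gg_step' _ (by omega)]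
      have := ih (k - 1) (by omega) (by omega)
      have h2 : 3 * k + 1 - 3 = 3 * (k - 1) + 1 := by omega
      rw [h2, this]
      obtain ⟨j, rfl⟩ : ∃ j, k = j + 2 := ⟨k - 2, by omega⟩
      simp [pow_succ]
      ring
    · have : k = 1 := by omega
      subst this
      decide

theorem gg_three_mul_add_two (k : ℕ) : gg (3 * k + 2) = 2 * 3 ^ k := by
  induction k using Nat.strong_induction_on with
  | _ k ih =>
    by_cases hk2 : 1 ≤ k
    · rw [gg_step' _ (by omega)]
      have := ih (k - 1) (by omega)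
      have h2 : 3 * k + 2 - 3 = 3 * (k - 1) + 2 := by omega
      rw [h2, this]
      obtain ⟨j, rfl⟩ : ∃ j, k = j + 1 := ⟨k - 1, by omega⟩
      simp [pow_succ]
      ring
    · have : k = 0 := by omega
      subst this
      decide

/-- bound when a part is not `2` or `3`. -/
theorem special_bound (k m : ℕ) (hk : 2 ≤ k) (hm : 0 < m) (h2 : m ≠ 2) (h3 : m ≠ 3) (hmk : m ≤ 3 * k + 2) :
    m * gg (3 * k + 2 - m) ≤ 16 * 3 ^ (k - 2) := by
  obtain ⟨j, rfl⟩ : ∃ j, k = j + 2 := ⟨k - 2, by omega⟩
  simp only [Nat.add_sub_cancel]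
  by_cases h1 : m = 1
  · subst h1
    have : 3 * (j + 2) + 2 - 1 = 3 * (j + 2) + 1 := by omega
    rw [this, gg_three_mul_add_one _ (by omega)]
    have h5 : j + 2 - 1 = j + 1 := by omega
    rw [h5, pow_succ]
    omega
  by_cases h5 : m = 5
  · subst h5
    have : 3 * (j + 2) + 2 - 5 = 3 * (j + 1) := by omega
    rw [this, gg_three_mul, pow_succ]
    omega
  have hm4 : 4 ≤ m := by omega
  have hle : m ≤ 4 * gg (m - 4) := by
    by_cases h4 : m = 4
    · subst h4; decide
    · have := le_gg (m - 4)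
      omega
  have h6 := gg_mul_le' (m - 4) (3 * (j + 2) + 2 - m)
  have h7 : m - 4 + (3 * (j + 2) + 2 - m) = 3 * (j + 1) + 1 := by omega
  rw [h7, gg_three_mul_add_one _ (by omega)] at h6
  have h8 : j + 1 - 1 = j := by omega
  rw [h8] at h6
  calc m * gg (3 * (j + 2) + 2 - m) ≤ (4 * gg (m - 4)) * gg (3 * (j + 2) + 2 - m) :=
        Nat.mul_le_mul_right _ hle
    _ = 4 * (gg (m - 4) * gg (3 * (j + 2) + 2 - m)) := by ring
    _ ≤ 4 * (4 * 3 ^ j) := Nat.mul_le_mul_left _ h6
    _ = 16 * 3 ^ j := by ring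

/-- The numerical case analysis for the alternating group in degree `3k+2`. -/
theorem arith_alt {ι : Type*} [Fintype ι] (m : ι → ℕ) (k : ℕ) (hk : 2 ≤ k) (hpos : ∀ i, 0 < m i)
    (hsum : ∑ i, m i = 3 * k + 2) :
    ∏ i, m i ≤ 16 * 3 ^ (k - 2) ∨ ∃ i₀, m i₀ = 2 ∧ ∀ i, i ≠ i₀ → m i = 3 := by
  classical
  by_cases h : ∃ i, m i ≠ 2 ∧ m i ≠ 3
  · left
    obtain ⟨i, h2, h3⟩ := h
    have hsp : ∑ j ∈ Finset.univ.erase i, m j = 3 * k + 2 - m i := by
      have := Finset.add_sum_erase Finset.univ m (Finset.mem_univ i)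
      omega
    have hmk : m i ≤ 3 * k + 2 := by
      have := Finset.add_sum_erase Finset.univ m (Finset.mem_univ i)
      omega
    rw [← Finset.mul_prod_erase Finset.univ m (Finset.mem_univ i)]
    refine le_trans (Nat.mul_le_mul_left _ ?_) (special_bound k (m i) hk (hpos i) h2 h3 hmk)
    rw [← hsp]
    exact prod_le_gg _ _
  · push_neg at h
    -- all parts are `2` or `3`
    let T := Finset.univ.filter (fun i => m i = 2)
    have hsum2 : 2 * T.card + 3 * (Finset.univ.filter (fun i => ¬ m i = 2)).card = 3 * k + 2 := by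
      rw [← hsum, ← Finset.sum_filter_add_sum_filter_not Finset.univ (fun i => m i = 2) m]
      congr 1
      · rw [Finset.sum_congr rfl (fun i hi => (Finset.mem_filter.1 hi).2)]
        simp [mul_comm, T]
      · rw [Finset.sum_congr rfl (fun i hi => h i (Finset.mem_filter.1 hi).2)]
        simp [mul_comm]
    by_cases hT : T.card = 1
    · right
      obtain ⟨i₀, hi₀⟩ := Finset.card_eq_one.1 hT
      have h0 : i₀ ∈ T := by rw [hi₀]; simp
      refine ⟨i₀, (Finset.mem_filter.1 h0).2, fun i hi => ?_⟩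
      apply h i
      intro hm2
      have : i ∈ T := Finset.mem_filter.2 ⟨Finset.mem_univ _, hm2⟩
      rw [hi₀, Finset.mem_singleton] at this
      exact hi this
    · left
      have hT4 : 4 ≤ T.card := by omega
      obtain ⟨S, hST, hS⟩ := Finset.exists_subset_card_eq hT4
      have hS2 : ∀ i ∈ S, m i = 2 := fun i hi => (Finset.mem_filter.1 (hST hi)).2
      have hp1 : ∏ i ∈ S, m i = 16 := by
        rw [Finset.prod_congr rfl hS2]
        simp [hS]
      have hp2 : ∑ i ∈ S, m i = 8 := by
        rw [Finset.sum_congr rfl hS2]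
        simp [hS]
      have hcompl : ∑ i ∈ Sᶜ, m i = 3 * (k - 2) := by
        have := Finset.sum_add_sum_compl S m
        omega
      rw [← Finset.prod_mul_prod_compl S m, hp1]
      apply Nat.mul_le_mul_left
      have := prod_le_gg Sᶜ m
      rwa [hcompl, gg_three_mul] at this

section Orbit

variable {X : Type*} [Fintype X] [DecidableEq X] (A : Subgroup (Perm X))

/-- the orbit parts of a subgroup of a symmetric group -/
noncomputable def part (ω : MulAction.orbitRel.Quotient A X) : ℕ :=
  Nat.card (MulAction.orbit A (Quotient.out ω))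

theorem part_pos (ω : MulAction.orbitRel.Quotient A X) : 0 < part A ω := by
  haveI : Nonempty (MulAction.orbit A (Quotient.out ω)) :=
    ⟨⟨_, MulAction.mem_orbit_self _⟩⟩
  exact Nat.card_pos

theorem sum_part [Fintype (MulAction.orbitRel.Quotient A X)] :
    ∑ ω, part A ω = Fintype.card X := by
  classical
  have h := MulAction.selfEquivSigmaOrbits A X
  rw [← Nat.card_eq_fintype_card (α := X), Nat.card_congr h, Nat.card_sigma]
  rfl

theorem smul_comm_of_comm [IsMulCommutative A] (a b : A) (x : X) : a • b • x = b • a • x := by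
  rw [← mul_smul, ← mul_smul, mul_comm' a b]

theorem card_le_prod [IsMulCommutative A] [Fintype (MulAction.orbitRel.Quotient A X)] :
    Nat.card A ≤ ∏ ω, part A ω := by
  classical
  let F : A → ∀ ω : MulAction.orbitRel.Quotient A X, MulAction.orbit A (Quotient.out ω) :=
    fun a ω => ⟨a • Quotient.out ω, MulAction.mem_orbit _ _⟩
  have hF : Function.Injective F := by
    intro a b hab
    apply Subtype.ext
    apply Equiv.ext
    intro x
    let ω : MulAction.orbitRel.Quotient A X := Quotient.mk'' x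
    have h1 : MulAction.orbit A x = MulAction.orbit A (Quotient.out ω) := by
      rw [← MulAction.orbitRel.Quotient.orbit_mk]
      exact MulAction.orbitRel.Quotient.orbit_eq_orbit_out ω Quotient.out_eq'
    have h2 : x ∈ MulAction.orbit A (Quotient.out ω) := by
      rw [← h1]
      exact MulAction.mem_orbit_self x
    obtain ⟨c, hc⟩ := h2
    have h3 : a • Quotient.out ω = b • Quotient.out ω := congrArg Subtype.val (congrFun hab ω)
    have hcx : c • Quotient.out ω = x := hc
    have : a • x = b • x := by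
      rw [← hcx, smul_comm_of_comm, h3, smul_comm_of_comm]
    exact this
  have := Nat.card_le_card_of_injective F hF
  rw [Nat.card_pi] at this
  exact this

theorem orbit_eq_out (x : X) :
    MulAction.orbit A x = MulAction.orbit A (Quotient.out (Quotient.mk'' x : MulAction.orbitRel.Quotient A X)) := by
  rw [← MulAction.orbitRel.Quotient.orbit_mk]
  exact MulAction.orbitRel.Quotient.orbit_eq_orbit_out _ Quotient.out_eq'

theorem ncard_orbit_eq_part (x : X) :
    (MulAction.orbit A x).ncard = part A (Quotient.mk'' x) := by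
  rw [orbit_eq_out A x]
  rfl

/-- An abelian group of even permutations has not exactly one orbit of size `2` and all others of
size `3`. -/
theorem not_two_three [IsMulCommutative A] (hsign : ∀ a ∈ A, Perm.sign a = 1)
    (ω₀ : MulAction.orbitRel.Quotient A X) (h2 : part A ω₀ = 2) (h3 : ∀ ω, ω ≠ ω₀ → part A ω = 3) : False := by
  classical
  have hnormal : ∀ S : Subgroup A, S.Normal := by
    intro S
    refine ⟨fun n hn g => ?_⟩
    rw [mul_comm' g n, mul_inv_cancel_right]
    exact hn
  -- even order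
  let x₀ := Quotient.out ω₀
  have hx₀ : (Quotient.mk'' x₀ : MulAction.orbitRel.Quotient A X) = ω₀ := Quotient.out_eq' ω₀
  have hidx : (MulAction.stabilizer A x₀).index = 2 := by
    rw [MulAction.index_stabilizer, ncard_orbit_eq_part, hx₀, h2]
  have hev : 2 ∣ Nat.card A := hidx ▸ Subgroup.index_dvd_card _
  haveI : Fact (Nat.Prime 2) := ⟨Nat.prime_two⟩
  obtain ⟨t, ht⟩ := exists_prime_orderOf_dvd_card' 2 hev
  have ht2 : t ^ 2 = 1 := ht ▸ pow_orderOf_eq_one t
  have hfix : ∀ x, (Quotient.mk'' x : MulAction.orbitRel.Quotient A X) ≠ ω₀ → t • x = x := by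
    intro x hx
    have hi : (MulAction.stabilizer A x).index = 3 := by
      rw [MulAction.index_stabilizer, ncard_orbit_eq_part, h3 _ hx]
    haveI := hnormal (MulAction.stabilizer A x)
    have := Subgroup.pow_index_mem (MulAction.stabilizer A x) t
    rw [hi, show (3 : ℕ) = 2 + 1 from rfl, pow_succ, ht2, one_mul] at this
    exact this
  have hne1 : t ≠ 1 := by
    intro h
    rw [h, orderOf_one] at ht
    omega
  -- a moved point
  obtain ⟨y, hy⟩ : ∃ y, t • y ≠ y := by
    by_contra hcon
    push_neg at hcon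
    apply hne1
    apply Subtype.ext
    apply Equiv.ext
    intro x
    exact hcon x
  let z := t • y
  have hyω : (Quotient.mk'' y : MulAction.orbitRel.Quotient A X) = ω₀ := by
    by_contra h
    exact hy (hfix y h)
  have hzt : t • z = y := by
    show t • t • y = y
    rw [← mul_smul, ← sq, ht2, one_smul]
  have horb : MulAction.orbit A y = {y, z} := by
    symm
    apply Set.eq_of_subset_of_ncard_le
    · intro w hw
      rcases hw with rfl | rfl
      · exact MulAction.mem_orbit_self _
      · exact MulAction.mem_orbit _ _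
    · rw [ncard_orbit_eq_part, hyω, h2, Set.ncard_pair (Ne.symm hy)]
    · exact Set.toFinite _
  have htswap : (t : Perm X) = swap y z := by
    apply Equiv.ext
    intro x
    by_cases h1 : x = y
    · subst h1
      rw [swap_apply_left]
      rfl
    by_cases h2 : x = z
    · subst h2
      rw [swap_apply_right]
      exact hzt
    rw [swap_apply_of_ne_of_ne h1 h2]
    apply hfix
    intro h
    have hmem : x ∈ MulAction.orbit A y := by
      have : (Quotient.mk'' x : MulAction.orbitRel.Quotient A X) = Quotient.mk'' y := h.trans hyω.symm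
      exact MulAction.orbitRel_apply.1 (Quotient.exact' this)
    rw [horb] at hmem
    rcases hmem with h3 | h3
    · exact h1 h3
    · exact h2 h3
  have hs := hsign t t.2
  rw [htswap, Perm.sign_swap (Ne.symm hy)] at hs
  exact absurd hs (by decide)

end Orbit

section Real

/-- `n`, `c` realized by an abelian subgroup. -/
def Real (n c : ℕ) : Prop := ∃ A : Subgroup (Perm (Fin n)), IsMulCommutative A ∧ Nat.card A = c

/-- realized by an abelian group of even permutations. -/
def RealE (n c : ℕ) : Prop :=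
  ∃ A : Subgroup (Perm (Fin n)), IsMulCommutative A ∧ Nat.card A = c ∧ ∀ a ∈ A, Perm.sign a = 1

theorem RealE.real {n c : ℕ} (h : RealE n c) : Real n c := by
  obtain ⟨A, h1, h2, -⟩ := h
  exact ⟨A, h1, h2⟩

/-- the disjoint sum map -/
noncomputable def sumMap (a b : ℕ) : Perm (Fin a) × Perm (Fin b) →* Perm (Fin (a + b)) :=
  (Equiv.permCongrHom finSumFinEquiv).toMonoidHom.comp (Perm.sumCongrHom (Fin a) (Fin b))

theorem sumMap_inj (a b : ℕ) : Function.Injective (sumMap a b) :=
  (Equiv.permCongrHom finSumFinEquiv).injective.comp (Perm.sumCongrHom_injective)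

theorem sign_sumMap (a b : ℕ) (x : Perm (Fin a) × Perm (Fin b)) :
    Perm.sign (sumMap a b x) = Perm.sign x.1 * Perm.sign x.2 := by
  show Perm.sign (finSumFinEquiv.permCongr (Perm.sumCongr x.1 x.2)) = _
  rw [Perm.sign_permCongr, Perm.sign_sumCongr]

theorem comm_map_prod {a b : ℕ} (A : Subgroup (Perm (Fin a))) (B : Subgroup (Perm (Fin b)))
    [IsMulCommutative A] [IsMulCommutative B] : IsMulCommutative ((A.prod B).map (sumMap a b)) := by
  refine ⟨⟨?_⟩⟩
  rintro ⟨_, x, hx, rfl⟩ ⟨_, y, hy, rfl⟩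
  apply Subtype.ext
  show sumMap a b x * sumMap a b y = sumMap a b y * sumMap a b x
  rw [← map_mul, ← map_mul]
  congr 1
  obtain ⟨hx1, hx2⟩ := Subgroup.mem_prod.1 hx
  obtain ⟨hy1, hy2⟩ := Subgroup.mem_prod.1 hy
  have h1 := congrArg Subtype.val (mul_comm' (⟨x.1, hx1⟩ : A) ⟨y.1, hy1⟩)
  have h2 := congrArg Subtype.val (mul_comm' (⟨x.2, hx2⟩ : B) ⟨y.2, hy2⟩)
  exact Prod.ext h1 h2

theorem card_map_prod {a b : ℕ} (A : Subgroup (Perm (Fin a))) (B : Subgroup (Perm (Fin b))) :
    Nat.card ((A.prod B).map (sumMap a b)) = Nat.card A * Nat.card B := by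
  rw [Subgroup.card_map_of_injective (sumMap_inj a b), Nat.card_congr (Subgroup.prodEquiv A B).toEquiv,
    Nat.card_prod]

theorem Real.add {a b c d : ℕ} (h1 : Real a c) (h2 : Real b d) : Real (a + b) (c * d) := by
  obtain ⟨A, hA, rfl⟩ := h1
  obtain ⟨B, hB, rfl⟩ := h2
  exact ⟨_, comm_map_prod A B, card_map_prod A B⟩

theorem RealE.add {a b c d : ℕ} (h1 : RealE a c) (h2 : RealE b d) : RealE (a + b) (c * d) := by
  obtain ⟨A, hA, rfl, hs1⟩ := h1
  obtain ⟨B, hB, rfl, hs2⟩ := h2
  refine ⟨_, comm_map_prod A B, card_map_prod A B, ?_⟩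
  rintro _ ⟨x, hx, rfl⟩
  obtain ⟨hx1, hx2⟩ := Subgroup.mem_prod.1 hx
  rw [sign_sumMap, hs1 _ hx1, hs2 _ hx2, one_mul]

theorem realE_zero : RealE 0 1 :=
  ⟨⊥, ⟨⟨fun x y => Subsingleton.elim _ _⟩⟩, by simp, by
    intro a ha
    rw [Subgroup.mem_bot] at ha
    simp [ha]⟩

theorem realE_three : RealE 3 3 := by
  have hcard : orderOf (finRotate 3) = 3 := orderOf_eq_prime (by decide) (by decide)
  refine ⟨Subgroup.zpowers (finRotate 3), inferInstance, ?_, ?_⟩
  · rw [Nat.card_zpowers, hcard]
  · rintro _ ⟨k, rfl⟩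
    have : Perm.sign (finRotate 3) = 1 := by decide
    simp only [map_zpow, this, one_zpow]

/-- the Klein four group -/
def v4set : Finset (Perm (Fin 4)) :=
  {1, swap 0 1 * swap 2 3, swap 0 2 * swap 1 3, swap 0 3 * swap 1 2}

/-- the Klein four subgroup -/
def v4 : Subgroup (Perm (Fin 4)) where
  carrier := {x | x ∈ v4set}
  mul_mem' := by
    have : ∀ a b : Perm (Fin 4), a ∈ v4set → b ∈ v4set → a * b ∈ v4set := by decide +kernel
    intro a b ha hb
    exact this a b ha hb
  one_mem' := by decide +kernel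
  inv_mem' := by
    have : ∀ a : Perm (Fin 4), a ∈ v4set → a⁻¹ ∈ v4set := by decide +kernel
    intro a ha
    exact this a ha

theorem realE_four : RealE 4 4 := by
  refine ⟨v4, ⟨⟨?_⟩⟩, ?_, ?_⟩
  · rintro ⟨x, hx⟩ ⟨y, hy⟩
    apply Subtype.ext
    have : ∀ a b : Perm (Fin 4), a ∈ v4set → b ∈ v4set → a * b = b * a := by decide +kernel
    exact this _ _ hx hy
  · have : Nat.card v4 = (v4set : Set (Perm (Fin 4))).ncard := Nat.card_coe_set_eq _
    rw [this, Set.ncard_coe_finset]
    decide +kernel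
  · have : ∀ a : Perm (Fin 4), a ∈ v4set → Perm.sign a = 1 := by decide +kernel
    exact fun a ha => this a ha

theorem real_two : Real 2 2 := by
  refine ⟨⊤, ⟨⟨?_⟩⟩, ?_⟩
  · rintro ⟨x, hx⟩ ⟨y, hy⟩
    apply Subtype.ext
    have : ∀ a b : Perm (Fin 2), a * b = b * a := by decide
    exact this x y
  · rw [Subgroup.card_top, Nat.card_perm]
    simp

theorem realE_threes (k : ℕ) : RealE (3 * k) (3 ^ k) := by
  induction k with
  | zero => simpa using realE_zero
  | succ k ih =>
    have h := ih.add realE_three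
    rwa [show 3 * k + 3 = 3 * (k + 1) by ring, ← pow_succ] at h

end Real

section Main

/-- the upper bound from orbits -/
theorem card_le_gg {n : ℕ} (A : Subgroup (Perm (Fin n))) [IsMulCommutative A] : Nat.card A ≤ gg n := by
  classical
  haveI := Fintype.ofFinite (MulAction.orbitRel.Quotient A (Fin n))
  have h1 := card_le_prod A
  have h2 := prod_le_gg Finset.univ (part A)
  rw [sum_part, Fintype.card_fin] at h2
  exact h1.trans h2

theorem card_le_alt {k : ℕ} (hk : 2 ≤ k) (A : Subgroup (Perm (Fin (3 * k + 2)))) [IsMulCommutative A]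
    (hsign : ∀ a ∈ A, Perm.sign a = 1) : Nat.card A ≤ 16 * 3 ^ (k - 2) := by
  classical
  haveI := Fintype.ofFinite (MulAction.orbitRel.Quotient A (Fin (3 * k + 2)))
  have h1 := card_le_prod A
  have hs := sum_part A
  rw [Fintype.card_fin] at hs
  rcases arith_alt (part A) k hk (part_pos A) hs with h | ⟨ω₀, h2, h3⟩
  · exact h1.trans h
  · exact (not_two_three A hsign ω₀ h2 h3).elim

theorem S2505_main (k : ℕ) (hk : 1 ≤ k) :
    IsGreatest {c : ℕ | ∃ A : Subgroup (Equiv.Perm (Fin (3 * k))), IsMulCommutative A ∧ Nat.card A = c} (3 ^ k) ∧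
    IsGreatest {c : ℕ | ∃ A : Subgroup (Equiv.Perm (Fin (3 * k + 1))), IsMulCommutative A ∧ Nat.card A = c}
      (4 * 3 ^ (k - 1)) ∧
    IsGreatest {c : ℕ | ∃ A : Subgroup (Equiv.Perm (Fin (3 * k + 2))), IsMulCommutative A ∧ Nat.card A = c}
      (2 * 3 ^ k) := by
  refine ⟨⟨(realE_threes k).real, ?_⟩, ⟨?_, ?_⟩, ⟨?_, ?_⟩⟩
  · rintro _ ⟨A, hA, rfl⟩
    have := card_le_gg A
    rwa [gg_three_mul] at this
  · have h := (realE_four.real).add (realE_threes (k - 1)).real
    have hn : 4 + 3 * (k - 1) = 3 * k + 1 := by omega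
    rw [hn] at h
    exact h
  · rintro _ ⟨A, hA, rfl⟩
    have := card_le_gg A
    rwa [gg_three_mul_add_one _ hk] at this
  · have h := real_two.add (realE_threes k).real
    have hn : 2 + 3 * k = 3 * k + 2 := by omega
    rw [hn] at h
    exact h
  · rintro _ ⟨A, hA, rfl⟩
    have := card_le_gg A
    rwa [gg_three_mul_add_two] at this

/-- transfer to subgroups of the alternating group -/
theorem exists_of_realE {n c : ℕ} (h : RealE n c) :
    ∃ A : Subgroup (alternatingGroup (Fin n)), IsMulCommutative A ∧ Nat.card A = c := by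
  obtain ⟨A, hA, rfl, hs⟩ := h
  have hle : A ≤ alternatingGroup (Fin n) := fun a ha => Perm.mem_alternatingGroup.2 (hs a ha)
  refine ⟨A.subgroupOf (alternatingGroup (Fin n)), ⟨⟨?_⟩⟩, ?_⟩
  · rintro ⟨x, hx⟩ ⟨y, hy⟩
    apply Subtype.ext
    apply Subtype.ext
    have h1 := congrArg Subtype.val (mul_comm' (⟨x.1, hx⟩ : A) ⟨y.1, hy⟩)
    exact h1
  · exact Nat.card_congr (Subgroup.subgroupOfEquivOfLe hle).toEquiv

/-- from a subgroup of the alternating group to a subgroup of the symmetric group -/
theorem map_alt {n : ℕ} (A : Subgroup (alternatingGroup (Fin n))) (hA : IsMulCommutative A) :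
    ∃ B : Subgroup (Perm (Fin n)), IsMulCommutative B ∧ Nat.card B = Nat.card A ∧ ∀ a ∈ B, Perm.sign a = 1 := by
  refine ⟨A.map (alternatingGroup (Fin n)).subtype, ⟨⟨?_⟩⟩, ?_, ?_⟩
  · rintro ⟨_, x, hx, rfl⟩ ⟨_, y, hy, rfl⟩
    apply Subtype.ext
    have h1 := congrArg Subtype.val (mul_comm' (⟨x, hx⟩ : A) ⟨y, hy⟩)
    show (x : Perm (Fin n)) * y = y * x
    exact congrArg Subtype.val h1
  · exact Subgroup.card_map_of_injective (Subgroup.subtype_injective _)
  · rintro _ ⟨x, hx, rfl⟩
    exact Perm.mem_alternatingGroup.1 x.2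

theorem S2504_main (k : ℕ) (hk : 2 ≤ k) :
    IsGreatest {c : ℕ | ∃ A : Subgroup (alternatingGroup (Fin (3 * k))), IsMulCommutative A ∧ Nat.card A = c} (3 ^ k) ∧
    IsGreatest {c : ℕ | ∃ A : Subgroup (alternatingGroup (Fin (3 * k + 1))), IsMulCommutative A ∧ Nat.card A = c}
      (4 * 3 ^ (k - 1)) ∧
    IsGreatest {c : ℕ | ∃ A : Subgroup (alternatingGroup (Fin (3 * k + 2))), IsMulCommutative A ∧ Nat.card A = c}
      (16 * 3 ^ (k - 2)) := by
  refine ⟨⟨exists_of_realE (realE_threes k), ?_⟩, ⟨?_, ?_⟩, ⟨?_, ?_⟩⟩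
  · rintro _ ⟨A, hA, rfl⟩
    obtain ⟨B, hB, hc, -⟩ := map_alt A hA
    have := card_le_gg B
    rwa [gg_three_mul, hc] at this
  · have h := realE_four.add (realE_threes (k - 1))
    have hn : 4 + 3 * (k - 1) = 3 * k + 1 := by omega
    rw [hn] at h
    exact exists_of_realE h
  · rintro _ ⟨A, hA, rfl⟩
    obtain ⟨B, hB, hc, -⟩ := map_alt A hA
    have := card_le_gg B
    rwa [gg_three_mul_add_one _ (by omega), hc] at this
  · have h := (realE_four.add realE_four).add (realE_threes (k - 2))
    have hn : 4 + 4 + 3 * (k - 2) = 3 * k + 2 := by omega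
    rw [hn] at h
    have h2 : 4 * 4 * 3 ^ (k - 2) = 16 * 3 ^ (k - 2) := by norm_num
    rw [h2] at h
    exact exists_of_realE h
  · rintro _ ⟨A, hA, rfl⟩
    obtain ⟨B, hB, hc, hs⟩ := map_alt A hA
    have := card_le_alt hk B hs
    rwa [hc] at this

end Main

end Cfsg.Agent.Lib.LdAb
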