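import Mathlib

/-!
# Elements of `p`-power order in affine groups
-/

set_option autoImplicit false

namespace Cfsg.Agent.Lib.LdAff

open Module

variable {p : ℕ} [hpp : Fact p.Prime] {E : Type*} [AddCommGroup E] [Module (ZMod p) E] [FiniteDimensional (ZMod p) E]

theorem pow_eq_one_of_finrank [Nontrivial E] (U : Module.End (ZMod p) E) {r s : ℕ} (hU : U ^ p ^ r = 1)
    (hs : finrank (ZMod p) E ≤ p ^ s) : U ^ p ^ s = 1 := by
  haveI : CharP (Module.End (ZMod p) E) p :=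
    charP_of_injective_algebraMap (algebraMap (ZMod p) (Module.End (ZMod p) E)).injective p
  have h1 : (U - 1) ^ p ^ r = 0 := by
    rw [sub_pow_char_pow_of_commute p r (Commute.one_right U), hU, one_pow, sub_self]
  have h2 : (U - 1) ^ finrank (ZMod p) E = 0 := by
    have h3 := Module.End.ker_pow_le_ker_pow_finrank (U - 1) (p ^ r)
    rw [h1, LinearMap.ker_zero] at h3
    exact LinearMap.ker_eq_top.1 (top_le_iff.1 h3)
  have h4 : (U - 1) ^ p ^ s = 0 := by
    obtain ⟨k, hk⟩ := Nat.exists_eq_add_of_le hs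
    rw [hk, pow_add, h2, zero_mul]
  have h5 := sub_pow_char_pow_of_commute p s (Commute.one_right U)
  rw [h4, one_pow] at h5
  exact (sub_eq_zero.1 h5.symm)

variable {V : Type*} [AddCommGroup V] [Module (ZMod p) V] [FiniteDimensional (ZMod p) V]

/-- affine map as a linear map on `V × F_p`. -/
noncomputable def UU (T : V →ₗ[ZMod p] V) (t : V) : Module.End (ZMod p) (V × ZMod p) :=
  LinearMap.prod (T.comp (LinearMap.fst _ _ _) +
    (LinearMap.toSpanSingleton (ZMod p) V t).comp (LinearMap.snd _ _ _)) (LinearMap.snd _ _ _)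

theorem UU_apply (T : V →ₗ[ZMod p] V) (t x : V) (a : ZMod p) : UU T t (x, a) = (T x + a • t, a) := by
  simp [UU, LinearMap.toSpanSingleton_apply]

theorem UU_pow (T : V →ₗ[ZMod p] V) (t x : V) (j : ℕ) :
    (UU T t ^ j) (x, 1) = ((fun y => T y + t)^[j] x, 1) := by
  induction j with
  | zero => simp
  | succ j ih =>
    rw [pow_succ', Module.End.mul_apply, ih, UU_apply, Function.iterate_succ_apply', one_smul]

theorem core (T : V →ₗ[ZMod p] V) (t : V) {r s : ℕ} (hA : ∀ x, (fun y => T y + t)^[p ^ r] x = x)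
    (hs : finrank (ZMod p) V + 1 ≤ p ^ s) (x : V) : (fun y => T y + t)^[p ^ s] x = x := by
  have h1 : UU T t ^ p ^ r = 1 := by
    apply LinearMap.ext
    rintro ⟨x, a⟩
    have hx : (x, a) = (x, (1 : ZMod p)) + (a - 1) • ((0 : V), (1 : ZMod p)) := by
      ext <;> simp
    rw [hx, map_add, map_smul, UU_pow, UU_pow, hA, hA]
    simp
  have hrk : finrank (ZMod p) (V × ZMod p) = finrank (ZMod p) V + 1 := by
    rw [Module.finrank_prod, Module.finrank_self]
  have h2 := pow_eq_one_of_finrank (UU T t) h1 (s := s) (by rw [hrk]; exact hs)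
  have h3 := UU_pow T t x (p ^ s)
  rw [h2] at h3
  have h4 := congrArg Prod.fst h3
  exact h4.symm

theorem gen' {V Ω : Type*} [AddCommGroup V] [Finite V] (p : ℕ) [hpp : Fact p.Prime] [Module (ZMod p) V] (e : V → Ω)
    (he1 : Function.Injective e) (he2 : Function.Surjective e) (τ : V →+ V) (t : V) (γ : Ω → Ω)
    (hγ : ∀ x, γ (e x) = e (τ x + t)) {r s m : ℕ} (hm : Nat.card V = p ^ m)
    (hr : ∀ ω, γ^[p ^ r] ω = ω) (hs : m + 1 ≤ p ^ s) (ω : Ω) : γ^[p ^ s] ω = ω := by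
  classical
  haveI : FiniteDimensional (ZMod p) V := Module.Finite.of_finite
  have hfin : finrank (ZMod p) V = m := by
    have h1 := Module.natCard_eq_pow_finrank (K := ZMod p) (V := V)
    rw [hm, Nat.card_zmod] at h1
    exact (Nat.pow_right_injective hpp.out.two_le h1).symm
  let T : V →ₗ[ZMod p] V := τ.toZModLinearMap p
  have hrel : ∀ (j : ℕ) (x : V), e ((fun y => T y + t)^[j] x) = γ^[j] (e x) := by
    intro j x
    induction j with
    | zero => simp
    | succ j ih =>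
      rw [Function.iterate_succ_apply', Function.iterate_succ_apply', ← ih, hγ]
      rfl
  have hA : ∀ x : V, (fun y => T y + t)^[p ^ r] x = x := by
    intro x
    have h1 := hrel (p ^ r) x
    rw [hr] at h1
    exact he1 h1
  have hs' : finrank (ZMod p) V + 1 ≤ p ^ s := by
    rw [hfin]; exact hs
  have hcore := core T t hA hs'
  obtain ⟨a, rfl⟩ := he2 ω
  have h1 := hrel (p ^ s) a
  rw [hcore] at h1
  exact h1.symm

theorem gen {A Ω : Type*} [CommGroup A] [Finite A] [MulAction A Ω] (p : ℕ) [hpp : Fact p.Prime]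
    (hexp : ∀ a : A, a ^ p = 1) (ω₀ : Ω)
    (hinj : ∀ a b : A, a • ω₀ = b • ω₀ → a = b) (hsurj : ∀ ω, ∃ a : A, a • ω₀ = ω) (T₀ : A →* A) (γ : Ω → Ω)
    (hγ : ∀ (a : A) (ω : Ω), γ (a • ω) = T₀ a • γ ω) {r s m : ℕ} (hm : Nat.card A = p ^ m)
    (hr : ∀ ω, γ^[p ^ r] ω = ω) (hs : m + 1 ≤ p ^ s) (ω : Ω) : γ^[p ^ s] ω = ω := by
  obtain ⟨t, ht⟩ := hsurj (γ ω₀)
  have hexp' : ∀ x : Additive A, p • x = 0 := by
    intro x
    apply Additive.toMul.injective
    exact hexp _
  refine @gen' (Additive A) Ω _ _ p hpp (AddCommGroup.zmodModule hexp') (fun x => (Additive.toMul x : A) • ω₀)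
    (fun a b h => Additive.toMul.injective (hinj _ _ h)) (fun ω => ?_) (MonoidHom.toAdditive T₀) (Additive.ofMul t) γ ?_
    r s m hm hr hs ω
  · obtain ⟨a, rfl⟩ := hsurj ω
    exact ⟨Additive.ofMul a, rfl⟩
  · intro x
    have h1 : (Additive.toMul ((MonoidHom.toAdditive T₀) x + Additive.ofMul t) : A) = T₀ (Additive.toMul x) * t := rfl
    change γ ((Additive.toMul x : A) • ω₀) = (Additive.toMul ((MonoidHom.toAdditive T₀) x + Additive.ofMul t) : A) • ω₀
    rw [h1, mul_smul, ht, hγ]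

theorem gen2 {A Ω : Type*} [Group A] [Finite A] [MulAction A Ω] (hc : ∀ a b : A, a * b = b * a) (p : ℕ) [hpp : Fact p.Prime]
    (hexp : ∀ a : A, a ^ p = 1) (ω₀ : Ω)
    (hinj : ∀ a b : A, a • ω₀ = b • ω₀ → a = b) (hsurj : ∀ ω, ∃ a : A, a • ω₀ = ω) (T₀ : A →* A) (γ : Ω → Ω)
    (hγ : ∀ (a : A) (ω : Ω), γ (a • ω) = T₀ a • γ ω) {r s m : ℕ} (hm : Nat.card A = p ^ m)
    (hr : ∀ ω, γ^[p ^ r] ω = ω) (hs : m + 1 ≤ p ^ s) (ω : Ω) : γ^[p ^ s] ω = ω := by
  letI : CommGroup A := { (inferInstance : Group A) with mul_comm := hc }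
  exact gen p hexp ω₀ hinj hsurj T₀ γ hγ hm hr hs ω

variable {G : Type*} [Group G] [Finite G] {Ω : Type*} [Fintype Ω] [MulAction G Ω] [FaithfulSMul G Ω]

theorem main1 (m : ℕ) (hcard : Fintype.card Ω = p ^ m)
    (N : Subgroup G) [hNn : N.Normal] (hNc : IsMulCommutative N) (hNp : ∀ n ∈ N, n ^ p = 1)
    (hNtr : MulAction.IsPretransitive N Ω) (hNreg : ∀ ω : Ω, MulAction.stabilizer N ω = ⊥)
    (g : G) (r : ℕ) (hr : 1 ≤ r) (hg : orderOf g = p ^ r) : p ^ (r - 1) ≤ m := by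
  classical
  have hpos := hpp.out.pos
  haveI : Nonempty Ω := by
    apply Fintype.card_pos_iff.1
    rw [hcard]
    exact pow_pos hpos _
  obtain ⟨ω₀⟩ := ‹Nonempty Ω›
  -- regularity
  have hinj : ∀ a b : N, a • ω₀ = b • ω₀ → a = b := by
    intro a b hab
    have h1 : b⁻¹ * a ∈ MulAction.stabilizer N ω₀ := by
      rw [MulAction.mem_stabilizer_iff, mul_smul, hab, inv_smul_smul]
    rw [hNreg, Subgroup.mem_bot] at h1
    exact (inv_mul_eq_one.1 h1).symm
  have hsurj : ∀ ω : Ω, ∃ a : N, a • ω₀ = ω := fun ω => hNtr.exists_smul_eq ω₀ ω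
  have hcardN : Nat.card N = p ^ m := by
    rw [← hcard, ← Nat.card_eq_fintype_card]
    exact Nat.card_eq_of_bijective (fun a : N => a • ω₀) ⟨fun a b h => hinj a b h, hsurj⟩
  have hit : ∀ (j : ℕ) (ω : Ω), (fun ω : Ω => g • ω)^[j] ω = g ^ j • ω := by
    intro j ω
    induction j with
    | zero => simp
    | succ j ih =>
      rw [Function.iterate_succ_apply', ih, pow_succ', mul_smul]
  by_contra hlt
  have hs : m + 1 ≤ p ^ (r - 1) := by omega
  have hrr : ∀ ω : Ω, (fun ω : Ω => g • ω)^[p ^ r] ω = ω := by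
    intro ω
    rw [hit, ← hg, pow_orderOf_eq_one, one_smul]
  have hgen := gen2 (A := N) (Ω := Ω) hNc.is_comm.comm p (fun a => Subtype.ext (hNp a a.2)) ω₀ hinj hsurj
    (MulAut.conjNormal g : N ≃* N).toMonoidHom (fun ω : Ω => g • ω) (by
      intro a ω
      have h2 : a • ω = (a : G) • ω := rfl
      have h3 : ((MulAut.conjNormal g : N ≃* N).toMonoidHom a) • (g • ω) =
        ((MulAut.conjNormal g a : N) : G) • (g • ω) := rfl
      change g • (a • ω) = ((MulAut.conjNormal g : N ≃* N).toMonoidHom a) • (g • ω)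
      rw [h3, h2, MulAut.conjNormal_apply, ← mul_smul, ← mul_smul]
      congr 1
      group) hcardN hrr hs
  have hone : g ^ p ^ (r - 1) = 1 := by
    apply FaithfulSMul.eq_of_smul_eq_smul (α := Ω)
    intro ω
    have := hgen ω
    rw [hit] at this
    rw [this, one_smul]
  have h2 := orderOf_dvd_of_pow_eq_one hone
  rw [hg] at h2
  have h3 := (Nat.pow_dvd_pow_iff_le_right hpp.out.one_lt).1 h2
  omega

theorem arith1 (m : ℕ) : m + 3 < 2 ^ (m + 2) := by
  induction m with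
  | zero => norm_num
  | succ m ih =>
    rw [show m + 1 + 2 = (m + 2) + 1 by ring, pow_succ]
    omega

theorem arith2 (m : ℕ) : m + 2 < 3 ^ (m + 1) := by
  induction m with
  | zero => norm_num
  | succ m ih =>
    rw [show m + 1 + 1 = (m + 1) + 1 by ring, pow_succ]
    omega

theorem main (m : ℕ) (hcard : Fintype.card Ω = p ^ m)
    (N : Subgroup G) [hNn : N.Normal] (hNc : IsMulCommutative N) (hNp : ∀ n ∈ N, n ^ p = 1)
    (hNtr : MulAction.IsPretransitive N Ω) (hNreg : ∀ ω : Ω, MulAction.stabilizer N ω = ⊥)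
    (g : G) (r : ℕ) (hr : 1 ≤ r) (hg : orderOf g = p ^ r) :
    p ^ (r - 1) ≤ m ∧ (r = m → m ≤ 2 ∧ (2 < p → m ≤ 1)) := by
  have h := main1 m hcard N hNc hNp hNtr hNreg g r hr hg
  refine ⟨h, ?_⟩
  rintro rfl
  constructor
  · by_contra hlt
    obtain ⟨k, rfl⟩ : ∃ k, r = k + 3 := ⟨r - 3, by omega⟩
    have h1 : 2 ^ (k + 2) ≤ p ^ (k + 3 - 1) := Nat.pow_le_pow_left hpp.out.two_le _
    have h2 := arith1 k
    omega
  · intro hp
    by_contra hlt
    obtain ⟨k, rfl⟩ : ∃ k, r = k + 2 := ⟨r - 2, by omega⟩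
    have h1 : 3 ^ (k + 1) ≤ p ^ (k + 2 - 1) := Nat.pow_le_pow_left hp _
    have h2 := arith2 k
    omega

end Cfsg.Agent.Lib.LdAff
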