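import Mathlib
import Cfsg.Agent.Lib.PGrp2
import Cfsg.Agent.Lib.FusSmall
import Cfsg.Agent.Lib.LdP4
import Cfsg.Prelude.Def_CaseTheorems

/-!
# Primes dividing the order of the automorphism group of a `p`-group of rank at most 2
-/

set_option autoImplicit false

namespace Cfsg.Agent.Lib.LdAut2

open Subgroup
open scoped commutatorElement

universe u

variable {G : Type u} [Group G] [Finite G] {p q : ℕ} [hpp : Fact p.Prime]

omit [Finite G] hpp in
theorem pow_apply_of_fixed {β : MulAut G} {x u : G} (hu : β u = u) (hx : β x = x * u) (i : ℕ) :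
    (β ^ i) x = x * u ^ i := by
  induction i with
  | zero => simp
  | succ i ih =>
    rw [pow_succ', MulAut.mul_apply, ih, map_mul, map_pow, hx, hu, pow_succ', mul_assoc]

omit [Finite G] in
theorem eq_one_of_pow (hG : IsPGroup p G) (hqp : q ≠ p) (hq : q.Prime) {u : G} (h : u ^ q = 1) : u = 1 := by
  obtain ⟨k, hk⟩ := (IsPGroup.iff_orderOf.1 hG) u
  have h1 : orderOf u ∣ q := orderOf_dvd_of_pow_eq_one h
  have hcop : Nat.Coprime (p ^ k) q :=
    Nat.Coprime.pow_left _ ((Nat.coprime_primes hpp.out hq).2 hqp.symm)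
  rw [hk] at h1
  have h2 : p ^ k = 1 := Nat.Coprime.eq_one_of_dvd hcop h1
  rw [← hk, orderOf_eq_one_iff] at h2
  exact h2

/-- the minimal situation. -/
structure MinAut (p q : ℕ) (β : MulAut G) : Prop where
  hG : IsPGroup p G
  hq : q.Prime
  hqp : q ≠ p
  hβq : β ^ q = 1
  hβ : β ≠ 1
  hmin : ∀ K : Subgroup G, K ≠ ⊤ → (∀ x ∈ K, β x ∈ K) → ∀ x ∈ K, β x = x

variable {β : MulAut G}

omit [Finite G] in
theorem lemK (h : MinAut p q β) (K : Subgroup G) (hinv : ∀ x ∈ K, β x ∈ K) (hK : ∀ x, x⁻¹ * β x ∈ K) :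
    K = ⊤ := by
  by_contra hne
  apply h.hβ
  ext x
  have hu := h.hmin K hne hinv _ (hK x)
  have hx : β x = x * (x⁻¹ * β x) := by group
  have h1 := pow_apply_of_fixed hu hx q
  rw [h.hβq] at h1
  have h2 : (x⁻¹ * β x) ^ q = 1 := by
    have h3 : x * (x⁻¹ * β x) ^ q = x * 1 := by
      rw [← h1, mul_one]; rfl
    exact mul_left_cancel h3
  have h3 := eq_one_of_pow h.hG h.hqp h.hq h2
  have h4 : β x = x := by
    rw [hx, h3, mul_one]
  simpa using h4

theorem frattini_inv (β : MulAut G) : ∀ x ∈ frattini G, β x ∈ frattini G := by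
  intro x hx
  exact (Subgroup.characteristic_iff_map_le.1 inferInstance β) ⟨x, hx, rfl⟩

theorem frattini_ne (hβ : β ≠ 1) : frattini G ≠ ⊤ := by
  intro htop
  have hnt : Nontrivial G := by
    by_contra hn
    rw [not_nontrivial_iff_subsingleton] at hn
    apply hβ
    ext x
    exact Subsingleton.elim _ _
  rcases eq_top_or_exists_le_coatom (⊥ : Subgroup G) with h | ⟨M, hM, -⟩
  · exact bot_ne_top h
  · apply hM.1
    rw [eq_top_iff, ← htop]
    exact frattini_le_coatom hM

theorem fix_frattini (h : MinAut p q β) : ∀ x ∈ frattini G, β x = x :=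
  h.hmin _ (frattini_ne h.hβ) (frattini_inv β)

theorem central (h : MinAut p q β) {f : G} (hf : f ∈ frattini G) (x : G) : x * f = f * x := by
  have hfix := fix_frattini h
  have hK : centralizer ({f} : Set G) = ⊤ := by
    apply lemK h
    · intro y hy
      rw [mem_centralizer_singleton_iff] at hy ⊢
      have := congrArg β hy
      rw [map_mul, map_mul, hfix f hf] at this
      exact this
    · intro y
      rw [mem_centralizer_singleton_iff]
      have ht : y * f * y⁻¹ * f⁻¹ ∈ frattini G :=
        mul_mem ((inferInstance : (frattini G).Normal).conj_mem f hf y) (inv_mem hf)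
      have h1 := hfix _ ht
      simp only [map_mul, map_inv, hfix f hf] at h1
      have h2 : β y * f * (β y)⁻¹ = y * f * y⁻¹ := mul_right_cancel h1
      calc y⁻¹ * β y * f = y⁻¹ * (β y * f * (β y)⁻¹) * β y := by group
        _ = y⁻¹ * (y * f * y⁻¹) * β y := by rw [h2]
        _ = f * (y⁻¹ * β y) := by group
  have : x ∈ centralizer ({f} : Set G) := by rw [hK]; trivial
  rwa [mem_centralizer_singleton_iff] at this

theorem mul_pow_eq (hp2 : p ≠ 2) (h : MinAut p q β) (x y : G) : (x * y) ^ p = x ^ p * y ^ p := by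
  have hc : y * x * (x * y)⁻¹ ∈ frattini G := by
    have h1 : y * x * (x * y)⁻¹ = ⁅y, x⁆ := by
      simp [commutatorElement_def]; group
    rw [h1]
    exact Cfsg.Agent.Lib.PGrp.commutator_le_frattini h.hG
      (commutator_mem_commutator (mem_top _) (mem_top _))
  set c := y * x * (x * y)⁻¹ with hcdef
  have hc1 : y * x = c * (x * y) := by rw [hcdef]; group
  have hcx : Commute c x := (central h hc x).symm
  have hcy : Commute c y := (central h hc y).symm
  have h1 := Cfsg.Agent.Lib.FusSmall.pow_mul_comm x y c hc1 hcx hcy p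
  have h2 := Cfsg.Agent.Lib.FusSmall.pow_comm_eq x y c hc1 hcx hcy p
  have h3 : y ^ p * x = x * y ^ p := (central h (Cfsg.Agent.Lib.PGrp.pow_mem_frattini h.hG y) x).symm
  have h4 : c ^ p = 1 := by
    rw [h3, ← mul_assoc] at h2
    exact (mul_right_cancel (by simpa using (mul_right_cancel h2).symm : c ^ p * x = 1 * x))
  have h5 : c ^ (p.choose 2) = 1 := Cfsg.Agent.Lib.FusSmall.choose_pow_one (Or.inl ⟨hp2, rfl⟩) h4
  rw [h1, h5, mul_one]

theorem exp_p (hp2 : p ≠ 2) (h : MinAut p q β) (x : G) : x ^ p = 1 := by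
  let Om : Subgroup G :=
    { carrier := {x | x ^ p = 1}
      mul_mem' := by
        intro a b ha hb
        change (a * b) ^ p = 1
        rw [mul_pow_eq hp2 h, ha, hb, one_mul]
      one_mem' := one_pow p
      inv_mem' := by
        intro a ha
        change a⁻¹ ^ p = 1
        rw [inv_pow, ha, inv_one] }
  have hOm : Om = ⊤ := by
    apply lemK h
    · intro y hy
      change (β y) ^ p = 1
      rw [← map_pow, show y ^ p = 1 from hy, map_one]
    · intro y
      change (y⁻¹ * β y) ^ p = 1
      rw [mul_pow_eq hp2 h, ← map_pow, fix_frattini h _ (Cfsg.Agent.Lib.PGrp.pow_mem_frattini h.hG y), inv_pow,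
        inv_mul_cancel]
  have : x ∈ Om := by rw [hOm]; trivial
  exact this

theorem comm_sup (H K : Subgroup G) (hH : ∀ a ∈ H, ∀ b ∈ H, a * b = b * a) (hK : ∀ a ∈ K, ∀ b ∈ K, a * b = b * a)
    (hHK : ∀ a ∈ H, ∀ b ∈ K, a * b = b * a) : ∀ a ∈ H ⊔ K, ∀ b ∈ H ⊔ K, a * b = b * a := by
  have h1 : ∀ a ∈ H, H ⊔ K ≤ centralizer ({a} : Set G) := by
    intro a ha
    rw [sup_le_iff]
    constructor
    · intro b hb
      rw [mem_centralizer_singleton_iff]
      exact hH b hb a ha
    · intro b hb
      rw [mem_centralizer_singleton_iff]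
      exact (hHK a ha b hb).symm
  have h2 : ∀ a ∈ K, H ⊔ K ≤ centralizer ({a} : Set G) := by
    intro a ha
    rw [sup_le_iff]
    constructor
    · intro b hb
      rw [mem_centralizer_singleton_iff]
      exact hHK b hb a ha
    · intro b hb
      rw [mem_centralizer_singleton_iff]
      exact hK b hb a ha
  intro a ha b hb
  have h3 : H ⊔ K ≤ centralizer ({b} : Set G) := by
    rw [sup_le_iff]
    constructor
    · intro c hc
      have := h1 c hc hb
      rw [mem_centralizer_singleton_iff] at this ⊢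
      exact this.symm
    · intro c hc
      have := h2 c hc hb
      rw [mem_centralizer_singleton_iff] at this ⊢
      exact this.symm
  have := h3 ha
  rwa [mem_centralizer_singleton_iff] at this

omit [Finite G] in
theorem comm_of (H : Subgroup G) (hH : ∀ a ∈ H, ∀ b ∈ H, a * b = b * a) : IsMulCommutative H := by
  refine ⟨⟨fun a b => ?_⟩⟩
  apply Subtype.ext
  exact hH a a.2 b b.2

/-- a proper containment in a `p`-group costs a factor `p`. -/
theorem card_step (hG : IsPGroup p G) {A B : Subgroup G} (hAB : A ≤ B) (hne : A ≠ B) :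
    p * Nat.card A ≤ Nat.card B := by
  obtain ⟨k, hk⟩ := IsPGroup.iff_card.1 (hG.to_subgroup A)
  obtain ⟨l, hl⟩ := IsPGroup.iff_card.1 (hG.to_subgroup B)
  have hlt : Nat.card A < Nat.card B := by
    apply lt_of_le_of_ne (Subgroup.card_le_of_le hAB)
    intro h
    exact hne (Subgroup.eq_of_le_of_card_ge hAB h.ge)
  rw [hk, hl] at hlt ⊢
  have h1 : k < l := (Nat.pow_lt_pow_iff_right hpp.out.one_lt).1 hlt
  rw [← pow_succ']
  exact Nat.pow_le_pow_right hpp.out.pos h1

theorem index_le (hp2 : p ≠ 2) (h : MinAut p q β) (hrk : Cfsg.PRankLE p 2 G) : (frattini G).index ≤ p ^ 2 := by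
  have hexp := exp_p hp2 h
  have hcent := fun {f : G} (hf : f ∈ frattini G) => central h hf
  have hDle : commutator G ≤ frattini G := Cfsg.Agent.Lib.PGrp.commutator_le_frattini h.hG
  have hpos := hpp.out.pos
  have hrk2 : ∀ E : Subgroup G, (∀ a ∈ E, ∀ b ∈ E, a * b = b * a) → Nat.card E ≤ p ^ 2 :=
    fun E hE => hrk E (comm_of E hE) (fun a _ => hexp a)
  by_cases hc : ∀ x y : G, x * y = y * x
  · have h1 := hrk2 ⊤ (fun a _ b _ => hc a b)
    rw [Subgroup.card_top] at h1
    have h2 := Subgroup.card_mul_index (frattini G)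
    have h3 : (frattini G).index ≤ Nat.card G := by
      rw [← h2]
      exact Nat.le_mul_of_pos_left _ Nat.card_pos
    omega
  · push Not at hc
    obtain ⟨x, y, hxy⟩ := hc
    have hxZ : x ∉ center G := fun hz => hxy ((mem_center_iff.1 hz y).symm)
    have hZcomm : ∀ a ∈ center G, ∀ b ∈ center G, a * b = b * a := fun a _ b hb => (mem_center_iff.1 hb a)
    have hxcomm : ∀ a ∈ zpowers x, ∀ b ∈ zpowers x, a * b = b * a := by
      intro a ha b hb
      obtain ⟨i, rfl⟩ := mem_zpowers_iff.1 ha
      obtain ⟨j, rfl⟩ := mem_zpowers_iff.1 hb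
      exact (Commute.refl x).zpow_zpow i j
    set E := zpowers x ⊔ center G with hE
    have hEcomm := comm_sup (zpowers x) (center G) hxcomm hZcomm (fun a _ b hb => (mem_center_iff.1 hb a))
    have hEc := hrk2 E hEcomm
    have hZE : center G ≤ E := le_sup_right
    have hxE : x ∈ E := (le_sup_left : zpowers x ≤ E) (mem_zpowers x)
    have hZne : center G ≠ E := fun he => hxZ (he ▸ hxE)
    have h1 := card_step h.hG hZE hZne
    -- the commutator subgroup
    have hDZ : commutator G ≤ center G := by
      intro d hd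
      rw [mem_center_iff]
      exact fun g => hcent (hDle hd) g
    have hDne : commutator G ≠ ⊥ := by
      intro hD
      apply hxy
      have : ⁅x, y⁆ ∈ commutator G := commutator_mem_commutator (mem_top _) (mem_top _)
      rw [hD, mem_bot, commutatorElement_eq_one_iff_mul_comm] at this
      exact this
    have hDc : p ≤ Nat.card (commutator G) := by
      have := card_step h.hG (bot_le : ⊥ ≤ commutator G) hDne.symm
      simpa using this
    have hZc1 : Nat.card (commutator G) ≤ Nat.card (center G) := Subgroup.card_le_of_le hDZ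
    have hD2 : Nat.card (commutator G) ≤ p := by
      have : p * Nat.card (center G) ≤ p * p := by
        calc _ ≤ Nat.card E := h1
          _ ≤ p ^ 2 := hEc
          _ = p * p := sq p
      have := Nat.le_of_mul_le_mul_left this hpos
      omega
    -- the centralizer
    have hCE : centralizer ({x} : Set G) = E := by
      symm
      by_contra hne
      have hle : E ≤ centralizer ({x} : Set G) := by
        intro a ha
        rw [mem_centralizer_singleton_iff]
        exact hEcomm a ha x hxE
      obtain ⟨w, hw, hwE⟩ : ∃ w, w ∈ centralizer ({x} : Set G) ∧ w ∉ E := by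
        by_contra hall
        push Not at hall
        exact hne (le_antisymm hle hall)
      have hwcomm : ∀ a ∈ zpowers w, ∀ b ∈ zpowers w, a * b = b * a := by
        intro a ha b hb
        obtain ⟨i, rfl⟩ := mem_zpowers_iff.1 ha
        obtain ⟨j, rfl⟩ := mem_zpowers_iff.1 hb
        exact (Commute.refl w).zpow_zpow i j
      have hwx : Commute x w := by
        rw [mem_centralizer_singleton_iff] at hw
        exact hw.symm
      have hE1comm := comm_sup E (zpowers w) hEcomm hwcomm (by
        intro a ha b hb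
        obtain ⟨j, rfl⟩ := mem_zpowers_iff.1 hb
        have : a ∈ centralizer ({w} : Set G) := by
          have hle2 : E ≤ centralizer ({w} : Set G) := by
            rw [hE, sup_le_iff, zpowers_le]
            constructor
            · rw [mem_centralizer_singleton_iff]; exact hwx
            · intro z hz
              rw [mem_centralizer_singleton_iff]
              exact (mem_center_iff.1 hz w).symm
          exact hle2 ha
        rw [mem_centralizer_singleton_iff] at this
        have h5 : Commute a w := this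
        exact (h5.zpow_right j).eq)
      have hE1c := hrk2 _ hE1comm
      have hne2 : E ≠ E ⊔ zpowers w := by
        intro he
        apply hwE
        rw [he]
        exact (le_sup_right : zpowers w ≤ E ⊔ zpowers w) (mem_zpowers w)
      have h6 := card_step h.hG (le_sup_left : E ≤ E ⊔ zpowers w) hne2
      have h7 : p ^ 3 ≤ p ^ 2 := by
        calc p ^ 3 = p * (p * p) := by ring
          _ ≤ p * (p * Nat.card (center G)) :=
              Nat.mul_le_mul_left _ (Nat.mul_le_mul_left _ (by omega))
          _ ≤ p * Nat.card E := Nat.mul_le_mul_left _ h1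
          _ ≤ _ := h6
          _ ≤ p ^ 2 := hE1c
      have h8 : p ^ 2 < p ^ 3 := Nat.pow_lt_pow_right hpp.out.one_lt (by norm_num)
      omega
    have hidx := Cfsg.Agent.Lib.LdP4.idx_le x
    have hGc : Nat.card G ≤ p * p ^ 2 := by
      have h2 := Subgroup.card_mul_index (centralizer ({x} : Set G))
      rw [← h2, hCE, mul_comm]
      rw [hCE] at hidx
      exact Nat.mul_le_mul (by omega) hEc
    have hDidx := Subgroup.card_mul_index (commutator G)
    have h9 : p * (commutator G).index ≤ p * p ^ 2 := by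
      calc p * (commutator G).index ≤ Nat.card (commutator G) * (commutator G).index :=
            Nat.mul_le_mul_right _ hDc
        _ = Nat.card G := hDidx
        _ ≤ _ := hGc
    have h10 := Nat.le_of_mul_le_mul_left h9 hpos
    exact (Subgroup.index_antitone hDle).trans h10

theorem frattini_map_eq (β : MulAut G) : (frattini G).map (β : G ≃* G).toMonoidHom = frattini G :=
  Subgroup.characteristic_iff_map_eq.1 inferInstance β

/-- the action on the Frattini quotient -/
noncomputable def barβ (β : MulAut G) : (G ⧸ frattini G) ≃* (G ⧸ frattini G) :=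
  QuotientGroup.congr (frattini G) (frattini G) β (frattini_map_eq β)

theorem barβ_mk (β : MulAut G) (x : G) : barβ β (x : G ⧸ frattini G) = ((β x : G) : G ⧸ frattini G) := rfl

theorem quot_comm (h : MinAut p q β) (a b : G ⧸ frattini G) : a * b = b * a := by
  induction a using QuotientGroup.induction_on with
  | H a =>
  induction b using QuotientGroup.induction_on with
  | H b =>
  rw [← QuotientGroup.mk_mul, ← QuotientGroup.mk_mul, QuotientGroup.eq]
  have h1 : (a * b)⁻¹ * (b * a) = ⁅b⁻¹, a⁻¹⁆ := by
    simp [commutatorElement_def, mul_assoc]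
  rw [h1]
  exact Cfsg.Agent.Lib.PGrp.commutator_le_frattini h.hG (commutator_mem_commutator (mem_top _) (mem_top _))

/-- `v ↦ v⁻¹ · β̄ v`. -/
noncomputable def phi (h : MinAut p q β) : (G ⧸ frattini G) →* (G ⧸ frattini G) where
  toFun v := v⁻¹ * barβ β v
  map_one' := by simp
  map_mul' a b := by
    rw [map_mul, mul_inv_rev, quot_comm h b⁻¹ a⁻¹]
    calc a⁻¹ * b⁻¹ * (barβ β a * barβ β b) = a⁻¹ * (b⁻¹ * barβ β a) * barβ β b := by group
      _ = a⁻¹ * (barβ β a * b⁻¹) * barβ β b := by rw [quot_comm h b⁻¹]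
      _ = _ := by group

theorem phi_apply (h : MinAut p q β) (v : G ⧸ frattini G) : phi h v = v⁻¹ * barβ β v := rfl

theorem phi_surj (h : MinAut p q β) : Function.Surjective (phi h) := by
  have hK : (phi h).range.comap (QuotientGroup.mk' (frattini G)) = ⊤ := by
    apply lemK h
    · rintro x ⟨v, hv⟩
      refine ⟨barβ β v, ?_⟩
      rw [QuotientGroup.mk'_apply] at hv ⊢
      rw [← barβ_mk, ← hv, phi_apply, phi_apply, map_mul, map_inv]
    · intro x
      refine ⟨(x : G ⧸ frattini G), ?_⟩
      rw [phi_apply, barβ_mk, QuotientGroup.mk'_apply, QuotientGroup.mk_mul, QuotientGroup.mk_inv]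
  intro v
  induction v using QuotientGroup.induction_on with
  | H x =>
  have : x ∈ (phi h).range.comap (QuotientGroup.mk' (frattini G)) := by rw [hK]; trivial
  exact this

theorem fixed_eq_one (h : MinAut p q β) {v : G ⧸ frattini G} (hv : barβ β v = v) : v = 1 := by
  have hinj : Function.Injective (phi h) := Finite.injective_iff_surjective.2 (phi_surj h)
  apply hinj
  rw [map_one, phi_apply, hv, inv_mul_cancel]

theorem barβ_pow (β : MulAut G) (i : ℕ) (x : G) :
    ((barβ β) ^ i) (x : G ⧸ frattini G) = (((β ^ i) x : G) : G ⧸ frattini G) := by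
  induction i with
  | zero => rfl
  | succ i ih =>
    rw [pow_succ', pow_succ', MulAut.mul_apply, MulAut.mul_apply, ih, barβ_mk]

theorem card_modEq (h : MinAut p q β) : (frattini G).index ≡ 1 [MOD q] := by
  classical
  haveI : Fact q.Prime := ⟨h.hq⟩
  haveI := Fintype.ofFinite (G ⧸ frattini G)
  let f : Function.End (G ⧸ frattini G) := fun v => barβ β v
  have hf : f ^ q ^ 1 = 1 := by
    rw [pow_one]
    funext v
    induction v using QuotientGroup.induction_on with
    | H x =>
    have h1 : (f ^ q) (x : G ⧸ frattini G) = ((barβ β) ^ q) (x : G ⧸ frattini G) := by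
      have : ∀ i : ℕ, (f ^ i) (x : G ⧸ frattini G) = ((barβ β) ^ i) (x : G ⧸ frattini G) := by
        intro i
        induction i with
        | zero => rfl
        | succ i ih =>
          rw [pow_succ', pow_succ']
          change f ((f ^ i) (x : G ⧸ frattini G)) = _
          rw [ih]
          rfl
      exact this q
    rw [h1, barβ_pow, h.hβq]
    rfl
  have h1 := Equiv.Perm.card_fixedPoints_modEq hf
  have h2 : ∀ (inst : Fintype (Function.fixedPoints f)), @Fintype.card _ inst = 1 := by
    intro inst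
    rw [Fintype.card_eq_one_iff]
    refine ⟨⟨1, ?_⟩, ?_⟩
    · exact map_one (barβ β)
    · rintro ⟨v, hv⟩
      apply Subtype.ext
      exact fixed_eq_one h hv
  rw [h2] at h1
  have h3 : (frattini G).index = Fintype.card (G ⧸ frattini G) := by
    rw [Subgroup.index, Nat.card_eq_fintype_card]
  rw [h3]
  exact h1

theorem dvd_min (hp2 : p ≠ 2) (h : MinAut p q β) (hrk : Cfsg.PRankLE p 2 G) : q ∣ p ^ 2 - 1 := by
  have h1 := card_modEq h
  have h2 := index_le hp2 h hrk
  have h3 : (frattini G).index ≠ 1 := by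
    intro h4
    exact frattini_ne h.hβ (Subgroup.index_eq_one.1 h4)
  obtain ⟨n, hn⟩ := IsPGroup.iff_card.1 h.hG
  have hd : (frattini G).index ∣ p ^ n := hn ▸ Subgroup.index_dvd_card _
  obtain ⟨k, -, hk⟩ := (Nat.dvd_prime_pow hpp.out).1 hd
  rw [hk] at h1 h2 h3
  have hk2 : k ≤ 2 := (Nat.pow_le_pow_iff_right hpp.out.one_lt).1 h2
  have hk0 : k ≠ 0 := by
    rintro rfl
    exact h3 (pow_zero p)
  have hle : 1 ≤ p ^ k := Nat.one_le_pow _ _ hpp.out.pos
  have h5 : q ∣ p ^ k - 1 := (Nat.modEq_iff_dvd' hle).1 h1.symm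
  have hk12 : k = 1 ∨ k = 2 := by omega
  rcases hk12 with rfl | rfl
  · refine h5.trans ?_
    rw [pow_one]
    have h6 : p ^ 2 - 1 = (p - 1) * (p + 1) := by
      have hp1 := hpp.out.pos
      obtain ⟨m, rfl⟩ : ∃ m, p = m + 1 := ⟨p - 1, by omega⟩
      simp only [Nat.add_sub_cancel]
      have : (m + 1) ^ 2 = m * (m + 1 + 1) + 1 := by ring
      rw [this, Nat.add_sub_cancel]
    rw [h6]
    exact Dvd.intro _ rfl
  · exact h5

/-- restriction of an automorphism to an invariant subgroup -/
noncomputable def restr (β : MulAut G) (K : Subgroup G) (hinv : ∀ x ∈ K, β x ∈ K) : MulAut K :=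
  MulEquiv.ofBijective
    (((β : G ≃* G).toMonoidHom.comp K.subtype).codRestrict K (fun x => hinv x x.2))
    (Finite.injective_iff_bijective.1 (by
      intro a b hab
      have h1 : β (a : G) = β (b : G) := congrArg Subtype.val hab
      exact Subtype.ext (β.injective h1)))

theorem restr_coe (β : MulAut G) (K : Subgroup G) (hinv : ∀ x ∈ K, β x ∈ K) (x : K) :
    ((restr β K hinv x : K) : G) = β x := rfl

theorem restr_pow_coe (β : MulAut G) (K : Subgroup G) (hinv : ∀ x ∈ K, β x ∈ K) (i : ℕ) (x : K) :
    (((restr β K hinv) ^ i) x : G) = (β ^ i) x := by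
  induction i with
  | zero => rfl
  | succ i ih =>
    rw [pow_succ', pow_succ', MulAut.mul_apply, MulAut.mul_apply, restr_coe, ih]

omit [Finite G] hpp in
theorem rank_sub {k : ℕ} (hrk : Cfsg.PRankLE p k G) (K : Subgroup G) : Cfsg.PRankLE p k K := by
  intro A hA hexp
  have h1 := hrk (A.map K.subtype) (by
    refine ⟨⟨?_⟩⟩
    rintro ⟨_, a, ha, rfl⟩ ⟨_, b, hb, rfl⟩
    apply Subtype.ext
    have := hA.is_comm.comm ⟨a, ha⟩ ⟨b, hb⟩
    have h2 := congrArg (fun z : A => ((z : K) : G)) this
    exact h2) (by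
    rintro _ ⟨a, ha, rfl⟩
    have := hexp a ha
    simpa using congrArg Subtype.val this)
  have h2 : Nat.card (A.map K.subtype) = Nat.card A :=
    Nat.card_congr (A.equivMapOfInjective _ K.subtype_injective).toEquiv.symm
  omega

theorem main_dvd (hp2 : p ≠ 2) (hq : q.Prime) (hqp : q ≠ p) : ∀ (n : ℕ) (G : Type u) [Group G] [Finite G],
    Nat.card G = n → IsPGroup p G → Cfsg.PRankLE p 2 G → ∀ β : MulAut G, β ^ q = 1 → β ≠ 1 → q ∣ p ^ 2 - 1 := by
  intro n
  induction n using Nat.strong_induction_on with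
  | _ n ih =>
  intro G _ _ hn hG hrk β hβq hβ
  by_cases hex : ∃ K : Subgroup G, K ≠ ⊤ ∧ (∀ x ∈ K, β x ∈ K) ∧ ∃ x ∈ K, β x ≠ x
  · obtain ⟨K, hK, hinv, x, hx, hxne⟩ := hex
    have hlt : Nat.card K < n := by
      rw [← hn]
      apply lt_of_le_of_ne (Subgroup.card_le_card_group K)
      intro h
      exact hK (Subgroup.eq_top_of_card_eq _ h)
    refine ih _ hlt K rfl (hG.to_subgroup K) (rank_sub hrk K) (restr β K hinv) ?_ ?_
    · ext y
      rw [restr_pow_coe, hβq]
      rfl
    · intro h1
      apply hxne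
      have := restr_coe β K hinv ⟨x, hx⟩
      rw [h1] at this
      exact this.symm
  · push Not at hex
    exact dvd_min hp2 ⟨hG, hq, hqp, hβq, hβ, fun K hK hinv x hx => hex K hK hinv x hx⟩ hrk

theorem main {R : Type u} [Group R] [Finite R] (hp : p ≠ 2) (hR : IsPGroup p R) (hrk : Cfsg.PRankLE p 2 R)
    (q : ℕ) (hq : q.Prime) (hqp : q ≠ p) (hdvd : q ∣ Nat.card (MulAut R)) : q ∣ p ^ 2 - 1 ∧ q < p := by
  classical
  haveI : Fact q.Prime := ⟨hq⟩
  obtain ⟨β, hβ⟩ := exists_prime_orderOf_dvd_card' q hdvd
  have h1 : β ^ q = 1 := by rw [← hβ, pow_orderOf_eq_one]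
  have h2 : β ≠ 1 := by
    rintro rfl
    rw [orderOf_one] at hβ
    exact hq.one_lt.ne hβ
  have h3 := main_dvd hp hq hqp _ R rfl hR hrk β h1 h2
  refine ⟨h3, ?_⟩
  have hp3 : 3 ≤ p := by
    have := hpp.out.two_le
    omega
  have h6 : p ^ 2 - 1 = (p - 1) * (p + 1) := by
    obtain ⟨m, rfl⟩ : ∃ m, p = m + 1 := ⟨p - 1, by omega⟩
    simp only [Nat.add_sub_cancel]
    have : (m + 1) ^ 2 = m * (m + 1 + 1) + 1 := by ring
    rw [this, Nat.add_sub_cancel]
  rw [h6] at h3
  rcases (Nat.Prime.dvd_mul hq).1 h3 with h4 | h4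
  · have := Nat.le_of_dvd (by omega) h4
    omega
  · have h5 := Nat.le_of_dvd (by omega) h4
    have hne : q ≠ p + 1 := by
      intro he
      have hodd := hpp.out.odd_of_ne_two hp
      have heven : Even (p + 1) := hodd.add_odd odd_one
      rw [← he] at heven
      have := hq.even_iff.1 heven
      omega
    omega

end Cfsg.Agent.Lib.LdAut2
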