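import Mathlib

/-!
# Extremely primitive groups of affine type
-/

set_option autoImplicit false

namespace Cfsg.Agent.Lib.LdExt

open MulAction

variable {G : Type*} [Group G] [Finite G] {Ω : Type*} [Fintype Ω] [MulAction G Ω] [FaithfulSMul G Ω]

omit [Finite G] [Fintype Ω] [FaithfulSMul G Ω] in
/-- regularity: -/
theorem eq_of_smul {N : Subgroup G} (hNreg : ∀ ω : Ω, stabilizer N ω = ⊥) {α : Ω} {a b : G} (ha : a ∈ N) (hb : b ∈ N)
    (h : a • α = b • α) : a = b := by
  have h1 : (⟨b, hb⟩ : N)⁻¹ * ⟨a, ha⟩ ∈ stabilizer N α := by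
    rw [mem_stabilizer_iff, mul_smul]
    change (⟨b, hb⟩ : N)⁻¹ • (a • α) = α
    rw [h]
    change (⟨b, hb⟩ : N)⁻¹ • ((⟨b, hb⟩ : N) • α) = α
    rw [inv_smul_smul]
  rw [hNreg, Subgroup.mem_bot] at h1
  have := inv_mul_eq_one.1 h1
  exact (congrArg Subtype.val this).symm

omit [Finite G] [Fintype Ω] [FaithfulSMul G Ω] in
theorem exists_smul {N : Subgroup G} (hNtr : IsPretransitive N Ω) (α ω : Ω) : ∃ a ∈ N, a • α = ω := by
  obtain ⟨a, ha⟩ := hNtr.exists_smul_eq α ω
  exact ⟨a, a.2, ha⟩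

omit [Finite G] [Fintype Ω] [FaithfulSMul G Ω] in
/-- the conjugation formula -/
theorem conj_smul {h : G} {α : Ω} (hh : h • α = α) (n : G) : h • (n • α) = (h * n * h⁻¹) • α := by
  rw [mul_smul, mul_smul, inv_smul_eq_iff.2 hh.symm]

omit [Finite G] [Fintype Ω] in
/-- `G = N G_α`-invariant subgroups of `N` are trivial. -/
theorem minimal_normal (hprim : IsPreprimitive G Ω) {N : Subgroup G} [hNn : N.Normal] (hNc : IsMulCommutative N)
    (hNtr : IsPretransitive N Ω) (hNreg : ∀ ω : Ω, stabilizer N ω = ⊥) {α : Ω} {K : Subgroup G} (hK : K ≤ N)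
    (hnorm : ∀ h : G, h • α = α → ∀ k ∈ K, h * k * h⁻¹ ∈ K) : K = ⊥ ∨ K = N := by
  classical
  -- `K` is normal
  have hKn : K.Normal := by
    refine ⟨fun k hk g => ?_⟩
    obtain ⟨n, hn, hna⟩ := exists_smul hNtr α (g • α)
    have hh : (n⁻¹ * g) • α = α := by
      rw [mul_smul, ← hna, inv_smul_smul]
    have h1 := hnorm _ hh k hk
    have h2 : g = n * (n⁻¹ * g) := by group
    have h3 : n * ((n⁻¹ * g) * k * (n⁻¹ * g)⁻¹) * n⁻¹ = (n⁻¹ * g) * k * (n⁻¹ * g)⁻¹ := by
      have hmem : (n⁻¹ * g) * k * (n⁻¹ * g)⁻¹ ∈ N := hK h1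
      have := hNc.is_comm.comm (⟨n, hn⟩ : N) ⟨_, hmem⟩
      have h4 := congrArg Subtype.val this
      change n * ((n⁻¹ * g) * k * (n⁻¹ * g)⁻¹) = ((n⁻¹ * g) * k * (n⁻¹ * g)⁻¹) * n at h4
      rw [h4]
      group
    have h5 : g * k * g⁻¹ = n * ((n⁻¹ * g) * k * (n⁻¹ * g)⁻¹) * n⁻¹ := by group
    rw [h5, h3]
    exact h1
  have hb : IsBlock G (orbit K α) := IsBlock.orbit_of_normal α
  rcases hprim.isTrivialBlock_of_isBlock hb with h | h
  · left
    rw [eq_bot_iff]
    intro k hk
    have h1 : k • α = α := h (mem_orbit _ (⟨k, hk⟩ : K)) (mem_orbit_self α)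
    rw [Subgroup.mem_bot]
    exact eq_of_smul hNreg (hK hk) (one_mem _) (by rwa [one_smul])
  · right
    apply le_antisymm hK
    intro n hn
    have h1 : n • α ∈ orbit K α := by rw [h]; trivial
    obtain ⟨k, hk⟩ := h1
    have h2 : (k : G) = n := eq_of_smul hNreg (hK k.2) hn hk
    rw [← h2]
    exact k.2

omit [Fintype Ω] in
theorem main {α : Ω} (hprim : IsPreprimitive G Ω)
    (hep : ∀ (α : Ω) (ω : Ω), IsPreprimitive (stabilizer G α) (orbit (stabilizer G α) ω))
    (N : Subgroup G) [hNn : N.Normal] (hNc : IsMulCommutative N)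
    (hNtr : IsPretransitive N Ω) (hNreg : ∀ ω : Ω, stabilizer N ω = ⊥) (M : Subgroup G) (hM : M ≠ ⊥)
    (hMle : M ≤ stabilizer G α)
    (hMn : stabilizer G α ≤ Subgroup.normalizer (M : Set G)) :
    (∀ ω : Ω, orbit M ω = orbit (stabilizer G α) ω) ∧
    (∀ L : Subgroup G, L ≤ N → M ≤ Subgroup.normalizer (L : Set G) → L = ⊥ ∨ L = N) := by
  classical
  have hconjM : ∀ h : G, h • α = α → ∀ m ∈ M, h * m * h⁻¹ ∈ M := by
    intro h hh m hm
    have h1 : h ∈ Subgroup.normalizer (M : Set G) := hMn hh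
    exact (Subgroup.mem_normalizer_iff.1 h1 m).1 hm
  have hMfix : ∀ m ∈ M, m • α = α := fun m hm => hMle hm
  have claim1 : ∀ ω : Ω, orbit M ω = orbit (stabilizer G α) ω := by
    intro ω
    apply Set.Subset.antisymm
    · rintro _ ⟨m, rfl⟩
      exact ⟨⟨m, hMle m.2⟩, rfl⟩
    -- the centralizer of `M` in `N`
    let C : Subgroup G := N ⊓ Subgroup.centralizer (M : Set G)
    have hCalt : C = ⊥ ∨ C = N := by
      apply minimal_normal hprim hNc hNtr hNreg (α := α) inf_le_left
      intro h hh k hk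
      obtain ⟨hk1, hk2⟩ := Subgroup.mem_inf.1 hk
      refine Subgroup.mem_inf.2 ⟨hNn.conj_mem k hk1 h, ?_⟩
      rw [Subgroup.mem_centralizer_iff] at hk2 ⊢
      intro m hm
      have h1 := hk2 (h⁻¹ * m * h) (by
        have := hconjM h⁻¹ (by rw [inv_smul_eq_iff, hh]) m hm
        simpa using this)
      calc m * (h * k * h⁻¹) = h * ((h⁻¹ * m * h) * k) * h⁻¹ := by group
        _ = h * (k * (h⁻¹ * m * h)) * h⁻¹ := by rw [h1]
        _ = _ := by group
    -- the block
    letI : (M.subgroupOf (stabilizer G α)).Normal := by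
      refine ⟨fun m hm h => ?_⟩
      rw [Subgroup.mem_subgroupOf] at hm ⊢
      exact hconjM h h.2 m hm
    let Δ := orbit (stabilizer G α) ω
    let x : Δ := ⟨ω, mem_orbit_self ω⟩
    have hb : IsBlock (stabilizer G α) (orbit (M.subgroupOf (stabilizer G α)) x) := IsBlock.orbit_of_normal x
    rcases (hep α ω).isTrivialBlock_of_isBlock hb with h | h
    · -- `M` fixes `ω`
      have hfix : ∀ m ∈ M, m • ω = ω := by
        intro m hm
        have h1 := h (mem_orbit _ (⟨⟨m, hMle hm⟩, by rwa [Subgroup.mem_subgroupOf]⟩ :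
          M.subgroupOf (stabilizer G α))) (mem_orbit_self x)
        exact congrArg Subtype.val h1
      obtain ⟨n, hn, rfl⟩ := exists_smul hNtr α ω
      have hnC : n ∈ C := by
        refine Subgroup.mem_inf.2 ⟨hn, ?_⟩
        rw [Subgroup.mem_centralizer_iff]
        intro m hm
        have h1 := hfix m hm
        rw [conj_smul (hMfix m hm)] at h1
        have h2 := eq_of_smul hNreg (hNn.conj_mem n hn m) hn h1
        calc m * n = (m * n * m⁻¹) * m := by group
          _ = n * m := by rw [h2]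
      rcases hCalt with h0 | h0
      · rw [h0, Subgroup.mem_bot] at hnC
        subst hnC
        rw [one_smul]
        rintro _ ⟨s, rfl⟩
        have hs : (s : G) • α = α := s.2
        refine ⟨1, ?_⟩
        change (1 : G) • α = (s : G) • α
        rw [one_smul, hs]
      · exfalso
        apply hM
        rw [eq_bot_iff]
        intro m hm
        rw [Subgroup.mem_bot]
        apply FaithfulSMul.eq_of_smul_eq_smul (α := Ω)
        intro ω'
        obtain ⟨k, hk, rfl⟩ := exists_smul hNtr α ω'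
        have hkC : k ∈ C := by rw [h0]; exact hk
        have h1 := (Subgroup.mem_centralizer_iff.1 (Subgroup.mem_inf.1 hkC).2) m hm
        rw [one_smul, ← mul_smul, h1, mul_smul, hMfix m hm]
    · rintro y ⟨s, rfl⟩
      have h1 : (s • x : Δ) ∈ orbit (M.subgroupOf (stabilizer G α)) x := by
        rw [h]; trivial
      obtain ⟨m, hm⟩ := h1
      have h2 := congrArg Subtype.val hm
      exact ⟨⟨(m : stabilizer G α), m.2⟩, h2⟩
  refine ⟨claim1, ?_⟩
  intro L hLN hLM
  by_cases hL : L = ⊥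
  · exact Or.inl hL
  right
  obtain ⟨x, hx, hx1⟩ : ∃ x ∈ L, x ≠ 1 := by
    by_contra hall
    push Not at hall
    apply hL
    rw [eq_bot_iff]
    intro y hy
    rw [Subgroup.mem_bot]
    exact hall y hy
  -- conjugates of `x`
  have hconj : ∀ h : G, h • α = α → h * x * h⁻¹ ∈ L := by
    intro h hh
    have h1 : h • (x • α) ∈ orbit (stabilizer G α) (x • α) := ⟨⟨h, hh⟩, rfl⟩
    rw [← claim1] at h1
    obtain ⟨m, hm⟩ := h1
    have h2 : (m : G) • (x • α) = h • (x • α) := hm
    rw [conj_smul (hMfix m m.2), conj_smul hh] at h2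
    have h3 := eq_of_smul hNreg (hNn.conj_mem x (hLN hx) m) (hNn.conj_mem x (hLN hx) h) h2
    rw [← h3]
    exact (Subgroup.mem_normalizer_iff.1 (hLM m.2) x).1 hx
  let K : Subgroup G := Subgroup.closure {y | ∃ h : G, h • α = α ∧ y = h * x * h⁻¹}
  have hKL : K ≤ L := by
    rw [Subgroup.closure_le]
    rintro _ ⟨h, hh, rfl⟩
    exact hconj h hh
  have hxK : x ∈ K := Subgroup.subset_closure ⟨1, one_smul _ _, by group⟩
  have hKalt : K = ⊥ ∨ K = N := by
    apply minimal_normal hprim hNc hNtr hNreg (α := α) (hKL.trans hLN)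
    intro h hh k hk
    induction hk using Subgroup.closure_induction with
    | mem y hy =>
      obtain ⟨h', hh', rfl⟩ := hy
      refine Subgroup.subset_closure ⟨h * h', ?_, by group⟩
      rw [mul_smul, hh', hh]
    | one => simpa using one_mem K
    | mul a b _ _ ha hb =>
      have := mul_mem ha hb
      have h2 : h * (a * b) * h⁻¹ = (h * a * h⁻¹) * (h * b * h⁻¹) := by group
      rwa [h2]
    | inv a _ ha =>
      have := inv_mem ha
      have h2 : h * a⁻¹ * h⁻¹ = (h * a * h⁻¹)⁻¹ := by group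
      rwa [h2]
  rcases hKalt with h0 | h0
  · rw [h0, Subgroup.mem_bot] at hxK
    exact absurd hxK hx1
  · apply le_antisymm hLN
    rw [← h0]
    exact hKL

end Cfsg.Agent.Lib.LdExt
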