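import Mathlib

/-!
# Permutations of prime order leaving a subset of given size invariant
-/

set_option autoImplicit false

namespace Cfsg.Agent.Lib.LdInvSub

open Equiv Equiv.Perm

variable {α : Type*} [Fintype α] [DecidableEq α]

theorem card_support_of_mem {σ : Perm α} (hσ : (orderOf σ).Prime) {c : Perm α} (hc : c ∈ σ.cycleFactorsFinset) :
    c.support.card = orderOf σ := by
  obtain ⟨m, hm⟩ := cycleType_prime_order hσ
  have h1 : c.support.card ∈ σ.cycleType := by
    rw [cycleType_def]
    exact Multiset.mem_map.2 ⟨c, hc, rfl⟩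
  rw [hm] at h1
  exact Multiset.eq_of_mem_replicate h1

theorem card_mul {σ : Perm α} (hσ : (orderOf σ).Prime) :
    σ.support.card = σ.cycleFactorsFinset.card * orderOf σ := by
  obtain ⟨m, hm⟩ := cycleType_prime_order hσ
  have h1 : σ.cycleFactorsFinset.card = Multiset.card σ.cycleType := by
    rw [cycleType_def, Multiset.card_map]; rfl
  rw [h1, ← sum_cycleType, hm]
  simp
  ring

theorem exists_of_count {σ : Perm α} (hσ : (orderOf σ).Prime) {u v : ℕ} (hu : u ≤ σ.cycleFactorsFinset.card)
    (hv : v ≤ (σ.supportᶜ).card) : ∃ s : Finset α, s.card = u * orderOf σ + v ∧ s.image σ = s := by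
  classical
  obtain ⟨C, hC, hCu⟩ := Finset.exists_subset_card_eq hu
  obtain ⟨V, hV, hVv⟩ := Finset.exists_subset_card_eq hv
  have hsub : ∀ c ∈ C, c.support ⊆ σ.support := fun c hc => mem_cycleFactorsFinset_support_le (hC hc)
  have hdisj : (C.biUnion support) ∩ V = ∅ := by
    ext x
    simp only [Finset.mem_inter, Finset.mem_biUnion, Finset.notMem_empty, iff_false, not_and]
    rintro ⟨c, hc, hx⟩ hxV
    exact (Finset.mem_compl.1 (hV hxV)) (hsub c hc hx)
  have hcard1 : (C.biUnion support).card = u * orderOf σ := by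
    rw [Finset.card_biUnion]
    · rw [Finset.sum_congr rfl (fun c hc => card_support_of_mem hσ (hC hc)), Finset.sum_const, hCu, smul_eq_mul]
    · intro a ha b hb hab
      have := cycleFactorsFinset_pairwise_disjoint σ (hC ha) (hC hb) hab
      exact disjoint_iff_disjoint_support.1 this
  have hmem : ∀ x ∈ (C.biUnion support) ∪ V, σ x ∈ (C.biUnion support) ∪ V := by
    intro x hx
    rcases Finset.mem_union.1 hx with h | h
    · obtain ⟨c, hc, hx⟩ := Finset.mem_biUnion.1 h
      apply Finset.mem_union_left
      refine Finset.mem_biUnion.2 ⟨c, hc, ?_⟩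
      have := (mem_cycleFactorsFinset_iff.1 (hC hc)).2 x hx
      rw [← this]
      exact apply_mem_support.2 hx
    · have h1 := Finset.mem_compl.1 (hV h)
      rw [mem_support, not_not] at h1
      rw [h1]
      exact hx
  refine ⟨(C.biUnion support) ∪ V, ?_, ?_⟩
  · rw [Finset.card_union_of_disjoint (Finset.disjoint_iff_inter_eq_empty.2 hdisj), hcard1, hVv]
  · apply Finset.eq_of_subset_of_card_le
    · intro x hx
      obtain ⟨y, hy, rfl⟩ := Finset.mem_image.1 hx
      exact hmem y hy
    · rw [Finset.card_image_of_injective _ σ.injective]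

/-- the backward implication -/
theorem exists_invariant {σ : Perm α} {r : ℕ} (hσ : orderOf σ = r) (hr : r.Prime) {k : ℕ}
    (hk : k % r ≤ Fintype.card α % r) (hkn : k ≤ Fintype.card α) :
    ∃ s : Finset α, s.card = k ∧ s.image σ = s := by
  subst hσ
  set r := orderOf σ with hrdef
  set t := σ.cycleFactorsFinset.card with ht
  have h1 : (σ.supportᶜ).card = Fintype.card α - t * r := by
    rw [Finset.card_compl, card_mul hr]
  have h2 : t * r ≤ Fintype.card α := by
    rw [← card_mul hr]
    exact Finset.card_le_univ _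
  obtain ⟨f, hf⟩ : ∃ f, Fintype.card α = t * r + f := ⟨Fintype.card α - t * r, by omega⟩
  have hf2 : (σ.supportᶜ).card = f := by rw [h1, hf]; omega
  have hmod : Fintype.card α % r = f % r := by
    rw [hf, Nat.mul_comm t r, Nat.mul_add_mod]
  have hfle : f % r ≤ f := Nat.mod_le _ _
  have hdm := Nat.div_add_mod k r
  by_cases hq : k / r ≤ t
  · obtain ⟨s, hs, hsi⟩ := exists_of_count (u := k / r) (v := k % r) hr hq (by omega)
    refine ⟨s, ?_, hsi⟩
    rw [hs, ← hrdef, Nat.mul_comm (k / r), hdm]
  · have h3 : t * r ≤ r * (k / r) := by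
      rw [Nat.mul_comm t r]
      exact Nat.mul_le_mul_left _ (by omega)
    obtain ⟨s, hs, hsi⟩ := exists_of_count (u := t) (v := k - t * r) hr le_rfl (by omega)
    refine ⟨s, ?_, hsi⟩
    rw [hs, ← hrdef]
    omega

/-- the forward implication -/
theorem mod_le_of_forall {r k : ℕ} (hr : r.Prime) (hrn : r ≤ Fintype.card α)
    (h : ∀ σ : Perm α, orderOf σ = r → ∃ s : Finset α, s.card = k ∧ s.image σ = s) :
    k % r ≤ Fintype.card α % r := by
  classical
  haveI : Fact r.Prime := ⟨hr⟩
  set n := Fintype.card α with hn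
  have hq : 1 ≤ n / r := Nat.div_pos hrn hr.pos
  have hex : ∃ g : Perm α, g.cycleType = Multiset.replicate (n / r) r := by
    rw [Equiv.Perm.exists_with_cycleType_iff]
    constructor
    · simp only [Multiset.sum_replicate, smul_eq_mul]
      exact Nat.div_mul_le_self n r
    · intro a ha
      rw [Multiset.eq_of_mem_replicate ha]
      exact hr.two_le
  obtain ⟨g, hg⟩ := hex
  have hne : g ≠ 1 := by
    rintro rfl
    rw [cycleType_one] at hg
    have := congrArg Multiset.card hg
    simp only [Multiset.card_zero, Multiset.card_replicate] at this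
    omega
  have hord : orderOf g = r := by
    have h1 : orderOf g ∣ r := by
      rw [← lcm_cycleType, hg]
      exact Multiset.lcm_dvd.2 (fun b hb => by rw [Multiset.eq_of_mem_replicate hb])
    rcases (Nat.dvd_prime hr).1 h1 with h2 | h2
    · exact absurd (orderOf_eq_one_iff.1 h2) hne
    · exact h2
  obtain ⟨s, hs, hsi⟩ := h g hord
  have hmem : ∀ x ∈ s, g x ∈ s := by
    intro x hx
    rw [← hsi]
    exact Finset.mem_image_of_mem _ hx
  let φ : Function.End s := fun x => ⟨g x, hmem x x.2⟩
  have hφ : ∀ (i : ℕ) (x : s), (((φ ^ i) x : s) : α) = (g ^ i) x := by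
    intro i x
    induction i with
    | zero => rfl
    | succ i ih =>
      rw [pow_succ', pow_succ']
      change g (((φ ^ i) x : s) : α) = _
      rw [ih]
      rfl
  have hφr : φ ^ r ^ 1 = 1 := by
    rw [pow_one]
    funext x
    apply Subtype.ext
    rw [hφ, ← hord, pow_orderOf_eq_one]
    rfl
  have hmodeq := Equiv.Perm.card_fixedPoints_modEq hφr
  rw [Fintype.card_coe, hs] at hmodeq
  -- the number of fixed points is small
  have hfix : Fintype.card (Function.fixedPoints φ) ≤ (g.supportᶜ).card := by
    let e : Function.fixedPoints φ → (g.supportᶜ : Finset α) := fun x => ⟨(x.1 : α), by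
      rw [Finset.mem_compl, mem_support, not_not]
      exact congrArg Subtype.val x.2⟩
    have he : Function.Injective e := by
      intro a b hab
      apply Subtype.ext
      apply Subtype.ext
      have h9 := congrArg (fun z : (g.supportᶜ : Finset α) => (z : α)) hab
      exact h9
    have := Fintype.card_le_of_injective e he
    rwa [Fintype.card_coe] at this
  have hc : (g.supportᶜ).card = n % r := by
    rw [Finset.card_compl, ← sum_cycleType, hg, Multiset.sum_replicate, smul_eq_mul]
    have := Nat.div_add_mod n r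
    rw [Nat.mul_comm] at this
    omega
  rw [hc] at hfix
  have hlt : n % r < r := Nat.mod_lt _ hr.pos
  have h5 : k % r = Fintype.card (Function.fixedPoints φ) % r := hmodeq
  rw [h5, Nat.mod_eq_of_lt (by omega)]
  exact hfix

theorem main (n k : ℕ) (hk : 1 ≤ k) (hkn : 2 * k < n) (r : ℕ) (hr : r.Prime) (hrd : r ∣ Nat.choose n k) :
    (r ≠ 2 → ((∀ σ : Equiv.Perm (Fin n), orderOf σ = r → ∃ s : Finset (Fin n), s.card = k ∧ s.image σ = s) ↔
      (r ≤ k ∧ k % r ≤ n % r))) ∧
    (r = 2 → ((∀ σ : Equiv.Perm (Fin n), orderOf σ = 2 → ∃ s : Finset (Fin n), s.card = k ∧ s.image σ = s) ↔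
      (Even k ∨ Odd n))) := by
  haveI : Fact r.Prime := ⟨hr⟩
  have hkle : k ≤ n := by omega
  have hchoose : ∀ a b : ℕ, b ≤ a → r ∣ Nat.choose a b → r ≤ a := by
    intro a b hb hd
    have h1 := Nat.choose_mul_factorial_mul_factorial hb
    have h2 : r ∣ a.factorial := by
      rw [← h1]
      exact Dvd.dvd.mul_right (Dvd.dvd.mul_right hd _) _
    exact (hr.dvd_factorial).1 h2
  have hrn : r ≤ n := hchoose n k hkle hrd
  have hcard : Fintype.card (Fin n) = n := Fintype.card_fin n
  have fwd : (∀ σ : Equiv.Perm (Fin n), orderOf σ = r → ∃ s : Finset (Fin n), s.card = k ∧ s.image σ = s) →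
      k % r ≤ n % r := by
    intro h
    have := mod_le_of_forall hr (by rwa [hcard]) h
    rwa [hcard] at this
  have bwd : k % r ≤ n % r → (∀ σ : Equiv.Perm (Fin n), orderOf σ = r →
      ∃ s : Finset (Fin n), s.card = k ∧ s.image σ = s) := by
    intro h σ hσ
    exact exists_invariant hσ hr (by rwa [hcard]) (by rwa [hcard])
  constructor
  · intro _
    constructor
    · intro h
      have h1 := fwd h
      refine ⟨?_, h1⟩
      by_contra hlt
      have hk1 : k < r := by omega
      have hk2 : k ≤ n % r := by
        rw [Nat.mod_eq_of_lt hk1] at h1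
        exact h1
      have hl := Choose.choose_modEq_choose_mod_mul_choose_div_nat (p := r) (n := n) (k := k)
      rw [Nat.mod_eq_of_lt hk1, Nat.div_eq_of_lt hk1, Nat.choose_zero_right, mul_one] at hl
      have h2 : r ∣ Nat.choose (n % r) k := (Nat.ModEq.dvd_iff hl dvd_rfl).1 hrd
      have h3 := hchoose _ _ hk2 h2
      have := Nat.mod_lt n hr.pos
      omega
    · rintro ⟨-, h⟩
      exact bwd h
  · intro hr2
    subst hr2
    constructor
    · intro h
      have h1 := fwd h
      rcases Nat.even_or_odd k with h2 | h2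
      · exact Or.inl h2
      · right
        rw [Nat.odd_iff] at h2 ⊢
        omega
    · intro h
      apply bwd
      rcases h with h | h
      · rw [Nat.even_iff] at h
        omega
      · rw [Nat.odd_iff] at h
        have : k % 2 < 2 := Nat.mod_lt _ (by norm_num)
        omega

end Cfsg.Agent.Lib.LdInvSub
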