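import Mathlib
import Cfsg.Prelude.Def_OddOrderLocal
import Cfsg.Prelude.Def_BaumannBlocks
import Cfsg.Agent.Lib.PGrp2

/-! Metacyclic p-groups, p odd: coordinates, centre, derived subgroup. -/

set_option autoImplicit false

namespace Cfsg.Agent.Lib.LdMC

open scoped commutatorElement

/-! ### Numbers -/

/-- geometric sum -/
def SS (q l : ℕ) : ℕ := ∑ i ∈ Finset.range l, q ^ i

theorem SS_zero (q : ℕ) : SS q 0 = 0 := by simp [SS]

theorem SS_succ (q l : ℕ) : SS q (l + 1) = SS q l + q ^ l := by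
  simp [SS, Finset.sum_range_succ]

theorem SS_one (l : ℕ) : SS 1 l = l := by simp [SS]

theorem mul_SS (q l : ℕ) (hq : 1 ≤ q) : (q - 1) * SS q l + 1 = q ^ l := by
  induction l with
  | zero => simp [SS]
  | succ l ih =>
    rw [SS_succ, mul_add]
    have h1 : (q - 1) * q ^ l + q ^ l = q ^ (l + 1) := by
      obtain ⟨r, rfl⟩ : ∃ r, q = r + 1 := ⟨q - 1, by omega⟩
      simp only [Nat.add_sub_cancel]; ring
    omega

variable {p : ℕ} [hp : Fact p.Prime]

theorem not_dvd_of_modEq_one {q : ℕ} (hq : q ≡ 1 [MOD p]) : ¬ p ∣ q := by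
  intro h
  have h1 := (Nat.modEq_zero_iff_dvd.2 h).symm.trans hq
  have := (Nat.modEq_zero_iff_dvd.1 h1.symm)
  exact hp.out.one_lt.ne' (Nat.dvd_one.1 this)

theorem pos_of_modEq_one {q : ℕ} (hq : q ≡ 1 [MOD p]) : 1 ≤ q := by
  rcases Nat.eq_zero_or_pos q with rfl | h
  · exact absurd (dvd_zero p) (not_dvd_of_modEq_one hq)
  · exact h

theorem dvd_sub_one_of_modEq {q : ℕ} (hq : q ≡ 1 [MOD p]) : p ∣ q - 1 :=
  (Nat.modEq_iff_dvd' (pos_of_modEq_one hq)).1 hq.symm

theorem valuation_SS (hp2 : p ≠ 2) {q l : ℕ} (hq : q ≡ 1 [MOD p]) (hl : l ≠ 0) :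
    padicValNat p (SS q l) = padicValNat p l := by
  have hodd : Odd p := hp.out.odd_of_ne_two hp2
  have hq1 := pos_of_modEq_one hq
  rcases eq_or_lt_of_le hq1 with h | h
  · rw [← h, SS_one]
  · have h1 := mul_SS q l hq1
    have h2 := padicValNat.pow_sub_pow (p := p) (x := q) (y := 1) hodd h
      (dvd_sub_one_of_modEq hq) (not_dvd_of_modEq_one hq) hl
    have hSS : SS q l ≠ 0 := by
      intro h0
      rw [h0] at h1
      simp at h1
      have : q ^ l > 1 := Nat.one_lt_pow hl h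
      omega
    have h3 : q ^ l - 1 ^ l = (q - 1) * SS q l := by
      rw [one_pow]; omega
    rw [h3, padicValNat.mul (by omega) hSS] at h2
    omega

theorem dvd_SS_iff (hp2 : p ≠ 2) {q l e : ℕ} (hq : q ≡ 1 [MOD p]) :
    p ^ e ∣ SS q l ↔ p ^ e ∣ l := by
  rcases eq_or_ne l 0 with rfl | hl
  · simp [SS_zero]
  · have hSS : SS q l ≠ 0 := by
      intro h0
      have h1 := mul_SS q l (pos_of_modEq_one hq)
      rw [h0] at h1
      have h5 : q ^ l = 1 := by simpa using h1.symm
      rcases Nat.lt_or_ge 1 q with h | h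
      · have : q ^ l > 1 := Nat.one_lt_pow hl h
        omega
      · have : q = 1 := le_antisymm h (pos_of_modEq_one hq)
        subst this
        have h6 : SS 1 l = l := SS_one l
        rw [h0] at h6
        exact hl h6.symm
    rw [padicValNat_dvd_iff_le hSS, padicValNat_dvd_iff_le hl, valuation_SS hp2 hq hl]

/-- the exponent of the derived subgroup -/
noncomputable def nn (p k m : ℕ) : ℕ := m - padicValNat p (k - 1)

theorem dvd_mul_iff {k m x : ℕ} (hk : 1 < k) :
    p ^ m ∣ (k - 1) * x ↔ p ^ nn p k m ∣ x := by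
  rcases eq_or_ne x 0 with rfl | hx
  · simp
  · have hk1 : k - 1 ≠ 0 := by omega
    rw [padicValNat_dvd_iff_le (mul_ne_zero hk1 hx), padicValNat_dvd_iff_le hx,
      padicValNat.mul hk1 hx, nn]
    omega

theorem dvd_pow_sub_one_iff (hp2 : p ≠ 2) {k m j : ℕ} (hk : 1 < k) (hq : k ≡ 1 [MOD p]) :
    p ^ m ∣ k ^ j - 1 ↔ p ^ nn p k m ∣ j := by
  have h1 := mul_SS k j (by omega)
  have h2 : k ^ j - 1 = (k - 1) * SS k j := by omega
  rw [h2, dvd_mul_iff hk, dvd_SS_iff hp2 hq]

theorem modEq_one_pow {q : ℕ} (hq : q ≡ 1 [MOD p]) (j : ℕ) : q ^ j ≡ 1 [MOD p] := by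
  simpa using hq.pow j

/-! ### Semidirect action -/

variable {G : Type*} [Group G]

/-- `y` acts on `a` as the `q`-th power. -/
def Semi (y a : G) (q : ℕ) : Prop := y * a = a ^ q * y

theorem Semi.mul_pow {y a : G} {q : ℕ} (h : Semi y a q) (x : ℕ) :
    y * a ^ x = a ^ (x * q) * y := by
  induction x with
  | zero => simp
  | succ x ih =>
    rw [pow_succ, ← mul_assoc, ih, mul_assoc, h, ← mul_assoc, ← pow_add]
    congr 2
    ring

theorem Semi.mul {y y' a : G} {q q' : ℕ} (h : Semi y a q) (h' : Semi y' a q') :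
    Semi (y * y') a (q * q') := by
  have h2 : y' * a = a ^ q' * y' := h'
  show y * y' * a = a ^ (q * q') * (y * y')
  rw [mul_assoc, h2, ← mul_assoc, h.mul_pow, mul_assoc]
  congr 2
  ring

theorem Semi.pow {y a : G} {q : ℕ} (h : Semi y a q) (j : ℕ) : Semi (y ^ j) a (q ^ j) := by
  induction j with
  | zero => simp [Semi]
  | succ j ih =>
    rw [pow_succ, pow_succ]
    exact ih.mul h

theorem semi_self_pow (a : G) (i : ℕ) : Semi (a ^ i) a 1 := by
  unfold Semi
  rw [pow_one]
  exact (Commute.refl a).pow_left i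

/-- the power formula -/
theorem Semi.pow_formula {y a : G} {q : ℕ} (h : Semi y a q) (f l : ℕ) :
    (a ^ f * y) ^ l = a ^ (f * SS q l) * y ^ l := by
  induction l with
  | zero => simp [SS_zero]
  | succ l ih =>
    rw [pow_succ, ih, SS_succ]
    have h1 : y ^ l * a ^ f = a ^ (f * q ^ l) * y ^ l := (h.pow l).mul_pow f
    calc a ^ (f * SS q l) * y ^ l * (a ^ f * y)
        = a ^ (f * SS q l) * (y ^ l * a ^ f) * y := by group
      _ = a ^ (f * SS q l) * (a ^ (f * q ^ l) * y ^ l) * y := by rw [h1]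
      _ = a ^ (f * (SS q l + q ^ l)) * y ^ (l + 1) := by
          rw [mul_add, pow_add, pow_succ]; group

/-! ### The data -/

/-- Coordinates on a metacyclic `p`-group. -/
structure MC (p : ℕ) (a b : G) (k m : ℕ) : Prop where
  ord : orderOf a = p ^ m
  conj : Semi b a k
  one_lt : 1 < k
  modEq : k ≡ 1 [MOD p]
  gen : ∀ g : G, ∃ i j : ℕ, g = a ^ i * b ^ j

variable {a b : G} {k m : ℕ}

namespace MC

theorem pow_eq_one_iff (h : MC p a b k m) (x : ℕ) : a ^ x = 1 ↔ p ^ m ∣ x := by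
  rw [← h.ord, orderOf_dvd_iff_pow_eq_one]

theorem pow_eq_pow_iff_of_le (h : MC p a b k m) {x y : ℕ} (hxy : x ≤ y) :
    a ^ x = a ^ y ↔ p ^ m ∣ y - x := by
  rw [← h.pow_eq_one_iff]
  obtain ⟨r, rfl⟩ := Nat.exists_eq_add_of_le hxy
  simp [pow_add]

theorem semi_coord (h : MC p a b k m) (i j : ℕ) : Semi (a ^ i * b ^ j) a (k ^ j) := by
  have := (semi_self_pow a i).mul (h.conj.pow j)
  simpa using this

theorem exists_semi (h : MC p a b k m) (g : G) : ∃ q, q ≡ 1 [MOD p] ∧ Semi g a q := by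
  obtain ⟨i, j, rfl⟩ := h.gen g
  exact ⟨k ^ j, modEq_one_pow h.modEq j, h.semi_coord i j⟩

/-- commuting with `a`. -/
theorem commute_a_iff (h : MC p a b k m) (hp2 : p ≠ 2) {y : G} {j : ℕ} (hy : Semi y a (k ^ j)) :
    y * a = a * y ↔ p ^ nn p k m ∣ j := by
  rw [hy]
  have h1 : a ^ (k ^ j) * y = a * y ↔ a ^ (k ^ j) = a ^ 1 := by
    rw [pow_one]; exact mul_left_inj y
  have hk : 0 < k := by have := h.one_lt; omega
  rw [h1, eq_comm, h.pow_eq_pow_iff_of_le (Nat.one_le_pow _ _ hk)]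
  rw [dvd_pow_sub_one_iff hp2 h.one_lt h.modEq]

theorem semi_mul_pow_k (h : MC p a b k m) (x : ℕ) : b * a ^ x = a ^ (x * k) * b := h.conj.mul_pow x

theorem pow_commute_b_iff (h : MC p a b k m) (x : ℕ) :
    b * a ^ x = a ^ x * b ↔ p ^ nn p k m ∣ x := by
  rw [h.semi_mul_pow_k, mul_left_inj]
  rw [← dvd_mul_iff h.one_lt]
  have h1 : x ≤ x * k := Nat.le_mul_of_pos_right x (by have := h.one_lt; omega)
  rw [eq_comm, h.pow_eq_pow_iff_of_le h1]
  have h2 : x * k - x = (k - 1) * x := by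
    obtain ⟨r, hr⟩ : ∃ r, k = r + 1 := ⟨k - 1, by have := h.one_lt; omega⟩
    subst hr
    simp only [Nat.add_sub_cancel]; ring_nf; omega
  rw [h2]

theorem mem_center_of_commute (h : MC p a b k m) {z : G} (h1 : Commute z a) (h2 : Commute z b) :
    z ∈ Subgroup.center G := by
  rw [Subgroup.mem_center_iff]
  intro g
  obtain ⟨i, j, rfl⟩ := h.gen g
  exact ((h1.pow_right i).mul_right (h2.pow_right j)).symm.eq

theorem b_pow_central (h : MC p a b k m) (hp2 : p ≠ 2) {j : ℕ} (hj : p ^ nn p k m ∣ j) :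
    b ^ j ∈ Subgroup.center G := by
  refine h.mem_center_of_commute ?_ ((Commute.refl b).pow_left j)
  exact (h.commute_a_iff hp2 (h.conj.pow j)).2 hj

theorem a_pow_central (h : MC p a b k m) {i : ℕ} (hi : p ^ nn p k m ∣ i) :
    a ^ i ∈ Subgroup.center G := by
  refine h.mem_center_of_commute ((Commute.refl a).pow_left i) ?_
  exact ((h.pow_commute_b_iff i).2 hi).symm

theorem mem_center_iff (h : MC p a b k m) (hp2 : p ≠ 2) (i j : ℕ) :
    a ^ i * b ^ j ∈ Subgroup.center G ↔ p ^ nn p k m ∣ i ∧ p ^ nn p k m ∣ j := by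
  constructor
  · intro hz
    have h1 : (a ^ i * b ^ j) * a = a * (a ^ i * b ^ j) :=
      ((Subgroup.mem_center_iff.1 hz) a).symm
    have hj := (h.commute_a_iff hp2 (h.semi_coord i j)).1 h1
    refine ⟨?_, hj⟩
    have h2 : a ^ i ∈ Subgroup.center G := by
      have := mul_mem hz (inv_mem (h.b_pow_central hp2 hj))
      simpa using this
    exact (h.pow_commute_b_iff i).1 ((Subgroup.mem_center_iff.1 h2) b)
  · rintro ⟨hi, hj⟩
    exact mul_mem (h.a_pow_central hi) (h.b_pow_central hp2 hj)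

theorem orderOf_eq_of_forall {y : G} {d : ℕ} (hy : ∀ x : ℕ, y ^ x = 1 ↔ d ∣ x) : orderOf y = d :=
  Nat.dvd_antisymm (orderOf_dvd_of_pow_eq_one ((hy d).2 dvd_rfl))
    ((hy _).1 (pow_orderOf_eq_one y))

theorem orderOf_derived (h : MC p a b k m) : orderOf (a ^ (k - 1)) = p ^ nn p k m := by
  apply orderOf_eq_of_forall
  intro x
  rw [← pow_mul, h.pow_eq_one_iff, dvd_mul_iff h.one_lt]

theorem zpowers_derived_normal (h : MC p a b k m) :
    (Subgroup.zpowers (a ^ (k - 1))).Normal := by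
  refine ⟨fun x hx g => ?_⟩
  obtain ⟨e, rfl⟩ := Subgroup.mem_zpowers_iff.1 hx
  rw [← conj_zpow]
  refine zpow_mem ?_ e
  obtain ⟨q, -, hq⟩ := h.exists_semi g
  have h1 : g * a ^ (k - 1) * g⁻¹ = (a ^ (k - 1)) ^ q := by
    rw [hq.mul_pow, mul_inv_cancel_right, ← pow_mul, mul_comm]
  rw [h1]
  exact pow_mem (Subgroup.mem_zpowers _) q

theorem commutator_eq (h : MC p a b k m) : commutator G = Subgroup.zpowers (a ^ (k - 1)) := by
  apply le_antisymm
  · haveI := h.zpowers_derived_normal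
    rw [commutator_def, Subgroup.commutator_le]
    intro g _ g' _
    rw [← QuotientGroup.eq_one_iff]
    have hc : Commute (a : G ⧸ Subgroup.zpowers (a ^ (k - 1))) (b : G ⧸ Subgroup.zpowers (a ^ (k - 1))) := by
      have h1 : (b : G ⧸ Subgroup.zpowers (a ^ (k - 1))) * a = a ^ k * b := by
        have := congrArg (QuotientGroup.mk (s := Subgroup.zpowers (a ^ (k - 1)))) h.conj
        simpa using this
      have h2 : ((a ^ (k - 1) : G) : G ⧸ Subgroup.zpowers (a ^ (k - 1))) = 1 :=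
        (QuotientGroup.eq_one_iff _).2 (Subgroup.mem_zpowers _)
      have h3 : ((a : G) : G ⧸ Subgroup.zpowers (a ^ (k - 1))) ^ k = a := by
        have hk := h.one_lt
        calc ((a : G) : G ⧸ Subgroup.zpowers (a ^ (k - 1))) ^ k
            = ((a : G) : G ⧸ Subgroup.zpowers (a ^ (k - 1))) ^ ((k - 1) + 1) := by
              rw [Nat.sub_add_cancel (by omega)]
          _ = ((a ^ (k - 1) : G) : G ⧸ Subgroup.zpowers (a ^ (k - 1))) * a := by
              rw [pow_succ, QuotientGroup.mk_pow]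
          _ = a := by rw [h2, one_mul]
      rw [h3] at h1
      exact h1.symm
    obtain ⟨i, j, rfl⟩ := h.gen g
    obtain ⟨x, y, rfl⟩ := h.gen g'
    simp only [commutatorElement_def, QuotientGroup.mk_mul, QuotientGroup.mk_inv, QuotientGroup.mk_pow]
    have h5 : Commute ((a : G ⧸ Subgroup.zpowers (a ^ (k - 1))) ^ i * (b : G ⧸ Subgroup.zpowers (a ^ (k - 1))) ^ j)
        ((a : G ⧸ Subgroup.zpowers (a ^ (k - 1))) ^ x * (b : G ⧸ Subgroup.zpowers (a ^ (k - 1))) ^ y) := by
      apply Commute.mul_left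
      · exact ((Commute.refl _).pow_pow i x).mul_right (hc.pow_pow i y)
      · exact (hc.symm.pow_pow j x).mul_right ((Commute.refl _).pow_pow j y)
    rw [h5.eq]
    group
  · rw [Subgroup.zpowers_le]
    have h1 : a ^ (k - 1) = ⁅b, a⁆ := by
      rw [commutatorElement_def, h.conj, mul_inv_cancel_right]
      have hk := h.one_lt
      obtain ⟨r, rfl⟩ : ∃ r, k = r + 1 := ⟨k - 1, by omega⟩
      simp [pow_succ]
    rw [h1]
    exact Subgroup.commutator_mem_commutator (Subgroup.mem_top _) (Subgroup.mem_top _)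

theorem card_commutator (h : MC p a b k m) : Nat.card (commutator G) = p ^ nn p k m := by
  rw [h.commutator_eq, Nat.card_zpowers, h.orderOf_derived]

theorem mem_zpowers_a_of_comm [Finite G] (h : MC p a b k m) {e : G} (he : e ∈ commutator G) :
    ∃ f : ℕ, e = a ^ f := by
  rw [h.commutator_eq] at he
  have h1 : Subgroup.zpowers (a ^ (k - 1)) ≤ Subgroup.zpowers a := by
    rw [Subgroup.zpowers_le]
    exact pow_mem (Subgroup.mem_zpowers a) _
  have h2 := h1 he
  have hpos : orderOf a ≠ 0 := by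
    rw [h.ord]; exact (pow_pos hp.out.pos _).ne'
  have hfin : IsOfFinOrder a := by
    rw [← orderOf_pos_iff]; exact Nat.pos_of_ne_zero hpos
  rw [← mem_powers_iff_mem_zpowers] at h2
  obtain ⟨f, rfl⟩ := h2
  exact ⟨f, rfl⟩

end MC

/-! ### numeric lemmas for the `p^s` layers -/

theorem dvd_mul_SS_iff (hp2 : p ≠ 2) {q x e l : ℕ} (hq : q ≡ 1 [MOD p]) :
    p ^ (e + l) ∣ x * SS q (p ^ l) ↔ p ^ e ∣ x := by
  rcases eq_or_ne x 0 with rfl | hx
  · simp
  · have hl : p ^ l ≠ 0 := (pow_pos hp.out.pos _).ne'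
    have hSS : SS q (p ^ l) ≠ 0 := by
      intro h0
      have : p ^ 0 ∣ SS q (p ^ l) := by simp
      have h1 : p ^ (l + 1) ∣ SS q (p ^ l) := by rw [h0]; exact dvd_zero _
      rw [dvd_SS_iff hp2 hq] at h1
      exact absurd ((Nat.pow_dvd_pow_iff_le_right hp.out.one_lt).1 h1) (by omega)
    rw [padicValNat_dvd_iff_le (mul_ne_zero hx hSS), padicValNat_dvd_iff_le hx,
      padicValNat.mul hx hSS, valuation_SS hp2 hq hl, padicValNat.prime_pow]
    omega

theorem dvd_mul_pow_iff {x e l : ℕ} : p ^ (e + l) ∣ x * p ^ l ↔ p ^ e ∣ x := by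
  rw [pow_add]
  exact Nat.mul_dvd_mul_iff_right (pow_pos hp.out.pos _)

/-! ### the layers -/

namespace MC

variable [Finite G]

theorem coord_mul (h : MC p a b k m) (i j x y : ℕ) :
    (a ^ i * b ^ j) * (a ^ x * b ^ y) = a ^ (i + x * k ^ j) * b ^ (j + y) := by
  have h1 : b ^ j * a ^ x = a ^ (x * k ^ j) * b ^ j := (h.conj.pow j).mul_pow x
  calc (a ^ i * b ^ j) * (a ^ x * b ^ y) = a ^ i * (b ^ j * a ^ x) * b ^ y := by group
    _ = a ^ i * (a ^ (x * k ^ j) * b ^ j) * b ^ y := by rw [h1]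
    _ = a ^ (i + x * k ^ j) * b ^ (j + y) := by rw [pow_add, pow_add]; group

/-- The layer `W_s`, generated by `a^(p^s)` and `b^(p^s)`. -/
def WW (h : MC p a b k m) (s : ℕ) : Subgroup G where
  carrier := {g | ∃ i j : ℕ, g = a ^ (p ^ s * i) * b ^ (p ^ s * j)}
  mul_mem' := by
    rintro _ _ ⟨i, j, rfl⟩ ⟨x, y, rfl⟩
    refine ⟨i + x * k ^ (p ^ s * j), j + y, ?_⟩
    rw [h.coord_mul]
    congr 2
    · ring
    · ring
  one_mem' := ⟨0, 0, by simp⟩
  inv_mem' := by
    have hmul : ∀ g g' : G, (∃ i j : ℕ, g = a ^ (p ^ s * i) * b ^ (p ^ s * j)) →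
        (∃ i j : ℕ, g' = a ^ (p ^ s * i) * b ^ (p ^ s * j)) →
        (∃ i j : ℕ, g * g' = a ^ (p ^ s * i) * b ^ (p ^ s * j)) := by
      rintro _ _ ⟨i, j, rfl⟩ ⟨x, y, rfl⟩
      refine ⟨i + x * k ^ (p ^ s * j), j + y, ?_⟩
      rw [h.coord_mul]
      congr 2
      · ring
      · ring
    have hpow : ∀ (g : G), (∃ i j : ℕ, g = a ^ (p ^ s * i) * b ^ (p ^ s * j)) → ∀ e : ℕ,
        (∃ i j : ℕ, g ^ e = a ^ (p ^ s * i) * b ^ (p ^ s * j)) := by
      intro g hg e
      induction e with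
      | zero => exact ⟨0, 0, by simp⟩
      | succ e ih => rw [pow_succ]; exact hmul _ _ ih hg
    intro g hg
    have h1 : g⁻¹ = g ^ (orderOf g - 1) := by
      apply inv_eq_of_mul_eq_one_right
      rw [← pow_succ', Nat.sub_add_cancel (orderOf_pos g), pow_orderOf_eq_one]
    show ∃ i j : ℕ, g⁻¹ = _
    rw [h1]
    exact hpow g hg _

theorem mem_WW (h : MC p a b k m) {s : ℕ} {g : G} :
    g ∈ h.WW s ↔ ∃ i j : ℕ, g = a ^ (p ^ s * i) * b ^ (p ^ s * j) := Iff.rfl

theorem WW_anti (h : MC p a b k m) {s s' : ℕ} (hs : s ≤ s') : h.WW s' ≤ h.WW s := by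
  rintro _ ⟨i, j, rfl⟩
  obtain ⟨r, rfl⟩ := Nat.exists_eq_add_of_le hs
  exact ⟨p ^ r * i, p ^ r * j, by rw [pow_add]; simp only [mul_assoc]⟩

theorem WW_zero (h : MC p a b k m) : h.WW 0 = ⊤ := by
  rw [eq_top_iff]
  intro g _
  obtain ⟨i, j, rfl⟩ := h.gen g
  exact ⟨i, j, by simp⟩

theorem WW_eq_closure (h : MC p a b k m) (hp2 : p ≠ 2) (s : ℕ) :
    Subgroup.closure {x : G | ∃ y : G, y ^ p ^ s = x} = h.WW s := by
  apply le_antisymm
  · rw [Subgroup.closure_le]
    rintro _ ⟨y, rfl⟩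
    obtain ⟨i, j, rfl⟩ := h.gen y
    rw [(h.conj.pow j).pow_formula i (p ^ s)]
    have hd : p ^ s ∣ SS (k ^ j) (p ^ s) :=
      (dvd_SS_iff hp2 (modEq_one_pow h.modEq j)).2 dvd_rfl
    obtain ⟨c, hc⟩ := hd
    refine ⟨i * c, j, ?_⟩
    rw [hc, ← pow_mul]
    congr 2 <;> ring
  · rintro _ ⟨i, j, rfl⟩
    refine mul_mem (Subgroup.subset_closure ⟨a ^ i, ?_⟩) (Subgroup.subset_closure ⟨b ^ j, ?_⟩)
    · rw [← pow_mul, mul_comm]
    · rw [← pow_mul, mul_comm]

/-- membership in a layer in terms of powers and the centre -/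
theorem mem_WW_iff_pow (h : MC p a b k m) (hp2 : p ≠ 2) {s : ℕ} (hs : s ≤ nn p k m) (g : G) :
    g ∈ h.WW s ↔ g ^ p ^ (nn p k m - s) ∈ Subgroup.center G := by
  obtain ⟨l, hl⟩ := Nat.exists_eq_add_of_le hs
  have hl' : nn p k m - s = l := by omega
  rw [hl']
  obtain ⟨i, j, rfl⟩ := h.gen g
  rw [(h.conj.pow j).pow_formula i (p ^ l), ← pow_mul, h.mem_center_iff hp2, hl,
    dvd_mul_SS_iff hp2 (modEq_one_pow h.modEq j), dvd_mul_pow_iff]
  constructor
  · rintro ⟨x, y, hxy⟩
    have h1 : (a ^ i * b ^ j) ^ p ^ l ∈ Subgroup.center G := by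
      rw [hxy, (h.conj.pow (p ^ s * y)).pow_formula (p ^ s * x) (p ^ l), ← pow_mul, h.mem_center_iff hp2, hl]
      constructor
      · exact (dvd_mul_SS_iff hp2 (modEq_one_pow h.modEq _)).2 (Dvd.intro _ rfl)
      · exact dvd_mul_pow_iff.2 (Dvd.intro _ rfl)
    rw [(h.conj.pow j).pow_formula i (p ^ l), ← pow_mul, h.mem_center_iff hp2, hl,
      dvd_mul_SS_iff hp2 (modEq_one_pow h.modEq j), dvd_mul_pow_iff] at h1
    exact h1
  · rintro ⟨⟨x, rfl⟩, ⟨y, rfl⟩⟩
    exact ⟨x, y, rfl⟩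

theorem WW_nn (h : MC p a b k m) (hp2 : p ≠ 2) : h.WW (nn p k m) = Subgroup.center G := by
  ext g
  rw [h.mem_WW_iff_pow hp2 le_rfl]
  simp

/-- Uniqueness of coordinates modulo the centre. -/
theorem coord_unique (h : MC p a b k m) (hp2 : p ≠ 2) {i j x y : ℕ}
    (hz : (a ^ i * b ^ j)⁻¹ * (a ^ x * b ^ y) ∈ Subgroup.center G) :
    i ≡ x [MOD p ^ nn p k m] ∧ j ≡ y [MOD p ^ nn p k m] := by
  obtain ⟨z, hzdef⟩ : ∃ z, z = (a ^ i * b ^ j)⁻¹ * (a ^ x * b ^ y) := ⟨_, rfl⟩
  have hxy : a ^ x * b ^ y = a ^ i * b ^ j * z := by rw [hzdef]; group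
  have hcz : ∀ g, z * g = g * z := fun g => ((Subgroup.mem_center_iff.1 (hzdef ▸ hz)) g).symm
  have hk : 0 < k := by have := h.one_lt; omega
  have hcop : Nat.Coprime k p :=
    ((Nat.Prime.coprime_iff_not_dvd hp.out).2 (not_dvd_of_modEq_one h.modEq)).symm
  -- action on `a`
  have h1 : a ^ (k ^ y) = a ^ (k ^ j) := by
    have h2 : (a ^ x * b ^ y) * a = a ^ (k ^ y) * (a ^ x * b ^ y) := h.semi_coord x y
    have h3 : (a ^ i * b ^ j) * a = a ^ (k ^ j) * (a ^ i * b ^ j) := h.semi_coord i j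
    rw [hxy] at h2
    have h4 : a ^ i * b ^ j * z * a = a ^ (k ^ j) * (a ^ i * b ^ j * z) := by
      rw [mul_assoc, hcz, ← mul_assoc, h3, mul_assoc]
    rw [h4] at h2
    exact (mul_right_cancel h2).symm
  have hjy : j ≡ y [MOD p ^ nn p k m] := by
    have key : ∀ {j y : ℕ}, j ≤ y → a ^ (k ^ y) = a ^ (k ^ j) → j ≡ y [MOD p ^ nn p k m] := by
      intro j y hle he
      obtain ⟨r, rfl⟩ := Nat.exists_eq_add_of_le hle
      have h5 : p ^ m ∣ k ^ (j + r) - k ^ j := by
        rw [← h.pow_eq_pow_iff_of_le (Nat.pow_le_pow_right hk (by omega))]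
        exact he.symm
      have h6 : k ^ (j + r) - k ^ j = k ^ j * (k ^ r - 1) := by
        rw [pow_add, Nat.mul_sub, mul_one]
      rw [h6] at h5
      have h7 : p ^ m ∣ k ^ r - 1 :=
        (Nat.Coprime.dvd_of_dvd_mul_left ((hcop.pow_left j).symm.pow_left m |>.symm |> fun h => h.symm) h5)
      rw [dvd_pow_sub_one_iff hp2 h.one_lt h.modEq] at h7
      exact ((Nat.modEq_iff_dvd' (by omega)).2 (by simpa using h7))
    rcases Nat.le_total j y with hle | hle
    · exact key hle h1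
    · exact (key hle h1.symm).symm
  refine ⟨?_, hjy⟩
  -- now the `a` coordinate
  have h8 : ∀ {i x j y : ℕ}, i ≤ x → j ≡ y [MOD p ^ nn p k m] →
      (a ^ i * b ^ j)⁻¹ * (a ^ x * b ^ y) ∈ Subgroup.center G → i ≡ x [MOD p ^ nn p k m] := by
    intro i x j y hle hjy hz
    obtain ⟨r, rfl⟩ := Nat.exists_eq_add_of_le hle
    have hc : ∃ c ∈ Subgroup.center G, b ^ j = b ^ y * c := by
      rcases Nat.le_total j y with h0 | h0
      · obtain ⟨d, rfl⟩ := Nat.exists_eq_add_of_le h0
        have hd : p ^ nn p k m ∣ d := by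
          have := (Nat.modEq_iff_dvd' (by omega)).1 hjy
          simpa using this
        refine ⟨(b ^ d)⁻¹, inv_mem (h.b_pow_central hp2 hd), ?_⟩
        rw [pow_add]; group
      · obtain ⟨d, rfl⟩ := Nat.exists_eq_add_of_le h0
        have hd : p ^ nn p k m ∣ d := by
          have := (Nat.modEq_iff_dvd' (by omega)).1 hjy.symm
          simpa using this
        exact ⟨b ^ d, h.b_pow_central hp2 hd, by rw [pow_add]⟩
    obtain ⟨c, hc, hbc⟩ := hc
    have h9 : a ^ r ∈ Subgroup.center G := by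
      have h10 : (a ^ i * b ^ j)⁻¹ * (a ^ (i + r) * b ^ y) = c⁻¹ * ((b ^ y)⁻¹ * a ^ r * b ^ y) := by
        rw [hbc, pow_add]
        group
      rw [h10] at hz
      have h11 : (b ^ y)⁻¹ * a ^ r * b ^ y ∈ Subgroup.center G := by
        have := mul_mem hc hz
        simpa using this
      have h12 : a ^ r = b ^ y * ((b ^ y)⁻¹ * a ^ r * b ^ y) * (b ^ y)⁻¹ := by group
      rw [h12]
      have h13 := (Subgroup.mem_center_iff.1 h11) (b ^ y)
      rw [h13]
      simpa using h11
    have h14 : p ^ nn p k m ∣ r := (h.pow_commute_b_iff r).1 ((Subgroup.mem_center_iff.1 h9) b)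
    exact ((Nat.modEq_iff_dvd' (by omega)).2 (by simpa using h14))
  rcases Nat.le_total i x with hle | hle
  · exact h8 hle hjy hz
  · refine (h8 hle hjy.symm ?_).symm
    have := inv_mem hz
    have h15 : ((a ^ i * b ^ j)⁻¹ * (a ^ x * b ^ y))⁻¹ = (a ^ x * b ^ y)⁻¹ * (a ^ i * b ^ j) := by group
    rwa [h15] at this

/-- injectivity of coordinates on a layer modulo the centre, and surjectivity: counting. -/
theorem card_WW_quot (h : MC p a b k m) (hp2 : p ≠ 2) {s : ℕ} (hs : s ≤ nn p k m) :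
    Nat.card ((h.WW s).map (QuotientGroup.mk' (Subgroup.center G))) =
      p ^ (2 * (nn p k m - s)) := by
  classical
  obtain ⟨l, hl⟩ := Nat.exists_eq_add_of_le hs
  have hl' : nn p k m - s = l := by omega
  rw [hl']
  have hpos : 0 < p := hp.out.pos
  let θ : Fin (p ^ l) × Fin (p ^ l) → ((h.WW s).map (QuotientGroup.mk' (Subgroup.center G))) :=
    fun x => ⟨QuotientGroup.mk' _ (a ^ (p ^ s * (x.1 : ℕ)) * b ^ (p ^ s * (x.2 : ℕ))),
      Subgroup.mem_map_of_mem _ ⟨x.1, x.2, rfl⟩⟩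
  have hinj : Function.Injective θ := by
    rintro ⟨i, j⟩ ⟨x, y⟩ he
    have he' := congrArg Subtype.val he
    simp only [θ, QuotientGroup.mk'_apply] at he'
    rw [QuotientGroup.eq] at he'
    obtain ⟨h1, h2⟩ := h.coord_unique hp2 he'
    have key : ∀ u v : Fin (p ^ l), p ^ s * (u : ℕ) ≡ p ^ s * (v : ℕ) [MOD p ^ nn p k m] → u = v := by
      intro u v huv
      rw [hl, add_comm, pow_add, mul_comm (p ^ l)] at huv
      have := Nat.ModEq.mul_left_cancel' (pow_pos hpos s).ne' huv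
      have h3 := Nat.ModEq.eq_of_lt_of_lt this u.2 v.2
      exact Fin.ext h3
    rw [key i x h1, key j y h2]
  have hsurj : Function.Surjective θ := by
    rintro ⟨_, g, ⟨i, j, rfl⟩, rfl⟩
    have hlpos : 0 < p ^ l := pow_pos hpos l
    refine ⟨(⟨i % p ^ l, Nat.mod_lt _ hlpos⟩, ⟨j % p ^ l, Nat.mod_lt _ hlpos⟩), ?_⟩
    apply Subtype.ext
    simp only [θ, QuotientGroup.mk'_apply]
    rw [QuotientGroup.eq]
    have e : ∀ x : ℕ, p ^ s * x = p ^ s * (x % p ^ l) + p ^ nn p k m * (x / p ^ l) := by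
      intro x
      rw [hl, pow_add]
      conv_lhs => rw [← Nat.mod_add_div x (p ^ l)]
      ring
    have hi : a ^ (p ^ s * i) = a ^ (p ^ s * (i % p ^ l)) * a ^ (p ^ nn p k m * (i / p ^ l)) := by
      rw [← pow_add, ← e]
    have hj : b ^ (p ^ s * j) = b ^ (p ^ s * (j % p ^ l)) * b ^ (p ^ nn p k m * (j / p ^ l)) := by
      rw [← pow_add, ← e]
    have hci : a ^ (p ^ nn p k m * (i / p ^ l)) ∈ Subgroup.center G :=
      h.a_pow_central (Dvd.intro _ rfl)
    have hcj : b ^ (p ^ nn p k m * (j / p ^ l)) ∈ Subgroup.center G :=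
      h.b_pow_central hp2 (Dvd.intro _ rfl)
    rw [hi, hj]
    set A := a ^ (p ^ s * (i % p ^ l))
    set B := b ^ (p ^ s * (j % p ^ l))
    set C := a ^ (p ^ nn p k m * (i / p ^ l))
    set D := b ^ (p ^ nn p k m * (j / p ^ l))
    have h5 : (A * B)⁻¹ * (A * C * (B * D)) = C * D := by
      have h6 : C * B = B * C := (Subgroup.mem_center_iff.1 hci B).symm
      calc (A * B)⁻¹ * (A * C * (B * D)) = B⁻¹ * (C * B) * D := by group
        _ = B⁻¹ * (B * C) * D := by rw [h6]
        _ = C * D := by group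
    rw [h5]
    exact mul_mem hci hcj
  have hb : Function.Bijective θ := ⟨hinj, hsurj⟩
  rw [← Nat.card_congr (Equiv.ofBijective θ hb)]
  simp [Nat.card_prod, Nat.card_eq_fintype_card, Fintype.card_fin]
  ring

/-- generic: order of a subgroup containing the centre -/
theorem card_of_center_le (R : Subgroup G) (hR : Subgroup.center G ≤ R) :
    Nat.card R = Nat.card (Subgroup.center G) * Nat.card (R.map (QuotientGroup.mk' (Subgroup.center G))) := by
  have h1 : R = (R.map (QuotientGroup.mk' (Subgroup.center G))).comap (QuotientGroup.mk' (Subgroup.center G)) := by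
    rw [Subgroup.comap_map_eq, QuotientGroup.ker_mk']
    exact (sup_eq_left.2 hR).symm
  have h2 : R.index = (R.map (QuotientGroup.mk' (Subgroup.center G))).index := by
    conv_lhs => rw [h1]
    exact Subgroup.index_comap_of_surjective _ (QuotientGroup.mk'_surjective _)
  have h3 := R.card_mul_index
  have h4 := (R.map (QuotientGroup.mk' (Subgroup.center G))).card_mul_index
  have h5 := (Subgroup.center G).card_mul_index
  have hne : R.index ≠ 0 := Subgroup.index_ne_zero_of_finite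
  have h6 : (Subgroup.center G).index = Nat.card (G ⧸ Subgroup.center G) := rfl
  rw [← h2, ← h6] at h4
  apply Nat.eq_of_mul_eq_mul_right (Nat.pos_of_ne_zero hne)
  rw [h3, mul_assoc, h4, h5]

theorem card_WW (h : MC p a b k m) (hp2 : p ≠ 2) {s : ℕ} (hs : s ≤ nn p k m) :
    Nat.card (h.WW s) = Nat.card (Subgroup.center G) * p ^ (2 * (nn p k m - s)) := by
  have hZ : Subgroup.center G ≤ h.WW s := by
    rw [← h.WW_nn hp2]
    exact h.WW_anti hs
  rw [card_of_center_le _ hZ, h.card_WW_quot hp2 hs]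

theorem card_eq (h : MC p a b k m) (hp2 : p ≠ 2) :
    Nat.card G = Nat.card (Subgroup.center G) * p ^ (2 * nn p k m) := by
  have h1 := h.card_WW hp2 (Nat.zero_le _)
  rw [h.WW_zero] at h1
  simpa using h1

theorem index_center (h : MC p a b k m) (hp2 : p ≠ 2) :
    (Subgroup.center G).index = Nat.card (commutator G) ^ 2 := by
  have h1 := (Subgroup.center G).card_mul_index
  rw [h.card_eq hp2] at h1
  have hpos : 0 < Nat.card (Subgroup.center G) := Nat.card_pos
  have h2 := Nat.eq_of_mul_eq_mul_left hpos h1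
  rw [h2, h.card_commutator, ← pow_mul, mul_comm]

end MC

theorem exists_MC [Finite G] (hG : IsPGroup p G) (hmc : Cfsg.IsMetacyclic G) :
    ∃ (a b : G) (k m : ℕ), MC p a b k m := by
  obtain ⟨N, hN, hc1, hc2⟩ := hmc
  obtain ⟨⟨a, ha⟩, hgen⟩ := hc1.exists_generator
  obtain ⟨bbar, hb⟩ := hc2.exists_generator
  obtain ⟨b, rfl⟩ := QuotientGroup.mk_surjective bbar
  have hNa : ∀ x ∈ N, ∃ i : ℕ, x = a ^ i := by
    intro x hx
    have h1 := hgen ⟨x, hx⟩
    rw [← mem_powers_iff_mem_zpowers] at h1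
    obtain ⟨i, hi⟩ := h1
    exact ⟨i, by simpa using (congrArg Subtype.val hi).symm⟩
  obtain ⟨e, he⟩ := hG a
  obtain ⟨m, -, hm⟩ := (Nat.dvd_prime_pow hp.out).1 (orderOf_dvd_of_pow_eq_one he)
  obtain ⟨e', he'⟩ := hG b
  obtain ⟨k₀, hk₀⟩ := hNa (b * a * b⁻¹) (hN.conj_mem a ha b)
  have hk₀' : Semi b a k₀ := by
    unfold Semi
    rw [← hk₀]; group
  have hp3 := hp.out.two_le
  have hgen' : ∀ g : G, ∃ i j : ℕ, g = a ^ i * b ^ j := by
    intro g
    have h1 := hb (g : G ⧸ N)
    rw [← mem_powers_iff_mem_zpowers] at h1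
    obtain ⟨j, hj⟩ := h1
    have h2 : g * (b ^ j)⁻¹ ∈ N := by
      rw [← QuotientGroup.eq_one_iff, QuotientGroup.mk_mul, QuotientGroup.mk_inv, QuotientGroup.mk_pow]
      simp only at hj
      rw [hj, mul_inv_cancel]
    obtain ⟨i, hi⟩ := hNa _ h2
    exact ⟨i, j, by rw [← hi]; group⟩
  rcases Nat.eq_zero_or_pos m with rfl | hmpos
  · have ha1 : a = 1 := by
      rw [pow_zero] at hm
      exact orderOf_eq_one_iff.1 hm
    refine ⟨a, b, 1 + p, 0, ⟨by simpa using hm, by simp [Semi, ha1], by omega, ?_, hgen'⟩⟩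
    simp [Nat.ModEq]
  · have h1 : a ^ (k₀ ^ p ^ e') = a ^ 1 := by
      have h2 := hk₀'.pow (p ^ e')
      unfold Semi at h2
      rw [he'] at h2
      simpa using h2.symm
    rw [pow_eq_pow_iff_modEq, hm] at h1
    have h3 : k₀ ^ p ^ e' ≡ 1 [MOD p] := h1.of_dvd (dvd_pow_self p hmpos.ne')
    have h4 : k₀ ≡ 1 [MOD p] := by
      rw [← ZMod.natCast_eq_natCast_iff] at h3 ⊢
      push_cast at h3 ⊢
      rwa [ZMod.pow_card_pow] at h3
    have hpm : p ∣ p ^ m := dvd_pow_self p hmpos.ne'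
    refine ⟨a, b, k₀ + p ^ m, m, ⟨hm, ?_, ?_, ?_, hgen'⟩⟩
    · unfold Semi at *
      rw [pow_add, ← hm, pow_orderOf_eq_one, mul_one]
      exact hk₀'
    · have h5 : 1 ≤ k₀ := pos_of_modEq_one h4
      have : 1 ≤ p ^ m := Nat.one_le_pow _ _ hp.out.pos
      omega
    · have : k₀ + p ^ m ≡ 1 + 0 [MOD p] := h4.add ((Nat.modEq_zero_iff_dvd).2 hpm)
      simpa using this

/-! ### `|R| |C(R)|` -/

theorem card_le_mul_of_fiber {H X : Type*} [Group H] [Finite H] [Finite X] (D : Subgroup H) (φ : H → X)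
    (hφ : ∀ u v, φ u = φ v → u⁻¹ * v ∈ D) : Nat.card H ≤ Nat.card D * Nat.card X := by
  rw [D.card_eq_card_quotient_mul_card_subgroup, mul_comm]
  apply Nat.mul_le_mul_left
  refine Nat.card_le_card_of_injective (fun q : H ⧸ D => φ q.out) ?_
  intro q q' hq
  have h1 := hφ _ _ hq
  rw [← QuotientGroup.eq] at h1
  simpa using h1

theorem exists_between_card [Finite G] (hG : IsPGroup p G) {R K : Subgroup G} (hle : R ≤ K) (hne : R ≠ K) :
    ∃ R₁ : Subgroup G, R ≤ R₁ ∧ R₁ ≤ K ∧ Nat.card R₁ = p * Nat.card R := by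
  have hK : IsPGroup p K := hG.to_subgroup K
  have hcard : Nat.card (R.subgroupOf K) = Nat.card R := by
    exact Nat.card_congr (Subgroup.subgroupOfEquivOfLe hle).toEquiv
  obtain ⟨e, he⟩ := IsPGroup.iff_card.1 (hK.to_subgroup (R.subgroupOf K))
  obtain ⟨f, hf⟩ := IsPGroup.iff_card.1 hK
  have hlt : Nat.card R < Nat.card K := by
    have := Subgroup.card_le_of_le hle
    refine lt_of_le_of_ne this ?_
    intro h
    exact hne (Subgroup.eq_of_le_of_card_ge hle h.ge)
  rw [hcard] at he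
  have hef : e < f := by
    rw [he, hf] at hlt
    exact (Nat.pow_lt_pow_iff_right hp.out.one_lt).1 hlt
  have hdvd : p ^ (e + 1) ∣ Nat.card K := by
    rw [hf]; exact pow_dvd_pow p hef
  obtain ⟨R₂, h2, h3⟩ := Sylow.exists_subgroup_card_pow_succ (H := R.subgroupOf K) hdvd (by rw [hcard, he])
  refine ⟨R₂.map K.subtype, ?_, ?_, ?_⟩
  · intro x hx
    have hxK := hle hx
    exact ⟨⟨x, hxK⟩, h3 (by simpa [Subgroup.mem_subgroupOf] using hx), rfl⟩
  · rw [Subgroup.map_le_iff_le_comap]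
    intro x _
    exact x.2
  · rw [Subgroup.card_map_of_injective K.subtype_injective, h2, he, pow_succ, mul_comm]

namespace MC

variable [Finite G]

theorem card_cent_le (h : MC p a b k m) (hp2 : p ≠ 2) (hG : IsPGroup p G) {R K : Subgroup G}
    (hle : R ≤ K) (hc : Nat.card K = p * Nat.card R) :
    Nat.card (Subgroup.centralizer (R : Set G)) ≤ p * Nat.card (Subgroup.centralizer (K : Set G)) := by
  classical
  have hRpos : 0 < Nat.card R := Nat.card_pos
  have hp1 := hp.out.one_lt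
  obtain ⟨y, hyK, hyR⟩ : ∃ y ∈ K, y ∉ R := by
    by_contra hh
    push Not at hh
    have h1 := Subgroup.card_le_of_le (show K ≤ R from hh)
    rw [hc] at h1
    nlinarith
  have hcardsub : Nat.card (R.subgroupOf K) = Nat.card R :=
    Nat.card_congr (Subgroup.subgroupOfEquivOfLe hle).toEquiv
  have hyp : y ^ p ∈ R := by
    have hidx : (R.subgroupOf K).index = p := by
      have h1 := (R.subgroupOf K).card_mul_index
      rw [hcardsub, hc, mul_comm p] at h1
      exact Nat.eq_of_mul_eq_mul_left hRpos h1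
    obtain ⟨f, hf⟩ := IsPGroup.iff_card.1 (hG.to_subgroup K)
    have hf0 : f ≠ 0 := by
      rintro rfl
      rw [hc] at hf
      simp at hf
      omega
    have hmin : (Nat.card K).minFac = p := by
      rw [hf, Nat.Prime.pow_minFac hp.out hf0]
    haveI : (R.subgroupOf K).Normal := Subgroup.normal_of_index_eq_minFac_card (by rw [hidx, hmin])
    have := Subgroup.pow_index_mem (R.subgroupOf K) (⟨y, hyK⟩ : K)
    rw [hidx] at this
    simpa [Subgroup.mem_subgroupOf] using this
  have hK' : ∀ x ∈ Subgroup.centralizer (R : Set G), x * y = y * x →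
      x ∈ Subgroup.centralizer (K : Set G) := by
    intro x hx hxy
    have hT : K ⊓ Subgroup.centralizer {x} = K := by
      have hRT : R ≤ K ⊓ Subgroup.centralizer {x} := by
        intro r hr
        refine Subgroup.mem_inf.2 ⟨hle hr, Subgroup.mem_centralizer_iff.2 ?_⟩
        rintro _ rfl
        exact (Subgroup.mem_centralizer_iff.1 hx r hr).symm
      have hyT : y ∈ K ⊓ Subgroup.centralizer {x} := by
        refine Subgroup.mem_inf.2 ⟨hyK, Subgroup.mem_centralizer_iff.2 ?_⟩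
        rintro _ rfl
        exact hxy
      have h1 := Subgroup.card_dvd_of_le hRT
      have h2 := Subgroup.card_dvd_of_le (inf_le_left : K ⊓ Subgroup.centralizer {x} ≤ K)
      obtain ⟨c, hc1⟩ := h1
      rw [hc, hc1] at h2
      have h3 : c ∣ p := by
        rw [mul_comm p] at h2
        exact Nat.dvd_of_mul_dvd_mul_left hRpos h2
      rcases (Nat.dvd_prime hp.out).1 h3 with rfl | rfl
      · exfalso
        have h4 := Subgroup.eq_of_le_of_card_ge hRT (by rw [hc1, mul_one])
        rw [← h4] at hyT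
        exact hyR hyT
      · apply Subgroup.eq_of_le_of_card_ge inf_le_left
        rw [hc, hc1, mul_comm]
    rw [Subgroup.mem_centralizer_iff]
    intro u hu
    have h0 : u ∈ K ⊓ Subgroup.centralizer {x} := by
      rw [hT]; exact hu
    have := (Subgroup.mem_inf.1 h0).2
    rw [Subgroup.mem_centralizer_iff] at this
    exact (this x rfl).symm
  obtain ⟨q, hq1, hq⟩ := h.exists_semi y
  set w := a ^ p ^ (m - 1) with hw
  have hphi : ∀ u : Subgroup.centralizer (R : Set G),
      (u : G) * y * (u : G)⁻¹ * y⁻¹ ∈ Subgroup.zpowers w := by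
    intro u
    have h1 : (u : G) * y * (u : G)⁻¹ * y⁻¹ ∈ commutator G := by
      have := Subgroup.commutator_mem_commutator (Subgroup.mem_top (u : G)) (Subgroup.mem_top y)
      rwa [commutatorElement_def] at this
    obtain ⟨f, hf⟩ := h.mem_zpowers_a_of_comm h1
    have h2 : (u : G) * y * (u : G)⁻¹ = a ^ f * y := by
      rw [← hf]; group
    have h3 : ((u : G) * y * (u : G)⁻¹) ^ p = y ^ p := by
      rw [conj_pow]
      have h4 := Subgroup.mem_centralizer_iff.1 u.2 (y ^ p) hyp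
      rw [← h4, mul_inv_cancel_right]
    rw [h2, hq.pow_formula] at h3
    have h5 : a ^ (f * SS q p) = 1 := mul_right_cancel (h3.trans (one_mul _).symm)
    rw [h.pow_eq_one_iff] at h5
    have h6 : p ^ (m - 1) ∣ f := by
      rcases Nat.eq_zero_or_pos m with rfl | hm
      · simp
      · have h7 : p ^ ((m - 1) + 1) ∣ f * SS q (p ^ 1) := by
          rw [Nat.sub_add_cancel hm, pow_one]; exact h5
        exact (dvd_mul_SS_iff hp2 hq1).1 h7
    obtain ⟨c, rfl⟩ := h6
    rw [hf, hw, pow_mul]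
    exact pow_mem (Subgroup.mem_zpowers _) c
  have hwcard : Nat.card (Subgroup.zpowers w) ≤ p := by
    rw [Nat.card_zpowers]
    apply orderOf_le_of_pow_eq_one hp.out.pos
    rw [hw, ← pow_mul, h.pow_eq_one_iff]
    rcases Nat.eq_zero_or_pos m with rfl | hm
    · simp
    · rw [← pow_succ, Nat.sub_add_cancel hm]
  have hDle : Subgroup.centralizer (K : Set G) ≤ Subgroup.centralizer (R : Set G) :=
    Subgroup.centralizer_le hle
  have hcardD : Nat.card ((Subgroup.centralizer (K : Set G)).subgroupOf (Subgroup.centralizer (R : Set G))) =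
      Nat.card (Subgroup.centralizer (K : Set G)) :=
    Nat.card_congr (Subgroup.subgroupOfEquivOfLe hDle).toEquiv
  have hmain := card_le_mul_of_fiber
    ((Subgroup.centralizer (K : Set G)).subgroupOf (Subgroup.centralizer (R : Set G)))
    (fun u : Subgroup.centralizer (R : Set G) => (⟨_, hphi u⟩ : Subgroup.zpowers w)) (by
      intro u v huv
      have h1 := congrArg Subtype.val huv
      simp only at h1
      have h2 : (u : G) * y * (u : G)⁻¹ = (v : G) * y * (v : G)⁻¹ := mul_right_cancel h1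
      rw [Subgroup.mem_subgroupOf]
      apply hK'
      · exact (u⁻¹ * v).2
      · push_cast
        have h3 : (u : G)⁻¹ * ((u : G) * y * (u : G)⁻¹) * (v : G) = (u : G)⁻¹ * ((v : G) * y * (v : G)⁻¹) * (v : G) := by
          rw [h2]
        calc (u : G)⁻¹ * (v : G) * y = (u : G)⁻¹ * ((v : G) * y * (v : G)⁻¹) * (v : G) := by group
          _ = (u : G)⁻¹ * ((u : G) * y * (u : G)⁻¹) * (v : G) := h3.symm
          _ = y * ((u : G)⁻¹ * (v : G)) := by group)
  rw [hcardD] at hmain
  calc _ ≤ _ := hmain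
    _ ≤ Nat.card (Subgroup.centralizer (K : Set G)) * p := Nat.mul_le_mul_left _ hwcard
    _ = _ := mul_comm _ _

theorem f_mono (h : MC p a b k m) (hp2 : p ≠ 2) (hG : IsPGroup p G) {R K : Subgroup G} (hle : R ≤ K) :
    Nat.card R * Nat.card (Subgroup.centralizer (R : Set G)) ≤
      Nat.card K * Nat.card (Subgroup.centralizer (K : Set G)) := by
  induction' hn : Nat.card K - Nat.card R using Nat.strong_induction_on with d ih generalizing R
  rcases eq_or_ne R K with rfl | hne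
  · exact le_rfl
  · obtain ⟨R₁, h1, h2, h3⟩ := exists_between_card hG hle hne
    have h4 := h.card_cent_le hp2 hG h1 h3
    have hlt : Nat.card K - Nat.card R₁ < d := by
      have h5 := Subgroup.card_le_of_le h2
      have h6 : Nat.card R < Nat.card R₁ := by
        rw [h3]
        have hRpos : 0 < Nat.card R := Nat.card_pos
        have := hp.out.one_lt
        nlinarith
      omega
    have h7 := ih _ hlt h2 rfl
    refine le_trans ?_ h7
    rw [h3, mul_comm p, mul_assoc]
    exact Nat.mul_le_mul_left _ h4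

theorem centralizer_center_eq : Subgroup.centralizer (Subgroup.center G : Set G) = ⊤ := by
  rw [eq_top_iff]
  intro g _
  rw [Subgroup.mem_centralizer_iff]
  intro z hz
  exact (Subgroup.mem_center_iff.1 hz g).symm

theorem f_le (h : MC p a b k m) (hp2 : p ≠ 2) (hG : IsPGroup p G) (R : Subgroup G) :
    Nat.card R * Nat.card (Subgroup.centralizer (R : Set G)) ≤
      Nat.card G * Nat.card (Subgroup.center G) := by
  have := h.f_mono hp2 hG (le_top : R ≤ ⊤)
  simpa [Subgroup.centralizer_univ] using this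

theorem f_eq (h : MC p a b k m) (hp2 : p ≠ 2) (hG : IsPGroup p G) {R : Subgroup G}
    (hR : Subgroup.center G ≤ R) :
    Nat.card R * Nat.card (Subgroup.centralizer (R : Set G)) =
      Nat.card G * Nat.card (Subgroup.center G) := by
  apply le_antisymm (h.f_le hp2 hG R)
  have := h.f_mono hp2 hG hR
  rw [centralizer_center_eq] at this
  simpa [mul_comm] using this

theorem f_lt (h : MC p a b k m) (hp2 : p ≠ 2) (hG : IsPGroup p G) {R : Subgroup G}
    (hR : ¬ Subgroup.center G ≤ R) :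
    Nat.card R * Nat.card (Subgroup.centralizer (R : Set G)) <
      Nat.card G * Nat.card (Subgroup.center G) := by
  have h1 := h.f_le hp2 hG (R ⊔ Subgroup.center G)
  have h2 : Subgroup.centralizer ((R ⊔ Subgroup.center G : Subgroup G) : Set G) =
      Subgroup.centralizer (R : Set G) := by
    apply le_antisymm (Subgroup.centralizer_le (show (R : Set G) ⊆ ((R ⊔ Subgroup.center G : Subgroup G) : Set G) from SetLike.coe_subset_coe.2 le_sup_left))
    intro u hu
    rw [Subgroup.mem_centralizer_iff] at hu ⊢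
    intro x hx
    have hcomm : (R ⊔ Subgroup.center G : Subgroup G) ≤ Subgroup.centralizer {u} := by
      rw [sup_le_iff]
      constructor
      · intro r hr
        rw [Subgroup.mem_centralizer_iff]
        rintro _ rfl
        exact (hu r hr).symm
      · intro r hr
        rw [Subgroup.mem_centralizer_iff]
        intro v _
        exact (Subgroup.mem_center_iff.1 hr v)
    have := hcomm hx
    rw [Subgroup.mem_centralizer_iff] at this
    exact (this u rfl).symm
  rw [h2] at h1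
  refine lt_of_lt_of_le ?_ h1
  apply Nat.mul_lt_mul_of_pos_right
  · refine lt_of_le_of_ne (Subgroup.card_le_of_le le_sup_left) ?_
    intro he
    apply hR
    rw [Subgroup.eq_of_le_of_card_ge (le_sup_left : R ≤ R ⊔ Subgroup.center G) he.ge]
    exact le_sup_right
  · exact Nat.card_pos

theorem max_f (h : MC p a b k m) (hp2 : p ≠ 2) (hG : IsPGroup p G) :
    Cfsg.maxCentralizerProduct G = Nat.card G * Nat.card (Subgroup.center G) := by
  unfold Cfsg.maxCentralizerProduct
  apply IsGreatest.csSup_eq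
  constructor
  · exact ⟨⊤, by simp [Subgroup.centralizer_univ]⟩
  · rintro _ ⟨R, rfl⟩
    exact h.f_le hp2 hG R

theorem centrally_large_iff (h : MC p a b k m) (hp2 : p ≠ 2) (hG : IsPGroup p G) (R : Subgroup G) :
    Cfsg.IsCentralizerLarge R ↔ Subgroup.center G ≤ R := by
  unfold Cfsg.IsCentralizerLarge
  rw [h.max_f hp2 hG]
  constructor
  · intro he
    by_contra hR
    exact absurd he (h.f_lt hp2 hG hR).ne
  · exact h.f_eq hp2 hG

theorem double_centralizer (h : MC p a b k m) (hp2 : p ≠ 2) (hG : IsPGroup p G) {K : Subgroup G}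
    (hK : IsMulCommutative K) (hZ : Subgroup.center G ≤ K) :
    K = Subgroup.centralizer (K : Set G) ⊓ Subgroup.centralizer (Subgroup.centralizer (K : Set G) : Set G) := by
  have hKC : K ≤ Subgroup.centralizer (K : Set G) := by
    intro x hx
    rw [Subgroup.mem_centralizer_iff]
    intro y hy
    have := hK.is_comm.comm ⟨y, hy⟩ ⟨x, hx⟩
    exact congrArg Subtype.val this
  have hKCC : K ≤ Subgroup.centralizer (Subgroup.centralizer (K : Set G) : Set G) := by
    intro x hx
    rw [Subgroup.mem_centralizer_iff]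
    intro y hy
    exact (Subgroup.mem_centralizer_iff.1 hy x hx).symm
  have hZC : Subgroup.center G ≤ Subgroup.centralizer (K : Set G) := hZ.trans hKC
  have h1 := h.f_eq hp2 hG hZ
  have h2 := h.f_eq hp2 hG hZC
  have hpos : 0 < Nat.card (Subgroup.centralizer (K : Set G)) := Nat.card_pos
  have h3 : Nat.card K = Nat.card (Subgroup.centralizer (Subgroup.centralizer (K : Set G) : Set G)) := by
    apply Nat.eq_of_mul_eq_mul_left hpos
    rw [mul_comm, h1, h2]
  have h4 : K = Subgroup.centralizer (Subgroup.centralizer (K : Set G) : Set G) :=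
    Subgroup.eq_of_le_of_card_ge hKCC h3.ge
  apply le_antisymm (le_inf hKC hKCC)
  calc _ ≤ Subgroup.centralizer (Subgroup.centralizer (K : Set G) : Set G) := inf_le_right
    _ = K := h4.symm

/-- The subgroup `⟨g⟩ Z(G)`. -/
noncomputable def RR (g : G) : Subgroup G :=
  (Subgroup.zpowers (QuotientGroup.mk g : G ⧸ Subgroup.center G)).comap (QuotientGroup.mk' (Subgroup.center G))

theorem center_le_RR (g : G) : Subgroup.center G ≤ RR g := by
  intro z hz
  rw [RR, Subgroup.mem_comap, QuotientGroup.mk'_apply, (QuotientGroup.eq_one_iff z).2 hz]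
  exact one_mem _

theorem mem_RR_self (g : G) : g ∈ RR g := Subgroup.mem_zpowers (QuotientGroup.mk g : G ⧸ Subgroup.center G)

theorem card_RR (g : G) :
    Nat.card (RR g) = Nat.card (Subgroup.center G) * orderOf (QuotientGroup.mk g : G ⧸ Subgroup.center G) := by
  rw [card_of_center_le _ (center_le_RR g)]
  congr 1
  rw [RR, Subgroup.map_comap_eq_self_of_surjective (QuotientGroup.mk'_surjective _), Nat.card_zpowers]

theorem RR_comm (g x y : G) (hx : x ∈ RR g) (hy : y ∈ RR g) : x * y = y * x := by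
  obtain ⟨e, he⟩ := Subgroup.mem_zpowers_iff.1 (show (QuotientGroup.mk x : G ⧸ Subgroup.center G) ∈ _ from hx)
  obtain ⟨f, hf⟩ := Subgroup.mem_zpowers_iff.1 (show (QuotientGroup.mk y : G ⧸ Subgroup.center G) ∈ _ from hy)
  have h1 : (g ^ e)⁻¹ * x ∈ Subgroup.center G := by
    rw [← QuotientGroup.eq, QuotientGroup.mk_zpow, he]
  have h2 : (g ^ f)⁻¹ * y ∈ Subgroup.center G := by
    rw [← QuotientGroup.eq, QuotientGroup.mk_zpow, hf]
  obtain ⟨z, hz, rfl⟩ : ∃ z ∈ Subgroup.center G, x = g ^ e * z := ⟨_, h1, by group⟩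
  obtain ⟨w, hw, rfl⟩ : ∃ w ∈ Subgroup.center G, y = g ^ f * w := ⟨_, h2, by group⟩
  have hc1 : ∀ u, z * u = u * z := fun u => (Subgroup.mem_center_iff.1 hz u).symm
  have hc2 : ∀ u, w * u = u * w := fun u => (Subgroup.mem_center_iff.1 hw u).symm
  have h3 : g ^ e * g ^ f = g ^ f * g ^ e := (Commute.refl g).zpow_zpow e f
  calc g ^ e * z * (g ^ f * w) = g ^ e * (z * g ^ f) * w := by group
    _ = g ^ e * g ^ f * (z * w) := by rw [hc1 (g ^ f)]; group
    _ = g ^ f * g ^ e * (w * z) := by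
        rw [h3]; congr 1; exact hc1 w
    _ = g ^ f * (w * g ^ e) * z := by rw [hc2 (g ^ e)]; group
    _ = g ^ f * w * (g ^ e * z) := by group

theorem centralizer_RR (g : G) :
    Subgroup.centralizer (RR g : Set G) = Subgroup.centralizer {g} := by
  apply le_antisymm
  · apply Subgroup.centralizer_le
    intro x hx
    rw [Set.mem_singleton_iff.1 hx]
    exact mem_RR_self g
  · intro u hu
    rw [Subgroup.mem_centralizer_iff] at hu ⊢
    intro x hx
    obtain ⟨e, he⟩ := Subgroup.mem_zpowers_iff.1 (show (QuotientGroup.mk x : G ⧸ Subgroup.center G) ∈ _ from hx)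
    have h1 : (g ^ e)⁻¹ * x ∈ Subgroup.center G := by
      rw [← QuotientGroup.eq, QuotientGroup.mk_zpow, he]
    obtain ⟨z, hz, rfl⟩ : ∃ z ∈ Subgroup.center G, x = g ^ e * z := ⟨_, h1, by group⟩
    have hu' : g * u = u * g := hu g rfl
    have h2 : Commute (g ^ e) u := Commute.zpow_left hu' e
    have h3 : z * u = u * z := (Subgroup.mem_center_iff.1 hz u).symm
    calc g ^ e * z * u = g ^ e * (z * u) := by group
      _ = g ^ e * u * z := by rw [h3]; group
      _ = u * g ^ e * z := by rw [h2.eq]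
      _ = u * (g ^ e * z) := by group

/-- class size is the order modulo the centre -/
theorem index_centralizer (h : MC p a b k m) (hp2 : p ≠ 2) (hG : IsPGroup p G) (g : G) :
    (Subgroup.centralizer {g}).index = orderOf (QuotientGroup.mk g : G ⧸ Subgroup.center G) := by
  have h1 := h.f_eq hp2 hG (center_le_RR g)
  rw [centralizer_RR, card_RR] at h1
  have h2 := (Subgroup.centralizer {g}).card_mul_index
  have hZ : 0 < Nat.card (Subgroup.center G) := Nat.card_pos
  have h3 : orderOf (QuotientGroup.mk g : G ⧸ Subgroup.center G) * Nat.card (Subgroup.centralizer {g}) = Nat.card G := by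
    apply Nat.eq_of_mul_eq_mul_left hZ
    rw [← mul_assoc, h1, mul_comm]
  have hC : 0 < Nat.card (Subgroup.centralizer {g}) := Nat.card_pos
  apply Nat.eq_of_mul_eq_mul_left hC
  rw [h2, mul_comm, h3]

theorem pow_mem_center_iff (g : G) (l : ℕ) :
    g ^ l ∈ Subgroup.center G ↔ orderOf (QuotientGroup.mk g : G ⧸ Subgroup.center G) ∣ l := by
  rw [orderOf_dvd_iff_pow_eq_one, ← QuotientGroup.mk_pow, QuotientGroup.eq_one_iff]

theorem exists_order_pow (hG : IsPGroup p G) (g : G) :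
    ∃ c, orderOf (QuotientGroup.mk g : G ⧸ Subgroup.center G) = p ^ c := by
  obtain ⟨e, he⟩ := hG g
  have h1 : orderOf (QuotientGroup.mk g : G ⧸ Subgroup.center G) ∣ p ^ e := by
    rw [orderOf_dvd_iff_pow_eq_one, ← QuotientGroup.mk_pow, he]
    rfl
  obtain ⟨c, -, hc⟩ := (Nat.dvd_prime_pow hp.out).1 h1
  exact ⟨c, hc⟩

/-- S3882 core -/
theorem mem_WW_iff_index (h : MC p a b k m) (hp2 : p ≠ 2) (hG : IsPGroup p G) {s : ℕ} (hs : s ≤ nn p k m) (g : G) :
    g ∈ h.WW s ↔ (Subgroup.centralizer {g}).index ≤ p ^ (nn p k m - s) := by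
  rw [h.mem_WW_iff_pow hp2 hs, pow_mem_center_iff, h.index_centralizer hp2 hG]
  obtain ⟨c, hc⟩ := exists_order_pow hG g
  rw [hc, Nat.pow_dvd_pow_iff_le_right hp.out.one_lt, Nat.pow_le_pow_iff_right hp.out.one_lt]

theorem card_class_eq (h : MC p a b k m) (hp2 : p ≠ 2) (hG : IsPGroup p G) {i : ℕ} (hi : 1 ≤ i) (hin : i ≤ nn p k m) :
    Nat.card {g : G // (Subgroup.centralizer ({g} : Set G)).index = p ^ i} =
      Nat.card (Subgroup.center G) * (p ^ (2 * i) - p ^ (2 * i - 2)) := by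
  classical
  have hle1 : nn p k m - i ≤ nn p k m := by omega
  have hle2 : nn p k m - i + 1 ≤ nn p k m := by omega
  have hset : {g : G | (Subgroup.centralizer ({g} : Set G)).index = p ^ i} =
      (h.WW (nn p k m - i) : Set G) \ (h.WW (nn p k m - i + 1) : Set G) := by
    ext g
    simp only [Set.mem_setOf_eq, Set.mem_diff, SetLike.mem_coe]
    rw [h.mem_WW_iff_index hp2 hG hle1, h.mem_WW_iff_index hp2 hG hle2]
    obtain ⟨c, hc⟩ := exists_order_pow hG g
    rw [h.index_centralizer hp2 hG, hc]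
    have e1 : nn p k m - (nn p k m - i) = i := by omega
    have e2 : nn p k m - (nn p k m - i + 1) = i - 1 := by omega
    rw [e1, e2, Nat.pow_le_pow_iff_right hp.out.one_lt, Nat.pow_le_pow_iff_right hp.out.one_lt,
      Nat.pow_right_injective hp.out.two_le |>.eq_iff]
    omega
  have h1 : Nat.card {g : G // (Subgroup.centralizer ({g} : Set G)).index = p ^ i} =
      Set.ncard ((h.WW (nn p k m - i) : Set G) \ (h.WW (nn p k m - i + 1) : Set G)) := by
    rw [← hset]
    rfl
  rw [h1, Set.ncard_diff (SetLike.coe_subset_coe.2 (h.WW_anti (Nat.le_succ _))) (Set.toFinite _)]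
  have h2 : Set.ncard (h.WW (nn p k m - i) : Set G) = Nat.card (h.WW (nn p k m - i)) := by
    exact (Nat.card_coe_set_eq (h.WW _ : Set G)).symm
  have h3 : Set.ncard (h.WW (nn p k m - i + 1) : Set G) = Nat.card (h.WW (nn p k m - i + 1)) := by
    exact (Nat.card_coe_set_eq (h.WW _ : Set G)).symm
  rw [h2, h3, h.card_WW hp2 hle1, h.card_WW hp2 hle2]
  have e1 : 2 * (nn p k m - (nn p k m - i)) = 2 * i := by omega
  have e2 : 2 * (nn p k m - (nn p k m - i + 1)) = 2 * i - 2 := by omega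
  rw [e1, e2, Nat.mul_sub]

end MC

/-! ### Subgroups -/

theorem orderOf_pow_pow {Γ : Type*} [Group Γ] {x : Γ} {c α : ℕ} (hx : orderOf x = p ^ c) (hα : α ≤ c) :
    orderOf (x ^ p ^ α) = p ^ (c - α) := by
  apply MC.orderOf_eq_of_forall
  intro e
  rw [← pow_mul, ← orderOf_dvd_iff_pow_eq_one, hx]
  have h1 : p ^ c = p ^ α * p ^ (c - α) := by
    rw [← pow_add]; congr 1; omega
  rw [h1]
  exact Nat.mul_dvd_mul_iff_left (pow_pos hp.out.pos _)

theorem sub_cyclic {Γ : Type*} [Group Γ] [Finite Γ] {x : Γ} {c : ℕ} (hx : orderOf x = p ^ c)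
    (A : Subgroup Γ) (hA : A ≤ Subgroup.zpowers x) :
    ∃ α ≤ c, A = Subgroup.zpowers (x ^ p ^ α) := by
  have h1 : Nat.card A ∣ p ^ c := by
    rw [← hx, ← Nat.card_zpowers]
    exact Subgroup.card_dvd_of_le hA
  obtain ⟨d, hd, hcard⟩ := (Nat.dvd_prime_pow hp.out).1 h1
  refine ⟨c - d, Nat.sub_le _ _, ?_⟩
  have hc' : c - d + d = c := by omega
  have hord : orderOf (x ^ p ^ (c - d)) = p ^ d := by
    rw [orderOf_pow_pow hx (Nat.sub_le _ _)]
    congr 1; omega
  have hle : A ≤ Subgroup.zpowers (x ^ p ^ (c - d)) := by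
    intro v hv
    have hv1 := hA hv
    rw [← mem_powers_iff_mem_zpowers] at hv1
    obtain ⟨i, hi⟩ := hv1
    have hi' : x ^ i = v := hi
    subst hi'
    have h2 : (x ^ i) ^ p ^ d = 1 := by
      have h3 : ((⟨x ^ i, hv⟩ : A)) ^ Nat.card A = 1 := pow_card_eq_one'
      rw [hcard] at h3
      simpa using congrArg Subtype.val h3
    rw [← pow_mul, ← orderOf_dvd_iff_pow_eq_one, hx] at h2
    conv at h2 => lhs; rw [← hc']
    have h4 : p ^ (c - d) ∣ i := dvd_mul_pow_iff.1 h2
    obtain ⟨r, rfl⟩ := h4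
    rw [pow_mul]
    exact pow_mem (Subgroup.mem_zpowers _) r
  apply Subgroup.eq_of_le_of_card_ge hle
  rw [Nat.card_zpowers, hord, hcard]

theorem card_eq_inf_mul_map (L N : Subgroup G) [N.Normal] [Finite G] :
    Nat.card L = Nat.card (L ⊓ N : Subgroup G) * Nat.card (L.map (QuotientGroup.mk' N)) := by
  let f : L →* G ⧸ N := (QuotientGroup.mk' N).comp L.subtype
  have h1 := f.ker.card_mul_index
  rw [Subgroup.index_ker] at h1
  have h2 : f.range = L.map (QuotientGroup.mk' N) := by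
    rw [MonoidHom.range_comp, Subgroup.range_subtype]
  rw [h2] at h1
  have h3 : Nat.card f.ker = Nat.card (L ⊓ N : Subgroup G) := by
    have h4 : f.ker.map L.subtype = L ⊓ N := by
      ext x
      simp only [Subgroup.mem_map, MonoidHom.mem_ker, Subgroup.subtype_apply, Subgroup.mem_inf]
      constructor
      · rintro ⟨⟨y, hy⟩, hy2, rfl⟩
        refine ⟨hy, ?_⟩
        simpa [f, QuotientGroup.eq_one_iff] using hy2
      · rintro ⟨h5, h6⟩
        exact ⟨⟨x, h5⟩, by simpa [f, QuotientGroup.eq_one_iff] using h6, rfl⟩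
    rw [← h4, Subgroup.card_map_of_injective L.subtype_injective]
  rw [h3] at h1
  exact h1.symm

theorem nn_sub (hp2 : p ≠ 2) {k m : ℕ} (hk : 1 < k) (hq : k ≡ 1 [MOD p]) (α β : ℕ) :
    nn p (k ^ p ^ β) (m - α) = nn p k m - (α + β) := by
  have hodd : Odd p := hp.out.odd_of_ne_two hp2
  have h2 := padicValNat.pow_sub_pow (p := p) (x := k) (y := 1) hodd hk
      (dvd_sub_one_of_modEq hq) (not_dvd_of_modEq_one hq) (n := p ^ β) (pow_pos hp.out.pos _).ne'
  rw [one_pow, padicValNat.prime_pow] at h2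
  unfold nn
  rw [h2]
  omega

namespace MC

variable [Finite G]

theorem zpowers_normal (h : MC p a b k m) : (Subgroup.zpowers a).Normal := by
  refine ⟨fun x hx g => ?_⟩
  obtain ⟨e, rfl⟩ := Subgroup.mem_zpowers_iff.1 hx
  rw [← conj_zpow]
  refine zpow_mem ?_ e
  obtain ⟨q, -, hq⟩ := h.exists_semi g
  have h1 : g * a * g⁻¹ = a ^ q := by
    rw [hq, mul_inv_cancel_right]
  rw [h1]
  exact pow_mem (Subgroup.mem_zpowers _) q

/-- Structure of subgroups. -/
theorem exists_sub (h : MC p a b k m) (hG : IsPGroup p G) (L : Subgroup G) :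
    ∃ (α β x : ℕ) (ha₁ : a ^ p ^ α ∈ L) (hy : a ^ x * b ^ p ^ β ∈ L),
      MC p (⟨a ^ p ^ α, ha₁⟩ : L) ⟨a ^ x * b ^ p ^ β, hy⟩ (k ^ p ^ β) (m - α) ∧
        L.index = p ^ (α + β) := by
  haveI := h.zpowers_normal
  set N := Subgroup.zpowers a with hN
  obtain ⟨α, hα, hA⟩ := sub_cyclic h.ord (L ⊓ N) inf_le_right
  -- the quotient
  have hgenb : ∀ g : G ⧸ N, g ∈ Subgroup.zpowers (QuotientGroup.mk b : G ⧸ N) := by
    intro g
    obtain ⟨g, rfl⟩ := QuotientGroup.mk_surjective g
    obtain ⟨i, j, rfl⟩ := h.gen g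
    have h1 : ((a ^ i : G) : G ⧸ N) = 1 :=
      (QuotientGroup.eq_one_iff _).2 (pow_mem (Subgroup.mem_zpowers a) i)
    rw [QuotientGroup.mk_mul, h1, one_mul, QuotientGroup.mk_pow]
    exact pow_mem (Subgroup.mem_zpowers _) j
  obtain ⟨c, hc⟩ : ∃ c, orderOf (QuotientGroup.mk b : G ⧸ N) = p ^ c := by
    obtain ⟨e, he⟩ := hG b
    have h1 : orderOf (QuotientGroup.mk b : G ⧸ N) ∣ p ^ e := by
      rw [orderOf_dvd_iff_pow_eq_one, ← QuotientGroup.mk_pow, he]
      rfl
    obtain ⟨c, -, hc⟩ := (Nat.dvd_prime_pow hp.out).1 h1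
    exact ⟨c, hc⟩
  obtain ⟨β, hβ, hB⟩ := sub_cyclic hc (L.map (QuotientGroup.mk' N)) (fun g _ => hgenb g)
  have ha₁ : a ^ p ^ α ∈ L := by
    have : a ^ p ^ α ∈ L ⊓ N := by
      rw [hA]; exact Subgroup.mem_zpowers _
    exact this.1
  -- the element `y`
  have hb1 : (QuotientGroup.mk b : G ⧸ N) ^ p ^ β ∈ L.map (QuotientGroup.mk' N) := by
    rw [hB]; exact Subgroup.mem_zpowers _
  obtain ⟨y, hyL, hy⟩ := hb1
  replace hyL := SetLike.mem_coe.1 hyL
  have hyN : y * (b ^ p ^ β)⁻¹ ∈ N := by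
    rw [← QuotientGroup.eq_one_iff, QuotientGroup.mk_mul, QuotientGroup.mk_inv, QuotientGroup.mk_pow]
    have : (QuotientGroup.mk y : G ⧸ N) = _ := hy
    rw [this, mul_inv_cancel]
  have hyN' := hyN
  rw [hN, ← mem_powers_iff_mem_zpowers] at hyN'
  obtain ⟨x, hx⟩ := hyN'
  have hyx : y = a ^ x * b ^ p ^ β := by
    have : a ^ x = y * (b ^ p ^ β)⁻¹ := hx
    rw [this]; group
  subst hyx
  refine ⟨α, β, x, ha₁, hyL, ⟨?_, ?_, ?_, ?_, ?_⟩, ?_⟩
  · -- order
    rw [Subgroup.orderOf_mk]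
    exact orderOf_pow_pow h.ord hα
  · -- conj
    apply Subtype.ext
    have h1 : Semi (a ^ x * b ^ p ^ β) a (k ^ p ^ β) := h.semi_coord x _
    have h2 := h1.mul_pow (p ^ α)
    simp only [Subgroup.coe_mul, SubmonoidClass.coe_pow, MulMemClass.coe_mul]
    rw [h2, pow_mul]
  · exact Nat.one_lt_pow (pow_pos hp.out.pos _).ne' h.one_lt
  · exact modEq_one_pow h.modEq _
  · -- generation
    rintro ⟨g, hg⟩
    have h1 : (QuotientGroup.mk g : G ⧸ N) ∈ L.map (QuotientGroup.mk' N) := ⟨g, hg, rfl⟩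
    rw [hB] at h1
    have h1' : (QuotientGroup.mk g : G ⧸ N) ∈ Subgroup.zpowers ((QuotientGroup.mk b : G ⧸ N) ^ p ^ β) := h1
    rw [← mem_powers_iff_mem_zpowers] at h1'
    obtain ⟨j, hj⟩ := h1'
    have h2 : (QuotientGroup.mk (a ^ x * b ^ p ^ β) : G ⧸ N) = (QuotientGroup.mk b : G ⧸ N) ^ p ^ β := hy
    have h3 : g * ((a ^ x * b ^ p ^ β) ^ j)⁻¹ ∈ L ⊓ N := by
      refine Subgroup.mem_inf.2 ⟨mul_mem hg (inv_mem (pow_mem hyL j)), ?_⟩
      rw [← QuotientGroup.eq_one_iff, QuotientGroup.mk_mul, QuotientGroup.mk_inv, QuotientGroup.mk_pow, h2]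
      have : (QuotientGroup.mk g : G ⧸ N) = _ := hj.symm
      rw [this, mul_inv_cancel]
    rw [hA, ← mem_powers_iff_mem_zpowers] at h3
    obtain ⟨i, hi⟩ := h3
    refine ⟨i, j, ?_⟩
    apply Subtype.ext
    simp only [Subgroup.coe_mul, SubmonoidClass.coe_pow, MulMemClass.coe_mul]
    have : (a ^ p ^ α) ^ i = g * ((a ^ x * b ^ p ^ β) ^ j)⁻¹ := hi
    rw [this]
    group
  · -- index
    have h1 := card_eq_inf_mul_map L N
    rw [hA, Nat.card_zpowers, hB, Nat.card_zpowers, orderOf_pow_pow h.ord hα, orderOf_pow_pow hc hβ] at h1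
    have h2 := card_eq_inf_mul_map (⊤ : Subgroup G) N
    have hzt : Subgroup.zpowers (QuotientGroup.mk b : G ⧸ N) = ⊤ := by
      rw [eq_top_iff]
      intro g _
      exact hgenb g
    have hmap : (⊤ : Subgroup G).map (QuotientGroup.mk' N) = Subgroup.zpowers (QuotientGroup.mk b : G ⧸ N) := by
      rw [hzt]
      exact Subgroup.map_top_of_surjective _ (QuotientGroup.mk'_surjective N)
    have hNcard : Nat.card N = p ^ m := by rw [hN, Nat.card_zpowers, h.ord]
    rw [top_inf_eq, hmap, hNcard, Nat.card_zpowers, hc, Subgroup.card_top] at h2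
    have h3 := L.card_mul_index
    rw [h1, h2] at h3
    have hpos : 0 < p ^ (m - α) * p ^ (c - β) := Nat.mul_pos (pow_pos hp.out.pos _) (pow_pos hp.out.pos _)
    apply Nat.eq_of_mul_eq_mul_left hpos
    rw [h3, ← pow_add, ← pow_add, ← pow_add]
    congr 1
    omega

theorem isMulCommutative_of_card_commutator {Γ : Type*} [Group Γ] [Finite Γ] :
    IsMulCommutative Γ ↔ Nat.card (commutator Γ) = 1 := by
  constructor
  · intro hc
    rw [← Subgroup.eq_bot_iff_card]
    rw [eq_bot_iff, commutator_def, Subgroup.commutator_le]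
    intro x _ y _
    rw [Subgroup.mem_bot, commutatorElement_def, hc.is_comm.comm x y]
    group
  · intro hc
    rw [← Subgroup.eq_bot_iff_card] at hc
    refine ⟨⟨fun x y => ?_⟩⟩
    have h1 := Subgroup.commutator_mem_commutator (Subgroup.mem_top x) (Subgroup.mem_top y)
    rw [← commutator_def, hc, Subgroup.mem_bot, commutatorElement_def] at h1
    have h2 : x * y * x⁻¹ * y⁻¹ * (y * x) = x * y := by group
    rw [h1, one_mul] at h2
    exact h2.symm

theorem le_iff_of_mul_eq {A B C D : ℕ} (h : A * B = C * D) (hB : 0 < B) (hD : 0 < D) :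
    A ≤ D ↔ C ≤ B := by
  constructor
  · intro h1
    have h2 : C * D ≤ B * D := by
      rw [← h, mul_comm B]; exact Nat.mul_le_mul_right _ h1
    exact Nat.le_of_mul_le_mul_right h2 hD
  · intro h1
    have h2 : A * B ≤ D * B := by
      rw [h, mul_comm D]; exact Nat.mul_le_mul_right _ h1
    exact Nat.le_of_mul_le_mul_right h2 hB

theorem card_mul_index_comm (h : MC p a b k m) :
    p ^ nn p k m * (commutator G).index = Nat.card G := by
  rw [← h.card_commutator]
  exact (commutator G).card_mul_index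

/-- commutativity criterion in terms of the index exponent. -/
theorem abelian_iff_exp (h : MC p a b k m) (hp2 : p ≠ 2) (hG : IsPGroup p G) (L : Subgroup G) :
    ∃ (α β x : ℕ) (ha₁ : a ^ p ^ α ∈ L) (hy : a ^ x * b ^ p ^ β ∈ L),
      MC p (⟨a ^ p ^ α, ha₁⟩ : L) ⟨a ^ x * b ^ p ^ β, hy⟩ (k ^ p ^ β) (m - α) ∧
        L.index = p ^ (α + β) ∧ (IsMulCommutative L ↔ nn p k m ≤ α + β) := by
  obtain ⟨α, β, x, ha₁, hy, hL, hidx⟩ := h.exists_sub hG L
  refine ⟨α, β, x, ha₁, hy, hL, hidx, ?_⟩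
  rw [isMulCommutative_of_card_commutator, hL.card_commutator, nn_sub hp2 h.one_lt h.modEq]
  constructor
  · intro h1
    have h2 : nn p k m - (α + β) = 0 := by
      by_contra h3
      have := Nat.one_lt_pow h3 hp.out.one_lt
      omega
    omega
  · intro h1
    have h2 : nn p k m - (α + β) = 0 := by omega
    rw [h2, pow_zero]

theorem abelian_iff (h : MC p a b k m) (hp2 : p ≠ 2) (hG : IsPGroup p G) (L : Subgroup G) :
    IsMulCommutative L ↔ Nat.card L ≤ (commutator G).index := by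
  obtain ⟨α, β, x, ha₁, hy, hL, hidx, hab⟩ := h.abelian_iff_exp hp2 hG L
  rw [hab]
  have h1 : Nat.card L * L.index = p ^ nn p k m * (commutator G).index := by
    rw [L.card_mul_index, h.card_mul_index_comm]
  rw [le_iff_of_mul_eq h1 (Nat.pos_of_ne_zero Subgroup.index_ne_zero_of_finite)
    (Nat.pos_of_ne_zero Subgroup.index_ne_zero_of_finite), hidx,
    Nat.pow_le_pow_iff_right hp.out.one_lt]

theorem maximal_iff (h : MC p a b k m) (hp2 : p ≠ 2) (hG : IsPGroup p G) (L : Subgroup G) :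
    Maximal (fun K : Subgroup G => IsMulCommutative K) L ↔ Nat.card L = (commutator G).index := by
  constructor
  · intro hm
    have h1 := (h.abelian_iff hp2 hG L).1 hm.prop
    refine le_antisymm h1 ?_
    by_contra hlt
    push Not at hlt
    have hne : L ≠ ⊤ := by
      rintro rfl
      have h2 := h.card_mul_index_comm
      rw [Subgroup.card_top] at hlt
      have h3 : (commutator G).index ≤ Nat.card G := by
        rw [← h2]
        exact Nat.le_mul_of_pos_left _ (pow_pos hp.out.pos _)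
      omega
    obtain ⟨R₁, h2, -, h3⟩ := exists_between_card hG le_top hne
    have h4 : Nat.card R₁ ≤ (commutator G).index := by
      rw [h3]
      -- both `p`-powers
      obtain ⟨e, he⟩ := IsPGroup.iff_card.1 (hG.to_subgroup L)
      have h5 : (commutator G).index ∣ Nat.card G := Subgroup.index_dvd_card _
      obtain ⟨N, hN⟩ := IsPGroup.iff_card.1 hG
      rw [hN] at h5
      obtain ⟨f, -, hf⟩ := (Nat.dvd_prime_pow hp.out).1 h5
      rw [hf, he] at hlt ⊢
      have h6 : e < f := (Nat.pow_lt_pow_iff_right hp.out.one_lt).1 hlt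
      rw [← pow_succ']
      exact Nat.pow_le_pow_right hp.out.pos h6
    have h5 := (h.abelian_iff hp2 hG R₁).2 h4
    have h6 : R₁ ≤ L := hm.le_of_ge h5 h2
    have h7 := Subgroup.card_le_of_le h6
    rw [h3] at h7
    have hpos : 0 < Nat.card L := Nat.card_pos
    have := hp.out.one_lt
    nlinarith
  · intro he
    have h1 : IsMulCommutative L := (h.abelian_iff hp2 hG L).2 he.le
    refine ⟨h1, ?_⟩
    intro K hK hLK
    have h2 := (h.abelian_iff hp2 hG K).1 hK
    have h3 : L = K := Subgroup.eq_of_le_of_card_ge hLK (by rw [he]; exact h2)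
    exact h3 ▸ le_rfl

theorem center_card_of_abelian {Γ : Type*} [Group Γ] [Finite Γ] (hc : IsMulCommutative Γ) :
    Nat.card (Subgroup.center Γ) = Nat.card Γ := by
  have h1 : Subgroup.center Γ = ⊤ := by
    rw [eq_top_iff]
    intro x _
    rw [Subgroup.mem_center_iff]
    intro y
    exact hc.is_comm.comm y x
  rw [h1, Subgroup.card_top]

theorem cp_of_nonabelian (h : MC p a b k m) (hp2 : p ≠ 2) (hG : IsPGroup p G) (R : Subgroup G)
    (hR : ¬ IsMulCommutative R) :
    Nat.card R * Nat.card (Subgroup.center R) = (commutator G).index ^ 2 := by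
  obtain ⟨α, β, x, ha₁, hy, hL, hidx, hab⟩ := h.abelian_iff_exp hp2 hG R
  have hlt : α + β < nn p k m := by
    by_contra hh
    exact hR (hab.2 (by omega))
  have h1 := hL.card_eq hp2
  rw [nn_sub hp2 h.one_lt h.modEq] at h1
  obtain ⟨e, he⟩ : ∃ e, nn p k m = (α + β) + e := Nat.exists_eq_add_of_le hlt.le
  have he' : nn p k m - (α + β) = e := by omega
  rw [he'] at h1
  have h2 : Nat.card R * R.index = p ^ nn p k m * (commutator G).index := by
    rw [R.card_mul_index, h.card_mul_index_comm]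
  rw [hidx, he, pow_add p (α + β) e] at h2
  have h3 : Nat.card R = p ^ e * (commutator G).index := by
    have hpos : 0 < p ^ (α + β) := pow_pos hp.out.pos _
    apply Nat.eq_of_mul_eq_mul_right hpos
    rw [h2]; ring
  have h4 : (commutator G).index = Nat.card (Subgroup.center R) * p ^ e := by
    rw [h3, two_mul, pow_add, ← mul_assoc] at h1
    exact (Nat.eq_of_mul_eq_mul_left (pow_pos hp.out.pos e) (by rw [h1]; ring))
  rw [h3, pow_two]
  nth_rewrite 2 [h4]
  ring

theorem cp_of_abelian (R : Subgroup G) (hR : IsMulCommutative R) :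
    Nat.card R * Nat.card (Subgroup.center R) = Nat.card R ^ 2 := by
  rw [center_card_of_abelian hR, pow_two]

theorem max_cp (h : MC p a b k m) (hp2 : p ≠ 2) (hG : IsPGroup p G) :
    Cfsg.maxCentralProduct G = (commutator G).index ^ 2 := by
  unfold Cfsg.maxCentralProduct
  apply IsGreatest.csSup_eq
  constructor
  · refine ⟨⊤, ?_⟩
    by_cases hc : IsMulCommutative (⊤ : Subgroup G)
    · rw [cp_of_abelian _ hc, (h.maximal_iff hp2 hG ⊤).1 ?_]
      refine ⟨hc, fun K _ _ => le_top⟩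
    · exact h.cp_of_nonabelian hp2 hG _ hc
  · rintro _ ⟨R, rfl⟩
    by_cases hc : IsMulCommutative R
    · rw [cp_of_abelian _ hc]
      exact Nat.pow_le_pow_left ((h.abelian_iff hp2 hG R).1 hc) 2
    · exact (h.cp_of_nonabelian hp2 hG _ hc).le

theorem centrally_large_iff' (h : MC p a b k m) (hp2 : p ≠ 2) (hG : IsPGroup p G) (R : Subgroup G) :
    Cfsg.IsCentrallyLarge R ↔
      (¬ IsMulCommutative R ∨ Maximal (fun K : Subgroup G => IsMulCommutative K) R) := by
  unfold Cfsg.IsCentrallyLarge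
  rw [h.max_cp hp2 hG]
  constructor
  · intro he
    by_cases hc : IsMulCommutative R
    · right
      rw [cp_of_abelian _ hc] at he
      rw [h.maximal_iff hp2 hG]
      exact Nat.pow_left_injective (n := 2) (by omega) he
    · exact Or.inl hc
  · rintro (hc | hm)
    · exact h.cp_of_nonabelian hp2 hG _ hc
    · rw [cp_of_abelian _ hm.prop, (h.maximal_iff hp2 hG R).1 hm]

theorem nn_pos_of_nonabelian (h : MC p a b k m) (hna : ¬ IsMulCommutative G) : 1 ≤ nn p k m := by
  by_contra hh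
  apply hna
  rw [isMulCommutative_of_card_commutator, h.card_commutator]
  have : nn p k m = 0 := by omega
  rw [this, pow_zero]

theorem frattini_eq (h : MC p a b k m) (hp2 : p ≠ 2) (hG : IsPGroup p G) : frattini G = h.WW 1 := by
  apply le_antisymm
  · apply Cfsg.Agent.Lib.PGrp.frattini_le_of hG
    · rw [h.commutator_eq, Subgroup.zpowers_le]
      obtain ⟨c, hc⟩ := dvd_sub_one_of_modEq h.modEq
      refine ⟨c, 0, ?_⟩
      rw [hc]; simp
    · intro x
      rw [← h.WW_eq_closure hp2]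
      exact Subgroup.subset_closure ⟨x, by simp⟩
  · rw [← h.WW_eq_closure hp2, Subgroup.closure_le]
    rintro _ ⟨y, rfl⟩
    rw [pow_one]
    exact Cfsg.Agent.Lib.PGrp.pow_mem_frattini hG y

theorem frattini_iff (h : MC p a b k m) (hp2 : p ≠ 2) (hG : IsPGroup p G) (hna : ¬ IsMulCommutative G) (g : G) :
    g ∉ frattini G ↔ IsMulCommutative (Subgroup.centralizer ({g} : Set G)) := by
  have hn := h.nn_pos_of_nonabelian hna
  rw [h.frattini_eq hp2 hG, h.abelian_iff hp2 hG, h.mem_WW_iff_index hp2 hG hn]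
  have h1 : Nat.card (Subgroup.centralizer ({g} : Set G)) * (Subgroup.centralizer ({g} : Set G)).index =
      p ^ nn p k m * (commutator G).index := by
    rw [Subgroup.card_mul_index, h.card_mul_index_comm]
  rw [le_iff_of_mul_eq h1 (Nat.pos_of_ne_zero Subgroup.index_ne_zero_of_finite)
    (Nat.pos_of_ne_zero Subgroup.index_ne_zero_of_finite)]
  obtain ⟨c, hc⟩ := exists_order_pow hG g
  rw [h.index_centralizer hp2 hG, hc, Nat.pow_le_pow_iff_right hp.out.one_lt,
    Nat.pow_le_pow_iff_right hp.out.one_lt]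
  omega

end MC

theorem exists_solve {u M : ℕ} (hcop : Nat.Coprime u M) (hM : 0 < M) (c' : ℕ) : ∃ x, M ∣ x * u + c' := by
  rcases Nat.lt_or_ge 1 M with h1 | h1
  · obtain ⟨v, -, hv⟩ := Nat.exists_mul_mod_eq_one_of_coprime hcop h1
    obtain ⟨N, rfl⟩ : ∃ N, M = N + 1 := ⟨M - 1, by omega⟩
    refine ⟨v * (N * c'), ?_⟩
    have h2 := Nat.div_add_mod (u * v) (N + 1)
    rw [hv] at h2
    refine ⟨(u * v / (N + 1)) * (N * c') + c', ?_⟩
    have h3 : v * (N * c') * u = (u * v) * (N * c') := by ring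
    rw [h3]
    conv_lhs => rw [← h2]
    ring
  · have : M = 1 := by omega
    subst this
    exact ⟨0, one_dvd _⟩

theorem exists_SS_split (hp2 : p ≠ 2) {q : ℕ} (hq : q ≡ 1 [MOD p]) (v : ℕ) :
    ∃ S'', SS q (p ^ v) = p ^ v * S'' ∧ Nat.Coprime S'' p := by
  obtain ⟨S'', hS⟩ := (dvd_SS_iff hp2 hq (l := p ^ v) (e := v)).2 dvd_rfl
  refine ⟨S'', hS, ?_⟩
  rw [Nat.coprime_comm, Nat.Prime.coprime_iff_not_dvd hp.out]
  intro hd
  obtain ⟨r, rfl⟩ := hd
  have h1 : p ^ (v + 1) ∣ SS q (p ^ v) := by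
    rw [hS]
    exact ⟨r, by rw [pow_succ]; ring⟩
  rw [dvd_SS_iff hp2 hq] at h1
  have := (Nat.pow_dvd_pow_iff_le_right hp.out.one_lt).1 h1
  omega

namespace MC

variable [Finite G]

theorem factorization (h : MC p a b k m) (hp2 : p ≠ 2) (hG : IsPGroup p G) :
    ∃ A B : Subgroup G, IsCyclic A ∧ IsCyclic B ∧ A ⊓ B = ⊥ ∧ Nat.card A * Nat.card B = Nat.card G := by
  classical
  haveI := h.zpowers_normal
  set N := Subgroup.zpowers a with hN
  have hgenb : ∀ g : G ⧸ N, g ∈ Subgroup.zpowers (QuotientGroup.mk b : G ⧸ N) := by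
    intro g
    obtain ⟨g, rfl⟩ := QuotientGroup.mk_surjective g
    obtain ⟨i, j, rfl⟩ := h.gen g
    have h1 : ((a ^ i : G) : G ⧸ N) = 1 :=
      (QuotientGroup.eq_one_iff _).2 (pow_mem (Subgroup.mem_zpowers a) i)
    rw [QuotientGroup.mk_mul, h1, one_mul, QuotientGroup.mk_pow]
    exact pow_mem (Subgroup.mem_zpowers _) j
  obtain ⟨s, hs⟩ : ∃ s, orderOf (QuotientGroup.mk b : G ⧸ N) = p ^ s := by
    obtain ⟨e, he⟩ := hG b
    have h1 : orderOf (QuotientGroup.mk b : G ⧸ N) ∣ p ^ e := by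
      rw [orderOf_dvd_iff_pow_eq_one, ← QuotientGroup.mk_pow, he]
      rfl
    obtain ⟨c, -, hc⟩ := (Nat.dvd_prime_pow hp.out).1 h1
    exact ⟨c, hc⟩
  have hcardG : Nat.card G = p ^ m * p ^ s := by
    have h2 := card_eq_inf_mul_map (⊤ : Subgroup G) N
    have hzt : Subgroup.zpowers (QuotientGroup.mk b : G ⧸ N) = ⊤ := by
      rw [eq_top_iff]
      intro g _
      exact hgenb g
    have hmap : (⊤ : Subgroup G).map (QuotientGroup.mk' N) = Subgroup.zpowers (QuotientGroup.mk b : G ⧸ N) := by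
      rw [hzt]
      exact Subgroup.map_top_of_surjective _ (QuotientGroup.mk'_surjective N)
    have hNcard : Nat.card N = p ^ m := by rw [hN, Nat.card_zpowers, h.ord]
    rwa [top_inf_eq, hmap, hNcard, Nat.card_zpowers, hs, Subgroup.card_top] at h2
  have hbN : ∀ l : ℕ, b ^ l ∈ N ↔ p ^ s ∣ l := by
    intro l
    rw [← hs, orderOf_dvd_iff_pow_eq_one, ← QuotientGroup.mk_pow, QuotientGroup.eq_one_iff]
  have hcoordN : ∀ (i l : ℕ), a ^ i * b ^ l ∈ N ↔ p ^ s ∣ l := by
    intro i l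
    rw [← hbN]
    exact Subgroup.mul_mem_cancel_left _ (pow_mem (Subgroup.mem_zpowers a) i)
  have hpm : 0 < p ^ m := pow_pos hp.out.pos m
  obtain ⟨c₀, hc₀⟩ : ∃ c₀ : ℕ, b ^ p ^ s = a ^ c₀ := by
    have h1 := (hbN (p ^ s)).2 dvd_rfl
    rw [hN, ← mem_powers_iff_mem_zpowers] at h1
    obtain ⟨c₀, hc₀⟩ := h1
    exact ⟨c₀, hc₀.symm⟩
  obtain ⟨c, hclt, hc⟩ : ∃ c, c < p ^ m ∧ b ^ p ^ s = a ^ c := by
    refine ⟨c₀ % p ^ m, Nat.mod_lt _ hpm, ?_⟩
    rw [hc₀, ← pow_mod_orderOf a c₀, h.ord]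
  by_cases hdvd : p ^ s ∣ c
  · -- Case 1
    obtain ⟨c', rfl⟩ := hdvd
    obtain ⟨S'', hS, hcop⟩ := exists_SS_split hp2 h.modEq s
    obtain ⟨x, hx⟩ := exists_solve (hcop.pow_right m) hpm c'
    have h1 : (a ^ x * b) ^ p ^ s = 1 := by
      rw [h.conj.pow_formula, hS, hc, ← pow_add, h.pow_eq_one_iff]
      have : x * (p ^ s * S'') + p ^ s * c' = p ^ s * (x * S'' + c') := by ring
      rw [this]
      exact Dvd.dvd.mul_left hx _
    have hpw : ∀ l, (a ^ x * b) ^ l = a ^ (x * SS k l) * b ^ l := h.conj.pow_formula x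
    have hord : orderOf (a ^ x * b) = p ^ s := by
      apply orderOf_eq_of_forall
      intro l
      constructor
      · intro h2
        refine (hcoordN (x * SS k l) l).1 ?_
        rw [← hpw, h2]
        exact one_mem _
      · rintro ⟨r, rfl⟩
        rw [pow_mul, h1, one_pow]
    refine ⟨Subgroup.zpowers a, Subgroup.zpowers (a ^ x * b), inferInstance, inferInstance, ?_, ?_⟩
    · rw [eq_bot_iff]
      intro v hv
      obtain ⟨hv1, hv2⟩ := Subgroup.mem_inf.1 hv
      rw [← mem_powers_iff_mem_zpowers] at hv2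
      obtain ⟨l, hl⟩ := hv2
      have hl' : (a ^ x * b) ^ l = v := hl
      subst hl'
      have h3 : p ^ s ∣ l := by
        refine (hcoordN (x * SS k l) l).1 ?_
        rw [← hpw]
        exact hv1
      obtain ⟨r, rfl⟩ := h3
      rw [pow_mul, h1, one_pow]
      exact one_mem _
    · rw [Nat.card_zpowers, Nat.card_zpowers, h.ord, hord, hcardG]
  · -- Case 2
    have hc0 : c ≠ 0 := by
      rintro rfl
      exact hdvd (dvd_zero _)
    obtain ⟨v, c', hc', rfl⟩ := Nat.exists_eq_pow_mul_and_not_dvd hc0 p hp.out.ne_one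
    have hc'pos : 0 < c' := Nat.pos_of_ne_zero (by rintro rfl; simp at hc0)
    have hvs : v < s := by
      by_contra hh
      exact hdvd (Dvd.dvd.mul_right (pow_dvd_pow p (by omega)) _)
    have hvm : v < m := by
      have h1 : p ^ v < p ^ m := lt_of_le_of_lt (Nat.le_mul_of_pos_right _ hc'pos) hclt
      exact (Nat.pow_lt_pow_iff_right hp.out.one_lt).1 h1
    have hq' : k ^ p ^ (s - v) ≡ 1 [MOD p] := modEq_one_pow h.modEq _
    obtain ⟨S'', hS, hcop⟩ := exists_SS_split hp2 hq' v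
    obtain ⟨g, hg⟩ := exists_solve (hcop.pow_right m) hpm c'
    have hgcop : Nat.Coprime g p := by
      rw [Nat.coprime_comm, Nat.Prime.coprime_iff_not_dvd hp.out]
      intro hd
      apply hc'
      have h1 : p ∣ g * S'' + c' := (dvd_pow_self p (by omega)).trans hg
      exact (Nat.dvd_add_right (Dvd.dvd.mul_right hd _)).1 h1
    set y := b ^ p ^ (s - v) with hy
    have hysemi : Semi y a (k ^ p ^ (s - v)) := h.conj.pow _
    have hpw : ∀ l, (a ^ g * y) ^ l = a ^ (g * SS (k ^ p ^ (s - v)) l) * y ^ l := hysemi.pow_formula g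
    have h1 : (a ^ g * y) ^ p ^ v = 1 := by
      rw [hpw, hS, hy, ← pow_mul, ← pow_add, Nat.sub_add_cancel hvs.le, hc, ← pow_add,
        h.pow_eq_one_iff]
      have : g * (p ^ v * S'') + p ^ v * c' = p ^ v * (g * S'' + c') := by ring
      rw [this]
      exact Dvd.dvd.mul_left hg _
    have hdiv : ∀ l, (a ^ g * y) ^ l ∈ Subgroup.zpowers b → p ^ v ∣ l := by
      intro l hl
      rw [hpw] at hl
      have hyl : y ^ l ∈ Subgroup.zpowers b :=
        pow_mem (pow_mem (Subgroup.mem_zpowers b) _) l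
      have h2 : a ^ (g * SS (k ^ p ^ (s - v)) l) ∈ Subgroup.zpowers b :=
        (Subgroup.mul_mem_cancel_right _ hyl).1 hl
      rw [← mem_powers_iff_mem_zpowers] at h2
      obtain ⟨e, he⟩ := h2
      have he' : b ^ e = a ^ (g * SS (k ^ p ^ (s - v)) l) := he
      have h3 : p ^ s ∣ e := by
        rw [← hbN, he']
        exact pow_mem (Subgroup.mem_zpowers a) _
      obtain ⟨w, rfl⟩ := h3
      rw [pow_mul, hc, ← pow_mul, pow_eq_pow_iff_modEq, h.ord] at he'
      have h4 : p ^ v * c' * w ≡ g * SS (k ^ p ^ (s - v)) l [MOD p ^ v] :=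
        he'.of_dvd (pow_dvd_pow p hvm.le)
      have h5 : p ^ v ∣ g * SS (k ^ p ^ (s - v)) l := by
        have h6 : p ^ v ∣ p ^ v * c' * w := Dvd.dvd.mul_right (Dvd.intro _ rfl) _
        exact (h4.dvd_iff dvd_rfl).1 h6
      have h7 : p ^ v ∣ SS (k ^ p ^ (s - v)) l :=
        Nat.Coprime.dvd_of_dvd_mul_left (hgcop.pow_right v).symm h5
      exact (dvd_SS_iff hp2 hq').1 h7
    have hordu : orderOf (a ^ g * y) = p ^ v := by
      apply orderOf_eq_of_forall
      intro l
      constructor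
      · intro h2
        apply hdiv
        rw [h2]
        exact one_mem _
      · rintro ⟨r, rfl⟩
        rw [pow_mul, h1, one_pow]
    have hordb : orderOf b = p ^ (s + (m - v)) := by
      apply orderOf_eq_of_forall
      intro l
      constructor
      · intro h2
        have h3 : p ^ s ∣ l := by
          rw [← hbN, h2]
          exact one_mem _
        obtain ⟨w, rfl⟩ := h3
        rw [pow_mul, hc, ← pow_mul, h.pow_eq_one_iff] at h2
        have hmv : p ^ m = p ^ v * p ^ (m - v) := by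
          rw [← pow_add]; congr 1; omega
        rw [hmv, mul_assoc] at h2
        have h4 : p ^ (m - v) ∣ c' * w := (Nat.mul_dvd_mul_iff_left (pow_pos hp.out.pos v)).1 h2
        have hcc : Nat.Coprime (p ^ (m - v)) c' :=
          Nat.Coprime.pow_left _ ((Nat.Prime.coprime_iff_not_dvd hp.out).2 hc')
        have h5 : p ^ (m - v) ∣ w := hcc.dvd_of_dvd_mul_left h4
        rw [pow_add]
        exact Nat.mul_dvd_mul_left _ h5
      · rintro ⟨r, rfl⟩
        rw [pow_add, mul_assoc, pow_mul, hc, ← pow_mul, h.pow_eq_one_iff]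
        have hmv : p ^ m = p ^ v * p ^ (m - v) := by
          rw [← pow_add]; congr 1; omega
        rw [hmv]
        exact ⟨c' * r, by ring⟩
    refine ⟨Subgroup.zpowers b, Subgroup.zpowers (a ^ g * y), inferInstance, inferInstance, ?_, ?_⟩
    · rw [eq_bot_iff]
      intro w hw
      obtain ⟨hv1, hv2⟩ := Subgroup.mem_inf.1 hw
      rw [← mem_powers_iff_mem_zpowers] at hv2
      obtain ⟨l, hl⟩ := hv2
      have hl' : (a ^ g * y) ^ l = w := hl
      subst hl'
      obtain ⟨r, rfl⟩ := hdiv l hv1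
      rw [pow_mul, h1, one_pow]
      exact one_mem _
    · rw [Nat.card_zpowers, Nat.card_zpowers, hordb, hordu, hcardG, ← pow_add, ← pow_add]
      congr 1
      omega

end MC

end Cfsg.Agent.Lib.LdMC
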