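import Mathlib

set_option autoImplicit false
set_option linter.unusedSectionVars false
set_option linter.unusedVariables false
set_option linter.style.haveILetI false

/-! Sylow arithmetic for the statements on Sylow numbers `2p+1`. -/

namespace Cfsg.Agent.Lib.LdNp

open Subgroup MulAction
open scoped Pointwise

universe u

section basic

variable {G : Type u} [Group G] [Finite G]

theorem index_normalizer_modEq (r : ℕ) [Fact r.Prime] (A : Subgroup G) (hA : IsPGroup r A)
    (hcop : ¬ r ∣ A.index) : (Subgroup.normalizer (A : Set G)).index ≡ 1 [MOD r] := by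
  let S : Sylow r G := hA.toSylow hcop
  have h1 : Nat.card (Sylow r G) = (Subgroup.normalizer ((S : Subgroup G) : Set G)).index :=
    Sylow.card_eq_index_normalizer S
  have h2 : (S : Subgroup G) = A := IsPGroup.toSylow_coe hA hcop
  rw [h2] at h1
  rw [← h1]
  exact card_sylow_modEq_one r G

theorem index_normalizer_dvd (A : Subgroup G) : (Subgroup.normalizer (A : Set G)).index ∣ A.index :=
  Subgroup.index_dvd_of_le (Subgroup.le_normalizer)

theorem normalizes_of_arith (r : ℕ) [Fact r.Prime] (A B : Subgroup G)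
    (hAB : A ≤ Subgroup.normalizer (B : Set G)) (hA : IsPGroup r A)
    (hB : Nat.Coprime r (Nat.card B))
    (harith : ∀ d, d ∣ Nat.card B → d ≡ 1 [MOD r] → d = 1) :
    B ≤ Subgroup.normalizer (A : Set G) := by
  classical
  set H : Subgroup G := A ⊔ B with hH
  have hAH : A ≤ H := le_sup_left
  have hBH : B ≤ H := le_sup_right
  have hHN : H ≤ Subgroup.normalizer (B : Set G) := sup_le hAB Subgroup.le_normalizer
  haveI hBn : (B.subgroupOf H).Normal := Subgroup.normal_subgroupOf_iff_le_normalizer hBH |>.2 hHN
  have hcardB : Nat.card (B.subgroupOf H) = Nat.card B :=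
    Nat.card_congr (Subgroup.subgroupOfEquivOfLe hBH).toEquiv
  have hcardA : Nat.card (A.subgroupOf H) = Nat.card A :=
    Nat.card_congr (Subgroup.subgroupOfEquivOfLe hAH).toEquiv
  have hAp : IsPGroup r (A.subgroupOf H) := by
    rw [IsPGroup.iff_card] at hA ⊢
    rwa [hcardA]
  have hdisj : Disjoint (A.subgroupOf H) (B.subgroupOf H) := by
    have hcop : Nat.Coprime (Nat.card (A.subgroupOf H)) (Nat.card (B.subgroupOf H)) := by
      obtain ⟨k, hk⟩ := IsPGroup.iff_card.1 hAp
      rw [hk, hcardB]
      exact Nat.Coprime.pow_left _ hB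
    exact disjoint_iff.2 (Subgroup.inf_eq_bot_of_coprime hcop)
  have hsup : A.subgroupOf H ⊔ B.subgroupOf H = ⊤ := by
    rw [← Subgroup.subgroupOf_sup hAH hBH, ← hH]
    exact Subgroup.subgroupOf_self H
  have hmul : ((A.subgroupOf H : Set H) * (B.subgroupOf H : Set H)) = Set.univ := by
    rw [← Subgroup.mul_normal, hsup]
    rfl
  have hcompl : (A.subgroupOf H).IsComplement' (B.subgroupOf H) :=
    Subgroup.isComplement'_of_disjoint_and_mul_eq_univ hdisj hmul
  have hidx : (A.subgroupOf H).index = Nat.card B := by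
    rw [← hcardB]
    exact hcompl.symm.index_eq_card
  have h1 := index_normalizer_modEq r (A.subgroupOf H) hAp (by
    rw [hidx]
    exact (Nat.Prime.coprime_iff_not_dvd (Fact.out)).1 hB)
  have h2 := index_normalizer_dvd (A.subgroupOf H)
  rw [hidx] at h2
  have h3 := harith _ h2 h1
  have h4 : Subgroup.normalizer ((A.subgroupOf H : Subgroup H) : Set H) = ⊤ :=
    Subgroup.index_eq_one.1 h3
  intro b hb
  rw [Subgroup.mem_normalizer_iff]
  intro g
  have hbH : (⟨b, hBH hb⟩ : H) ∈ Subgroup.normalizer ((A.subgroupOf H : Subgroup H) : Set H) := by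
    rw [h4]; trivial
  rw [Subgroup.mem_normalizer_iff] at hbH
  constructor
  · intro hg
    have := (hbH ⟨g, hAH hg⟩).1 (by simpa [Subgroup.mem_subgroupOf] using hg)
    simpa [Subgroup.mem_subgroupOf] using this
  · intro hg
    have hgH : g ∈ H := by
      have h5 : b * g * b⁻¹ ∈ H := hAH hg
      have h6 : b⁻¹ * (b * g * b⁻¹) * b ∈ H :=
        H.mul_mem (H.mul_mem (H.inv_mem (hBH hb)) h5) (hBH hb)
      simpa [mul_assoc] using h6
    have := (hbH ⟨g, hgH⟩).2 (by simpa [Subgroup.mem_subgroupOf] using hg)
    simpa [Subgroup.mem_subgroupOf] using this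

/-- If a subgroup `F` of order `f` lies in the normalizer of the subgroup `A`, then `f` divides the
order of the normalizer. -/
theorem card_dvd_normalizer (A F : Subgroup G) (h : F ≤ Subgroup.normalizer (A : Set G)) :
    Nat.card F ∣ Nat.card (Subgroup.normalizer (A : Set G)) :=
  Subgroup.card_dvd_of_le h

theorem card_sylow_of_prime_pow_exact {r : ℕ} [Fact r.Prime] (S : Sylow r G) (a b : ℕ)
    (h : Nat.card G = r ^ a * b) (hb : ¬ r ∣ b) : Nat.card S = r ^ a := by
  have hpos : Nat.card G ≠ 0 := Nat.card_pos.ne'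
  have hr : r.Prime := Fact.out
  rw [S.card_eq_multiplicity, h]
  have : (r ^ a * b).factorization r = a := by
    have hb0 : b ≠ 0 := by
      rintro rfl
      exact hb (dvd_zero _)
    rw [Nat.factorization_mul (pow_ne_zero _ hr.ne_zero) hb0]
    simp [Nat.Prime.factorization_pow hr, Nat.factorization_eq_zero_of_not_dvd hb]
  rw [this]

end basic

section arith

theorem aux_one {n r d : ℕ} (hn : 0 < n) (hall : ∀ d < n + 1, d ∣ n → d % r = 1 % r → d = 1)
    (hd : d ∣ n) (h1 : d ≡ 1 [MOD r]) : d = 1 :=
  hall d (Nat.lt_succ_of_le (Nat.le_of_dvd hn hd)) hd h1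

variable {L : Type u} [Group L] [Finite L]

theorem arith595 (h595 : Nat.card L = 595) (h35 : Nat.card (Sylow 17 L) = 35) : False := by
  haveI : Fact (Nat.Prime 5) := ⟨by norm_num⟩
  haveI : Fact (Nat.Prime 17) := ⟨by norm_num⟩
  obtain ⟨F⟩ : Nonempty (Sylow 5 L) := inferInstance
  obtain ⟨P⟩ : Nonempty (Sylow 17 L) := inferInstance
  have hF : Nat.card F = 5 := by
    have := card_sylow_of_prime_pow_exact F 1 119 (by rw [h595]; norm_num) (by norm_num)
    simpa using this
  have hP : Nat.card P = 17 := by
    have := card_sylow_of_prime_pow_exact P 1 35 (by rw [h595]; norm_num) (by norm_num)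
    simpa using this
  have hFi : (F : Subgroup L).index = 119 := by
    have := Subgroup.card_mul_index (F : Subgroup L)
    rw [hF, h595] at this
    omega
  have h1 := index_normalizer_modEq 5 (F : Subgroup L) F.2 (by rw [hFi]; norm_num)
  have h2 := index_normalizer_dvd (F : Subgroup L)
  rw [hFi] at h2
  have h3 : (Subgroup.normalizer ((F : Subgroup L) : Set L)).index = 1 :=
    aux_one (by norm_num) (by decide +kernel) h2 h1
  have h4 : Subgroup.normalizer ((F : Subgroup L) : Set L) = ⊤ := Subgroup.index_eq_one.1 h3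
  have h5 : (F : Subgroup L) ≤ Subgroup.normalizer ((P : Subgroup L) : Set L) := by
    refine normalizes_of_arith 17 (P : Subgroup L) (F : Subgroup L) (by rw [h4]; exact le_top) P.2 ?_ ?_
    · rw [hF]; norm_num
    · intro d hd hd1
      rw [hF] at hd
      exact aux_one (by norm_num) (by decide +kernel) hd hd1
  have h6 := card_dvd_normalizer _ _ h5
  rw [hF] at h6
  have h7 : (Subgroup.normalizer ((P : Subgroup L) : Set L)).index = 35 := by
    have := Sylow.card_eq_index_normalizer P
    rw [h35] at this
    exact this.symm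
  have h8 := Subgroup.card_mul_index (Subgroup.normalizer ((P : Subgroup L) : Set L))
  rw [h7, h595] at h8
  omega

/-- `|L| = 5 * 7 * 3 ^ e`, `e ∈ {1, 2}`, `n₇(L) = 15` is impossible. -/
theorem arith7 (e : ℕ) (he : e = 1 ∨ e = 2) (hL : Nat.card L = 35 * 3 ^ e)
    (h15 : Nat.card (Sylow 7 L) = 15) : False := by
  haveI : Fact (Nat.Prime 5) := ⟨by norm_num⟩
  haveI : Fact (Nat.Prime 7) := ⟨by norm_num⟩
  haveI : Fact (Nat.Prime 3) := ⟨by norm_num⟩
  obtain ⟨P⟩ : Nonempty (Sylow 7 L) := inferInstance
  obtain ⟨E⟩ : Nonempty (Sylow 3 L) := inferInstance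
  have hP : Nat.card P = 7 := by
    have := card_sylow_of_prime_pow_exact P 1 (5 * 3 ^ e) (by rw [hL]; ring) (by
      rcases he with rfl | rfl <;> norm_num)
    simpa using this
  have hE : Nat.card E = 3 ^ e := by
    exact card_sylow_of_prime_pow_exact E e 35 (by rw [hL]; ring) (by norm_num)
  have hNP : (Subgroup.normalizer ((P : Subgroup L) : Set L)).index = 15 := by
    have := Sylow.card_eq_index_normalizer P
    rw [h15] at this
    exact this.symm
  have hNPc : Nat.card (Subgroup.normalizer ((P : Subgroup L) : Set L)) * 15 = 35 * 3 ^ e := by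
    have h8 := Subgroup.card_mul_index (Subgroup.normalizer ((P : Subgroup L) : Set L))
    rw [hNP, hL] at h8
    exact h8
  have hEi : (E : Subgroup L).index = 35 := by
    have := Subgroup.card_mul_index (E : Subgroup L)
    rw [hE, hL] at this
    have h3 : 0 < 3 ^ e := by positivity
    nlinarith
  have hnE := index_normalizer_modEq 3 (E : Subgroup L) E.2 (by rw [hEi]; norm_num)
  have hnEd := index_normalizer_dvd (E : Subgroup L)
  rw [hEi] at hnEd
  have hcase : (Subgroup.normalizer ((E : Subgroup L) : Set L)).index = 1 ∨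
      (Subgroup.normalizer ((E : Subgroup L) : Set L)).index = 7 := by
    have hall : ∀ d < 36, d ∣ 35 → d % 3 = 1 % 3 → d = 1 ∨ d = 7 := by decide +kernel
    exact hall _ (Nat.lt_succ_of_le (Nat.le_of_dvd (by norm_num) hnEd)) hnEd hnE
  have h3arith : ∀ r : ℕ, (r = 7 ∨ r = 5) → ∀ d, d ∣ 3 ^ e → d ≡ 1 [MOD r] → d = 1 := by
    intro r hr d hd hd1
    have hd' : d ∣ 9 := hd.trans (by rcases he with rfl | rfl <;> norm_num)
    rcases hr with rfl | rfl
    · exact aux_one (by norm_num) (by decide +kernel) hd' hd1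
    · exact aux_one (by norm_num) (by decide +kernel) hd' hd1
  rcases hcase with h1 | h7
  · -- `E` normal
    have h4 : Subgroup.normalizer ((E : Subgroup L) : Set L) = ⊤ := Subgroup.index_eq_one.1 h1
    have h5 : (E : Subgroup L) ≤ Subgroup.normalizer ((P : Subgroup L) : Set L) := by
      refine normalizes_of_arith 7 (P : Subgroup L) (E : Subgroup L) (by rw [h4]; exact le_top) P.2 ?_ ?_
      · rw [hE]; exact Nat.Coprime.pow_right _ (by norm_num)
      · rw [hE]; exact h3arith 7 (Or.inl rfl)
    have h6 := card_dvd_normalizer _ _ h5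
    rw [hE] at h6
    obtain ⟨c, hc⟩ := h6
    rw [hc] at hNPc
    have h3 : 0 < 3 ^ e := by positivity
    have : c * 15 = 35 := by nlinarith
    omega
  · -- `|N(E)| = 5 * 3 ^ e`
    have hNEc : Nat.card (Subgroup.normalizer ((E : Subgroup L) : Set L)) = 5 * 3 ^ e := by
      have h8 := Subgroup.card_mul_index (Subgroup.normalizer ((E : Subgroup L) : Set L))
      rw [h7, hL] at h8
      omega
    -- a subgroup of order 5 in `N(E)`
    obtain ⟨x, hx⟩ : ∃ x : Subgroup.normalizer ((E : Subgroup L) : Set L), orderOf x = 5 :=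
      exists_prime_orderOf_dvd_card' 5 (by rw [hNEc]; exact Dvd.intro _ rfl)
    set F : Subgroup L := Subgroup.zpowers ((x : L)) with hFdef
    have hFc : Nat.card F = 5 := by
      rw [hFdef, Nat.card_zpowers, Subgroup.orderOf_coe, hx]
    have hFp : IsPGroup 5 F := by
      rw [IsPGroup.iff_card]
      exact ⟨1, by rw [hFc]; norm_num⟩
    have hFN : F ≤ Subgroup.normalizer ((E : Subgroup L) : Set L) := by
      rw [hFdef, Subgroup.zpowers_le]
      exact x.2
    have hEF : (E : Subgroup L) ≤ Subgroup.normalizer (F : Set L) := by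
      refine normalizes_of_arith 5 F (E : Subgroup L) hFN hFp ?_ ?_
      · rw [hE]; exact Nat.Coprime.pow_right _ (by norm_num)
      · rw [hE]; exact h3arith 5 (Or.inr rfl)
    have hFi : F.index = 7 * 3 ^ e := by
      have := Subgroup.card_mul_index F
      rw [hFc, hL] at this
      have h3 : 0 < 3 ^ e := by positivity
      nlinarith
    have hnF := index_normalizer_modEq 5 F hFp (by
      rw [hFi]
      rcases he with rfl | rfl <;> norm_num)
    -- the index of `N(F)` divides `7`
    have hd7 : (Subgroup.normalizer (F : Set L)).index ∣ 7 := by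
      have hcop : Nat.Coprime (Nat.card F) (Nat.card E) := by
        rw [hFc, hE]; exact Nat.Coprime.pow_right _ (by norm_num)
      have h5 : Nat.card F * Nat.card E ∣ Nat.card (Subgroup.normalizer (F : Set L)) :=
        Nat.Coprime.mul_dvd_of_dvd_of_dvd hcop (card_dvd_normalizer _ _ Subgroup.le_normalizer) (card_dvd_normalizer _ _ hEF)
      rw [hFc, hE] at h5
      obtain ⟨c, hc⟩ := h5
      have h8 := Subgroup.card_mul_index (Subgroup.normalizer (F : Set L))
      rw [hc, hL] at h8
      have h3 : 0 < 3 ^ e := by positivity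
      have h9 : c * (Subgroup.normalizer (F : Set L)).index = 7 := by nlinarith
      exact Dvd.intro_left _ h9
    have hF1 : (Subgroup.normalizer (F : Set L)).index = 1 :=
      aux_one (by norm_num) (by decide +kernel) hd7 hnF
    have h4 : Subgroup.normalizer (F : Set L) = ⊤ := Subgroup.index_eq_one.1 hF1
    have h5 : F ≤ Subgroup.normalizer ((P : Subgroup L) : Set L) := by
      refine normalizes_of_arith 7 (P : Subgroup L) F (by rw [h4]; exact le_top) P.2 ?_ ?_
      · rw [hFc]; norm_num
      · intro d hd hd1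
        rw [hFc] at hd
        exact aux_one (by norm_num) (by decide +kernel) hd hd1
    have h6 := card_dvd_normalizer _ _ h5
    rw [hFc] at h6
    obtain ⟨c, hc⟩ := h6
    rw [hc] at hNPc
    have h3 : 0 < 3 ^ e := by positivity
    -- 5 * c * 15 = 35 * 3 ^ e, impossible
    have h10 : 15 * c = 7 * 3 ^ e := by nlinarith
    have h11 : 5 ∣ 7 * 3 ^ e := by
      rw [← h10]; exact Dvd.dvd.mul_right (by norm_num) c
    rcases he with rfl | rfl <;> omega

end arith

end Cfsg.Agent.Lib.LdNp
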