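import Mathlib
import Cfsg.Agent.Lib.LdNp

set_option autoImplicit false
set_option linter.unusedSectionVars false
set_option linter.unusedVariables false
set_option linter.style.haveILetI false

/-! Sylow numbers `2p+1`: structure. -/

namespace Cfsg.Agent.Lib.LdNp

open Subgroup MulAction
open scoped Pointwise

universe u

section quot

variable {G : Type u} [Group G] [Finite G] {p : ℕ} [hp : Fact p.Prime]

theorem card_sylow_quot (K : Subgroup G) [K.Normal]
    (hK : ∀ Q : Sylow p G, K ≤ Subgroup.normalizer ((Q : Subgroup G) : Set G)) :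
    Nat.card (Sylow p (G ⧸ K)) = Nat.card (Sylow p G) := by
  have hf : Function.Surjective (QuotientGroup.mk' K) := QuotientGroup.mk'_surjective K
  refine (Nat.card_congr (Equiv.ofBijective (Sylow.mapSurjective hf : Sylow p G → Sylow p (G ⧸ K))
    ⟨?_, Sylow.mapSurjective_surjective hf p⟩)).symm
  intro Q Q' hQ
  have h1 : ((Q : Subgroup G).map (QuotientGroup.mk' K)) = ((Q' : Subgroup G).map (QuotientGroup.mk' K)) := by
    have := congrArg (fun S : Sylow p (G ⧸ K) => (S : Subgroup (G ⧸ K))) hQ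
    simpa using this
  have h2 : (Q' : Subgroup G) ≤ (Q : Subgroup G) ⊔ K := by
    have h3 : (Q' : Subgroup G) ≤ ((Q' : Subgroup G).map (QuotientGroup.mk' K)).comap (QuotientGroup.mk' K) :=
      Subgroup.le_comap_map _ _
    rw [← h1, Subgroup.comap_map_eq, QuotientGroup.ker_mk'] at h3
    exact h3
  have h3 : (Q' : Subgroup G) ≤ Subgroup.normalizer ((Q : Subgroup G) : Set G) :=
    h2.trans (sup_le Subgroup.le_normalizer (hK Q))
  have h4 := Q'.2.inf_normalizer_sylow Q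
  have h5 : (Q' : Subgroup G) ≤ (Q : Subgroup G) := by
    have h6 : (Q' : Subgroup G) ≤ (Q' : Subgroup G) ⊓ Subgroup.normalizer ((Q : Subgroup G) : Set G) :=
      le_inf le_rfl h3
    have h7 : (Q' : Subgroup G) ⊓ Subgroup.normalizer ((Q : Subgroup G) : Set G) =
      (Q' : Subgroup G) ⊓ (Q : Subgroup G) := h4
    rw [h7] at h6
    exact h6.trans inf_le_right
  exact Sylow.ext (Q'.3 Q.2 h5)

theorem card_sylow_of_le (N : Subgroup G)
    (h : ∀ R : Sylow p G, (R : Subgroup G) ≤ N) :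
    Nat.card (Sylow p N) = Nat.card (Sylow p G) := by
  refine (Nat.card_congr (Equiv.ofBijective (fun R : Sylow p G => R.subtype (h R)) ⟨?_, ?_⟩)).symm
  · intro R R' hR
    exact Sylow.subtype_injective hR
  · intro R
    obtain ⟨Q, hQ⟩ := Sylow.exists_comap_subtype_eq R
    refine ⟨Q, ?_⟩
    exact Sylow.ext hQ

end quot

section act

variable {G : Type u} [Group G] [Finite G] {p : ℕ} [hp : Fact p.Prime]

theorem mem_of_smul_eq (P Q : Sylow p G) {x : G} (hx : x ∈ (P : Subgroup G)) (h : x • Q = Q) :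
    x ∈ (Q : Subgroup G) := by
  have h1 : x ∈ (P : Subgroup G) ⊓ Subgroup.normalizer ((Q : Subgroup G) : Set G) :=
    ⟨hx, Sylow.smul_eq_iff_mem_normalizer.1 h⟩
  have h2 : (P : Subgroup G) ⊓ Subgroup.normalizer ((Q : Subgroup G) : Set G) =
      (P : Subgroup G) ⊓ (Q : Subgroup G) := P.2.inf_normalizer_sylow Q
  rw [h2] at h1
  exact h1.2

theorem smul_eq_of_mem (Q : Sylow p G) {x : G} (hx : x ∈ (Q : Subgroup G)) : x • Q = Q :=
  Sylow.smul_eq_iff_mem_normalizer.2 (Subgroup.le_normalizer hx)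

/-- The orbit of `Q` under `P`. -/
def orb (P Q : Sylow p G) : Set (Sylow p G) := MulAction.orbit (↥(P : Subgroup G)) Q

theorem mem_orb {P Q R : Sylow p G} : R ∈ orb P Q ↔ ∃ x ∈ (P : Subgroup G), x • Q = R := by
  constructor
  · rintro ⟨x, rfl⟩
    exact ⟨x, x.2, rfl⟩
  · rintro ⟨x, hx, rfl⟩
    exact ⟨⟨x, hx⟩, rfl⟩

theorem stab_eq (P Q : Sylow p G) :
    MulAction.stabilizer (↥(P : Subgroup G)) Q = (Q : Subgroup G).subgroupOf (P : Subgroup G) := by
  ext x
  rw [MulAction.mem_stabilizer_iff, Subgroup.mem_subgroupOf]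
  constructor
  · intro h
    exact mem_of_smul_eq P Q x.2 h
  · intro h
    exact smul_eq_of_mem Q h

theorem ncard_orb (P Q : Sylow p G) :
    (orb P Q).ncard = ((Q : Subgroup G).subgroupOf (P : Subgroup G)).index := by
  rw [← stab_eq]
  exact (MulAction.index_stabilizer (↥(P : Subgroup G)) Q).symm

theorem mem_orb_self (P Q : Sylow p G) : Q ∈ orb P Q := by
  rw [mem_orb]
  exact ⟨1, P.1.one_mem, one_smul _ _⟩

theorem ne_of_mem_orb {P Q R : Sylow p G} (hne : Q ≠ P) (hR : R ∈ orb P Q) : R ≠ P := by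
  rintro rfl
  obtain ⟨x, hx, h⟩ := mem_orb.1 hR
  apply hne
  have h1 : x⁻¹ • (x • Q) = x⁻¹ • R := by rw [h]
  rw [inv_smul_smul, smul_eq_of_mem R (R.1.inv_mem hx)] at h1
  exact h1

theorem orb_of_mem {P Q R : Sylow p G} (hR : R ∈ orb P Q) : orb P R = orb P Q :=
  MulAction.orbit_eq_iff.2 hR

/-- Orbits of `P` on the other Sylow subgroups have size `p` when there are `2p+1` Sylows. -/
theorem ncard_orb_eq (hp3 : 3 ≤ p) (hn : Nat.card (Sylow p G) = 2 * p + 1) (P Q : Sylow p G)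
    (hne : Q ≠ P) : (orb P Q).ncard = p := by
  classical
  have hpp : p.Prime := hp.out
  rw [ncard_orb]
  have h1 : ((Q : Subgroup G).subgroupOf (P : Subgroup G)).index ∣ Nat.card (P : Subgroup G) :=
    Subgroup.index_dvd_card _
  obtain ⟨k, hk⟩ := IsPGroup.iff_card.1 P.2
  rw [hk] at h1
  obtain ⟨i, hi, hi2⟩ := (Nat.dvd_prime_pow hpp).1 h1
  have h2 : i ≠ 0 := by
    rintro rfl
    apply hne
    rw [pow_zero, Subgroup.index_eq_one, Subgroup.subgroupOf_eq_top] at hi2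
    exact (Sylow.ext (P.3 Q.2 hi2)).symm ▸ rfl
  have h3 : (orb P Q).ncard + 1 ≤ 2 * p + 1 := by
    rw [← hn]
    have h4 : (orb P Q ∪ {P}).ncard = (orb P Q).ncard + 1 := by
      rw [Set.ncard_union_eq _ (Set.toFinite _) (Set.toFinite _), Set.ncard_singleton]
      rw [Set.disjoint_singleton_right]
      intro h
      exact ne_of_mem_orb hne h rfl
    rw [← h4, ← Set.ncard_univ]
    exact Set.ncard_le_ncard (Set.subset_univ _) (Set.toFinite _)
  rw [ncard_orb, hi2] at h3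
  have h4 : i < 2 := by
    by_contra hc
    have h5 : p ^ 2 ≤ p ^ i := Nat.pow_le_pow_right hpp.pos (by omega)
    nlinarith
  have h5 : i = 1 := by omega
  rw [hi2, h5, pow_one]

theorem index_subgroupOf_eq (hp3 : 3 ≤ p) (hn : Nat.card (Sylow p G) = 2 * p + 1) (P Q : Sylow p G)
    (hne : Q ≠ P) : ((Q : Subgroup G).subgroupOf (P : Subgroup G)).index = p := by
  rw [← ncard_orb]
  exact ncard_orb_eq hp3 hn P Q hne

theorem normal_subgroupOf (hp3 : 3 ≤ p) (hn : Nat.card (Sylow p G) = 2 * p + 1) (P Q : Sylow p G)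
    (hne : Q ≠ P) : ((Q : Subgroup G).subgroupOf (P : Subgroup G)).Normal := by
  have hpp : p.Prime := hp.out
  have h1 := index_subgroupOf_eq hp3 hn P Q hne
  apply Subgroup.normal_of_index_eq_minFac_card
  rw [h1]
  obtain ⟨k, hk⟩ := IsPGroup.iff_card.1 P.2
  rw [hk]
  have hk0 : k ≠ 0 := by
    rintro rfl
    have h2 := Subgroup.index_dvd_card ((Q : Subgroup G).subgroupOf (P : Subgroup G))
    rw [h1, hk, pow_zero] at h2
    exact hpp.one_lt.ne' (Nat.dvd_one.1 h2)
  exact (hpp.pow_minFac hk0).symm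

/-- Elements of `P ⊓ Q` fix the whole `P`-orbit of `Q`. -/
theorem fix_orb (hp3 : 3 ≤ p) (hn : Nat.card (Sylow p G) = 2 * p + 1) (P Q : Sylow p G)
    (hne : Q ≠ P) {y : G} (hyP : y ∈ (P : Subgroup G)) (hyQ : y ∈ (Q : Subgroup G))
    {R : Sylow p G} (hR : R ∈ orb P Q) : y • R = R := by
  obtain ⟨x, hx, rfl⟩ := mem_orb.1 hR
  haveI := normal_subgroupOf hp3 hn P Q hne
  have h1 : (⟨y, hyP⟩ : ↥(P : Subgroup G)) ∈ (Q : Subgroup G).subgroupOf (P : Subgroup G) := by
    rw [Subgroup.mem_subgroupOf]; exact hyQ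
  have h2 := Subgroup.Normal.conj_mem (inferInstance : ((Q : Subgroup G).subgroupOf (P : Subgroup G)).Normal)
    _ h1 (⟨x, hx⟩ : ↥(P : Subgroup G))⁻¹
  rw [Subgroup.mem_subgroupOf] at h2
  have h3 : x⁻¹ * y * x ∈ (Q : Subgroup G) := by simpa using h2
  have h4 : (x⁻¹ * y * x) • Q = Q := smul_eq_of_mem Q h3
  calc y • x • Q = x • ((x⁻¹ * y * x) • Q) := by
        rw [← mul_smul, ← mul_smul]
        congr 1
        group
    _ = x • Q := by rw [h4]

/-- The partition of the Sylow subgroups into `P` and two `P`-orbits. -/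
theorem exists_partition (hp3 : 3 ≤ p) (hn : Nat.card (Sylow p G) = 2 * p + 1) (P : Sylow p G) :
    ∃ Q₁ Q₂ : Sylow p G, Q₁ ≠ P ∧ Q₂ ≠ P ∧ Q₂ ∉ orb P Q₁ ∧
      ∀ R : Sylow p G, R = P ∨ R ∈ orb P Q₁ ∨ R ∈ orb P Q₂ := by
  classical
  have hpp : p.Prime := hp.out
  have hcard : (Set.univ : Set (Sylow p G)).ncard = 2 * p + 1 := by
    rw [Set.ncard_univ, hn]
  obtain ⟨Q₁, hQ₁⟩ : ∃ Q₁ : Sylow p G, Q₁ ≠ P := by
    by_contra hc
    push Not at hc
    have : (Set.univ : Set (Sylow p G)) = {P} := by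
      ext x; simp [hc x]
    rw [this, Set.ncard_singleton] at hcard
    omega
  have h1 := ncard_orb_eq hp3 hn P Q₁ hQ₁
  have hd1 : Disjoint (orb P Q₁) {P} := by
    rw [Set.disjoint_singleton_right]
    intro h
    exact ne_of_mem_orb hQ₁ h rfl
  have h2 : (orb P Q₁ ∪ {P}).ncard = p + 1 := by
    rw [Set.ncard_union_eq hd1 (Set.toFinite _) (Set.toFinite _), Set.ncard_singleton, h1]
  obtain ⟨Q₂, hQ₂⟩ : ∃ Q₂ : Sylow p G, Q₂ ∉ orb P Q₁ ∪ {P} := by
    by_contra hc
    push Not at hc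
    have : orb P Q₁ ∪ {P} = Set.univ := Set.eq_univ_of_forall hc
    rw [this, hcard] at h2
    omega
  have hQ₂1 : Q₂ ∉ orb P Q₁ := fun h => hQ₂ (Or.inl h)
  have hQ₂2 : Q₂ ≠ P := fun h => hQ₂ (Or.inr h)
  refine ⟨Q₁, Q₂, hQ₁, hQ₂2, hQ₂1, ?_⟩
  have h3 := ncard_orb_eq hp3 hn P Q₂ hQ₂2
  have hd2 : Disjoint (orb P Q₁ ∪ {P}) (orb P Q₂) := by
    rw [Set.disjoint_left]
    rintro R (hR | hR) hR2
    · apply hQ₂1
      have h4 : orb P R = orb P Q₂ := orb_of_mem hR2
      have h5 : orb P R = orb P Q₁ := orb_of_mem hR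
      rw [← h5, h4]
      exact mem_orb_self _ _
    · rw [Set.mem_singleton_iff] at hR
      exact ne_of_mem_orb hQ₂2 hR2 hR
  have h4 : ((orb P Q₁ ∪ {P}) ∪ orb P Q₂).ncard = 2 * p + 1 := by
    rw [Set.ncard_union_eq hd2 (Set.toFinite _) (Set.toFinite _), h2, h3]
    ring
  have h5 : (orb P Q₁ ∪ {P}) ∪ orb P Q₂ = Set.univ := by
    apply Set.eq_of_subset_of_ncard_le (Set.subset_univ _) _ (Set.toFinite _)
    rw [h4, hcard]
  intro R
  have h6 : R ∈ (orb P Q₁ ∪ {P}) ∪ orb P Q₂ := by rw [h5]; trivial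
  rcases h6 with (h | h) | h
  · exact Or.inr (Or.inl h)
  · exact Or.inl h
  · exact Or.inr (Or.inr h)

end act

section faithful

variable {G : Type u} [Group G] [Finite G] {p : ℕ} [hp : Fact p.Prime]

/-- In the faithful case every Sylow `p`-subgroup has order `p`. -/
theorem card_sylow_eq (hp3 : 3 ≤ p) (hn : Nat.card (Sylow p G) = 2 * p + 1)
    (hfaith : ∀ g : G, (∀ Q : Sylow p G, g • Q = Q) → g = 1) (P : Sylow p G) :
    Nat.card (P : Subgroup G) = p := by
  classical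
  have hpp : p.Prime := hp.out
  obtain ⟨Q₁, Q₂, hQ₁, hQ₂, hQ₁₂, hall⟩ := exists_partition hp3 hn P
  have hsame : ∀ R S : Sylow p G, Nat.card (R : Subgroup G) = Nat.card (S : Subgroup G) := by
    intro R S
    exact Nat.card_congr (R.equiv S).toEquiv
  -- the index formula
  have hi : ∀ R S : Sylow p G, S ≠ R →
      Nat.card ((S : Subgroup G).subgroupOf (R : Subgroup G)) * p = Nat.card (R : Subgroup G) := by
    intro R S hne
    have := Subgroup.card_mul_index ((S : Subgroup G).subgroupOf (R : Subgroup G))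
    rwa [index_subgroupOf_eq hp3 hn R S hne] at this
  -- D₁ ⊓ D₂ = ⊥
  have hD : ∀ y : G, y ∈ (P : Subgroup G) → y ∈ (Q₁ : Subgroup G) → y ∈ (Q₂ : Subgroup G) → y = 1 := by
    intro y hyP hy1 hy2
    apply hfaith
    intro R
    rcases hall R with rfl | h | h
    · exact smul_eq_of_mem _ hyP
    · exact fix_orb hp3 hn P Q₁ hQ₁ hyP hy1 h
    · exact fix_orb hp3 hn P Q₂ hQ₂ hyP hy2 h
  by_contra hne
  -- D₁ := P ⊓ Q₁ nontrivial
  set D₁ : Subgroup G := (P : Subgroup G) ⊓ (Q₁ : Subgroup G) with hD₁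
  set D₂ : Subgroup G := (P : Subgroup G) ⊓ (Q₂ : Subgroup G) with hD₂
  have hc1 : Nat.card D₁ = Nat.card ((Q₁ : Subgroup G).subgroupOf (P : Subgroup G)) := by
    rw [hD₁, inf_comm, ← Subgroup.subgroupOf_map_subtype]
    exact Subgroup.card_map_of_injective Subtype.val_injective
  have hc2 : Nat.card D₂ = Nat.card ((Q₂ : Subgroup G).subgroupOf (P : Subgroup G)) := by
    rw [hD₂, inf_comm, ← Subgroup.subgroupOf_map_subtype]
    exact Subgroup.card_map_of_injective Subtype.val_injective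
  have hc12 : Nat.card D₁ = Nat.card D₂ := by
    have h1 := hi P Q₁ hQ₁
    have h2 := hi P Q₂ hQ₂
    rw [← hc1] at h1
    rw [← hc2] at h2
    exact Nat.eq_of_mul_eq_mul_right hpp.pos (h1.trans h2.symm)
  have hd1 : Nat.card D₁ ≠ 1 := by
    intro h
    apply hne
    have h1 := hi P Q₁ hQ₁
    rw [← hc1, h, one_mul] at h1
    exact h1.symm
  -- the orbit of Q₂ under D₁
  have hdorb : ∀ (D : Subgroup G) (A B : Sylow p G), D ≤ (A : Subgroup G) → B ≠ A →
      (∀ y ∈ D, y ∈ (B : Subgroup G) → y = 1) → Nat.card D ≠ 1 →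
      Nat.card D = p ∧ orb A B = (fun y : D => (y : G) • B) '' Set.univ := by
    intro D A B hDA hBA htriv hDne
    classical
    have hinj : Function.Injective (fun y : D => (y : G) • B) := by
      intro y z hyz
      have h1 : ((z : G)⁻¹ * y) • B = B := by
        rw [mul_smul]
        have hyz' : (y : G) • B = (z : G) • B := hyz
        rw [hyz', inv_smul_smul]
      have h2 : (z : G)⁻¹ * y ∈ D := D.mul_mem (D.inv_mem z.2) y.2
      have h3 := htriv _ h2 (mem_of_smul_eq A B (hDA h2) h1)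
      exact Subtype.ext (inv_mul_eq_one.1 h3).symm
    have hsub : (fun y : D => (y : G) • B) '' Set.univ ⊆ orb A B := by
      rintro _ ⟨y, -, rfl⟩
      exact mem_orb.2 ⟨y, hDA y.2, rfl⟩
    have hnc : ((fun y : D => (y : G) • B) '' Set.univ).ncard = Nat.card D := by
      rw [Set.ncard_image_of_injective _ hinj, Set.ncard_univ]
    have hle : Nat.card D ≤ p := by
      calc Nat.card D = ((fun y : D => (y : G) • B) '' Set.univ).ncard := hnc.symm
        _ ≤ (orb A B).ncard := Set.ncard_le_ncard hsub (Set.toFinite _)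
        _ = p := ncard_orb_eq hp3 hn A B hBA
    have hDp : IsPGroup p D := A.2.to_le hDA
    obtain ⟨k, hk⟩ := IsPGroup.iff_card.1 hDp
    have hk1 : k ≠ 0 := by
      rintro rfl
      exact hDne (by rw [hk, pow_zero])
    have hpk : p ≤ Nat.card D := by
      rw [hk]
      exact Nat.le_self_pow hk1 p
    have hcard : Nat.card D = p := le_antisymm hle hpk
    refine ⟨hcard, (Set.eq_of_subset_of_ncard_le hsub (le_of_eq ?_) (Set.toFinite _)).symm⟩
    calc (orb A B).ncard = p := ncard_orb_eq hp3 hn A B hBA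
      _ = Nat.card D := hcard.symm
      _ = _ := hnc.symm
  have h1 := hdorb D₁ P Q₂ inf_le_left hQ₂ (fun y hy hy2 => hD y hy.1 hy.2 hy2) hd1
  have h2 := hdorb D₁ Q₁ Q₂ inf_le_right (fun h => hQ₁₂ (h ▸ mem_orb_self _ _))
    (fun y hy hy2 => hD y hy.1 hy.2 hy2) hd1
  have hQ₂₁ : Q₁ ≠ Q₂ := fun h => hQ₁₂ (h ▸ mem_orb_self _ _)
  have h3 := hdorb D₂ P Q₁ inf_le_left hQ₁ (fun y hy hy2 => hD y hy.1 hy2 hy.2)
    (by rw [← hc12]; exact hd1)
  have h4 := hdorb D₂ Q₂ Q₁ inf_le_right hQ₂₁ (fun y hy hy2 => hD y hy.1 hy2 hy.2)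
    (by rw [← hc12]; exact hd1)
  have e1 : orb Q₁ Q₂ = orb P Q₂ := h2.2.trans h1.2.symm
  have e2 : orb Q₂ Q₁ = orb P Q₁ := h4.2.trans h3.2.symm
  -- W = Q₁ ⊓ Q₂ fixes everything
  have hW : ∀ y : G, y ∈ (Q₁ : Subgroup G) → y ∈ (Q₂ : Subgroup G) → y = 1 := by
    intro y hy1 hy2
    apply hfaith
    have hfix : ∀ R : Sylow p G, R ≠ P → y • R = R := by
      intro R hR
      rcases hall R with rfl | h | h
      · exact absurd rfl hR
      · rw [← e2] at h
        exact fix_orb hp3 hn Q₂ Q₁ hQ₂₁ hy2 hy1 h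
      · rw [← e1] at h
        exact fix_orb hp3 hn Q₁ Q₂ (fun h' => hQ₂₁ h'.symm) hy1 hy2 h
    intro R
    by_cases hR : R = P
    · subst hR
      by_contra hc
      have h5 := hfix (y • R) hc
      exact hc (smul_left_cancel y h5)
    · exact hfix R hR
  have h5 := hi Q₁ Q₂ (fun h' => hQ₂₁ h'.symm)
  have h6 : Nat.card ((Q₂ : Subgroup G).subgroupOf (Q₁ : Subgroup G)) = 1 := by
    apply Nat.card_eq_one_iff_unique.2
    refine ⟨⟨?_⟩, inferInstance⟩
    rintro ⟨x, hx⟩ ⟨y, hy⟩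
    have hx1 := hW x.1 x.2 (by simpa [Subgroup.mem_subgroupOf] using hx)
    have hy1 := hW y.1 y.2 (by simpa [Subgroup.mem_subgroupOf] using hy)
    apply Subtype.ext
    apply Subtype.ext
    show (x : G) = y
    rw [hx1, hy1]
  rw [h6, one_mul] at h5
  -- now |Q₁| = p, hence |P| = p, contradiction
  apply hne
  rw [hsame P Q₁]
  exact h5.symm

/-- Commuting elements preserve `P`-orbits. -/
theorem comm_smul_orb {P Q : Sylow p G} {u : G} (hu : u ∈ Subgroup.centralizer ((P : Subgroup G) : Set G))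
    {R : Sylow p G} (hR : R ∈ orb P Q) : u • R ∈ orb P (u • Q) := by
  obtain ⟨x, hx, rfl⟩ := mem_orb.1 hR
  refine mem_orb.2 ⟨x, hx, ?_⟩
  rw [← mul_smul, ← mul_smul, (Subgroup.mem_centralizer_iff.1 hu x hx)]

theorem comm_smul_self {P : Sylow p G} {u : G} (hu : u ∈ Subgroup.centralizer ((P : Subgroup G) : Set G)) :
    u • P = P := by
  apply Sylow.smul_eq_iff_mem_normalizer.2
  exact Subgroup.centralizer_le_normalizer _ hu

/-- An element of the centralizer of `P` that preserves the orbit of `Q₁` lies in `P`. -/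
theorem mem_of_comm_preserve (hp3 : 3 ≤ p) (hn : Nat.card (Sylow p G) = 2 * p + 1)
    (hfaith : ∀ g : G, (∀ Q : Sylow p G, g • Q = Q) → g = 1) (P Q₁ Q₂ : Sylow p G)
    (hQ₁ : Q₁ ≠ P) (hQ₂ : Q₂ ≠ P) (hQ₁₂ : Q₂ ∉ orb P Q₁)
    (hall : ∀ R : Sylow p G, R = P ∨ R ∈ orb P Q₁ ∨ R ∈ orb P Q₂)
    {u : G} (hu : u ∈ Subgroup.centralizer ((P : Subgroup G) : Set G)) (h1 : u • Q₁ ∈ orb P Q₁) :
    u ∈ (P : Subgroup G) := by
  classical
  have hpp : p.Prime := hp.out
  have hcardP := card_sylow_eq hp3 hn hfaith P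
  have hpow : ∀ x ∈ (P : Subgroup G), x ^ p = 1 := by
    intro x hx
    have h2 : (⟨x, hx⟩ : ↥(P : Subgroup G)) ^ (Nat.card (P : Subgroup G)) = 1 := pow_card_eq_one'
    have h3 : x ^ (Nat.card (P : Subgroup G)) = 1 := congrArg Subtype.val h2
    rwa [hcardP] at h3
  obtain ⟨x₁, hx₁, hx₁u⟩ := mem_orb.1 h1
  set w : G := x₁⁻¹ * u with hw
  have hx₁c : x₁ ∈ Subgroup.centralizer ((P : Subgroup G) : Set G) → True := fun _ => trivial
  -- `P` is abelian of prime order
  haveI : IsCyclic (P : Subgroup G) := isCyclic_of_prime_card hcardP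
  have hPcomm : ∀ a ∈ (P : Subgroup G), ∀ b ∈ (P : Subgroup G), a * b = b * a := by
    intro a ha b hb
    letI := IsCyclic.commGroup (α := ↥(P : Subgroup G))
    have := mul_comm (⟨a, ha⟩ : ↥(P : Subgroup G)) ⟨b, hb⟩
    exact congrArg Subtype.val this
  have hPc : ∀ a ∈ (P : Subgroup G), a ∈ Subgroup.centralizer ((P : Subgroup G) : Set G) := by
    intro a ha
    rw [Subgroup.mem_centralizer_iff]
    intro b hb
    exact hPcomm b hb a ha
  have hwc : w ∈ Subgroup.centralizer ((P : Subgroup G) : Set G) :=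
    Subgroup.mul_mem _ (Subgroup.inv_mem _ (hPc x₁ hx₁)) hu
  have hwQ₁ : w • Q₁ = Q₁ := by
    rw [hw, mul_smul, ← hx₁u, inv_smul_smul]
  have hwO₁ : ∀ R ∈ orb P Q₁, w • R = R := by
    intro R hR
    have h2 := comm_smul_orb hwc hR
    obtain ⟨x, hx, rfl⟩ := mem_orb.1 hR
    rw [← mul_smul, ← (Subgroup.mem_centralizer_iff.1 hwc x hx), mul_smul, hwQ₁]
  have hwP : w • P = P := comm_smul_self hwc
  have hwQ₂ : w • Q₂ ∈ orb P Q₂ := by
    rcases hall (w • Q₂) with h | h | h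
    · exfalso
      apply hQ₂
      rw [← hwP] at h
      exact smul_left_cancel w h
    · exfalso
      apply hQ₁₂
      have h3 := hwO₁ _ h
      have h4 := smul_left_cancel w h3
      rw [h4] at h
      exact h
    · exact h
  obtain ⟨x₂, hx₂, hx₂w⟩ := mem_orb.1 hwQ₂
  set v : G := x₂⁻¹ * w with hv
  have hvc : v ∈ Subgroup.centralizer ((P : Subgroup G) : Set G) :=
    Subgroup.mul_mem _ (Subgroup.inv_mem _ (hPc x₂ hx₂)) hwc
  have hvQ₂ : v • Q₂ = Q₂ := by
    rw [hv, mul_smul, ← hx₂w, inv_smul_smul]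
  have hvO₂ : ∀ R ∈ orb P Q₂, v • R = R := by
    intro R hR
    obtain ⟨x, hx, rfl⟩ := mem_orb.1 hR
    rw [← mul_smul, ← (Subgroup.mem_centralizer_iff.1 hvc x hx), mul_smul, hvQ₂]
  have hvO₁ : ∀ R ∈ orb P Q₁, v • R = x₂⁻¹ • R := by
    intro R hR
    rw [hv, mul_smul, hwO₁ R hR]
  have hvpow : ∀ k : ℕ, ∀ R ∈ orb P Q₁, v ^ k • R = (x₂⁻¹) ^ k • R := by
    intro k
    induction k with
    | zero => intro R hR; simp
    | succ k ih =>
      intro R hR
      have h5 : (x₂⁻¹) ^ k • R ∈ orb P Q₁ := by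
        rw [← orb_of_mem hR]
        exact mem_orb.2 ⟨(x₂⁻¹) ^ k, Subgroup.pow_mem _ (Subgroup.inv_mem _ hx₂) k, rfl⟩
      rw [pow_succ', mul_smul, ih R hR, hvO₁ _ h5, ← mul_smul, ← pow_succ']
  have hvp : v ^ p = 1 := by
    apply hfaith
    intro R
    rcases hall R with rfl | h | h
    · have h6 : ∀ k : ℕ, v ^ k • R = R := by
        intro k
        induction k with
        | zero => simp
        | succ k ih => rw [pow_succ', mul_smul, ih, comm_smul_self hvc]
      exact h6 p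
    · rw [hvpow p R h, inv_pow, hpow x₂ hx₂, inv_one, one_smul]
    · have h6 : ∀ k : ℕ, v ^ k • R = R := by
        intro k
        induction k with
        | zero => simp
        | succ k ih => rw [pow_succ', mul_smul, ih, hvO₂ R h]
      exact h6 p
  -- `v` is a `p`-element normalizing `P`, hence in `P`
  have hvP : v ∈ (P : Subgroup G) := by
    have h7 : IsPGroup p (zpowers v) := by
      rw [IsPGroup.iff_card, Nat.card_zpowers]
      have h8 : orderOf v ∣ p ^ 1 := by rw [pow_one]; exact orderOf_dvd_of_pow_eq_one hvp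
      obtain ⟨i, -, hi⟩ := (Nat.dvd_prime_pow hpp).1 h8
      exact ⟨i, hi⟩
    have h8 := h7.inf_normalizer_sylow P
    have h9 : v ∈ zpowers v ⊓ Subgroup.normalizer ((P : Subgroup G) : Set G) :=
      ⟨mem_zpowers v, Subgroup.centralizer_le_normalizer _ hvc⟩
    have h10 : zpowers v ⊓ Subgroup.normalizer ((P : Subgroup G) : Set G) =
        zpowers v ⊓ (P : Subgroup G) := h8
    rw [h10] at h9
    exact h9.2
  -- `v` fixes `Q₂`, so `v ∈ P ⊓ Q₂ = 1`
  have hvQ : v ∈ (Q₂ : Subgroup G) := mem_of_smul_eq P Q₂ hvP hvQ₂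
  have hidx := index_subgroupOf_eq hp3 hn P Q₂ hQ₂
  have hone : Nat.card ((Q₂ : Subgroup G).subgroupOf (P : Subgroup G)) = 1 := by
    have h11 := Subgroup.card_mul_index ((Q₂ : Subgroup G).subgroupOf (P : Subgroup G))
    rw [hidx, hcardP] at h11
    exact Nat.eq_of_mul_eq_mul_right hpp.pos (by rw [h11, one_mul])
  have hv1 : v = 1 := by
    have h12 := Subgroup.eq_bot_of_card_eq _ hone
    have h13 : (⟨v, hvP⟩ : ↥(P : Subgroup G)) ∈ (Q₂ : Subgroup G).subgroupOf (P : Subgroup G) := by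
      rw [Subgroup.mem_subgroupOf]; exact hvQ
    rw [h12, Subgroup.mem_bot] at h13
    exact congrArg Subtype.val h13
  have hw2 : w = x₂ := by
    rw [hv] at hv1
    exact (inv_mul_eq_one.1 hv1).symm
  have hu2 : u = x₁ * x₂ := by
    rw [hw] at hw2
    rw [← hw2]
    group
  rw [hu2]
  exact Subgroup.mul_mem _ hx₁ hx₂

/-- The sign of the action on the Sylow subgroups. -/
noncomputable def sgnHom (G : Type u) [Group G] [Finite G] (p : ℕ) [Fact p.Prime] : G →* ℤˣ := by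
  classical
  haveI := Fintype.ofFinite (Sylow p G)
  exact Equiv.Perm.sign.comp (MulAction.toPermHom G (Sylow p G))

theorem sgn_ne_one (hp3 : 3 ≤ p) (hodd : Odd p) (hn : Nat.card (Sylow p G) = 2 * p + 1)
    (hfaith : ∀ g : G, (∀ Q : Sylow p G, g • Q = Q) → g = 1) (P Q₁ Q₂ : Sylow p G)
    (hQ₁ : Q₁ ≠ P) (hQ₂ : Q₂ ≠ P) (hQ₁₂ : Q₂ ∉ orb P Q₁)
    (hall : ∀ R : Sylow p G, R = P ∨ R ∈ orb P Q₁ ∨ R ∈ orb P Q₂)
    {u : G} (hu : u ∈ Subgroup.centralizer ((P : Subgroup G) : Set G)) (h1 : u • Q₁ ∈ orb P Q₂) :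
    sgnHom G p u ≠ 1 := by
  classical
  haveI := Fintype.ofFinite (Sylow p G)
  have hpp : p.Prime := hp.out
  have hcardP := card_sylow_eq hp3 hn hfaith P
  have hpow : ∀ x ∈ (P : Subgroup G), x ^ p = 1 := by
    intro x hx
    have h2 : (⟨x, hx⟩ : ↥(P : Subgroup G)) ^ (Nat.card (P : Subgroup G)) = 1 := pow_card_eq_one'
    have h3 : x ^ (Nat.card (P : Subgroup G)) = 1 := congrArg Subtype.val h2
    rwa [hcardP] at h3
  have hdisj : ∀ R, R ∈ orb P Q₁ → R ∈ orb P Q₂ → False := by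
    intro R h h'
    apply hQ₁₂
    rw [← orb_of_mem h, orb_of_mem h']
    exact mem_orb_self _ _
  -- `u` maps `O₁` onto `O₂`
  have himg : (fun R => u • R) '' (orb P Q₁) = orb P Q₂ := by
    have hsub : (fun R => u • R) '' (orb P Q₁) ⊆ orb P Q₂ := by
      rintro _ ⟨R, hR, rfl⟩
      have h2 := comm_smul_orb hu hR
      rwa [orb_of_mem h1] at h2
    apply Set.eq_of_subset_of_ncard_le hsub _ (Set.toFinite _)
    rw [Set.ncard_image_of_injective _ (MulAction.injective u), ncard_orb_eq hp3 hn P Q₁ hQ₁,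
      ncard_orb_eq hp3 hn P Q₂ hQ₂]
  have huQ₂ : u • Q₂ ∈ orb P Q₁ := by
    rcases hall (u • Q₂) with h | h | h
    · exfalso
      apply hQ₂
      rw [← comm_smul_self hu] at h
      exact smul_left_cancel u h
    · exact h
    · exfalso
      rw [← himg] at h
      obtain ⟨R, hR, hR2⟩ := h
      have h3 : R = Q₂ := smul_left_cancel u hR2
      rw [h3] at hR
      exact hQ₁₂ hR
  have hsq : u ^ 2 ∈ (P : Subgroup G) := by
    apply mem_of_comm_preserve hp3 hn hfaith P Q₁ Q₂ hQ₁ hQ₂ hQ₁₂ hall (Subgroup.pow_mem _ hu 2)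
    obtain ⟨x, hx, hxu⟩ := mem_orb.1 h1
    rw [pow_two, mul_smul, ← hxu, ← mul_smul, (Subgroup.mem_centralizer_iff.1 hu x hx).symm, mul_smul]
    rw [← orb_of_mem huQ₂]
    exact mem_orb.2 ⟨x, hx, rfl⟩
  obtain ⟨m, hm⟩ := hodd
  set t : G := u ^ p with ht
  have htc : t ∈ Subgroup.centralizer ((P : Subgroup G) : Set G) := Subgroup.pow_mem _ hu p
  have ht2 : t = (u ^ 2) ^ m * u := by
    rw [ht, hm, ← pow_mul, pow_succ]
  have htsq : t ^ 2 = 1 := by
    rw [ht, ← pow_mul, mul_comm, pow_mul]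
    exact hpow _ hsq
  have hmemP : (u ^ 2) ^ m ∈ (P : Subgroup G) := Subgroup.pow_mem _ hsq m
  have htQ₁ : t • Q₁ ∈ orb P Q₂ := by
    rw [ht2, mul_smul, ← orb_of_mem h1]
    exact mem_orb.2 ⟨_, hmemP, rfl⟩
  have htQ₂ : t • Q₂ ∈ orb P Q₁ := by
    rw [ht2, mul_smul, ← orb_of_mem huQ₂]
    exact mem_orb.2 ⟨_, hmemP, rfl⟩
  have htO₁ : ∀ R ∈ orb P Q₁, t • R ∈ orb P Q₂ := by
    intro R hR
    have h2 := comm_smul_orb htc hR
    rwa [orb_of_mem htQ₁] at h2
  have htO₂ : ∀ R ∈ orb P Q₂, t • R ∈ orb P Q₁ := by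
    intro R hR
    have h2 := comm_smul_orb htc hR
    rwa [orb_of_mem htQ₂] at h2
  -- the permutation
  set τ : Equiv.Perm (Sylow p G) := MulAction.toPermHom G (Sylow p G) t with hτ
  have hτapp : ∀ R, τ R = t • R := fun R => rfl
  have hτsq : τ ^ 2 = 1 := by
    rw [hτ, ← map_pow, htsq, map_one]
  have hτne : τ ≠ 1 := by
    intro h
    have h2 : t • Q₁ = Q₁ := by
      have := congrArg (fun f : Equiv.Perm (Sylow p G) => f Q₁) h
      simpa [hτapp] using this
    rw [h2] at htQ₁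
    exact hdisj Q₁ (mem_orb_self _ _) htQ₁
  have hord : orderOf τ = 2 := orderOf_eq_prime hτsq hτne
  obtain ⟨n', hn'⟩ := Equiv.Perm.cycleType_prime_order (σ := τ) (by rw [hord]; exact Nat.prime_two)
  have hsupp : τ.support = Finset.univ.erase P := by
    ext R
    rw [Equiv.Perm.mem_support, Finset.mem_erase, hτapp]
    constructor
    · intro h
      refine ⟨?_, Finset.mem_univ _⟩
      rintro rfl
      exact h (comm_smul_self htc)
    · rintro ⟨h, -⟩ h2
      rcases hall R with h3 | h3 | h3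
      · exact h h3
      · have := htO₁ R h3
        rw [h2] at this
        exact hdisj R h3 this
      · have := htO₂ R h3
        rw [h2] at this
        exact hdisj R this h3
  have hcard : τ.support.card = 2 * p := by
    rw [hsupp, Finset.card_erase_of_mem (Finset.mem_univ _), Finset.card_univ,
      ← Nat.card_eq_fintype_card, hn]
    omega
  have hsum := Equiv.Perm.sum_cycleType τ
  rw [hn', hord, Multiset.sum_replicate, hcard] at hsum
  have hnp : n' + 1 = p := by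
    simp only [smul_eq_mul] at hsum
    omega
  have hsgnt : Equiv.Perm.sign τ = -1 := by
    rw [Equiv.Perm.sign_of_cycleType, hn', hord, Multiset.sum_replicate, Multiset.card_replicate, hnp]
    simp only [smul_eq_mul]
    have h5 : 2 * p + p = 2 * (p + m) + 1 := by omega
    rw [show p * 2 + p = 2 * (p + m) + 1 by omega, pow_succ, pow_mul]
    simp
  intro hsgn
  have h6 : sgnHom G p t = 1 := by
    rw [ht, map_pow, hsgn, one_pow]
  have h7 : sgnHom G p t = -1 := by
    have h8 : sgnHom G p t = Equiv.Perm.sign τ := by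
      unfold sgnHom
      simp only [hτ, MonoidHom.comp_apply]
      convert rfl
    rw [h8, hsgnt]
  rw [h6] at h7
  exact absurd h7 (by decide)

end faithful

end Cfsg.Agent.Lib.LdNp
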