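import Mathlib
import Cfsg.Agent.Lib.LdNp2
import Cfsg.Agent.Lib.H1Small

set_option autoImplicit false
set_option linter.unusedSectionVars false
set_option linter.unusedVariables false
set_option linter.style.haveILetI false

/-! Sylow numbers `2p+1`: reduction to an odd-order group. -/

namespace Cfsg.Agent.Lib.LdNp

open Subgroup MulAction
open scoped Pointwise

universe u

section compl

variable {X : Type u} [Group X] [Finite X] {p : ℕ} [hp : Fact p.Prime]

theorem exists_complement (hodd : Odd p) (A : Sylow p X) (hA : Nat.card (A : Subgroup X) = p)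
    (hC : Subgroup.centralizer ((A : Subgroup X) : Set X) ≤ (A : Subgroup X))
    (hn : Nat.card (Sylow p X) = 2 * p + 1) :
    ∃ L : Subgroup X, L.Normal ∧ (∀ R : Sylow p X, (R : Subgroup X) ≤ L) ∧ Odd (Nat.card L) ∧
      ∃ a k : ℕ, k ∣ p - 1 ∧ Nat.card L * 2 ^ a = (2 * p + 1) * p * k := by
  classical
  have hpp : p.Prime := hp.out
  haveI h2p : Fact (Nat.Prime 2) := ⟨Nat.prime_two⟩
  set Nrm : Subgroup X := Subgroup.normalizer ((A : Subgroup X) : Set X) with hNrm
  have hidx : Nrm.index = 2 * p + 1 := by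
    have := Sylow.card_eq_index_normalizer A
    rw [hn] at this
    exact this.symm
  have hCA : Subgroup.centralizer ((A : Subgroup X) : Set X) = (A : Subgroup X) :=
    le_antisymm hC (Cfsg.Agent.Lib.H1Small.le_centralizer_of_prime_card _ hA)
  have hk := Cfsg.Agent.Lib.H1Small.relIndex_centralizer_dvd_sub_one (A : Subgroup X) hA
  set k := (Subgroup.centralizer ((A : Subgroup X) : Set X)).relIndex Nrm with hkdef
  have hCN : Subgroup.centralizer ((A : Subgroup X) : Set X) ≤ Nrm :=
    Subgroup.centralizer_le_normalizer _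
  have hcardN : k * p = Nat.card Nrm := by
    have := Cfsg.Agent.Lib.H1Small.relIndex_mul_card hCN
    have e : Nat.card (Subgroup.centralizer ((A : Subgroup X) : Set X)) = p := by rw [hCA, hA]
    rwa [e] at this
  have hcardX : Nat.card X = (2 * p + 1) * p * k := by
    have := Subgroup.card_mul_index Nrm
    rw [hidx, ← hcardN] at this
    rw [← this]
    ring
  -- a Sylow `2`-subgroup inside the normalizer
  obtain ⟨S₀⟩ : Nonempty (Sylow 2 Nrm) := inferInstance
  have hSp : IsPGroup 2 ((S₀ : Subgroup Nrm).map Nrm.subtype) := S₀.2.map _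
  have hSi : ¬ 2 ∣ ((S₀ : Subgroup Nrm).map Nrm.subtype).index := by
    rw [Subgroup.index_map_subtype, hidx]
    intro h
    rcases (Nat.Prime.dvd_mul Nat.prime_two).1 h with h3 | h3
    · exact S₀.not_dvd_index h3
    · omega
  set S : Sylow 2 X := hSp.toSylow hSi with hS
  have hScoe : (S : Subgroup X) = (S₀ : Subgroup Nrm).map Nrm.subtype := IsPGroup.toSylow_coe hSp hSi
  have hSN : (S : Subgroup X) ≤ Nrm := by
    rw [hScoe]
    exact Subgroup.map_subtype_le _
  have hScyc : IsCyclic (S : Subgroup X) := by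
    haveI : IsCyclic (A : Subgroup X) := isCyclic_of_prime_card hA
    haveI : Fact (Nat.card (A : Subgroup X)).Prime := ⟨by rw [hA]; exact hpp⟩
    haveI hcycM : IsCyclic (MulAut (A : Subgroup X)) :=
      isCyclic_of_surjective _ (IsCyclic.mulAutMulEquiv (A : Subgroup X)).symm.surjective
    let φ : (S : Subgroup X) →* MulAut (A : Subgroup X) :=
      ((A : Subgroup X).normalizerMonoidHom).comp (Subgroup.inclusion hSN)
    apply isCyclic_of_injective φ
    rw [injective_iff_map_eq_one]
    rintro ⟨s, hs⟩ hs1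
    have h3 : (Subgroup.inclusion hSN ⟨s, hs⟩) ∈ ((A : Subgroup X).normalizerMonoidHom).ker := hs1
    rw [Subgroup.normalizerMonoidHom_ker, Subgroup.mem_subgroupOf] at h3
    have h4 : s ∈ (A : Subgroup X) := by
      rw [hCA] at h3
      exact h3
    -- `s` has `2`-power and `p`-power order
    have h5 : Nat.Coprime (Nat.card (S : Subgroup X)) (Nat.card (A : Subgroup X)) := by
      obtain ⟨i, hi⟩ := IsPGroup.iff_card.1 S.2
      rw [hi, hA]
      apply Nat.Coprime.pow_left
      exact (Nat.coprime_primes Nat.prime_two hpp).2 (by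
        rintro rfl
        exact absurd hodd (by decide))
    have h6 := Subgroup.inf_eq_bot_of_coprime h5
    have h7 : s ∈ (S : Subgroup X) ⊓ (A : Subgroup X) := ⟨hs, h4⟩
    rw [h6, Subgroup.mem_bot] at h7
    exact Subtype.ext h7
  have hRsub : ∀ (L : Subgroup X) [L.Normal] (a : ℕ), L.index = 2 ^ a → ∀ R : Sylow p X,
      (R : Subgroup X) ≤ L := by
    intro L _ a hLi R y hy
    rw [← QuotientGroup.eq_one_iff]
    have h3 : orderOf (y : X ⧸ L) ∣ orderOf y := orderOf_map_dvd (QuotientGroup.mk' L) y
    have h4 : orderOf (y : X ⧸ L) ∣ 2 ^ a := by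
      rw [← hLi]
      exact orderOf_dvd_natCard _
    have h5 : ∃ i, orderOf y = p ^ i := by
      obtain ⟨i, hi⟩ := (IsPGroup.iff_orderOf.1 R.2) ⟨y, hy⟩
      exact ⟨i, by rw [← Subgroup.orderOf_mk y hy]; exact hi⟩
    obtain ⟨i, hi⟩ := h5
    rw [hi] at h3
    have h6 : Nat.Coprime (p ^ i) (2 ^ a) := by
      apply Nat.Coprime.pow
      exact (Nat.coprime_primes hpp Nat.prime_two).2 (by
        rintro rfl
        exact absurd hodd (by decide))
    exact orderOf_eq_one_iff.1 (Nat.eq_one_of_dvd_coprimes h6 h3 h4)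
  by_cases he : 2 ∣ Nat.card X
  · have hmf : (Nat.card X).minFac = 2 := Nat.minFac_eq_two_iff _ |>.2 he
    have hcompl := IsCyclic.isComplement' hmf hScyc
    set L := (MonoidHom.transferSylow S (IsCyclic.normalizer_le_centralizer hmf hScyc)).ker with hL
    obtain ⟨a, ha⟩ := IsPGroup.iff_card.1 S.2
    have hLi : L.index = 2 ^ a := by
      rw [hcompl.symm.index_eq_card, ha]
    refine ⟨L, inferInstance, hRsub L a hLi, ?_, a, k, hk, ?_⟩
    · rw [← hcompl.index_eq_card]
      exact Nat.not_even_iff_odd.1 (fun h => S.not_dvd_index h.two_dvd)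
    · rw [← hLi, Subgroup.card_mul_index, hcardX]
  · refine ⟨⊤, inferInstance, fun R => le_top, ?_, 0, k, hk, ?_⟩
    · rw [Subgroup.card_top]
      exact Nat.not_even_iff_odd.1 (fun h => he h.two_dvd)
    · rw [Subgroup.card_top, pow_zero, mul_one]
      exact hcardX

end compl

section main

theorem main_red (p : ℕ) [hp : Fact p.Prime] (hp3 : 3 ≤ p) (hodd : Odd p) :
    ∀ (m : ℕ) (G : Type u) [Group G] [Finite G], Nat.card G = m → Nat.card (Sylow p G) = 2 * p + 1 →
      ∃ (L : Type u) (_ : Group L) (_ : Finite L) (a k : ℕ), Odd (Nat.card L) ∧ k ∣ p - 1 ∧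
        Nat.card L * 2 ^ a = (2 * p + 1) * p * k ∧ Nat.card (Sylow p L) = 2 * p + 1 := by
  intro m
  induction m using Nat.strong_induction_on with
  | _ m ih =>
    intro G _ _ hm hn
    classical
    set K : Subgroup G := (MulAction.toPermHom G (Sylow p G)).ker with hK
    have hKmem : ∀ g : G, g ∈ K ↔ ∀ Q : Sylow p G, g • Q = Q := by
      intro g
      rw [hK, MonoidHom.mem_ker]
      constructor
      · intro h Q
        have := congrArg (fun f : Equiv.Perm (Sylow p G) => f Q) h
        simpa using this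
      · intro h
        ext Q
        simp [h Q]
    by_cases hKb : K = ⊥
    · -- faithful case
      have hfaith : ∀ g : G, (∀ Q : Sylow p G, g • Q = Q) → g = 1 := by
        intro g hg
        have := (hKmem g).2 hg
        rwa [hKb, Subgroup.mem_bot] at this
      obtain ⟨P⟩ : Nonempty (Sylow p G) := inferInstance
      obtain ⟨Q₁, Q₂, hQ₁, hQ₂, hQ₁₂, hall⟩ := exists_partition hp3 hn P
      set T : Subgroup G := (sgnHom G p).ker with hT
      have hcardP := card_sylow_eq hp3 hn hfaith
      have hST : ∀ R : Sylow p G, (R : Subgroup G) ≤ T := by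
        intro R x hx
        rw [hT, MonoidHom.mem_ker]
        have h2 : (⟨x, hx⟩ : ↥(R : Subgroup G)) ^ (Nat.card (R : Subgroup G)) = 1 := pow_card_eq_one'
        have h3 : x ^ (Nat.card (R : Subgroup G)) = 1 := congrArg Subtype.val h2
        rw [hcardP R] at h3
        have h4 : (sgnHom G p x) ^ p = 1 := by rw [← map_pow, h3, map_one]
        rcases Int.units_eq_one_or (sgnHom G p x) with h5 | h5
        · exact h5
        · rw [h5, hodd.neg_one_pow] at h4
          exact absurd h4 (by decide)
      have hCT : ∀ u : G, u ∈ Subgroup.centralizer ((P : Subgroup G) : Set G) → u ∈ T → u ∈ (P : Subgroup G) := by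
        intro u hu huT
        rcases hall (u • Q₁) with h | h | h
        · exfalso
          apply hQ₁
          rw [← comm_smul_self hu] at h
          exact smul_left_cancel u h
        · exact mem_of_comm_preserve hp3 hn hfaith P Q₁ Q₂ hQ₁ hQ₂ hQ₁₂ hall hu h
        · exfalso
          apply sgn_ne_one hp3 hodd hn hfaith P Q₁ Q₂ hQ₁ hQ₂ hQ₁₂ hall hu h
          rwa [hT, MonoidHom.mem_ker] at huT
      have hnT : Nat.card (Sylow p T) = 2 * p + 1 := by
        rw [card_sylow_of_le T hST, hn]
      let A : Sylow p T := P.subtype (hST P)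
      have hAc : Nat.card (A : Subgroup T) = p := by
        have h1 : Nat.card (A : Subgroup T) = Nat.card (P : Subgroup G) :=
          Nat.card_congr (Subgroup.subgroupOfEquivOfLe (hST P)).toEquiv
        rw [h1, hcardP P]
      have hAC : Subgroup.centralizer ((A : Subgroup T) : Set T) ≤ (A : Subgroup T) := by
        intro u hu
        have h1 : (u : G) ∈ (P : Subgroup G) := by
          apply hCT (u : G) _ u.2
          rw [Subgroup.mem_centralizer_iff]
          intro x hx
          have h2 : (⟨x, hST P hx⟩ : T) ∈ ((A : Subgroup T) : Set T) := by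
            show (⟨x, hST P hx⟩ : T) ∈ (P : Subgroup G).subgroupOf T
            rw [Subgroup.mem_subgroupOf]; exact hx
          have h3 := (Subgroup.mem_centralizer_iff.1 hu) _ h2
          exact congrArg Subtype.val h3
        show u ∈ (P : Subgroup G).subgroupOf T
        rw [Subgroup.mem_subgroupOf]; exact h1
      obtain ⟨L, hLn, hLS, hLo, a, k, hk, hLc⟩ := exists_complement hodd A hAc hAC hnT
      refine ⟨L, inferInstance, inferInstance, a, k, hLo, hk, hLc, ?_⟩
      rw [card_sylow_of_le L hLS, hnT]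
    · -- quotient
      have hKN : ∀ Q : Sylow p G, K ≤ Subgroup.normalizer ((Q : Subgroup G) : Set G) := by
        intro Q g hg
        exact Sylow.smul_eq_iff_mem_normalizer.1 ((hKmem g).1 hg Q)
      have h1 : Nat.card (G ⧸ K) < m := by
        have h2 := Subgroup.card_eq_card_quotient_mul_card_subgroup K
        have h3 : 1 < Nat.card K := by
          have h4 : Nat.card K ≠ 1 := fun h => hKb (Subgroup.eq_bot_of_card_eq _ h)
          have h5 : 0 < Nat.card K := Nat.card_pos
          omega
        have h6 : 0 < Nat.card (G ⧸ K) := Nat.card_pos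
        rw [← hm, h2]
        nlinarith
      exact ih _ h1 (G ⧸ K) rfl (by rw [card_sylow_quot K hKN, hn])

theorem odd_part {x m a b : ℕ} (hx : Odd x) (hm : Odd m) (h : x * 2 ^ a = m * 2 ^ b) : x = m := by
  have h1 : x ∣ m * 2 ^ b := Dvd.intro _ h
  have h2 : m ∣ x * 2 ^ a := Dvd.intro _ h.symm
  have h3 : Nat.Coprime x (2 ^ b) := Nat.Coprime.pow_right _ (Nat.coprime_two_right.2 hx)
  have h4 : Nat.Coprime m (2 ^ a) := Nat.Coprime.pow_right _ (Nat.coprime_two_right.2 hm)
  exact Nat.dvd_antisymm (h3.dvd_of_dvd_mul_right h1) (h4.dvd_of_dvd_mul_right h2)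

theorem no_35 {G : Type u} [Group G] [Finite G] : Nat.card (Sylow 17 G) ≠ 35 := by
  intro h
  haveI : Fact (Nat.Prime 17) := ⟨by norm_num⟩
  obtain ⟨L, _, _, a, k, hLo, hk, hLc, hL35⟩ := main_red 17 (by norm_num) (by decide) _ G rfl (by rw [h])
  have hk16 : k ∣ 2 ^ 4 := by simpa using hk
  obtain ⟨b, -, rfl⟩ := (Nat.dvd_prime_pow Nat.prime_two).1 hk16
  have h595 : Nat.card L = 595 := odd_part hLo (by decide) (by rw [hLc] <;> ring)
  exact arith595 h595 (by rw [hL35])

theorem no_15 {G : Type u} [Group G] [Finite G] : Nat.card (Sylow 7 G) ≠ 15 := by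
  intro h
  haveI : Fact (Nat.Prime 7) := ⟨by norm_num⟩
  obtain ⟨L, _, _, a, k, hLo, hk, hLc, hL15⟩ := main_red 7 (by norm_num) (by decide) _ G rfl (by rw [h])
  have hk6 : k ∣ 6 := by simpa using hk
  have hcase : k = 1 ∨ k = 2 ∨ k = 3 ∨ k = 6 := by
    have hall : ∀ d < 7, d ∣ 6 → d = 1 ∨ d = 2 ∨ d = 3 ∨ d = 6 := by decide +kernel
    exact hall k (Nat.lt_succ_of_le (Nat.le_of_dvd (by norm_num) hk6)) hk6
  have hfin : Nat.card L = 35 * 3 ^ 1 ∨ Nat.card L = 35 * 3 ^ 2 := by
    rcases hcase with rfl | rfl | rfl | rfl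
    · left
      exact odd_part (b := 0) hLo (by decide) (by rw [hLc] <;> ring)
    · left
      exact odd_part (b := 1) hLo (by decide) (by rw [hLc] <;> ring)
    · right
      exact odd_part (b := 0) hLo (by decide) (by rw [hLc] <;> ring)
    · right
      exact odd_part (b := 1) hLo (by decide) (by rw [hLc] <;> ring)
  rcases hfin with h1 | h1
  · exact arith7 1 (Or.inl rfl) h1 (by rw [hL15])
  · exact arith7 2 (Or.inr rfl) h1 (by rw [hL15])

end main

end Cfsg.Agent.Lib.LdNp
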