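import Mathlib

/-!
# The abelianization of a `p`-group and the centralizer on a maximal abelianization
-/

set_option autoImplicit false

namespace Cfsg.Agent.Lib.LdP5

open Subgroup
open scoped commutatorElement

variable {P : Type*} [Group P] {p : ℕ} [hpp : Fact p.Prime]

theorem sup_zpowers_eq_top [Finite P] {N : Subgroup P} (hN : N.index = p) {x : P} (hx : x ∉ N) :
    N ⊔ zpowers x = ⊤ := by
  have hle : N ≤ N ⊔ zpowers x := le_sup_left
  have hd : (N ⊔ zpowers x).index ∣ N.index := Subgroup.index_dvd_of_le hle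
  rw [hN] at hd
  rcases (Nat.dvd_prime hpp.out).1 hd with h | h
  · exact Subgroup.index_eq_one.1 h
  · exfalso
    have hc1 := Subgroup.card_mul_index N
    have hc2 := Subgroup.card_mul_index (N ⊔ zpowers x)
    rw [hN] at hc1; rw [h] at hc2
    have hc : Nat.card (N ⊔ zpowers x : Subgroup P) = Nat.card N :=
      Nat.eq_of_mul_eq_mul_right hpp.out.pos (hc2.trans hc1.symm)
    have : N = N ⊔ zpowers x := Subgroup.eq_of_le_of_card_ge hle hc.le
    apply hx
    rw [this]
    exact (le_sup_right : zpowers x ≤ N ⊔ zpowers x) (mem_zpowers x)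

theorem comm_of_gen {Q : Type*} [Group Q] (π : P →* Q) {N : Subgroup P} {x : P} (hgen : N ⊔ zpowers x = ⊤)
    (h1 : ∀ a ∈ N, ∀ b ∈ N, Commute (π a) (π b)) (h2 : ∀ a ∈ N, Commute (π x) (π a)) (g h : P) :
    Commute (π g) (π h) := by
  let Z : P → Subgroup P := fun g => (centralizer ({π g} : Set Q)).comap π
  have memZ : ∀ g h : P, h ∈ Z g ↔ Commute (π g) (π h) := by
    intro g h
    simp only [Z, mem_comap, mem_centralizer_singleton_iff]
    exact ⟨fun h => h.symm, fun h => h.symm⟩
  have step1 : ∀ a ∈ N, Z a = ⊤ := by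
    intro a ha
    rw [eq_top_iff, ← hgen, sup_le_iff]
    constructor
    · intro b hb
      exact (memZ a b).2 (h1 a ha b hb)
    · rw [zpowers_le]
      exact (memZ a x).2 (h2 a ha).symm
  have step2 : Z x = ⊤ := by
    rw [eq_top_iff, ← hgen, sup_le_iff]
    constructor
    · intro b hb
      exact (memZ x b).2 (h2 b hb)
    · rw [zpowers_le]
      exact (memZ x x).2 (Commute.refl _)
  have step3 : Z g = ⊤ := by
    rw [eq_top_iff, ← hgen, sup_le_iff]
    constructor
    · intro b hb
      refine (memZ g b).2 (Commute.symm ?_)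
      refine (memZ b g).1 ?_
      rw [step1 b hb]; trivial
    · rw [zpowers_le]
      refine (memZ g x).2 (Commute.symm ?_)
      refine (memZ x g).1 ?_
      rw [step2]; trivial
  refine (memZ g h).1 ?_
  rw [step3]; trivial

variable (N : Subgroup P) [hNn : N.Normal] (x : P)

/-- the commutator with `x` on `N` modulo `N'`. -/
noncomputable def ff : N →* Abelianization N :=
  (Abelianization.of.comp (MulAut.conjNormal x : N ≃* N).toMonoidHom) / Abelianization.of

theorem ff_apply (n : N) : ff N x n = Abelianization.of (MulAut.conjNormal x n) / Abelianization.of n := rfl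

theorem coe_conj (n : N) : ((MulAut.conjNormal x n : N) : P) = x * n * x⁻¹ := by
  simp [MulAut.conjNormal_apply]

/-- the preimage in `N` of the image of `ff`. -/
noncomputable def TT : Subgroup N := (ff N x).range.comap Abelianization.of

theorem mem_TT (n : N) : n ∈ TT N x ↔ ∃ m : N, ff N x m = Abelianization.of n := by
  simp [TT, MonoidHom.mem_range]

theorem comm_le : (commutator N) ≤ TT N x := by
  intro c hc
  rw [mem_TT]
  refine ⟨1, ?_⟩
  have : Abelianization.of c = 1 := by
    rw [← MonoidHom.mem_ker, Abelianization.ker_of]; exact hc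
  rw [this, map_one]

theorem ker_mem (n : N) : n ∈ (ff N x).ker ↔ x * n * x⁻¹ * (n : P)⁻¹ ∈ (commutator N).map N.subtype := by
  have h1 : ((MulAut.conjNormal x n * n⁻¹ : N) : P) = x * n * x⁻¹ * (n : P)⁻¹ := by
    simp [MulAut.conjNormal_apply]
  rw [← h1, MonoidHom.mem_ker, ff_apply, div_eq_mul_inv, ← map_inv, ← map_mul,
    ← MonoidHom.mem_ker, Abelianization.ker_of]
  constructor
  · intro h
    exact ⟨_, h, rfl⟩
  · rintro ⟨c, hc, hc2⟩
    have : c = MulAut.conjNormal x n * n⁻¹ := Subtype.ext hc2
    rwa [← this]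

/-- the image of `TT` in `P`. -/
noncomputable def TP : Subgroup P := (TT N x).map N.subtype

theorem mem_TP_of (n : N) (h : n ∈ TT N x) : (n : P) ∈ TP N x := ⟨n, h, rfl⟩

theorem comm_mem (n : N) : x * n * x⁻¹ * (n : P)⁻¹ ∈ TP N x := by
  have h1 : ((MulAut.conjNormal x n * n⁻¹ : N) : P) = x * n * x⁻¹ * (n : P)⁻¹ := by
    simp [MulAut.conjNormal_apply]
  rw [← h1]
  apply mem_TP_of
  rw [mem_TT]
  refine ⟨n, ?_⟩
  rw [ff_apply, map_mul, map_inv, div_eq_mul_inv]

theorem comm_N_le : (commutator N).map N.subtype ≤ commutator P := by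
  rw [_root_.commutator_def, _root_.commutator_def, map_commutator]
  exact commutator_mono le_top le_top

theorem TP_le : TP N x ≤ commutator P := by
  rintro _ ⟨n, hn, rfl⟩
  obtain ⟨m, hm⟩ := (mem_TT N x n).1 hn
  rw [ff_apply, div_eq_mul_inv, ← map_inv, ← map_mul, eq_comm, ← mul_inv_eq_one, ← map_inv, ← map_mul,
    ← MonoidHom.mem_ker, Abelianization.ker_of] at hm
  have h2 := comm_N_le N (mem_map_of_mem N.subtype hm)
  have h3 : ((MulAut.conjNormal x m * m⁻¹ : N) : P) ∈ commutator P := by
    have h1 : ((MulAut.conjNormal x m * m⁻¹ : N) : P) = ⁅x, (m : P)⁆ := by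
      simp [MulAut.conjNormal_apply, commutatorElement_def]
    rw [h1]
    exact commutator_mem_commutator (mem_top _) (mem_top _)
  have h4 := mul_mem h2 h3
  have key : ∀ c : N, (N.subtype (n * c⁻¹)) * (c : P) = n := fun c => by simp
  have h5 := key (MulAut.conjNormal x m * m⁻¹)
  change (n : P) ∈ _
  rw [← h5]
  exact h4

theorem conj_x_mem {h : P} (hh : h ∈ TP N x) : x * h * x⁻¹ ∈ TP N x := by
  obtain ⟨t, ht, rfl⟩ := hh
  obtain ⟨m, hm⟩ := (mem_TT N x t).1 ht
  have h1 : x * (N.subtype t) * x⁻¹ = ((MulAut.conjNormal x t : N) : P) := by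
    simp [MulAut.conjNormal_apply]
  rw [h1]
  apply mem_TP_of
  rw [mem_TT]
  refine ⟨MulAut.conjNormal x m, ?_⟩
  have h2 := congrArg (Abelianization.map ((MulAut.conjNormal x : N ≃* N).toMonoidHom)) hm
  rw [ff_apply, map_div] at h2
  simp only [Abelianization.map_of] at h2
  rw [ff_apply]
  exact h2

theorem conj_x_inv_mem {h : P} (hh : h ∈ TP N x) : x⁻¹ * h * x ∈ TP N x := by
  obtain ⟨t, ht, rfl⟩ := hh
  obtain ⟨m, hm⟩ := (mem_TT N x t).1 ht
  have h1 : x⁻¹ * (N.subtype t) * x = ((MulAut.conjNormal x⁻¹ t : N) : P) := by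
    simp [MulAut.conjNormal_apply]
  rw [h1]
  apply mem_TP_of
  rw [mem_TT]
  refine ⟨MulAut.conjNormal x⁻¹ m, ?_⟩
  have h2 := congrArg (Abelianization.map ((MulAut.conjNormal x⁻¹ : N ≃* N).toMonoidHom)) hm
  rw [ff_apply, map_div] at h2
  simp only [Abelianization.map_of] at h2
  rw [ff_apply]
  have h3 : MulEquiv.toMonoidHom (MulAut.conjNormal x⁻¹) (MulAut.conjNormal x m) = m := by
    apply Subtype.ext
    simp [MulAut.conjNormal_apply, mul_assoc]
  have h4 : MulAut.conjNormal x (MulAut.conjNormal x⁻¹ m) = m := by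
    apply Subtype.ext
    simp [MulAut.conjNormal_apply, mul_assoc]
  rw [h3] at h2
  rw [h4]
  exact h2

theorem conj_N_mem (n : N) {h : P} (hh : h ∈ TP N x) : (n : P) * h * (n : P)⁻¹ ∈ TP N x := by
  obtain ⟨t, ht, rfl⟩ := hh
  have h1 : (n : P) * (N.subtype t) * (n : P)⁻¹ = ((n * t * n⁻¹ : N) : P) := by
    simp
  rw [h1]
  apply mem_TP_of
  rw [mem_TT]
  obtain ⟨m, hm⟩ := (mem_TT N x t).1 ht
  refine ⟨m, ?_⟩
  rw [hm, map_mul, map_mul, map_inv, mul_comm (Abelianization.of n), mul_inv_cancel_right]

theorem TP_normal (hgen : N ⊔ zpowers x = ⊤) : (TP N x).Normal := by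
  have h : (⊤ : Subgroup P) ≤ normalizer (TP N x : Set P) := by
    rw [← hgen, sup_le_iff]
    constructor
    · intro n hn
      rw [mem_normalizer_iff]
      intro h
      constructor
      · intro hh
        exact conj_N_mem N x ⟨n, hn⟩ hh
      · intro hh
        have := conj_N_mem N x (⟨n, hn⟩⁻¹) hh
        simpa [mul_assoc] using this
    · rw [zpowers_le, mem_normalizer_iff]
      intro h
      constructor
      · exact conj_x_mem N x
      · intro hh
        have := conj_x_inv_mem N x hh
        simpa [mul_assoc] using this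
  rw [← Subgroup.normalizer_eq_top_iff]
  exact eq_top_iff.2 h

theorem le_TP (hgen : N ⊔ zpowers x = ⊤) : commutator P ≤ TP N x := by
  haveI := TP_normal N x hgen
  rw [_root_.commutator_def, commutator_le]
  intro g _ h _
  rw [← QuotientGroup.eq_one_iff, ← QuotientGroup.mk'_apply, map_commutatorElement,
    commutatorElement_eq_one_iff_commute]
  apply comm_of_gen (QuotientGroup.mk' (TP N x)) hgen
  · intro a ha b hb
    rw [← commutatorElement_eq_one_iff_commute, ← map_commutatorElement, QuotientGroup.mk'_apply,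
      QuotientGroup.eq_one_iff]
    have h1 : ⁅a, b⁆ = ((⁅(⟨a, ha⟩ : N), (⟨b, hb⟩ : N)⁆ : N) : P) := by
      simp [commutatorElement_def]
    rw [h1]
    apply mem_TP_of
    apply comm_le
    exact commutator_mem_commutator (mem_top _) (mem_top _)
  · intro a ha
    rw [← commutatorElement_eq_one_iff_commute, ← map_commutatorElement, QuotientGroup.mk'_apply,
      QuotientGroup.eq_one_iff]
    exact comm_mem N x ⟨a, ha⟩

theorem comm_eq (hgen : N ⊔ zpowers x = ⊤) : commutator P = TP N x :=
  le_antisymm (le_TP N x hgen) (TP_le N x)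

theorem index_mul [Finite P] (hN : N.index = p) (hx : x ∉ N) :
    (commutator P).index * Nat.card (commutator N) = p * Nat.card (ff N x).ker := by
  classical
  have hsurj : Function.Surjective (Abelianization.of : N →* Abelianization N) :=
    QuotientGroup.mk'_surjective _
  rw [comm_eq N x (sup_zpowers_eq_top hN hx), TP, Subgroup.index_map_subtype, hN, TT,
    Subgroup.index_comap_of_surjective _ hsurj]
  set R := (ff N x).range
  have h1 := Subgroup.card_mul_index R
  have h2 := Subgroup.card_mul_index (ff N x).ker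
  rw [Subgroup.index_ker] at h2
  have h3 := Subgroup.card_mul_index (commutator N)
  have h3' : (commutator N).index = Nat.card (Abelianization N) := rfl
  rw [h3'] at h3
  have hR : 0 < Nat.card R := Nat.card_pos
  apply Nat.eq_of_mul_eq_mul_right hR
  calc R.index * p * Nat.card (commutator N) * Nat.card R
      = p * (Nat.card R * R.index * Nat.card (commutator N)) := by ring
    _ = p * (Nat.card (Abelianization N) * Nat.card (commutator N)) := by rw [h1]
    _ = p * Nat.card N := by rw [← h3]; ring
    _ = p * (Nat.card (ff N x).ker * Nat.card R) := by rw [h2]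
    _ = _ := by ring

theorem card_eq (x : P) : Nat.card {n : N // x * n * x⁻¹ * (n : P)⁻¹ ∈ (commutator N).map N.subtype} =
    Nat.card (ff N x).ker := by
  apply Nat.card_congr
  exact Equiv.subtypeEquivRight (fun n => (ker_mem N x n).symm)

theorem iff_one [Finite P] (hN : N.index = p) (hx : x ∉ N) :
    (commutator P).index = p ^ 2 ↔
      Nat.card {n : N // x * n * x⁻¹ * (n : P)⁻¹ ∈ (commutator N).map N.subtype} = p * Nat.card (commutator N) := by
  rw [card_eq]
  have h := index_mul N x hN hx
  have hp := hpp.out.pos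
  have hc : 0 < Nat.card (commutator N) := Nat.card_pos
  constructor
  · intro h1
    rw [h1] at h
    apply Nat.eq_of_mul_eq_mul_left hp
    rw [← h]; ring
  · intro h1
    rw [h1] at h
    apply Nat.eq_of_mul_eq_mul_right hc
    rw [h]; ring

theorem main [Finite P] (hN : N.index = p) :
    ((commutator P).index = p ^ 2 ↔ ∀ x : P, x ∉ N →
        Nat.card {n : N // x * n * x⁻¹ * (n : P)⁻¹ ∈ (commutator N).map N.subtype} = p * Nat.card (commutator N)) ∧
    ((commutator P).index = p ^ 2 ↔ ∃ x : P, x ∉ N ∧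
        Nat.card {n : N // x * n * x⁻¹ * (n : P)⁻¹ ∈ (commutator N).map N.subtype} = p * Nat.card (commutator N)) := by
  have hex : ∃ x : P, x ∉ N := by
    by_contra hall
    push Not at hall
    have : N = ⊤ := eq_top_iff.2 fun g _ => hall g
    rw [this, Subgroup.index_top] at hN
    exact hpp.out.ne_one hN.symm
  obtain ⟨x₀, hx₀⟩ := hex
  constructor
  · constructor
    · intro h x hx
      exact (iff_one N x hN hx).1 h
    · intro h
      exact (iff_one N x₀ hN hx₀).2 (h x₀ hx₀)
  · constructor
    · intro h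
      exact ⟨x₀, hx₀, (iff_one N x₀ hN hx₀).1 h⟩
    · rintro ⟨x, hx, h⟩
      exact (iff_one N x hN hx).2 h

end Cfsg.Agent.Lib.LdP5
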