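import Cfsg.Agent.Lib.H1Wielandt
import Cfsg.Agent.Lib.PNilp
import Cfsg.Agent.Lib.H1Cop
import Cfsg.Prelude.Def_HallClasses

set_option autoImplicit false

/-! Wielandt's theorem on Hall subgroups `A × B` with `A` nilpotent. -/

namespace Cfsg.Agent.Lib.LdWH

open Cfsg Pointwise Subgroup

variable {G : Type*} [Group G] [Finite G]

/-- `B` is a Hall `T`-subgroup containing a conjugate of each `T`-subgroup. -/
def QQ (T : Set ℕ) (B : Subgroup G) : Prop :=
  IsPiHall T B ∧ ∀ X : Subgroup G, IsPiSubgroup T X → ∃ g : G, X ≤ MulAut.conj g • B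

theorem mem_of_coprime_relIndex {N C : Subgroup G} (hC : C ≤ N) (hn : (C.subgroupOf N).Normal)
    {y : G} (hy : y ∈ N) (hc : (orderOf y).Coprime (C.relIndex N)) : y ∈ C := by
  have h1 : (⟨y, hy⟩ : N) ^ (C.subgroupOf N).index ∈ C.subgroupOf N := Subgroup.pow_index_mem _ _
  have h2 : y ^ (C.relIndex N) ∈ C := by
    have := (Subgroup.mem_subgroupOf).1 h1
    simpa [Subgroup.relIndex] using this
  obtain ⟨m, hm⟩ := exists_pow_eq_self_of_coprime (n := C.relIndex N) (x := y) hc.symm
  rw [← hm]
  exact C.pow_mem h2 m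

/-- A `π`-element normalizing `Q` centralizes it if some `B ≤ C(Q)` has index prime to `π`. -/
theorem mem_centralizer_of_index {Q B : Subgroup G} {π : Set ℕ}
    (hB : B ≤ centralizer (Q : Set G)) (hπ : ∀ r : ℕ, r.Prime → r ∈ π → ¬ r ∣ B.index) {y : G}
    (hy : y ∈ normalizer (Q : Set G)) (hyπ : ∀ r : ℕ, r.Prime → r ∣ orderOf y → r ∈ π) :
    y ∈ centralizer (Q : Set G) := by
  have hCN : centralizer (Q : Set G) ≤ normalizer (Q : Set G) := Subgroup.centralizer_le_normalizer _
  have hnorm : ((centralizer (Q : Set G)).subgroupOf (normalizer (Q : Set G))).Normal := by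
    refine ⟨fun n hn g => ?_⟩
    rw [Subgroup.mem_subgroupOf] at hn ⊢
    rw [Subgroup.mem_centralizer_iff] at hn ⊢
    intro x hx
    have hg : (g : G)⁻¹ ∈ normalizer (Q : Set G) := inv_mem g.2
    have hx' : (g : G)⁻¹ * x * (g : G) ∈ Q := by
      have := (Subgroup.mem_normalizer_iff.1 hg x).1 hx
      simpa using this
    have h := hn _ hx'
    have e : x * ((g : G) * (n : G) * (g : G)⁻¹) = (g : G) * (((g : G)⁻¹ * x * (g : G)) * (n : G)) * (g : G)⁻¹ := by group
    have e2 : ((g : G) * (n : G) * (g : G)⁻¹) * x = (g : G) * ((n : G) * ((g : G)⁻¹ * x * (g : G))) * (g : G)⁻¹ := by group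
    push_cast
    rw [e, e2, h]
  refine mem_of_coprime_relIndex hCN hnorm hy ?_
  refine Nat.coprime_of_dvd ?_
  intro r hr h1 h2
  have h3 : (centralizer (Q : Set G)).relIndex (normalizer (Q : Set G)) ∣ B.index := by
    have e1 : B.relIndex (centralizer (Q : Set G)) * (centralizer (Q : Set G)).index = B.index :=
      Subgroup.relIndex_mul_index hB
    have e2 : (centralizer (Q : Set G)).relIndex (normalizer (Q : Set G)) * (normalizer (Q : Set G)).index
        = (centralizer (Q : Set G)).index := Subgroup.relIndex_mul_index hCN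
    rw [← e1, ← e2]
    exact ⟨B.relIndex _ * (normalizer (Q : Set G)).index, by ring⟩
  exact hπ r hr (hyπ r hr h1) (h2.trans h3)


theorem conj_index (g : G) (B : Subgroup G) : (MulAut.conj g • B).index = B.index := by
  have h1 := Subgroup.card_mul_index (MulAut.conj g • B)
  have h2 := Subgroup.card_mul_index B
  have h3 : Nat.card (MulAut.conj g • B : Subgroup G) = Nat.card B :=
    (Nat.card_congr (Subgroup.equivSMul (MulAut.conj g) B).toEquiv).symm
  rw [h3] at h1
  have : Nat.card B ≠ 0 := Nat.card_pos.ne'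
  exact Nat.eq_of_mul_eq_mul_left (Nat.pos_of_ne_zero this) (h1.trans h2.symm)

theorem conj_mem_iff {g x : G} {B : Subgroup G} : x ∈ MulAut.conj g • B ↔ g⁻¹ * x * g ∈ B := by
  rw [Subgroup.mem_pointwise_smul_iff_inv_smul_mem]
  simp [MulAut.smul_def]

theorem mem_conj {g x : G} {B : Subgroup G} (h : x ∈ B) : g * x * g⁻¹ ∈ MulAut.conj g • B := by
  rw [conj_mem_iff]
  simpa [mul_assoc] using h

/-- The key step: adjoin one Sylow subgroup commuting with `B`. -/
theorem main_step {T : Set ℕ} {B : Subgroup G} (hQ : QQ T B) {p : ℕ} [hp : Fact p.Prime]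
    (hpT : p ∉ T) (P : Sylow p G)
    (hcomm : ∀ a ∈ (P : Subgroup G), ∀ b ∈ B, a * b = b * a) :
    QQ (T ∪ {p}) ((P : Subgroup G) ⊔ B) := by
  have hPB : (P : Subgroup G) ≤ normalizer (B : Set G) := by
    refine Cfsg.Agent.Lib.H1Cop.le_normalizer_of_forall ?_
    intro a ha k hk
    rw [hcomm a ha k hk]
    simpa using hk
  constructor
  · constructor
    · intro r hr hd
      have h := Cfsg.Agent.Lib.H1Cop.card_sup_mul_inf_of_normalizes hPB
      have hd2 : r ∣ Nat.card P * Nat.card B := by
        rw [← h]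
        exact hd.trans (Dvd.intro _ rfl)
      rcases (Nat.Prime.dvd_mul hr).1 hd2 with h3 | h3
      · right
        have hpp := P.2
        have : r = p := by
          have h5 := (IsPGroup.iff_card.1 P.isPGroup').choose_spec
          rw [h5] at h3
          exact (Nat.prime_dvd_prime_iff_eq hr hp.out).1 (hr.dvd_of_dvd_pow h3)
        simpa using this
      · left
        exact hQ.1.1 r hr h3
    · intro r hr hrT hd
      rcases hrT with hrT | hrT
      · exact hQ.1.2 r hr hrT (hd.trans (Subgroup.index_dvd_of_le le_sup_right))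
      · have : r = p := by simpa using hrT
        subst this
        exact P.not_dvd_index (hd.trans (Subgroup.index_dvd_of_le le_sup_left))
  · intro X hX
    classical
    obtain ⟨S₀⟩ : Nonempty (Sylow p X) := inferInstance
    have hfrob : HasNormalPComplement p X := by
      refine Cfsg.Agent.Lib.PNilp.hasNormalPComplement_of_automizer S₀ ?_
      intro Q hQS g hg hcop
      set Q' : Subgroup G := Q.map X.subtype with hQ'
      have hQp : IsPGroup p Q' := by
        have h1 : IsPGroup p Q := S₀.isPGroup'.to_le hQS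
        exact h1.map X.subtype
      obtain ⟨R, hR⟩ := hQp.exists_le_sylow
      obtain ⟨h, hh⟩ := MulAction.exists_smul_eq G P R
      have hQ'le : ∀ x ∈ Q', h⁻¹ * x * h ∈ (P : Subgroup G) := by
        intro x hx
        have h1 : x ∈ (R : Subgroup G) := hR hx
        rw [← hh] at h1
        rw [Sylow.coe_subgroup_smul] at h1
        have := conj_mem_iff.1 (show x ∈ MulAut.conj h • (P : Subgroup G) from h1)
        exact this
      have hcent : MulAut.conj h • B ≤ centralizer (Q' : Set G) := by
        intro b hb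
        rw [Subgroup.mem_centralizer_iff]
        intro x hx
        have h1 := hQ'le x hx
        have h2 : h⁻¹ * b * h ∈ B := conj_mem_iff.1 hb
        have h3 := hcomm _ h1 _ h2
        have e1 : x * b = h * ((h⁻¹ * x * h) * (h⁻¹ * b * h)) * h⁻¹ := by group
        have e2 : b * x = h * ((h⁻¹ * b * h) * (h⁻¹ * x * h)) * h⁻¹ := by group
        show x * b = b * x
        rw [e1, e2, h3]
      have hy : (g : G) ∈ normalizer (Q' : Set G) := by
        have := Subgroup.le_normalizer_map (H := Q) X.subtype (Subgroup.mem_map_of_mem X.subtype hg)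
        exact this
      have hres := mem_centralizer_of_index (π := T) hcent (by
          intro r hr hrT
          rw [conj_index]
          exact hQ.1.2 r hr hrT) hy (by
          intro r hr hd
          have h1 : r ∣ Nat.card X := by
            have h2 : orderOf g = orderOf (g : G) := (Subgroup.orderOf_coe g).symm
            rw [← h2] at hd
            exact hd.trans (orderOf_dvd_natCard g)
          rcases hX r hr h1 with h3 | h3
          · exact h3
          · exfalso
            have : r = p := by simpa using h3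
            subst this
            have h2 : orderOf g = orderOf (g : G) := (Subgroup.orderOf_coe g).symm
            rw [← h2] at hd
            exact hr.one_lt.ne' (Nat.Coprime.eq_one_of_dvd hcop.symm hd)
          )
      rw [Subgroup.mem_centralizer_iff] at hres ⊢
      intro x hx
      apply Subtype.ext
      exact hres (x : G) (Subgroup.mem_map_of_mem X.subtype hx)
    obtain ⟨S, N, hN, hc⟩ := hfrob
    set Y : Subgroup G := N.map X.subtype with hY
    set Z : Subgroup G := (S : Subgroup X).map X.subtype with hZ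
    have hXle : X ≤ Y ⊔ Z := by
      intro x hx
      have h1 : (⟨x, hx⟩ : X) ∈ N ⊔ (S : Subgroup X) := by
        rw [hc.sup_eq_top]; trivial
      have h2 := Subgroup.mem_map_of_mem X.subtype h1
      rwa [Subgroup.map_sup] at h2
    have hcopN : Nat.Coprime (Nat.card N) p := Cfsg.Agent.Lib.PNilp.coprime_card_of_isComplement S N hc
    have hcardY : Nat.card Y = Nat.card N :=
      Subgroup.card_map_of_injective (Subgroup.subtype_injective X)
    have hYT : IsPiSubgroup T Y := by
      intro r hr hd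
      rw [hcardY] at hd
      have h1 : r ∣ Nat.card X := hd.trans (Subgroup.card_subgroup_dvd_card N)
      rcases hX r hr h1 with h3 | h3
      · exact h3
      · exfalso
        have : r = p := by simpa using h3
        subst this
        exact hr.one_lt.ne' (Nat.Coprime.eq_one_of_dvd hcopN.symm hd)
    obtain ⟨g, hg⟩ := hQ.2 Y hYT
    have hP'Y : ∀ a ∈ MulAut.conj g • (P : Subgroup G), a ∈ centralizer (Y : Set G) := by
      intro a ha
      rw [Subgroup.mem_centralizer_iff]
      intro y hy
      have h1 : g⁻¹ * a * g ∈ (P : Subgroup G) := conj_mem_iff.1 ha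
      have h2 : g⁻¹ * y * g ∈ B := conj_mem_iff.1 (hg hy)
      have h3 := hcomm _ h1 _ h2
      have e1 : y * a = g * ((g⁻¹ * y * g) * (g⁻¹ * a * g)) * g⁻¹ := by group
      have e2 : a * y = g * ((g⁻¹ * a * g) * (g⁻¹ * y * g)) * g⁻¹ := by group
      rw [e1, e2, h3]
    have hZC : Z ≤ centralizer (Y : Set G) := by
      rintro _ ⟨s, hs, rfl⟩
      have hy : ((X.subtype s) : G) ∈ normalizer (Y : Set G) := by
        refine Subgroup.le_normalizer_map (H := N) X.subtype (Subgroup.mem_map_of_mem X.subtype ?_)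
        rw [Subgroup.normalizer_eq_top N]
        trivial
      refine mem_centralizer_of_index (π := {p}) (B := MulAut.conj g • (P : Subgroup G))
        (fun a ha => hP'Y a ha) ?_ hy ?_
      · intro r hr hrp
        have : r = p := by simpa using hrp
        subst this
        rw [conj_index]
        exact P.not_dvd_index
      · intro r hr hd
        have h1 : IsPGroup p (S : Subgroup X) := S.isPGroup'
        obtain ⟨k, hk⟩ := (IsPGroup.iff_orderOf.1 h1) ⟨s, hs⟩
        have h2 : orderOf (X.subtype s) = orderOf (⟨s, hs⟩ : (S : Subgroup X)) := by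
          simp [Subgroup.orderOf_coe, Subgroup.orderOf_mk]
        rw [h2, hk] at hd
        have := (Nat.prime_dvd_prime_iff_eq hr hp.out).1 (hr.dvd_of_dvd_pow hd)
        simpa using this
    set C : Subgroup G := centralizer (Y : Set G) with hC
    let Pg : Sylow p G := MulAut.conj g • P
    have hPgC : (Pg : Subgroup G) ≤ C := by
      intro a ha
      apply hP'Y
      have : (Pg : Subgroup G) = MulAut.conj g • (P : Subgroup G) := Sylow.coe_subgroup_smul
      rwa [this] at ha
    have hZp : IsPGroup p (Z.subgroupOf C) := by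
      have h1 : IsPGroup p Z := (S.isPGroup').map X.subtype
      exact h1.comap_of_injective _ (Subgroup.subtype_injective C) |>.to_le (by
        intro x hx; exact hx)
    obtain ⟨R, hR⟩ := hZp.exists_le_sylow
    obtain ⟨c, hcc⟩ := MulAction.exists_smul_eq C (Pg.subtype hPgC) R
    refine ⟨(c : G) * g, ?_⟩
    refine hXle.trans (sup_le ?_ ?_)
    · intro y hy
      have hcy : (c : G)⁻¹ * y * (c : G) = y := by
        have := (Subgroup.mem_centralizer_iff.1 c.2) y hy
        rw [mul_assoc, this, inv_mul_cancel_left]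
      rw [conj_mem_iff]
      have e : ((c : G) * g)⁻¹ * y * ((c : G) * g) = g⁻¹ * ((c : G)⁻¹ * y * (c : G)) * g := by group
      rw [e, hcy]
      exact (le_sup_right : B ≤ (P : Subgroup G) ⊔ B) (conj_mem_iff.1 (hg hy))
    · intro z hz
      have hzC : z ∈ C := hZC hz
      have h1 : (⟨z, hzC⟩ : C) ∈ (R : Subgroup C) := hR (by simpa [Subgroup.mem_subgroupOf] using hz)
      rw [← hcc, Sylow.coe_subgroup_smul] at h1
      have h2 := conj_mem_iff.1 (show (⟨z, hzC⟩ : C) ∈ MulAut.conj c • ((Pg.subtype hPgC : Sylow p C) : Subgroup C) from h1)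
      have h3 : (c⁻¹ * (⟨z, hzC⟩ : C) * c : C).1 ∈ (Pg : Subgroup G) := by
        have := h2
        rw [Sylow.coe_subtype, Subgroup.mem_subgroupOf] at this
        exact this
      have h4 : ((c : G)⁻¹ * z * (c : G)) ∈ (Pg : Subgroup G) := by simpa using h3
      have hPgE : (Pg : Subgroup G) = MulAut.conj g • (P : Subgroup G) := Sylow.coe_subgroup_smul
      rw [hPgE] at h4
      have h5 := conj_mem_iff.1 h4
      rw [conj_mem_iff]
      have e : ((c : G) * g)⁻¹ * z * ((c : G) * g) = g⁻¹ * ((c : G)⁻¹ * z * (c : G)) * g := by group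
      rw [e]
      exact (le_sup_left : (P : Subgroup G) ≤ (P : Subgroup G) ⊔ B) h5


/-- Induction over the primes dividing a nilpotent `A`. -/
theorem ind_step : ∀ (n : ℕ) (A B : Subgroup G) (T : Set ℕ), Nat.card A = n → Group.IsNilpotent A →
    (∀ a ∈ A, ∀ b ∈ B, a * b = b * a) → QQ T B →
    (∀ s : ℕ, s.Prime → s ∣ Nat.card A → s ∉ T ∧ ¬ s ∣ A.index) →
    QQ (T ∪ {s | s.Prime ∧ s ∣ Nat.card A}) (A ⊔ B) := by
  intro n
  induction n using Nat.strong_induction_on with
  | _ n ih =>
  intro A B T hn hAn hcomm hQ hs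
  by_cases hA1 : Nat.card A = 1
  · have hbot : A = ⊥ := Subgroup.card_eq_one.1 hA1
    subst hbot
    have e : T ∪ {s | s.Prime ∧ s ∣ Nat.card (⊥ : Subgroup G)} = T := by
      ext s
      simp only [Set.mem_union, Set.mem_setOf_eq, or_iff_left_iff_imp]
      rintro ⟨h1, h2⟩
      rw [Subgroup.card_bot] at h2
      exact absurd (Nat.dvd_one.1 h2) h1.ne_one
    rw [e, bot_sup_eq]
    exact hQ
  · obtain ⟨r, hr, hrA⟩ := Nat.exists_prime_and_dvd hA1
    haveI : Fact r.Prime := ⟨hr⟩
    haveI := hAn
    obtain ⟨A₁, hA₁r, ⟨k, hk⟩, hA₁m⟩ := Cfsg.Agent.Lib.H1Wielandt.nilp_decomp (G := A) r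
    obtain ⟨S⟩ : Nonempty (Sylow r A) := inferInstance
    have hScard : Nat.card (S : Subgroup A) = r ^ (Nat.card A).factorization r := Sylow.card_eq_multiplicity S
    have hkeq : (Nat.card A).factorization r = k := by
      have hne : Nat.card A₁ ≠ 0 := Nat.card_pos.ne'
      rw [← hk, Nat.factorization_mul hne (pow_ne_zero _ hr.ne_zero)]
      simp [Nat.factorization_eq_zero_of_not_dvd hA₁r, hr.factorization_pow]
    rw [hkeq] at hScard
    set P₀ : Subgroup G := (S : Subgroup A).map A.subtype with hP₀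
    set A₂ : Subgroup G := A₁.map A.subtype with hA₂
    have hP₀c : Nat.card P₀ = r ^ k := by
      rw [hP₀, Subgroup.card_map_of_injective (Subgroup.subtype_injective A), hScard]
    have hA₂c : Nat.card A₂ = Nat.card A₁ := Subgroup.card_map_of_injective (Subgroup.subtype_injective A)
    have hP₀A : P₀ ≤ A := Subgroup.map_subtype_le _
    have hA₂A : A₂ ≤ A := Subgroup.map_subtype_le _
    have hcardA : Nat.card A = Nat.card A₂ * r ^ k := by rw [hA₂c, hk]
    have hrA₂ : ¬ r ∣ Nat.card A₂ := by rwa [hA₂c]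
    have hkpos : k ≠ 0 := by
      rintro rfl
      rw [pow_zero, mul_one] at hcardA
      exact hrA₂ (hcardA ▸ hrA)
    have hcommPA : ∀ x ∈ P₀, ∀ y ∈ A₂, x * y = y * x := by
      intro x hx y hy
      refine Cfsg.Agent.Lib.H1Wielandt.commute_rprime_in (r := r) hAn (hP₀A hx) (hA₂A hy) ⟨k, ?_⟩
        ⟨Nat.card A₂, hrA₂, ?_⟩
      · have := pow_card_eq_one' (x := (⟨x, hx⟩ : P₀))
        rw [hP₀c] at this
        exact congrArg Subtype.val this
      · have := pow_card_eq_one' (x := (⟨y, hy⟩ : A₂))
        exact congrArg Subtype.val this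
    have hcop : (Nat.card P₀).Coprime (Nat.card A₂) := by
      rw [hP₀c]
      exact Nat.Coprime.pow_left _ ((Nat.Prime.coprime_iff_not_dvd hr).2 hrA₂)
    have hinf : P₀ ⊓ A₂ = ⊥ := Subgroup.inf_eq_bot_of_coprime hcop
    have hPAn : P₀ ≤ normalizer (A₂ : Set G) := by
      refine Cfsg.Agent.Lib.H1Cop.le_normalizer_of_forall ?_
      intro a ha k hk
      rw [hcommPA a ha k hk]
      simpa using hk
    have hsupA : P₀ ⊔ A₂ = A := by
      refine Subgroup.eq_of_le_of_card_ge (sup_le hP₀A hA₂A) ?_
      have h := Cfsg.Agent.Lib.H1Cop.card_sup_mul_inf_of_normalizes hPAn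
      rw [hinf, Subgroup.card_bot, mul_one, hP₀c] at h
      rw [h, hcardA, mul_comm]
    have hG0 := Subgroup.card_mul_index A
    have hP₀idx : P₀.index = A.index * Nat.card A₂ := by
      have h1 := Subgroup.card_mul_index P₀
      rw [← h1, hcardA, hP₀c] at hG0
      have hpos : 0 < r ^ k := pow_pos hr.pos _
      apply Nat.eq_of_mul_eq_mul_left hpos
      rw [← hG0]
      ring
    have hA₂idx : A₂.index = A.index * r ^ k := by
      have h1 := Subgroup.card_mul_index A₂
      rw [← h1, hcardA] at hG0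
      have hpos : 0 < Nat.card A₂ := Nat.card_pos
      apply Nat.eq_of_mul_eq_mul_left hpos
      rw [← hG0]
      ring
    obtain ⟨hrT, hrI⟩ := hs r hr hrA
    have hP₀p : IsPGroup r P₀ := IsPGroup.of_card hP₀c
    have hP₀i : ¬ r ∣ P₀.index := by
      rw [hP₀idx]
      intro h
      rcases (Nat.Prime.dvd_mul hr).1 h with h | h
      · exact hrI h
      · exact hrA₂ h
    have hQ2 := main_step hQ hrT (hP₀p.toSylow hP₀i) (by
      intro a ha b hb
      exact hcomm a (hP₀A ha) b hb)
    have hQ2' : QQ (T ∪ {r}) (P₀ ⊔ B) := hQ2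
    have hlt : Nat.card A₂ < n := by
      rw [← hn, hcardA]
      have h2 : 1 < r ^ k := Nat.one_lt_pow hkpos hr.one_lt
      have h3 : 0 < Nat.card A₂ := Nat.card_pos
      nlinarith
    have hA₂n : Group.IsNilpotent A₂ := by
      have : Group.IsNilpotent A₁ := inferInstance
      exact nilpotent_of_mulEquiv (A₁.equivMapOfInjective A.subtype (Subgroup.subtype_injective A))
    have hcomm2 : ∀ a ∈ A₂, ∀ b ∈ P₀ ⊔ B, a * b = b * a := by
      intro a ha b hb
      have hle : P₀ ⊔ B ≤ centralizer ({a} : Set G) := by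
        refine sup_le ?_ ?_
        · intro x hx
          rw [Subgroup.mem_centralizer_singleton_iff]
          exact hcommPA x hx a ha
        · intro x hx
          rw [Subgroup.mem_centralizer_singleton_iff]
          exact (hcomm a (hA₂A ha) x hx).symm
      have := hle hb
      rw [Subgroup.mem_centralizer_singleton_iff] at this
      exact this.symm
    have hfinal := ih (Nat.card A₂) hlt A₂ (P₀ ⊔ B) (T ∪ {r}) rfl hA₂n hcomm2 hQ2' (by
      intro s hsp hsd
      have hsA : s ∣ Nat.card A := by rw [hcardA]; exact hsd.trans (Dvd.intro _ rfl)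
      obtain ⟨h1, h2⟩ := hs s hsp hsA
      have hsr : s ≠ r := by
        rintro rfl
        exact hrA₂ hsd
      constructor
      · rintro (h | h)
        · exact h1 h
        · exact hsr (by simpa using h)
      · rw [hA₂idx]
        intro h
        rcases (Nat.Prime.dvd_mul hsp).1 h with h | h
        · exact h2 h
        · exact hsr ((Nat.prime_dvd_prime_iff_eq hsp hr).1 (hsp.dvd_of_dvd_pow h)))
    have eS : (T ∪ {r}) ∪ {s | s.Prime ∧ s ∣ Nat.card A₂} = T ∪ {s | s.Prime ∧ s ∣ Nat.card A} := by
      ext s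
      simp only [Set.mem_union, Set.mem_singleton_iff, Set.mem_setOf_eq]
      constructor
      · rintro ((h | h) | h)
        · exact Or.inl h
        · subst h; exact Or.inr ⟨hr, hrA⟩
        · exact Or.inr ⟨h.1, by rw [hcardA]; exact h.2.trans (Dvd.intro _ rfl)⟩
      · rintro (h | ⟨h1, h2⟩)
        · exact Or.inl (Or.inl h)
        · rw [hcardA] at h2
          rcases (Nat.Prime.dvd_mul h1).1 h2 with h | h
          · exact Or.inr ⟨h1, h⟩
          · exact Or.inl (Or.inr ((Nat.prime_dvd_prime_iff_eq h1 hr).1 (h1.dvd_of_dvd_pow h)))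
    have eH : A₂ ⊔ (P₀ ⊔ B) = A ⊔ B := by
      rw [← sup_assoc, sup_comm A₂ P₀, hsupA]
    rw [eS, eH] at hfinal
    exact hfinal

theorem map_conj_eq (g : G) (K : Subgroup G) : K.map (MulAut.conj g).toMonoidHom = MulAut.conj g • K := rfl

theorem isPi_conj {π : Set ℕ} {K : Subgroup G} (g : G) (hK : IsPiSubgroup π K) :
    IsPiSubgroup π (MulAut.conj g • K) := by
  intro p hp hd
  apply hK p hp
  have h3 : Nat.card (MulAut.conj g • K : Subgroup G) = Nat.card K :=
    (Nat.card_congr (Subgroup.equivSMul (MulAut.conj g) K).toEquiv).symm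
  rwa [h3] at hd

theorem eq_conj_of_maximal {π : Set ℕ} {B M : Subgroup G} (hB : IsPiSubgroup π B)
    (h : ∀ X : Subgroup G, IsPiSubgroup π X → ∃ g : G, X ≤ MulAut.conj g • B)
    (hM : Maximal (IsPiSubgroup π) M) : ∃ g : G, M = MulAut.conj g • B := by
  obtain ⟨g, hg⟩ := h M hM.prop
  exact ⟨g, le_antisymm hg (hM.le_of_ge (isPi_conj g hB) hg)⟩

/-- Wielandt's theorem in the form of the statement. -/
theorem wielandt_dpi (σ τ π : Set ℕ) (hπ : π = σ ∪ τ) (hd : Disjoint σ τ) (H Hs Ht : Subgroup G)
    (hH : IsPiHall π H) (hs : IsPiSubgroup σ Hs) (ht : IsPiSubgroup τ Ht)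
    (hsn : Group.IsNilpotent Hs) (hjoin : Hs ⊔ Ht = H) (hcomm : ∀ a ∈ Hs, ∀ b ∈ Ht, a * b = b * a)
    (hD : IsDPiGroup τ G) : IsDPiGroup π G := by
  classical
  subst hπ
  have hdisj : ∀ r, r ∈ σ → r ∈ τ → False := fun r h1 h2 => Set.disjoint_left.1 hd h1 h2
  have hcop : (Nat.card Hs).Coprime (Nat.card Ht) := by
    refine Nat.coprime_of_dvd ?_
    intro r hr h1 h2
    exact hdisj r (hs r hr h1) (ht r hr h2)
  have hinf : Hs ⊓ Ht = ⊥ := Subgroup.inf_eq_bot_of_coprime hcop
  have hn : Hs ≤ normalizer (Ht : Set G) := by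
    refine Cfsg.Agent.Lib.H1Cop.le_normalizer_of_forall ?_
    intro a ha k hk
    rw [hcomm a ha k hk]
    simpa using hk
  have hcardH : Nat.card H = Nat.card Hs * Nat.card Ht := by
    have h := Cfsg.Agent.Lib.H1Cop.card_sup_mul_inf_of_normalizes hn
    rw [hinf, Subgroup.card_bot, mul_one, hjoin] at h
    exact h
  have hG := Subgroup.card_mul_index H
  have hHtIdx : Ht.index = H.index * Nat.card Hs := by
    have h1 := Subgroup.card_mul_index Ht
    rw [← h1, hcardH] at hG
    have hpos : 0 < Nat.card Ht := Nat.card_pos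
    apply Nat.eq_of_mul_eq_mul_left hpos
    rw [← hG]
    ring
  have hHsIdx : Hs.index = H.index * Nat.card Ht := by
    have h1 := Subgroup.card_mul_index Hs
    rw [← h1, hcardH] at hG
    have hpos : 0 < Nat.card Hs := Nat.card_pos
    apply Nat.eq_of_mul_eq_mul_left hpos
    rw [← hG]
    ring
  have hHallT : IsPiHall τ Ht := by
    refine ⟨ht, ?_⟩
    intro r hr hrT h
    rw [hHtIdx] at h
    rcases (Nat.Prime.dvd_mul hr).1 h with h | h
    · exact hH.2 r hr (Or.inr hrT) h
    · exact hdisj r (hs r hr h) hrT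
  have hHtmax : Maximal (IsPiSubgroup τ) Ht := by
    refine ⟨ht, ?_⟩
    intro K hK hle
    by_contra hnot
    have hne : Ht.relIndex K ≠ 1 := by
      intro h
      exact hnot (Subgroup.relIndex_eq_one.1 h)
    obtain ⟨r, hr, hrd⟩ := Nat.exists_prime_and_dvd hne
    have h1 : r ∣ Nat.card K := by
      refine hrd.trans ?_
      have := Subgroup.card_mul_index (Ht.subgroupOf K)
      rw [Subgroup.relIndex]
      exact Dvd.intro_left _ this
    have h2 : r ∣ Ht.index := by
      have e1 := Subgroup.relIndex_mul_index hle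
      rw [← e1]
      exact hrd.trans (Dvd.intro _ rfl)
    exact hHallT.2 r hr (hK r hr h1) h2
  have hQT : QQ τ Ht := by
    refine ⟨hHallT, ?_⟩
    intro X hX
    have hfin : {K : Subgroup G | IsPiSubgroup τ K}.Finite := Set.toFinite _
    obtain ⟨M, hXM, hM⟩ := hfin.exists_le_maximal (a := X) hX
    obtain ⟨g, hg⟩ := hD Ht M hHtmax hM
    refine ⟨g, ?_⟩
    rw [← map_conj_eq, ← hg]
    exact hXM
  have hfinal := ind_step _ Hs Ht τ rfl hsn hcomm hQT (by
    intro r hr hrd
    have hrσ := hs r hr hrd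
    refine ⟨fun h => hdisj r hrσ h, ?_⟩
    rw [hHsIdx]
    intro h
    rcases (Nat.Prime.dvd_mul hr).1 h with h | h
    · exact hH.2 r hr (Or.inl hrσ) h
    · exact hdisj r hrσ (ht r hr h))
  rw [hjoin] at hfinal
  have hHπ : IsPiSubgroup (σ ∪ τ) H := hH.1
  have hall : ∀ X : Subgroup G, IsPiSubgroup (σ ∪ τ) X → ∃ g : G, X ≤ MulAut.conj g • H := by
    intro X hX
    apply hfinal.2 X
    intro r hr hrd
    rcases hX r hr hrd with h | h
    · have h1 : r ∣ Nat.card G := hrd.trans (Subgroup.card_subgroup_dvd_card X)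
      rw [← hG] at h1
      rcases (Nat.Prime.dvd_mul hr).1 h1 with h2 | h2
      · rw [hcardH] at h2
        rcases (Nat.Prime.dvd_mul hr).1 h2 with h3 | h3
        · exact Or.inr ⟨hr, h3⟩
        · exact Or.inl (ht r hr h3)
      · exact absurd h2 (hH.2 r hr (Or.inl h))
    · exact Or.inl h
  intro M₁ M₂ h₁ h₂
  obtain ⟨g₁, hg₁⟩ := eq_conj_of_maximal hHπ hall h₁
  obtain ⟨g₂, hg₂⟩ := eq_conj_of_maximal hHπ hall h₂
  refine ⟨g₂ * g₁⁻¹, ?_⟩
  rw [map_conj_eq, hg₁, hg₂, smul_smul, ← map_mul, inv_mul_cancel_right]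

end Cfsg.Agent.Lib.LdWH
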