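import Mathlib
import Cfsg.Agent.Lib.LeadOrbit
import Cfsg.Agent.Lib.LeadDerange
import Cfsg.Agent.Lib.LeadPerm

set_option autoImplicit false
set_option linter.unusedSectionVars false
set_option linter.unusedVariables false
set_option linter.style.haveILetI false

/-!
Groups of fixity `k`.
-/

namespace Cfsg.Agent.Lib.LeadFixity

open MulAction

variable {G Ω : Type*} [Group G] [Finite G] [MulAction G Ω] [FaithfulSMul G Ω] [Fintype Ω]

/-- Central elements act freely in a transitive faithful action. -/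
lemma center_free (htr : IsPretransitive G Ω) (z : Subgroup.center G) (ω : Ω) (h : z.1 • ω = ω) : z = 1 := by
  apply Subtype.ext
  apply FaithfulSMul.eq_of_smul_eq_smul (α := Ω)
  intro y
  obtain ⟨g, rfl⟩ := exists_smul_eq G ω y
  show z.1 • g • ω = (1 : G) • g • ω
  rw [one_smul, ← mul_smul, ← (Subgroup.mem_center_iff.1 z.2 g), mul_smul, h]

/-- `|Z(G)|` divides the number of fixed points of `g`. -/
theorem center_card_dvd (htr : IsPretransitive G Ω) (g : G) :
    Nat.card (Subgroup.center G) ∣ Nat.card (fixedBy Ω g) := by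
  classical
  -- action of Z on Fix(g)
  let act : MulAction (Subgroup.center G) (fixedBy Ω g) :=
    { smul := fun z ω => ⟨z.1 • ω.1, by
        have h1 : g • ω.1 = ω.1 := ω.2
        show g • z.1 • ω.1 = z.1 • ω.1
        rw [← mul_smul, (Subgroup.mem_center_iff.1 z.2 g), mul_smul, h1]⟩
      one_smul := fun ω => Subtype.ext (one_smul _ _)
      mul_smul := fun a b ω => Subtype.ext (mul_smul _ _ _) }
  have hfree : ∀ ω : fixedBy Ω g, stabilizer (Subgroup.center G) ω = ⊥ := by
    intro ω
    rw [eq_bot_iff]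
    intro z hz
    rw [Subgroup.mem_bot]
    exact center_free htr z ω.1 (congrArg Subtype.val hz)
  have hf : Finite (fixedBy Ω g) := inferInstance
  have e := selfEquivOrbitsQuotientProd hfree
  rw [Nat.card_congr e, Nat.card_prod]
  exact Dvd.intro_left _ rfl

/-- The prime part: `p > k`. -/
theorem sylow_part (htr : IsPretransitive G Ω) (k : ℕ)
    (hfix : ∀ g : G, g ≠ 1 → Nat.card (fixedBy Ω g) ≤ k) (p : ℕ) (hp : p.Prime) (hk : k < p) (α : Ω) :
    ¬ p ∣ Nat.card (stabilizer G α) ∨ ¬ p ∣ (stabilizer G α).index := by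
  classical
  by_contra hcon
  push Not at hcon
  obtain ⟨h1, h2⟩ := hcon
  have hpf : Fact p.Prime := ⟨hp⟩
  set H := stabilizer G α with hH
  -- a Sylow subgroup of `H`.
  obtain ⟨S₀⟩ : Nonempty (Sylow p H) := inferInstance
  set P := (S₀ : Subgroup H).map H.subtype with hP
  have hPle : P ≤ H := by
    rintro _ ⟨x, _, rfl⟩
    exact x.2
  have hPp : IsPGroup p P := S₀.2.map H.subtype
  -- P has nontrivial element
  have hcardP : Nat.card P = Nat.card S₀ := by
    apply Nat.card_congr
    exact ((S₀ : Subgroup H).equivMapOfInjective H.subtype H.subtype_injective).toEquiv.symm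
  have hdvdP : p ∣ Nat.card P := by
    rw [hcardP, S₀.card_eq_multiplicity]
    apply dvd_pow_self
    have : 0 < (Nat.card H).factorization p := by
      apply Nat.Prime.factorization_pos_of_dvd hp (Nat.card_pos.ne') h1
    exact this.ne'
  obtain ⟨x, hx⟩ := exists_prime_orderOf_dvd_card' (G := P) p hdvdP
  have hx1 : x.1 ≠ 1 := by
    intro h
    have : x = 1 := Subtype.ext h
    rw [this, orderOf_one] at hx
    exact hp.one_lt.ne hx
  -- P is not Sylow in G
  obtain ⟨Q, hPQ⟩ := hPp.exists_le_sylow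
  have hne : P ≠ Q := by
    intro h
    -- `[G : P]` is prime to `p`, contradiction
    have hnot : ¬ p ∣ (Q : Subgroup G).index := Q.not_dvd_index
    rw [← h] at hnot
    apply hnot
    have := Subgroup.relIndex_mul_index hPle
    rw [← this]
    exact Dvd.dvd.mul_left h2 _
  -- the normaliser condition in `Q`
  haveI : Finite Q := inferInstance
  have hQnil : Group.IsNilpotent (Q : Subgroup G) := IsPGroup.isNilpotent Q.2
  have hlt : P.subgroupOf Q < ⊤ := by
    rw [lt_top_iff_ne_top]
    intro h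
    apply hne
    apply le_antisymm hPQ
    rwa [Subgroup.subgroupOf_eq_top] at h
  have hgrow := normalizerCondition_of_isNilpotent (G := (Q : Subgroup G)) _ hlt
  obtain ⟨y, hyN, hyP⟩ := SetLike.exists_of_lt hgrow
  have hyN' : ∀ z ∈ P, y.1 * z * y.1⁻¹ ∈ P := by
    intro z hz
    have := (Subgroup.mem_normalizer_iff.1 hyN ⟨z, hPQ hz⟩).1 (by simpa [Subgroup.mem_subgroupOf] using hz)
    simpa [Subgroup.mem_subgroupOf] using this
  have hyN'' : ∀ z ∈ P, y.1⁻¹ * z * y.1 ∈ P := by
    intro z hz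
    have := (Subgroup.mem_normalizer_iff.1 (Subgroup.inv_mem _ hyN) ⟨z, hPQ hz⟩).1 (by simpa [Subgroup.mem_subgroupOf] using hz)
    simpa [Subgroup.mem_subgroupOf] using this
  -- the orbit of `α` under `⟨y⟩`.
  set Y := Subgroup.zpowers y.1 with hY
  have hYN : ∀ w ∈ Y, w ∈ Subgroup.normalizer (P : Set G) := by
    intro w hw
    have hyN3 : y.1 ∈ Subgroup.normalizer (P : Set G) := by
      rw [Subgroup.mem_normalizer_iff]
      intro z
      constructor
      · exact hyN' z
      · intro hz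
        have := hyN'' _ hz
        have e : y.1⁻¹ * (y.1 * z * y.1⁻¹) * y.1 = z := by group
        rwa [e] at this
    exact (Subgroup.zpowers_le.2 hyN3) hw
  have hYp : IsPGroup p Y := Q.2.to_le (Subgroup.zpowers_le.2 y.2)
  have horb : orbit Y α ⊆ fixedBy Ω x.1 := by
    rintro _ ⟨w, rfl⟩
    have hw := hYN w.1 w.2
    have h3 : w.1⁻¹ * x.1 * w.1 ∈ P := by
      have := (Subgroup.mem_normalizer_iff.1 (Subgroup.inv_mem _ hw) x.1).1 x.2
      simpa using this
    have h4 : (w.1⁻¹ * x.1 * w.1) • α = α := hPle h3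
    show x.1 • (w.1 • α) = w.1 • α
    have e : x.1 • w.1 • α = w.1 • (w.1⁻¹ * x.1 * w.1) • α := by simp [mul_smul]
    rw [e, h4]
  obtain ⟨n, hn⟩ := hYp.card_orbit (α := Ω) α
  have hle : Nat.card (orbit Y α) ≤ Nat.card (fixedBy Ω x.1) :=
    Nat.card_mono (Set.toFinite _) horb
  have hle2 := hfix x.1 hx1
  have hlt2 : p ^ n < p ^ 1 := by
    rw [← hn, pow_one]
    omega
  have hn0 : n = 0 := by
    have := (Nat.pow_lt_pow_iff_right hp.one_lt).1 hlt2
    omega
  rw [hn0, pow_zero] at hn
  have hyα : y.1 • α = α := by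
    have hm1 : α ∈ orbit Y α := mem_orbit_self α
    have hm2 : y.1 • α ∈ orbit Y α := ⟨⟨y.1, Subgroup.mem_zpowers _⟩, rfl⟩
    rw [Nat.card_eq_one_iff_unique] at hn
    have := hn.1.elim ⟨_, hm1⟩ ⟨_, hm2⟩
    exact (congrArg Subtype.val this).symm
  have hmax : (Q : Subgroup G).subgroupOf H = S₀ := by
    apply S₀.3
    · exact Q.2.comap_of_injective H.subtype H.subtype_injective
    · intro z hz
      rw [Subgroup.mem_subgroupOf]
      exact hPQ ⟨z, hz, rfl⟩
  have hyS : (⟨y.1, hyα⟩ : H) ∈ (S₀ : Subgroup H) := by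
    rw [← hmax, Subgroup.mem_subgroupOf]
    exact y.2
  apply hyP
  rw [Subgroup.mem_subgroupOf]
  exact ⟨⟨y.1, hyα⟩, hyS, rfl⟩

/-- Double counting for the point stabiliser `H` of `β` with two orbits with equal stabiliser sizes
(and no non-identity element fixing two points in the union). -/
lemma two_orbits_count {H X : Type*} [Group H] [Finite H] [MulAction H X] [Fintype X] (a c : X)
    (hac : orbit H a ≠ orbit H c)
    (hfree : ∀ h : H, h ≠ 1 → ∀ ω ω' : X, ω ∈ orbit H a ∪ orbit H c → ω' ∈ orbit H a ∪ orbit H c →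
      h • ω = ω → h • ω' = ω' → ω = ω')
    (hs : Nat.card (stabilizer H a) = Nat.card (stabilizer H c)) (hs2 : 2 ≤ Nat.card (stabilizer H a)) :
    False := by
  classical
  haveI := Fintype.ofFinite H
  set δ := Nat.card (stabilizer H a) with hδ
  set n := Nat.card (orbit H a) with hn
  have h1 : n * δ = Fintype.card H := by
    have := (stabilizer H a).index_mul_card
    rw [index_stabilizer, Nat.card_eq_fintype_card (α := H)] at this
    exact this
  have h2 : Nat.card (orbit H c) * δ = Fintype.card H := by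
    have := (stabilizer H c).index_mul_card
    rw [index_stabilizer, Nat.card_eq_fintype_card (α := H), ← hs] at this
    exact this
  have hδpos : 0 < δ := by omega
  have hn2 : Nat.card (orbit H c) = n := Nat.eq_of_mul_eq_mul_right hδpos (h2.trans h1.symm)
  -- the union of the orbits
  have hdisj : Disjoint (orbit H a) (orbit H c) := by
    rw [Set.disjoint_iff_inter_eq_empty]
    by_contra hne
    obtain ⟨z, hz1, hz2⟩ := Set.nonempty_iff_ne_empty.2 hne
    exact hac ((orbit_eq_iff.2 hz1).symm.trans (orbit_eq_iff.2 hz2))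
  set Y : Finset X := (orbit H a).toFinset ∪ (orbit H c).toFinset with hY
  have hYcard : Y.card = 2 * n := by
    rw [hY, Finset.card_union_of_disjoint (Set.disjoint_toFinset.2 hdisj), Set.toFinset_card, Set.toFinset_card,
      ← Nat.card_eq_fintype_card, ← Nat.card_eq_fintype_card, hn2]
    omega
  -- double count
  have hsum : ∑ ω ∈ Y, (Finset.univ.filter (fun h : H => h • ω = ω)).card =
      ∑ h : H, (Y.filter (fun ω => h • ω = ω)).card := by
    simp only [Finset.card_filter]
    exact Finset.sum_comm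
  have hstab : ∀ ω ∈ Y, (Finset.univ.filter (fun h : H => h • ω = ω)).card = δ := by
    intro ω hω
    have e : ∀ ω : X, (Finset.univ.filter (fun h : H => h • ω = ω)).card = Nat.card (stabilizer H ω) := by
      intro ω
      rw [Nat.card_eq_fintype_card, Fintype.card_subtype]
      rfl
    rw [e]
    rw [hY, Finset.mem_union, Set.mem_toFinset, Set.mem_toFinset] at hω
    rcases hω with ⟨g, rfl⟩ | ⟨g, rfl⟩
    · exact Cfsg.Agent.Lib.LeadPerm.card_stabilizer_smul g a
    · show Nat.card (stabilizer H (g • c)) = δ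
      rw [hs]
      exact Cfsg.Agent.Lib.LeadPerm.card_stabilizer_smul g c
  have hLHS : ∑ ω ∈ Y, (Finset.univ.filter (fun h : H => h • ω = ω)).card = 2 * n * δ := by
    rw [Finset.sum_congr rfl hstab, Finset.sum_const, hYcard, smul_eq_mul]
  have hterm : ∀ h ∈ (Finset.univ : Finset H), (Y.filter (fun ω => h • ω = ω)).card ≤
      (if h = 1 then 2 * n else 1) := by
    intro h _
    split_ifs with h1
    · rw [← hYcard]
      exact Finset.card_filter_le _ _
    · rw [Finset.card_le_one]
      intro u hu v hv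
      rw [Finset.mem_filter] at hu hv
      have hmem : ∀ z ∈ Y, z ∈ orbit H a ∪ orbit H c := by
        intro z hz
        rw [hY, Finset.mem_union, Set.mem_toFinset, Set.mem_toFinset] at hz
        exact hz
      exact hfree h h1 u v (hmem u hu.1) (hmem v hv.1) hu.2 hv.2
  have hRHS := Finset.sum_le_sum hterm
  rw [← hsum, hLHS] at hRHS
  have hcount : ∑ h : H, (if h = 1 then 2 * n else 1) = 2 * n + (Fintype.card H - 1) := by
    rw [← Finset.add_sum_erase _ _ (Finset.mem_univ (1 : H))]
    rw [if_pos rfl]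
    congr 1
    rw [Finset.sum_congr rfl (g := fun _ => 1)]
    · simp [Finset.card_erase_of_mem]
    · intro h hh
      rw [if_neg (Finset.ne_of_mem_erase hh)]
  rw [hcount, ← h1] at hRHS
  have hδ2 : n * 2 ≤ n * δ := Nat.mul_le_mul_left _ hs2
  have hnpos : 0 < n * δ := by rw [h1]; exact Fintype.card_pos
  have e : 2 * n * δ = 2 * (n * δ) := by ring
  rw [e] at hRHS
  omega

/-- `k = 2` forces even order. -/
theorem even_of_fixity_two (htr : IsPretransitive G Ω)
    (hfix : ∀ g : G, g ≠ 1 → Nat.card (fixedBy Ω g) ≤ 2)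
    (hex : ∃ g : G, g ≠ 1 ∧ Nat.card (fixedBy Ω g) = 2) : 2 ∣ Nat.card G := by
  classical
  by_contra hodd
  obtain ⟨g, hg1, hg2⟩ := hex
  obtain ⟨α, β, hαβ, hfixset⟩ := Nat.card_eq_two_iff.1 (show Nat.card (fixedBy Ω g) = 2 from hg2)
  have hαm : g • α.1 = α.1 := α.2
  have hβm : g • β.1 = β.1 := β.2
  have hne : α.1 ≠ β.1 := fun h => hαβ (Subtype.ext h)
  -- no element swaps α, β
  have hnoswap : ∀ y : G, y • α.1 = β.1 → y • β.1 = α.1 → False := by
    intro y h1 h2
    have hy2 : (y * y) • α.1 = α.1 := by rw [mul_smul, h1, h2]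
    have hy3 : orderOf y ∣ Nat.card G := orderOf_dvd_natCard y
    have hoddo : ¬ 2 ∣ orderOf y := fun h => hodd (h.trans hy3)
    obtain ⟨m, hm⟩ := Nat.odd_iff.2 (Nat.mod_two_ne_zero.1 (by omega) : orderOf y % 2 = 1)
    have hy4 : y ^ (2 * m + 1) = 1 := by rw [← hm]; exact pow_orderOf_eq_one y
    have hy5 : (y * y) ^ m • α.1 = α.1 := by
      have : (y * y) ^ m ∈ stabilizer G α.1 := Subgroup.pow_mem _ hy2 m
      exact this
    have hy6 : y • α.1 = α.1 := by
      have : (1 : G) • α.1 = α.1 := one_smul _ _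
      rw [← hy4, pow_succ', pow_mul, sq, mul_smul, hy5] at this
      exact this
    exact hne (hy6.symm.trans h1)
  obtain ⟨x, hx⟩ := exists_smul_eq G α.1 β.1
  set γ := x • β.1 with hγ
  have hγβ : γ ≠ β.1 := by
    intro h
    have h' : x • β.1 = x • α.1 := by rw [hx]; exact h
    exact hne (smul_left_cancel x h').symm
  -- stabiliser of β acting on Ω
  set H := stabilizer G β.1 with hH
  have hgH : g ∈ H := hβm
  have havoid : ∀ ω ∈ orbit H α.1 ∪ orbit H γ, ω ≠ β.1 := by
    have hh : ∀ (ω₀ ω : Ω), ω₀ ≠ β.1 → ω ∈ orbit H ω₀ → ω ≠ β.1 := by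
      rintro ω₀ _ h0 ⟨w, rfl⟩ h1
      apply h0
      have hw : w.1 • β.1 = β.1 := w.2
      have h2 : w.1 • ω₀ = β.1 := h1
      rw [← hw] at h2
      exact smul_left_cancel _ h2
    rintro ω (h | h)
    · exact hh _ _ hne h
    · exact hh _ _ hγβ h
  apply two_orbits_count (H := H) (X := Ω) α.1 γ
  · -- distinct orbits
    intro he
    have hm : α.1 ∈ orbit H γ := by
      rw [← he]; exact mem_orbit_self _
    obtain ⟨h, hh⟩ := hm
    have hh' : h.1 • γ = α.1 := hh
    apply hnoswap (h.1 * x)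
    · rw [mul_smul, hx]; exact h.2
    · rw [mul_smul, ← hγ, hh']
  · -- free
    intro h h1 ω ω' hω hω' he he'
    by_contra hne'
    have h1' : h.1 ≠ 1 := fun e => h1 (Subtype.ext e)
    have hb := hfix h.1 h1'
    have hβh : h.1 • β.1 = β.1 := h.2
    have hsub : (({β.1, ω, ω'} : Finset Ω) : Set Ω) ⊆ fixedBy Ω h.1 := by
      intro z hz
      simp only [Finset.coe_insert, Finset.coe_singleton, Set.mem_insert_iff, Set.mem_singleton_iff] at hz
      rcases hz with rfl | rfl | rfl
      · exact hβh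
      · exact he
      · exact he'
    have hcard3 : ({β.1, ω, ω'} : Finset Ω).card = 3 := by
      rw [Finset.card_eq_three]
      exact ⟨β.1, ω, ω', (havoid ω hω).symm, (havoid ω' hω').symm, hne', rfl⟩
    have hle := Nat.card_mono (Set.toFinite _) hsub
    rw [Nat.card_coe_set_eq, Set.ncard_coe_finset, hcard3] at hle
    omega
  · -- equal stabiliser sizes
    apply Nat.card_congr
    refine ⟨fun w => ⟨⟨x * w.1.1 * x⁻¹, ?_⟩, ?_⟩, fun w => ⟨⟨x⁻¹ * w.1.1 * x, ?_⟩, ?_⟩, ?_, ?_⟩
    · show (x * w.1.1 * x⁻¹) • β.1 = β.1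
      have h1 : w.1.1 • α.1 = α.1 := w.2
      rw [mul_smul, mul_smul, ← hx, inv_smul_smul, h1]
    · show (x * w.1.1 * x⁻¹) • γ = γ
      have h1 : w.1.1 • β.1 = β.1 := w.1.2
      rw [hγ, mul_smul, mul_smul, inv_smul_smul, h1]
    · have h1 : w.1.1 • γ = γ := w.2
      have h2 : w.1.1 • β.1 = β.1 := w.1.2
      show (x⁻¹ * w.1.1 * x) • β.1 = β.1
      rw [mul_smul, mul_smul, ← hγ, h1, hγ, inv_smul_smul]
    · have h2 : w.1.1 • β.1 = β.1 := w.1.2
      show (x⁻¹ * w.1.1 * x) • α.1 = α.1
      rw [mul_smul, mul_smul, hx, h2, ← hx, inv_smul_smul]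
    · intro w; ext; simp; group
    · intro w; ext; simp; group
  · -- size at least two
    have hnt : Nontrivial (stabilizer H α.1) := by
      refine ⟨⟨⟨⟨g, hgH⟩, hαm⟩, 1, ?_⟩⟩
      intro e
      apply hg1
      have := congrArg (fun z : stabilizer H α.1 => (z.1 : G)) e
      simpa using this
    exact Finite.one_lt_card

/-- `S3389`. -/
theorem fixity_main (htr : IsPretransitive G Ω) (k : ℕ) (hk : 1 ≤ k)
    (hfix : ∀ g : G, g ≠ 1 → Nat.card (fixedBy Ω g) ≤ k) (hex : ∃ g : G, g ≠ 1 ∧ Nat.card (fixedBy Ω g) = k) :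
    Nat.card (Subgroup.center G) ∣ k ∧ (k = 2 → 2 ∣ Nat.card G) ∧
      ∀ (p : ℕ), p.Prime → k < p → p ∣ Nat.card G → ∀ α : Ω,
        ¬ p ∣ Nat.card (stabilizer G α) ∨ ¬ p ∣ (stabilizer G α).index := by
  refine ⟨?_, ?_, ?_⟩
  · obtain ⟨g, _, hg⟩ := hex
    rw [← hg]
    exact center_card_dvd htr g
  · rintro rfl
    exact even_of_fixity_two htr hfix hex
  · intro p hp hkp _ α
    exact sylow_part htr k hfix p hp hkp α

end Cfsg.Agent.Lib.LeadFixity
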