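import Cfsg.Agent.Lib.Lin70
import Cfsg.Agent.Lib.FSOdd

/-! The strongly real version of the degree count. -/

set_option autoImplicit false
set_option linter.unusedVariables false
set_option linter.unusedSectionVars false

namespace Cfsg.Agent.Lib.Lin71

open Cfsg Cfsg.Agent.Lib Cfsg.Agent.Lib.BlockOku
open Cfsg.Agent.Lib.CharBasic Cfsg.Agent.Lib.CharOrth Cfsg.Agent.Lib.CharAlg
open Cfsg.Agent.Lib.CharInd Cfsg.Agent.Lib.CharLin Cfsg.Agent.Lib.CharClifford Cfsg.Agent.Lib.Lin70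
open scoped ComplexConjugate

universe u

theorem real_of_nu {K : Type u} [Group K] [Fintype K] (χ : IrrCharacter K)
    (h : (Nat.card K : ℂ)⁻¹ * ∑ g : K, χ.1 (g * g) = 1) : ∀ g, (χ.1 g).im = 0 := by
  by_contra hcon
  push Not at hcon
  obtain ⟨a, ρ, hρ, hc⟩ := χ.2
  rw [← hc] at hcon h
  have := (CharFS.frobenius_schur_aux ρ hρ).2.mpr hcon
  rw [h] at this
  exact one_ne_zero this

variable {G : Type u} [Group G] [Fintype G]

theorem sq_one_of_linear (χ : IrrCharacter G) (h1 : charDegree χ.1 = 1)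
    (h : (Nat.card G : ℂ)⁻¹ * ∑ g : G, χ.1 (g * g) = 1) (g : G) : χ.1 g * χ.1 g = 1 := by
  have hreal := real_of_nu χ h g
  have hone : χ.1 1 = 1 := by rw [val_one_eq_charDegree, h1, Nat.cast_one]
  obtain ⟨lam, hlam⟩ := exists_hom_of_linear (IsIrrCharacter.isCharacter χ.2) hone
  have hnorm : ‖χ.1 g‖ = 1 := by
    rw [hlam]
    apply Complex.norm_eq_one_of_pow_eq_one (n := Nat.card G) _ Nat.card_pos.ne'
    have h2 : (lam g) ^ Nat.card G = 1 := by
      rw [← map_pow, pow_card_eq_one', map_one]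
    have h3 := congrArg Units.val h2
    simpa using h3
  have h2 := Complex.conj_eq_iff_im.mpr hreal
  have h3 := Complex.mul_conj (χ.1 g)
  rw [h2, Complex.normSq_eq_norm_sq, hnorm] at h3
  rw [h3]
  simp

theorem s4912 (N : Subgroup G) (hN : N.Normal)
    (hmin : ∀ M : Subgroup G, M.Normal → M ≤ N → M = ⊥ ∨ M = N) (hna : ¬ IsMulCommutative ↥N)
    (φ : IrrCharacter ↥N) (I : Subgroup G)
    (hI : ∀ g : G, g ∈ I ↔ ∀ n n' : ↥N, (n' : G) = g * (n : G) * g⁻¹ →
      (φ : ↥N → ℂ) n' = (φ : ↥N → ℂ) n) (hNI : N ≤ I) [Fintype I]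
    (hext : ∃ ψ : IrrCharacter ↥I, (Nat.card I : ℂ)⁻¹ * ∑ g : I, ψ.1 (g * g) = 1 ∧
      ∀ n : ↥N, (ψ : ↥I → ℂ) (Subgroup.inclusion hNI n) = (φ : ↥N → ℂ) n) :
    Nat.card {χ : IrrCharacter G // charDegree (χ : G → ℂ) = 1 ∧
        (Nat.card G : ℂ)⁻¹ * ∑ g : G, χ.1 (g * g) = 1} ≤
      I.index * Nat.card {χ : IrrCharacter G // charDegree (χ : G → ℂ) =
        charDegree (φ : ↥N → ℂ) * I.index ∧ (Nat.card G : ℂ)⁻¹ * ∑ g : G, χ.1 (g * g) = 1} := by
  classical
  obtain ⟨ψ, hψν, hψ⟩ := hext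
  haveI := hN
  haveI : Fintype N := Fintype.ofFinite _
  have hcomm := le_commutator N hN hmin hna
  have hone : ∀ χ : IrrCharacter G, charDegree χ.1 = 1 → χ.1 1 = 1 := by
    intro χ h
    rw [val_one_eq_charDegree, h, Nat.cast_one]
  have htriv : ∀ χ : IrrCharacter G, charDegree χ.1 = 1 → ∀ n : N, χ.1 n = 1 := fun χ h n =>
    val_eq_one_of_linear χ (hone χ h) n (hcomm n.2)
  -- the twists
  let t : IrrCharacter G → I → ℂ := fun χ x => ψ.1 x * χ.1 x
  have htirr : ∀ χ : IrrCharacter G, charDegree χ.1 = 1 → IsIrrCharacter I (t χ) := by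
    intro χ h
    obtain ⟨lam, hlam⟩ := exists_hom_of_linear (IsIrrCharacter.isCharacter χ.2) (hone χ h)
    have h1 := CharAbQ.twist_isIrr ψ.2 (lam.comp I.subtype)
    convert h1 using 1
    funext x
    show ψ.1 x * χ.1 x = _
    rw [hlam]
    rfl
  have hres : ∀ χ : IrrCharacter G, charDegree χ.1 = 1 → resTo N I hNI (t χ) = φ.1 := by
    intro χ h
    funext n
    show ψ.1 (Subgroup.inclusion hNI n) * χ.1 n = φ.1 n
    rw [hψ, htriv χ h n, mul_one]
  have hT : ∀ g : G, g ∈ I ↔ ∀ h : N, φ.1 ⟨g * h * g⁻¹, hN.conj_mem h h.2 g⟩ = φ.1 h := by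
    intro g
    rw [hI]
    constructor
    · intro h n
      exact h n _ rfl
    · intro h n n' hn
      have h1 : n' = ⟨g * n * g⁻¹, hN.conj_mem n n.2 g⟩ := Subtype.ext hn
      rw [h1]
      exact h n
  have hc : ∀ χ : IrrCharacter G, charDegree χ.1 = 1 → classInner (resTo N I hNI (t χ)) φ.1 ≠ 0 := by
    intro χ h
    rw [hres χ h, classInner_irr_self φ.2]
    exact one_ne_zero
  let A := {χ : IrrCharacter G // charDegree (χ : G → ℂ) = 1 ∧
        (Nat.card G : ℂ)⁻¹ * ∑ g : G, χ.1 (g * g) = 1}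
  let Φ : A → IrrCharacter G := fun χ =>
    ⟨indFun I (t χ.1), (clifford_main N I hNI φ.2 hT (htirr χ.1 χ.2.1) (hc χ.1 χ.2.1)).1⟩
  have hdeg : ∀ χ, charDegree (Φ χ).1 = charDegree φ.1 * I.index := by
    intro χ
    have h1 : (Φ χ).1 1 = (charDegree (Φ χ).1 : ℂ) := val_one_eq_charDegree _
    have h2 : (Φ χ).1 1 = (I.index : ℂ) * t χ.1 1 := indFun_one_val I _
    have h3 : t χ.1 1 = (charDegree φ.1 : ℂ) := by
      have h4 := hψ 1
      rw [map_one] at h4
      show ψ.1 1 * χ.1.1 ((1 : I) : G) = _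
      rw [h4, show ((1 : I) : G) = 1 from rfl, hone χ.1 χ.2.1, mul_one, val_one_eq_charDegree]
    rw [h3] at h2
    rw [h1] at h2
    have h5 : (charDegree (Φ χ).1 : ℂ) = ((charDegree φ.1 * I.index : ℕ) : ℂ) := by
      rw [h2]
      push_cast
      ring
    exact_mod_cast h5
  have hΦν : ∀ χ : A, (Nat.card G : ℂ)⁻¹ * ∑ g : G, (Φ χ).1 (g * g) = 1 := by
    intro χ
    have hsq : ∀ g : G, χ.1.1 g * χ.1.1 g = 1 := sq_one_of_linear χ.1 χ.2.1 χ.2.2
    have hlinχ := hone χ.1 χ.2.1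
    have htν : (Nat.card I : ℂ)⁻¹ * ∑ x : I, t χ.1 (x * x) = 1 := by
      refine Eq.trans ?_ hψν
      congr 1
      refine Finset.sum_congr rfl fun x _ => ?_
      show ψ.1 (x * x) * χ.1.1 ((x : G) * x) = _
      rw [linear_mul (IsIrrCharacter.isCharacter χ.1.2) hlinχ, hsq, mul_one]
    let θ : IrrCharacter I := ⟨t χ.1, htirr χ.1 χ.2.1⟩
    have hθreal := real_of_nu θ htν
    have hreal : ∀ g, ((Φ χ).1 g).im = 0 := by
      intro g
      apply Complex.conj_eq_iff_im.mp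
      show conj (indFun I (t χ.1) g) = indFun I (t χ.1) g
      simp only [indFun_apply, map_mul, map_sum, map_inv₀, Complex.conj_natCast]
      congr 1
      refine Finset.sum_congr rfl fun x _ => ?_
      by_cases hx : x⁻¹ * g * x ∈ I
      · rw [extendByZero_of_mem I _ hx]
        exact Complex.conj_eq_iff_im.mpr (hθreal _)
      · rw [extendByZero_of_not_mem I _ hx, map_zero]
    have he : classInner (fun h : I => (Φ χ).1 h) θ.1 = ((1 : ℕ) : ℂ) := by
      have h1 := CharInd.frobenius I (t χ.1) (Φ χ).1 (fun g x => IrrBasic.val_conj (Φ χ) g x)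
      have h2 : classInner (indFun I (t χ.1)) (Φ χ).1 = 1 := classInner_irr_self (Φ χ).2
      rw [h2] at h1
      rw [← classInner_conj_symm]
      show conj (classInner (t χ.1) (fun h : I => (Φ χ).1 h)) = _
      rw [← h1]
      simp
    exact FSOdd.nu_one_of_odd I (Φ χ) θ hreal htν 1 he odd_one
  let Φ' : A →
      {χ : IrrCharacter G // charDegree (χ : G → ℂ) = charDegree (φ : ↥N → ℂ) * I.index ∧
        (Nat.card G : ℂ)⁻¹ * ∑ g : G, χ.1 (g * g) = 1} :=
    fun χ => ⟨Φ χ, hdeg χ, hΦν χ⟩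
  have hfib : ∀ a b, Φ' a = Φ' b → ∀ x : I, a.1.1 x = b.1.1 x := by
    intro a b hab x
    have h1 : indFun I (t a.1) = indFun I (t b.1) := by
      have := congrArg (fun c => (c.1.1 : G → ℂ)) hab
      exact this
    have h2 := clifford_inj N I hNI φ.2 hT (htirr a.1 a.2.1) (htirr b.1 b.2.1) (hc a.1 a.2.1) (hc b.1 b.2.1) h1
    exact val_eq_of_twist_eq N hN φ I hNI ψ hψ a.1 b.1 (htriv a.1 a.2.1) (htriv b.1 b.2.1)
      (hone a.1 a.2.1) (hone b.1 b.2.1) (fun y => congrFun h2 y) x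
  let B := {χ : IrrCharacter G // charDegree (χ : G → ℂ) = charDegree (φ : ↥N → ℂ) * I.index ∧
        (Nat.card G : ℂ)⁻¹ * ∑ g : G, χ.1 (g * g) = 1}
  letI : Fintype A := Fintype.ofFinite _
  letI : Fintype B := Fintype.ofFinite _
  show Nat.card A ≤ I.index * Nat.card B
  rw [Nat.card_eq_fintype_card (α := A), Nat.card_eq_fintype_card (α := B)]
  have hcard := Finset.card_le_mul_card_image (s := (Finset.univ : Finset A))
    (f := Φ') I.index (by
    intro δ hδ
    obtain ⟨a, -, rfl⟩ := Finset.mem_image.mp hδ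
    -- the fibre
    let F : Finset (IrrCharacter G) := ((Finset.univ.filter fun x => Φ' x = Φ' a).image Subtype.val)
    have hF : F.card ≤ I.index := by
      apply fiber_le I (fun x : I => a.1.1 x) (IsCharacter.res (IsIrrCharacter.isCharacter a.1.2) I)
        (hone a.1 a.2.1)
      intro χ hχ x
      obtain ⟨b, hb, rfl⟩ := Finset.mem_image.mp hχ
      exact hfib b a (Finset.mem_filter.mp hb).2 x
    rwa [Finset.card_image_of_injective _ Subtype.val_injective] at hF)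
  rw [Finset.card_univ] at hcard
  refine hcard.trans (Nat.mul_le_mul_left _ ?_)
  exact Finset.card_le_univ _



end Cfsg.Agent.Lib.Lin71
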