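import Cfsg.Agent.Lib.CharExtra
import Cfsg.Agent.Lib.BlockNorm
import Cfsg.Agent.Lib.BlockOku
import Cfsg.Agent.Lib.H1Trace
import Cfsg.Agent.Lib.H1CN

/-! Nilpotent groups with a unique irreducible character of degree divisible by `p`. -/

set_option autoImplicit false
set_option linter.unusedVariables false
set_option linter.unusedSectionVars false

namespace Cfsg.Agent.Lib.UniqP

open Cfsg Cfsg.Agent.Lib Cfsg.Agent.Lib.BlockOku
open Cfsg.Agent.Lib.CharBasic Cfsg.Agent.Lib.CharOrth Cfsg.Agent.Lib.CharAlg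
open Cfsg.Agent.Lib.CharInd Cfsg.Agent.Lib.CharLin Cfsg.Agent.Lib.CharExtra
open Cfsg.Agent.Lib.CharBrauer4 Cfsg.Agent.Lib.H1Core
open scoped ComplexConjugate commutatorElement

universe u

variable {G : Type u} [Group G] [Fintype G]

theorem eq_one_of_val (χ : IrrCharacter G) (h : charDegree χ.1 = 1) : χ.1 1 = 1 := by
  rw [val_one_eq_charDegree, h]
  simp

theorem of_ex (hP : IsExtraspecial 2 G) :
    Nat.card {χ : IrrCharacter G // 2 ∣ charDegree χ.1} = 1 := by
  classical
  haveI : Fact (Nat.Prime 2) := ⟨Nat.prime_two⟩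
  have hnc : ¬ ∀ a b : G, a * b = b * a := by
    intro h
    have h1 : Subgroup.center G = ⊤ := by
      rw [Subgroup.eq_top_iff']
      intro g
      rw [Subgroup.mem_center_iff]
      intro y
      exact h y g
    have h2 : commutator G = ⊥ := by
      rw [commutator_def, Subgroup.commutator_eq_bot_iff_le_centralizer]
      intro a _ b _
      exact h b a
    rw [hP.1.2.2] at h2
    have h3 := hP.2
    rw [h2, Subgroup.card_bot] at h3
    omega
  rw [comm_iff_all_linear] at hnc
  push Not at hnc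
  obtain ⟨χ₁, hχ₁⟩ := hnc
  have hcl := classFunction_of_isIrrCharacter χ₁.2
  have hsc := fun (c : G) (hc : c ∈ Subgroup.center G) => central_scalar hc χ₁.2
  have hall : ¬ ∀ z ∈ Subgroup.center G, χ₁.1 z = χ₁.1 1 := by
    intro hall
    apply hχ₁
    obtain ⟨m, ρ, hρ, hc⟩ := id χ₁.2
    have h1 : ∀ z ∈ Subgroup.center G, ρ z = 1 := by
      intro z hz
      have h2 := hall z hz
      rw [← hc, Representation.char_one] at h2
      exact (character_eq_finrank_iff ρ z).mp h2
    have h3 := degree_one_of_commuting ρ hρ (by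
      intro a b v
      have h4 := h1 _ (ex_comm_mem hP a b)
      have h5 : ρ a * ρ b = ρ b * ρ a := by
        have h6 : a * b = (a * b * a⁻¹ * b⁻¹) * (b * a) := by group
        conv_lhs => rw [← map_mul, h6, map_mul, h4, one_mul, map_mul]
      have := congrArg (fun f => f v) h5
      simpa using this)
    rw [← hc, Representation.char_one, h3]
    simp
  push Not at hall
  obtain ⟨z₀, hz₀, hne⟩ := hall
  obtain ⟨ω₀, hω₀, hω₀'⟩ := hsc z₀ hz₀
  have hω₀1 : ω₀ ≠ 1 := by
    rintro rfl
    apply hne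
    have := hω₀' 1
    rwa [one_mul, one_mul] at this
  have hvan : ∀ x, x ∉ Subgroup.center G → χ₁.1 x = 0 := fun x hx => ex_vanish hP hcl hz₀ hω₀1 hω₀' hx
  obtain ⟨d, hd0, hd⟩ := IsIrrCharacter.map_one_pos χ₁.2
  have hnorm : ∀ z ∈ Subgroup.center G, ‖χ₁.1 z‖ = (d : ℝ) := by
    intro z hz
    obtain ⟨ω, hω, hω'⟩ := hsc z hz
    have h1 := hω' 1
    rw [one_mul] at h1
    rw [h1, norm_mul, norm_root_of_unity Nat.card_pos.ne' hω, one_mul, hd]
    simp
  have h1 := ex_norm hP hvan hnorm
  have h2 : classInner χ₁.1 χ₁.1 = 1 := classInner_irr_self χ₁.2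
  rw [h2, one_mul] at h1
  have h3 : Nat.card G = 2 * d ^ 2 := by
    have : ((Nat.card G : ℕ) : ℂ) = ((2 * d ^ 2 : ℕ) : ℂ) := by
      push_cast
      push_cast at h1
      exact h1
    exact_mod_cast this
  obtain ⟨m, hm⟩ := IsPGroup.iff_card.mp hP.1.1
  have hdvd : d ∣ 2 ^ m := by
    rw [← hm, h3]
    exact Dvd.dvd.mul_left (dvd_pow_self d two_ne_zero) _
  obtain ⟨n, -, rfl⟩ := (Nat.dvd_prime_pow Nat.prime_two).mp hdvd
  have hcard : Nat.card G = 2 ^ (2 * n + 1) := by
    rw [h3]
    ring
  obtain ⟨hdeg, hnum⟩ := s0894 hP hcard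
  have hn0 : n ≠ 0 := by
    rintro rfl
    apply hχ₁
    rw [hd]
    simp
  rw [← show 2 - 1 = 1 from rfl, ← hnum]
  apply Nat.card_congr
  apply Equiv.subtypeEquivRight
  intro χ
  constructor
  · intro h
    rcases hdeg χ with h4 | h4
    · exfalso
      rw [val_one_eq_charDegree] at h4
      have h5 : charDegree χ.1 = 1 := by exact_mod_cast h4
      rw [h5] at h
      omega
    · exact h4
  · intro h
    rw [val_one_eq_charDegree] at h
    have h5 : charDegree χ.1 = 2 ^ n := by exact_mod_cast h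
    rw [h5]
    exact dvd_pow_self 2 hn0

theorem exists_linear_ne {Y : Type u} [Group Y] [Fintype Y] (x : Y) (hx : x ∉ commutator Y) :
    ∃ lam : Y →* ℂˣ, lam x ≠ 1 := by
  classical
  letI : Fintype (Abelianization Y) := Fintype.ofFinite _
  have hx' : (Abelianization.of x : Abelianization Y) ≠ 1 := by
    intro h
    exact hx ((QuotientGroup.eq_one_iff x).mp h)
  have h1 := sum_degree_mul (G := Abelianization Y) (Abelianization.of x)
  rw [if_neg hx'] at h1
  have hlin : ∀ χ : IrrCharacter (Abelianization Y), χ.1 1 = 1 := fun χ =>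
    irr_degree_one_of_comm χ.2 (fun a b => mul_comm a b)
  by_contra hcon
  push Not at hcon
  have hall : ∀ χ : IrrCharacter (Abelianization Y), χ.1 (Abelianization.of x) = 1 := by
    intro χ
    obtain ⟨mu, hmu⟩ := exists_hom_of_linear (IsIrrCharacter.isCharacter χ.2) (hlin χ)
    have h2 := hcon (mu.comp Abelianization.of)
    rw [hmu]
    simp only [MonoidHom.comp_apply] at h2
    show ((mu (Abelianization.of x) : ℂˣ) : ℂ) = 1
    rw [h2]
    simp
  simp only [hlin, hall, one_mul, Finset.sum_const, nsmul_eq_mul, mul_one, Nat.cast_eq_zero] at h1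
  have h3 : Nonempty (IrrCharacter (Abelianization Y)) := ⟨⟨_, isIrrCharacter_one⟩⟩
  exact absurd h1 (by
    rw [Finset.card_eq_zero]
    exact Finset.univ_nonempty.ne_empty)

theorem commutator_ne_top_of_nilpotent {Y : Type u} [Group Y] [Finite Y] [Group.IsNilpotent Y]
    [Nontrivial Y] : commutator Y ≠ ⊤ := by
  intro h
  obtain h1 | ⟨M, hM, -⟩ := eq_top_or_exists_le_coatom (⊥ : Subgroup Y)
  · exact bot_ne_top h1
  · have h2 : commutator Y ≤ M := (H1Frat.coatom_index_prime_of_nilpotent hM).2.2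
    rw [h] at h2
    exact hM.1 (top_le_iff.mp h2)

theorem eq_of_card_two {C : Subgroup G} (hC : Nat.card C = 2) {a b : G} (ha : a ∈ C) (hb : b ∈ C)
    (ha1 : a ≠ 1) (hb1 : b ≠ 1) : a = b := by
  classical
  by_contra hab
  letI : Fintype C := Fintype.ofFinite _
  let a' : C := ⟨a, ha⟩
  let b' : C := ⟨b, hb⟩
  have h1 : ({1, a', b'} : Finset C).card = 3 := by
    rw [Finset.card_insert_of_notMem, Finset.card_insert_of_notMem, Finset.card_singleton]
    · simp only [Finset.mem_singleton]
      intro h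
      exact hab (congrArg Subtype.val h)
    · simp only [Finset.mem_insert, Finset.mem_singleton, not_or]
      constructor
      · intro h
        exact ha1 (congrArg Subtype.val h).symm
      · intro h
        exact hb1 (congrArg Subtype.val h).symm
  have h2 := Finset.card_le_univ ({1, a', b'} : Finset C)
  rw [h1, ← Nat.card_eq_fintype_card, hC] at h2
  omega

/-- A nilpotent group with a unique character of degree divisible by `p` is a `p`-group. -/
theorem isPGroup_of_unique [Group.IsNilpotent G] (p : ℕ) [hp : Fact p.Prime] (χ₀ : IrrCharacter G)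
    (hχ₀ : p ∣ charDegree χ₀.1)
    (huniq : ∀ χ : IrrCharacter G, p ∣ charDegree χ.1 → χ = χ₀)
    (htw : ∀ (lam : G →* ℂˣ) (g : G), χ₀.1 g * (lam g : ℂ) = χ₀.1 g) : IsPGroup p G := by
  classical
  have hP0 := hp.out
  let N : Subgroup G := pPrimeCore p G
  let P : Subgroup G := pCore p G
  have hNidx : N.index = p ^ N.index.primeFactorsList.length := by
    apply Nat.eq_prime_pow_of_unique_prime_dvd Subgroup.index_ne_zero_of_finite
    intro q hq hqd
    by_contra hqp
    haveI : Fact q.Prime := ⟨hq⟩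
    have h1 : pCore q G ≤ N := by
      apply le_pPrimeCore (pCore_normal q G)
      obtain ⟨k, hk⟩ := IsPGroup.iff_card.mp (pCore_isPGroup (G := G) q)
      rw [hk]
      exact Nat.Coprime.pow_left _ ((Nat.coprime_primes hq hP0).mpr hqp)
    exact H1CN.not_dvd_index_pCore (X := G) q (hqd.trans (Subgroup.index_dvd_of_le h1))
  generalize N.index.primeFactorsList.length = k at hNidx
  have hPidx : ¬ p ∣ P.index := H1CN.not_dvd_index_pCore (X := G) p
  have hdisj : ∀ x, x ∈ P → x ∈ N → x = 1 := by
    intro x hxP hxN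
    obtain ⟨a, ha⟩ := IsPGroup.iff_card.mp (pCore_isPGroup (G := G) p)
    have h1 : x ^ Nat.card P = 1 := by
      have h0 : (⟨x, hxP⟩ : P) ^ Nat.card P = 1 := pow_card_eq_one'
      exact congrArg Subtype.val h0
    have h2 : x ^ Nat.card N = 1 := by
      have h0 : (⟨x, hxN⟩ : N) ^ Nat.card N = 1 := pow_card_eq_one'
      exact congrArg Subtype.val h0
    have h3 : (Nat.card P).Coprime (Nat.card N) := by
      rw [ha]
      exact Nat.Coprime.pow_left _ (pPrimeCore_coprime (G := G) p).symm
    have h4 := Nat.Coprime.eq_one_of_dvd (h3.coprime_dvd_left (orderOf_dvd_of_pow_eq_one h1))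
      (orderOf_dvd_of_pow_eq_one h2)
    exact orderOf_eq_one_iff.mp h4
  -- `G / N` is not abelian
  have hab : ¬ ∀ a b : G ⧸ N, a * b = b * a := by
    intro hab
    have hPZ : P ≤ Subgroup.center G := by
      intro x hx
      rw [Subgroup.mem_center_iff]
      intro g
      have h1 : x * g * x⁻¹ * g⁻¹ ∈ N := by
        rw [← QuotientGroup.eq_one_iff]
        have := hab (x : G ⧸ N) (g : G ⧸ N)
        simp only [QuotientGroup.mk_mul, QuotientGroup.mk_inv]
        rw [this]
        group
      have h2 : x * g * x⁻¹ * g⁻¹ ∈ P := by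
        have h3 : g * x⁻¹ * g⁻¹ ∈ P := (pCore_normal p G).conj_mem _ (P.inv_mem hx) g
        have h4 := P.mul_mem hx h3
        simpa [mul_assoc] using h4
      have h5 := hdisj _ h2 h1
      have h6 : x * g * x⁻¹ = g := mul_inv_eq_one.mp h5
      exact (mul_inv_eq_iff_eq_mul.mp h6).symm
    obtain ⟨n, ρ, hρ, hc⟩ := id χ₀.2
    have h1 := CharMisc.finrank_dvd_index_center ρ hρ
    have h2 : charDegree χ₀.1 = n := by
      have h3 := val_one_eq_charDegree χ₀
      rw [← hc, Representation.char_one] at h3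
      simp only [LinearMap.trace_one, Module.finrank_fin_fun] at h3
      rw [← hc]
      exact_mod_cast h3.symm
    rw [Module.finrank_fin_fun, ← h2] at h1
    exact hPidx (hχ₀.trans (h1.trans (Subgroup.index_dvd_of_le hPZ)))
  rw [comm_iff_all_linear] at hab
  push Not at hab
  letI : Fintype (G ⧸ N) := Fintype.ofFinite _
  obtain ⟨β, hβ⟩ := hab
  have hNker : ∀ n ∈ N, χ₀.1 n = χ₀.1 1 := by
    let χ' : IrrCharacter G := ⟨β.1 ∘ (QuotientGroup.mk' N),
      IsIrrCharacter.comp_surjective β.2 _ (QuotientGroup.mk'_surjective N)⟩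
    have h1 : charDegree χ'.1 = charDegree β.1 := by
      simp only [charDegree, χ']
      simp
    have h2 : charDegree β.1 ∣ p ^ k := by
      have := BlockNorm.charDegree_dvd_card β
      rwa [← Subgroup.index_eq_card, hNidx] at this
    obtain ⟨j, -, hj⟩ := (Nat.dvd_prime_pow hP0).mp h2
    have hj0 : j ≠ 0 := by
      rintro rfl
      apply hβ
      apply eq_one_of_val
      rw [hj, pow_zero]
    have h3 : p ∣ charDegree χ'.1 := by
      rw [h1, hj]
      exact dvd_pow_self p hj0
    have h4 := huniq χ' h3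
    intro n hn
    rw [← h4]
    show β.1 (QuotientGroup.mk' N n) = β.1 (QuotientGroup.mk' N 1)
    have h5 : QuotientGroup.mk' N n = 1 := (QuotientGroup.eq_one_iff n).mpr hn
    rw [map_one, h5]
  -- `P` is everything
  by_cases hPtop : P = ⊤
  · intro g
    obtain ⟨j, hj⟩ := pCore_isPGroup (G := G) p ⟨g, by
      show g ∈ P
      rw [hPtop]
      trivial⟩
    exact ⟨j, by simpa using congrArg Subtype.val hj⟩
  exfalso
  -- a nontrivial linear character of `G / P`
  haveI hNt : Nontrivial (G ⧸ P) := QuotientGroup.nontrivial_iff.mpr hPtop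
  letI : Fintype (G ⧸ P) := Fintype.ofFinite _
  haveI : Group.IsNilpotent (G ⧸ P) := inferInstance
  have hcne := commutator_ne_top_of_nilpotent (Y := G ⧸ P)
  obtain ⟨y, hy⟩ : ∃ y, y ∉ commutator (G ⧸ P) := by
    by_contra hcon
    push Not at hcon
    exact hcne ((Subgroup.eq_top_iff' _).mpr hcon)
  obtain ⟨lam, hlam⟩ := exists_linear_ne y hy
  obtain ⟨g, rfl⟩ := QuotientGroup.mk'_surjective P y
  let lam' : G →* ℂˣ := lam.comp (QuotientGroup.mk' P)
  have hgN : g ^ N.index ∈ N := by
    rw [← QuotientGroup.eq_one_iff, QuotientGroup.mk_pow, Subgroup.index_eq_card]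
    exact pow_card_eq_one'
  have h1 := htw lam' (g ^ N.index)
  rw [hNker _ hgN] at h1
  have hne : χ₀.1 1 ≠ 0 := by
    rw [val_one_eq_charDegree]
    exact_mod_cast charDegree_ne_zero' χ₀
  have h2 : (lam' (g ^ N.index) : ℂ) = 1 := by
    apply mul_left_cancel₀ hne
    rw [h1, mul_one]
  have h3 : lam' (g ^ N.index) = 1 := Units.ext h2
  have h4 : (lam (QuotientGroup.mk' P g)) ^ N.index = 1 := by
    rw [← map_pow, ← map_pow]
    exact h3
  have h5 : (lam (QuotientGroup.mk' P g)) ^ P.index = 1 := by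
    rw [← map_pow, Subgroup.index_eq_card, pow_card_eq_one', map_one]
  have hcop : (N.index).Coprime P.index := by
    rw [hNidx]
    exact Nat.Coprime.pow_left _ ((Nat.Prime.coprime_iff_not_dvd hP0).mpr hPidx)
  have h6 := Nat.Coprime.eq_one_of_dvd (hcop.coprime_dvd_left (orderOf_dvd_of_pow_eq_one h4))
    (orderOf_dvd_of_pow_eq_one h5)
  exact hlam (orderOf_eq_one_iff.mp h6)

theorem to_ex [Group.IsNilpotent G] (p : ℕ) [hp : Fact p.Prime]
    (h : Nat.card {χ : IrrCharacter G // p ∣ charDegree χ.1} = 1) : p = 2 ∧ IsExtraspecial 2 G := by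
  classical
  have hP0 := hp.out
  obtain ⟨hsub, hne⟩ := Nat.card_eq_one_iff_unique.mp h
  obtain ⟨⟨χ₀, hχ₀⟩⟩ := hne
  have huniq : ∀ χ : IrrCharacter G, p ∣ charDegree χ.1 → χ = χ₀ := fun χ hχ =>
    congrArg Subtype.val (hsub.elim ⟨χ, hχ⟩ ⟨χ₀, hχ₀⟩)
  have htw : ∀ (lam : G →* ℂˣ) (g : G), χ₀.1 g * (lam g : ℂ) = χ₀.1 g := by
    intro lam g
    let χ' : IrrCharacter G := ⟨_, CharAbQ.twist_isIrr χ₀.2 lam⟩
    have hdeg : charDegree χ'.1 = charDegree χ₀.1 := by
      simp [charDegree, χ']
    have h1 := huniq χ' (hdeg ▸ hχ₀)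
    exact congrFun (congrArg Subtype.val h1) g
  have hpg : IsPGroup p G := isPGroup_of_unique p χ₀ hχ₀ huniq htw
  obtain ⟨m, hm⟩ := IsPGroup.iff_card.mp hpg
  have hdvdp : ∀ χ : IrrCharacter G, ∃ j, charDegree χ.1 = p ^ j := by
    intro χ
    have h1 := BlockNorm.charDegree_dvd_card χ
    rw [hm] at h1
    obtain ⟨j, -, hj⟩ := (Nat.dvd_prime_pow hP0).mp h1
    exact ⟨j, hj⟩
  have hlin : ∀ χ : IrrCharacter G, χ ≠ χ₀ → χ.1 1 = 1 := by
    intro χ hχ
    obtain ⟨j, hj⟩ := hdvdp χ
    apply eq_one_of_val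
    rw [hj]
    rcases Nat.eq_zero_or_pos j with rfl | hj0
    · simp
    · exact absurd (huniq χ (by rw [hj]; exact dvd_pow_self p hj0.ne')) hχ
  obtain ⟨a, ha⟩ := hdvdp χ₀
  have ha0 : a ≠ 0 := by
    rintro rfl
    rw [ha, pow_zero] at hχ₀
    exact hP0.one_lt.ne' (Nat.dvd_one.mp hχ₀)
  have hχ₀1 : χ₀.1 1 = ((p ^ a : ℕ) : ℂ) := by
    rw [val_one_eq_charDegree, ha]
  have hχ₀ne : χ₀.1 1 ≠ 1 := by
    rw [hχ₀1]
    intro h1
    have h2 : p ^ a = 1 := by exact_mod_cast h1
    exact absurd h2 (Nat.one_lt_pow ha0 hP0.one_lt).ne'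
  have hnc : ¬ ∀ a b : G, a * b = b * a := by
    rw [comm_iff_all_linear]
    push Not
    exact ⟨χ₀, hχ₀ne⟩
  -- the degree equation
  have hcardlin : Nat.card {χ : IrrCharacter G // χ.1 1 = 1} = (commutator G).index := card_linear
  have hsum : (p ^ a) ^ 2 + (commutator G).index = Nat.card G := by
    have h1 := sum_degree_sq (G := G)
    rw [← Finset.add_sum_erase _ _ (Finset.mem_univ χ₀), hχ₀1] at h1
    have h2 : ∑ χ ∈ Finset.univ.erase χ₀, χ.1 1 ^ 2 = ((commutator G).index : ℂ) := by
      rw [← hcardlin, Finset.sum_congr rfl (g := fun _ => (1 : ℂ)) (fun χ hχ => by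
        rw [hlin χ (Finset.ne_of_mem_erase hχ), one_pow]), Finset.sum_const, nsmul_eq_mul, mul_one]
      congr 1
      rw [Nat.card_eq_fintype_card, Fintype.card_subtype]
      congr 1
      ext χ
      simp only [Finset.mem_erase, Finset.mem_univ, and_true, Finset.mem_filter, true_and]
      constructor
      · exact hlin χ
      · rintro h3 rfl
        exact hχ₀ne h3
    rw [h2] at h1
    exact_mod_cast h1
  -- arithmetic
  have hic : (commutator G).index * Nat.card (commutator G) = Nat.card G :=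
    Subgroup.index_mul_card _
  have hc1 : Nat.card (commutator G) ≠ 1 := by
    intro h1
    apply hnc
    intro a b
    have h2 : ⁅a, b⁆ ∈ commutator G := Subgroup.commutator_mem_commutator (Subgroup.mem_top _) (Subgroup.mem_top _)
    have h3 : ⁅a, b⁆ = 1 := by
      have := (Subgroup.eq_bot_of_card_eq _ h1)
      rw [this] at h2
      exact Subgroup.mem_bot.mp h2
    exact commutatorElement_eq_one_iff_mul_comm.mp h3
  have hc0 : 0 < Nat.card (commutator G) := Nat.card_pos
  obtain ⟨e, he⟩ : ∃ e, Nat.card (commutator G) = p ^ e := by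
    have h1 : Nat.card (commutator G) ∣ p ^ m := by
      rw [← hm, ← hic]
      exact Dvd.intro_left _ rfl
    obtain ⟨j, -, hj⟩ := (Nat.dvd_prime_pow hP0).mp h1
    exact ⟨j, hj⟩
  have he0 : e ≠ 0 := by
    rintro rfl
    exact hc1 (by rw [he, pow_zero])
  have hi0 : 0 < (commutator G).index := Nat.pos_of_ne_zero Subgroup.index_ne_zero_of_finite
  have hd2 : (p ^ a) ^ 2 = (commutator G).index * (Nat.card (commutator G) - 1) := by
    rw [Nat.mul_sub, mul_one, hic, ← hsum]
    omega
  obtain ⟨f, hf⟩ : ∃ f, Nat.card (commutator G) - 1 = p ^ f := by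
    have h1 : Nat.card (commutator G) - 1 ∣ p ^ (a * 2) := by
      rw [pow_mul, hd2]
      exact Dvd.intro_left _ rfl
    obtain ⟨j, -, hj⟩ := (Nat.dvd_prime_pow hP0).mp h1
    exact ⟨j, hj⟩
  have hf0 : f = 0 := by
    by_contra hf0
    have h1 : p ∣ Nat.card (commutator G) - 1 := by
      rw [hf]
      exact dvd_pow_self p hf0
    have h2 : p ∣ Nat.card (commutator G) := by
      rw [he]
      exact dvd_pow_self p he0
    have h3 : p ∣ 1 := by
      have := (Nat.dvd_sub h2 h1)
      have h4 : Nat.card (commutator G) - (Nat.card (commutator G) - 1) = 1 := by omega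
      rwa [h4] at this
    exact hP0.one_lt.ne' (Nat.dvd_one.mp h3)
  have hc2 : Nat.card (commutator G) = 2 := by
    rw [hf0, pow_zero] at hf
    omega
  have hp2 : p = 2 := by
    have h1 : p ∣ 2 := by
      rw [← hc2, he]
      exact dvd_pow_self p he0
    exact (Nat.prime_dvd_prime_iff_eq hP0 Nat.prime_two).mp h1
  subst hp2
  refine ⟨rfl, ?_⟩
  have hdi : (2 ^ a) ^ 2 = (commutator G).index := by
    rw [hd2, hc2]
    simp
  -- the commutator subgroup is central
  have hCZ : commutator G ≤ Subgroup.center G := by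
    intro z hz
    rw [Subgroup.mem_center_iff]
    intro g
    by_cases hz1 : z = 1
    · rw [hz1, one_mul, mul_one]
    · have hn : (commutator G).Normal := inferInstance
      have h1 : g * z * g⁻¹ ∈ commutator G := hn.conj_mem z hz g
      have h2 : g * z * g⁻¹ ≠ 1 := by
        intro h3
        apply hz1
        have : z = g⁻¹ * (g * z * g⁻¹) * g := by group
        rw [this, h3]
        group
      have h3 := eq_of_card_two hc2 h1 hz h2 hz1
      exact (mul_inv_eq_iff_eq_mul.mp h3)
  -- `|Z| d² ≤ |G|`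
  have hZle : Nat.card (Subgroup.center G) * (2 ^ a) ^ 2 ≤ Nat.card G := by
    have h1 := classInner_irr_self χ₀.2
    rw [classInner_self_eq] at h1
    have h2 : ∑ g : G, ‖χ₀.1 g‖ ^ 2 = (Nat.card G : ℝ) := by
      have h3 : ((Nat.card G : ℝ)⁻¹ * ∑ g, ‖χ₀.1 g‖ ^ 2 : ℝ) = 1 := by exact_mod_cast h1
      have h4 : (Nat.card G : ℝ) ≠ 0 := by exact_mod_cast Nat.card_pos.ne'
      field_simp at h3
      linarith
    have hnorm : ∀ z ∈ Subgroup.center G, ‖χ₀.1 z‖ = ((2 ^ a : ℕ) : ℝ) := by
      intro z hz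
      obtain ⟨ω, hω, hω'⟩ := central_scalar hz χ₀.2
      have h3 := hω' 1
      rw [one_mul] at h3
      rw [h3, norm_mul, norm_root_of_unity Nat.card_pos.ne' hω, one_mul, hχ₀1]
      simp
    have h3 : ∑ g ∈ Finset.univ.filter (fun g => g ∈ Subgroup.center G), ‖χ₀.1 g‖ ^ 2 ≤
        ∑ g : G, ‖χ₀.1 g‖ ^ 2 :=
      Finset.sum_le_sum_of_subset_of_nonneg (Finset.filter_subset _ _) (fun _ _ _ => by positivity)
    rw [h2, Finset.sum_congr rfl (g := fun _ => (((2 ^ a : ℕ) : ℝ)) ^ 2) (fun g hg => by
      rw [hnorm g (Finset.mem_filter.mp hg).2]), Finset.sum_const, nsmul_eq_mul] at h3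
    have h4 : (Finset.univ.filter (fun g => g ∈ Subgroup.center G)).card = Nat.card (Subgroup.center G) := by
      rw [Nat.card_eq_fintype_card, Fintype.card_subtype]
    rw [h4] at h3
    exact_mod_cast h3
  have hZle2 : Nat.card (Subgroup.center G) ≤ 2 := by
    rw [← hic, hc2, ← hdi] at hZle
    have h0 : 0 < (2 ^ a) ^ 2 := by positivity
    have h1 : Nat.card (Subgroup.center G) * (2 ^ a) ^ 2 ≤ 2 * (2 ^ a) ^ 2 := by
      rw [mul_comm 2]
      exact hZle
    exact Nat.le_of_mul_le_mul_right h1 h0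
  have hCeq : commutator G = Subgroup.center G :=
    Subgroup.eq_of_le_of_card_ge hCZ (by rw [hc2]; exact hZle2)
  have hZ2 : Nat.card (Subgroup.center G) = 2 := by
    rw [← hCeq, hc2]
  refine ⟨⟨hpg, ?_, hCeq⟩, hZ2⟩
  apply le_antisymm
  · intro x hx
    by_contra hxZ
    have hxC : x ∉ commutator G := by
      rw [hCeq]
      exact hxZ
    obtain ⟨lam, hlam⟩ := exists_linear_ne x hxC
    have hker : ∀ y ∈ commutator G, lam y = 1 := by
      intro y hy
      have h2 : commutator G ≤ lam.ker := by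
        rw [commutator_def, Subgroup.commutator_le]
        intro a _ b _
        rw [MonoidHom.mem_ker, map_commutatorElement, commutatorElement_eq_one_iff_mul_comm]
        exact mul_comm _ _
      exact h2 hy
    have hsq : ∀ g : G, g ^ 2 ∈ commutator G := by
      intro g
      rw [hCeq, Subgroup.mem_center_iff]
      intro y
      have hz : g * y * g⁻¹ * y⁻¹ ∈ commutator G :=
        Subgroup.commutator_mem_commutator (Subgroup.mem_top _) (Subgroup.mem_top _)
      have hzc := hCZ hz
      rw [Subgroup.mem_center_iff] at hzc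
      have hz2 : (g * y * g⁻¹ * y⁻¹) ^ 2 = 1 := by
        have h0 : (⟨_, hz⟩ : commutator G) ^ 2 = 1 := by
          rw [← hc2]
          exact pow_card_eq_one'
        exact congrArg Subtype.val h0
      set z := g * y * g⁻¹ * y⁻¹ with hzdef
      have h1 : g * y = z * y * g := by
        rw [hzdef]
        group
      have h2 : y * g ^ 2 = g ^ 2 * y := by
        have h3 : g ^ 2 * y = g * (g * y) := by rw [pow_two, mul_assoc]
        rw [h3, h1]
        have h4 : g * (z * y * g) = z * (g * y) * g := by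
          have := hzc g
          calc g * (z * y * g) = (g * z) * y * g := by group
            _ = (z * g) * y * g := by rw [this]
            _ = z * (g * y) * g := by group
        rw [h4, h1]
        have h5 : z * (z * y * g) * g = z ^ 2 * y * g ^ 2 := by simp only [pow_two, mul_assoc]
        rw [h5, hz2, one_mul]
      exact h2
    have hsq' : ∀ g : G, (lam g) ^ 2 = 1 := by
      intro g
      rw [← map_pow]
      exact hker _ (hsq g)
    have hsq'' : ∀ g : G, (lam g : ℂ) = 1 ∨ (lam g : ℂ) = -1 := by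
      intro g
      have h1 := congrArg Units.val (hsq' g)
      push_cast at h1
      exact eq_or_eq_neg_of_sq_eq_sq _ _ (by rw [h1, one_pow])
    have hx1 : (lam x : ℂ) = -1 := by
      rcases hsq'' x with h1 | h1
      · exact absurd (Units.ext h1) hlam
      · exact h1
    have hval : ∀ g : G, lam g = 1 ∨ lam g = lam x := by
      intro g
      rcases hsq'' g with h1 | h1
      · exact Or.inl (Units.ext h1)
      · exact Or.inr (Units.ext (h1.trans hx1.symm))
    have hM : IsCoatom lam.ker := by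
      constructor
      · intro h1
        apply hlam
        have h2 : x ∈ lam.ker := by
          rw [h1]
          trivial
        exact h2
      · intro K hK
        obtain ⟨k, hkK, hkM⟩ := SetLike.exists_of_lt hK
        have hk : lam k = lam x := (hval k).resolve_left hkM
        rw [Subgroup.eq_top_iff']
        intro g
        rcases hval g with h1 | h1
        · exact hK.le h1
        · have h2 : g * k⁻¹ ∈ lam.ker := by
            rw [MonoidHom.mem_ker, map_mul, map_inv, h1, hk, mul_inv_cancel]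
          have h3 := K.mul_mem (hK.le h2) hkK
          simpa using h3
    exact hlam ((H1Frat.mem_frattini.mp hx) _ hM)
  · rw [← hCeq]
    exact H1Trace.commutator_le_frattini_of_pgroup hpg

theorem main [Group.IsNilpotent G] (p : ℕ) [hp : Fact p.Prime] :
    Nat.card {χ : IrrCharacter G // p ∣ charDegree χ.1} = 1 ↔ (p = 2 ∧ IsExtraspecial 2 G) := by
  constructor
  · exact to_ex p
  · rintro ⟨rfl, h⟩
    exact of_ex h

end Cfsg.Agent.Lib.UniqP
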