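import Cfsg.Agent.Lib.Glaub
import Cfsg.Agent.Lib.H1SL2
import Cfsg.Agent.Lib.PNorm2
import Cfsg.Agent.Lib.UniqP
import Cfsg.Agent.Lib.Lin70
import Cfsg.Agent.Lib.CharBerger2
import Cfsg.Agent.Lib.CharAbQ

/-! A group with a normal `p`-complement and a unique character of degree divisible by `p`. -/

set_option autoImplicit false
set_option linter.unusedVariables false
set_option linter.unusedSectionVars false

namespace Cfsg.Agent.Lib.OneP

open Cfsg Cfsg.Agent.Lib
open scoped Pointwise

universe u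

section Classes

variable {G : Type u} [Group G] [Fintype G] {p : ℕ} [hp : Fact p.Prime] (N : Subgroup G) [hN : N.Normal]
  (P : Sylow p G)

theorem mem_N_P_eq_one (hcop : (Nat.card N).Coprime p) {x : G} (hxN : x ∈ N)
    (hxP : x ∈ (P : Subgroup G)) : x = 1 := by
  obtain ⟨a, ha⟩ := IsPGroup.iff_card.mp P.isPGroup'
  have h1 : x ^ Nat.card (P : Subgroup G) = 1 := by
    have h0 : (⟨x, hxP⟩ : (P : Subgroup G)) ^ Nat.card (P : Subgroup G) = 1 := pow_card_eq_one'
    exact congrArg Subtype.val h0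
  have h2 : x ^ Nat.card N = 1 := by
    have h0 : (⟨x, hxN⟩ : N) ^ Nat.card N = 1 := pow_card_eq_one'
    exact congrArg Subtype.val h0
  have h3 : (Nat.card (P : Subgroup G)).Coprime (Nat.card N) := by
    rw [ha]
    exact Nat.Coprime.pow_left _ hcop.symm
  have h4 := Nat.Coprime.eq_one_of_dvd (h3.coprime_dvd_left (orderOf_dvd_of_pow_eq_one h1))
    (orderOf_dvd_of_pow_eq_one h2)
  exact orderOf_eq_one_iff.mp h4

theorem card_sylow {k : ℕ} (hcop : (Nat.card N).Coprime p) (hidx : N.index = p ^ k) :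
    Nat.card (P : Subgroup G) = p ^ k := by
  have hpp := hp.out
  have h1 : Nat.card G = Nat.card N * p ^ k := by
    rw [← hidx]
    exact (Subgroup.card_mul_index N).symm
  rw [Sylow.card_eq_multiplicity, h1, Nat.factorization_mul Nat.card_pos.ne' (pow_ne_zero _ hpp.ne_zero)]
  have h2 : (Nat.card N).factorization p = 0 :=
    Nat.factorization_eq_zero_of_not_dvd (fun h => hpp.one_lt.ne' (Nat.eq_one_of_dvd_coprimes hcop h (dvd_refl p)))
  simp [h2, hpp.factorization_self]

theorem exists_decomp {k : ℕ} (hcop : (Nat.card N).Coprime p) (hidx : N.index = p ^ k) (g : G) :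
    ∃ n ∈ N, ∃ u ∈ (P : Subgroup G), g = n * u := by
  have h1 : Nat.card N * Nat.card (P : Subgroup G) = Nat.card G := by
    rw [card_sylow N P hcop hidx, ← hidx]
    exact Subgroup.card_mul_index N
  have h2 : (Nat.card N).Coprime (Nat.card (P : Subgroup G)) := by
    rw [card_sylow N P hcop hidx]
    exact Nat.Coprime.pow_right _ hcop
  have h3 := Subgroup.isComplement'_of_coprime h1 h2
  obtain ⟨⟨n, u⟩, hnu⟩ := h3.2 g
  exact ⟨n, n.2, u, u.2, hnu.symm⟩

theorem commute_of_ab (hcop : (Nat.card N).Coprime p) (hab : ∀ a b : G ⧸ N, a * b = b * a) {x y : G}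
    (hx : x ∈ (P : Subgroup G)) (hy : y ∈ (P : Subgroup G)) : x * y = y * x := by
  have h1 : x * y * x⁻¹ * y⁻¹ ∈ N := by
    rw [← QuotientGroup.eq_one_iff]
    simp only [QuotientGroup.mk_mul, QuotientGroup.mk_inv]
    rw [hab (x : G ⧸ N) (y : G ⧸ N)]
    group
  have h2 : x * y * x⁻¹ * y⁻¹ ∈ (P : Subgroup G) :=
    Subgroup.mul_mem _ (Subgroup.mul_mem _ (Subgroup.mul_mem _ hx hy) (Subgroup.inv_mem _ hx)) (Subgroup.inv_mem _ hy)
  have h3 := mem_N_P_eq_one N P hcop h1 h2
  have h6 : x * y * x⁻¹ = y := mul_inv_eq_one.mp h3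
  exact mul_inv_eq_iff_eq_mul.mp h6

/-- The fixed points. -/
def fixC : Subgroup G := N ⊓ Subgroup.centralizer ((P : Subgroup G) : Set G)

theorem mem_fixC {x : G} : x ∈ fixC N P ↔ x ∈ N ∧ ∀ u ∈ (P : Subgroup G), u * x = x * u := by
  simp only [fixC, Subgroup.mem_inf, Subgroup.mem_centralizer_iff, SetLike.mem_coe]

theorem fixC_comm {c u : G} (hc : c ∈ fixC N P) (hu : u ∈ (P : Subgroup G)) : c * u = u * c :=
  (((mem_fixC N P).mp hc).2 u hu).symm

noncomputable def classMap (x : ConjClasses (fixC N P) × (P : Subgroup G)) : ConjClasses G :=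
  Quotient.lift (fun c : fixC N P => ConjClasses.mk ((c : G) * ((x.2 : (P : Subgroup G)) : G))) (by
    intro a b hab
    show ConjClasses.mk _ = ConjClasses.mk _
    rw [ConjClasses.mk_eq_mk_iff_isConj]
    obtain ⟨d, hd⟩ := isConj_iff.mp hab
    refine isConj_iff.mpr ⟨(d : G), ?_⟩
    have h1 : (d : G) * a * (d : G)⁻¹ = b := congrArg Subtype.val hd
    have h2 : (d : G) * ((x.2 : (P : Subgroup G)) : G) = ((x.2 : (P : Subgroup G)) : G) * d :=
      fixC_comm N P d.2 x.2.2
    calc (d : G) * (a * ((x.2 : (P : Subgroup G)) : G)) * (d : G)⁻¹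
        = (d : G) * a * ((d : G)⁻¹ * ((d : G) * ((x.2 : (P : Subgroup G)) : G))) * (d : G)⁻¹ := by group
      _ = (d : G) * a * ((d : G)⁻¹ * (((x.2 : (P : Subgroup G)) : G) * d)) * (d : G)⁻¹ := by rw [h2]
      _ = (d : G) * a * (d : G)⁻¹ * ((x.2 : (P : Subgroup G)) : G) := by group
      _ = _ := by rw [h1]) x.1

theorem classMap_mk (c : fixC N P) (u : (P : Subgroup G)) :
    classMap N P (ConjClasses.mk c, u) = ConjClasses.mk ((c : G) * (u : G)) := rfl

theorem size_eq (g : G) : Nat.card (ConjClasses.mk g).carrier = (Subgroup.centralizer ({g} : Set G)).index :=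
  H1SL2.card_carrier g

theorem card_classes {k : ℕ} (hcop : (Nat.card N).Coprime p) (hidx : N.index = p ^ k)
    (hab : ∀ a b : G ⧸ N, a * b = b * a) :
    Nat.card {K : ConjClasses G // ¬ p ∣ Nat.card K.carrier} =
      Nat.card (ConjClasses (fixC N P)) * Nat.card (P : Subgroup G) := by
  classical
  have hPc : ∀ {x y : G}, x ∈ (P : Subgroup G) → y ∈ (P : Subgroup G) → x * y = y * x :=
    fun hx hy => commute_of_ab N P hcop hab hx hy
  -- elements commuting with `P`
  have hwP : ∀ (c : fixC N P) (u : (P : Subgroup G)), ∀ v ∈ (P : Subgroup G),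
      v * ((c : G) * u) = ((c : G) * u) * v := by
    intro c u v hv
    have h1 : v * (c : G) = (c : G) * v := ((mem_fixC N P).mp c.2).2 v hv
    rw [← mul_assoc, h1, mul_assoc, mul_assoc, hPc hv u.2]
  have hmem : ∀ x, ¬ p ∣ Nat.card (classMap N P x).carrier := by
    rintro ⟨c, u⟩
    obtain ⟨c, rfl⟩ := ConjClasses.mk_surjective c
    rw [classMap_mk, size_eq]
    intro hd
    have h1 : (P : Subgroup G) ≤ Subgroup.centralizer ({(c : G) * (u : G)} : Set G) := by
      intro v hv
      rw [Subgroup.mem_centralizer_singleton_iff]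
      exact hwP c u v hv
    exact P.not_dvd_index (hd.trans (Subgroup.index_dvd_of_le h1))
  let F : ConjClasses (fixC N P) × (P : Subgroup G) → {K : ConjClasses G // ¬ p ∣ Nat.card K.carrier} :=
    fun x => ⟨classMap N P x, hmem x⟩
  have hF : Function.Bijective F := by
    constructor
    · rintro ⟨c, u⟩ ⟨c', u'⟩ h
      obtain ⟨c, rfl⟩ := ConjClasses.mk_surjective c
      obtain ⟨c', rfl⟩ := ConjClasses.mk_surjective c'
      have h1 : ConjClasses.mk ((c : G) * (u : G)) = ConjClasses.mk ((c' : G) * (u' : G)) :=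
        congrArg Subtype.val h
      rw [ConjClasses.mk_eq_mk_iff_isConj] at h1
      obtain ⟨g, hg⟩ := isConj_iff.mp h1
      -- `u = u'`
      have huu : (u : G) = u' := by
        have h2 := congrArg (fun x : G => (x : G ⧸ N)) hg
        simp only [QuotientGroup.mk_mul, QuotientGroup.mk_inv] at h2
        have hcN : ((c : G) : G ⧸ N) = 1 := (QuotientGroup.eq_one_iff _).mpr ((mem_fixC N P).mp c.2).1
        have hcN' : ((c' : G) : G ⧸ N) = 1 := (QuotientGroup.eq_one_iff _).mpr ((mem_fixC N P).mp c'.2).1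
        rw [hcN, hcN', one_mul, one_mul, hab (g : G ⧸ N), mul_inv_cancel_right] at h2
        have h3 : (u' : G)⁻¹ * (u : G) ∈ N := by
          rw [← QuotientGroup.eq_one_iff]
          simp only [QuotientGroup.mk_mul, QuotientGroup.mk_inv]
          rw [h2, inv_mul_cancel]
        have h4 : (u' : G)⁻¹ * (u : G) ∈ (P : Subgroup G) := Subgroup.mul_mem _ (Subgroup.inv_mem _ u'.2) u.2
        have h5 := mem_N_P_eq_one N P hcop h3 h4
        exact inv_mul_eq_one.mp h5 |>.symm
      have huu' : u = u' := Subtype.ext huu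
      subst huu'
      -- Burnside
      have hx : (c : G) * (u : G) ∈ Subgroup.centralizer ((P : Subgroup G) : Set G) := by
        rw [Subgroup.mem_centralizer_iff]
        intro v hv
        exact hwP c u v hv
      have hy : g⁻¹⁻¹ * ((c : G) * (u : G))  * g⁻¹ ∈ Subgroup.centralizer ((P : Subgroup G) : Set G) := by
        rw [inv_inv, hg]
        rw [Subgroup.mem_centralizer_iff]
        intro v hv
        exact hwP c' u v hv
      obtain ⟨n, hn, hn'⟩ := Sylow.conj_eq_normalizer_conj_of_mem_centralizer P _ g⁻¹ hx hy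
      rw [inv_inv, hg] at hn'
      -- decompose `n⁻¹`
      obtain ⟨d, hdN, v, hvP, hdv⟩ := exists_decomp N P hcop hidx n⁻¹
      have hdnorm : ∀ x ∈ (P : Subgroup G), d * x * d⁻¹ ∈ (P : Subgroup G) := by
        intro x hx
        have h2 : n⁻¹ ∈ Subgroup.normalizer ((P : Subgroup G) : Set G) := Subgroup.inv_mem _ hn
        have h3 := (Subgroup.mem_normalizer_iff.mp h2 (v⁻¹ * (v * x * v⁻¹) * v))
        have h4 : v * x * v⁻¹ ∈ (P : Subgroup G) :=
          Subgroup.mul_mem _ (Subgroup.mul_mem _ hvP hx) (Subgroup.inv_mem _ hvP)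
        have h5 : d * x * d⁻¹ = n⁻¹ * (v⁻¹ * x * v) * (n⁻¹)⁻¹ := by
          rw [hdv]
          group
        rw [h5]
        have h6 := (Subgroup.mem_normalizer_iff.mp h2 (v⁻¹ * x * v)).mp
          (Subgroup.mul_mem _ (Subgroup.mul_mem _ (Subgroup.inv_mem _ hvP) hx) hvP)
        exact h6
      have hdC : d ∈ fixC N P := by
        rw [mem_fixC]
        refine ⟨hdN, fun x hx => ?_⟩
        have h2 : d * x * d⁻¹ * x⁻¹ ∈ (P : Subgroup G) :=
          Subgroup.mul_mem _ (hdnorm x hx) (Subgroup.inv_mem _ hx)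
        have h3 : d * x * d⁻¹ * x⁻¹ ∈ N := by
          have h4 : x * d⁻¹ * x⁻¹ ∈ N := hN.conj_mem _ (N.inv_mem hdN) x
          have h5 := N.mul_mem hdN h4
          simpa [mul_assoc] using h5
        have h6 := mem_N_P_eq_one N P hcop h3 h2
        have h7 : d * x * d⁻¹ = x := mul_inv_eq_one.mp h6
        exact (mul_inv_eq_iff_eq_mul.mp h7).symm
      have hconj : d * (c : G) * d⁻¹ = c' := by
        have h2 : (c' : G) * (u : G) = d * ((c : G) * (u : G)) * d⁻¹ := by
          have h3 : n⁻¹ * ((c : G) * (u : G)) * n = d * (v * ((c : G) * (u : G)) * v⁻¹) * d⁻¹ := by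
            have h4 : n = (n⁻¹)⁻¹ := (inv_inv n).symm
            rw [h4, inv_inv, hdv]
            group
          rw [hn', h3, hwP c u v hvP, mul_inv_cancel_right]
        have h5 : d * (u : G) = (u : G) * d := fixC_comm N P hdC u.2
        have h6 : d * ((c : G) * (u : G)) * d⁻¹ = (d * (c : G) * d⁻¹) * (u : G) := by
          calc d * ((c : G) * (u : G)) * d⁻¹ = d * (c : G) * d⁻¹ * (d * (u : G)) * d⁻¹ := by group
            _ = d * (c : G) * d⁻¹ * ((u : G) * d) * d⁻¹ := by rw [h5]
            _ = _ := by group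
        rw [h6] at h2
        exact (mul_right_cancel h2).symm
      apply Prod.ext
      · apply ConjClasses.mk_eq_mk_iff_isConj.mpr
        refine isConj_iff.mpr ⟨⟨d, hdC⟩, Subtype.ext hconj⟩
      · rfl
    · rintro ⟨K, hK⟩
      obtain ⟨x, rfl⟩ := ConjClasses.mk_surjective K
      rw [size_eq] at hK
      obtain ⟨S, hS⟩ := PNorm.exists_sylow_of_index (p := p) _ hK
      obtain ⟨g, hg⟩ := MulAction.exists_smul_eq G S P
      have hw : ∀ v ∈ (P : Subgroup G), v * (g * x * g⁻¹) = (g * x * g⁻¹) * v := by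
        intro v hv
        have h1 : v ∈ MulAut.conj g • (S : Subgroup G) := by
          rw [← hg] at hv
          exact hv
        obtain ⟨s, hs, hsv⟩ := Subgroup.mem_smul_pointwise_iff_exists v _ _ |>.mp h1
        have h2 : s * x = x * s := Subgroup.mem_centralizer_singleton_iff.mp (hS hs)
        have h3 : v = g * s * g⁻¹ := by
          rw [← hsv]
          rfl
        rw [h3]
        calc g * s * g⁻¹ * (g * x * g⁻¹) = g * (s * x) * g⁻¹ := by group
          _ = g * (x * s) * g⁻¹ := by rw [h2]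
          _ = _ := by group
      obtain ⟨d, hdN, u, hu, hdu⟩ := exists_decomp N P hcop hidx (g * x * g⁻¹)
      have hdC : d ∈ fixC N P := by
        rw [mem_fixC]
        refine ⟨hdN, fun v hv => ?_⟩
        have h1 := hw v hv
        rw [hdu, ← mul_assoc, mul_assoc d, hPc hu hv, ← mul_assoc] at h1
        exact mul_right_cancel h1
      refine ⟨(ConjClasses.mk ⟨d, hdC⟩, ⟨u, hu⟩), Subtype.ext ?_⟩
      change classMap N P (ConjClasses.mk ⟨d, hdC⟩, ⟨u, hu⟩) = ConjClasses.mk x
      rw [classMap_mk]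
      apply ConjClasses.mk_eq_mk_iff_isConj.mpr
      show IsConj (d * u) x
      rw [← hdu]
      exact (isConj_iff.mpr ⟨g, rfl⟩).symm
  rw [← Nat.card_prod]
  exact (Nat.card_congr (Equiv.ofBijective F hF)).symm

end Classes

section Chars

open Cfsg.Agent.Lib.CharBasic Cfsg.Agent.Lib.CharOrth Cfsg.Agent.Lib.CharAlg Cfsg.Agent.Lib.CharInd
open Cfsg.Agent.Lib.CharLin Cfsg.Agent.Lib.CharClifford Cfsg.Agent.Lib.BlockOku Cfsg.Agent.Lib.CharNormal
open scoped ComplexConjugate

theorem eq_of_char_of_degree {K : Type u} [Group K] [Fintype K] {η : K → ℂ} (hη : IsCharacter K η)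
    (θ : IrrCharacter K) (hc : classInner η θ.1 ≠ 0) (hd : η 1 = θ.1 1) : η = θ.1 := by
  classical
  obtain ⟨m, hm⟩ := IsCharacter.exists_nat_coeff hη
  have hmθ : classInner η θ.1 = (m θ : ℂ) := by
    rw [hm]
    exact classInner_sum_irr (fun φ => (m φ : ℂ)) θ
  have hm0 : m θ ≠ 0 := by
    intro h
    apply hc
    rw [hmθ, h, Nat.cast_zero]
  have h1 : ∑ φ : IrrCharacter K, m φ * charDegree φ.1 = charDegree θ.1 := by
    have h2 := congrFun hm 1
    rw [hd] at h2
    simp only [Finset.sum_apply, Pi.smul_apply, smul_eq_mul, val_one_eq_charDegree] at h2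
    exact_mod_cast h2.symm
  have hd0 := charDegree_ne_zero' θ
  rw [← Finset.add_sum_erase _ _ (Finset.mem_univ θ)] at h1
  have h3 : m θ = 1 := by
    have h4 : m θ * charDegree θ.1 ≤ charDegree θ.1 := by omega
    have h5 : m θ ≤ 1 := by
      by_contra h6
      push Not at h6
      have : 2 * charDegree θ.1 ≤ m θ * charDegree θ.1 := Nat.mul_le_mul_right _ h6
      omega
    omega
  rw [h3, one_mul] at h1
  have h4 : ∑ φ ∈ Finset.univ.erase θ, m φ * charDegree φ.1 = 0 := by omega
  have h5 : ∀ φ ≠ θ, m φ = 0 := by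
    intro φ hφ
    have h6 := (Finset.sum_eq_zero_iff.mp h4) φ (Finset.mem_erase.mpr ⟨hφ, Finset.mem_univ _⟩)
    exact (Nat.mul_eq_zero.mp h6).resolve_right (charDegree_ne_zero' φ)
  rw [hm, Finset.sum_eq_single θ (fun φ _ hφ => by rw [h5 φ hφ]; simp) (fun h => absurd (Finset.mem_univ _) h),
    h3]
  simp

variable {G : Type u} [Group G] [Fintype G] {p : ℕ} [hp : Fact p.Prime] (N : Subgroup G) [hN : N.Normal] [Fintype N]

/-- Invariance under `G`. -/
def InvG (θ : IrrCharacter N) : Prop :=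
  ∀ (g : G) (n : N), θ.1 ⟨g * n * g⁻¹, hN.conj_mem n n.2 g⟩ = θ.1 n

/-- Lying over. -/
def Over (χ : IrrCharacter G) (θ : IrrCharacter N) : Prop := classInner (fun n : N => χ.1 n) θ.1 ≠ 0

theorem res_eq {k : ℕ} (hidx : N.index = p ^ k) (χ : IrrCharacter G) (θ : IrrCharacter N) (hc : Over N χ θ)
    (hχ : ¬ p ∣ charDegree χ.1) : ∀ n : N, χ.1 n = θ.1 n := by
  classical
  have hpp := hp.out
  obtain ⟨k', hk', hk'd⟩ := CharProj.degree_quot_dvd_index N θ.2 χ.2 hc
  rw [hidx] at hk'd
  obtain ⟨j, -, rfl⟩ := (Nat.dvd_prime_pow hpp).mp hk'd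
  have hcd : charDegree χ.1 = p ^ j * charDegree θ.1 := by
    rw [val_one_eq_charDegree, val_one_eq_charDegree] at hk'
    exact_mod_cast hk'
  have hj : j = 0 := by
    by_contra hj
    apply hχ
    rw [hcd]
    exact Dvd.dvd.mul_right (dvd_pow_self p hj) _
  subst hj
  have h1 : χ.1 1 = θ.1 1 := by
    rw [hk']
    simp
  have h2 := eq_of_char_of_degree (IsCharacter.res (IsIrrCharacter.isCharacter χ.2) N) θ hc h1
  exact congrFun h2

theorem inv_of_res (χ : IrrCharacter G) (θ : IrrCharacter N) (h : ∀ n : N, χ.1 n = θ.1 n) : InvG N θ := by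
  intro g n
  rw [← h, ← h]
  exact IrrBasic.val_conj χ n g

theorem card_over (θ : IrrCharacter N) (hall : ∀ χ : IrrCharacter G, Over N χ θ → ∀ n : N, χ.1 n = θ.1 n) :
    Nat.card {χ : IrrCharacter G // Over N χ θ} = N.index := by
  classical
  have hcl := indFun_classFunction N θ.1
  have h1 := congrFun (classFun_eq_sum _ hcl) 1
  rw [Lin70.indFun_one_val] at h1
  simp only [Finset.sum_apply, Pi.smul_apply, smul_eq_mul] at h1
  have hterm : ∀ χ : IrrCharacter G, classInner (indFun N θ.1) χ.1 * χ.1 1 =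
      if Over N χ θ then θ.1 1 else 0 := by
    intro χ
    rw [CharInd.frobenius N _ _ (fun g x => IrrBasic.val_conj χ g x)]
    by_cases h : Over N χ θ
    · rw [if_pos h]
      have h2 : (fun n : N => χ.1 n) = θ.1 := funext (hall χ h)
      rw [h2, classInner_irr_self θ.2, one_mul]
      exact hall χ h 1
    · rw [if_neg h]
      have h3 : classInner (fun n : N => χ.1 n) θ.1 = 0 := not_not.mp h
      rw [← classInner_conj_symm, h3, map_zero, zero_mul]
  simp only [hterm] at h1
  rw [Finset.sum_ite, Finset.sum_const_zero, add_zero, Finset.sum_const, nsmul_eq_mul] at h1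
  have hθ1 : θ.1 1 ≠ 0 := by
    rw [val_one_eq_charDegree]
    exact_mod_cast charDegree_ne_zero' θ
  have h2 := mul_right_cancel₀ hθ1 h1
  rw [Nat.card_eq_fintype_card, Fintype.card_subtype]
  exact_mod_cast h2.symm

theorem exists_over (θ : IrrCharacter N) : ∃ χ : IrrCharacter G, Over N χ θ := by
  classical
  by_contra hcon
  push Not at hcon
  have h0 : indFun N θ.1 = 0 := by
    apply eq_zero_of_classInner_irr_eq_zero _ (indFun_classFunction N θ.1)
    intro χ hχ
    rw [CharInd.frobenius N _ _ (fun g x => IrrBasic.val_conj ⟨χ, hχ⟩ g x), ← classInner_conj_symm]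
    have h3 : classInner (fun n : N => χ n) θ.1 = 0 := not_not.mp (hcon ⟨χ, hχ⟩)
    rw [h3, map_zero]
  have h1 := congrFun h0 1
  rw [Lin70.indFun_one_val] at h1
  simp only [Pi.zero_apply] at h1
  have hθ1 : θ.1 1 ≠ 0 := by
    rw [val_one_eq_charDegree]
    exact_mod_cast charDegree_ne_zero' θ
  have hidx : (N.index : ℂ) ≠ 0 := by exact_mod_cast Subgroup.index_ne_zero_of_finite
  exact (mul_ne_zero hidx hθ1) h1

theorem no_inv_below {k : ℕ} (hcop : (Nat.card N).Coprime p) (hidx : N.index = p ^ k) (hNbot : N ≠ ⊥)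
    (χ₀ : IrrCharacter G) (hχ₀ : p ∣ charDegree χ₀.1)
    (huniq : ∀ χ : IrrCharacter G, p ∣ charDegree χ.1 → χ = χ₀)
    (θ₀ : IrrCharacter N) (hinv : InvG N θ₀) (hover : Over N χ₀ θ₀) : False := by
  classical
  have hpp := hp.out
  have hcop' : (Nat.card N).Coprime N.index := by
    rw [hidx]
    exact Nat.Coprime.pow_right _ hcop
  have hχ₀c := IsIrrCharacter.isCharacter χ₀.2
  obtain ⟨τ, hτ, hτN⟩ := CharAbQ.exists_ext_coprime N θ₀.2 hinv hcop'
  have hτeq : (fun n : N => τ n) = θ₀.1 := funext hτN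
  have hτres : IsIrrCharacter N (fun n : N => τ n) := by
    rw [hτeq]
    exact θ₀.2
  obtain ⟨e, he⟩ := IsCharacter.classInner_irr_nat (IsCharacter.res hχ₀c N) θ₀.2
  have he0 : e ≠ 0 := by
    rintro rfl
    apply hover
    rw [he, Nat.cast_zero]
  -- homogeneity
  have hdeg : charDegree χ₀.1 = e * charDegree θ₀.1 := by
    let ψ : (⊤ : Subgroup G) → ℂ := fun t => χ₀.1 t
    have hψ : IsIrrCharacter (⊤ : Subgroup G) ψ :=
      IsIrrCharacter.comp_surjective χ₀.2 (⊤ : Subgroup G).subtype (fun g => ⟨⟨g, trivial⟩, rfl⟩)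
    have hc : classInner (resTo N (⊤ : Subgroup G) le_top ψ) θ₀.1 ≠ 0 := hover
    have h1 := resTo_eq_smul N (⊤ : Subgroup G) le_top θ₀.2 (fun t _ => by
      funext n
      exact hinv t n) hψ hc
    have h2 : classInner (resTo N (⊤ : Subgroup G) le_top ψ) θ₀.1 = (e : ℂ) := he
    rw [h2] at h1
    have h3 := congrFun h1 1
    have h4 : χ₀.1 1 = (e : ℂ) * θ₀.1 1 := h3
    rw [val_one_eq_charDegree, val_one_eq_charDegree] at h4
    exact_mod_cast h4
  have hθp : ¬ p ∣ charDegree θ₀.1 := by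
    intro h
    have h1 := h.trans (BlockNorm.charDegree_dvd_card θ₀)
    exact hpp.one_lt.ne' (Nat.eq_one_of_dvd_coprimes hcop h1 (dvd_refl p))
  have hpe : p ∣ e := by
    rw [hdeg] at hχ₀
    exact (hpp.dvd_mul.mp hχ₀).resolve_right hθp
  -- Gallagher
  obtain ⟨hg1, -, -⟩ := CharGall.s0868 N τ hτ hτres χ₀.1 χ₀.2 _ rfl
  have hηirr := hg1 (by
    rw [hτeq]
    exact hover)
  set η : G → ℂ := fun g => (Nat.card N : ℂ)⁻¹ * ∑ n : N, χ₀.1 ((n : G) * g) * conj (τ ((n : G) * g)) with hη
  have hη1 : η 1 = (e : ℂ) := by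
    rw [← he]
    show (Nat.card N : ℂ)⁻¹ * ∑ n : N, χ₀.1 ((n : G) * 1) * conj (τ ((n : G) * 1)) = _
    unfold classInner
    refine congrArg _ (Finset.sum_congr rfl fun n _ => ?_)
    rw [mul_one, hτN]
  have hηeq : (⟨η, hηirr⟩ : IrrCharacter G) = χ₀ := by
    apply huniq
    have h1 : charDegree η = e := by
      have h2 := val_one_eq_charDegree (⟨η, hηirr⟩ : IrrCharacter G)
      rw [show (⟨η, hηirr⟩ : IrrCharacter G).1 1 = η 1 from rfl, hη1] at h2
      exact_mod_cast h2.symm
    show p ∣ charDegree η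
    rw [h1]
    exact hpe
  have hχ₀η : χ₀.1 = η := (congrArg Subtype.val hηeq).symm
  have hker : ∀ n₀ ∈ N, ∀ z, χ₀.1 (n₀ * z) = χ₀.1 z := by
    intro n₀ hn₀ z
    rw [hχ₀η]
    simp only [hη]
    congr 1
    conv_rhs => rw [← Equiv.sum_comp (Equiv.mulRight (⟨n₀, hn₀⟩ : N))]
    refine Finset.sum_congr rfl fun n _ => ?_
    simp only [Equiv.coe_mulRight, Subgroup.coe_mul, mul_assoc]
  have hker1 : ∀ n : N, χ₀.1 n = χ₀.1 1 := by
    intro n
    have := hker n n.2 1
    rwa [mul_one] at this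
  have hχ₀1 : χ₀.1 1 ≠ 0 := by
    rw [val_one_eq_charDegree]
    exact_mod_cast charDegree_ne_zero' χ₀
  -- a nontrivial character of `N`
  let one : IrrCharacter N := ⟨fun _ => 1, isIrrCharacter_one⟩
  obtain ⟨θ', hθ'⟩ : ∃ θ' : IrrCharacter N, θ' ≠ one := by
    by_contra hcon
    push Not at hcon
    apply hNbot
    rw [Subgroup.eq_bot_iff_forall]
    intro n hn
    haveI : Subsingleton (IrrCharacter N) := ⟨fun a b => (hcon a).trans (hcon b).symm⟩
    haveI : Nonempty (IrrCharacter N) := ⟨one⟩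
    have h1 : Nat.card (ConjClasses N) = 1 := by
      rw [← card_irr]
      exact Nat.card_unique
    have h2 : ConjClasses.mk (⟨n, hn⟩ : N) = ConjClasses.mk 1 := by
      haveI : Subsingleton (ConjClasses N) := (Nat.card_eq_one_iff_unique.mp h1).1
      exact Subsingleton.elim _ _
    rw [ConjClasses.mk_eq_mk_iff_isConj] at h2
    have h3 := isConj_one_right.mp h2.symm
    exact congrArg Subtype.val h3
  by_cases hinv' : InvG N θ'
  · obtain ⟨τ', hτ', hτN'⟩ := CharAbQ.exists_ext_coprime N θ'.2 hinv' hcop'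
    have hτres' : IsIrrCharacter N (fun n : N => τ' n) := by
      rw [funext hτN']
      exact θ'.2
    have hprod : IsIrrCharacter G (fun y => τ' y * χ₀.1 y) := by
      apply isIrrCharacter_of_norm_one
        (IsCharacter.mul (IsIrrCharacter.isCharacter hτ') hχ₀c)
      show classInner (fun y => τ' y * χ₀.1 y) (fun y => τ' y * χ₀.1 y) = 1
      rw [← classInner_irr_self χ₀.2]
      unfold classInner
      congr 1
      rw [← CharBerger2.sum_norm_coset N hτ' hτres' (fun z => χ₀.1 z * conj (χ₀.1 z)) (fun a ha z => by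
        simp only [hker a ha z])]
      apply Finset.sum_congr rfl
      intro z _
      rw [map_mul]
      ring
    have hdd : charDegree (fun y => τ' y * χ₀.1 y) = charDegree (⟨τ', hτ'⟩ : IrrCharacter G).1 * charDegree χ₀.1 := by
      have h1 := val_one_eq_charDegree (⟨_, hprod⟩ : IrrCharacter G)
      have h2 := val_one_eq_charDegree (⟨τ', hτ'⟩ : IrrCharacter G)
      have h3 := val_one_eq_charDegree χ₀
      have h4 : τ' 1 * χ₀.1 1 = (charDegree (fun y => τ' y * χ₀.1 y) : ℂ) := h1
      have h5 : τ' 1 = (charDegree τ' : ℂ) := h2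
      rw [h5, h3] at h4
      show charDegree (fun y => τ' y * χ₀.1 y) = charDegree τ' * charDegree χ₀.1
      exact_mod_cast h4.symm
    have heq : (⟨_, hprod⟩ : IrrCharacter G) = χ₀ := by
      apply huniq
      show p ∣ charDegree (fun y => τ' y * χ₀.1 y)
      rw [hdd]
      exact Dvd.dvd.mul_left hχ₀ _
    apply hθ'
    apply Subtype.ext
    funext n
    have h1 := congrFun (congrArg Subtype.val heq) (n : G)
    have h2 : τ' n * χ₀.1 n = χ₀.1 n := h1
    rw [hker1 n] at h2
    have h3 : τ' n = 1 := mul_right_cancel₀ hχ₀1 (by rw [h2, one_mul])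
    rw [← hτN', h3]
  · obtain ⟨χ', hχ'⟩ := exists_over (G := G) N θ'
    have hχ'p : p ∣ charDegree χ'.1 := by
      by_contra h
      exact hinv' (inv_of_res N χ' θ' (res_eq N hidx χ' θ' hχ' h))
    have h1 := huniq χ' hχ'p
    rw [h1] at hχ'
    apply hχ'
    have h2 : (fun n : N => χ₀.1 n) = (χ₀.1 1) • one.1 := by
      funext n
      simp only [Pi.smul_apply, smul_eq_mul, one]
      rw [hker1 n, mul_one]
    rw [h2, classInner_smul_left, classInner_irr one.2 θ'.2, if_neg (fun h => hθ' (Subtype.ext h).symm), mul_zero]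

theorem count_irr {k : ℕ} (hcop : (Nat.card N).Coprime p) (hidx : N.index = p ^ k) (hNbot : N ≠ ⊥)
    (χ₀ : IrrCharacter G) (hχ₀ : p ∣ charDegree χ₀.1)
    (huniq : ∀ χ : IrrCharacter G, p ∣ charDegree χ.1 → χ = χ₀) :
    Nat.card (IrrCharacter G) = 1 + Nat.card {θ : IrrCharacter N // InvG N θ} * N.index ∧
      ∀ a b : G ⧸ N, a * b = b * a := by
  classical
  have hpp := hp.out
  have hA : ∀ θ : IrrCharacter N, InvG N θ → ¬ Over N χ₀ θ := fun θ h1 h2 =>
    no_inv_below N hcop hidx hNbot χ₀ hχ₀ huniq θ h1 h2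
  have hB : ∀ χ : IrrCharacter G, χ ≠ χ₀ → ¬ p ∣ charDegree χ.1 := fun χ h1 h2 => h1 (huniq χ h2)
  constructor
  · have hC : ∀ θ : IrrCharacter N, InvG N θ → Nat.card {χ : IrrCharacter G // Over N χ θ} = N.index := by
      intro θ hθ
      apply card_over
      intro χ hχ
      apply res_eq N hidx χ θ hχ
      apply hB
      rintro rfl
      exact hA θ hθ hχ
    let s : Finset (IrrCharacter G) := Finset.univ.erase χ₀
    let t : Finset (IrrCharacter N) := Finset.univ.filter (fun θ => InvG N θ)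
    have hbip := Finset.sum_card_bipartiteAbove_eq_sum_card_bipartiteBelow (s := s) (t := t)
      (fun (χ : IrrCharacter G) (θ : IrrCharacter N) => Over N χ θ)
    have hL : ∀ χ ∈ s, (Finset.bipartiteAbove (fun (χ : IrrCharacter G) (θ : IrrCharacter N) => Over N χ θ) t χ).card = 1 := by
      intro χ hχ
      have hχne : χ ≠ χ₀ := Finset.ne_of_mem_erase hχ
      obtain ⟨θ, hθ⟩ : ∃ θ : IrrCharacter N, Over N χ θ := by
        by_contra hcon
        push Not at hcon
        have h1 := IsCharacter.exists_nat_coeff (IsCharacter.res (IsIrrCharacter.isCharacter χ.2) N)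
        obtain ⟨m, hm⟩ := h1
        have h2 : ∀ θ : IrrCharacter N, m θ = 0 := by
          intro θ
          have h3 := not_not.mp (hcon θ)
          rw [hm, classInner_sum_irr (fun φ => (m φ : ℂ)) θ] at h3
          exact_mod_cast h3
        have h4 := congrFun hm 1
        simp only [h2, Nat.cast_zero, zero_smul, Finset.sum_const_zero, Pi.zero_apply] at h4
        have h5 : χ.1 1 ≠ 0 := by
          rw [val_one_eq_charDegree]
          exact_mod_cast charDegree_ne_zero' χ
        exact h5 h4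
      have hres := res_eq N hidx χ θ hθ (hB χ hχne)
      rw [Finset.card_eq_one]
      refine ⟨θ, ?_⟩
      ext θ'
      simp only [Finset.bipartiteAbove, Finset.mem_filter, Finset.mem_singleton, t, Finset.mem_univ, true_and]
      constructor
      · rintro ⟨-, h⟩
        have hres' := res_eq N hidx χ θ' h (hB χ hχne)
        apply Subtype.ext
        funext n
        rw [← hres', hres]
      · rintro rfl
        exact ⟨inv_of_res N χ _ hres, hθ⟩
    have hR : ∀ θ ∈ t, (Finset.bipartiteBelow (fun (χ : IrrCharacter G) (θ : IrrCharacter N) => Over N χ θ) s θ).card = N.index := by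
      intro θ hθ
      have hθ' : InvG N θ := (Finset.mem_filter.mp hθ).2
      rw [← hC θ hθ', Nat.card_eq_fintype_card, Fintype.card_subtype]
      congr 1
      ext χ
      simp only [Finset.bipartiteBelow, Finset.mem_filter, s, Finset.mem_erase, Finset.mem_univ, and_true, true_and]
      constructor
      · exact fun h => h.2
      · intro h
        refine ⟨?_, h⟩
        rintro rfl
        exact hA θ hθ' h
    rw [Finset.sum_congr rfl hL, Finset.sum_congr rfl hR, Finset.sum_const, Finset.sum_const, smul_eq_mul,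
      smul_eq_mul, mul_one] at hbip
    have hscard : s.card + 1 = Nat.card (IrrCharacter G) := by
      rw [Nat.card_eq_fintype_card, Finset.card_erase_add_one (Finset.mem_univ _), Finset.card_univ]
    have htcard : t.card = Nat.card {θ : IrrCharacter N // InvG N θ} := by
      rw [Nat.card_eq_fintype_card, Fintype.card_subtype]
    rw [← htcard, ← hscard, hbip]
    ring
  · letI : Fintype (G ⧸ N) := Fintype.ofFinite _
    rw [comm_iff_all_linear]
    intro β
    let one : IrrCharacter N := ⟨fun _ => 1, isIrrCharacter_one⟩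
    have hinvone : InvG N one := fun g n => rfl
    let χ' : IrrCharacter G := ⟨β.1 ∘ (QuotientGroup.mk' N),
      IsIrrCharacter.comp_surjective β.2 _ (QuotientGroup.mk'_surjective N)⟩
    have hχ'N : (fun n : N => χ'.1 n) = (β.1 1) • one.1 := by
      funext n
      have h1 : QuotientGroup.mk' N n = 1 := (QuotientGroup.eq_one_iff _).mpr n.2
      show β.1 (QuotientGroup.mk' N n) = _
      rw [h1]
      simp [one]
    have hβ1 : β.1 1 ≠ 0 := by
      rw [val_one_eq_charDegree]
      exact_mod_cast charDegree_ne_zero' β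
    have hover' : Over N χ' one := by
      show classInner (fun n : N => χ'.1 n) one.1 ≠ 0
      rw [hχ'N, classInner_smul_left, classInner_irr_self one.2, mul_one]
      exact hβ1
    have hne : χ' ≠ χ₀ := by
      intro h
      rw [h] at hover'
      exact hA one hinvone hover'
    have hnd := hB χ' hne
    have h1 : charDegree χ'.1 = charDegree β.1 := rfl
    have h2 : charDegree β.1 ∣ p ^ k := by
      have := BlockNorm.charDegree_dvd_card β
      rwa [← Subgroup.index_eq_card, hidx] at this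
    obtain ⟨j, -, hj⟩ := (Nat.dvd_prime_pow hpp).mp h2
    have hj0 : j = 0 := by
      by_contra hj0
      apply hnd
      rw [h1, hj]
      exact dvd_pow_self p hj0
    apply UniqP.eq_one_of_val
    rw [hj, hj0, pow_zero]

end Chars


section Final

open Cfsg.Agent.Lib.CharBasic Cfsg.Agent.Lib.CharOrth Cfsg.Agent.Lib.CharAlg Cfsg.Agent.Lib.CharInd
open Cfsg.Agent.Lib.CharLin Cfsg.Agent.Lib.BlockOku

variable {G : Type u} [Group G] [Fintype G] {p : ℕ} [hp : Fact p.Prime] (N : Subgroup G) [hN : N.Normal] [Fintype N]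

theorem card_inv {k : ℕ} (P : Sylow p G) (hcop : (Nat.card N).Coprime p) (hidx : N.index = p ^ k) :
    Nat.card {θ : IrrCharacter N // InvG N θ} = Nat.card (ConjClasses (fixC N P)) := by
  classical
  letI : Fintype (fixC N P) := Fintype.ofFinite _
  have hPcop : (Nat.card N).Coprime (Nat.card (P : Subgroup G)) := by
    rw [card_sylow N P hcop hidx]
    exact Nat.Coprime.pow_right _ hcop
  have hcorr := Glaub.corr_all (P : Subgroup G) P.isPGroup' N (fixC N P)
    (fun s _ g hg => hN.conj_mem g hg s) hPcop rfl inf_le_left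
  have hiff : ∀ θ : IrrCharacter N, InvG N θ ↔ Glaub.InvBy (P : Subgroup G) N θ := by
    intro θ
    constructor
    · intro h s _ g g' hg'
      have h1 : g' = ⟨s * g * s⁻¹, hN.conj_mem g g.2 s⟩ := Subtype.ext hg'
      rw [h1]
      exact h s g
    · intro h g n
      obtain ⟨d, hd, u, hu, rfl⟩ := exists_decomp N P hcop hidx g
      have h1 : (u * n * u⁻¹ : G) ∈ N := hN.conj_mem n n.2 u
      have h2 := h u hu n ⟨_, h1⟩ rfl
      have h3 := IrrBasic.val_conj θ (⟨_, h1⟩ : N) (⟨d, hd⟩ : N)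
      rw [← h2, ← h3]
      refine congrArg θ.1 (Subtype.ext ?_)
      simp [mul_assoc]
  rw [← card_irr]
  have hf := fun θ : {θ : IrrCharacter N // InvG N θ} => hcorr.exU θ.1 ((hiff θ.1).mp θ.2)
  choose f hf1 hf2 using hf
  apply Nat.card_congr (Equiv.ofBijective f ⟨?_, ?_⟩)
  · intro a b hab
    apply Subtype.ext
    apply hcorr.inj a.1 ((hiff a.1).mp a.2) b.1 ((hiff b.1).mp b.2) (f a) (hf1 a)
    rw [hab]
    exact hf1 b
  · intro β
    obtain ⟨χ, hχ, hrel⟩ := hcorr.surj β
    exact ⟨⟨χ, (hiff χ).mpr hχ⟩, (hf2 ⟨χ, (hiff χ).mpr hχ⟩ β hrel).symm⟩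

theorem main (hnil : ¬ Group.IsNilpotent G) (hcop : (Nat.card N).Coprime p) (hidx : ∃ k : ℕ, N.index = p ^ k)
    (hone : Nat.card {χ : IrrCharacter G // p ∣ charDegree χ.1} = 1) :
    Nat.card {C : ConjClasses G // p ∣ Nat.card C.carrier} = 1 := by
  classical
  obtain ⟨k, hk⟩ := hidx
  obtain ⟨hsub, hne⟩ := Nat.card_eq_one_iff_unique.mp hone
  obtain ⟨⟨χ₀, hχ₀⟩⟩ := hne
  have huniq : ∀ χ : IrrCharacter G, p ∣ charDegree χ.1 → χ = χ₀ := fun χ hχ =>
    congrArg Subtype.val (hsub.elim ⟨χ, hχ⟩ ⟨χ₀, hχ₀⟩)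
  have hNbot : N ≠ ⊥ := by
    rintro rfl
    apply hnil
    have h1 : Nat.card G = p ^ k := by
      rw [← hk, Subgroup.index_bot]
    exact (IsPGroup.of_card h1).isNilpotent
  obtain ⟨hcount, hab⟩ := count_irr N hcop hk hNbot χ₀ hχ₀ huniq
  obtain ⟨P⟩ : Nonempty (Sylow p G) := inferInstance
  have hcl := card_classes N P hcop hk hab
  have hinv := card_inv N P hcop hk
  have hP := card_sylow N P hcop hk
  have hsplit : Nat.card {C : ConjClasses G // p ∣ Nat.card C.carrier} +
      Nat.card {C : ConjClasses G // ¬ p ∣ Nat.card C.carrier} = Nat.card (ConjClasses G) := by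
    rw [← Nat.card_sum]
    exact Nat.card_congr (Equiv.sumCompl _)
  rw [← card_irr, hcount, hinv, hcl, hP, hk] at hsplit
  omega

end Final

end Cfsg.Agent.Lib.OneP
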