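import Cfsg.Agent.Lib.Glaub5

/-!
# Orbits on real characters and real classes under odd index
-/

set_option autoImplicit false
set_option linter.unusedSectionVars false
set_option linter.unusedVariables false
set_option linter.style.longLine false

universe u

namespace Cfsg.Agent.Lib.OrbReal

open Cfsg Cfsg.Agent.Lib.IrrBasic Cfsg.Agent.Lib Cfsg.Agent.Lib.Glaub
open Cfsg.Agent.Lib.CharBasic Cfsg.Agent.Lib.CharOrth Cfsg.Agent.Lib.CharAlg Cfsg.Agent.Lib.BlockInfl
open scoped ComplexConjugate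

section Abstract
variable {G : Type u} [Group G] [Fintype G]

theorem burnside_nat (β : Type*) [MulAction G β] [Finite β] :
    ∑ g : G, Nat.card (MulAction.fixedBy β g) = Nat.card (MulAction.orbitRel.Quotient G β) * Nat.card G := by
  classical
  haveI := Fintype.ofFinite β
  have h := MulAction.sum_card_fixedBy_eq_card_orbits_mul_card_group G β
  simp only [Nat.card_eq_fintype_card]
  convert h using 2

theorem odd_fix (K : Subgroup G) [hK : K.Normal] (hodd : Odd K.index) {Z : Type*} [MulAction G Z] (ι : Z → Z)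
    (hi : Function.Involutive ι) (hc : ∀ (g : G) z, ι (g • z) = g • ι z) (ht : ∀ k ∈ K, ∀ z : Z, k • z = z) {g : G} {z : Z}
    (h : g • z = ι z) : ι z = z := by
  have hj : ∀ j : ℕ, g ^ j • z = ι^[j] z := by
    intro j
    induction j with
    | zero => simp
    | succ j ih =>
      rw [pow_succ, mul_smul, h, ← hc, ih, ← Function.iterate_succ_apply' ι]
  obtain ⟨m, hm⟩ : ∃ m, m = orderOf ((g : G) : G ⧸ K) := ⟨_, rfl⟩
  have hmodd : Odd m := by
    have h1 : m ∣ K.index := by
      rw [hm, Subgroup.index_eq_card]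
      exact orderOf_dvd_natCard _
    exact Odd.of_dvd_nat hodd h1
  have hgm : g ^ m ∈ K := by
    rw [← QuotientGroup.eq_one_iff, QuotientGroup.mk_pow, hm, pow_orderOf_eq_one]
  have h1 := hj m
  rw [ht _ hgm, hi.iterate_odd hmodd] at h1
  exact h1.symm

variable {Z₁ Z₂ : Type*} [Finite Z₁] [Finite Z₂] [MulAction G Z₁] [MulAction G Z₂]

/-- The fixed points of the involution form a sub-action. -/
def fixSub {Z : Type*} [MulAction G Z] (ι : Z → Z) (hc : ∀ (g : G) z, ι (g • z) = g • ι z) : SubMulAction G Z where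
  carrier := {z | ι z = z}
  smul_mem' := fun g z hz => by
    change ι (g • z) = g • z
    rw [hc, show ι z = z from hz]

theorem card_fixedBy_eq (K : Subgroup G) [hK : K.Normal] (hodd : Odd K.index) {Z : Type*} [Finite Z] [MulAction G Z] (ι : Z → Z)
    (hi : Function.Involutive ι) (hc : ∀ (g : G) z, ι (g • z) = g • ι z) (ht : ∀ k ∈ K, ∀ z : Z, k • z = z) (g : G) :
    Nat.card (MulAction.fixedBy (fixSub ι hc) g) = Nat.card {z : Z // g • z = ι z} := by
  refine Nat.card_congr ⟨fun x => ⟨x.1.1, ?_⟩, fun y => ⟨⟨y.1, ?_⟩, ?_⟩, ?_, ?_⟩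
  · have h1 : g • x.1 = x.1 := x.2
    have h2 : g • (x.1.1 : Z) = x.1.1 := congrArg Subtype.val h1
    have h3 : ι x.1.1 = x.1.1 := x.1.2
    rw [h2, h3]
  · exact odd_fix K hodd ι hi hc ht y.2
  · apply Subtype.ext
    change g • y.1 = y.1
    rw [y.2]
    exact odd_fix K hodd ι hi hc ht y.2
  · intro x; rfl
  · intro y; rfl

theorem orbits_eq (K : Subgroup G) [hK : K.Normal] (hodd : Odd K.index) (ι₁ : Z₁ → Z₁) (ι₂ : Z₂ → Z₂)
    (hi₁ : Function.Involutive ι₁) (hi₂ : Function.Involutive ι₂)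
    (hc₁ : ∀ (g : G) z, ι₁ (g • z) = g • ι₁ z) (hc₂ : ∀ (g : G) z, ι₂ (g • z) = g • ι₂ z)
    (ht₁ : ∀ k ∈ K, ∀ z : Z₁, k • z = z) (ht₂ : ∀ k ∈ K, ∀ z : Z₂, k • z = z)
    (hcard : ∀ g : G, Nat.card {z : Z₁ // g • z = ι₁ z} = Nat.card {z : Z₂ // g • z = ι₂ z}) :
    Nat.card (MulAction.orbitRel.Quotient G (fixSub ι₁ hc₁)) = Nat.card (MulAction.orbitRel.Quotient G (fixSub ι₂ hc₂)) := by
  have h1 := burnside_nat (G := G) (fixSub ι₁ hc₁)
  have h2 := burnside_nat (G := G) (fixSub ι₂ hc₂)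
  have h3 : ∑ g : G, Nat.card (MulAction.fixedBy (fixSub ι₁ hc₁) g) = ∑ g : G, Nat.card (MulAction.fixedBy (fixSub ι₂ hc₂) g) := by
    refine Finset.sum_congr rfl fun g _ => ?_
    rw [card_fixedBy_eq K hodd ι₁ hi₁ hc₁ ht₁, card_fixedBy_eq K hodd ι₂ hi₂ hc₂ ht₂, hcard]
  rw [h1, h2] at h3
  exact Nat.eq_of_mul_eq_mul_right Nat.card_pos h3

theorem card_quot_eq {A B : Type*} [MulAction G B] (r : A → A → Prop) (f : A → B) (hf : Function.Surjective f)
    (h1 : ∀ a a', r a a' → ∃ g : G, g • f a = f a') (h2 : ∀ a a', (∃ g : G, g • f a = f a') → r a a') :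
    Nat.card (Quot r) = Nat.card (MulAction.orbitRel.Quotient G B) := by
  refine Nat.card_congr (Equiv.ofBijective
    (Quot.lift (fun a => (Quotient.mk'' (f a) : MulAction.orbitRel.Quotient G B)) ?_) ⟨?_, ?_⟩)
  · intro a a' hr
    obtain ⟨g, hg⟩ := h1 a a' hr
    apply Quotient.sound'
    rw [MulAction.orbitRel_apply]
    exact ⟨g⁻¹, by
      change g⁻¹ • f a' = f a
      rw [← hg, inv_smul_smul]⟩
  · intro x y
    induction x using Quot.ind with | _ a => ?_
    induction y using Quot.ind with | _ a' => ?_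
    intro h
    have h3 : (Quotient.mk'' (f a) : MulAction.orbitRel.Quotient G B) = Quotient.mk'' (f a') := h
    have h4 := Quotient.exact' h3
    rw [MulAction.orbitRel_apply] at h4
    obtain ⟨g, hg⟩ := h4
    exact (Quot.sound (h2 a' a ⟨g, hg⟩)).symm
  · intro y
    induction y using Quotient.inductionOn' with | _ b => ?_
    obtain ⟨a, rfl⟩ := hf b
    exact ⟨Quot.mk _ a, rfl⟩

end Abstract

section Concrete
variable {G : Type u} [Group G] [Fintype G] (K : Subgroup G) [hK : K.Normal] [Fintype K]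

/-- Conjugation on `K`. -/
noncomputable def cK (g : G) : K ≃* K := conjE K g (fun x hx => hK.conj_mem x hx g)

theorem cK_coe (g : G) (k : K) : ((cK K g k : K) : G) = g * k * g⁻¹ := rfl

noncomputable instance actIrr : MulAction G (IrrCharacter K) where
  smul g χ := pullI (cK K g⁻¹) χ
  one_smul χ := by
    apply Subtype.ext
    funext k
    change χ.1 (cK K 1⁻¹ k) = χ.1 k
    refine congrArg χ.1 (Subtype.ext ?_)
    rw [cK_coe]
    group
  mul_smul a b χ := by
    apply Subtype.ext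
    funext k
    change χ.1 (cK K (a * b)⁻¹ k) = χ.1 (cK K b⁻¹ (cK K a⁻¹ k))
    refine congrArg χ.1 (Subtype.ext ?_)
    rw [cK_coe, cK_coe, cK_coe]
    group

theorem actIrr_apply (g : G) (χ : IrrCharacter K) (k : K) : (g • χ).1 k = χ.1 (cK K g⁻¹ k) := rfl

noncomputable instance actCl : MulAction G (ConjClasses K) where
  smul g c := ConjClasses.map (cK K g).toMonoidHom c
  one_smul c := by
    obtain ⟨k, rfl⟩ := ConjClasses.exists_rep c
    change ConjClasses.mk (cK K 1 k) = _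
    congr 1
    apply Subtype.ext
    rw [cK_coe]
    group
  mul_smul a b c := by
    obtain ⟨k, rfl⟩ := ConjClasses.exists_rep c
    change ConjClasses.mk (cK K (a * b) k) = ConjClasses.mk (cK K a (cK K b k))
    congr 1
    apply Subtype.ext
    rw [cK_coe, cK_coe, cK_coe]
    group

theorem actCl_mk (g : G) (k : K) : g • (ConjClasses.mk k) = ConjClasses.mk (cK K g k) := rfl

/-- Inversion on classes. -/
noncomputable def invCl : ConjClasses K → ConjClasses K := ConjClasses.map (MulEquiv.refl K).toMonoidHom ∘ fun c => ConjClasses.mk (Quotient.out c)⁻¹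

theorem invCl_mk (k : K) : invCl K (ConjClasses.mk k) = ConjClasses.mk k⁻¹ := by
  change ConjClasses.mk (Quotient.out (ConjClasses.mk k))⁻¹ = _
  rw [ConjClasses.mk_eq_mk_iff_isConj]
  have h1 : IsConj (Quotient.out (ConjClasses.mk k)) k := by
    apply ConjClasses.mk_eq_mk_iff_isConj.mp
    exact Quotient.out_eq _
  generalize Quotient.out (ConjClasses.mk k) = y at h1 ⊢
  obtain ⟨t, rfl⟩ := isConj_iff.mp h1
  exact isConj_iff.mpr ⟨t, by group⟩

theorem invCl_invol : Function.Involutive (invCl K) := by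
  intro c
  obtain ⟨k, rfl⟩ := ConjClasses.exists_rep c
  rw [invCl_mk, invCl_mk, inv_inv]

theorem invCl_comm (g : G) (c : ConjClasses K) : invCl K (g • c) = g • invCl K c := by
  obtain ⟨k, rfl⟩ := ConjClasses.exists_rep c
  rw [actCl_mk, invCl_mk, invCl_mk, actCl_mk, map_inv]

theorem conj_comm (g : G) (χ : IrrCharacter K) : CharPerm.conjIrr (g • χ) = g • CharPerm.conjIrr χ := by
  apply Subtype.ext
  funext k
  rfl

theorem conj_invol : Function.Involutive (CharPerm.conjIrr (G := K)) := CharPerm.conjIrr_conjIrr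

theorem triv_irr (k : G) (hk : k ∈ K) (χ : IrrCharacter K) : k • χ = χ := by
  apply Subtype.ext
  funext x
  change χ.1 (cK K k⁻¹ x) = χ.1 x
  have h1 : cK K k⁻¹ x = (⟨k, hk⟩ : K)⁻¹ * x * ((⟨k, hk⟩ : K)⁻¹)⁻¹ := Subtype.ext rfl
  rw [h1]
  exact IrrBasic.val_conj χ _ _

theorem triv_cl (k : G) (hk : k ∈ K) (c : ConjClasses K) : k • c = c := by
  obtain ⟨x, rfl⟩ := ConjClasses.exists_rep c
  rw [actCl_mk, ConjClasses.mk_eq_mk_iff_isConj]
  refine (isConj_iff.mpr ⟨(⟨k, hk⟩ : K)⁻¹, ?_⟩)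
  apply Subtype.ext
  change k⁻¹ * (k * x * k⁻¹) * (k⁻¹)⁻¹ = x
  group

theorem card_twist (g : G) :
    Nat.card {z : IrrCharacter K // g • z = CharPerm.conjIrr z} = Nat.card {z : ConjClasses K // g • z = invCl K z} := by
  classical
  have h := CharPerm.brauer_perm (G := K) (fun c => invCl K (g • c)) (fun χ => CharPerm.conjIrr (g⁻¹ • χ)) (by
    intro χ k k' hk'
    rw [actCl_mk, invCl_mk, ConjClasses.mk_eq_mk_iff_isConj] at hk'
    rw [CharPerm.conjIrr_apply, actIrr_apply, inv_inv, ← IrrBasic.val_inv]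
    obtain ⟨t, ht⟩ := isConj_iff.mp hk'
    rw [← ht]
    exact IrrBasic.val_conj χ _ t)
  have h1 : Nat.card {c : ConjClasses K // invCl K (g • c) = c} = Nat.card {z : ConjClasses K // g • z = invCl K z} := by
    refine Nat.card_congr (Equiv.subtypeEquivRight fun c => ⟨fun hc => ?_, fun hc => ?_⟩)
    · have h3 := congrArg (invCl K) hc
      rw [invCl_invol] at h3
      exact h3
    · rw [hc]
      exact invCl_invol K c
  have h2 : Nat.card {χ : IrrCharacter K // CharPerm.conjIrr (g⁻¹ • χ) = χ} = Nat.card {z : IrrCharacter K // g • z = CharPerm.conjIrr z} := by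
    refine Nat.card_congr (Equiv.subtypeEquivRight fun χ => ⟨fun hc => ?_, fun hc => ?_⟩)
    · have h3 : g⁻¹ • χ = CharPerm.conjIrr χ := by
        have h6 := congrArg CharPerm.conjIrr hc
        rwa [CharPerm.conjIrr_conjIrr] at h6
      have h4 : χ = g • CharPerm.conjIrr χ := by
        rw [← h3, smul_inv_smul]
      have h5 := congrArg CharPerm.conjIrr h4
      rw [conj_comm, CharPerm.conjIrr_conjIrr] at h5
      exact h5.symm
    · rw [conj_comm, ← hc]
      simp only [smul_smul, inv_mul_cancel, one_smul]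
  rw [← h1, ← h2, h]

theorem s4866 (hodd : Odd K.index) :
    Nat.card (Quot (fun θ η : {θ : IrrCharacter K // ∀ k : K, (θ.1 k).im = 0} =>
      ∃ g : G, ∀ k k' : K, (k' : G) = g * (k : G) * g⁻¹ → η.1.1 k' = θ.1.1 k)) =
    Nat.card (Quot (fun x y : {x : K // IsConj x x⁻¹} => ∃ g : G, (y.1 : G) = g * x.1 * g⁻¹)) := by
  classical
  have hmain := orbits_eq K hodd (CharPerm.conjIrr (G := K)) (invCl K) (conj_invol K) (invCl_invol K) (conj_comm K)
    (invCl_comm K) (triv_irr K) (triv_cl K) (card_twist K)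
  -- characters
  have h1 : Nat.card (Quot (fun θ η : {θ : IrrCharacter K // ∀ k : K, (θ.1 k).im = 0} =>
      ∃ g : G, ∀ k k' : K, (k' : G) = g * (k : G) * g⁻¹ → η.1.1 k' = θ.1.1 k)) =
      Nat.card (MulAction.orbitRel.Quotient G (fixSub (CharPerm.conjIrr (G := K)) (conj_comm K))) := by
    refine card_quot_eq _ (fun θ => ⟨θ.1, (real_iff_conjIrr θ.1).mp θ.2⟩) ?_ ?_ ?_
    · rintro ⟨χ, hχ⟩
      exact ⟨⟨χ, (real_iff_conjIrr χ).mpr hχ⟩, rfl⟩
    · rintro ⟨a, ha⟩ ⟨b, hb⟩ ⟨g, hg⟩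
      refine ⟨g, Subtype.ext (Subtype.ext ?_)⟩
      funext k
      change a.1 (cK K g⁻¹ k) = b.1 k
      have h2 := hg (cK K g⁻¹ k) k (by rw [cK_coe]; group)
      exact h2.symm
    · rintro ⟨a, ha⟩ ⟨b, hb⟩ ⟨g, hg⟩
      refine ⟨g, fun k k' hk' => ?_⟩
      have h2 := congrArg Subtype.val hg
      have h3 : g • a = b := h2
      subst h3
      change a.1 (cK K g⁻¹ k') = a.1 k
      refine congrArg a.1 (Subtype.ext ?_)
      rw [cK_coe, hk']
      group
  have h2 : Nat.card (Quot (fun x y : {x : K // IsConj x x⁻¹} => ∃ g : G, (y.1 : G) = g * x.1 * g⁻¹)) =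
      Nat.card (MulAction.orbitRel.Quotient G (fixSub (invCl K) (invCl_comm K))) := by
    refine card_quot_eq _ (fun x => ⟨ConjClasses.mk x.1, ?_⟩) ?_ ?_ ?_
    · change invCl K (ConjClasses.mk x.1) = ConjClasses.mk x.1
      rw [invCl_mk, ConjClasses.mk_eq_mk_iff_isConj]
      exact x.2.symm
    · rintro ⟨c, hc⟩
      obtain ⟨k, rfl⟩ := ConjClasses.exists_rep c
      have h3 : invCl K (ConjClasses.mk k) = ConjClasses.mk k := hc
      rw [invCl_mk, ConjClasses.mk_eq_mk_iff_isConj] at h3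
      exact ⟨⟨k, h3.symm⟩, rfl⟩
    · rintro ⟨x, hx⟩ ⟨y, hy⟩ ⟨g, hg⟩
      refine ⟨g, Subtype.ext ?_⟩
      change g • ConjClasses.mk x = ConjClasses.mk y
      rw [actCl_mk]
      congr 1
      exact Subtype.ext hg.symm
    · rintro ⟨x, hx⟩ ⟨y, hy⟩ ⟨g, hg⟩
      have h3 : g • ConjClasses.mk x = ConjClasses.mk y := congrArg Subtype.val hg
      rw [actCl_mk, ConjClasses.mk_eq_mk_iff_isConj] at h3
      obtain ⟨t, ht⟩ := isConj_iff.mp h3
      refine ⟨(t : G) * g, ?_⟩
      have h4 : (t : G) * (g * x * g⁻¹) * (t : G)⁻¹ = y := congrArg Subtype.val ht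
      change (y : G) = _
      rw [← h4]
      group
  rw [h1, h2, hmain]

end Concrete

end Cfsg.Agent.Lib.OrbReal
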