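import Cfsg.Agent.Lib.OrthTrans
import Cfsg.Agent.Lib.WittQuad
import Cfsg.Agent.Lib.OrthSpin3

set_option autoImplicit false

/-! Involutions of orthogonal groups in characteristic two: conjugacy in `O` and in `Sp`. -/

namespace Cfsg.Agent.Lib.OrthInv2

open Matrix Cfsg Cfsg.Geo Cfsg.Agent.Lib.FormVec Cfsg.Agent.Lib.OrthE Cfsg.Agent.Lib.OrthTrans Cfsg.Agent.Lib.OrthSpin2
open scoped MatrixGroups

variable {ι : Type} [Fintype ι] [DecidableEq ι] {F : Type*} [Field F] [CharP F 2]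
variable {Q : (ι → F) → F}

local notation "B" => QuadraticMap.polar Q

theorem polar_iso (M : Matrix ι ι F) (h : ∀ v, Q (M *ᵥ v) = Q v) (u v : ι → F) :
    B (M *ᵥ u) (M *ᵥ v) = B u v := by
  simp only [QuadraticMap.polar]
  rw [← Matrix.mulVec_add, h, h, h]

theorem vadd_self (v : ι → F) : v + v = 0 := by
  ext i
  exact CharTwo.add_self_eq_zero _

/-- The main theorem: conjugacy under the isometry group of the polar form implies conjugacy
in the orthogonal group. -/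
theorem conj_of_polar (hQ : IsNondegenerateQuadraticForm Q) (t s : ↥(isometryGroup F Q))
    (htt : (t : GL ι F) * (t : GL ι F) = 1) (g : GL ι F)
    (hg : ∀ u v, B ((g : Matrix ι ι F) *ᵥ u) ((g : Matrix ι ι F) *ᵥ v) = B u v)
    (hc : g * (t : GL ι F) * g⁻¹ = (s : GL ι F)) : IsConj t s := by
  classical
  set T : Matrix ι ι F := ((t : GL ι F) : Matrix ι ι F) with hT
  set S : Matrix ι ι F := ((s : GL ι F) : Matrix ι ι F) with hS
  set G : Matrix ι ι F := (g : Matrix ι ι F) with hG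
  set Gi : Matrix ι ι F := ((g⁻¹ : GL ι F) : Matrix ι ι F) with hGi
  have hG1 : ∀ v, G *ᵥ (Gi *ᵥ v) = v := fun v => by
    rw [Matrix.mulVec_mulVec, hG, hGi, ← Units.val_mul, mul_inv_cancel, Units.val_one, Matrix.one_mulVec]
  have hG2 : ∀ v, Gi *ᵥ (G *ᵥ v) = v := fun v => by
    rw [Matrix.mulVec_mulVec, hG, hGi, ← Units.val_mul, inv_mul_cancel, Units.val_one, Matrix.one_mulVec]
  have hTT : ∀ v, T *ᵥ (T *ᵥ v) = v := fun v => by
    rw [Matrix.mulVec_mulVec, hT, ← Units.val_mul, htt, Units.val_one, Matrix.one_mulVec]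
  have hTQ : ∀ v, Q (T *ᵥ v) = Q v := (mem_O_iff _).1 t.2
  have hSQ : ∀ v, Q (S *ᵥ v) = Q v := (mem_O_iff _).1 s.2
  have hSG : ∀ u, S *ᵥ (G *ᵥ u) = G *ᵥ (T *ᵥ u) := by
    intro u
    have h1 : (s : GL ι F) * g = g * (t : GL ι F) := by
      rw [← hc, inv_mul_cancel_right]
    have h2 : S * G = G * T := congrArg Units.val h1
    rw [Matrix.mulVec_mulVec, Matrix.mulVec_mulVec, h2]
  have hTB := polar_iso (Q := Q) T hTQ
  have hSB := polar_iso (Q := Q) S hSQ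
  -- the nilpotent part
  have hQN : ∀ u, Q (T *ᵥ u + u) = B u (T *ᵥ u) := by
    intro u
    rw [add_comm, Q_add hQ, hTQ]
    have : Q u + Q u = 2 * Q u := by ring
    rw [this, CharTwo.two_eq_zero, zero_mul, zero_add]
  have hQNS : ∀ u, Q (S *ᵥ u + u) = B u (S *ᵥ u) := by
    intro u
    rw [add_comm, Q_add hQ, hSQ]
    have : Q u + Q u = 2 * Q u := by ring
    rw [this, CharTwo.two_eq_zero, zero_mul, zero_add]
  have hadj : ∀ u v, B (T *ᵥ u + u) v = B u (T *ᵥ v + v) := by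
    intro u v
    rw [B_add_left hQ, B_add_right hQ]
    congr 1
    have := hTB (T *ᵥ u) v
    rw [hTT] at this
    exact this.symm
  let W : Submodule F (ι → F) := LinearMap.range (T + 1).mulVecLin
  have hW : ∀ u, T *ᵥ u + u ∈ W := by
    intro u
    refine ⟨u, ?_⟩
    simp [Matrix.add_mulVec]
  have hW' : ∀ w ∈ W, ∃ u, w = T *ᵥ u + u := by
    rintro _ ⟨u, rfl⟩
    refine ⟨u, ?_⟩
    simp [Matrix.add_mulVec]
  let φ : W →ₗ[F] (ι → F) := G.mulVecLin ∘ₗ W.subtype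
  have hφv : ∀ x : W, φ x = G *ᵥ (x : ι → F) := fun x => rfl
  have hinj : Function.Injective φ := by
    intro x y hxy
    apply Subtype.ext
    rw [hφv, hφv] at hxy
    have := congrArg (fun z => Gi *ᵥ z) hxy
    simpa only [hG2] using this
  obtain ⟨Q', rfl, hN⟩ := exists_form hQ
  have hφ : ∀ x : W, Q' (φ x) = Q' (x : ι → F) := by
    intro x
    obtain ⟨u, hu⟩ := hW' x x.2
    rw [hφv, hu, Matrix.mulVec_add, ← hSG]
    have e : S *ᵥ (G *ᵥ u) + G *ᵥ u = S *ᵥ (G *ᵥ u) + G *ᵥ u := rfl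
    rw [hQNS, hQN, hSG, hg]
  obtain ⟨h, hh1, hh2⟩ := Cfsg.Agent.Lib.WittQuad.witt_quad Q' hN W φ hinj hφ
  have hhQ : ∀ v, Q' (h v) = Q' v := hh1
  have hO : glOf h ∈ isometryGroup F (⇑Q') := by
    rw [mem_O_iff]
    intro x
    rw [glOf_mulVec]
    exact hh1 x
  have hhB : ∀ u v, QuadraticMap.polar (⇑Q') (h u) (h v) = QuadraticMap.polar (⇑Q') u v := by
    intro u v
    simp only [QuadraticMap.polar]
    rw [← map_add, hh1, hh1, hh1]
  have hhW : ∀ u, h (T *ᵥ u + u) = G *ᵥ (T *ᵥ u + u) := fun u => hh2 ⟨_, hW u⟩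
  -- the key vanishing
  have hkey : ∀ v, T *ᵥ (Gi *ᵥ (h v)) + Gi *ᵥ (h v) = T *ᵥ v + v := by
    intro v
    set z := Gi *ᵥ (h v) + v with hz
    have h0 : T *ᵥ z + z = 0 := by
      apply B_nondeg hQ
      intro u
      rw [← hadj, hz, B_add_right hQ]
      have e1 : QuadraticMap.polar (⇑Q') (T *ᵥ u + u) (Gi *ᵥ (h v)) = QuadraticMap.polar (⇑Q') (T *ᵥ u + u) v := by
        rw [← hg (T *ᵥ u + u) (Gi *ᵥ (h v)), hG1, ← hhW, hhB]
      rw [e1, ← two_mul, CharTwo.two_eq_zero, zero_mul]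
    rw [hz, Matrix.mulVec_add] at h0
    have e2 : T *ᵥ (Gi *ᵥ (h v)) + T *ᵥ v + (Gi *ᵥ (h v) + v) = (T *ᵥ (Gi *ᵥ (h v)) + Gi *ᵥ (h v)) + (T *ᵥ v + v) := by abel
    rw [e2] at h0
    calc T *ᵥ (Gi *ᵥ (h v)) + Gi *ᵥ (h v) = (T *ᵥ (Gi *ᵥ (h v)) + Gi *ᵥ (h v)) + ((T *ᵥ v + v) + (T *ᵥ v + v)) := by
          rw [vadd_self, add_zero]
      _ = ((T *ᵥ (Gi *ᵥ (h v)) + Gi *ᵥ (h v)) + (T *ᵥ v + v)) + (T *ᵥ v + v) := by abel
      _ = T *ᵥ v + v := by rw [h0, zero_add]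
  rw [isConj_iff]
  refine ⟨⟨glOf h, hO⟩, ?_⟩
  rw [mul_inv_eq_iff_eq_mul]
  apply Subtype.ext
  apply gl_ext
  intro v
  show ((glOf h * (t : GL ι F) : GL ι F) : Matrix ι ι F) *ᵥ v = (((s : GL ι F) * glOf h : GL ι F) : Matrix ι ι F) *ᵥ v
  rw [mul_mulVec, mul_mulVec, glOf_mulVec, glOf_mulVec]
  show h (T *ᵥ v) = S *ᵥ (h v)
  -- `S x = G (T (Gi x))`
  have hSx : ∀ x, S *ᵥ x = G *ᵥ (T *ᵥ (Gi *ᵥ x)) := by
    intro x
    rw [← hSG, hG1]
  have e3 : h (T *ᵥ v) = h (T *ᵥ v + v) + h v := by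
    rw [map_add, add_assoc, vadd_self, add_zero]
  have e4 : S *ᵥ (h v) = G *ᵥ (T *ᵥ (Gi *ᵥ (h v)) + Gi *ᵥ (h v)) + h v := by
    rw [Matrix.mulVec_add, hG1, ← hSx, add_assoc, vadd_self, add_zero]
  rw [e3, e4, hkey, hhW]

theorem conj_iff (hQ : IsNondegenerateQuadraticForm Q) (t s : ↥(isometryGroup F Q)) (ht : orderOf t = 2) :
    IsConj t s ↔ ∃ g ∈ Cfsg.preserving (Units.coeHom (Matrix ι ι F)) (fun u v => Q (u + v) - Q u - Q v),
      g * (t : GL ι F) * g⁻¹ = (s : GL ι F) := by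
  constructor
  · intro h
    obtain ⟨c, hc⟩ := isConj_iff.1 h
    refine ⟨(c : GL ι F), ?_, congrArg Subtype.val hc⟩
    intro u v
    have := polar_iso (Q := Q) ((c : GL ι F) : Matrix ι ι F) ((mem_O_iff _).1 c.2) u v
    exact this
  · rintro ⟨g, hg, hc⟩
    have h0 : t ^ 2 = 1 := by rw [← ht]; exact pow_orderOf_eq_one t
    have h1 : t * t = 1 := by rw [← pow_two]; exact h0
    exact conj_of_polar hQ t s (congrArg Subtype.val h1) g (fun u v => hg u v) hc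

/-- In characteristic two (and whenever `Ω` is the kernel of the Dickson character), membership in
`Ω` is the parity of the rank of `g - 1`. -/
theorem mem_omega_iff [Fintype F] (hQ : IsNondegenerateQuadraticForm Q) (hn : 1 ≤ Fintype.card ι)
    (h : Fintype.card F ≠ 2 ∨ Fintype.card ι ≠ 4) (g : ↥(isometryGroup F Q)) :
    g ∈ Omega F Q ↔ Even (((g : GL ι F) : Matrix ι ι F) - 1).rank := by
  obtain ⟨h1, h2⟩ := Cfsg.Agent.Lib.OrthSpin3.even_main hQ hn h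
  have h3 := h2 _ h1
  rw [h3, MonoidHom.mem_ker]
  show Cfsg.Agent.Lib.OrthDick.dick (Fintype.card ι) (g : GL ι F) = 1 ↔ _
  rw [Cfsg.Agent.Lib.OrthDick.dick, neg_one_pow_eq_one_iff_even (by decide)]
  have e : Cfsg.Agent.Lib.OrthGen.fixS (g : GL ι F) = LinearMap.ker (((g : GL ι F) : Matrix ι ι F) - 1).mulVecLin := by
    ext x
    rw [Cfsg.Agent.Lib.OrthGen.mem_fixS, LinearMap.mem_ker, Matrix.mulVecLin_apply, Matrix.sub_mulVec, Matrix.one_mulVec, sub_eq_zero]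
  have h4 := LinearMap.finrank_range_add_finrank_ker (((g : GL ι F) : Matrix ι ι F) - 1).mulVecLin
  rw [Module.finrank_fintype_fun_eq_card, ← e] at h4
  have h5 : (((g : GL ι F) : Matrix ι ι F) - 1).rank = Module.finrank F (LinearMap.range (((g : GL ι F) : Matrix ι ι F) - 1).mulVecLin) := rfl
  rw [← h5] at h4
  rw [← h4, Nat.even_add, Nat.even_add]
  tauto

end Cfsg.Agent.Lib.OrthInv2
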