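import Cfsg.Agent.Lib.OrthOmega
import Cfsg.Agent.Lib.OrthStd2

set_option autoImplicit false

namespace Cfsg.Agent.Lib.OrthWitt

open Matrix Cfsg Cfsg.Geo Cfsg.Agent.Lib.OrthE Cfsg.Agent.Lib.OrthOmega

variable {ι : Type} [Fintype ι] [DecidableEq ι] {F : Type*} [Field F]
variable {Q : (ι → F) → F} (hQ : IsNondegenerateQuadraticForm Q)

local notation "B" => QuadraticMap.polar Q

include hQ in
theorem B_of_sing {W : Submodule F (ι → F)} (hW : ∀ w ∈ W, Q w = 0) {a b : ι → F} (ha : a ∈ W) (hb : b ∈ W) :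
    B a b = 0 := by
  have := Q_add hQ a b
  rw [hW _ (W.add_mem ha hb), hW _ ha, hW _ hb] at this
  simpa using this.symm

/-- If `T` is totally singular and all singular vectors of `T^⊥` lie in `T`, then every totally
singular subspace has dimension at most `dim T`. -/
theorem ts_le {W T : Submodule F (ι → F)} (hW : ∀ w ∈ W, Q w = 0) (hT : ∀ t ∈ T, Q t = 0)
    (hmax : ∀ v ∈ perp hQ T, Q v = 0 → v ∈ T) : Module.finrank F W ≤ Module.finrank F T := by
  set Y : Submodule F (ι → F) := perp hQ W ⊓ T with hY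
  have hsub : W ⊔ perp hQ T ≤ perp hQ Y := by
    rw [sup_le_iff]
    constructor
    · intro w hw
      rw [mem_perp]
      intro y hy
      exact (mem_perp hQ).1 hy.1 w hw |> fun h => by rw [B_comm hQ]; exact h
    · intro z hz
      rw [mem_perp]
      intro y hy
      exact (mem_perp hQ).1 hz y hy.2
  have h1 := Submodule.finrank_sup_add_finrank_inf_eq W (perp hQ T)
  have h2 := finrank_perp hQ T
  have h3 := finrank_perp hQ Y
  have h4 := Submodule.finrank_mono hsub
  -- W ⊓ perp T ≤ Y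
  have h5 : (W ⊓ perp hQ T : Submodule F (ι → F)) ≤ Y := by
    rintro v ⟨hv1, hv2⟩
    have hvT : v ∈ T := hmax v hv2 (hW v hv1)
    exact ⟨(mem_perp hQ).2 (fun w hw => B_of_sing hQ hW hw hv1), hvT⟩
  have h6 := Submodule.finrank_mono h5
  omega

end Cfsg.Agent.Lib.OrthWitt
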