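import Cfsg.Agent.Lib.OrthInv2
import Cfsg.Agent.Lib.OrthWitt
import Cfsg.Agent.S2630

set_option autoImplicit false

/-! Splitting of involution classes from `O` to `Ω` in characteristic two. -/

namespace Cfsg.Agent.Lib.OrthInv3

open Matrix Cfsg Cfsg.Geo Cfsg.Agent.Lib.FormVec Cfsg.Agent.Lib.OrthE Cfsg.Agent.Lib.OrthTrans Cfsg.Agent.Lib.OrthSpin2
open Cfsg.Agent.Lib.OrthOmega Cfsg.Agent.Lib.OrthFam Cfsg.Agent.Lib.OrthClass Cfsg.Agent.Lib.OrthStd2 Cfsg.Agent.Lib.OrthDick
open scoped MatrixGroups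

variable {ι : Type} [Fintype ι] [DecidableEq ι] {F : Type*} [Field F] [Fintype F] [CharP F 2]
variable {Q : (ι → F) → F}

/-- If an involution fixes a nonsingular vector then its class in `O` is its class in `Ω`. -/
theorem omega_conj_of_refl (hQ : IsNondegenerateQuadraticForm Q) (hn : 1 ≤ Fintype.card ι)
    (h : Fintype.card F ≠ 2 ∨ Fintype.card ι ≠ 4) (t s : ↥(isometryGroup F Q)) {v : ι → F} (hv : Q v ≠ 0)
    (hfix : ((t : GL ι F) : Matrix ι ι F) *ᵥ v = v) (hconj : IsConj t s) :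
    ∃ g ∈ Omega F Q, g * t * g⁻¹ = s := by
  obtain ⟨c, hc⟩ := isConj_iff.1 hconj
  obtain ⟨h1, h2⟩ := Cfsg.Agent.Lib.OrthSpin3.even_main hQ hn h
  have hO : Omega F Q = (dickHom hQ h).ker := h2 _ h1
  by_cases hcO : c ∈ Omega F Q
  · exact ⟨c, hcO, hc⟩
  · let r : ↥(isometryGroup F Q) := ⟨R Q v, R_mem_O hQ hv⟩
    have hTB := Cfsg.Agent.Lib.OrthInv2.polar_iso (Q := Q) ((t : GL ι F) : Matrix ι ι F) ((mem_O_iff _).1 t.2)
    have hrc : r * t = t * r := by
      apply Subtype.ext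
      apply gl_ext
      intro x
      show ((R Q v * (t : GL ι F) : GL ι F) : Matrix ι ι F) *ᵥ x = (((t : GL ι F) * R Q v : GL ι F) : Matrix ι ι F) *ᵥ x
      rw [mul_mulVec, mul_mulVec, R_mulVec hQ hv, R_mulVec hQ hv, Matrix.mulVec_sub, Matrix.mulVec_smul, hfix]
      have := hTB x v
      rw [hfix] at this
      rw [this]
    refine ⟨c * r, ?_, ?_⟩
    · rw [hO, MonoidHom.mem_ker, map_mul]
      have hr : dickHom hQ h r = -1 := dickHom_R hQ h hv
      have hc1 : dickHom hQ h c ≠ 1 := by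
        intro h'
        apply hcO
        rw [hO, MonoidHom.mem_ker]
        exact h'
      rw [hr]
      rcases Int.units_eq_one_or (dickHom hQ h c) with h3 | h3
      · exact absurd h3 hc1
      · rw [h3]
        rfl
    · have : c * r * t * (c * r)⁻¹ = c * (r * t) * r⁻¹ * c⁻¹ := by group
      rw [this, hrc]
      have : c * (t * r) * r⁻¹ * c⁻¹ = c * t * c⁻¹ := by group
      rw [this, hc]

/-- The fixed space of an involution contains a nonsingular vector as soon as it is bigger than every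
totally singular subspace. -/
theorem exists_fix_of_rank (T : Matrix ι ι F) {d : ℕ}
    (hd : ∀ W : Submodule F (ι → F), (∀ w ∈ W, Q w = 0) → Module.finrank F W ≤ d)
    (hr : (T - 1).rank + d < Fintype.card ι) : ∃ v, T *ᵥ v = v ∧ Q v ≠ 0 := by
  by_contra hc
  push Not at hc
  let K := LinearMap.ker (T - 1).mulVecLin
  have hK : ∀ w ∈ K, Q w = 0 := by
    intro w hw
    apply hc
    have h1 : (T - 1) *ᵥ w = 0 := hw
    rw [Matrix.sub_mulVec, Matrix.one_mulVec, sub_eq_zero] at h1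
    exact h1
  have h2 : Module.finrank F (LinearMap.ker (T - 1).mulVecLin) ≤ d := hd K hK
  have h3 := LinearMap.finrank_range_add_finrank_ker (T - 1).mulVecLin
  rw [Module.finrank_fintype_fun_eq_card] at h3
  have h4 : (T - 1).rank = Module.finrank F (LinearMap.range (T - 1).mulVecLin) := rfl
  omega

theorem N_sq (T : Matrix ι ι F) (hTT : T * T = 1) : (T - 1) * (T - 1) = 0 := by
  have h4 : T + T = 0 := by
    ext i j
    exact CharTwo.add_self_eq_zero _
  have h5 : (1 + 1 : Matrix ι ι F) = 0 := by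
    ext i j
    exact CharTwo.add_self_eq_zero _
  have : (T - 1) * (T - 1) = T * T + 1 - (T + T) := by noncomm_ring
  rw [this, hTT, h4, h5, sub_zero]

theorem two_rank_le (T : Matrix ι ι F) (hTT : T * T = 1) : 2 * (T - 1).rank ≤ Fintype.card ι := by
  have hle : LinearMap.range (T - 1).mulVecLin ≤ LinearMap.ker (T - 1).mulVecLin := by
    rintro _ ⟨u, rfl⟩
    show (T - 1) *ᵥ ((T - 1) *ᵥ u) = 0
    rw [Matrix.mulVec_mulVec, N_sq T hTT, Matrix.zero_mulVec]
  have h1 := Submodule.finrank_mono hle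
  have h3 := LinearMap.finrank_range_add_finrank_ker (T - 1).mulVecLin
  rw [Module.finrank_fintype_fun_eq_card] at h3
  have h4 : (T - 1).rank = Module.finrank F (LinearMap.range (T - 1).mulVecLin) := rfl
  omega

theorem mul_self_of_order (t : ↥(isometryGroup F Q)) (ht : orderOf t = 2) :
    ((t : GL ι F) : Matrix ι ι F) * ((t : GL ι F) : Matrix ι ι F) = 1 := by
  have h1 : t ^ 2 = 1 := by
    rw [← ht]
    exact pow_orderOf_eq_one t
  have h2 : t * t = 1 := by
    rw [← pow_two]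
    exact h1
  have h3 := congrArg (fun x : ↥(isometryGroup F Q) => (((x : GL ι F) : Matrix ι ι F))) h2
  simpa using h3

/-- totally singular subspaces of the hyperbolic form -/
theorem ts_plus_le {m : ℕ} (W : Submodule F (Fin m ⊕ Fin m → F)) (hW : ∀ w ∈ W, quadFormPlus m F w = 0) :
    Module.finrank F W ≤ m := by
  have hP := quadFormPlus_nondeg (F := F) (m := m)
  have hle : W ≤ perp hP W := fun x hx => (mem_perp hP).2 fun w hw => Cfsg.Agent.Lib.OrthWitt.B_of_sing hP hW hw hx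
  have h1 := Submodule.finrank_mono hle
  have h2 := finrank_perp hP W
  simp only [Fintype.card_sum, Fintype.card_fin] at h2
  omega

/-- totally singular subspaces of the elliptic form -/
theorem ts_minus_le {k : ℕ} {a b : F} (hab : ∀ z₁ z₂ : F, z₁ ^ 2 + a * z₁ * z₂ + b * z₂ ^ 2 = 0 → z₁ = 0 ∧ z₂ = 0)
    (W : Submodule F ((Fin k ⊕ Fin k) ⊕ Fin 2 → F)) (hW : ∀ w ∈ W, quadFormMinus k F a b w = 0) :
    Module.finrank F W ≤ k := by
  have hQ := quadFormMinus_nondeg (m := k) (a := a) (b := b) hab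
  let inc : (Fin k → F) →ₗ[F] ((Fin k ⊕ Fin k) ⊕ Fin 2 → F) :=
    { toFun := fun a => Sum.elim (Sum.elim a 0) 0
      map_add' := fun a b => by
        ext i
        rcases i with (i | i) | i <;> simp
      map_smul' := fun c a => by
        ext i
        rcases i with (i | i) | i <;> simp }
  have hinj : Function.Injective inc := by
    intro a b h
    ext i
    exact congrFun h (.inl (.inl i))
  let T := LinearMap.range inc
  have hT : Module.finrank F T = k := by
    rw [LinearMap.finrank_range_of_inj hinj]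
    simp
  have hle := Cfsg.Agent.Lib.OrthWitt.ts_le hQ (W := W) (T := T) hW ?_ ?_
  · omega
  · rintro _ ⟨a, rfl⟩
    simp [Cfsg.quadFormMinus, inc]
  · intro v hv hv0
    have hy : ∀ i, v (.inl (.inr i)) = 0 := by
      intro i
      have := (mem_perp hQ).1 hv (inc (Pi.single i 1)) ⟨_, rfl⟩
      rw [polar_minus] at this
      simpa [inc, Pi.single_apply] using this
    have hv0' : v (.inr 0) ^ 2 + a * v (.inr 0) * v (.inr 1) + b * v (.inr 1) ^ 2 = 0 := by
      simpa [Cfsg.quadFormMinus, hy] using hv0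
    obtain ⟨hz0, hz1⟩ := hab _ _ hv0'
    refine ⟨fun i => v (.inl (.inl i)), ?_⟩
    ext i
    rcases i with (i | i) | i
    · simp [inc]
    · simp [inc, hy]
    · fin_cases i
      · simp [inc, hz0]
      · simp [inc, hz1]

/-- The class of any maximal totally singular subspace determines membership in `Ω`. -/
theorem even_iff_plus {m : ℕ} (hm : 1 ≤ m) (h : Fintype.card F ≠ 2 ∨ m ≠ 2)
    (W : Submodule F (Fin m ⊕ Fin m → F)) (hW : ∀ w ∈ W, quadFormPlus m F w = 0) (hd : Module.finrank F W = m)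
    (c : ↥(isometryGroup F (quadFormPlus m F))) :
    Even (m - Module.finrank F ↥(W ⊓ gm (c : GL (Fin m ⊕ Fin m) F) W)) ↔ c ∈ Omega F (quadFormPlus m F) := by
  have hQ := quadFormPlus_nondeg (F := F) (m := m)
  obtain ⟨c₀, hc₀⟩ := exists_O_of_ts hQ (U := U0 F m) (W := W) ts_U0 hW (by rw [finrank_U0, hd])
  have hS := Cfsg.Agent.S2630.result hm h (c₀⁻¹ * c * c₀)
  have hmap : ((LinearMap.ker (LinearMap.funLeft F F (Sum.inr : Fin m → Fin m ⊕ Fin m))).map
      (Matrix.mulVecLin (((c₀⁻¹ * c * c₀ : ↥(isometryGroup F (quadFormPlus m F))) : GL (Fin m ⊕ Fin m) F) : Matrix (Fin m ⊕ Fin m) (Fin m ⊕ Fin m) F)))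
      = gm ((c₀⁻¹ * c * c₀ : ↥(isometryGroup F (quadFormPlus m F))) : GL (Fin m ⊕ Fin m) F) (U0 F m) := by
    ext x
    rfl
  rw [hmap] at hS
  have hU0 : LinearMap.ker (LinearMap.funLeft F F (Sum.inr : Fin m → Fin m ⊕ Fin m)) = U0 F m := rfl
  rw [hU0] at hS
  have hf : Module.finrank F ↥(U0 F m ⊓ gm ((c₀⁻¹ * c * c₀ : ↥(isometryGroup F (quadFormPlus m F))) : GL (Fin m ⊕ Fin m) F) (U0 F m))
      = Module.finrank F ↥(W ⊓ gm (c : GL (Fin m ⊕ Fin m) F) W) := by
    rw [← finrank_gm (c₀ : GL (Fin m ⊕ Fin m) F), gm_inf, hc₀, ← gm_mul]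
    have : (c₀ : GL (Fin m ⊕ Fin m) F) * ((c₀⁻¹ * c * c₀ : ↥(isometryGroup F (quadFormPlus m F))) : GL (Fin m ⊕ Fin m) F)
        = (c : GL (Fin m ⊕ Fin m) F) * (c₀ : GL (Fin m ⊕ Fin m) F) := by
      push_cast
      group
    rw [this, gm_mul, hc₀]
  rw [hf] at hS
  rw [hS]
  have hN : (Omega F (quadFormPlus m F)).Normal := inferInstance
  constructor
  · intro h'
    have := hN.conj_mem _ h' c₀
    have e : c₀ * (c₀⁻¹ * c * c₀) * c₀⁻¹ = c := by group
    rwa [e] at this
  · intro h'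
    have := hN.conj_mem _ h' c₀⁻¹
    have e : c₀⁻¹ * c * c₀⁻¹⁻¹ = c₀⁻¹ * c * c₀ := by group
    rwa [e] at this

end Cfsg.Agent.Lib.OrthInv3
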