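import Mathlib
import Cfsg.Prelude.Def_PLocal
import Cfsg.Prelude.Def_Local
import Cfsg.Agent.Lib.PSolv
import Cfsg.Agent.Lib.Comp3

set_option autoImplicit false
set_option linter.unusedSectionVars false
set_option linter.unusedVariables false
set_option linter.style.haveILetI false

namespace Cfsg.Agent.Lib.PConstr3

open Subgroup Cfsg Cfsg.Agent.Lib.PJ Cfsg.Agent.Lib.PConstr Cfsg.Agent.Lib.PStable Cfsg.Agent.Lib.PSolv
open Cfsg.Agent.Lib.H1Core

universe u v

section Main

variable {G : Type u} [Group G] [Finite G] {p : ℕ} [hp : Fact p.Prime]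

/-- S0661 -/
theorem pPrimeCore_normalizer
    (hc : centralizer (pCore p (G ⧸ pPrimeCore p G) : Set (G ⧸ pPrimeCore p G)) ≤ pCore p (G ⧸ pPrimeCore p G))
    (P : Subgroup G) (hP : IsPGroup p P) :
    (pPrimeCore p (normalizer (P : Set G))).map (normalizer (P : Set G)).subtype =
      pPrimeCore p G ⊓ normalizer (P : Set G) := by
  have h1 : IsPConstrained p G := pconstrained_iff_centralizer.2 hc
  have h2 := (Cfsg.Agent.Lib.Comp3.pConstrained_iff (X := G) (p := p)).1 h1
  have h3 := (Cfsg.Agent.Lib.Comp3.pLayer_normalizer h2 P hP).2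
  apply le_antisymm
  · refine le_inf h3 (Subgroup.map_subtype_le _)
  · intro x hx
    obtain ⟨hx1, hx2⟩ := mem_inf.1 hx
    refine ⟨⟨x, hx2⟩, ?_, rfl⟩
    have hn : ((pPrimeCore p G).subgroupOf (normalizer (P : Set G))).Normal :=
      Subgroup.Normal.subgroupOf (pPrimeCore_normal p G) _
    have hc' : (Nat.card ((pPrimeCore p G).subgroupOf (normalizer (P : Set G)))).Coprime p :=
      Nat.Coprime.coprime_dvd_left (Cfsg.Agent.Lib.Comp2.card_subgroupOf_dvd _ _) (pPrimeCore_coprime p)
    exact le_pPrimeCore hn hc' (mem_subgroupOf.2 hx1)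

/-- Lemma B: `C_D(D ∩ Z)` lies in `Z`. -/
theorem centralizer_inf_le {D : Subgroup G} (hD : D.Normal)
    (hc : centralizer (pCore p G : Set G) ≤ pCore p G) :
    D ⊓ centralizer ((D ⊓ pCore p G : Subgroup G) : Set G) ≤ pCore p G := by
  classical
  set Z := pCore p G with hZ
  haveI hZn : Z.Normal := pCore_normal p G
  have hZp : IsPGroup p Z := pCore_isPGroup p
  set T := D ⊓ Z with hT
  haveI : D.Normal := hD
  haveI hTn : T.Normal := by rw [hT]; infer_instance
  set E := D ⊓ centralizer (T : Set G) with hE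
  haveI hEn : E.Normal := by
    rw [hE]
    haveI : (centralizer (T : Set G)).Normal := Subgroup.normal_centralizer
    infer_instance
  apply le_pCore hEn
  have hne : Nat.card E ≠ 0 := Nat.card_pos.ne'
  have hk := Nat.eq_prime_pow_of_unique_prime_dvd (p := p) hne (by
    intro q hq hqd
    by_contra hqp
    haveI : Fact q.Prime := ⟨hq⟩
    obtain ⟨⟨x, hx⟩, hxo⟩ := exists_prime_orderOf_dvd_card' q hqd
    have hxo' : orderOf x = q := by rwa [Subgroup.orderOf_mk] at hxo
    obtain ⟨hxD, hxC⟩ := mem_inf.1 hx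
    have hxZ : x ∈ Z := by
      apply hc
      rw [mem_centralizer_iff]
      intro z hz
      set c := x * z * x⁻¹ * z⁻¹ with hcd
      have hcZ : c ∈ Z := by
        have : c = (x * z * x⁻¹) * z⁻¹ := rfl
        rw [this]
        exact mul_mem (hZn.conj_mem z hz x) (inv_mem hz)
      have hcD : c ∈ D := by
        have : c = x * (z * x⁻¹ * z⁻¹) := by rw [hcd]; group
        rw [this]
        exact mul_mem hxD (hD.conj_mem _ (inv_mem hxD) z)
      have hcT : c ∈ T := mem_inf.2 ⟨hcD, hcZ⟩
      have hcx : c * x = x * c := (mem_centralizer_iff.1 hxC) c hcT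
      have hxz : x * z * x⁻¹ = c * z := by rw [hcd]; group
      have step : ∀ n : ℕ, x ^ n * z * (x ^ n)⁻¹ = c ^ n * z := by
        intro n
        induction n with
        | zero => simp
        | succ n ih =>
          have h1 : x ^ (n + 1) * z * (x ^ (n + 1))⁻¹ = x * (x ^ n * z * (x ^ n)⁻¹) * x⁻¹ := by
            rw [pow_succ']; group
          rw [h1, ih]
          have hc' : Commute x (c ^ n) := Commute.pow_right (Commute.symm hcx) n
          calc x * (c ^ n * z) * x⁻¹ = c ^ n * (x * z * x⁻¹) := by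
                rw [← mul_assoc x, hc'.eq]; group
            _ = c ^ (n + 1) * z := by rw [hxz, pow_succ]; group
      have h1 := step q
      rw [← hxo', pow_orderOf_eq_one] at h1
      simp only [one_mul, inv_one, mul_one] at h1
      have h2 : c ^ orderOf x = 1 := by
        have := mul_right_cancel (a := c ^ orderOf x) (b := z) (c := 1) (by rw [one_mul]; exact h1.symm)
        exact this
      rw [hxo'] at h2
      have h3 : c = 1 := by
        obtain ⟨m, hm⟩ := hZp ⟨c, hcZ⟩
        have hm' : c ^ p ^ m = 1 := congrArg Subtype.val hm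
        have h4 : orderOf c ∣ p ^ m := orderOf_dvd_of_pow_eq_one hm'
        have h5 : orderOf c ∣ q := orderOf_dvd_of_pow_eq_one h2
        have h6 : Nat.Coprime (p ^ m) q :=
          Nat.Coprime.pow_left m ((Nat.coprime_primes hp.out hq).2 (fun h => hqp h.symm))
        exact orderOf_eq_one_iff.1 (Nat.eq_one_of_dvd_coprimes h6 h4 h5)
      have h7 : x * z * x⁻¹ = z := by rw [hxz, h3, one_mul]
      calc z * x = (x * z * x⁻¹) * x := by rw [h7]
        _ = x * z := by group
    obtain ⟨m, hm⟩ := hZp ⟨x, hxZ⟩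
    have hm' : x ^ p ^ m = 1 := congrArg Subtype.val hm
    have h4 : q ∣ p ^ m := by
      rw [← hxo']; exact orderOf_dvd_of_pow_eq_one hm'
    exact hqp ((Nat.prime_dvd_prime_iff_eq hq hp.out).1 (hq.dvd_of_dvd_pow h4)))
  exact IsPGroup.of_card hk

/-- Normal subgroups of `p`-constrained groups are `p`-constrained; given through an injection. -/
theorem pconstrained_of_injective_normal {C X : Type u} [Group C] [Group X] [Finite C] [Finite X]
    (f : C →* X) (hf : Function.Injective f) (hn : f.range.Normal) (hX : IsPConstrained p X) :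
    IsPConstrained p C := by
  classical
  rw [pconstrained_iff_centralizer] at hX ⊢
  haveI hOXn : (pPrimeCore p X).Normal := pPrimeCore_normal p X
  haveI hOCn : (pPrimeCore p C).Normal := pPrimeCore_normal p C
  set πX := QuotientGroup.mk' (pPrimeCore p X) with hπX
  set πC := QuotientGroup.mk' (pPrimeCore p C) with hπC
  have hπXs : Function.Surjective πX := QuotientGroup.mk'_surjective _
  have hπCs : Function.Surjective πC := QuotientGroup.mk'_surjective _
  have hπX1 : ∀ x, πX x = 1 ↔ x ∈ pPrimeCore p X := fun x => by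
    rw [hπX, QuotientGroup.mk'_apply, QuotientGroup.eq_one_iff]
  have hπC1 : ∀ x, πC x = 1 ↔ x ∈ pPrimeCore p C := fun x => by
    rw [hπC, QuotientGroup.mk'_apply, QuotientGroup.eq_one_iff]
  set g := πX.comp f with hg
  -- the kernel of `g` is `O_{p'}(C)`
  have hker : g.ker = pPrimeCore p C := by
    apply le_antisymm
    · apply le_pPrimeCore inferInstance
      have h1 : g.ker.map f ≤ pPrimeCore p X := by
        rintro _ ⟨x, hx, rfl⟩
        exact (hπX1 _).1 hx
      have h2 : Nat.card g.ker = Nat.card (g.ker.map f) := (Subgroup.card_map_of_injective hf).symm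
      rw [h2]
      exact Nat.Coprime.coprime_dvd_left (Subgroup.card_dvd_of_le h1) (pPrimeCore_coprime p)
    · intro x hx
      rw [MonoidHom.mem_ker, hg, MonoidHom.comp_apply, hπX1]
      have hsub : ((pPrimeCore p C).map f).IsSubnormal := by
        apply Subgroup.IsSubnormal.step _ f.range
        · rintro _ ⟨x, -, rfl⟩
          exact ⟨x, rfl⟩
        · exact Subgroup.Normal.isSubnormal hn
        · apply Subgroup.normal_subgroupOf_of_le_normalizer
          rintro _ ⟨c, rfl⟩
          rw [mem_normalizer_iff]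
          intro w
          constructor
          · rintro ⟨v, hv, rfl⟩
            exact ⟨c * v * c⁻¹, hOCn.conj_mem v hv c, by simp⟩
          · rintro ⟨v, hv, hvw⟩
            refine ⟨c⁻¹ * v * c, by simpa using hOCn.conj_mem v hv c⁻¹, ?_⟩
            have : w = f c⁻¹ * f v * f c := by
              rw [hvw, map_inv]; group
            rw [this, map_mul, map_mul]
      have hcop : (Nat.card ((pPrimeCore p C).map f)).Coprime p := by
        rw [Subgroup.card_map_of_injective hf]
        exact pPrimeCore_coprime p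
      exact Cfsg.Agent.Lib.Comp2.coprime_subnormal_le hsub hcop ⟨x, hx, rfl⟩
  set D := g.range with hD
  have hDn : D.Normal := by
    rw [hD, hg, MonoidHom.range_comp]
    exact Subgroup.Normal.map hn _ hπXs
  set Z := pCore p (X ⧸ pPrimeCore p X) with hZ
  have hB := centralizer_inf_le hDn hX
  intro yb hyb
  obtain ⟨y, rfl⟩ := hπCs yb
  set T := (D ⊓ Z).comap g with hT
  have hTn : T.Normal := by
    haveI : D.Normal := hDn
    haveI : Z.Normal := pCore_normal p _
    exact Subgroup.Normal.comap inferInstance _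
  have hZp : IsPGroup p Z := pCore_isPGroup p
  have hTp : IsPGroup p (T.map πC) := by
    rintro ⟨_, t, ht, rfl⟩
    obtain ⟨m, hm⟩ := hZp ⟨g t, (mem_inf.1 ht).2⟩
    have hm' : (g t) ^ p ^ m = 1 := congrArg Subtype.val hm
    refine ⟨m, ?_⟩
    apply Subtype.ext
    change (πC t) ^ p ^ m = 1
    rw [← map_pow, hπC1, ← hker, MonoidHom.mem_ker, map_pow, hm']
  have hTle : T.map πC ≤ pCore p (C ⧸ pPrimeCore p C) :=
    le_pCore (Subgroup.Normal.map hTn _ hπCs) hTp
  have hgy : g y ∈ Z := by
    apply hB
    refine mem_inf.2 ⟨⟨y, rfl⟩, ?_⟩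
    rw [mem_centralizer_iff]
    intro w hw
    obtain ⟨hwD, hwZ⟩ := mem_inf.1 hw
    obtain ⟨t, rfl⟩ := hwD
    have h1 : πC t ∈ pCore p (C ⧸ pPrimeCore p C) := hTle ⟨t, mem_inf.2 ⟨⟨t, rfl⟩, hwZ⟩, rfl⟩
    have h2 := (mem_centralizer_iff.1 hyb) _ h1
    rw [← map_mul, ← map_mul] at h2
    have h3 : (y * t)⁻¹ * (t * y) ∈ pPrimeCore p C := by
      rw [← hπC1, map_mul, map_inv, h2]
      simp
    rw [← hker, MonoidHom.mem_ker, map_mul, map_inv, map_mul, map_mul] at h3
    exact (inv_mul_eq_one.1 h3).symm
  exact hTle ⟨y, mem_inf.2 ⟨⟨y, rfl⟩, hgy⟩, rfl⟩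

/-- S0631 -/
theorem pconstrained_normalizer_centralizer (hG : IsPConstrained p G) (P : Subgroup G) (hP : IsPGroup p P) :
    IsPConstrained p (normalizer (P : Set G)) ∧ IsPConstrained p (centralizer (P : Set G)) := by
  have h2 := (Cfsg.Agent.Lib.Comp3.pConstrained_iff (X := G) (p := p)).1 hG
  have h3 := (Cfsg.Agent.Lib.Comp3.pLayer_normalizer h2 P hP).1
  have hN : IsPConstrained p (normalizer (P : Set G)) := (Cfsg.Agent.Lib.Comp3.pConstrained_iff).2 h3
  refine ⟨hN, ?_⟩
  have hle : centralizer (P : Set G) ≤ normalizer (P : Set G) := centralizer_le_normalizer _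
  refine pconstrained_of_injective_normal (Subgroup.inclusion hle) (Subgroup.inclusion_injective hle) ?_ hN
  have hr : (Subgroup.inclusion hle).range = (centralizer (P : Set G)).subgroupOf (normalizer (P : Set G)) := by
    ext x
    constructor
    · rintro ⟨c, rfl⟩
      exact c.2
    · intro h
      exact ⟨⟨x, h⟩, rfl⟩
  rw [hr]
  exact normal_subgroupOf_centralizer_normalizer _

end Main

end Cfsg.Agent.Lib.PConstr3
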