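import Mathlib
import Cfsg.Prelude.Def_PLocal
import Cfsg.Agent.Lib.PBest2

set_option autoImplicit false
set_option linter.unusedSectionVars false
set_option linter.unusedVariables false
set_option linter.style.haveILetI false

namespace Cfsg.Agent.Lib.PMaschke

open Subgroup Cfsg Cfsg.Agent.Lib.PBest

theorem abstract_maschke {V A : Type*} [CommGroup V] [Group A] [Finite V] [Finite A]
    (ρ : A →* MulAut V) (hcop : (Nat.card A).Coprime (Nat.card V)) (U W : Subgroup V)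
    (hinv : ∀ a : A, ∀ u ∈ U, ρ a u ∈ U) (hUW : U ⊓ W = ⊥) (hUWV : U ⊔ W = ⊤) :
    ∃ W' : Subgroup V, (∀ a : A, ∀ w ∈ W', ρ a w ∈ W') ∧ U ⊓ W' = ⊥ ∧ U ⊔ W' = ⊤ := by
  classical
  have : Fintype A := Fintype.ofFinite A
  have hdec : ∀ v : V, ∃ u ∈ U, ∃ w ∈ W, u * w = v := fun v => by
    have : v ∈ U ⊔ W := by rw [hUWV]; trivial
    exact Subgroup.mem_sup.1 this
  choose fu hfu fw hfw hfuw using hdec
  have huniq : ∀ u ∈ U, ∀ w ∈ W, ∀ u' ∈ U, ∀ w' ∈ W, u * w = u' * w' → u = u' := by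
    intro u hu w hw u' hu' w' hw' h
    have h1 : u'⁻¹ * u = w' * w⁻¹ := by
      calc u'⁻¹ * u = u'⁻¹ * (u * w) * w⁻¹ := by group
        _ = u'⁻¹ * (u' * w') * w⁻¹ := by rw [h]
        _ = w' * w⁻¹ := by group
    have h2 : u'⁻¹ * u ∈ U ⊓ W := ⟨U.mul_mem (U.inv_mem hu') hu, by
      rw [h1]; exact W.mul_mem hw' (W.inv_mem hw)⟩
    rw [hUW, mem_bot] at h2
    exact (inv_mul_eq_one.1 h2).symm
  let π : V →* V := MonoidHom.mk' fu (by
    intro a b
    apply huniq _ (hfu _) (fw (a * b)) (hfw _) _ (U.mul_mem (hfu a) (hfu b)) (fw a * fw b)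
      (W.mul_mem (hfw a) (hfw b))
    rw [hfuw]
    calc a * b = (fu a * fw a) * (fu b * fw b) := by rw [hfuw, hfuw]
      _ = _ := by ac_rfl)
  have hπU : ∀ v, π v ∈ U := hfu
  have hπu : ∀ u ∈ U, π u = u := by
    intro u hu
    exact huniq _ (hfu u) (fw u) (hfw u) u hu 1 W.one_mem (by rw [hfuw, mul_one])
  let τ : V →* V := ∏ a : A, (ρ a).toMonoidHom.comp (π.comp (ρ a⁻¹).toMonoidHom)
  have hτ : ∀ v, τ v = ∏ a : A, ρ a (π (ρ a⁻¹ v)) := by
    intro v
    simp only [τ, MonoidHom.finset_prod_apply]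
    rfl
  have hτU : ∀ v, τ v ∈ U := by
    intro v
    rw [hτ]
    exact Subgroup.prod_mem _ (fun a _ => hinv a _ (hπU _))
  have hτu : ∀ u ∈ U, τ u = u ^ Nat.card A := by
    intro u hu
    rw [hτ]
    have : ∀ a : A, ρ a (π (ρ a⁻¹ u)) = u := by
      intro a
      rw [hπu _ (hinv _ _ hu)]
      simp
    simp only [this, Finset.prod_const, Finset.card_univ, Nat.card_eq_fintype_card]
  have hτeq : ∀ (b : A) v, τ (ρ b v) = ρ b (τ v) := by
    intro b v
    rw [hτ, hτ, map_prod]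
    refine Fintype.prod_equiv (Equiv.mulLeft b⁻¹) _ _ ?_
    intro a
    simp only [Equiv.coe_mulLeft, mul_inv_rev, inv_inv, map_mul, MulAut.mul_apply, map_inv]
    simp
  by_cases h1 : Nat.card V = 1
  · -- trivial V
    have hs : Subsingleton V := (Nat.card_eq_one_iff_unique.1 h1).1
    refine ⟨⊥, ?_, ?_, ?_⟩
    · intro a w hw
      rw [mem_bot] at hw ⊢
      exact Subsingleton.elim _ _
    · exact inf_bot_eq _
    · exact Subsingleton.elim _ _
  have h1' : 1 < Nat.card V := by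
    have : 0 < Nat.card V := Nat.card_pos
    omega
  obtain ⟨m, -, hm⟩ := Nat.exists_mul_mod_eq_one_of_coprime hcop h1'
  have hpow : ∀ u : V, (u ^ Nat.card A) ^ m = u := by
    intro u
    rw [← pow_mul]
    conv_rhs => rw [← pow_one u]
    rw [← Nat.mod_add_div (Nat.card A * m) (Nat.card V), hm, pow_add, pow_mul u (Nat.card V), pow_card_eq_one', one_pow, mul_one]
  let σ : V →* V := τ ^ m
  have hσ : ∀ v, σ v = (τ v) ^ m := by
    intro v
    simp only [σ, MonoidHom.pow_apply]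
  have hσU : ∀ v, σ v ∈ U := fun v => by
    rw [hσ]; exact U.pow_mem (hτU v) m
  have hσu : ∀ u ∈ U, σ u = u := by
    intro u hu
    rw [hσ, hτu u hu, hpow]
  have hσeq : ∀ (b : A) v, σ (ρ b v) = ρ b (σ v) := by
    intro b v
    rw [hσ, hσ, hτeq, map_pow]
  refine ⟨σ.ker, ?_, ?_, ?_⟩
  · intro a w hw
    rw [MonoidHom.mem_ker] at hw ⊢
    rw [hσeq, hw, map_one]
  · rw [eq_bot_iff]
    rintro x ⟨hxU, hxK⟩
    rw [mem_bot, ← hσu x hxU]
    exact hxK
  · rw [eq_top_iff]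
    rintro v -
    have : v = σ v * ((σ v)⁻¹ * v) := by group
    rw [this]
    refine mul_mem_sup (hσU v) ?_
    rw [MonoidHom.mem_ker, map_mul, map_inv, hσu _ (hσU v)]
    group

end Cfsg.Agent.Lib.PMaschke

namespace Cfsg.Agent.Lib.PMaschke

open Subgroup Cfsg Cfsg.Agent.Lib.PBest

theorem concrete_maschke {G : Type*} [Group G] [Finite G] (V A U : Subgroup G) (hVab : IsMulCommutative V)
    (hAV : A ≤ Subgroup.normalizer (V : Set G)) (hcop : (Nat.card A).Coprime (Nat.card V))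
    (hUV : U ≤ V) (hAU : A ≤ Subgroup.normalizer (U : Set G)) (W : Subgroup G) (hWV : W ≤ V)
    (hUW : U ⊓ W = ⊥) (hUWV : U ⊔ W = V) :
    ∃ W' : Subgroup G, W' ≤ V ∧ A ≤ Subgroup.normalizer (W' : Set G) ∧ U ⊓ W' = ⊥ ∧ U ⊔ W' = V := by
  letI := commV V hVab
  obtain ⟨W'', h1, h2, h3⟩ := abstract_maschke (rhoV V A hAV) hcop (U.subgroupOf V) (W.subgroupOf V)
    (by
      intro a u hu
      rw [mem_subgroupOf] at hu ⊢
      rw [rhoV_apply]
      exact (mem_normalizer_iff.1 (hAU a.2) _).1 hu)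
    (by
      rw [eq_bot_iff]
      rintro ⟨x, hx⟩ hh
      obtain ⟨hxU, hxW⟩ := mem_inf.1 hh
      rw [mem_subgroupOf] at hxU hxW
      have : x ∈ U ⊓ W := ⟨hxU, hxW⟩
      rw [hUW, mem_bot] at this
      rw [mem_bot]
      exact Subtype.ext this)
    (by
      rw [eq_top_iff]
      rintro ⟨x, hx⟩ -
      have hle : U ⊔ W ≤ (U.subgroupOf V ⊔ W.subgroupOf V).map V.subtype := by
        rw [sup_le_iff]
        constructor
        · intro u hu
          exact ⟨⟨u, hUV hu⟩, mem_sup_left (mem_subgroupOf.2 hu), rfl⟩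
        · intro u hu
          exact ⟨⟨u, hWV hu⟩, mem_sup_right (mem_subgroupOf.2 hu), rfl⟩
      rw [← hUWV] at hx
      obtain ⟨y, hy, hyx⟩ := hle hx
      have : y = ⟨x, by rw [← hUWV]; exact hx⟩ := Subtype.ext hyx
      rw [← this]
      exact hy)
  refine ⟨W''.map V.subtype, ?_, ?_, ?_, ?_⟩
  · rintro _ ⟨x, -, rfl⟩
    exact x.2
  · intro a ha
    rw [mem_normalizer_iff]
    have key : ∀ (b : G), b ∈ A → ∀ x, x ∈ W''.map V.subtype → b * x * b⁻¹ ∈ W''.map V.subtype := by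
      rintro b hb _ ⟨x, hx, rfl⟩
      exact ⟨_, h1 ⟨b, hb⟩ x hx, rfl⟩
    intro x
    refine ⟨key a ha x, fun h => ?_⟩
    have := key a⁻¹ (A.inv_mem ha) _ h
    simpa [mul_assoc] using this
  · rw [eq_bot_iff]
    rintro x ⟨hxU, ⟨y, hy, rfl⟩⟩
    have : y ∈ U.subgroupOf V ⊓ W'' := mem_inf.2 ⟨mem_subgroupOf.2 hxU, hy⟩
    rw [h2, mem_bot] at this
    rw [this]
    simp
  · apply le_antisymm
    · rw [sup_le_iff]
      refine ⟨hUV, ?_⟩
      rintro _ ⟨x, -, rfl⟩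
      exact x.2
    · intro x hx
      have : (⟨x, hx⟩ : V) ∈ U.subgroupOf V ⊔ W'' := by rw [h3]; trivial
      rw [Subgroup.mem_sup] at this
      obtain ⟨u, hu, w, hw, huw⟩ := this
      have hx' : x = (u : G) * (w : G) := (congrArg Subtype.val huw).symm
      rw [hx']
      exact mul_mem_sup (mem_subgroupOf.1 hu) ⟨w, hw, rfl⟩

end Cfsg.Agent.Lib.PMaschke
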