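import Mathlib

set_option autoImplicit false
set_option linter.unusedSectionVars false
set_option linter.unusedVariables false

/-!
An element of order `p` acting on an abelian group with a short commutator chain centralizes `pⁿ`-th powers.
-/

namespace Cfsg.Agent.Lib.PowFix

section ring

variable {R : Type*} [Ring R] {p : ℕ}

theorem ring_key (hp : p.Prime) (δ : R) (h1 : (δ + 1) ^ p = 1) :
    ∃ w : R, Commute δ w ∧ δ ^ p + (p : R) * δ + (p : R) * (δ ^ 2 * w) = 0 := by
  classical
  have h := (Commute.one_right δ).add_pow_prime_eq' hp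
  have hp2 := hp.two_le
  have hI : Finset.Ioo 0 p = insert 1 (Finset.Ioo 1 p) := by
    ext x
    simp only [Finset.mem_Ioo, Finset.mem_insert]
    omega
  have h1n : (1 : ℕ) ∉ Finset.Ioo 1 p := by simp
  refine ⟨∑ k ∈ Finset.Ioo 1 p, δ ^ (k - 2) * ((p.choose k / p : ℕ) : R), ?_, ?_⟩
  · refine Commute.sum_right _ _ _ (fun k _ => ?_)
    exact ((Commute.refl δ).pow_right _).mul_right (Nat.cast_commute _ _).symm
  · rw [hI, Finset.sum_insert h1n] at h
    have h2 : δ ^ 1 * (1 : R) ^ (p - 1) * ((p.choose 1 / p : ℕ) : R) = δ := by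
      rw [Nat.choose_one_right, Nat.div_self hp.pos]
      simp
    have h3 : ∑ k ∈ Finset.Ioo 1 p, δ ^ k * (1 : R) ^ (p - k) * ((p.choose k / p : ℕ) : R) =
        δ ^ 2 * ∑ k ∈ Finset.Ioo 1 p, δ ^ (k - 2) * ((p.choose k / p : ℕ) : R) := by
      rw [Finset.mul_sum]
      refine Finset.sum_congr rfl (fun k hk => ?_)
      obtain ⟨hk1, hk2⟩ := Finset.mem_Ioo.1 hk
      have e : δ ^ k = δ ^ 2 * δ ^ (k - 2) := by
        rw [← pow_add]
        congr 1
        omega
      rw [e, one_pow, mul_one, mul_assoc]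
    rw [h2, h3, h1, one_pow] at h
    have h4 : (0 : R) = δ ^ p + (p : R) * (δ + δ ^ 2 * ∑ k ∈ Finset.Ioo 1 p, δ ^ (k - 2) * ((p.choose k / p : ℕ) : R)) := by
      have h5 := congrArg (fun z => z - 1) h
      simp only [sub_self] at h5
      rw [h5]
      noncomm_ring
    rw [mul_add] at h4
    rw [add_assoc]
    exact h4.symm

theorem pow_mul_zero (hp : p.Prime) (n : ℕ) (δ : R) (h1 : (δ + 1) ^ p = 1) (h0 : δ ^ (n * (p - 1) + 1) = 0) :
    (p : R) ^ n * δ = 0 := by
  obtain ⟨w, hcw, hkey⟩ := ring_key hp δ h1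
  have hp1 := hp.one_le
  obtain ⟨N, hN⟩ : ∃ N, N = n * (p - 1) + 1 := ⟨_, rfl⟩
  rw [← hN] at h0
  have hq : ∀ (b : ℕ) (x : R), Commute (((p : R)) ^ b) x := fun b x => (Nat.cast_commute p x).pow_left b
  have hpd : (p : R) * δ = - δ ^ p - (p : R) * (δ ^ 2 * w) := by
    have h₁ : δ ^ p + ((p : R) * δ + (p : R) * (δ ^ 2 * w)) = 0 := by
      rw [← add_assoc]
      exact hkey
    have h₂ := eq_neg_of_add_eq_zero_right h₁
    rw [eq_sub_iff_add_eq]
    exact h₂
  have main : ∀ (b a : ℕ), N ≤ a + 1 + b * (p - 1) → (p : R) ^ b * δ ^ (a + 1) = 0 := by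
    intro b
    induction b with
    | zero =>
      intro a ha
      have : δ ^ (a + 1) = 0 := pow_eq_zero_of_le (by omega) h0
      rw [this, mul_zero]
    | succ b ih =>
      suffices H : ∀ k a, N - a = k → N ≤ a + 1 + (b + 1) * (p - 1) → (p : R) ^ (b + 1) * δ ^ (a + 1) = 0 from
        fun a ha => H _ a rfl ha
      intro k
      induction k using Nat.strong_induction_on with
      | _ k ihk =>
        intro a hk ha
        by_cases hab : N ≤ a + 1
        · have : δ ^ (a + 1) = 0 := pow_eq_zero_of_le hab h0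
          rw [this, mul_zero]
        · have e1 : (p : R) ^ (b + 1) * δ ^ (a + 1) = (p : R) ^ b * (δ ^ a * ((p : R) * δ)) := by
            rw [pow_succ, pow_succ, mul_assoc ((p : R) ^ b)]
            congr 1
            rw [← mul_assoc, (Nat.cast_commute p (δ ^ a)).eq, mul_assoc]
          rw [e1, hpd]
          have e5 : δ ^ a * ((p : R) * (δ ^ 2 * w)) = (p : R) * (δ ^ (a + 2) * w) := by
            rw [← mul_assoc, ← (Nat.cast_commute p (δ ^ a)).eq, mul_assoc, ← mul_assoc (δ ^ a), ← pow_add]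
          have e2 : δ ^ a * (- δ ^ p - (p : R) * (δ ^ 2 * w)) = - δ ^ (a + p) - (p : R) * (δ ^ (a + 2) * w) := by
            rw [mul_sub, mul_neg, ← pow_add, e5]
          rw [e2, mul_sub, mul_neg]
          have h3 : (p : R) ^ b * δ ^ (a + p) = 0 := by
            have e3 : a + p = (a + p - 1) + 1 := by omega
            rw [e3]
            refine ih _ ?_
            have e4 : (b + 1) * (p - 1) = b * (p - 1) + (p - 1) := by ring
            omega
          have h4 : (p : R) ^ (b + 1) * δ ^ (a + 1 + 1) = 0 := by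
            refine ihk (N - (a + 1)) (by omega) (a + 1) rfl ?_
            omega
          have e6 : (p : R) ^ b * ((p : R) * (δ ^ (a + 2) * w)) = ((p : R) ^ (b + 1) * δ ^ (a + 1 + 1)) * w := by
            rw [show a + 1 + 1 = a + 2 from rfl, pow_succ (p : R) b]
            simp only [mul_assoc]
          rw [h3, neg_zero, zero_sub, neg_eq_zero, e6, h4, zero_mul]
  have h := main n 0 (by rw [hN]; omega)
  simpa using h

end ring

section grp

variable {G : Type*} [Group G] {p n : ℕ}

/-- the commutator map -/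
def dcm (g x : G) : G := g * x * g⁻¹ * x⁻¹

theorem fix_pow (hp : p.Prime) (A : Subgroup G) (hAab : ∀ x ∈ A, ∀ y ∈ A, x * y = y * x) (g : G)
    (hgA : ∀ a ∈ A, g * a * g⁻¹ ∈ A) (hgp : ∀ a ∈ A, g ^ p * a * (g ^ p)⁻¹ = a)
    (hk : ∀ a ∈ A, (dcm g)^[n * (p - 1) + 1] a = 1) : ∀ a ∈ A, g * a ^ (p ^ n) * g⁻¹ = a ^ (p ^ n) := by
  classical
  letI iA : CommGroup A :=
    { (inferInstance : Group A) with
      mul_comm := fun x y => Subtype.ext (hAab x x.2 y y.2) }
  let τ : A →* A :=
    { toFun := fun a => ⟨g * a * g⁻¹, hgA a a.2⟩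
      map_one' := Subtype.ext (by simp)
      map_mul' := fun a b => Subtype.ext (by simp [mul_assoc]) }
  let t : AddMonoid.End (Additive A) := MonoidHom.toAdditive τ
  have htapp : ∀ a : A, t (Additive.ofMul a) = Additive.ofMul (τ a) := fun a => rfl
  have htpow : ∀ (i : ℕ) (a : A), ((t ^ i) (Additive.ofMul a)).toMul = (⟨g ^ i * a * (g ^ i)⁻¹, by
      induction i with
      | zero => simp
      | succ i ih =>
        have := hgA _ ih
        have e : g ^ (i + 1) * (a : G) * (g ^ (i + 1))⁻¹ = g * (g ^ i * a * (g ^ i)⁻¹) * g⁻¹ := by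
          rw [pow_succ']
          group
        rw [e]
        exact this⟩ : A) := by
    intro i a
    induction i with
    | zero =>
      apply Subtype.ext
      simp
    | succ i ih =>
      have h0 : (t ^ (i + 1)) (Additive.ofMul a) = t ((t ^ i) (Additive.ofMul a)) := by
        rw [pow_succ']
        rfl
      have h1 : (t ^ i) (Additive.ofMul a) = Additive.ofMul ((t ^ i) (Additive.ofMul a)).toMul := rfl
      rw [h0, h1, htapp, ih]
      apply Subtype.ext
      show g * (g ^ i * a * (g ^ i)⁻¹) * g⁻¹ = g ^ (i + 1) * a * (g ^ (i + 1))⁻¹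
      rw [pow_succ']
      group
  have htp : t ^ p = 1 := by
    refine AddMonoidHom.ext fun x => ?_
    obtain ⟨a, rfl⟩ := Additive.ofMul.surjective x
    have h1 := htpow p a
    have h2 : ((t ^ p) (Additive.ofMul a)).toMul = a := by
      rw [h1]
      apply Subtype.ext
      exact hgp a a.2
    exact congrArg Additive.ofMul h2
  let δ : AddMonoid.End (Additive A) := t - 1
  have hδ : ∀ a : A, δ (Additive.ofMul a) = Additive.ofMul (⟨dcm g (a : G), by
      unfold dcm
      exact A.mul_mem (hgA a a.2) (A.inv_mem a.2)⟩ : A) := by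
    intro a
    show t (Additive.ofMul a) - Additive.ofMul a = _
    rw [htapp, ← ofMul_div]
    congr 1
    apply Subtype.ext
    rw [div_eq_mul_inv]
    rfl
  have hδit : ∀ (j : ℕ) (a : A), (((δ ^ j) (Additive.ofMul a)).toMul : G) = (dcm g)^[j] (a : G) := by
    intro j
    induction j with
    | zero =>
      intro a
      rfl
    | succ j ih =>
      intro a
      have h0 : (δ ^ (j + 1)) (Additive.ofMul a) = (δ ^ j) (δ (Additive.ofMul a)) := by
        rw [pow_succ]
        rfl
      rw [h0, hδ, ih]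
      rfl
  have hδ0 : δ ^ (n * (p - 1) + 1) = 0 := by
    refine AddMonoidHom.ext fun x => ?_
    obtain ⟨a, rfl⟩ := Additive.ofMul.surjective x
    have h1 := hδit (n * (p - 1) + 1) a
    rw [hk a a.2] at h1
    have h2 : ((δ ^ (n * (p - 1) + 1)) (Additive.ofMul a)).toMul = 1 := Subtype.ext h1
    show (δ ^ (n * (p - 1) + 1)) (Additive.ofMul a) = 0
    rw [show (δ ^ (n * (p - 1) + 1)) (Additive.ofMul a) = Additive.ofMul ((δ ^ (n * (p - 1) + 1)) (Additive.ofMul a)).toMul from rfl, h2]
    rfl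
  have h1 : (δ + 1) ^ p = 1 := by
    have : δ + 1 = t := sub_add_cancel t 1
    rw [this, htp]
  have hmain := pow_mul_zero hp n δ h1 hδ0
  intro a ha
  have h2 : ((p : AddMonoid.End (Additive A)) ^ n * δ) (Additive.ofMul (⟨a, ha⟩ : A)) = 0 := by
    rw [hmain]
    rfl
  have h20 : ((p : AddMonoid.End (Additive A)) ^ n * δ) (Additive.ofMul (⟨a, ha⟩ : A)) = ((p : AddMonoid.End (Additive A)) ^ n) (δ (Additive.ofMul (⟨a, ha⟩ : A))) := rfl
  rw [h20, hδ, ← Nat.cast_pow, AddMonoid.End.natCast_apply, ← ofMul_pow] at h2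
  have h3 : (⟨dcm g a, _⟩ : A) ^ (p ^ n) = 1 := h2
  have h4 : (dcm g a) ^ (p ^ n) = 1 := congrArg (fun z : A => (z : G)) h3
  have hcomm : Commute (g * a * g⁻¹) a⁻¹ := by
    have := hAab _ (hgA a ha) _ (A.inv_mem ha)
    exact this
  have h5 : (g * a * g⁻¹) ^ (p ^ n) * (a⁻¹) ^ (p ^ n) = 1 := by
    rw [← hcomm.mul_pow]
    exact h4
  have h6 : g * a ^ (p ^ n) * g⁻¹ = (g * a * g⁻¹) ^ (p ^ n) := (conj_pow).symm
  rw [h6]
  rw [inv_pow, mul_inv_eq_one] at h5
  exact h5

end grp

end Cfsg.Agent.Lib.PowFix
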