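import Mathlib

/-! Burnside's theorem on transitive groups of prime degree, by the algebra of polynomial functions
on the prime field: the invariant spaces of polynomial functions of bounded degree are closed under
products and orthogonal complements; a proper orbital gives a consecutive pair of invariant spaces
and these together force the affine functions to be invariant. -/

set_option autoImplicit false

namespace Cfsg.Agent.Lib.PrimeDeg

open Polynomial

/-- the purely arithmetic core -/
theorem combi (p : ℕ) (S : ℕ → Prop) (h1 : S 1)
    (hadd : ∀ a b, S a → S b → 1 ≤ a → 1 ≤ b → a + b - 1 ≤ p → S (a + b - 1))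
    (hdual : ∀ a, S a → a ≤ p → S (p - a)) :
    ∀ x, S (x + 1) → S (x + 2) → x + 3 ≤ p → S 2 := by
  intro x
  induction x using Nat.strong_induction_on with
  | _ x ih =>
    intro hx1 hx2 hxp
    -- pass to the smaller of the pair and its dual
    obtain ⟨y, hyx, hy1, hy2, hyp⟩ : ∃ y, y ≤ x ∧ S (y + 1) ∧ S (y + 2) ∧ 2 * y + 3 ≤ p := by
      by_cases hc : 2 * x + 3 ≤ p
      · exact ⟨x, le_rfl, hx1, hx2, hc⟩
      · refine ⟨p - 3 - x, by omega, ?_, ?_, by omega⟩
        · have := hdual _ hx2 (by omega)
          have e : p - (x + 2) = p - 3 - x + 1 := by omega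
          rwa [e] at this
        · have := hdual _ hx1 (by omega)
          have e : p - (x + 1) = p - 3 - x + 2 := by omega
          rwa [e] at this
    by_cases hy0 : y = 0
    · subst hy0
      exact hy2
    -- division
    set k := (p - 1) / (y + 1) with hk
    set w := (p - 1) % (y + 1) with hw
    have hdiv : (y + 1) * k + w = p - 1 := Nat.div_add_mod _ _
    have hwlt : w < y + 1 := Nat.mod_lt _ (by omega)
    have hk2 : 2 ≤ k := by
      rw [hk, Nat.le_div_iff_mul_le (by omega)]
      omega
    have hexp : k * y + k + w + 1 = p := by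
      have : (y + 1) * k = k * y + k := by ring
      omega
    have hsum : ∀ j, j ≤ k → ∀ c, c ≤ j → S (j * y + c + 1) := by
      intro j
      induction j with
      | zero =>
        intro _ c hc
        have : c = 0 := by omega
        subst this
        simpa using h1
      | succ j ihj =>
        intro hj c hc
        have hle : (j + 1) * y + (j + 1) ≤ k * y + k := by
          have : (j + 1) * y ≤ k * y := Nat.mul_le_mul_right _ hj
          omega
        have hexp2 : (j + 1) * y = j * y + y := by ring
        by_cases hcj : c ≤ j
        · have := hadd _ _ (ihj (by omega) c hcj) hy1 (by omega) (by omega) (by omega)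
          have e : j * y + c + 1 + (y + 1) - 1 = (j + 1) * y + c + 1 := by omega
          rwa [e] at this
        · have hc' : c = j + 1 := by omega
          subst hc'
          have := hadd _ _ (ihj (by omega) j le_rfl) hy2 (by omega) (by omega) (by omega)
          have e : j * y + j + 1 + (y + 2) - 1 = (j + 1) * y + (j + 1) + 1 := by omega
          rwa [e] at this
    have hd : ∀ c, c ≤ k → S (k + w - c) := by
      intro c hc
      have hmem := hsum k le_rfl c hc
      have := hdual _ hmem (by omega)
      have e : p - (k * y + c + 1) = k + w - c := by omega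
      rwa [e] at this
    have hw0 : S (w + 1) := by
      have := hd (k - 1) (by omega)
      have e : k + w - (k - 1) = w + 1 := by omega
      rwa [e] at this
    have hw00 : S (w + 2) := by
      have := hd (k - 2) (by omega)
      have e : k + w - (k - 2) = w + 2 := by omega
      rwa [e] at this
    have hwz : S w := by
      have := hd k le_rfl
      have e : k + w - k = w := by omega
      rwa [e] at this
    by_cases hw01 : w = 0
    · rw [hw01] at hw00
      exact hw00
    by_cases hw1 : w = 1
    · rw [hw1] at hw0
      exact hw0
    -- a smaller pair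
    have hlt : w - 1 < x := by omega
    refine ih (w - 1) hlt ?_ ?_ (by omega)
    · have e : w - 1 + 1 = w := by omega
      rwa [e]
    · have e : w - 1 + 2 = w + 1 := by omega
      rwa [e]

variable {p : ℕ} [hp : Fact p.Prime]

local notation "K" => ZMod p

/-- evaluation of polynomials as a linear map to functions -/
noncomputable def evalL : K[X] →ₗ[K] (K → K) where
  toFun P x := P.eval x
  map_add' P Q := by funext x; simp
  map_smul' c P := by funext x; simp

@[simp] theorem evalL_apply (P : K[X]) (x : K) : evalL P x = P.eval x := rfl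

theorem card_K : Fintype.card K = p := ZMod.card p

theorem one_lt_p : 1 < p := hp.out.one_lt

/-- polynomial functions of degree `< r`. -/
noncomputable def V (r : ℕ) : Submodule K (K → K) := (degreeLT K r).map evalL

theorem mem_V {r : ℕ} {f : K → K} : f ∈ V r ↔ ∃ P : K[X], P.degree < r ∧ evalL P = f := by
  simp only [V, Submodule.mem_map, mem_degreeLT]

theorem deg_lt_iff {r : ℕ} (hr : 0 < r) {P : K[X]} : P.degree < r ↔ P.natDegree < r := by
  by_cases h : P = 0
  · subst h
    simp [hr]
  · exact (natDegree_lt_iff_degree_lt h).symm

theorem pow_mem_V {r i : ℕ} (hi : i < r) : (fun x : K => x ^ i) ∈ V r := by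
  rw [mem_V]
  refine ⟨X ^ i, ?_, by funext x; simp⟩
  rw [degree_X_pow]
  exact_mod_cast hi

/-- a polynomial of degree `< p` that vanishes as a function is zero -/
theorem eq_zero_of_evalL {P : K[X]} (hP : P.natDegree < p) (h : evalL P = 0) : P = 0 := by
  apply eq_zero_of_natDegree_lt_card_of_eval_eq_zero' P Finset.univ
  · intro i _
    exact congrFun h i
  · rw [Finset.card_univ, card_K]
    exact hP

theorem eq_of_evalL {P Q : K[X]} (hP : P.natDegree < p) (hQ : Q.natDegree < p) (h : evalL P = evalL Q) : P = Q := by
  have : P - Q = 0 := by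
    apply eq_zero_of_evalL
    · exact (natDegree_sub_le _ _).trans_lt (max_lt hP hQ)
    · rw [map_sub, h, sub_self]
  exact sub_eq_zero.1 this

/-- every function is a polynomial function of degree `< p`. -/
theorem mem_V_p (f : K → K) : f ∈ V p := by
  classical
  rw [mem_V]
  let P : K[X] := ∑ a : K, C (f a) * (1 - (X - C a) ^ (p - 1))
  have h1 : ∀ a : K, (C (f a) * (1 - (X - C a) ^ (p - 1)) : K[X]).natDegree ≤ p - 1 := by
    intro a
    refine (natDegree_C_mul_le _ _).trans ?_
    refine (natDegree_sub_le _ _).trans (max_le (by simp) ?_)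
    refine natDegree_pow_le.trans ?_
    have : (X - C a : K[X]).natDegree = 1 := natDegree_X_sub_C a
    rw [this, mul_one]
  have hdeg : P.natDegree ≤ p - 1 := natDegree_sum_le_of_forall_le _ _ (fun a _ => h1 a)
  refine ⟨P, ?_, ?_⟩
  · rw [deg_lt_iff hp.out.pos]
    have := one_lt_p (p := p)
    omega
  · funext x
    simp only [evalL_apply, P, eval_finsetSum, eval_mul, eval_C, eval_sub, eval_one, eval_pow, eval_X]
    rw [Finset.sum_eq_single x]
    · have : p - 1 ≠ 0 := by have := one_lt_p (p := p); omega
      simp [this]
    · intro a _ hax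
      have : x - a ≠ 0 := sub_ne_zero.2 (Ne.symm hax)
      rw [ZMod.pow_card_sub_one_eq_one this]
      simp
    · intro h; exact absurd (Finset.mem_univ x) h

theorem exists_rep (f : K → K) : ∃ P : K[X], P.natDegree < p ∧ evalL P = f := by
  obtain ⟨P, h1, h2⟩ := mem_V.1 (mem_V_p f)
  exact ⟨P, (deg_lt_iff hp.out.pos).1 h1, h2⟩

/-- The sum of the values of a polynomial of degree `≤ p - 1` is minus its coefficient of `X^(p-1)`. -/
theorem sum_eval (Q : K[X]) (hQ : Q.natDegree < p) : ∑ x : K, Q.eval x = - Q.coeff (p - 1) := by
  classical
  have hp1 := one_lt_p (p := p)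
  simp_rw [eval_eq_sum_range' hQ]
  rw [Finset.sum_comm]
  have hp2 : Finset.range p = Finset.range ((p - 1) + 1) := by
    congr 1
    omega
  rw [hp2, Finset.sum_range_succ]
  have h0 : ∀ m ∈ Finset.range (p - 1), ∑ x : K, Q.coeff m * x ^ m = 0 := by
    intro m hm
    rw [← Finset.mul_sum, FiniteField.sum_pow_lt_card_sub_one K m (by rw [card_K]; exact Finset.mem_range.1 hm), mul_zero]
  rw [Finset.sum_eq_zero h0, zero_add, ← Finset.mul_sum]
  have hs : ∑ x : K, x ^ (p - 1) = -1 := by
    have hsum : ∑ x : K, x ^ (p - 1) = ∑ x : K, (if x = 0 then (0 : K) else 1) := by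
      refine Finset.sum_congr rfl fun x _ => ?_
      by_cases hx : x = 0
      · simp [hx, show p - 1 ≠ 0 by omega]
      · simp [hx, ZMod.pow_card_sub_one_eq_one hx]
    rw [hsum, Finset.sum_ite]
    simp only [Finset.sum_const_zero, zero_add, Finset.sum_const, nsmul_eq_mul, mul_one]
    have hc : ((Finset.univ.filter (fun x : K => ¬ x = 0)).card : K) = -1 := by
      have : (Finset.univ.filter (fun x : K => ¬ x = 0)).card + 1 = p := by
        have e : Finset.univ.filter (fun x : K => ¬ x = 0) = Finset.univ.erase 0 := by ext x; simp
        rw [e, Finset.card_erase_add_one (Finset.mem_univ _), Finset.card_univ, card_K]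
      have h2 : (((Finset.univ.filter (fun x : K => ¬ x = 0)).card + 1 : ℕ) : K) = 0 := by
        rw [this]; exact ZMod.natCast_self p
      push_cast at h2
      exact eq_neg_of_add_eq_zero_left h2
    exact hc
  rw [hs]
  ring

end Cfsg.Agent.Lib.PrimeDeg
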