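import Cfsg.Agent.Lib.PrimeDeg

set_option autoImplicit false

namespace Cfsg.Agent.Lib.PrimeDeg

open Polynomial

variable {p : ℕ} [hp : Fact p.Prime]

local notation "K" => ZMod p

/-- the space of polynomial functions of degree `< r` is `G`-invariant -/
def Inv (G : Subgroup (Equiv.Perm (ZMod p))) (r : ℕ) : Prop :=
  ∀ g ∈ G, ∀ f ∈ V (p := p) r, (fun x => f (g x)) ∈ V (p := p) r

theorem comp_mem_of_monomials (g : K → K) {r t : ℕ} (h : ∀ i < r, (fun x => (g x) ^ i) ∈ V (p := p) t)
    {f : K → K} (hf : f ∈ V (p := p) r) : (fun x => f (g x)) ∈ V (p := p) t := by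
  obtain ⟨P, hP, rfl⟩ := mem_V.1 hf
  by_cases hr : r = 0
  · subst hr
    have : P = 0 := by
      rw [← degree_eq_bot]
      simpa using hP
    subst this
    have : (fun x => evalL (0 : K[X]) (g x)) = 0 := by
      funext x; simp
    rw [this]
    exact Submodule.zero_mem _
  · have hd : P.natDegree < r := (deg_lt_iff (Nat.pos_of_ne_zero hr)).1 hP
    have : (fun x => evalL P (g x)) = ∑ i ∈ Finset.range r, P.coeff i • (fun x => (g x) ^ i) := by
      funext x
      simp only [evalL_apply, Finset.sum_apply, Pi.smul_apply, smul_eq_mul]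
      exact eval_eq_sum_range' hd _
    rw [this]
    exact Submodule.sum_mem _ fun i hi => Submodule.smul_mem _ _ (h i (Finset.mem_range.1 hi))

theorem mul_mem_V {r r' : ℕ} (hr : 1 ≤ r) (hr' : 1 ≤ r') {f f' : K → K} (hf : f ∈ V (p := p) r) (hf' : f' ∈ V (p := p) r') :
    (fun x => f x * f' x) ∈ V (p := p) (r + r' - 1) := by
  obtain ⟨P, hP, rfl⟩ := mem_V.1 hf
  obtain ⟨Q, hQ, rfl⟩ := mem_V.1 hf'
  rw [mem_V]
  refine ⟨P * Q, ?_, by funext x; simp⟩
  rw [deg_lt_iff (by omega)]
  have h1 := (deg_lt_iff (by omega)).1 hP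
  have h2 := (deg_lt_iff (by omega)).1 hQ
  have h3 := natDegree_mul_le (p := P) (q := Q)
  omega

theorem inv_add {G : Subgroup (Equiv.Perm K)} {r r' : ℕ} (h : Inv G r) (h' : Inv G r') (hr : 1 ≤ r) (hr' : 1 ≤ r') :
    Inv G (r + r' - 1) := by
  intro g hg f hf
  refine comp_mem_of_monomials (g : K → K) (fun i hi => ?_) hf
  let a := min i (r - 1)
  let b := i - a
  have ha : a < r := by
    have : a ≤ r - 1 := min_le_right _ _
    omega
  have hb : b < r' := by
    show i - min i (r - 1) < r'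
    omega
  have hab : a + b = i := by
    show min i (r - 1) + (i - min i (r - 1)) = i
    omega
  have h1 := h g hg _ (pow_mem_V ha)
  have h2 := h' g hg _ (pow_mem_V hb)
  have h3 := mul_mem_V hr hr' h1 h2
  have e : (fun x => (g x) ^ i) = (fun x => (g x) ^ a * (g x) ^ b) := by
    funext x
    rw [← pow_add, hab]
  rw [e]
  exact h3

theorem mem_V_dual_iff {r : ℕ} (hr : r ≤ p) (f : K → K) :
    f ∈ V (p := p) (p - r) ↔ ∀ u ∈ V (p := p) r, ∑ x, u x * f x = 0 := by
  constructor
  · intro hf u hu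
    obtain ⟨B, hB, rfl⟩ := mem_V.1 hf
    obtain ⟨A, hA, rfl⟩ := mem_V.1 hu
    by_cases hA0 : A = 0
    · subst hA0; simp
    by_cases hB0 : B = 0
    · subst hB0; simp
    have h1 : A.natDegree < r := (natDegree_lt_iff_degree_lt hA0).2 hA
    have h2 : B.natDegree < p - r := (natDegree_lt_iff_degree_lt hB0).2 hB
    have h3 : (A * B).natDegree = A.natDegree + B.natDegree := natDegree_mul hA0 hB0
    have : ∀ x, evalL A x * evalL B x = (A * B).eval x := fun x => by simp
    simp_rw [this]
    rw [sum_eval _ (by omega), coeff_eq_zero_of_natDegree_lt (by omega), neg_zero]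
  · intro h
    obtain ⟨B, hB, rfl⟩ := exists_rep f
    rw [mem_V]
    refine ⟨B, ?_, rfl⟩
    by_cases hB0 : B = 0
    · subst hB0
      simp
    rw [← natDegree_lt_iff_degree_lt hB0]
    by_contra hcon
    push Not at hcon
    set j := B.natDegree with hj
    have hu : (fun x : K => x ^ (p - 1 - j)) ∈ V (p := p) r := pow_mem_V (by omega)
    have h1 := h _ hu
    have : ∀ x, x ^ (p - 1 - j) * evalL B x = (X ^ (p - 1 - j) * B).eval x := fun x => by simp
    simp_rw [this] at h1
    have hdeg : (X ^ (p - 1 - j) * B).natDegree < p := by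
      rw [natDegree_mul (pow_ne_zero _ X_ne_zero) hB0, natDegree_X_pow]
      omega
    rw [sum_eval _ hdeg, coeff_X_pow_mul', if_pos (by omega)] at h1
    have e : p - 1 - (p - 1 - j) = j := by omega
    rw [e, neg_eq_zero, hj, coeff_natDegree, leadingCoeff_eq_zero] at h1
    exact hB0 h1

theorem inv_dual {G : Subgroup (Equiv.Perm K)} {r : ℕ} (h : Inv G r) (hr : r ≤ p) : Inv G (p - r) := by
  intro g hg f hf
  rw [mem_V_dual_iff hr]
  intro u hu
  have h1 := h g⁻¹ (G.inv_mem hg) u hu
  have h2 := (mem_V_dual_iff hr f).1 hf _ h1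
  rw [← h2]
  exact Equiv.sum_comp g (fun y => u ((g⁻¹ : Equiv.Perm K) y) * f y) |>.symm ▸ (by
    refine Finset.sum_congr rfl fun x _ => ?_
    simp)

theorem inv_one (G : Subgroup (Equiv.Perm K)) : Inv G 1 := by
  intro g _ f hf
  obtain ⟨P, hP, rfl⟩ := mem_V.1 hf
  have hd : P.natDegree = 0 := by
    have := (deg_lt_iff (r := 1) (by norm_num)).1 hP
    omega
  have hc := eq_C_of_natDegree_eq_zero hd
  have : (fun x => evalL P (g x)) = evalL P := by
    funext x
    rw [hc]
    simp
  rw [this]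
  exact mem_V.2 ⟨P, hP, rfl⟩

/-- the arithmetic forces the affine functions to be invariant -/
theorem inv_two_of_pair {G : Subgroup (Equiv.Perm K)} {s : ℕ} (hs1 : 1 ≤ s) (hs2 : s + 2 ≤ p)
    (h1 : Inv G s) (h2 : Inv G (s + 1)) : Inv G 2 := by
  refine combi p (fun r => Inv G r) (inv_one G) (fun a b ha hb h1 h2 _ => inv_add ha hb h1 h2)
    (fun a ha hap => inv_dual ha hap) (s - 1) ?_ ?_ (by omega)
  · have e : s - 1 + 1 = s := by omega
    show Inv G (s - 1 + 1)
    rwa [e]
  · have e : s - 1 + 2 = s + 1 := by omega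
    show Inv G (s - 1 + 2)
    rwa [e]

/-- if the affine functions are invariant, the elements are affine maps -/
theorem affine_of_inv_two {G : Subgroup (Equiv.Perm K)} (h : Inv G 2) (g : Equiv.Perm K) (hg : g ∈ G) :
    ∃ a b : K, a ≠ 0 ∧ ∀ x, g x = a * x + b := by
  have h1 := h g hg _ (pow_mem_V (r := 2) (i := 1) (by norm_num))
  obtain ⟨A, hA, hA2⟩ := mem_V.1 h1
  have hdeg : A.natDegree ≤ 1 := by
    have := (deg_lt_iff (r := 2) (by norm_num)).1 hA
    omega
  obtain ⟨a, b, hab⟩ := exists_eq_X_add_C_of_natDegree_le_one hdeg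
  have hval : ∀ x, g x = a * x + b := by
    intro x
    have := congrFun hA2 x
    simp only [evalL_apply, pow_one] at this
    rw [← this, hab]
    simp
  refine ⟨a, b, ?_, hval⟩
  intro ha
  have e0 := hval 0
  have e1 := hval 1
  rw [ha] at e0 e1
  have : g 0 = g 1 := by
    rw [e0, e1]
    simp
  exact zero_ne_one (g.injective this)

end Cfsg.Agent.Lib.PrimeDeg
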