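import Cfsg.Agent.Lib.PrimeDeg2

set_option autoImplicit false

namespace Cfsg.Agent.Lib.PrimeDeg

open Polynomial

variable {p : ℕ} [hp : Fact p.Prime]

local notation "K" => ZMod p

/-- power sums -/
noncomputable def eS (Δ : Finset K) (i : ℕ) : K := ∑ δ ∈ Δ, δ ^ i

theorem geom_units {z : K} (hz : z ≠ 0) : ∑ i ∈ Finset.range (p - 1), z ^ i = if z = 1 then -1 else 0 := by
  have hp1 := one_lt_p (p := p)
  split_ifs with h
  · subst h
    simp only [one_pow, Finset.sum_const, Finset.card_range, nsmul_eq_mul, mul_one]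
    have : ((p - 1 + 1 : ℕ) : K) = 0 := by
      rw [show p - 1 + 1 = p by omega]
      exact ZMod.natCast_self p
    push_cast at this
    exact eq_neg_of_add_eq_zero_left this
  · rw [geom_sum_eq h, ZMod.pow_card_sub_one_eq_one hz]
    simp

theorem exists_powerSum {Δ : Finset K} (h1 : (1 : K) ∈ Δ) (h0 : (0 : K) ∉ Δ) {y₀ : K} (hy0 : y₀ ≠ 0) (hy : y₀ ∉ Δ) :
    ∃ i, 1 ≤ i ∧ i + 2 ≤ p ∧ eS Δ i ≠ 0 := by
  classical
  by_contra hcon
  push Not at hcon
  have hp1 := one_lt_p (p := p)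
  have key : ∀ y : K, y ≠ 0 → eS Δ 0 = if y ∈ Δ then -1 else 0 := by
    intro y hy'
    have h2 : ∑ i ∈ Finset.range (p - 1), (y⁻¹) ^ i * eS Δ i = eS Δ 0 := by
      rw [Finset.sum_eq_single 0]
      · simp
      · intro i hi hi0
        rw [hcon i (by omega) (by have := Finset.mem_range.1 hi; omega), mul_zero]
      · intro h
        exact absurd (Finset.mem_range.2 (by omega)) h
    rw [← h2]
    simp only [eS, Finset.mul_sum]
    rw [Finset.sum_comm]
    have h3 : ∀ δ ∈ Δ, ∑ i ∈ Finset.range (p - 1), y⁻¹ ^ i * δ ^ i = if δ = y then -1 else 0 := by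
      intro δ hδ
      have hδ0 : δ ≠ 0 := fun e => h0 (e ▸ hδ)
      simp_rw [← mul_pow]
      rw [geom_units (mul_ne_zero (inv_ne_zero hy') hδ0)]
      have : y⁻¹ * δ = 1 ↔ δ = y := by
        rw [inv_mul_eq_iff_eq_mul₀ hy', mul_one]
      simp only [this]
    rw [Finset.sum_congr rfl h3, Finset.sum_ite_eq']
  have e1 := key 1 one_ne_zero
  have e2 := key y₀ hy0
  rw [if_pos h1] at e1
  rw [if_neg hy] at e2
  rw [e1] at e2
  exact (neg_ne_zero.2 one_ne_zero) e2

/-- the difference operator of an orbital, on polynomials -/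
noncomputable def Dt (Δ : Finset K) (P : K[X]) : K[X] := ∑ δ ∈ Δ, (taylor δ P - P)

/-- the difference operator of an orbital, on functions -/
noncomputable def DF (Δ : Finset K) (f : K → K) (x : K) : K := ∑ δ ∈ Δ, (f (x + δ) - f x)

theorem DF_evalL (Δ : Finset K) (P : K[X]) : DF Δ (evalL P) = evalL (Dt Δ P) := by
  funext x
  simp only [DF, Dt, evalL_apply, eval_finsetSum, eval_sub, taylor_eval]

theorem coeff_taylor' (δ : K) {P : K[X]} {N : ℕ} (h : P.natDegree < N) (n : ℕ) :
    (taylor δ P).coeff n = ∑ m ∈ Finset.range N, P.coeff m * (δ ^ (m - n) * (m.choose n : K)) := by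
  conv_lhs => rw [as_sum_range' P N h]
  rw [map_sum, finsetSum_coeff]
  refine Finset.sum_congr rfl fun m _ => ?_
  rw [taylor_monomial, coeff_C_mul, coeff_X_add_C_pow]

theorem coeff_Dt (Δ : Finset K) {P : K[X]} {N : ℕ} (h : P.natDegree < N) (n : ℕ) :
    (Dt Δ P).coeff n = ∑ m ∈ Finset.range N, (if n < m then P.coeff m * ((m.choose n : K) * eS Δ (m - n)) else 0) := by
  classical
  have h1 : (Dt Δ P).coeff n = ∑ m ∈ Finset.range N, (P.coeff m * ((m.choose n : K) * eS Δ (m - n))) - (Δ.card : K) * P.coeff n := by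
    simp only [Dt, finsetSum_coeff, coeff_sub, Finset.sum_sub_distrib, Finset.sum_const, nsmul_eq_mul]
    congr 1
    · simp_rw [coeff_taylor' _ h]
      rw [Finset.sum_comm]
      refine Finset.sum_congr rfl fun m _ => ?_
      simp only [eS, Finset.mul_sum]
      refine Finset.sum_congr rfl fun δ _ => ?_
      ring
    · exact coeff_natCast_mul
  rw [h1, sub_eq_iff_eq_add]
  have h2 : (Δ.card : K) * P.coeff n = ∑ m ∈ Finset.range N, (if m = n then (Δ.card : K) * P.coeff n else 0) := by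
    rw [Finset.sum_ite_eq']
    split_ifs with hn
    · rfl
    · have : P.coeff n = 0 := coeff_eq_zero_of_natDegree_lt (by
        have := Finset.mem_range.not.1 hn
        omega)
      rw [this, mul_zero]
  rw [h2, ← Finset.sum_add_distrib]
  refine Finset.sum_congr rfl fun m _ => ?_
  rcases lt_trichotomy n m with hlt | heq | hgt
  · rw [if_pos hlt, if_neg (by omega), add_zero]
  · subst heq
    rw [if_neg (lt_irrefl _), if_pos rfl, zero_add]
    simp [eS]
    ring
  · rw [if_neg (by omega), if_neg (by omega), add_zero, Nat.choose_eq_zero_of_lt hgt]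
    simp

theorem coeff_Dt_eq_zero {Δ : Finset K} {s : ℕ} (hs : ∀ i, 1 ≤ i → i < s → eS Δ i = 0) {P : K[X]} {n : ℕ}
    (h : P.natDegree < n + s) : (Dt Δ P).coeff n = 0 := by
  rw [coeff_Dt Δ (Nat.lt_succ_self _)]
  refine Finset.sum_eq_zero fun m hm => ?_
  split_ifs with hnm
  · have hm' := Finset.mem_range.1 hm
    rw [hs (m - n) (by omega) (by omega)]
    simp
  · rfl

theorem coeff_Dt_lead {Δ : Finset K} {s : ℕ} (hs1 : 1 ≤ s) (hs : ∀ i, 1 ≤ i → i < s → eS Δ i = 0) (hes : eS Δ s ≠ 0)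
    {P : K[X]} (hP : P ≠ 0) (hp' : P.natDegree < p) (hle : s ≤ P.natDegree) :
    (Dt Δ P).coeff (P.natDegree - s) ≠ 0 := by
  set j := P.natDegree with hj
  rw [coeff_Dt Δ (Nat.lt_succ_self _), Finset.sum_eq_single j]
  · rw [if_pos (by omega)]
    have e : j - (j - s) = s := by omega
    rw [e]
    refine mul_ne_zero ?_ (mul_ne_zero ?_ hes)
    · rw [hj, coeff_natDegree, Ne, leadingCoeff_eq_zero]
      exact hP
    · rw [Ne, ZMod.natCast_eq_zero_iff]
      intro hd
      have h2 : p ∣ j.factorial := by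
        rw [← Nat.choose_mul_factorial_mul_factorial (Nat.sub_le j s)]
        exact Dvd.dvd.mul_right (Dvd.dvd.mul_right hd _) _
      rw [hp.out.dvd_factorial] at h2
      omega
  · intro m hm hmj
    have hm' := Finset.mem_range.1 hm
    split_ifs with hlt
    · rw [hs (m - (j - s)) (by omega) (by omega)]
      simp
    · rfl
  · intro h
    exact absurd (Finset.mem_range.2 (Nat.lt_succ_self _)) h

/-- the orbit of `1` under the stabiliser of `0` -/
noncomputable def Delta (G : Subgroup (Equiv.Perm K)) : Finset K := by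
  classical exact Finset.univ.filter (fun y => ∃ g ∈ G, g 0 = 0 ∧ g 1 = y)

theorem mem_Delta {G : Subgroup (Equiv.Perm K)} {y : K} : y ∈ Delta G ↔ ∃ g ∈ G, g 0 = 0 ∧ g 1 = y := by
  classical
  simp [Delta]

theorem DF_comp {G : Subgroup (Equiv.Perm K)} (hτ : ∀ c : K, Equiv.addRight c ∈ G) {g : Equiv.Perm K} (hg : g ∈ G) (f : K → K) :
    DF (Delta G) (fun x => f (g x)) = fun x => DF (Delta G) f (g x) := by
  funext x
  simp only [DF]
  let h : Equiv.Perm K := Equiv.addRight (-(g x)) * g * Equiv.addRight x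
  have hG : h ∈ G := G.mul_mem (G.mul_mem (hτ _) hg) (hτ _)
  have hval : ∀ y, h y = g (y + x) + -(g x) := fun y => rfl
  have h0 : h 0 = 0 := by
    rw [hval, zero_add, add_neg_cancel]
  refine Finset.sum_equiv h (fun y => ?_) (fun y _ => ?_)
  · rw [mem_Delta, mem_Delta]
    constructor
    · rintro ⟨k, hk, hk0, rfl⟩
      refine ⟨h * k, G.mul_mem hG hk, ?_, rfl⟩
      rw [Equiv.Perm.mul_apply, hk0, h0]
    · rintro ⟨k, hk, hk0, hk1⟩
      refine ⟨h⁻¹ * k, G.mul_mem (G.inv_mem hG) hk, ?_, ?_⟩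
      · rw [Equiv.Perm.mul_apply, hk0, Equiv.Perm.inv_eq_iff_eq, h0]
      · rw [Equiv.Perm.mul_apply, hk1]
        simp
  · rw [hval, add_comm (g x), neg_add_cancel_right, add_comm x]

theorem inv_s {G : Subgroup (Equiv.Perm K)} (hτ : ∀ c : K, Equiv.addRight c ∈ G) {s : ℕ} (hs1 : 1 ≤ s)
    (hs : ∀ i, 1 ≤ i → i < s → eS (Delta G) i = 0) (hes : eS (Delta G) s ≠ 0) : Inv G s := by
  intro g hg f hf
  obtain ⟨P, hP, rfl⟩ := mem_V.1 hf
  have hPd := (deg_lt_iff (by omega)).1 hP
  have hDP : Dt (Delta G) P = 0 := by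
    ext n
    rw [coeff_Dt_eq_zero hs (by omega)]
    simp
  obtain ⟨B, hB, hBe⟩ := exists_rep (fun x => evalL P (g x))
  have h1 : DF (Delta G) (evalL B) = 0 := by
    rw [hBe, DF_comp hτ hg, DF_evalL, hDP]
    funext x
    simp
  rw [DF_evalL] at h1
  have hDBd : (Dt (Delta G) B).natDegree < p := by
    refine lt_of_le_of_lt ?_ hB
    rw [natDegree_le_iff_coeff_eq_zero]
    intro n hn
    exact coeff_Dt_eq_zero hs (by omega)
  have hDB : Dt (Delta G) B = 0 := eq_zero_of_evalL hDBd h1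
  rw [← hBe, mem_V]
  refine ⟨B, ?_, rfl⟩
  rw [deg_lt_iff (by omega)]
  by_contra hcon
  push Not at hcon
  have hB0 : B ≠ 0 := by
    rintro rfl
    simp at hcon
    omega
  exact coeff_Dt_lead hs1 hs hes hB0 hB hcon (by rw [hDB]; simp)

theorem inv_s1 {G : Subgroup (Equiv.Perm K)} (hτ : ∀ c : K, Equiv.addRight c ∈ G) {s : ℕ} (hs1 : 1 ≤ s)
    (hs : ∀ i, 1 ≤ i → i < s → eS (Delta G) i = 0) (hes : eS (Delta G) s ≠ 0) : Inv G (s + 1) := by
  intro g hg f hf
  have hp1 := one_lt_p (p := p)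
  obtain ⟨P, hP, rfl⟩ := mem_V.1 hf
  have hPd := (deg_lt_iff (by omega)).1 hP
  have hDP : (Dt (Delta G) P).natDegree = 0 := by
    rw [← Nat.le_zero, natDegree_le_iff_coeff_eq_zero]
    intro n hn
    exact coeff_Dt_eq_zero hs (by omega)
  have hC := eq_C_of_natDegree_eq_zero hDP
  set c := (Dt (Delta G) P).coeff 0 with hc
  obtain ⟨B, hB, hBe⟩ := exists_rep (fun x => evalL P (g x))
  have h1 : DF (Delta G) (evalL B) = evalL (C c) := by
    rw [hBe, DF_comp hτ hg, DF_evalL, hC]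
    funext x
    simp
  rw [DF_evalL] at h1
  have hDBd : (Dt (Delta G) B).natDegree < p := by
    refine lt_of_le_of_lt ?_ hB
    rw [natDegree_le_iff_coeff_eq_zero]
    intro n hn
    exact coeff_Dt_eq_zero hs (by omega)
  have hDB : Dt (Delta G) B = C c := eq_of_evalL hDBd (by simp; omega) h1
  rw [← hBe, mem_V]
  refine ⟨B, ?_, rfl⟩
  rw [deg_lt_iff (by omega)]
  by_contra hcon
  push Not at hcon
  have hB0 : B ≠ 0 := by
    rintro rfl
    simp at hcon
  apply coeff_Dt_lead hs1 hs hes hB0 hB (by omega)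
  rw [hDB, coeff_C]
  rw [if_neg (by omega)]

/-- **Burnside's dichotomy**, for groups of permutations of `ZMod p` containing the translations. -/
theorem main_zmod (G : Subgroup (Equiv.Perm K)) (hτ : ∀ c : K, Equiv.addRight c ∈ G) :
    (∀ σ ∈ G, ∃ a b : K, a ≠ 0 ∧ ∀ x, σ x = a * x + b) ∨ (∀ y : K, y ≠ 0 → ∃ g ∈ G, g 0 = 0 ∧ g 1 = y) := by
  classical
  by_cases hall : ∀ y : K, y ≠ 0 → y ∈ Delta G
  · right
    intro y hy
    exact mem_Delta.1 (hall y hy)
  · left
    push Not at hall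
    obtain ⟨y₀, hy0, hy⟩ := hall
    have h1 : (1 : K) ∈ Delta G := mem_Delta.2 ⟨1, G.one_mem, rfl, rfl⟩
    have h0 : (0 : K) ∉ Delta G := by
      intro hmem
      obtain ⟨g, _, hg0, hg1⟩ := mem_Delta.1 hmem
      exact zero_ne_one (g.injective (hg0.trans hg1.symm))
    have hex := exists_powerSum h1 h0 hy0 hy
    let s := Nat.find hex
    obtain ⟨hs1, hs2, hes⟩ := Nat.find_spec hex
    have hmin : ∀ i, 1 ≤ i → i < s → eS (Delta G) i = 0 := by
      intro i hi1 his
      have := Nat.find_min hex his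
      push Not at this
      exact this hi1 (by
        have : s + 2 ≤ p := hs2
        omega)
    have hI1 := inv_s hτ hs1 hmin hes
    have hI2 := inv_s1 hτ hs1 hmin hes
    have hI := inv_two_of_pair hs1 hs2 hI1 hI2
    intro σ hσ
    exact affine_of_inv_two hI σ hσ

end Cfsg.Agent.Lib.PrimeDeg
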