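import Mathlib
import Cfsg.Agent.Lib.H1FC
import Cfsg.Agent.Lib.H1Hall
import Cfsg.Agent.Lib.H1Cop
import Cfsg.Agent.S4214

/-! Solvable groups: among three primes dividing the order two are joined in the prime graph (seat helper2). -/

namespace Cfsg.Agent.Lib.PrimeGraph

universe u

/-- a nontrivial abelian normal subgroup of prime exponent -/
theorem exists_el {G : Type*} [Group G] [Finite G] (hG : Group.IsSolvable G) (hne : Nontrivial G) :
    ∃ (q : ℕ) (A : Subgroup G), q.Prime ∧ A.Normal ∧ A ≠ ⊥ ∧ IsPGroup q A ∧ (∀ a ∈ A, a ^ q = 1) ∧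
      IsMulCommutative A := by
  obtain ⟨q, K, hq, hKn, hKne, hKp, hKab⟩ := Cfsg.Agent.S4214.exists_normal_ab hG hne
  haveI : Fact q.Prime := ⟨hq⟩
  let A : Subgroup G :=
    { carrier := {a | a ∈ K ∧ a ^ q = 1}
      mul_mem' := by
        rintro a b ⟨ha, ha'⟩ ⟨hb, hb'⟩
        refine ⟨mul_mem ha hb, ?_⟩
        have hc : Commute a b := hKab a ha b hb
        rw [hc.mul_pow, ha', hb', one_mul]
      one_mem' := ⟨one_mem _, one_pow _⟩
      inv_mem' := by
        rintro a ⟨ha, ha'⟩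
        exact ⟨inv_mem ha, by rw [inv_pow, ha', inv_one]⟩ }
  refine ⟨q, A, hq, ⟨?_⟩, ?_, hKp.to_le (fun a ha => ha.1), fun a ha => ha.2, ⟨⟨?_⟩⟩⟩
  · rintro a ⟨ha, ha'⟩ g
    refine ⟨hKn.conj_mem a ha g, ?_⟩
    rw [conj_pow, ha']; group
  · intro hA
    haveI : Nontrivial K := (Subgroup.nontrivial_iff_ne_bot _).mpr hKne
    obtain ⟨t, ht⟩ := exists_ne (1 : K)
    have hqd : q ∣ Nat.card K := by
      obtain ⟨k, hk⟩ := IsPGroup.iff_card.mp hKp
      rw [hk]
      have : k ≠ 0 := by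
        rintro rfl
        rw [pow_zero] at hk
        have := (Nat.card_eq_one_iff_unique.mp hk).1
        exact ht (Subsingleton.elim _ _)
      exact dvd_pow_self q this
    obtain ⟨x, hx⟩ := exists_prime_orderOf_dvd_card' (G := K) q hqd
    have hx1 : (x : G) ^ q = 1 := by
      have : orderOf (x : G) = q := by rw [Subgroup.orderOf_coe, hx]
      rw [← this, pow_orderOf_eq_one]
    have hxA : (x : G) ∈ A := ⟨x.2, hx1⟩
    rw [hA, Subgroup.mem_bot] at hxA
    have : orderOf (x : G) = q := by rw [Subgroup.orderOf_coe, hx]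
    rw [hxA, orderOf_one] at this
    exact hq.one_lt.ne this
  · rintro ⟨a, ha⟩ ⟨b, hb⟩
    exact Subtype.ext (hKab a ha.1 b hb.1)

/-- the `{q,r}`-part of a number -/
theorem exists_part {n q r : ℕ} (hn : n ≠ 0) (hq : q.Prime) (hr : r.Prime) (hqr : q ≠ r) (hqd : q ∣ n) (hrd : r ∣ n) :
    ∃ b c m' : ℕ, 0 < b ∧ 0 < c ∧ n = q ^ b * r ^ c * m' ∧ (q ^ b * r ^ c).Coprime m' := by
  classical
  set b := n.factorization q with hb
  set n₁ := n / q ^ b with hn₁
  have h1 : q ^ b * n₁ = n := Nat.ordProj_mul_ordCompl_eq_self n q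
  have hn₁0 : n₁ ≠ 0 := by
    intro h
    rw [h, mul_zero] at h1
    exact hn h1.symm
  have hqn₁ : ¬ q ∣ n₁ := Nat.not_dvd_ordCompl hq hn
  have hb0 : 0 < b := hq.factorization_pos_of_dvd hn hqd
  have hrn₁ : r ∣ n₁ := by
    rw [← h1] at hrd
    rcases (Nat.Prime.dvd_mul hr).mp hrd with h | h
    · exact absurd ((Nat.prime_dvd_prime_iff_eq hr hq).mp (hr.dvd_of_dvd_pow h)) (Ne.symm hqr)
    · exact h
  set c := n₁.factorization r with hc
  set m' := n₁ / r ^ c with hm'
  have h2 : r ^ c * m' = n₁ := Nat.ordProj_mul_ordCompl_eq_self n₁ r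
  have hc0 : 0 < c := hr.factorization_pos_of_dvd hn₁0 hrn₁
  have hrm' : ¬ r ∣ m' := Nat.not_dvd_ordCompl hr hn₁0
  have hqm' : ¬ q ∣ m' := fun h => hqn₁ (by rw [← h2]; exact h.trans (dvd_mul_left _ _))
  refine ⟨b, c, m', hb0, hc0, ?_, ?_⟩
  · rw [mul_assoc, h2, h1]
  · apply Nat.Coprime.mul_left
    · exact Nat.Coprime.pow_left _ ((Nat.Prime.coprime_iff_not_dvd hq).mpr hqm')
    · exact Nat.Coprime.pow_left _ ((Nat.Prime.coprime_iff_not_dvd hr).mpr hrm')

theorem elem_of_cyclic {B : Type*} [Group B] [Finite B] (h : IsCyclic B) : ∃ g : B, orderOf g = Nat.card B := by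
  obtain ⟨g, hg⟩ := IsCyclic.exists_generator (α := B)
  exact ⟨g, orderOf_eq_card_of_forall_mem_zpowers hg⟩

/-- core case: a normal Sylow `p`-subgroup. -/
theorem core {G : Type u} [Group G] [Finite G] [Group.IsSolvable G] {p q r : ℕ} (hp : p.Prime) (hq : q.Prime) (hr : r.Prime)
    (hpq : p ≠ q) (hpr : p ≠ r) (hqr : q ≠ r) (hqd : q ∣ Nat.card G) (hrd : r ∣ Nat.card G)
    (A : Subgroup G) [hAn : A.Normal] (hAne : A ≠ ⊥) (hAq : ∀ a ∈ A, a ^ p = 1)
    (h1 : ∀ g : G, orderOf g ≠ p * q) (h2 : ∀ g : G, orderOf g ≠ p * r) (h3 : ∀ g : G, orderOf g ≠ q * r) : False := by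
  classical
  haveI : Fact p.Prime := ⟨hp⟩
  haveI : Fact q.Prime := ⟨hq⟩
  haveI : Fact r.Prime := ⟨hr⟩
  obtain ⟨b, c, m', hb, hc, hn, hcop⟩ := exists_part Nat.card_pos.ne' hq hr hqr hqd hrd
  obtain ⟨L, hL⟩ := Lib.H1Hall.hall_exists _ _ hn hcop
  have hLprimes : ∀ l : ℕ, l.Prime → l ∣ Nat.card L → l = q ∨ l = r := by
    intro l hl hld
    rw [hL] at hld
    rcases (Nat.Prime.dvd_mul hl).mp hld with h | h
    · exact Or.inl ((Nat.prime_dvd_prime_iff_eq hl hq).mp (hl.dvd_of_dvd_pow h))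
    · exact Or.inr ((Nat.prime_dvd_prime_iff_eq hl hr).mp (hl.dvd_of_dvd_pow h))
  have hqL : q ∣ Nat.card L := by
    rw [hL]; exact (dvd_pow_self q hb.ne').trans (dvd_mul_right _ _)
  have hrL : r ∣ Nat.card L := by
    rw [hL]; exact (dvd_pow_self r hc.ne').trans (dvd_mul_left _ _)
  have hfpf : ∀ x ∈ L, x ≠ 1 → A ⊓ Subgroup.centralizer {x} = ⊥ := by
    intro x hx hx1
    rw [eq_bot_iff]
    rintro v ⟨hvA, hvc⟩
    rw [Subgroup.mem_bot]
    by_contra hv1
    have hvo : orderOf v = p := orderOf_eq_prime (hAq v hvA) hv1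
    have hxo : orderOf x ≠ 1 := fun h => hx1 (orderOf_eq_one_iff.mp h)
    obtain ⟨l, hl, hld⟩ := Nat.exists_prime_and_dvd hxo
    set y := x ^ (orderOf x / l) with hy
    have hyo : orderOf y = l := orderOf_pow_orderOf_div (orderOf_pos x).ne' hld
    have hyL : y ∈ L := pow_mem hx _
    have hlL : l ∣ Nat.card L := by
      rw [← hyo]
      exact Subgroup.orderOf_dvd_natCard L hyL
    have hvx : Commute v x := by
      have hvc' : v ∈ Subgroup.centralizer {x} := hvc
      rw [Subgroup.mem_centralizer_singleton_iff] at hvc'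
      exact hvc'
    have hvy : Commute v y := hvx.pow_right _
    rcases hLprimes l hl hlL with rfl | rfl
    · have hco : (orderOf v).Coprime (orderOf y) := by
        rw [hvo, hyo]; exact (Nat.coprime_primes hp hl).mpr hpq
      exact h1 (v * y) (by rw [hvy.orderOf_mul_eq_mul_orderOf_of_coprime hco, hvo, hyo])
    · have hco : (orderOf v).Coprime (orderOf y) := by
        rw [hvo, hyo]; exact (Nat.coprime_primes hp hl).mpr hpr
      exact h2 (v * y) (by rw [hvy.orderOf_mul_eq_mul_orderOf_of_coprime hco, hvo, hyo])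
  have hnormA : ∀ X : Subgroup G, X ≤ Subgroup.normalizer (A : Set G) := by
    intro X
    rw [Subgroup.normalizer_eq_top_iff.mpr hAn]; exact le_top
  have hLnt : Nontrivial L := by
    apply Finite.one_lt_card_iff_nontrivial.mp
    have := Nat.le_of_dvd Nat.card_pos hqL
    have := hq.one_lt
    omega
  obtain ⟨l, N₀, hl, hN₀n, hN₀ne, hN₀p, hN₀e, hN₀ab⟩ := exists_el (G := L) inferInstance hLnt
  haveI : Fact l.Prime := ⟨hl⟩
  set N : Subgroup G := N₀.map L.subtype with hN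
  have hNL : N ≤ L := Subgroup.map_subtype_le _
  have hNab : IsMulCommutative N := by
    refine ⟨⟨?_⟩⟩
    rintro ⟨_, a, ha, rfl⟩ ⟨_, b, hb, rfl⟩
    apply Subtype.ext
    have := hN₀ab.is_comm.comm ⟨a, ha⟩ ⟨b, hb⟩
    exact congrArg (fun w : N₀ => ((w : L) : G)) this
  have hNc : IsCyclic N := Lib.H1FC.cyclic_of_fpf' hAne (hnormA N) (fun a ha ha1 => hfpf a (hNL ha) ha1)
    (inferInstance) (Or.inl hNab)
  have hNcard : Nat.card N₀ = Nat.card N :=
    Nat.card_congr (Subgroup.equivMapOfInjective _ _ L.subtype_injective).toEquiv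
  have hNne : N ≠ ⊥ := by
    intro h
    apply hN₀ne
    rw [← Subgroup.card_eq_one, hNcard, h, Subgroup.card_bot]
  have hNexp : ∀ a ∈ N, a ^ l = 1 := by
    rintro _ ⟨a, ha, rfl⟩
    have := hN₀e a ha
    simpa using congrArg (fun w : L => (w : G)) this
  -- N has order l
  have hNl : Nat.card N = l := by
    obtain ⟨g, hg⟩ := elem_of_cyclic hNc
    have hg1 : g ^ l = 1 := Subtype.ext (by simpa using hNexp g g.2)
    have hd : orderOf g ∣ l := orderOf_dvd_of_pow_eq_one hg1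
    rcases (Nat.dvd_prime hl).mp hd with h | h
    · exfalso
      rw [h] at hg
      exact hNne (Subgroup.card_eq_one.mp hg.symm)
    · rw [← hg, h]
  have hlL : l ∣ Nat.card L := by
    rw [← hNl]; exact Subgroup.card_dvd_of_le hNL
  -- the other prime
  obtain ⟨l', hl', hl'L, hll', hbad⟩ : ∃ l' : ℕ, l'.Prime ∧ l' ∣ Nat.card L ∧ l ≠ l' ∧ ∀ g : G, orderOf g ≠ l * l' := by
    rcases hLprimes l hl hlL with rfl | rfl
    · exact ⟨r, hr, hrL, hqr, h3⟩
    · refine ⟨q, hq, hqL, Ne.symm hqr, fun g => ?_⟩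
      rw [mul_comm]; exact h3 g
  haveI : Fact l'.Prime := ⟨hl'⟩
  obtain ⟨z₀, hz₀⟩ := exists_prime_orderOf_dvd_card' (G := L) l' hl'L
  set z : G := (z₀ : G) with hz
  have hzo : orderOf z = l' := by rw [hz, Subgroup.orderOf_coe, hz₀]
  have hzL : z ∈ L := z₀.2
  have hzN : Subgroup.zpowers z ≤ Subgroup.normalizer (N : Set G) := by
    rw [Subgroup.zpowers_le, Subgroup.mem_normalizer_iff]
    intro y
    constructor
    · rintro ⟨a, ha, rfl⟩
      exact ⟨z₀ * a * z₀⁻¹, hN₀n.conj_mem a ha z₀, rfl⟩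
    · rintro ⟨a, ha, hay⟩
      refine ⟨z₀⁻¹ * a * (z₀⁻¹)⁻¹, hN₀n.conj_mem a ha z₀⁻¹, ?_⟩
      have hay' : ((a : L) : G) = z * y * z⁻¹ := hay
      show ((z₀⁻¹ * a * (z₀⁻¹)⁻¹ : L) : G) = y
      simp only [Subgroup.coe_mul, Subgroup.coe_inv, inv_inv]
      rw [hay', ← hz]
      group
  have hcardz : Nat.card (Subgroup.zpowers z) = l' := by rw [Nat.card_zpowers, hzo]
  have hcopz : (Nat.card (Subgroup.zpowers z)).Coprime (Nat.card N) := by
    rw [hcardz, hNl]; exact (Nat.coprime_primes hl' hl).mpr (Ne.symm hll')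
  have hBcard := Lib.H1Cop.card_sup_of_coprime hzN hcopz
  set B : Subgroup G := N ⊔ Subgroup.zpowers z with hB
  have hBL : B ≤ L := sup_le hNL (Subgroup.zpowers_le.mpr hzL)
  have hLs : Group.IsSolvable L := inferInstance
  have hBs : Group.IsSolvable B := solvable_of_solvable_injective (Subgroup.inclusion_injective hBL)
  have hBc : IsCyclic B := Lib.H1FC.cyclic_of_fpf' hAne (hnormA B) (fun a ha ha1 => hfpf a (hBL ha) ha1) hBs
    (Or.inr ⟨l, l', hl, hl', by rw [hBcard, hNl, hcardz]⟩)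
  obtain ⟨g, hg⟩ := elem_of_cyclic hBc
  apply hbad (g : G)
  rw [Subgroup.orderOf_coe, hg, hBcard, hNl, hcardz]

/-- A lift of an element of composite order. -/
theorem lift_order {G : Type*} [Group G] [Finite G] (A : Subgroup G) [A.Normal] {n : ℕ} (y : G ⧸ A)
    (hy : orderOf y = n) : ∃ g : G, orderOf g = n := by
  obtain ⟨x, rfl⟩ := QuotientGroup.mk_surjective y
  have hd : n ∣ orderOf x := by
    rw [← hy]
    exact orderOf_map_dvd (QuotientGroup.mk' A) x
  exact ⟨_, orderOf_pow_orderOf_div (orderOf_pos x).ne' hd⟩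

theorem main_aux : ∀ (N : ℕ) (G : Type u) [Group G] [Finite G] [Group.IsSolvable G] (p q r : ℕ),
    Nat.card G = N → p.Prime → q.Prime → r.Prime → p ≠ q → p ≠ r → q ≠ r → p ∣ Nat.card G → q ∣ Nat.card G → r ∣ Nat.card G →
    (∀ g : G, orderOf g ≠ p * q) → (∀ g : G, orderOf g ≠ p * r) → (∀ g : G, orderOf g ≠ q * r) → False := by
  intro N
  induction N using Nat.strong_induction_on with
  | _ N ih =>
  intro G _ _ _ p q r hN hp hq hr hpq hpr hqr hpd hqd hrd h1 h2 h3
  have hnt : Nontrivial G := by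
    apply Finite.one_lt_card_iff_nontrivial.mp
    have := Nat.le_of_dvd Nat.card_pos hpd
    have := hp.one_lt
    omega
  obtain ⟨s, A, hs, hAn, hAne, hAp, hAe, -⟩ := exists_el (G := G) inferInstance hnt
  haveI := hAn
  haveI : Fact s.Prime := ⟨hs⟩
  have hsplit : Nat.card G = Nat.card (G ⧸ A) * Nat.card A := Subgroup.card_eq_card_quotient_mul_card_subgroup A
  have hdiv : ∀ t : ℕ, t.Prime → t ∣ Nat.card G → t ∣ Nat.card (G ⧸ A) ∨ t = s := by
    intro t ht htd
    rw [hsplit] at htd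
    rcases (Nat.Prime.dvd_mul ht).mp htd with h | h
    · exact Or.inl h
    · right
      obtain ⟨k, hk⟩ := IsPGroup.iff_card.mp hAp
      rw [hk] at h
      exact (Nat.prime_dvd_prime_iff_eq ht hs).mp (ht.dvd_of_dvd_pow h)
  by_cases hall : p ∣ Nat.card (G ⧸ A) ∧ q ∣ Nat.card (G ⧸ A) ∧ r ∣ Nat.card (G ⧸ A)
  · have hA1 : 1 < Nat.card A := by
      have h1 : Nat.card A ≠ 1 := fun h => hAne (Subgroup.card_eq_one.mp h)
      have h2 : 0 < Nat.card A := Nat.card_pos
      omega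
    have hlt : Nat.card (G ⧸ A) < N := by
      rw [← hN, hsplit]
      exact lt_mul_of_one_lt_right Nat.card_pos hA1
    refine ih _ hlt (G ⧸ A) p q r rfl hp hq hr hpq hpr hqr hall.1 hall.2.1 hall.2.2 ?_ ?_ ?_
    · intro y hy
      obtain ⟨g, hg⟩ := lift_order A y hy
      exact h1 g hg
    · intro y hy
      obtain ⟨g, hg⟩ := lift_order A y hy
      exact h2 g hg
    · intro y hy
      obtain ⟨g, hg⟩ := lift_order A y hy
      exact h3 g hg
  · by_cases hp' : p ∣ Nat.card (G ⧸ A)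
    · by_cases hq' : q ∣ Nat.card (G ⧸ A)
      · have hr' : ¬ r ∣ Nat.card (G ⧸ A) := fun h => hall ⟨hp', hq', h⟩
        have hrs : r = s := (hdiv r hr hrd).resolve_left hr'
        subst hrs
        refine core hr hp hq (Ne.symm hpr) (Ne.symm hqr) hpq hpd hqd A hAne hAe ?_ ?_ ?_
        · intro g; rw [mul_comm]; exact h2 g
        · intro g; rw [mul_comm]; exact h3 g
        · exact h1
      · have hqs : q = s := (hdiv q hq hqd).resolve_left hq'
        subst hqs
        refine core hq hp hr (Ne.symm hpq) hqr hpr hpd hrd A hAne hAe ?_ h3 h2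
        intro g; rw [mul_comm]; exact h1 g
    · have hps : p = s := (hdiv p hp hpd).resolve_left hp'
      subst hps
      exact core hp hq hr hpq hpr hqr hqd hrd A hAne hAe h1 h2 h3

/-- In a solvable group, among three distinct primes dividing the order two are joined. -/
theorem three_primes {G : Type u} [Group G] [Finite G] [Group.IsSolvable G] {p q r : ℕ} (hp : p.Prime) (hq : q.Prime) (hr : r.Prime)
    (hpq : p ≠ q) (hpr : p ≠ r) (hqr : q ≠ r) (hpd : p ∣ Nat.card G) (hqd : q ∣ Nat.card G) (hrd : r ∣ Nat.card G) :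
    (∃ g : G, orderOf g = p * q) ∨ (∃ g : G, orderOf g = p * r) ∨ (∃ g : G, orderOf g = q * r) := by
  by_contra hcon
  push Not at hcon
  exact main_aux _ G p q r rfl hp hq hr hpq hpr hqr hpd hqd hrd hcon.1 hcon.2.1 hcon.2.2

end Cfsg.Agent.Lib.PrimeGraph
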