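import Mathlib
import Cfsg.Agent.Lib.QdBasic
import Cfsg.Agent.Lib.FusSubModel

set_option autoImplicit false
set_option linter.unusedSectionVars false
set_option linter.unusedVariables false

/-!
A criterion for `Qd(p)` to be involved: a section of a normal `p`-subgroup which is a natural module.
-/

namespace Cfsg.Agent.Lib.QdBasic

open Cfsg Cfsg.Agent.Lib.FusSubModel

variable {p : ℕ} [Fact p.Prime]

/-- minus one -/
def mOne (p : ℕ) [Fact p.Prime] : SL2 p := ⟨!![-1, 0; 0, -1], by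
  rw [Matrix.det_fin_two]
  simp⟩

theorem act_mOne (v : Pl p) : act (mOne p) v = -v := by
  ext i
  fin_cases i <;> simp [act, mOne, Matrix.mulVec, dotProduct, Fin.sum_univ_two]

theorem mOne_sq : mOne p * mOne p = 1 := by
  apply eq_of_act_eq
  intro v
  rw [act_mul, act_mOne, act_mOne, act_one, neg_neg]

theorem mOne_comm (σ : SL2 p) : σ * mOne p = mOne p * σ := by
  apply eq_of_act_eq
  intro v
  rw [act_mul, act_mul, act_mOne, act_mOne, act_neg]

/-- the centre as a subgroup -/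
def Cn (p : ℕ) [Fact p.Prime] : Subgroup (SL2 p) where
  carrier := {σ | σ = 1 ∨ σ = mOne p}
  one_mem' := Or.inl rfl
  mul_mem' := by
    rintro a b (rfl | rfl) (rfl | rfl)
    · left; simp
    · right; simp
    · right; simp
    · left; exact mOne_sq
  inv_mem' := by
    rintro a (rfl | rfl)
    · left; simp
    · right
      exact inv_eq_of_mul_eq_one_left mOne_sq

instance : (Cn p).Normal := by
  refine ⟨?_⟩
  rintro a (rfl | rfl) g
  · left; simp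
  · right
    rw [mOne_comm]
    simp

theorem two_mul_eq_zero (hp : p ≠ 2) {a : Pl p} (h : a = -a) : a = 0 := by
  haveI : NeZero p := ⟨(Fact.out : p.Prime).ne_zero⟩
  have h2 : (2 : ZMod p) ≠ 0 := by
    intro e
    have h3 : ((2 : ℕ) : ZMod p) = 0 := by exact_mod_cast e
    rw [ZMod.natCast_eq_zero_iff] at h3
    have := (Nat.prime_dvd_prime_iff_eq Fact.out Nat.prime_two).1 h3
    exact hp this
  ext i
  have h1 := congrFun h i
  have h3 : (2 : ZMod p) * a i = 0 := by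
    have : a i = - a i := h1
    linear_combination this
  simpa using (mul_eq_zero.1 h3).resolve_left h2

theorem isP_zpowers {A : Type*} [Group A] {q : ℕ} [Fact q.Prime] {x : A} {k : ℕ} (h : x ^ q ^ k = 1) :
    IsPGroup q (Subgroup.zpowers x) := by
  rintro ⟨_, i, rfl⟩
  refine ⟨k, Subtype.ext ?_⟩
  show (x ^ i) ^ q ^ k = 1
  rw [← zpow_natCast, ← zpow_mul, mul_comm, zpow_mul, zpow_natCast, h, one_zpow]

/-- the criterion, in the form of a normal subgroup -/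
theorem qd_crit {Γ : Type*} [Group Γ] [Finite Γ] (hp : p ≠ 2) (X : Subgroup Γ) [hXn : X.Normal] (hX : IsPGroup p X)
    (ρ : Γ →* SL2 p) (hρ : Function.Surjective ρ) (ε : X →* Multiplicative (Pl p)) (hε : Function.Surjective ε)
    (heq : ∀ (g : Γ) (x : X), ε ⟨g * x * g⁻¹, hXn.conj_mem _ x.2 g⟩ = Multiplicative.ofAdd (act (ρ g) (Multiplicative.toAdd (ε x)))) :
    Involves (qd p) Γ := by
  classical
  -- `X` acts trivially
  have hρX : ∀ x : X, ρ x = 1 := by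
    intro x
    apply eq_of_act_eq
    intro v
    obtain ⟨y, hy⟩ := hε (Multiplicative.ofAdd v)
    have h1 := heq x y
    have h2 : (⟨(x : Γ) * y * (x : Γ)⁻¹, hXn.conj_mem _ y.2 x⟩ : X) = x * y * x⁻¹ := rfl
    rw [h2, map_mul, map_mul, map_inv, hy, mul_comm (ε x), mul_inv_cancel_right] at h1
    have h3 := congrArg Multiplicative.toAdd h1
    simp only [toAdd_ofAdd] at h3
    rw [act_one]
    exact h3.symm
  -- the element `t`
  obtain ⟨t₀, ht₀⟩ := hρ (mOne p)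
  obtain ⟨a, m, hm, ha⟩ := Nat.exists_eq_two_pow_mul_odd (n := orderOf t₀) (orderOf_pos t₀).ne'
  have hρt : ρ (t₀ ^ m) = mOne p := by
    rw [map_pow, ht₀]
    obtain ⟨k, rfl⟩ := hm
    rw [pow_succ, pow_mul, sq, mOne_sq, one_pow, one_mul]
  have ht2 : (t₀ ^ m) ^ 2 ^ a = 1 := by
    rw [← pow_mul, mul_comm, ← ha, pow_orderOf_eq_one]
  -- the normal subgroup
  haveI hN₂ : ((Cn p).comap ρ).Normal := Subgroup.Normal.comap inferInstance ρ
  have htN : t₀ ^ m ∈ (Cn p).comap ρ := Or.inr hρt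
  let t₁ : ↥((Cn p).comap ρ) := ⟨t₀ ^ m, htN⟩
  haveI : Fact (Nat.Prime 2) := ⟨Nat.prime_two⟩
  have ht₁2 : IsPGroup 2 (Subgroup.zpowers t₁) := by
    have h1 : t₁ ^ 2 ^ a = 1 := Subtype.ext ht2
    exact isP_zpowers h1
  obtain ⟨Y, hY⟩ := ht₁2.exists_le_sylow
  have htop := Y.normalizer_sup_eq_top
  let Y' : Subgroup Γ := (Y : Subgroup ↥((Cn p).comap ρ)).map ((Cn p).comap ρ).subtype
  have htY : t₀ ^ m ∈ Y' := ⟨t₁, hY (Subgroup.mem_zpowers _), rfl⟩
  have hY'p : IsPGroup 2 Y' := Y.isPGroup'.map _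
  have htH : t₀ ^ m ∈ Subgroup.normalizer (Y' : Set Γ) := Subgroup.le_normalizer htY
  have hρH : ∀ σ : SL2 p, ∃ h ∈ Subgroup.normalizer (Y' : Set Γ), ρ h = σ := by
    intro σ
    obtain ⟨g, rfl⟩ := hρ σ
    have hg : g ∈ ((Subgroup.normalizer (Y' : Set Γ) ⊔ (Cn p).comap ρ : Subgroup Γ) : Set Γ) := by
      have : Subgroup.normalizer (Y' : Set Γ) ⊔ (Cn p).comap ρ = ⊤ := htop
      rw [this]
      trivial
    rw [Subgroup.mul_normal] at hg
    obtain ⟨h, hh, n, hn, rfl⟩ := hg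
    rcases hn with hn1 | hn1
    · exact ⟨h, hh, by rw [map_mul, hn1, mul_one]⟩
    · exact ⟨h * t₀ ^ m, Subgroup.mul_mem _ hh htH, by rw [map_mul, map_mul, hn1, hρt]⟩
  -- the intersection
  have hHX : ∀ y : X, (y : Γ) ∈ Subgroup.normalizer (Y' : Set Γ) → ε y = 1 := by
    intro y hy
    have hc1 : (y : Γ) * t₀ ^ m * (y : Γ)⁻¹ * (t₀ ^ m)⁻¹ ∈ Y' :=
      Subgroup.mul_mem _ ((Subgroup.mem_normalizer_iff.1 hy _).1 htY) (Subgroup.inv_mem _ htY)
    have hc2 : (y : Γ) * t₀ ^ m * (y : Γ)⁻¹ * (t₀ ^ m)⁻¹ ∈ X := by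
      have e : (y : Γ) * t₀ ^ m * (y : Γ)⁻¹ * (t₀ ^ m)⁻¹ = (y : Γ) * (t₀ ^ m * (y : Γ)⁻¹ * (t₀ ^ m)⁻¹) := by group
      rw [e]
      exact X.mul_mem y.2 (hXn.conj_mem _ (X.inv_mem y.2) _)
    have hc : (y : Γ) * t₀ ^ m * (y : Γ)⁻¹ * (t₀ ^ m)⁻¹ = 1 := by
      obtain ⟨k, hk⟩ := hY'p ⟨_, hc1⟩
      obtain ⟨l, hl⟩ := hX ⟨_, hc2⟩
      have hk' := congrArg (fun z : Y' => (z : Γ)) hk
      have hl' := congrArg (fun z : X => (z : Γ)) hl
      simp only [SubgroupClass.coe_pow, OneMemClass.coe_one] at hk' hl'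
      have h3 := pow_gcd_eq_one.2 ⟨hk', hl'⟩
      have hco : Nat.Coprime (2 ^ k) (p ^ l) := Nat.Coprime.pow _ _ ((Nat.prime_two.coprime_iff_not_dvd).2 (fun h => hp ((Nat.prime_dvd_prime_iff_eq Nat.prime_two Fact.out).1 h).symm))
      rw [Nat.Coprime.gcd_eq_one hco, pow_one] at h3
      exact h3
    have hcomm : t₀ ^ m * (y : Γ) * (t₀ ^ m)⁻¹ = y := by
      have h4 : (y : Γ) * t₀ ^ m = t₀ ^ m * (y : Γ) := by
        have h5 : (y : Γ) * t₀ ^ m * (y : Γ)⁻¹ * (t₀ ^ m)⁻¹ * (t₀ ^ m * (y : Γ)) = 1 * (t₀ ^ m * (y : Γ)) := by rw [hc]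
        simpa [mul_assoc] using h5
      rw [← h4]
      simp
    have h1 := heq (t₀ ^ m) y
    have h2 : (⟨t₀ ^ m * (y : Γ) * (t₀ ^ m)⁻¹, hXn.conj_mem _ y.2 _⟩ : X) = y := Subtype.ext hcomm
    rw [h2, hρt, act_mOne] at h1
    have h3 : Multiplicative.toAdd (ε y) = - Multiplicative.toAdd (ε y) := by
      conv_lhs => rw [h1]
      rfl
    have h4 := two_mul_eq_zero hp h3
    exact Multiplicative.toAdd.injective h4
  -- the subgroup and the map
  have hdec : ∀ g : ↥(X ⊔ Subgroup.normalizer (Y' : Set Γ)), ∃ (x : X) (h : Subgroup.normalizer (Y' : Set Γ)), (x : Γ) * h = g := by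
    rintro ⟨g, hg⟩
    have hg' : g ∈ ((X ⊔ Subgroup.normalizer (Y' : Set Γ) : Subgroup Γ) : Set Γ) := hg
    rw [Subgroup.normal_mul] at hg'
    obtain ⟨x, hx, h, hh, e⟩ := hg'
    exact ⟨⟨x, hx⟩, ⟨h, hh⟩, e⟩
  choose xf hf he using hdec
  have hwd : ∀ (x x' : X) (h h' : Subgroup.normalizer (Y' : Set Γ)), (x : Γ) * h = x' * h' → ε x = ε x' := by
    intro x x' h h' e
    have h1 : ((x'⁻¹ * x : X) : Γ) = (h' : Γ) * (h : Γ)⁻¹ := by
      show (x' : Γ)⁻¹ * x = _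
      have e2 : (x : Γ) = (x' : Γ) * h' * (h : Γ)⁻¹ := by
        rw [← e]
        group
      rw [e2]
      group
    have h2 := hHX (x'⁻¹ * x) (by
      rw [h1]
      exact Subgroup.mul_mem _ h'.2 (Subgroup.inv_mem _ h.2))
    rw [map_mul, map_inv, inv_mul_eq_one] at h2
    exact h2.symm
  have hρe : ∀ (x : X) (h : Subgroup.normalizer (Y' : Set Γ)), ρ ((x : Γ) * h) = ρ h := by
    intro x h
    rw [map_mul, hρX x, one_mul]
  let f : ↥(X ⊔ Subgroup.normalizer (Y' : Set Γ)) → qd p := fun g => mk (ρ g) (Multiplicative.toAdd (ε (xf g)))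
  have hfmul : ∀ a b, f (a * b) = f a * f b := by
    intro g g'
    show mk _ _ = mk _ _ * mk _ _
    rw [mk_mul]
    have hg := he g
    have hg' := he g'
    have hmulg : ρ ((g * g' : ↥(X ⊔ Subgroup.normalizer (Y' : Set Γ))) : Γ) = ρ g * ρ g' := by
      show ρ ((g : Γ) * g') = _
      rw [map_mul]
    rw [hmulg]
    congr 1
    -- the decomposition of the product
    let x₂ : X := xf g * ⟨(hf g : Γ) * xf g' * (hf g : Γ)⁻¹, hXn.conj_mem _ (xf g').2 _⟩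
    let h₂ : Subgroup.normalizer (Y' : Set Γ) := hf g * hf g'
    have e1 : (xf (g * g') : Γ) * hf (g * g') = (x₂ : Γ) * h₂ := by
      rw [he (g * g')]
      show (g : Γ) * g' = ((xf g : Γ) * ((hf g : Γ) * xf g' * (hf g : Γ)⁻¹)) * ((hf g : Γ) * hf g')
      rw [← hg, ← hg']
      group
    rw [hwd _ _ _ _ e1]
    have e2 : ε x₂ = ε (xf g) * ε ⟨(hf g : Γ) * xf g' * (hf g : Γ)⁻¹, hXn.conj_mem _ (xf g').2 _⟩ := map_mul _ _ _
    rw [e2, heq]
    have hρg : ρ (g : Γ) = ρ (hf g : Γ) := by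
      rw [← hg, hρe]
    rw [hρg]
    rfl
  refine involves_iff.2 ⟨_, MonoidHom.mk' f hfmul, ?_⟩
  intro M
  obtain ⟨σ, v, rfl⟩ := exists_mk M
  obtain ⟨h, hh, rfl⟩ := hρH σ
  obtain ⟨x, hx⟩ := hε (Multiplicative.ofAdd v)
  let g : ↥(X ⊔ Subgroup.normalizer (Y' : Set Γ)) := ⟨(x : Γ) * h, Subgroup.mul_mem _ ((le_sup_left : X ≤ _) x.2) ((le_sup_right : Subgroup.normalizer (Y' : Set Γ) ≤ _) hh)⟩
  refine ⟨g, ?_⟩
  show mk (ρ g) (Multiplicative.toAdd (ε (xf g))) = _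
  have e1 : ρ (g : Γ) = ρ h := hρe x ⟨h, hh⟩
  have e2 : ε (xf g) = ε x := hwd _ _ _ ⟨h, hh⟩ (he g)
  rw [e1, e2, hx]
  rfl

end Cfsg.Agent.Lib.QdBasic
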