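import Mathlib
import Cfsg.Agent.Lib.QdCrit
import Cfsg.Agent.Lib.FusGroup

set_option autoImplicit false
set_option linter.unusedSectionVars false
set_option linter.unusedVariables false

/-!
The criterion for subgroups, and local sections.
-/

namespace Cfsg.Agent.Lib.QdBasic

open Cfsg Cfsg.Agent.Lib.FusSubModel

variable {p : ℕ} [Fact p.Prime]

theorem eq_of_act_surj {X : Type*} [Group X] {ε : X →* Multiplicative (Pl p)} (hε : Function.Surjective ε) {σ τ : SL2 p}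
    (h : ∀ x : X, act σ (Multiplicative.toAdd (ε x)) = act τ (Multiplicative.toAdd (ε x))) : σ = τ := by
  apply eq_of_act_eq
  intro v
  obtain ⟨x, hx⟩ := hε (Multiplicative.ofAdd v)
  have := h x
  rw [hx] at this
  exact this

/-- the criterion for a subgroup -/
theorem qd_crit_sub {L : Type*} [Group L] [Finite L] (hp : p ≠ 2) (X : Subgroup L) (hX : IsPGroup p X)
    (ε : X →* Multiplicative (Pl p)) (hε : Function.Surjective ε)
    (hS : ∀ σ : SL2 p, ∃ (g : L) (hg : ∀ x : X, g * x * g⁻¹ ∈ X), ∀ x : X,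
      ε ⟨g * x * g⁻¹, hg x⟩ = Multiplicative.ofAdd (act σ (Multiplicative.toAdd (ε x)))) :
    Involves (qd p) L := by
  classical
  have hnorm : ∀ (g : L), (∀ x : X, g * x * g⁻¹ ∈ X) → g ∈ Subgroup.normalizer (X : Set L) := by
    intro g hg
    exact Cfsg.Agent.Lib.FusSat.mem_normalizer_of_conj_le' (fun x hx => hg ⟨x, hx⟩)
  let Γ : Subgroup L :=
    { carrier := {g | ∃ (hg : g ∈ Subgroup.normalizer (X : Set L)) (σ : SL2 p), ∀ x : X,
        ε ⟨g * x * g⁻¹, (Subgroup.mem_normalizer_iff.1 hg x).1 x.2⟩ = Multiplicative.ofAdd (act σ (Multiplicative.toAdd (ε x)))}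
      one_mem' := by
        refine ⟨Subgroup.one_mem _, 1, fun x => ?_⟩
        rw [act_one]
        simp
      mul_mem' := by
        rintro a b ⟨ha, σ, hσ⟩ ⟨hb, τ, hτ⟩
        refine ⟨Subgroup.mul_mem _ ha hb, σ * τ, fun x => ?_⟩
        have h1 := hτ x
        have h2 := hσ ⟨b * x * b⁻¹, (Subgroup.mem_normalizer_iff.1 hb x).1 x.2⟩
        rw [h1] at h2
        rw [act_mul]
        refine (congrArg ε (Subtype.ext ?_)).trans h2
        show a * b * x * (a * b)⁻¹ = a * (b * x * b⁻¹) * a⁻¹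
        group
      inv_mem' := by
        rintro a ⟨ha, σ, hσ⟩
        refine ⟨Subgroup.inv_mem _ ha, σ⁻¹, fun x => ?_⟩
        have hy : a⁻¹ * x * a⁻¹⁻¹ ∈ X := (Subgroup.mem_normalizer_iff.1 (Subgroup.inv_mem _ ha) x).1 x.2
        have h1 := hσ ⟨_, hy⟩
        have h2 : (⟨a * ((⟨_, hy⟩ : X) : L) * a⁻¹, (Subgroup.mem_normalizer_iff.1 ha _).1 hy⟩ : X) = x := by
          apply Subtype.ext
          show a * (a⁻¹ * x * a⁻¹⁻¹) * a⁻¹ = x
          group
        rw [h2] at h1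
        have h3 : Multiplicative.toAdd (ε x) = act σ (Multiplicative.toAdd (ε ⟨_, hy⟩)) := congrArg Multiplicative.toAdd h1
        rw [h3, act_inv_act]
        rfl }
  have hXΓ : X ≤ Γ := by
    intro x hx
    refine ⟨Subgroup.le_normalizer hx, 1, fun y => ?_⟩
    rw [act_one]
    have e : (⟨x * y * x⁻¹, (Subgroup.mem_normalizer_iff.1 (Subgroup.le_normalizer hx) y).1 y.2⟩ : X) = ⟨x, hx⟩ * y * ⟨x, hx⟩⁻¹ := rfl
    rw [e, map_mul, map_mul, map_inv, mul_comm (ε ⟨x, hx⟩), mul_inv_cancel_right]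
    rfl
  choose σf hσf using (fun g : Γ => g.2.2)
  have hσu : ∀ (g : Γ) (τ : SL2 p), (∀ x : X, ε ⟨(g : L) * x * (g : L)⁻¹, (Subgroup.mem_normalizer_iff.1 g.2.1 x).1 x.2⟩ = Multiplicative.ofAdd (act τ (Multiplicative.toAdd (ε x)))) → σf g = τ := by
    intro g τ h
    apply eq_of_act_surj hε
    intro x
    have h1 := hσf g x
    have h2 := h x
    rw [h1] at h2
    exact congrArg Multiplicative.toAdd h2
  let ρ : Γ →* SL2 p := MonoidHom.mk' σf (by
    intro a b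
    apply hσu
    intro x
    have h1 := hσf b x
    have h2 := hσf a ⟨(b : L) * x * (b : L)⁻¹, (Subgroup.mem_normalizer_iff.1 b.2.1 x).1 x.2⟩
    rw [h1] at h2
    rw [act_mul]
    refine (congrArg ε (Subtype.ext ?_)).trans h2
    show (a : L) * b * x * ((a : L) * b)⁻¹ = a * (b * x * (b : L)⁻¹) * (a : L)⁻¹
    group)
  have hρs : Function.Surjective ρ := by
    intro σ
    obtain ⟨g, hg, he⟩ := hS σ
    have hgn := hnorm g hg
    have hgΓ : g ∈ Γ := ⟨hgn, σ, he⟩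
    exact ⟨⟨g, hgΓ⟩, hσu ⟨g, hgΓ⟩ σ he⟩
  let X' : Subgroup Γ := X.subgroupOf Γ
  haveI hX'n : X'.Normal := by
    refine ⟨fun x hx g => ?_⟩
    exact (Subgroup.mem_normalizer_iff.1 g.2.1 _).1 hx
  have hX'p : IsPGroup p X' := hX.comap_of_injective Γ.subtype Γ.subtype_injective
  let ε' : X' →* Multiplicative (Pl p) := ε.comp (MonoidHom.mk' (fun x : X' => (⟨x.1.1, x.2⟩ : X)) (fun a b => rfl))
  have hε' : Function.Surjective ε' := by
    intro w
    obtain ⟨x, rfl⟩ := hε w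
    exact ⟨⟨⟨x, hXΓ x.2⟩, x.2⟩, rfl⟩
  refine involves_of_injective Γ.subtype Γ.subtype_injective (qd_crit hp X' hX'p ρ hρs ε' hε' (fun g x => ?_))
  exact hσf g ⟨x.1.1, x.2⟩

/-- the local action -/
def QdAct {G : Type*} [Group G] (p : ℕ) [Fact p.Prime] (U : Subgroup G) : Prop :=
  ∃ (X : Subgroup G) (_ : X ≤ U) (ε : X →* Multiplicative (Pl p)), Function.Surjective ε ∧
    ∀ σ : SL2 p, ∃ g ∈ Subgroup.normalizer (U : Set G), ∃ (hg : ∀ x : X, g * x * g⁻¹ ∈ X), ∀ x : X,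
      ε ⟨g * x * g⁻¹, hg x⟩ = Multiplicative.ofAdd (act σ (Multiplicative.toAdd (ε x)))

theorem qdAct_map {G G' : Type*} [Group G] [Group G'] (f : G →* G') (hf : Function.Injective f) {U : Subgroup G}
    (h : QdAct p U) : QdAct p (U.map f) := by
  obtain ⟨X, hXU, ε, hε, hS⟩ := h
  let e : X ≃* X.map f := X.equivMapOfInjective f hf
  refine ⟨X.map f, Subgroup.map_mono hXU, ε.comp e.symm.toMonoidHom, hε.comp e.symm.surjective, fun σ => ?_⟩
  obtain ⟨g, hgn, hg, he⟩ := hS σ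
  have hconj : ∀ x : X.map f, f g * x * (f g)⁻¹ ∈ X.map f := by
    rintro ⟨_, x, hx, rfl⟩
    refine ⟨_, hg ⟨x, hx⟩, ?_⟩
    rw [map_mul, map_mul, map_inv]
  refine ⟨f g, Subgroup.le_normalizer_map f ⟨g, hgn, rfl⟩, hconj, fun x => ?_⟩
  obtain ⟨y, rfl⟩ := e.surjective x
  have h1 : (⟨f g * (e y : G') * (f g)⁻¹, hconj (e y)⟩ : X.map f) = e ⟨g * y * g⁻¹, hg y⟩ := by
    apply Subtype.ext
    show f g * f y * (f g)⁻¹ = f (g * y * g⁻¹)
    rw [map_mul, map_mul, map_inv]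
  rw [h1]
  show ε (e.symm (e _)) = _
  rw [e.symm_apply_apply, he]
  show _ = Multiplicative.ofAdd (act σ (Multiplicative.toAdd (ε (e.symm (e y)))))
  rw [e.symm_apply_apply]

end Cfsg.Agent.Lib.QdBasic
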