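import Mathlib
import Cfsg.Agent.Lib.QdLocal
import Cfsg.Agent.Lib.FusGT5
import Cfsg.Agent.Lib.FusFree

set_option autoImplicit false
set_option linter.unusedSectionVars false
set_option linter.unusedVariables false

/-!
If the group involves `Qd(p)`, so do local sections.
-/

namespace Cfsg.Agent.Lib.QdBasic

open Cfsg Cfsg.FusionSystem Cfsg.Agent.Lib.FusSubModel Cfsg.Agent.Lib.FusBasic Cfsg.Agent.Lib.FusSat
  Cfsg.Agent.Lib.FusGroup Cfsg.Agent.Lib.SylowTools Cfsg.Agent.Lib.FusAut Cfsg.Agent.Lib.FusReal Cfsg.Agent.Lib.FusReal2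
  Cfsg.Agent.Lib.FusKNorm Cfsg.Agent.Lib.FusFree

universe u

variable {p : ℕ} [Fact p.Prime]

theorem isP_plane : IsPGroup p (Multiplicative (Pl p)) := by
  intro a
  refine ⟨1, ?_⟩
  apply Multiplicative.toAdd.injective
  ext i
  have h : ((p : ℕ) : ZMod p) = 0 := ZMod.natCast_self p
  show (((p ^ 1) • (Multiplicative.toAdd a)) i) = 0
  simp [h]

/-- translations -/
def Etr (p : ℕ) [Fact p.Prime] : Subgroup (qd p) where
  carrier := {M | ∃ v, M = mk 1 v}
  one_mem' := ⟨0, mk_one.symm⟩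
  mul_mem' := by
    rintro a b ⟨v, rfl⟩ ⟨w, rfl⟩
    exact ⟨v + w, by rw [mk_mul, mul_one, act_one]⟩
  inv_mem' := by
    rintro a ⟨v, rfl⟩
    exact ⟨-act 1⁻¹ v, by rw [mk_inv, inv_one]⟩

instance : (Etr p).Normal := by
  refine ⟨?_⟩
  rintro a ⟨v, rfl⟩ g
  obtain ⟨σ, w, rfl⟩ := exists_mk g
  exact ⟨_, mk_conj σ w v⟩

/-- local sections from a section -/
theorem step1' {A : Type*} [Group A] [Finite A] (π : A →* qd p) (hπ : Function.Surjective π) :
    ∃ U : Subgroup A, IsPGroup p U ∧ QdAct p U := by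
  classical
  haveI hE₀n : ((Etr p).comap π).Normal := Subgroup.Normal.comap inferInstance π
  have hv : ∀ x : ↥((Etr p).comap π), ∃ v, π x = mk 1 v := fun x => x.2
  choose v hv using hv
  have hvmul : ∀ a b, v (a * b) = v a + v b := by
    intro a b
    have h1 := hv (a * b)
    have h2 : π ((a * b : ↥((Etr p).comap π)) : A) = π a * π b := map_mul _ _ _
    rw [h2, hv a, hv b, mk_mul, mul_one, act_one] at h1
    exact (mk_inj h1).2.symm
  let r : ↥((Etr p).comap π) →* Multiplicative (Pl p) :=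
    MonoidHom.mk' (fun x => Multiplicative.ofAdd (v x)) (fun a b => by rw [hvmul]; rfl)
  have hr : Function.Surjective r := by
    intro w
    obtain ⟨a, ha⟩ := hπ (mk 1 (Multiplicative.toAdd w))
    have haE : a ∈ (Etr p).comap π := ⟨_, ha⟩
    refine ⟨⟨a, haE⟩, ?_⟩
    have h1 := hv ⟨a, haE⟩
    rw [show π ((⟨a, haE⟩ : ↥((Etr p).comap π)) : A) = π a from rfl, ha] at h1
    have h2 := (mk_inj h1).2
    show Multiplicative.ofAdd (v ⟨a, haE⟩) = w
    rw [← h2]
    rfl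
  let T : Sylow p ↥((Etr p).comap π) := default
  have hTr : ((T : Subgroup _).map r) = ⊤ := by
    have h1 := (T.mapSurjective hr).is_maximal' (isP_plane.to_subgroup ⊤) le_top
    rw [Sylow.coe_mapSurjective] at h1
    exact h1.symm
  let U : Subgroup A := (T : Subgroup ↥((Etr p).comap π)).map ((Etr p).comap π).subtype
  have hUE : U ≤ (Etr p).comap π := by
    rintro _ ⟨x, -, rfl⟩
    exact x.2
  refine ⟨U, T.isPGroup'.map _, U, le_rfl, r.comp (Subgroup.inclusion hUE), ?_, fun σ => ?_⟩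
  · intro w
    have h1 : w ∈ (T : Subgroup _).map r := by
      rw [hTr]
      trivial
    obtain ⟨x, hx, rfl⟩ := h1
    exact ⟨⟨x, ⟨x, hx, rfl⟩⟩, rfl⟩
  · obtain ⟨k, hk⟩ := hπ (mk σ 0)
    have htop := T.normalizer_sup_eq_top
    have hk' : k ∈ ((Subgroup.normalizer (U : Set A) ⊔ (Etr p).comap π : Subgroup A) : Set A) := by
      have : Subgroup.normalizer (U : Set A) ⊔ (Etr p).comap π = ⊤ := htop
      rw [this]
      trivial
    rw [Subgroup.mul_normal] at hk'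
    obtain ⟨n, hn, e₀, he₀, rfl⟩ := hk'
    obtain ⟨τ, w, hτ⟩ := exists_mk (π n)
    obtain ⟨w₀, hw₀⟩ := he₀
    have hτσ : τ = σ := by
      rw [map_mul, hτ, hw₀, mk_mul, mul_one] at hk
      exact (mk_inj hk).1
    subst hτσ
    have hg : ∀ x : U, n * x * n⁻¹ ∈ U := fun x => (Subgroup.mem_normalizer_iff.1 hn x).1 x.2
    refine ⟨n, hn, hg, fun x => ?_⟩
    have h1 := hv ⟨_, hUE (hg x)⟩
    have h2 := hv ⟨x, hUE x.2⟩
    have h3 : π (n * x * n⁻¹) = mk 1 (act τ (v ⟨x, hUE x.2⟩)) := by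
      rw [map_mul, map_mul, map_inv, hτ, ← mk_conj τ w]
      congr 2
    have h4 : π ((⟨_, hUE (hg x)⟩ : ↥((Etr p).comap π)) : A) = π (n * x * n⁻¹) := rfl
    rw [h4, h3] at h1
    have h5 := (mk_inj h1).2
    show Multiplicative.ofAdd (v ⟨_, hUE (hg x)⟩) = Multiplicative.ofAdd (act τ (v ⟨x, hUE x.2⟩))
    rw [← h5]

theorem step1 {G : Type*} [Group G] [Finite G] (h : Involves (qd p) G) : ∃ U : Subgroup G, IsPGroup p U ∧ QdAct p U := by
  obtain ⟨K, π, hπ⟩ := involves_iff.1 h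
  obtain ⟨U, hU, hU'⟩ := step1' π hπ
  exact ⟨U.map K.subtype, hU.map _, qdAct_map _ K.subtype_injective hU'⟩

/-- going up to the centralizer -/
theorem step_up {G : Type*} [Group G] [Finite G] {Q : Subgroup G} (hQ : QdAct p Q) (Z : Subgroup G)
    (hZ : IsSylowSub p Z (Subgroup.centralizer (Q : Set G))) (hZle : Z ≤ Subgroup.centralizer (Q : Set G)) :
    QdAct p (Q ⊔ Z) := by
  obtain ⟨X, hXQ, ε, hε, hS⟩ := hQ
  refine ⟨X, hXQ.trans le_sup_left, ε, hε, fun σ => ?_⟩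
  obtain ⟨g, hgn, hg, he⟩ := hS σ
  have hgc : ∀ l ∈ Subgroup.centralizer (Q : Set G), g * l * g⁻¹ ∈ Subgroup.centralizer (Q : Set G) := by
    intro l hl
    refine Subgroup.mem_centralizer_iff.2 fun y hy => ?_
    have h1 : g⁻¹ * y * g⁻¹⁻¹ ∈ Q := (Subgroup.mem_normalizer_iff.1 (Subgroup.inv_mem _ hgn) y).1 hy
    have h2 := Subgroup.mem_centralizer_iff.1 hl _ h1
    have h3 : y * (g * l * g⁻¹) = g * ((g⁻¹ * y * g⁻¹⁻¹) * l) * g⁻¹ := by group
    have h4 : (g * l * g⁻¹) * y = g * (l * (g⁻¹ * y * g⁻¹⁻¹)) * g⁻¹ := by group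
    rw [h3, h4, h2]
  have hZp : IsPGroup p Z := hZ.isPGroup hZle
  have hA : Z.map (MulAut.conj g).toMonoidHom ≤ Subgroup.centralizer (Q : Set G) := by
    rintro _ ⟨z, hz, rfl⟩
    exact hgc z (hZle hz)
  obtain ⟨d, hd, hle⟩ := hZ.exists_conj hA (hZp.map _)
  have hdg : ∀ z ∈ Z, (d * g) * z * (d * g)⁻¹ ∈ Z := by
    intro z hz
    have h1 : d * (g * z * g⁻¹) * d⁻¹ ∈ Z := hle ⟨_, ⟨z, hz, rfl⟩, rfl⟩
    have e : (d * g) * z * (d * g)⁻¹ = d * (g * z * g⁻¹) * d⁻¹ := by group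
    rw [e]
    exact h1
  have hdQ : ∀ q ∈ Q, (d * g) * q * (d * g)⁻¹ = g * q * g⁻¹ := by
    intro q hq
    have h1 : g * q * g⁻¹ ∈ Q := (Subgroup.mem_normalizer_iff.1 hgn q).1 hq
    have h2 := Subgroup.mem_centralizer_iff.1 hd _ h1
    have e : (d * g) * q * (d * g)⁻¹ = d * (g * q * g⁻¹) * d⁻¹ := by group
    rw [e, ← h2]
    group
  have hnorm : d * g ∈ Subgroup.normalizer ((Q ⊔ Z : Subgroup G) : Set G) := by
    refine mem_normalizer_of_conj_le' fun y hy => ?_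
    let K : Subgroup G := (Q ⊔ Z).comap (MulAut.conj (d * g)).toMonoidHom
    have hle2 : Q ⊔ Z ≤ K := by
      apply sup_le
      · intro q hq
        show (d * g) * q * (d * g)⁻¹ ∈ Q ⊔ Z
        rw [hdQ q hq]
        exact (le_sup_left : Q ≤ Q ⊔ Z) ((Subgroup.mem_normalizer_iff.1 hgn q).1 hq)
      · intro z hz
        show (d * g) * z * (d * g)⁻¹ ∈ Q ⊔ Z
        exact (le_sup_right : Z ≤ Q ⊔ Z) (hdg z hz)
    exact hle2 hy
  have hconj : ∀ x : X, (d * g) * x * (d * g)⁻¹ ∈ X := by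
    intro x
    rw [hdQ x (hXQ x.2)]
    exact hg x
  refine ⟨d * g, hnorm, hconj, fun x => ?_⟩
  rw [← he x]
  congr 1
  exact Subtype.ext (hdQ x (hXQ x.2))

/-- a centric fully normalized subgroup with a natural section -/
theorem exists_centric {G : Type u} [Group G] [Finite G] (A : Sylow p G) (h : Involves (qd p) G) :
    ∃ Q, (groupFusionSystem (A : Subgroup G)).IsFullyNormalized Q ∧ (groupFusionSystem (A : Subgroup G)).IsCentric Q ∧ QdAct p Q := by
  classical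
  obtain ⟨U₁, hU₁p, hU₁⟩ := step1 h
  obtain ⟨U₀, ⟨hU₀p, hU₀⟩, hmax⟩ := Set.exists_max_image {U : Subgroup G | IsPGroup p U ∧ QdAct p U} (fun U => Nat.card U)
    (Set.toFinite _) ⟨U₁, hU₁p, hU₁⟩
  have hconjAct : ∀ (V : Subgroup G) (g : G), QdAct p V → QdAct p (V.map (MulAut.conj g).toMonoidHom) := fun V g hV =>
    qdAct_map _ (MulAut.conj g).injective hV
  have hconjP : ∀ (V : Subgroup G) (g : G), IsPGroup p V → IsPGroup p (V.map (MulAut.conj g).toMonoidHom) := fun V g hV => hV.map _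
  obtain ⟨a, ha⟩ := exists_conj_le_sylow A hU₀p
  obtain ⟨Q, hconj, hQ⟩ := exists_fullyNormalized_conj (groupFusionSystem (A : Subgroup G)) ha
  obtain ⟨b, hb, hQA⟩ := isConj_elim hconj
  have hQact : QdAct p Q := by
    rw [← hb]
    exact hconjAct _ _ (hconjAct _ _ hU₀)
  have hmaxall : ∀ (V : Subgroup G), IsPGroup p V → QdAct p V → Nat.card V ≤ Nat.card U₀ := fun V hV hV' => hmax V ⟨hV, hV'⟩
  have hQc : Nat.card Q = Nat.card U₀ := by
    rw [← hb, card_map_conj, card_map_conj]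
  have hQp : IsPGroup p Q := by
    rw [← hb]
    exact hconjP _ _ (hconjP _ _ hU₀p)
  refine ⟨Q, hQ, ⟨hQ.1, fun Q' hQ' => ?_⟩, hQact⟩
  obtain ⟨d, hd, hQ'A⟩ := isConj_elim hQ'
  have hQ'act : QdAct p Q' := by
    rw [← hd]
    exact hconjAct _ _ hQact
  have hQ'p : IsPGroup p Q' := by
    rw [← hd]
    exact hconjP _ _ hQp
  have hQ'c : Nat.card Q' = Nat.card U₀ := by
    rw [← hd, card_map_conj, hQc]
  intro c hc
  by_contra hcQ
  -- a Sylow subgroup of the centralizer containing `c`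
  have hcC : c ∈ Subgroup.centralizer (Q' : Set G) := hc.2
  have hcp : IsPGroup p (Subgroup.zpowers (⟨c, hcC⟩ : ↥(Subgroup.centralizer (Q' : Set G)))) := by
    obtain ⟨k, hk⟩ := A.isPGroup' ⟨c, hc.1⟩
    have hk' : (⟨c, hcC⟩ : ↥(Subgroup.centralizer (Q' : Set G))) ^ p ^ k = 1 := by
      apply Subtype.ext
      have := congrArg (fun z : (A : Subgroup G) => (z : G)) hk
      simpa using this
    exact isP_zpowers hk'
  obtain ⟨R, hR⟩ := hcp.exists_le_sylow
  let Z : Subgroup G := (R : Subgroup ↥(Subgroup.centralizer (Q' : Set G))).map (Subgroup.centralizer (Q' : Set G)).subtype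
  have hZle : Z ≤ Subgroup.centralizer (Q' : Set G) := by
    rintro _ ⟨x, -, rfl⟩
    exact x.2
  have hZS : IsSylowSub p Z (Subgroup.centralizer (Q' : Set G)) := by
    refine ⟨R, ?_⟩
    ext x
    constructor
    · intro hx
      exact ⟨x, hx, rfl⟩
    · rintro ⟨y, hy, e⟩
      have : y = x := Subtype.ext e
      rwa [← this]
  have hcZ : c ∈ Z := ⟨⟨c, hcC⟩, hR (Subgroup.mem_zpowers _), rfl⟩
  have hup := step_up hQ'act Z hZS hZle
  have hZp : IsPGroup p Z := R.isPGroup'.map _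
  have hsupp : IsPGroup p ↥(Q' ⊔ Z) := by
    refine IsPGroup.to_sup_of_normal_left' hQ'p hZp ?_
    exact hZle.trans (fun l hl => by
      refine mem_normalizer_of_conj_le' fun y hy => ?_
      have := Subgroup.mem_centralizer_iff.1 hl y hy
      rw [← this]
      simpa using hy)
  have hcard := hmaxall _ hsupp hup
  rw [← hQ'c] at hcard
  have heq := Subgroup.eq_of_le_of_card_ge (le_sup_left : Q' ≤ Q' ⊔ Z) hcard
  exact hcQ (heq.ge ((le_sup_right : Z ≤ Q' ⊔ Z) hcZ))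

end Cfsg.Agent.Lib.QdBasic
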