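import Mathlib

set_option autoImplicit false

namespace Cfsg.Agent.Lib.Rank1

open Matrix

variable {F : Type*} [Field F] {ι : Type} [Fintype ι] [DecidableEq ι]

/-- A rank one matrix is a `vecMulVec`. -/
theorem exists_vecMulVec {N : Matrix ι ι F} (h : N.rank = 1) :
    ∃ (u φ : ι → F), u ≠ 0 ∧ φ ≠ 0 ∧ N = vecMulVec u φ := by
  classical
  have hN0 : N ≠ 0 := by
    rintro rfl
    rw [Matrix.rank_zero] at h
    exact zero_ne_one h
  rw [Matrix.rank] at h
  obtain ⟨u, hu0, hu⟩ := finrank_eq_one_iff'.mp h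
  have hcol : ∀ j : ι, ∃ c : F, c • (u : ι → F) = N *ᵥ (Pi.single j 1) := by
    intro j
    obtain ⟨c, hc⟩ := hu ⟨N *ᵥ Pi.single j 1, ⟨Pi.single j 1, rfl⟩⟩
    exact ⟨c, congrArg Subtype.val hc⟩
  choose φ hφ using hcol
  have hN : N = vecMulVec (u : ι → F) φ := by
    ext i j
    have := congrFun (hφ j) i
    simp only [Pi.smul_apply, smul_eq_mul, Matrix.mulVec_single_one] at this
    rw [vecMulVec_apply, mul_comm, this]
    rfl
  refine ⟨u, φ, ?_, ?_, hN⟩
  · intro h0
    exact hu0 (Subtype.ext h0)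
  · rintro rfl
    apply hN0
    rw [hN]
    ext i j
    simp [vecMulVec_apply]

end Cfsg.Agent.Lib.Rank1
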