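import Cfsg.Agent.Lib.BlockOku
import Cfsg.Agent.Lib.BlockRank
import Cfsg.Agent.Lib.BlockInfl
import Cfsg.Agent.Lib.BlockMain4

/-! The rank of the principal block when `G = Q C_G(Q)` for a normal p-subgroup. -/

set_option autoImplicit false
set_option linter.unusedVariables false
set_option linter.unusedSectionVars false

namespace Cfsg.Agent.Lib.RankQuot

open Cfsg Cfsg.Agent.Lib.IrrBasic Cfsg.Agent.Lib.LocRing Cfsg.Agent.Lib.CyclicWords Cfsg.Agent.Lib
open Cfsg.Agent.Lib.BlockCore Cfsg.Agent.Lib.BlockOrth Cfsg.Agent.Lib.BlockBrauer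
open Cfsg.Agent.Lib.BlockFixed Cfsg.Agent.Lib.BlockDefect Cfsg.Agent.Lib.BlockInduce
open Cfsg.Agent.Lib.BlockMain Cfsg.Agent.Lib.BlockMain2 Cfsg.Agent.Lib.BlockMain3
open Cfsg.Agent.Lib.BlockInfl Cfsg.Agent.Lib.BlockNorm Cfsg.Agent.Lib.BlockOku
open Cfsg.Agent.Lib.CharOrth
open scoped ComplexConjugate

variable {G : Type*} [Group G] [Fintype G] {M : Ideal AlgInt} [hMp : M.IsPrime] {p : ℕ}
variable (P : Subgroup G) [hPn : P.Normal] [Fintype (G ⧸ P)]

open Classical in
/-- the regular lift -/
noncomputable def lft (hp : p.Prime) (q : G ⧸ P) : G :=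
  if h : ¬ p ∣ orderOf q then (exists_regular_lift P hp h).choose else 1

lemma lft_reg (hp : p.Prime) (q : G ⧸ P) (h : ¬ p ∣ orderOf q) : ¬ p ∣ orderOf (lft P hp q) := by
  unfold lft
  rw [dif_pos h]
  exact (exists_regular_lift P hp h).choose_spec.1

lemma lft_mk (hp : p.Prime) (q : G ⧸ P) (h : ¬ p ∣ orderOf q) : ((lft P hp q : G) : G ⧸ P) = q := by
  unfold lft
  rw [dif_pos h]
  exact (exists_regular_lift P hp h).choose_spec.2

lemma reg_mk {g : G} (h : ¬ p ∣ orderOf g) : ¬ p ∣ orderOf ((g : G) : G ⧸ P) :=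
  fun hd => h (hd.trans (orderOf_map_dvd (QuotientGroup.mk' P) g))

lemma pReg_reg {K : Type*} [Group K] (χ : K → ℂ) {g : K} (h : ¬ p ∣ orderOf g) :
    pRegularPart p χ g = χ g := by
  unfold pRegularPart IsPRegular
  simp [h]

lemma pReg_sing {K : Type*} [Group K] (χ : K → ℂ) {g : K} (h : ¬ ¬ p ∣ orderOf g) :
    pRegularPart p χ g = 0 := by
  unfold pRegularPart IsPRegular
  simp only [h, if_false]

open Classical in
/-- lift a function from the regular part -/
noncomputable def S (p : ℕ) : (G ⧸ P → ℂ) →ₗ[ℂ] (G → ℂ) where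
  toFun f g := if ¬ p ∣ orderOf g then f (g : G ⧸ P) else 0
  map_add' f f' := by
    ext g
    by_cases h : p ∣ orderOf g <;> simp [h]
  map_smul' c f := by
    ext g
    by_cases h : p ∣ orderOf g <;> simp [h]

open Classical in
/-- push a function down -/
noncomputable def U (hp : p.Prime) : (G → ℂ) →ₗ[ℂ] (G ⧸ P → ℂ) where
  toFun F q := if ¬ p ∣ orderOf q then F (lft P hp q) else 0
  map_add' f f' := by
    ext g
    by_cases h : p ∣ orderOf g <;> simp [h]
  map_smul' c f := by
    ext g
    by_cases h : p ∣ orderOf g <;> simp [h]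

lemma S_reg (f : G ⧸ P → ℂ) {g : G} (h : ¬ p ∣ orderOf g) : S P p f g = f (g : G ⧸ P) := by
  show (if ¬ p ∣ orderOf g then f (g : G ⧸ P) else 0) = _
  simp [h]

lemma S_sing (f : G ⧸ P → ℂ) {g : G} (h : ¬ ¬ p ∣ orderOf g) : S P p f g = 0 := by
  show (if ¬ p ∣ orderOf g then f (g : G ⧸ P) else 0) = _
  simp only [h, if_false]

lemma U_reg (hp : p.Prime) (F : G → ℂ) {q : G ⧸ P} (h : ¬ p ∣ orderOf q) :
    U P hp F q = F (lft P hp q) := by
  show (if ¬ p ∣ orderOf q then F (lft P hp q) else 0) = _
  simp [h]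

lemma U_sing (hp : p.Prime) (F : G → ℂ) {q : G ⧸ P} (h : ¬ ¬ p ∣ orderOf q) :
    U P hp F q = 0 := by
  show (if ¬ p ∣ orderOf q then F (lft P hp q) else 0) = _
  simp only [h, if_false]

theorem rank_eq (hM : IsPModular p M) (hP : IsPGroup p P) {k : ℕ}
    (hC : (Subgroup.centralizer (P : Set G)).index = p ^ k) :
    blockRank p (principalBlock M G) = blockRank p (principalBlock M (G ⧸ P)) := by
  classical
  have hp := hM.1
  have hlift : ∀ {g : G}, ¬ p ∣ orderOf g → lft P hp ((g : G) : G ⧸ P) = g := by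
    intro g hg
    exact eq_of_regular_coset P hp hP hC (lft_reg P hp _ (reg_mk P hg)) hg
      (lft_mk P hp _ (reg_mk P hg))
  unfold blockRank
  apply le_antisymm
  · have h2 : Submodule.span ℂ ((fun χ : IrrCharacter G => pRegularPart p (χ : G → ℂ)) ''
        principalBlock M G) ≤
        (Submodule.span ℂ ((fun χ : IrrCharacter (G ⧸ P) => pRegularPart p (χ : G ⧸ P → ℂ)) ''
          principalBlock M (G ⧸ P))).map (S P p) := by
      rw [Submodule.span_le]
      rintro _ ⟨χ, hχ, rfl⟩
      obtain ⟨f, hf⟩ : ∃ f, f = U P hp (pRegularPart p χ.1) := ⟨_, rfl⟩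
      have hfS : S P p f = pRegularPart p χ.1 := by
        funext g
        by_cases h : ¬ p ∣ orderOf g
        · rw [S_reg P f h, hf, U_reg P hp _ (reg_mk P h), hlift h]
        · rw [S_sing P f h, pReg_sing _ h]
      have hfv : ∀ q : G ⧸ P, ¬ p ∣ orderOf q → f q = χ.1 (lft P hp q) := by
        intro q hq
        rw [hf, U_reg P hp _ hq, pReg_reg _ (lft_reg P hp q hq)]
      have hfs : ∀ q : G ⧸ P, ¬ ¬ p ∣ orderOf q → f q = 0 := by
        intro q hq
        rw [hf, U_sing P hp _ hq]
      have hcf : IsClassFunction (G ⧸ P) f := by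
        intro q t
        by_cases hq : ¬ p ∣ orderOf q
        · have hq' : ¬ p ∣ orderOf (t * q * t⁻¹) := by
            rwa [orderOf_conj']
          rw [hfv _ hq', hfv _ hq]
          obtain ⟨s, rfl⟩ := QuotientGroup.mk_surjective t
          have e : lft P hp ((s : G ⧸ P) * q * (s : G ⧸ P)⁻¹) = s * lft P hp q * s⁻¹ := by
            apply eq_of_regular_coset P hp hP hC (lft_reg P hp _ hq')
            · rw [orderOf_conj']
              exact lft_reg P hp q hq
            · rw [lft_mk P hp _ hq']
              have e2 : ((s * lft P hp q * s⁻¹ : G) : G ⧸ P) =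
                  (s : G ⧸ P) * ((lft P hp q : G) : G ⧸ P) * (s : G ⧸ P)⁻¹ := rfl
              rw [e2, lft_mk P hp q hq]
          rw [e]
          exact classFunction_of_isIrrCharacter χ.2 _ s
        · have hq' : ¬ ¬ p ∣ orderOf (t * q * t⁻¹) := by
            rwa [orderOf_conj']
          rw [hfs _ hq', hfs _ hq]
      have hexp := classFun_eq_sum f hcf
      have hzero : ∀ ψ : IrrCharacter (G ⧸ P), ψ ∉ principalBlock M (G ⧸ P) →
          classInner f ψ.1 = 0 := by
        intro ψ hψ
        have hns : ¬ SameBlock M χ.1 (inflIrr P ψ).1 := by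
          intro hs
          apply hψ
          have h1 : SameBlock M (inflIrr P (BlockMain4.oneIrr (G ⧸ P))).1 (inflIrr P ψ).1 :=
            fun g => memLocalIdeal_trans (hχ g) (hs g)
          exact (sameBlock_infl_iff P hM hP hC (BlockMain4.oneIrr (G ⧸ P)) ψ).2 h1
        have h0 := regInner_eq_zero hM hns
        have e1 : ∑ q : G ⧸ P, f q * conj (ψ.1 q) =
            ∑ q ∈ (Finset.univ : Finset (G ⧸ P)).filter (fun q => ¬ p ∣ orderOf q),
              χ.1 (lft P hp q) * conj (ψ.1 q) := by
          rw [Finset.sum_filter]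
          apply Finset.sum_congr rfl
          intro q _
          by_cases h : ¬ p ∣ orderOf q
          · rw [if_pos h, hfv q h]
          · rw [if_neg h, hfs q h, zero_mul]
        have e2 : regInner p χ (inflIrr P ψ) =
            ∑ g ∈ (Finset.univ : Finset G).filter (fun g => ¬ p ∣ orderOf g),
              χ.1 g * conj (ψ.1 (g : G ⧸ P)) := by
          unfold regInner
          rw [Finset.sum_filter]
          apply Finset.sum_congr rfl
          intro g _
          by_cases h : ¬ p ∣ orderOf g
          · simp only [h, not_false_eq_true, if_true]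
            rfl
          · simp only [h, if_false]
        have e3 : ∑ q ∈ (Finset.univ : Finset (G ⧸ P)).filter (fun q => ¬ p ∣ orderOf q),
              χ.1 (lft P hp q) * conj (ψ.1 q) =
            ∑ g ∈ (Finset.univ : Finset G).filter (fun g => ¬ p ∣ orderOf g),
              χ.1 g * conj (ψ.1 (g : G ⧸ P)) := by
          apply Finset.sum_nbij' (fun q => lft P hp q) (fun g => (g : G ⧸ P))
          · intro q hq
            exact Finset.mem_filter.2 ⟨Finset.mem_univ _, lft_reg P hp q (Finset.mem_filter.1 hq).2⟩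
          · intro g hg
            exact Finset.mem_filter.2 ⟨Finset.mem_univ _, reg_mk P (Finset.mem_filter.1 hg).2⟩
          · intro q hq
            exact lft_mk P hp q (Finset.mem_filter.1 hq).2
          · intro g hg
            exact hlift (Finset.mem_filter.1 hg).2
          · intro q hq
            rw [lft_mk P hp q (Finset.mem_filter.1 hq).2]
        unfold classInner
        rw [e1, e3, ← e2, h0, mul_zero]
      have hS1 : ∀ ψ : IrrCharacter (G ⧸ P), S P p ψ.1 = S P p (pRegularPart p ψ.1) := by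
        intro ψ
        funext g
        by_cases h : ¬ p ∣ orderOf g
        · rw [S_reg P _ h, S_reg P _ h, pReg_reg _ (reg_mk P h)]
        · rw [S_sing P _ h, S_sing P _ h]
      have hSf : S P p f = ∑ ψ : IrrCharacter (G ⧸ P), classInner f ψ.1 • S P p ψ.1 := by
        conv_lhs => rw [hexp]
        rw [map_sum]
        apply Finset.sum_congr rfl
        intro ψ _
        rw [map_smul]
      beta_reduce
      rw [SetLike.mem_coe, ← hfS, hSf]
      apply Submodule.sum_mem
      intro ψ _
      by_cases hψ : ψ ∈ principalBlock M (G ⧸ P)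
      · apply Submodule.smul_mem
        exact ⟨pRegularPart p ψ.1, Submodule.subset_span ⟨ψ, hψ, rfl⟩, (hS1 ψ).symm⟩
      · rw [hzero ψ hψ, zero_smul]
        exact Submodule.zero_mem _
    exact (Submodule.finrank_mono h2).trans (Submodule.finrank_map_le _ _)
  · have h1 : Submodule.span ℂ ((fun χ : IrrCharacter (G ⧸ P) => pRegularPart p (χ : G ⧸ P → ℂ)) ''
        principalBlock M (G ⧸ P)) ≤
        (Submodule.span ℂ ((fun χ : IrrCharacter G => pRegularPart p (χ : G → ℂ)) ''
          principalBlock M G)).map (U P hp) := by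
      rw [Submodule.span_le]
      rintro _ ⟨ψ, hψ, rfl⟩
      refine ⟨pRegularPart p (inflIrr P ψ).1, Submodule.subset_span ⟨inflIrr P ψ, ?_, rfl⟩, ?_⟩
      · exact sameBlock_infl P (χ := BlockMain4.oneIrr _) hψ
      · beta_reduce
        funext q
        by_cases h : ¬ p ∣ orderOf q
        · rw [U_reg P hp _ h, pReg_reg _ (lft_reg P hp q h), pReg_reg _ h, inflIrr_apply,
            lft_mk P hp q h]
        · rw [U_sing P hp _ h, pReg_sing _ h]
    exact (Submodule.finrank_mono h1).trans (Submodule.finrank_map_le _ _)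

end Cfsg.Agent.Lib.RankQuot
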