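import Mathlib

set_option autoImplicit false

namespace Cfsg.Agent.Lib.S8Tree

open Equiv

/-- Level in the binary tree on `0,…,7`. -/
def lev (a b : ℕ) : ℕ := (2 * (a ^^^ b) + 1).log2

/-- An explicit table. -/
def lk (a0 a1 a2 a3 a4 a5 a6 a7 : ℕ) : ℕ → ℕ
  | 0 => a0 | 1 => a1 | 2 => a2 | 3 => a3 | 4 => a4 | 5 => a5 | 6 => a6 | _ => a7

def qs : List (ℕ → ℕ) := [lk 1 0 3 2 5 4 7 6, lk 1 0 3 2 6 7 4 5, lk 1 0 3 2 7 6 5 4, lk 0 1 2 3 4 5 7 6, lk 0 1 2 3 5 4 6 7, lk 0 1 3 2 4 5 6 7, lk 1 0 2 3 4 5 6 7, lk 4 5 6 7 0 1 2 3, lk 4 5 7 6 0 1 3 2, lk 5 4 6 7 1 0 2 3, lk 5 4 7 6 1 0 3 2, lk 6 7 4 5 2 3 0 1, lk 6 7 5 4 3 2 0 1, lk 7 6 4 5 2 3 1 0, lk 7 6 5 4 3 2 1 0]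

def prs : List (ℕ × ℕ) := [(0, 1), (2, 3), (4, 5), (6, 7), (0, 2), (4, 6), (0, 4), (0, 3), (0, 5), (0, 6), (0, 7), (1, 2), (1, 3), (1, 4), (1, 5), (1, 6), (1, 7), (2, 4), (2, 5), (2, 6), (2, 7), (3, 4), (3, 5), (3, 6), (3, 7), (4, 7), (5, 6), (5, 7)]

def test (y : ℕ → ℕ) : Bool :=
  qs.any fun q => prs.all fun p => lev (y (q p.1)) (y (q p.2)) == lev (y p.1) (y p.2)

def all8 (p : ℕ → Bool) : Bool := p 0 && p 1 && p 2 && p 3 && p 4 && p 5 && p 6 && p 7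

def chk : Bool := all8 fun a1 => (a1 == 0) || all8 fun a2 => (a2 == 0 || a2 == a1) || all8 fun a3 => (a3 == 0 || a3 == a1 || a3 == a2) || all8 fun a4 => (a4 == 0 || a4 == a1 || a4 == a2 || a4 == a3) || all8 fun a5 => (a5 == 0 || a5 == a1 || a5 == a2 || a5 == a3 || a5 == a4) || all8 fun a6 => (a6 == 0 || a6 == a1 || a6 == a2 || a6 == a3 || a6 == a4 || a6 == a5) || all8 fun a7 => (a7 == 0 || a7 == a1 || a7 == a2 || a7 == a3 || a7 == a4 || a7 == a5 || a7 == a6) || test (lk 0 a1 a2 a3 a4 a5 a6 a7)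

theorem chk_true : chk = true := by decide +kernel


end Cfsg.Agent.Lib.S8Tree
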