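import Cfsg.Agent.Lib.S8Tree

set_option autoImplicit false

namespace Cfsg.Agent.Lib.S8Tree

theorem lev_zero : ∀ a b : Fin 8, lev a.val b.val = 0 → a = b := by decide +kernel

/-- flipping the last bit -/
def fl (a : Fin 8) : Fin 8 := ![1, 0, 3, 2, 5, 4, 7, 6] a

theorem lev_one : ∀ a b : Fin 8, lev a.val b.val = 1 → b = fl a := by decide +kernel

/-- Data describing a tree automorphism. -/
def Cset : Finset (Fin 8 × Fin 8 × Fin 8 × Fin 8) :=
  Finset.univ.filter fun t =>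
    lev t.1.val t.2.1.val = 2 ∧ lev t.2.2.1.val t.2.2.2.val = 2 ∧ lev t.1.val t.2.2.1.val = 3 ∧
      lev t.1.val t.2.2.2.val = 3 ∧ lev t.2.1.val t.2.2.1.val = 3 ∧ lev t.2.1.val t.2.2.2.val = 3

theorem card_Cset : Cset.card = 128 := by decide +kernel

def ext8 (t : Fin 8 × Fin 8 × Fin 8 × Fin 8) : Fin 8 → Fin 8 :=
  ![t.1, fl t.1, t.2.1, fl t.2.1, t.2.2.1, fl t.2.2.1, t.2.2.2, fl t.2.2.2]

set_option maxHeartbeats 0 in
theorem ext8_pres0 : ∀ a b c d : Fin 8, (lev a.val b.val = 2 ∧ lev c.val d.val = 2 ∧ lev a.val c.val = 3 ∧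
      lev a.val d.val = 3 ∧ lev b.val c.val = 3 ∧ lev b.val d.val = 3) →
    ∀ x y : Fin 8, lev (ext8 (a, b, c, d) x).val (ext8 (a, b, c, d) y).val = lev x.val y.val := by
  decide +kernel

theorem ext8_pres : ∀ t ∈ Cset, ∀ a b : Fin 8, lev (ext8 t a).val (ext8 t b).val = lev a.val b.val := by
  rintro ⟨a, b, c, d⟩ ht x y
  simp only [Cset, Finset.mem_filter, Finset.mem_univ, true_and] at ht
  exact ext8_pres0 a b c d ht x y


end Cfsg.Agent.Lib.S8Tree
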