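import Cfsg.Agent.Lib.BlockFrob
import Cfsg.Agent.Lib.IrrBasic

/-! Characters modulo `p` separate `p`-regular classes. -/

set_option autoImplicit false

namespace Cfsg.Agent.Lib.Sect

open Cfsg Cfsg.Agent.Lib Cfsg.Agent.Lib.IrrBasic
open scoped ComplexConjugate

universe u

theorem sum_pow_exists {R : Type*} [CommRing R] {p : ℕ} (hp : p.Prime) (k : ℕ) {ι : Type*}
    (s : Finset ι) (a : ι → R) : ∃ r : R, (∑ i ∈ s, a i) ^ p ^ k = ∑ i ∈ s, a i ^ p ^ k + p * r := by
  classical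
  induction s using Finset.induction_on with
  | empty =>
    refine ⟨0, ?_⟩
    simp [hp.pos.ne']
  | insert i s hi ih =>
    obtain ⟨r₁, h₁⟩ := ih
    obtain ⟨r₂, h₂⟩ := exists_add_pow_prime_pow_eq hp (a i) (∑ j ∈ s, a j) k
    refine ⟨r₁ + a i * (∑ j ∈ s, a j) * r₂, ?_⟩
    rw [Finset.sum_insert hi, Finset.sum_insert hi, h₂, h₁]
    ring

variable {G : Type u} [Group G] [Fintype G]

theorem val_pow_exists {p : ℕ} (hp : p.Prime) (χ : IrrCharacter G) (g : G) (k : ℕ) :
    ∃ γ : AlgInt, χ.1 g ^ p ^ k - χ.1 (g ^ p ^ k) = (p : ℂ) * (γ : ℂ) := by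
  obtain ⟨n, ζ, hζ, hval⟩ := val_eigen χ g
  have hint : ∀ i, IsIntegral ℤ (ζ i) := fun i =>
    IsIntegral.of_pow (orderOf_pos g) (by rw [hζ]; exact isIntegral_one)
  let a : Fin n → AlgInt := fun i => ⟨ζ i, hint i⟩
  obtain ⟨r, hr⟩ := sum_pow_exists hp k (Finset.univ : Finset (Fin n)) a
  refine ⟨r, ?_⟩
  have h1 : χ.1 g = ∑ i, ζ i := by simpa using hval 1
  rw [h1, hval (p ^ k)]
  have h2 := congrArg (fun t : AlgInt => (t : ℂ)) hr
  have hpc : (((p : ℕ) : AlgInt) : ℂ) = (p : ℂ) := map_natCast AlgInt.val p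
  simp only [AddSubmonoidClass.coe_finsetSum, a, SubmonoidClass.coe_pow, MulMemClass.coe_mul,
    AddMemClass.coe_add, hpc] at h2
  rw [h2]
  ring

/-- Characters modulo `p` separate `p`-regular classes. -/
theorem isConj_of_congr {p : ℕ} [hp : Fact p.Prime] (z w : G) (hz : ¬ p ∣ orderOf z) (hw : ¬ p ∣ orderOf w)
    (h : ∀ χ : IrrCharacter G, ∃ γ : AlgInt, χ.1 z - χ.1 w = (p : ℂ) * (γ : ℂ)) : IsConj z w := by
  classical
  by_contra hnc
  choose γ hγ using h
  let n := (Nat.card (Subgroup.centralizer ({w} : Set G))).factorization p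
  let m := ordCompl[p] (Nat.card (Subgroup.centralizer ({w} : Set G)))
  have hcard : Nat.card (Subgroup.centralizer ({w} : Set G)) = p ^ n * m :=
    (Nat.ordProj_mul_ordCompl_eq_self _ _).symm
  have hp0 : ((p ^ n : ℕ) : ℂ) ≠ 0 := Nat.cast_ne_zero.mpr (pow_ne_zero _ hp.out.ne_zero)
  let c : IrrCharacter G → ℂ := fun χ => ((p ^ n : ℕ) : ℂ)⁻¹ * BlockFrob.sumT p (CharPerm.conjIrr χ).1 w
  have hc : ∀ χ, IsIntegral ℤ (c χ) := fun χ =>
    BlockFrob.sumT_isIntegral (CharBasic.IsIrrCharacter.isCharacter (CharPerm.conjIrr χ).2) w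
  -- evaluation
  have key : ∀ t : G, ¬ p ∣ orderOf t → ∑ χ : IrrCharacter G, c χ * χ.1 t =
      ((p ^ n : ℕ) : ℂ)⁻¹ * (if IsConj t w then (Nat.card (Subgroup.centralizer ({w} : Set G)) : ℂ) else 0) := by
    intro t ht
    have h1 : ∀ χ : IrrCharacter G, c χ * χ.1 t = ((p ^ n : ℕ) : ℂ)⁻¹ * ∑ u : G,
        if (∃ k, orderOf u = p ^ k) ∧ u * w = w * u then χ.1 t * conj (χ.1 (w * u)) else 0 := by
      intro χ
      simp only [c, BlockFrob.sumT, CharPerm.conjIrr_apply, mul_assoc]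
      congr 1
      rw [Finset.sum_mul]
      refine Finset.sum_congr rfl fun u _ => ?_
      split_ifs
      · ring
      · simp
    simp only [h1]
    rw [← Finset.mul_sum, Finset.sum_comm]
    congr 1
    rw [Finset.sum_eq_single 1]
    · have h2 : w * 1 = w := mul_one w
      have h3 : (∃ k, orderOf (1 : G) = p ^ k) ∧ (1 : G) * w = w * 1 := ⟨⟨0, by simp⟩, by simp⟩
      have h4 : ∀ χ : IrrCharacter G, (if (∃ k, orderOf (1 : G) = p ^ k) ∧ (1 : G) * w = w * 1 then
          χ.1 t * conj (χ.1 (w * 1)) else 0) = χ.1 t * conj (χ.1 w) := by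
        intro χ
        rw [if_pos h3, mul_one]
      rw [Finset.sum_congr rfl (fun χ _ => h4 χ)]
      rw [sum_irr_val_mul_conj t w]
      congr
    · intro u _ hu
      by_cases hcond : (∃ k, orderOf u = p ^ k) ∧ u * w = w * u
      · simp only [if_pos hcond]
        rw [sum_irr_val_mul_conj, if_neg]
        intro hconj
        have h3 : orderOf t = orderOf (w * u) := by
          obtain ⟨g, hg⟩ := isConj_iff.mp hconj
          rw [← hg]
          have := orderOf_injective (MulAut.conj g).toMonoidHom (MulAut.conj g).injective t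
          simpa using this.symm
        obtain ⟨⟨k, hk⟩, hcomm⟩ := hcond
        have h4 : Nat.Coprime (orderOf w) (orderOf u) := by
          rw [hk]
          exact Nat.Coprime.pow_right _ ((Nat.Prime.coprime_iff_not_dvd hp.out).mpr hw).symm
        have h5 : Commute w u := hcomm.symm
        rw [h5.orderOf_mul_eq_mul_orderOf_of_coprime h4, hk] at h3
        rw [h3, hp.out.dvd_mul] at ht
        push Not at ht
        have h6 : k = 0 := by
          by_contra h0
          exact ht.2 (dvd_pow_self p h0)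
        rw [h6, pow_zero, orderOf_eq_one_iff] at hk
        exact hu hk
      · simp only [if_neg hcond]
        exact Finset.sum_const_zero
    · intro h0
      exact absurd (Finset.mem_univ _) h0
  have hw' := key w hw
  rw [if_pos (IsConj.refl w), hcard] at hw'
  have hz' := key z hz
  rw [if_neg hnc, mul_zero] at hz'
  have hm : (m : ℂ) = ∑ χ : IrrCharacter G, c χ * χ.1 w := by
    rw [hw']
    push_cast
    have : ((p : ℂ) ^ n) ≠ 0 := by exact_mod_cast hp0
    field_simp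
  have hm2 : (m : ℂ) = (p : ℂ) * ∑ χ : IrrCharacter G, c χ * (-(γ χ : ℂ)) := by
    have h1 : ∑ χ : IrrCharacter G, c χ * χ.1 w =
        ∑ χ : IrrCharacter G, c χ * χ.1 w - ∑ χ : IrrCharacter G, c χ * χ.1 z := by
      rw [hz', sub_zero]
    rw [hm, h1, ← Finset.sum_sub_distrib, Finset.mul_sum]
    refine Finset.sum_congr rfl fun χ _ => ?_
    have h2 := hγ χ
    linear_combination (-c χ) * h2
  have hint : IsIntegral ℤ (∑ χ : IrrCharacter G, c χ * (-(γ χ : ℂ))) :=
    IsIntegral.sum _ (fun χ _ => (hc χ).mul (γ χ).2.neg)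
  have hpne : (p : ℂ) ≠ 0 := by exact_mod_cast hp.out.ne_zero
  have hrat : (∑ χ : IrrCharacter G, c χ * (-(γ χ : ℂ))) = (((m : ℚ) / p : ℚ) : ℂ) := by
    push_cast
    rw [hm2]
    field_simp
  rw [hrat] at hint
  obtain ⟨t, ht⟩ := BlockFrob.exists_int_of_isIntegral_rat hint
  have hm3 : (m : ℤ) = p * t := by
    have hpq : (p : ℚ) ≠ 0 := by exact_mod_cast hp.out.ne_zero
    field_simp at ht
    have : ((m : ℤ) : ℚ) = ((p * t : ℤ) : ℚ) := by
      push_cast
      linarith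
    exact_mod_cast this
  have hdvd : p ∣ m := by
    have : (p : ℤ) ∣ (m : ℤ) := ⟨t, hm3⟩
    exact_mod_cast this
  exact Nat.not_dvd_ordCompl hp.out (Nat.card_pos.ne') hdvd

theorem s4604 (p : ℕ) [hp : Fact p.Prime] (x y x' y' : G)
    (hx : (∃ k : ℕ, orderOf (x * x'⁻¹) = p ^ k) ∧ Commute (x * x'⁻¹) x' ∧ ¬ p ∣ orderOf x')
    (hy : (∃ k : ℕ, orderOf (y * y'⁻¹) = p ^ k) ∧ Commute (y * y'⁻¹) y' ∧ ¬ p ∣ orderOf y') :
    IsConj x' y' ↔ ∀ χ : IrrCharacter G, ∃ γ : AlgInt,
      (χ : G → ℂ) x ^ (p ^ (Nat.card G).factorization p) -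
        (χ : G → ℂ) y ^ (p ^ (Nat.card G).factorization p) = (p : ℂ) * (γ : ℂ) := by
  classical
  set a := (Nat.card G).factorization p with ha
  have hpow : ∀ v v' : G, (∃ k : ℕ, orderOf (v * v'⁻¹) = p ^ k) → Commute (v * v'⁻¹) v' →
      v ^ p ^ a = v' ^ p ^ a := by
    intro v v' ⟨k, hk⟩ hc
    have h1 : orderOf (v * v'⁻¹) ∣ Nat.card G := orderOf_dvd_natCard _
    rw [hk] at h1
    have h2 : k ≤ a := (hp.out.pow_dvd_iff_le_factorization Nat.card_pos.ne').mp h1
    have h3 : (v * v'⁻¹) ^ p ^ a = 1 := by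
      have h4 : orderOf (v * v'⁻¹) ∣ p ^ a := by rw [hk]; exact pow_dvd_pow p h2
      exact orderOf_dvd_iff_pow_eq_one.mp h4
    have h5 : v = (v * v'⁻¹) * v' := by group
    conv_lhs => rw [h5]
    rw [hc.mul_pow, h3, one_mul]
  have hxN := hpow x x' hx.1 hx.2.1
  have hyN := hpow y y' hy.1 hy.2.1
  have hreg : ∀ v : G, ¬ p ∣ orderOf v → ¬ p ∣ orderOf (v ^ p ^ a) := by
    intro v hv h
    exact hv (h.trans (orderOf_pow_dvd _))
  constructor
  · intro hconj χ
    obtain ⟨γ₁, h₁⟩ := val_pow_exists hp.out χ x a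
    obtain ⟨γ₂, h₂⟩ := val_pow_exists hp.out χ y a
    have h3 : χ.1 (x ^ p ^ a) = χ.1 (y ^ p ^ a) := by
      rw [hxN, hyN]
      obtain ⟨g, hg⟩ := isConj_iff.mp (hconj.pow (p ^ a))
      rw [← hg]
      exact (val_conj χ _ g).symm
    refine ⟨γ₁ - γ₂, ?_⟩
    push_cast
    linear_combination h₁ - h₂ + h3
  · intro h
    have h1 : IsConj (x' ^ p ^ a) (y' ^ p ^ a) := by
      apply isConj_of_congr (p := p) _ _ (hreg _ hx.2.2) (hreg _ hy.2.2)
      intro χ
      obtain ⟨γ, hγ⟩ := h χ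
      obtain ⟨γ₁, h₁⟩ := val_pow_exists hp.out χ x a
      obtain ⟨γ₂, h₂⟩ := val_pow_exists hp.out χ y a
      refine ⟨γ - γ₁ + γ₂, ?_⟩
      rw [← hxN, ← hyN]
      push_cast
      linear_combination hγ - h₁ + h₂
    -- take roots
    let e : G × G := (x', y')
    have hcop : (p ^ a).Coprime (orderOf e) := by
      apply Nat.Coprime.pow_left
      rw [Nat.Prime.coprime_iff_not_dvd hp.out]
      intro hd
      have h2 : e ^ (orderOf x' * orderOf y') = 1 := by
        ext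
        · simp [e, pow_mul, pow_orderOf_eq_one]
        · simp only [e, Prod.pow_snd, Prod.snd_one]
          rw [mul_comm, pow_mul, pow_orderOf_eq_one, one_pow]
      have h3 := hd.trans (orderOf_dvd_of_pow_eq_one h2)
      rcases hp.out.dvd_mul.mp h3 with h4 | h4
      · exact hx.2.2 h4
      · exact hy.2.2 h4
    obtain ⟨s, hs⟩ := exists_pow_eq_self_of_coprime hcop
    have hs1 : (x' ^ p ^ a) ^ s = x' := congrArg Prod.fst hs
    have hs2 : (y' ^ p ^ a) ^ s = y' := congrArg Prod.snd hs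
    have := h1.pow s
    rwa [hs1, hs2] at this

end Cfsg.Agent.Lib.Sect
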