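import Cfsg.Agent.Lib.SpFrames
import Cfsg.Agent.S0752
import Cfsg.Agent.S2167

set_option autoImplicit false

/-! Involutions of symplectic groups in characteristic two. -/

namespace Cfsg.Agent.Lib.SpInv

open Matrix Cfsg.Agent.Lib.SympBasic

section albert

variable {F : Type*} [Field F] [Fintype F] [CharP F 2]

theorem exists_sqrt (x : F) : ∃ y : F, y * y = x := by
  refine ⟨(frobeniusEquiv F 2).symm x, ?_⟩
  rw [← pow_two]
  exact frobeniusEquiv_symm_pow_p F 2 x

/-- Over a perfect field of characteristic two, a non-alternating symmetric bilinear form has an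
orthonormal basis modulo its radical. -/
theorem albert_aux : ∀ (n : ℕ) (V : Type _) [AddCommGroup V] [Module F V] [FiniteDimensional F V]
    (B : LinearMap.BilinForm F V) (_ : ∀ x y, B x y = B y x) (_ : ∃ v, B v v ≠ 0)
    (_ : Module.finrank F V = n),
    ∃ (r : ℕ) (x : Fin r → V), (∀ i j, B (x i) (x j) = if i = j then 1 else 0) ∧
      ∀ v, ∃ α : Fin r → F, ∀ u, B (v - ∑ i, α i • x i) u = 0 := by
  intro n
  induction n using Nat.strong_induction_on with
  | _ n ih =>
    intro V _ _ _ B hS hna hn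
    have h2 : (2 : F) = 0 := CharTwo.two_eq_zero
    obtain ⟨v, hv⟩ := hna
    -- a vector of norm one
    obtain ⟨c, hc⟩ := exists_sqrt (B v v)
    have hc0 : c ≠ 0 := by
      rintro rfl
      apply hv
      rw [← hc, zero_mul]
    have hv₀ : B (c⁻¹ • v) (c⁻¹ • v) = 1 := by
      simp only [map_smul, LinearMap.smul_apply, smul_eq_mul]
      rw [← hc]
      field_simp
    -- a good vector
    obtain ⟨v₁, hv₁, hgood⟩ : ∃ v₁, B v₁ v₁ = 1 ∧
        ((∀ z w, B v₁ z = 0 → B v₁ w = 0 → B z w = 0) ∨ (∃ w, B v₁ w = 0 ∧ B w w ≠ 0)) := by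
      set v₀ := c⁻¹ • v with hv₀'
      by_cases h1 : ∃ w, B v₀ w = 0 ∧ B w w ≠ 0
      · exact ⟨v₀, hv₀, Or.inr h1⟩
      push Not at h1
      by_cases h3 : ∀ z w, B v₀ z = 0 → B v₀ w = 0 → B z w = 0
      · exact ⟨v₀, hv₀, Or.inl h3⟩
      push Not at h3
      obtain ⟨e, e', he, he', hee⟩ := h3
      have h4 : B e (((B e e')⁻¹) • e') = 1 := by
        simp only [map_smul, smul_eq_mul]
        field_simp
      set e₁ := (B e e')⁻¹ • e' with he₁
      have he₁0 : B v₀ e₁ = 0 := by
        simp [he₁, he']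
      refine ⟨v₀ + e, ?_, Or.inr ⟨v₀ + e₁, ?_, ?_⟩⟩
      · simp only [map_add, LinearMap.add_apply]
        rw [hS e v₀, he, h1 e he, hv₀]
        simp
      · simp only [map_add, LinearMap.add_apply]
        rw [hS e v₀, he, h4, he₁0, hv₀]
        simp only [add_zero, zero_add]
        linear_combination h2
      · simp only [map_add, LinearMap.add_apply]
        rw [hS e₁ v₀, he₁0, h1 e₁ he₁0, hv₀]
        simp
    -- the perpendicular space
    let K : Submodule F V := LinearMap.ker (B v₁)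
    have hK : ∀ z : K, B v₁ z = 0 := fun z => z.2
    have hsplit : ∀ u, u - B v₁ u • v₁ ∈ K := by
      intro u
      show B v₁ (u - B v₁ u • v₁) = 0
      simp [hv₁]
    have hrad : ∀ w : V, w ∈ K → (∀ z : K, B w z = 0) → ∀ u, B w u = 0 := by
      intro w hw hz u
      have h3 := hz ⟨_, hsplit u⟩
      have h4 : B w v₁ = 0 := by
        rw [hS]
        exact hw
      simpa [h4] using h3
    rcases hgood with hzero | ⟨w, hw, hww⟩
    · refine ⟨1, fun _ => v₁, ?_, ?_⟩
      · intro i j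
        simp [hv₁, Subsingleton.elim i j]
      · intro u
        refine ⟨fun _ => B v₁ u, ?_⟩
        have e : u - ∑ i : Fin 1, (fun _ => B v₁ u) i • (fun _ => v₁) i = u - B v₁ u • v₁ := by simp
        rw [e]
        apply hrad _ (hsplit u)
        intro z
        exact hzero _ _ (hsplit u) (hK z)
    · have hlt : Module.finrank F K < n := by
        have h5 : LinearMap.range (B v₁) = ⊤ := by
          rw [LinearMap.range_eq_top]
          apply LinearMap.surjective
          intro h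
          have := congrArg (fun f => f v₁) h
          simp [hv₁] at this
        have h6 := LinearMap.finrank_range_add_finrank_ker (B v₁)
        rw [h5, finrank_top, Module.finrank_self] at h6
        have : Module.finrank F (LinearMap.ker (B v₁)) = Module.finrank F K := rfl
        omega
      let B' : LinearMap.BilinForm F K := B.restrict K
      have hB' : ∀ z z' : K, B' z z' = B z z' := fun _ _ => rfl
      obtain ⟨r, x, hx, hsp⟩ := ih _ hlt K B' (fun a b => by rw [hB', hB', hS]) ⟨⟨w, hw⟩, hww⟩ rfl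
      refine ⟨r + 1, Fin.cons v₁ (fun i => (x i : V)), ?_, ?_⟩
      · intro i j
        refine Fin.cases ?_ (fun i => ?_) i <;> refine Fin.cases ?_ (fun j => ?_) j
        · simp [hv₁]
        · simp only [Fin.cons_zero, Fin.cons_succ]
          rw [hK]
          simp [(Fin.succ_ne_zero j).symm]
        · simp only [Fin.cons_zero, Fin.cons_succ]
          rw [hS, hK]
          simp [Fin.succ_ne_zero i]
        · simp only [Fin.cons_succ, Fin.succ_inj]
          exact hx i j
      · intro u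
        obtain ⟨α, hα⟩ := hsp ⟨_, hsplit u⟩
        refine ⟨Fin.cons (B v₁ u) α, ?_⟩
        have e : u - ∑ i, (Fin.cons (B v₁ u) α : Fin (r + 1) → F) i • (Fin.cons v₁ (fun i => (x i : V)) : Fin (r + 1) → V) i =
            (((⟨_, hsplit u⟩ : K) - ∑ i, α i • x i : K) : V) := by
          rw [Fin.sum_univ_succ]
          simp only [Fin.cons_zero, Fin.cons_succ]
          push_cast
          abel
        rw [e]
        apply hrad _ (Subtype.coe_prop _)
        intro z
        exact hα z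

theorem albert {V : Type*} [AddCommGroup V] [Module F V] [FiniteDimensional F V]
    (B : LinearMap.BilinForm F V) (hS : ∀ x y, B x y = B y x) (hna : ∃ v, B v v ≠ 0) :
    ∃ (r : ℕ) (x : Fin r → V), (∀ i j, B (x i) (x j) = if i = j then 1 else 0) ∧
      ∀ v, ∃ α : Fin r → F, ∀ u, B (v - ∑ i, α i • x i) u = 0 :=
  albert_aux _ V B hS hna rfl

end albert








section inv

variable {F : Type*} [Field F] [Fintype F] [CharP F 2] {m : ℕ}

local notation "ff" => Cfsg.sympForm m F
local notation "VV" => (Fin m ⊕ Fin m → F)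
local notation "MM" => Matrix (Fin m ⊕ Fin m) (Fin m ⊕ Fin m) F

/-- An involution (or the identity) of the symplectic group, as a matrix. -/
structure IsInv (A : MM) : Prop where
  sq : A * A = 1
  pres : ∀ u v, ff (A *ᵥ u) (A *ᵥ v) = ff u v

theorem ff_comm (u v : VV) : ff u v = ff v u := by
  rw [sympForm_skew, CharTwo.neg_eq]

theorem ff_nondeg {w : VV} (h : ∀ u, ff u w = 0) : w = 0 := by
  by_contra hw
  obtain ⟨x, hx⟩ := (Cfsg.Agent.Lib.SpGL.symp_nondeg (m := m) (F := F) w hw).1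
  exact hx (h x)

theorem vadd_self (v : VV) : v + v = 0 := by
  ext i
  exact CharTwo.add_self_eq_zero _

theorem ff_zero_right (u : VV) : ff u 0 = 0 := by
  simp [Cfsg.sympForm]

/-- The symmetric form attached to an involution. -/
noncomputable def psi (A : MM) : LinearMap.BilinForm F VV := Matrix.toBilin' (Matrix.J (Fin m) F * (A - 1))

theorem psi_apply (A : MM) (u v : VV) : psi A u v = ff u ((A - 1) *ᵥ v) := by
  rw [psi, Matrix.toBilin'_apply', ← Matrix.mulVec_mulVec]
  rfl

theorem N_apply (A : MM) (v : VV) : (A - 1) *ᵥ v = A *ᵥ v + v := by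
  rw [Matrix.sub_mulVec, Matrix.one_mulVec]
  ext i
  exact CharTwo.sub_eq_add _ _

theorem psi_self (A : MM) (v : VV) : psi A v v = ff v (A *ᵥ v) := by
  rw [psi_apply, N_apply, sympForm_add_right, sympForm_self, add_zero]

namespace IsInv

variable {A : Matrix (Fin m ⊕ Fin m) (Fin m ⊕ Fin m) F}

theorem AA (h : IsInv A) (v : VV) : Matrix.mulVec A (Matrix.mulVec A v) = v := by
  rw [Matrix.mulVec_mulVec, h.sq, Matrix.one_mulVec]

theorem NN (h : IsInv A) (v : VV) : Matrix.mulVec (A - 1 : MM) (Matrix.mulVec (A - 1 : MM) v) = 0 := by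
  rw [N_apply, N_apply, Matrix.mulVec_add, h.AA]
  calc v + A *ᵥ v + (A *ᵥ v + v) = (v + v) + (A *ᵥ v + A *ᵥ v) := by abel
    _ = 0 := by rw [vadd_self, vadd_self, add_zero]

theorem adj (h : IsInv A) (u v : VV) : ff ((A - 1) *ᵥ u) v = ff u ((A - 1) *ᵥ v) := by
  rw [N_apply, N_apply, sympForm_add_left, sympForm_add_right]
  have h1 : ff (A *ᵥ u) v = ff u (A *ᵥ v) := by
    have := h.pres (A *ᵥ u) v
    rw [h.AA] at this
    exact this.symm
  rw [h1]

theorem psi_symm (h : IsInv A) (u v : VV) : psi A u v = psi A v u := by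
  rw [psi_apply, psi_apply, ← h.adj, ff_comm]

theorem N_eq_zero (h : IsInv A) {w : VV} (hw : ∀ u, psi A w u = 0) : Matrix.mulVec (A - 1 : MM) w = 0 := by
  apply ff_nondeg
  intro u
  rw [← psi_apply, h.psi_symm]
  exact hw u

end IsInv

/-- A frame for an involution. -/
structure Frame (A : MM) {ι : Type} [Fintype ι] [DecidableEq ι] (G H : Matrix ι ι F) (x : ι → VV) : Prop where
  gram : ∀ i j, psi A (x i) (x j) = G i j
  hg : H * G = 1
  span : ∀ v, ∃ α : ι → F, ∀ u, psi A (v - ∑ i, α i • x i) u = 0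

section frame

variable {ι : Type} [Fintype ι] [DecidableEq ι] {A : Matrix (Fin m ⊕ Fin m) (Fin m ⊕ Fin m) F} {G H : Matrix ι ι F} {x : ι → Fin m ⊕ Fin m → F}

theorem closed (hA : IsInv A) (hF : Frame A G H x) (v : VV) :
    (A - 1) *ᵥ v = ∑ j, ∑ k, (H j k * ff ((A - 1) *ᵥ x k) v) • ((A - 1) *ᵥ x j) := by
  obtain ⟨α, hα⟩ := hF.span v
  set w := v - ∑ i, α i • x i with hw
  have hw0 : (A - 1) *ᵥ w = (0 : VV) := hA.N_eq_zero hα
  have hv : v = w + ∑ i, α i • x i := by rw [hw]; abel
  have hNv : (A - 1) *ᵥ v = ∑ i, α i • ((A - 1) *ᵥ x i) := by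
    have e := map_sum (A - 1).mulVecLin (fun i => α i • x i) Finset.univ
    simp only [Matrix.mulVecLin_apply, Matrix.mulVec_smul] at e
    rw [hv, Matrix.mulVec_add, hw0, zero_add, e]
  have hc : ∀ k, ff ((A - 1) *ᵥ x k) v = ∑ i, G k i * α i := by
    intro k
    rw [hA.adj, ← psi_apply, hv, map_add, hA.psi_symm (x k) w, hα, zero_add, map_sum]
    refine Finset.sum_congr rfl fun i _ => ?_
    rw [map_smul, hF.gram, smul_eq_mul, mul_comm]
  have hHG : ∀ j, ∑ k, H j k * ∑ i, G k i * α i = α j := by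
    intro j
    have e : H *ᵥ (G *ᵥ α) = α := by rw [Matrix.mulVec_mulVec, hF.hg, Matrix.one_mulVec]
    have := congrFun e j
    simpa [Matrix.mulVec, dotProduct] using this
  rw [hNv]
  refine Finset.sum_congr rfl fun j _ => ?_
  rw [← Finset.sum_smul]
  simp only [hc, hHG]

theorem y_li (hF : Frame A G H x) : LinearIndependent F (fun i => (A - 1) *ᵥ x i) := by
  rw [Fintype.linearIndependent_iff]
  intro c hc i
  have h1 : ∀ k, ∑ j, G k j * c j = 0 := by
    intro k
    have e := map_sum (A - 1).mulVecLin (fun j => c j • x j) Finset.univ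
    simp only [Matrix.mulVecLin_apply, Matrix.mulVec_smul] at e
    have h2 : psi A (x k) (∑ j, c j • x j) = 0 := by
      rw [psi_apply, e, hc, ff_zero_right]
    rw [map_sum] at h2
    rw [← h2]
    refine Finset.sum_congr rfl fun j _ => ?_
    rw [map_smul, hF.gram, smul_eq_mul, mul_comm]
  have e : H *ᵥ (G *ᵥ c) = c := by rw [Matrix.mulVec_mulVec, hF.hg, Matrix.one_mulVec]
  have h3 : G *ᵥ c = 0 := by
    ext k
    simpa [Matrix.mulVec, dotProduct] using h1 k
  rw [h3, Matrix.mulVec_zero] at e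
  rw [← e]
  rfl

theorem y_ti (hA : IsInv A) (i j : ι) : ff ((A - 1) *ᵥ x i) ((A - 1) *ᵥ x j) = 0 := by
  rw [hA.adj, hA.NN, ff_zero_right]

theorem rank_eq (hA : IsInv A) (hF : Frame A G H x) : (A - 1).rank = Fintype.card ι := by
  have h1 : LinearMap.range (A - 1).mulVecLin = Submodule.span F (Set.range fun i => (A - 1) *ᵥ x i) := by
    apply le_antisymm
    · rintro _ ⟨v, rfl⟩
      rw [Matrix.mulVecLin_apply, closed hA hF v]
      refine Submodule.sum_mem _ fun j _ => Submodule.sum_mem _ fun k _ => ?_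
      exact Submodule.smul_mem _ _ (Submodule.subset_span ⟨j, rfl⟩)
    · rw [Submodule.span_le]
      rintro _ ⟨i, rfl⟩
      exact ⟨x i, rfl⟩
  show Module.finrank F (LinearMap.range (A - 1).mulVecLin) = _
  rw [h1, finrank_span_eq_card (y_li hF)]

theorem conj_of_frames {A' : MM} {x' : ι → VV} (hA : IsInv A) (hA' : IsInv A')
    (hF : Frame A G H x) (hF' : Frame A' G H x') (g : MM)
    (hg : ∀ u v, ff (g *ᵥ u) (g *ᵥ v) = ff u v)
    (hgy : ∀ i, g *ᵥ ((A - 1) *ᵥ x i) = (A' - 1) *ᵥ x' i) : g * A = A' * g := by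
  rw [Matrix.ext_iff_mulVec]
  intro v
  rw [← Matrix.mulVec_mulVec, ← Matrix.mulVec_mulVec]
  have e1 : A *ᵥ v = (A - 1) *ᵥ v + v := by
    rw [N_apply, add_assoc, vadd_self, add_zero]
  have e2 : A' *ᵥ (g *ᵥ v) = (A' - 1) *ᵥ (g *ᵥ v) + g *ᵥ v := by
    rw [N_apply, add_assoc, vadd_self, add_zero]
  rw [e1, e2, Matrix.mulVec_add]
  congr 1
  rw [closed hA hF v, closed hA' hF' (g *ᵥ v)]
  have e := map_sum g.mulVecLin (fun j => ∑ k, (H j k * ff ((A - 1) *ᵥ x k) v) • ((A - 1) *ᵥ x j)) Finset.univ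
  simp only [Matrix.mulVecLin_apply] at e
  rw [e]
  refine Finset.sum_congr rfl fun j _ => ?_
  have e' := map_sum g.mulVecLin (fun k => (H j k * ff ((A - 1) *ᵥ x k) v) • ((A - 1) *ᵥ x j)) Finset.univ
  simp only [Matrix.mulVecLin_apply] at e'
  rw [e']
  refine Finset.sum_congr rfl fun k _ => ?_
  rw [Matrix.mulVec_smul, hgy, ← hgy k, hg]

theorem isConj_of_frames {a b : Cfsg.Agent.Lib.SympTrans.Sp m F} {x' : ι → VV}
    (hA : IsInv (a : MM)) (hB : IsInv (b : MM))
    (hF : Frame (a : MM) G H x) (hF' : Frame (b : MM) G H x') : IsConj a b := by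
  let e := Fintype.equivFin ι
  have h1 : LinearIndependent F (fun i => ((a : MM) - 1) *ᵥ x (e.symm i)) :=
    (y_li hF).comp e.symm e.symm.injective
  have h2 : LinearIndependent F (fun i => ((b : MM) - 1) *ᵥ x' (e.symm i)) :=
    (y_li hF').comp e.symm e.symm.injective
  obtain ⟨g, hg⟩ := Cfsg.Agent.Lib.SpFrames.exists_sp_map h1 h2 (fun i j => y_ti hA _ _) (fun i j => y_ti hB _ _)
  rw [isConj_iff]
  refine ⟨g, ?_⟩
  rw [mul_inv_eq_iff_eq_mul]
  apply Subtype.ext
  exact conj_of_frames hA hB hF hF' (g : MM) ((preserves_iff_mem _).2 g.2) (fun i => by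
    simpa using hg (e i))

end frame

/-- The hyperbolic Gram matrix. -/
def hyp (s : ℕ) : Matrix (Fin s ⊕ Fin s) (Fin s ⊕ Fin s) F := Matrix.fromBlocks 0 1 1 0

theorem hyp_mul (s : ℕ) : hyp (F := F) s * hyp s = 1 := by
  rw [hyp, Matrix.fromBlocks_multiply]
  simp

theorem frame_alt {A : MM} (hA : IsInv A) (halt : ∀ v, psi A v v = 0) :
    ∃ (s : ℕ) (x : Fin s ⊕ Fin s → VV), Frame A (hyp s) (hyp s) x := by
  obtain ⟨s, k, b, h1, h2, h3, h4⟩ := Cfsg.Agent.S0752.result (psi A) halt
  refine ⟨s, fun i => b (Sum.inl i), ?_, hyp_mul s, ?_⟩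
  · rintro (i | i) (j | j)
    · simp [hyp, h2]
    · simp [hyp, h1, Matrix.one_apply]
    · rw [hA.psi_symm]
      simp [hyp, h1, Matrix.one_apply, eq_comm]
    · simp [hyp, h3]
  · intro v
    refine ⟨fun i => b.repr v (Sum.inl i), ?_⟩
    have e : v - ∑ i, b.repr v (Sum.inl i) • b (Sum.inl i) = ∑ j, b.repr v (Sum.inr j) • b (Sum.inr j) := by
      have e2 := b.sum_repr v
      rw [Fintype.sum_sum_type] at e2
      rw [sub_eq_iff_eq_add]
      exact e2.symm.trans (add_comm _ _)
    intro u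
    rw [e, map_sum, LinearMap.sum_apply]
    refine Finset.sum_eq_zero fun j _ => ?_
    simp [h4]

theorem frame_nonalt {A : MM} (hA : IsInv A) (hna : ∃ v, psi A v v ≠ 0) :
    ∃ (r : ℕ) (x : Fin r → VV), Frame A (1 : Matrix (Fin r) (Fin r) F) 1 x := by
  obtain ⟨r, x, h1, h2⟩ := albert (psi A) hA.psi_symm hna
  exact ⟨r, x, fun i j => by rw [h1, Matrix.one_apply], by simp, h2⟩

/-- Conjugacy in terms of the two invariants. -/
theorem isConj_of_inv {a b : Cfsg.Agent.Lib.SympTrans.Sp m F} (hA : IsInv (a : MM)) (hB : IsInv (b : MM))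
    (hr : ((a : MM) - 1).rank = ((b : MM) - 1).rank)
    (halt : (∀ v, psi (a : MM) v v = 0) ↔ (∀ v, psi (b : MM) v v = 0)) : IsConj a b := by
  by_cases h : ∀ v, psi (a : MM) v v = 0
  · obtain ⟨s, x, hx⟩ := frame_alt hA h
    obtain ⟨s', x', hx'⟩ := frame_alt hB (halt.1 h)
    rw [rank_eq hA hx, rank_eq hB hx'] at hr
    simp only [Fintype.card_sum, Fintype.card_fin] at hr
    obtain rfl : s = s' := by omega
    exact isConj_of_frames hA hB hx hx'
  · have h' : ¬ ∀ v, psi (b : MM) v v = 0 := fun h3 => h (halt.2 h3)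
    push Not at h h'
    obtain ⟨r, x, hx⟩ := frame_nonalt hA h
    obtain ⟨r', x', hx'⟩ := frame_nonalt hB h'
    rw [rank_eq hA hx, rank_eq hB hx'] at hr
    simp only [Fintype.card_fin] at hr
    subst hr
    exact isConj_of_frames hA hB hx hx'

theorem isInv_of_order (a : Cfsg.Agent.Lib.SympTrans.Sp m F) (ha : orderOf a = 2) : IsInv (a : MM) := by
  refine ⟨?_, (preserves_iff_mem _).2 a.2⟩
  have h0 : a ^ 2 = 1 := by rw [← ha]; exact pow_orderOf_eq_one a
  have h1 := congrArg (fun x : Cfsg.Agent.Lib.SympTrans.Sp m F => (x : MM)) h0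
  simpa [pow_two] using h1

/-- Conjugate involutions have the same rank. -/
theorem rank_of_conj {a b : Cfsg.Agent.Lib.SympTrans.Sp m F} (h : IsConj a b) :
    ((a : MM) - 1).rank = ((b : MM) - 1).rank := by
  obtain ⟨g, rfl⟩ := isConj_iff.1 h
  have hgu : IsUnit (g : MM) := (Group.isUnit g).map (Matrix.symplecticGroup (Fin m) F).subtype
  have hgd : IsUnit (g : MM).det := (Matrix.isUnit_iff_isUnit_det _).1 hgu
  have hgi : IsUnit ((g⁻¹ : Cfsg.Agent.Lib.SympTrans.Sp m F) : MM).det :=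
    (Matrix.isUnit_iff_isUnit_det _).1 ((Group.isUnit g⁻¹).map (Matrix.symplecticGroup (Fin m) F).subtype)
  have e : (((g * a * g⁻¹ : Cfsg.Agent.Lib.SympTrans.Sp m F) : MM) - 1) =
      (g : MM) * ((a : MM) - 1) * ((g⁻¹ : Cfsg.Agent.Lib.SympTrans.Sp m F) : MM) := by
    have e2 : (g : MM) * ((g⁻¹ : Cfsg.Agent.Lib.SympTrans.Sp m F) : MM) = 1 := by
      have := congrArg Subtype.val (mul_inv_cancel g)
      exact this
    show (g : MM) * (a : MM) * ((g⁻¹ : Cfsg.Agent.Lib.SympTrans.Sp m F) : MM) - 1 = _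
    rw [mul_sub, sub_mul, mul_one, e2]
  rw [e, Matrix.rank_mul_eq_left_of_isUnit_det _ _ hgi, Matrix.rank_mul_eq_right_of_isUnit_det _ _ hgd]

end inv

end Cfsg.Agent.Lib.SpInv
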