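import Cfsg.Agent.Lib.SzO
import Cfsg.Agent.Lib.ChevFrob
import Cfsg.Prelude.Def_Transfer

/-! The Suzuki groups: elementary abelian TI-subgroups. -/

set_option autoImplicit false
set_option linter.unusedVariables false
set_option linter.unusedSectionVars false
set_option linter.unusedFintypeInType false
set_option linter.unusedDecidableInType false

namespace Cfsg.Agent.Lib.SzP

open scoped LinearAlgebra.Projectivization Pointwise
open Matrix Cfsg Cfsg.Agent.Lib.SzA Cfsg.Agent.Lib.SzB Cfsg.Agent.Lib.SzC Cfsg.Agent.Lib.SzD Cfsg.Agent.Lib.SzE Cfsg.Agent.Lib.SzF Cfsg.Agent.Lib.SzG Cfsg.Agent.Lib.SzI Cfsg.Agent.Lib.SzJ Cfsg.Agent.Lib.SzM Cfsg.Agent.Lib.SzN Cfsg.Agent.Lib.SzO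

/-- Divisibility of Mersenne-type numbers. -/
theorem dvd_of_mersenne {n k : ℕ} (hn : n ≠ 0) (h : 2 ^ n - 1 ∣ 2 ^ k - 1) : n ∣ k := by
  have h1 := Nat.pow_sub_one_gcd_pow_sub_one 2 n k
  rw [Nat.gcd_eq_left h] at h1
  have h2 : 2 ^ n = 2 ^ Nat.gcd n k := by
    have p1 : 0 < 2 ^ n := by positivity
    have p2 : 0 < 2 ^ Nat.gcd n k := by positivity
    omega
  have h3 := Nat.pow_right_injective (le_refl 2) h2
  rw [h3]
  exact Nat.gcd_dvd_right n k

variable {F : Type*} [Field F] [Fintype F] [CharP F 2] {θ : F ≃+* F} {σ : ℕ}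

variable (H : Good θ σ)
include H

theorem tG_zero_mul (b d : F) : tG H 0 b * tG H 0 d = tG H 0 (b + d) := by
  rw [tG_mul H]
  simp

theorem tG_zero_one : tG H (0 : F) 0 = 1 := Subtype.ext T_one

/-- The subgroup attached to an additive subgroup. -/
def EE (A : AddSubgroup F) : Subgroup ↥(GG θ) where
  carrier := {g | ∃ b ∈ A, g = tG H 0 b}
  mul_mem' := by
    rintro _ _ ⟨b, hb, rfl⟩ ⟨d, hd, rfl⟩
    exact ⟨b + d, A.add_mem hb hd, tG_zero_mul H b d⟩
  one_mem' := ⟨0, A.zero_mem, (tG_zero_one H).symm⟩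
  inv_mem' := by
    rintro _ ⟨b, hb, rfl⟩
    refine ⟨b, hb, ?_⟩
    rw [tG_inv H]
    simp

theorem card_EE (A : AddSubgroup F) : Nat.card ↥(EE H A) = Nat.card ↥A := by
  symm
  apply Nat.card_congr
  refine Equiv.ofBijective (fun b => ⟨tG H 0 b.1, b.1, b.2, rfl⟩) ⟨?_, ?_⟩
  · rintro ⟨b, hb⟩ ⟨d, hd⟩ h
    have := tG_inj H (congrArg Subtype.val h)
    exact Subtype.ext this.2
  · rintro ⟨_, b, hb, rfl⟩
    exact ⟨⟨b, hb⟩, rfl⟩

theorem ea_EE (A : AddSubgroup F) : IsElementaryAbelian 2 (EE H A) := by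
  refine ⟨⟨⟨?_⟩⟩, ?_⟩
  · rintro ⟨_, b, hb, rfl⟩ ⟨_, d, hd, rfl⟩
    apply Subtype.ext
    show tG H 0 b * tG H 0 d = tG H 0 d * tG H 0 b
    rw [tG_zero_mul H, tG_zero_mul H, add_comm]
  · rintro _ ⟨b, hb, rfl⟩
    rw [pow_two, tG_zero_mul H]
    have : b + b = 0 := CharTwo.add_self_eq_zero b
    rw [this, tG_zero_one H]

/-- Conjugation formula. -/
theorem conj_zero (u v c w : F) (hc : c ≠ 0) :
    (tG H u v * dG H hc) * tG H 0 w * (tG H u v * dG H hc)⁻¹ = tG H 0 (c * θ c * w) := by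
  have h1 : dG H hc * tG H 0 w * (dG H hc)⁻¹ = tG H 0 (c * θ c * w) := by
    rw [d_t H]
    simp
  have h2 : tG H u v * tG H 0 (c * θ c * w) * (tG H u v)⁻¹ = tG H 0 (c * θ c * w) := by
    rw [tG_inv H, tG_mul H, tG_mul H]
    have e : tG H (u + 0 + u) (v + c * θ c * w + θ u * 0 + (v + u * θ u) + θ (u + 0) * u) = tG H 0 (c * θ c * w) := by
      congr 1
      · have : u + u = 0 := CharTwo.add_self_eq_zero u
        grind
      · have h2 : v + v = 0 := CharTwo.add_self_eq_zero v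
        have h3 : u * θ u + θ u * u = 0 := by
          rw [mul_comm]; exact CharTwo.add_self_eq_zero _
        simp only [add_zero, mul_zero]
        grind
    exact e
  rw [← h2, ← h1]
  group

theorem gamma_ne {c : F} (hc : c ≠ 0) : c * θ c ≠ 0 := mul_ne_zero hc (theta_ne_zero H hc)

/-- The forward direction's group theory: a TI-subgroup of `U` has scaling property. -/
theorem zero_of_sq {a b : F} (h : tG H a b * tG H a b = 1) : a = 0 := by
  have e : tG H a b * tG H a b = tG H 0 (a * θ a) := by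
    apply Subtype.ext
    exact t_sq H a b
  rw [e, ← tG_zero_one H] at h
  have := (tG_inj H h).2
  rcases mul_eq_zero.mp this with h | h
  · exact h
  · exact (map_eq_zero_iff θ θ.injective).mp h

/-- If the additive subgroup has the scaling property then `n ∣ d`. -/
theorem dvd_of_scaling (A : AddSubgroup F) {n d : ℕ} (hn : n ≠ 0) (hA : Nat.card ↥A = 2 ^ n) (hF : Fintype.card F = 2 ^ d)
    (hs : ∀ l : F, l ≠ 0 → (∃ b ∈ A, b ≠ 0 ∧ l * b ∈ A) → ∀ w ∈ A, l * w ∈ A) : n ∣ d := by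
  classical
  obtain ⟨b0, hb0, hb00⟩ : ∃ b ∈ A, b ≠ 0 := by
    by_contra hcon
    push Not at hcon
    have : A = ⊥ := by
      rw [AddSubgroup.eq_bot_iff_forall]
      exact hcon
    rw [this] at hA
    simp at hA
    have h2 : 2 ≤ 2 ^ n := by
      calc 2 = 2 ^ 1 := by norm_num
        _ ≤ 2 ^ n := Nat.pow_le_pow_right (by norm_num) (Nat.one_le_iff_ne_zero.2 hn)
    omega
  let S : Subgroup Fˣ :=
    { carrier := {l | ∀ w ∈ A, (l : F) * w ∈ A}
      mul_mem' := by
        intro a b ha hb w hw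
        have := ha _ (hb w hw)
        rwa [← mul_assoc] at this
      one_mem' := by
        intro w hw
        simpa using hw
      inv_mem' := by
        intro a ha
        apply hs _ (Units.ne_zero _)
        refine ⟨(a : F) * b0, ha _ hb0, mul_ne_zero (Units.ne_zero _) hb00, ?_⟩
        simpa using hb0 }
  have hcard : Nat.card S = Nat.card ↥A - 1 := by
    have e : Nat.card S = Nat.card {b : ↥A // b ≠ 0} := by
      apply Nat.card_congr
      refine Equiv.ofBijective (fun l => ⟨⟨(l.1 : F) * b0, l.2 b0 hb0⟩, ?_⟩) ⟨?_, ?_⟩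
      · intro h
        have := congrArg Subtype.val h
        simp only [ZeroMemClass.coe_zero] at this
        exact mul_ne_zero (Units.ne_zero _) hb00 this
      · rintro ⟨l, hl⟩ ⟨l', hl'⟩ h
        have := congrArg (fun z : {b : ↥A // b ≠ 0} => (z.1 : F)) h
        simp only at this
        apply Subtype.ext
        apply Units.ext
        exact mul_right_cancel₀ hb00 this
      · rintro ⟨⟨b, hb⟩, hb1⟩
        have hb2 : b ≠ 0 := fun e => hb1 (Subtype.ext e)
        have hl : b / b0 ≠ 0 := div_ne_zero hb2 hb00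
        refine ⟨⟨Units.mk0 _ hl, ?_⟩, ?_⟩
        · apply hs _ hl
          refine ⟨b0, hb0, hb00, ?_⟩
          rw [div_mul_cancel₀ _ hb00]
          exact hb
        · apply Subtype.ext
          apply Subtype.ext
          show b / b0 * b0 = b
          rw [div_mul_cancel₀ _ hb00]
    rw [e, Nat.card_eq_fintype_card, Fintype.card_subtype_compl]
    simp [Nat.card_eq_fintype_card]
  have hdvd : Nat.card S ∣ Nat.card Fˣ := Subgroup.card_subgroup_dvd_card S
  rw [Nat.card_eq_fintype_card (α := Fˣ), Fintype.card_units, hF, hcard, hA] at hdvd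
  exact dvd_of_mersenne hn hdvd

/-- The forward direction. -/
theorem forward {n d : ℕ} (hn : 2 ≤ n) (hF : Fintype.card F = 2 ^ d) (E : Subgroup ↥(GG θ)) (hE : IsElementaryAbelian 2 E)
    (hc : Nat.card ↥E = 2 ^ n)
    (hTI : ∀ x : ↥(GG θ), E ⊓ E.map (MulAut.conj x).toMonoidHom ≠ ⊥ → x ∈ Subgroup.normalizer (E : Set ↥(GG θ))) : n ∣ d := by
  haveI : Fact (Nat.Prime 2) := ⟨Nat.prime_two⟩
  have hp : IsPGroup 2 E := by
    intro g
    refine ⟨1, ?_⟩
    apply Subtype.ext
    simpa using hE.2 g.1 g.2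
  obtain ⟨P, hP⟩ := hp.exists_le_sylow
  obtain ⟨h, hh⟩ := sylow_conj H P
  -- the additive subgroup
  have hU : ∀ y ∈ E, ∃ b, h⁻¹ * y * h = tG H 0 b := by
    intro y hy
    obtain ⟨a, b, hab⟩ := (hh y).1 (hP hy)
    have hsq : tG H a b * tG H a b = 1 := by
      rw [← hab]
      have e : h⁻¹ * y * h * (h⁻¹ * y * h) = h⁻¹ * (y * y) * h := by group
      rw [e, ← pow_two, hE.2 y hy]
      group
    have ha := zero_of_sq H hsq
    subst ha
    exact ⟨b, hab⟩
  let A : AddSubgroup F :=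
    { carrier := {b | h * tG H 0 b * h⁻¹ ∈ E}
      add_mem' := by
        intro a b ha hb
        have := E.mul_mem ha hb
        have e : h * tG H 0 a * h⁻¹ * (h * tG H 0 b * h⁻¹) = h * (tG H 0 a * tG H 0 b) * h⁻¹ := by group
        rw [e, tG_zero_mul H] at this
        exact this
      zero_mem' := by
        show h * tG H 0 0 * h⁻¹ ∈ E
        rw [tG_zero_one H]
        simpa using E.one_mem
      neg_mem' := by
        intro a ha
        have e : -a = a := CharTwo.neg_eq a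
        rw [e]
        exact ha }
  have hcA : Nat.card ↥A = 2 ^ n := by
    rw [← hc]
    apply Nat.card_congr
    refine Equiv.ofBijective (fun b => ⟨h * tG H 0 b.1 * h⁻¹, b.2⟩) ⟨?_, ?_⟩
    · rintro ⟨b, hb⟩ ⟨d, hd⟩ e
      have e2 : h * tG H 0 b * h⁻¹ = h * tG H 0 d * h⁻¹ := congrArg Subtype.val e
      have e3 : tG H 0 b = tG H 0 d := by
        simpa using e2
      exact Subtype.ext (tG_inj H e3).2
    · rintro ⟨y, hy⟩
      obtain ⟨b, hb⟩ := hU y hy
      refine ⟨⟨b, ?_⟩, ?_⟩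
      · show h * tG H 0 b * h⁻¹ ∈ E
        rw [← hb]
        have : h * (h⁻¹ * y * h) * h⁻¹ = y := by group
        rwa [this]
      · apply Subtype.ext
        show h * tG H 0 b * h⁻¹ = y
        rw [← hb]
        group
  apply dvd_of_scaling H A (by omega) hcA hF
  intro l hl ⟨b, hb, hb0, hlb⟩ w hw
  obtain ⟨c, hc'⟩ := gamma_surj H l
  simp only at hc'
  have hc0 : c ≠ 0 := by
    rintro rfl
    apply hl
    rw [← hc']
    simp
  let x := h * dG H hc0 * h⁻¹
  have hconj : ∀ w, x * (h * tG H 0 w * h⁻¹) * x⁻¹ = h * tG H 0 (l * w) * h⁻¹ := by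
    intro w
    have := conj_zero H 0 0 c w hc0
    rw [tG_zero_one H, one_mul] at this
    rw [← hc', ← this]
    simp only [x]
    group
  have hx : x ∈ Subgroup.normalizer (E : Set ↥(GG θ)) := by
    apply hTI
    intro hbot
    have hmem : h * tG H 0 (l * b) * h⁻¹ ∈ E ⊓ E.map (MulAut.conj x).toMonoidHom := by
      refine ⟨hlb, ?_⟩
      refine ⟨h * tG H 0 b * h⁻¹, hb, ?_⟩
      show x * (h * tG H 0 b * h⁻¹) * x⁻¹ = _
      exact hconj b
    rw [hbot, Subgroup.mem_bot] at hmem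
    have e : tG H 0 (l * b) = tG H 0 0 := by
      rw [tG_zero_one H]
      have : tG H 0 (l * b) = h⁻¹ * (h * tG H 0 (l * b) * h⁻¹) * h := by group
      rw [this, hmem]
      group
    have := (tG_inj H e).2
    exact mul_ne_zero hl hb0 this
  have := (Subgroup.mem_normalizer_iff.1 hx (h * tG H 0 w * h⁻¹)).1 hw
  rw [hconj] at this
  exact this

/-- The backward direction. -/
theorem backward (A : AddSubgroup F) (hmul : ∀ a ∈ A, ∀ b ∈ A, a * b ∈ A) (hinv : ∀ a ∈ A, a⁻¹ ∈ A)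
    (x : ↥(GG θ)) (hx : EE H A ⊓ (EE H A).map (MulAut.conj x).toMonoidHom ≠ ⊥) :
    x ∈ Subgroup.normalizer ((EE H A : Subgroup ↥(GG θ)) : Set ↥(GG θ)) := by
  obtain ⟨e, he, he1⟩ : ∃ e, e ∈ EE H A ⊓ (EE H A).map (MulAut.conj x).toMonoidHom ∧ e ≠ 1 := by
    by_contra hcon
    push Not at hcon
    exact hx ((Subgroup.eq_bot_iff_forall _).2 hcon)
  obtain ⟨⟨b, hb, rfl⟩, ⟨_, ⟨b', hb', rfl⟩, hbb⟩⟩ := he
  have hbb' : x * tG H 0 b' * x⁻¹ = tG H 0 b := hbb
  have hb0 : b ≠ 0 := by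
    rintro rfl
    exact he1 (tG_zero_one H)
  have hb'0 : b' ≠ 0 := by
    rintro rfl
    rw [tG_zero_one H] at hbb'
    apply he1
    rw [← hbb']
    group
  have hfix : tG H 0 b • (x • p0 θ) = x • p0 θ := by
    rw [← hbb', mul_smul, mul_smul, inv_smul_smul]
    congr 1
    exact tG_mem_B H 0 b'
  have hxB : x ∈ BB θ := U_fix H (a := 0) (b := b) (by simp [hb0]) hfix
  obtain ⟨u, v, c, hc, rfl⟩ := (mem_B_iff H).1 hxB
  rw [conj_zero H] at hbb'
  have hl := (tG_inj H hbb').2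
  have hl0 : c * θ c ≠ 0 := gamma_ne H hc
  have hlA : c * θ c ∈ A := by
    have : c * θ c = b * b'⁻¹ := by
      rw [← hl]
      field_simp
    rw [this]
    exact hmul _ hb _ (hinv _ hb')
  rw [Subgroup.mem_normalizer_iff]
  intro k
  constructor
  · rintro ⟨w, hw, rfl⟩
    rw [conj_zero H]
    exact ⟨_, hmul _ hlA _ hw, rfl⟩
  · rintro ⟨w, hw, hk⟩
    have e : (tG H u v * dG H hc) * tG H 0 ((c * θ c)⁻¹ * w) * (tG H u v * dG H hc)⁻¹ = tG H 0 w := by
      rw [conj_zero H, ← mul_assoc, mul_inv_cancel₀ hl0, one_mul]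
    rw [← e] at hk
    have hk2 : k = tG H 0 ((c * θ c)⁻¹ * w) := by
      simpa using hk
    rw [hk2]
    exact ⟨_, hmul _ (hinv _ hlA) _ hw, rfl⟩

/-- The final equivalence. -/
theorem thm_TI {n d : ℕ} (hn : 2 ≤ n) (hd : d ≠ 0) (hF : Fintype.card F = 2 ^ d) :
    (∃ E : Subgroup ↥(GG θ), IsElementaryAbelian 2 E ∧ Nat.card ↥E = 2 ^ n ∧
      ∀ x : ↥(GG θ), E ⊓ E.map (MulAut.conj x).toMonoidHom ≠ ⊥ → x ∈ Subgroup.normalizer (E : Set ↥(GG θ))) ↔ n ∣ d := by
  constructor
  · rintro ⟨E, h1, h2, h3⟩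
    exact forward H hn hF E h1 h2 h3
  · rintro ⟨k, rfl⟩
    have hk : k ≠ 0 := by
      rintro rfl
      simp at hd
    haveI : Fact (Nat.Prime 2) := ⟨Nat.prime_two⟩
    let A : AddSubgroup F :=
      { carrier := {b | b ^ (2 ^ n) = b}
        add_mem' := by
          intro a b ha hb
          show (a + b) ^ (2 ^ n) = a + b
          rw [add_pow_char_pow, ha, hb]
        zero_mem' := by
          show (0 : F) ^ (2 ^ n) = 0
          exact zero_pow (by positivity)
        neg_mem' := by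
          intro a ha
          have e : -a = a := CharTwo.neg_eq a
          rw [e]
          exact ha }
    have hA : Nat.card ↥A = 2 ^ n := by
      have hq : IsPrimePow (2 ^ n) := (Nat.prime_two.isPrimePow).pow (by omega)
      have := Cfsg.Agent.Lib.ChevFrob.count_one (F := F) (q := 2 ^ n) (d := k) hq hk (by rw [hF, pow_mul])
      rw [← this]
      rfl
    refine ⟨EE H A, ea_EE H A, by rw [card_EE H, hA], ?_⟩
    apply backward H A
    · intro a ha b hb
      show (a * b) ^ (2 ^ n) = a * b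
      rw [mul_pow, ha, hb]
    · intro a ha
      show a⁻¹ ^ (2 ^ n) = a⁻¹
      rw [inv_pow, ha]

end Cfsg.Agent.Lib.SzP
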