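import Mathlib
import Cfsg.Prelude.Def_Transfer
import Cfsg.Agent.Lib.PNilp
import Cfsg.Agent.Lib.PNilp2

set_option autoImplicit false
set_option linter.unusedSectionVars false

namespace Cfsg.Agent.Lib.TDih

open Subgroup Cfsg

/-- A semiregular element of order `2^j` with an odd number of cycles on a coset space has
sign `-1`. -/
theorem sign_hom {Γ : Type*} [Group Γ] [Finite Γ] (A : Subgroup Γ) (u : Γ) (j : ℕ) (hj : 1 ≤ j)
    (hu : orderOf u = 2 ^ j)
    (hfree : ∀ i : ℕ, u ^ i ≠ 1 → ∀ g : Γ, g * u ^ i * g⁻¹ ∉ A)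
    (hA : ¬ 2 ^ (j + 1) ∣ A.index) : ∃ φ : Γ →* ℤˣ, φ u = -1 := by
  classical
  haveI := Fintype.ofFinite (Γ ⧸ A)
  let ρ : Γ →* Equiv.Perm (Γ ⧸ A) := MulAction.toPermHom Γ (Γ ⧸ A)
  refine ⟨(Equiv.Perm.sign).comp ρ, ?_⟩
  change Equiv.Perm.sign (ρ u) = -1
  set σ : Equiv.Perm (Γ ⧸ A) := ρ u with hσ
  have hpow : ∀ n : ℕ, ∀ g : Γ, (σ ^ n) (g : Γ ⧸ A) = ((u ^ n * g : Γ) : Γ ⧸ A) := by
    intro n g
    rw [hσ, ← map_pow]
    rfl
  have hfix : ∀ n : ℕ, ∀ a : Γ ⧸ A, (σ ^ n) a = a → u ^ n = 1 := by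
    intro n a h
    obtain ⟨g, rfl⟩ := QuotientGroup.mk_surjective a
    by_contra hne
    rw [hpow] at h
    have h1 : (u ^ n * g)⁻¹ * g ∈ A := QuotientGroup.eq.1 h
    have h2 := inv_mem h1
    apply hfree n hne g⁻¹
    have : g⁻¹ * u ^ n * g⁻¹⁻¹ = ((u ^ n * g)⁻¹ * g)⁻¹ := by group
    rw [this]
    exact h2
  have hu1 : u ≠ 1 := by
    rintro rfl
    rw [orderOf_one] at hu
    have : 2 ≤ 2 ^ j := by
      calc 2 = 2 ^ 1 := by norm_num
        _ ≤ 2 ^ j := Nat.pow_le_pow_right (by norm_num) hj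
    omega
  have hσord : orderOf σ ∣ 2 ^ j := by
    apply orderOf_dvd_of_pow_eq_one
    rw [hσ, ← map_pow, ← hu, pow_orderOf_eq_one, map_one]
  have hcyc : ∀ n ∈ σ.cycleType, n = 2 ^ j := by
    intro n hn
    apply Nat.dvd_antisymm ((Equiv.Perm.dvd_of_mem_cycleType hn).trans hσord)
    rw [Equiv.Perm.mem_cycleType_iff] at hn
    obtain ⟨c, τ, hστ, hd, hc, hcard⟩ := hn
    obtain ⟨a, ha, -⟩ := id hc
    have hτa : τ a = a := (hd a).resolve_left ha
    have ho : orderOf c = n := by rw [hc.orderOf, hcard]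
    have h1 : (σ ^ n) a = a := by
      rw [hστ, hd.commute.mul_pow, ← ho, pow_orderOf_eq_one, one_mul]
      exact Equiv.Perm.pow_apply_eq_self_of_apply_eq_self hτa _
    have h2 := hfix n a h1
    rw [← hu]
    exact orderOf_dvd_of_pow_eq_one h2
  have hsup : σ.support = Finset.univ := by
    ext a
    simp only [Equiv.Perm.mem_support, Finset.mem_univ, iff_true]
    intro h
    apply hu1
    have := hfix 1 a (by simpa using h)
    simpa using this
  have hsum : σ.cycleType.sum = A.index := by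
    rw [Equiv.Perm.sum_cycleType, hsup, Finset.card_univ, Subgroup.index_eq_card,
      Fintype.card_eq_nat_card]
  have hrep := Multiset.eq_replicate_card.2 hcyc
  have hsum2 : σ.cycleType.sum = σ.cycleType.card * 2 ^ j := by
    conv_lhs => rw [hrep]
    rw [Multiset.sum_replicate, smul_eq_mul]
  have hodd : Odd σ.cycleType.card := by
    by_contra hne
    rw [Nat.not_odd_iff_even] at hne
    obtain ⟨r, hr⟩ := hne
    apply hA
    rw [← hsum, hsum2, hr]
    exact ⟨r, by ring⟩
  have hev : Even (σ.cycleType.card * 2 ^ j) :=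
    Even.mul_left (even_two.pow_of_ne_zero (by omega)) _
  rw [Equiv.Perm.sign_of_cycleType, hsum2]
  exact (hev.add_odd hodd).neg_one_pow

theorem isPGroup_units : IsPGroup 2 ℤˣ := by
  refine IsPGroup.of_card (n := 1) ?_
  simp [Nat.card_eq_fintype_card]

theorem no_sign {Γ : Type*} [Group Γ] [Finite Γ] (hres : pResidual 2 Γ = ⊤) (φ : Γ →* ℤˣ) (u : Γ) :
    φ u ≠ -1 := by
  have h : pResidual 2 Γ ≤ φ.ker := PNilp.pResidual_le_ker isPGroup_units φ
  rw [hres] at h
  have : φ u = 1 := h (mem_top u)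
  rw [this]
  decide

theorem zmod2_aux : ∀ i : ZMod 2, i * ((2 : ℕ) : ZMod 2) = 0 := by decide

/-- In a dihedral group, elements outside a cyclic subgroup of index two are involutions. -/
theorem dih_outside_aux (n : ℕ) (hn : 2 ≤ n) (C' : Subgroup (DihedralGroup n)) (hc : IsCyclic C')
    (hi : C'.index = 2) (z : DihedralGroup n) (hz : z ∉ C') : orderOf z = 2 := by
  haveI : NeZero n := ⟨by omega⟩
  haveI : Finite (DihedralGroup n) := inferInstance
  cases z with
  | sr i => exact DihedralGroup.orderOf_sr i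
  | r i =>
    have hne : (DihedralGroup.r i : DihedralGroup n) ≠ 1 := by
      intro h
      apply hz
      rw [h]
      exact one_mem _
    rcases hn.eq_or_lt with rfl | hn3
    · haveI : Fact (Nat.Prime 2) := ⟨Nat.prime_two⟩
      apply orderOf_eq_prime _ hne
      rw [DihedralGroup.r_pow]
      rw [zmod2_aux i]
      rfl
    · exfalso
      obtain ⟨g, hg⟩ := hc.exists_generator
      have h1 : orderOf g = Nat.card C' := orderOf_eq_card_of_forall_mem_zpowers hg
      have h2 : Nat.card C' * C'.index = 2 * n := by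
        rw [Subgroup.card_mul_index, DihedralGroup.nat_card]
      rw [hi] at h2
      have h3 : Nat.card C' = n := by omega
      have h4 : orderOf (g : DihedralGroup n) = n := by
        rw [Subgroup.orderOf_coe, h1, h3]
      let R : Subgroup (DihedralGroup n) := zpowers (DihedralGroup.r 1)
      have hR : Nat.card R = n := by
        change Nat.card (zpowers _) = n
        rw [Nat.card_zpowers, DihedralGroup.orderOf_r_one]
      have hgR : (g : DihedralGroup n) ∈ R := by
        cases hgg : (g : DihedralGroup n) with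
        | sr j =>
          rw [hgg, DihedralGroup.orderOf_sr] at h4
          omega
        | r k =>
          refine ⟨(k.val : ℤ), ?_⟩
          simp only [DihedralGroup.r_one_zpow]
          simp
      have hle : C' ≤ R := by
        intro x hx
        obtain ⟨m, hm⟩ := hg ⟨x, hx⟩
        have : x = (g : DihedralGroup n) ^ m := by
          have := congrArg Subtype.val hm
          simpa using this.symm
        rw [this]
        exact zpow_mem hgR m
      have heq : C' = R := Subgroup.eq_of_le_of_card_ge hle (by rw [hR, h3])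
      apply hz
      rw [heq]
      refine ⟨(i.val : ℤ), ?_⟩
      simp only [DihedralGroup.r_one_zpow]
      simp

theorem dih_outside {G : Type*} [Group G] [Finite G] {D C : Subgroup G}
    (hDih : ∃ n : ℕ, 2 ≤ n ∧ Nonempty (↥D ≃* DihedralGroup n)) (hCD : C ≤ D) (hC : IsCyclic ↥C)
    (hCi : C.relIndex D = 2) (x : G) (hx : x ∈ D) (hxC : x ∉ C) : orderOf x = 2 := by
  obtain ⟨n, hn, ⟨e⟩⟩ := hDih
  let C₁ : Subgroup ↥D := C.subgroupOf D
  haveI : IsCyclic C₁ := isCyclic_of_surjective (subgroupOfEquivOfLe hCD).symm.toMonoidHom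
    (subgroupOfEquivOfLe hCD).symm.surjective
  let C' : Subgroup (DihedralGroup n) := C₁.map e.toMonoidHom
  have hc' : IsCyclic C' := isCyclic_of_surjective (e.toMonoidHom.subgroupMap C₁)
    (e.toMonoidHom.subgroupMap_surjective C₁)
  have hi : C'.index = 2 := by
    rw [← hCi]
    exact Subgroup.index_map_of_bijective e.bijective _
  have hz : e ⟨x, hx⟩ ∉ C' := by
    rintro ⟨w, hw, hwe⟩
    have : w = ⟨x, hx⟩ := e.injective hwe
    subst this
    exact hxC hw
  have := dih_outside_aux n hn C' hc' hi _ hz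
  rw [MulEquiv.orderOf_eq] at this
  rwa [Subgroup.orderOf_mk] at this

/-- Products of two trivially intersecting subgroups. -/
def mulMap {G : Type*} [Group G] (A B M : Subgroup G) (hA : A ≤ M) (hB : B ≤ M) : A × B → M :=
  fun p => ⟨p.1 * p.2, mul_mem (hA p.1.2) (hB p.2.2)⟩

theorem mulMap_inj {G : Type*} [Group G] {A B M : Subgroup G} (hA : A ≤ M) (hB : B ≤ M)
    (hAB : A ⊓ B = ⊥) : Function.Injective (mulMap A B M hA hB) := by
  rintro ⟨a, b⟩ ⟨a', b'⟩ h
  have h1 : (a : G) * b = a' * b' := congrArg Subtype.val h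
  have h2 : (a' : G)⁻¹ * a = b' * (b : G)⁻¹ := by
    calc (a' : G)⁻¹ * a = (a' : G)⁻¹ * (a * b) * (b : G)⁻¹ := by group
      _ = b' * (b : G)⁻¹ := by rw [h1]; group
  have h3 : (a' : G)⁻¹ * a ∈ A ⊓ B :=
    Subgroup.mem_inf.2 ⟨A.mul_mem (A.inv_mem a'.2) a.2, by rw [h2]; exact B.mul_mem b'.2 (B.inv_mem b.2)⟩
  rw [hAB, mem_bot] at h3
  have ha : (a : G) = a' := by
    rw [inv_mul_eq_one] at h3
    exact h3.symm
  have hb : (b : G) = b' := by
    rw [ha] at h1
    exact mul_left_cancel h1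
  exact Prod.ext (Subtype.ext ha) (Subtype.ext hb)

theorem card_mul_rel {G : Type*} [Group G] {H K : Subgroup G} (h : H ≤ K) :
    Nat.card H * H.relIndex K = Nat.card K := by
  rw [Subgroup.relIndex, ← Subgroup.card_mul_index (H.subgroupOf K)]
  congr 1
  exact Nat.card_congr (Subgroup.subgroupOfEquivOfLe h).toEquiv.symm

theorem main {G : Type*} [Group G] [Finite G] (L T S D C : Subgroup G) (hL : Cfsg.pResidual 2 ↥L = ⊤)
    (hTL : T ≤ L) (hT2 : IsPGroup 2 T) (hTsyl : ¬ 2 ∣ T.relIndex L)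
    (hS2 : IsPGroup 2 S) (hSsyl : ¬ 2 ∣ S.index) (hTS : T ≤ S)
    (hDS : D ≤ S) (hDih : ∃ n : ℕ, 2 ≤ n ∧ Nonempty (↥D ≃* DihedralGroup n)) (hDT : D ⊓ T = ⊥) (hTD : T ⊔ D = S) (hTDc : Nat.card T * Nat.card D = Nat.card S)
    (hCD : C ≤ D) (hC : IsCyclic ↥C) (hCi : C.relIndex D = 2)
    (h1 : ∀ x ∈ D, x ∉ C → orderOf x = 2 → ∀ g : G, g * x * g⁻¹ ∈ T ⊔ C → False)
    (h2 : ∀ c ∈ C, orderOf c = 2 → ∀ g : G, g * c * g⁻¹ ∈ T → False) :
    ∃ K : Subgroup G, K.Normal ∧ K ⊔ D = ⊤ ∧
      ∀ T' : Subgroup G, T' ≤ L → IsPGroup 2 T' → ¬ 2 ∣ T'.relIndex L → T' ≤ K ∧ ¬ 2 ∣ T'.relIndex K := by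
  classical
  haveI : Fact (Nat.Prime 2) := ⟨Nat.prime_two⟩
  let K : Subgroup G := pResidual 2 G
  haveI hKn : K.Normal := PNilp.pResidual_normal
  have hKres : pResidual 2 K = ⊤ := PNilp.pResidual_pResidual
  have hLK : L ≤ K := by
    intro l hl
    apply PNilp2.pResidual_map_le (p := 2) L
    exact ⟨⟨l, hl⟩, by rw [hL]; exact mem_top _, rfl⟩
  have hTK : T ≤ K := hTL.trans hLK
  have hSK : (S : Subgroup G) ⊔ K = ⊤ := PNilp.sylow_sup_pResidual (hS2.toSylow hSsyl)
  have hcardpos : ∀ H : Subgroup G, 0 < Nat.card H := fun H => Nat.card_pos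
  -- the index of `S` in `K`
  have hro : S.relIndex K = S.index := by
    have e1 : K.relIndex S = K.index := by
      rw [← Subgroup.relIndex_sup_right S K, hSK, Subgroup.relIndex_top_right]
    have e2 : Nat.card (S ⊓ K : Subgroup G) * K.relIndex S = Nat.card S := by
      rw [← Subgroup.inf_relIndex_right K S, inf_comm K S]
      exact card_mul_rel inf_le_left
    have e3 : Nat.card K * K.index = Nat.card G := Subgroup.card_mul_index K
    have e4 : Nat.card S * S.index = Nat.card G := Subgroup.card_mul_index S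
    have e5 : Nat.card (S ⊓ K : Subgroup G) * S.relIndex K = Nat.card K := by
      rw [← Subgroup.inf_relIndex_right S K]
      exact card_mul_rel inf_le_right
    have hpos : 0 < K.index := Nat.pos_of_ne_zero Subgroup.index_ne_zero_of_finite
    have hpos2 := hcardpos (S ⊓ K)
    rw [e1] at e2
    have : Nat.card (S ⊓ K : Subgroup G) * K.index * S.relIndex K
        = Nat.card (S ⊓ K : Subgroup G) * K.index * S.index := by
      calc _ = (Nat.card (S ⊓ K : Subgroup G) * S.relIndex K) * K.index := by ring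
        _ = Nat.card G := by rw [e5, e3]
        _ = Nat.card S * S.index := e4.symm
        _ = _ := by rw [e2]
    exact Nat.eq_of_mul_eq_mul_left (Nat.mul_pos hpos2 hpos) this
  have hodd : ¬ 2 ∣ S.relIndex K := by rw [hro]; exact hSsyl
  have hprod : ∀ s ∈ S, ∃ t ∈ T, ∃ d ∈ D, t * d = s := by
    have hTD' : T ⊓ D = ⊥ := by rw [inf_comm]; exact hDT
    have hb := (Nat.bijective_iff_injective_and_card (mulMap T D S hTS hDS)).2
      ⟨mulMap_inj hTS hDS hTD', by rw [Nat.card_prod, hTDc]⟩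
    intro s hs
    obtain ⟨⟨t, d⟩, hp⟩ := hb.2 ⟨s, hs⟩
    exact ⟨t, t.2, d, d.2, congrArg Subtype.val hp⟩
  have hD2 : D ⊓ K = ⊥ := by
    by_contra hne
    have hHle : T ⊔ C ≤ S := sup_le hTS (hCD.trans hDS)
    have hHi : (T ⊔ C).relIndex S ≤ 2 := by
      have hTC' : T ⊓ C = ⊥ := by
        rw [eq_bot_iff]
        intro z hz
        rw [← hDT]
        exact Subgroup.mem_inf.2 ⟨hCD (Subgroup.mem_inf.1 hz).2, (Subgroup.mem_inf.1 hz).1⟩
      have hinj := mulMap_inj (M := T ⊔ C) le_sup_left le_sup_right hTC'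
      have hle := Nat.card_le_card_of_injective _ hinj
      rw [Nat.card_prod] at hle
      have e1 : Nat.card C * C.relIndex D = Nat.card D := card_mul_rel hCD
      rw [hCi] at e1
      have e2 := card_mul_rel hHle
      rw [← hTDc, ← e1] at e2
      have hp := hcardpos (T ⊔ C)
      by_contra hgt
      have hgt : 3 ≤ (T ⊔ C).relIndex S := by omega
      have : Nat.card (T ⊔ C : Subgroup G) * 3 ≤ Nat.card (T ⊔ C : Subgroup G) * (T ⊔ C).relIndex S :=
        Nat.mul_le_mul_left _ hgt
      have e3 : Nat.card T * (Nat.card C * 2) = 2 * (Nat.card T * Nat.card C) := by ring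
      rw [e3] at e2
      omega
    by_cases hsub : D ⊓ K ≤ C
    · -- the cyclic case
      haveI := hC
      haveI : IsCyclic ↥(D ⊓ K : Subgroup G) := Subgroup.isCyclic_of_le hsub
      obtain ⟨y, hy⟩ := IsCyclic.exists_generator (α := ↥(D ⊓ K : Subgroup G))
      have hoy : orderOf y = Nat.card ↥(D ⊓ K : Subgroup G) := orderOf_eq_card_of_forall_mem_zpowers hy
      have hD2p : IsPGroup 2 ↥(D ⊓ K : Subgroup G) := hS2.to_le (inf_le_left.trans hDS)
      obtain ⟨j, hjc⟩ := IsPGroup.iff_card.1 hD2p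
      have hj : 1 ≤ j := by
        by_contra hlt
        have : j = 0 := by omega
        subst this
        exact hne (Subgroup.eq_bot_of_card_eq _ (by simpa using hjc))
      have hyK : (y : G) ∈ K := (Subgroup.mem_inf.1 y.2).2
      have hyC : ∀ i : ℕ, (y : G) ^ i ∈ C := fun i => pow_mem (hsub y.2) i
      let u : K := ⟨y, hyK⟩
      have hu : orderOf u = 2 ^ j := by
        rw [Subgroup.orderOf_mk, Subgroup.orderOf_coe, hoy, hjc]
      have hfree : ∀ i : ℕ, u ^ i ≠ 1 → ∀ g : K, g * u ^ i * g⁻¹ ∉ T.subgroupOf K := by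
        intro i hi g hg
        rw [Subgroup.mem_subgroupOf] at hg
        have hg' : (g : G) * (y : G) ^ i * (g : G)⁻¹ ∈ T := by simpa [u] using hg
        have hw : (y : G) ^ i ≠ 1 := by
          intro h
          apply hi
          apply Subtype.ext
          simpa [u] using h
        have hwo : orderOf ((y : G) ^ i) ∣ 2 ^ j := by
          apply orderOf_dvd_of_pow_eq_one
          have : (y : G) ^ (2 ^ j) = 1 := by
            have h3 := pow_orderOf_eq_one u
            rw [hu] at h3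
            simpa [u] using congrArg Subtype.val h3
          rw [← pow_mul, mul_comm, pow_mul, this, one_pow]
        obtain ⟨k, -, hk⟩ := (Nat.dvd_prime_pow Nat.prime_two).1 hwo
        have hk1 : k ≠ 0 := by
          rintro rfl
          rw [pow_zero, orderOf_eq_one_iff] at hk
          exact hw hk
        have h2d : 2 ∣ orderOf ((y : G) ^ i) := by
          rw [hk]
          exact dvd_pow_self 2 hk1
        have hco := orderOf_pow_orderOf_div (orderOf_pos ((y : G) ^ i)).ne' h2d
        apply h2 _ (pow_mem (hyC i) _) hco (g : G)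
        rw [← conj_pow]
        exact pow_mem hg' _
      have hA : ¬ 2 ^ (j + 1) ∣ (T.subgroupOf K).index := by
        change ¬ 2 ^ (j + 1) ∣ T.relIndex K
        have hTle : T ≤ S ⊓ K := le_inf hTS hTK
        have e1 := Subgroup.relIndex_mul_relIndex T (S ⊓ K) K hTle inf_le_right
        rw [Subgroup.inf_relIndex_right] at e1
        have e2 : Nat.card T * T.relIndex (S ⊓ K) = Nat.card (S ⊓ K : Subgroup G) := card_mul_rel hTle
        have e3 : Nat.card T * Nat.card (D ⊓ K : Subgroup G) = Nat.card (S ⊓ K : Subgroup G) := by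
          have hTD2 : T ⊓ (D ⊓ K) = ⊥ := by
            rw [eq_bot_iff]
            intro z hz
            rw [← hDT]
            have := Subgroup.mem_inf.1 hz
            exact Subgroup.mem_inf.2 ⟨(Subgroup.mem_inf.1 this.2).1, this.1⟩
          have hD2S : D ⊓ K ≤ S ⊓ K := inf_le_inf_right _ hDS
          rw [← Nat.card_prod]
          refine Nat.card_congr (Equiv.ofBijective (mulMap T (D ⊓ K) (S ⊓ K) hTle hD2S)
            ⟨mulMap_inj hTle hD2S hTD2, ?_⟩)
          rintro ⟨s, hs⟩
          obtain ⟨hsS, hsK⟩ := Subgroup.mem_inf.1 hs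
          obtain ⟨t, ht, d, hd, rfl⟩ := hprod s hsS
          have hdK : d ∈ K := by
            have := K.mul_mem (K.inv_mem (hTK ht)) hsK
            simpa using this
          exact ⟨(⟨t, ht⟩, ⟨d, Subgroup.mem_inf.2 ⟨hd, hdK⟩⟩), rfl⟩
        have e4 : T.relIndex (S ⊓ K) = 2 ^ j := by
          rw [← hjc]
          exact Nat.eq_of_mul_eq_mul_left (hcardpos T) (e2.trans e3.symm)
        rw [← e1, e4, pow_succ]
        intro hd
        exact hodd (Nat.dvd_of_mul_dvd_mul_left (pow_pos (by norm_num) j) hd)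
      obtain ⟨φ, hφ⟩ := sign_hom (T.subgroupOf K) u j hj hu hfree hA
      exact no_sign hKres φ u hφ
    · -- the reflection case
      obtain ⟨x, hx, hxC⟩ := SetLike.not_le_iff_exists.1 hsub
      obtain ⟨hxD, hxK⟩ := Subgroup.mem_inf.1 hx
      have hxo : orderOf x = 2 := dih_outside hDih hCD hC hCi x hxD hxC
      let u : K := ⟨x, hxK⟩
      have hu : orderOf u = 2 ^ 1 := by
        rw [Subgroup.orderOf_mk, hxo, pow_one]
      have hu2 : u ^ 2 = 1 := by
        have := pow_orderOf_eq_one u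
        rwa [hu, pow_one] at this
      have hfree : ∀ i : ℕ, u ^ i ≠ 1 → ∀ g : K, g * u ^ i * g⁻¹ ∉ (T ⊔ C).subgroupOf K := by
        intro i hi g hg
        obtain ⟨m, rfl | rfl⟩ := Nat.even_or_odd' i
        · apply hi
          rw [pow_mul, hu2, one_pow]
        · rw [pow_succ, pow_mul, hu2, one_pow, one_mul, Subgroup.mem_subgroupOf] at hg
          apply h1 x hxD hxC hxo (g : G)
          simpa [u] using hg
      have hA : ¬ 2 ^ (1 + 1) ∣ ((T ⊔ C).subgroupOf K).index := by
        change ¬ 2 ^ (1 + 1) ∣ (T ⊔ C).relIndex K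
        set H : Subgroup G := T ⊔ C with hH
        have hle : H ⊓ K ≤ S ⊓ K := inf_le_inf_right _ hHle
        have e1 := Subgroup.relIndex_mul_relIndex (H ⊓ K) (S ⊓ K) K hle inf_le_right
        rw [Subgroup.inf_relIndex_right, Subgroup.inf_relIndex_right] at e1
        have e2 : (H ⊓ K).relIndex (S ⊓ K) = H.relIndex (S ⊓ K) := by
          rw [← Subgroup.inf_relIndex_right H (S ⊓ K)]
          congr 1
          ext z
          simp only [Subgroup.mem_inf]
          exact ⟨fun h => ⟨h.1, hHle h.1, h.2⟩, fun h => ⟨h.1, h.2.2⟩⟩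
        have hne0 : H.relIndex S ≠ 0 := Subgroup.index_ne_zero_of_finite
        have e3 : H.relIndex (S ⊓ K) ≤ H.relIndex S :=
          Subgroup.relIndex_le_of_le_right inf_le_left hne0
        have hne1 : H.relIndex (S ⊓ K) ≠ 0 := Subgroup.index_ne_zero_of_finite
        rw [e2] at e1
        rw [← e1]
        intro hd
        have h4 : H.relIndex (S ⊓ K) ≤ 2 := e3.trans hHi
        have hd' : 4 ∣ H.relIndex (S ⊓ K) * S.relIndex K := by simpa using hd
        rcases (by omega : H.relIndex (S ⊓ K) = 1 ∨ H.relIndex (S ⊓ K) = 2) with h | h <;>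
          rw [h] at hd' <;> omega
      obtain ⟨φ, hφ⟩ := sign_hom ((T ⊔ C).subgroupOf K) u 1 le_rfl hu hfree hA
      exact no_sign hKres φ u hφ
  refine ⟨K, hKn, ?_, ?_⟩
  · rw [eq_top_iff, ← hSK, ← hTD]
    exact sup_le (sup_le (hTK.trans le_sup_left) le_sup_right) le_sup_left
  · intro T' hT'L hT'2 hT'syl
    refine ⟨hT'L.trans hLK, ?_⟩
    have hinf : S ⊓ K = T := by
      apply le_antisymm
      · intro s hs
        obtain ⟨hsS, hsK⟩ := Subgroup.mem_inf.1 hs
        obtain ⟨t, ht, d, hd, rfl⟩ := hprod s hsS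
        have hdK : d ∈ K := by
          have := K.mul_mem (K.inv_mem (hTK ht)) hsK
          simpa using this
        have : d ∈ D ⊓ K := Subgroup.mem_inf.2 ⟨hd, hdK⟩
        rw [hD2, mem_bot] at this
        rw [this, mul_one]
        exact ht
      · exact le_inf hTS hTK
    have e1 : T.relIndex K = S.relIndex K := by
      rw [← hinf, Subgroup.inf_relIndex_right]
    have e2 := card_mul_rel (hTL.trans hLK)
    have e3 := card_mul_rel (hT'L.trans hLK)
    have e4 := card_mul_rel hTL
    have e5 := card_mul_rel hT'L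
    obtain ⟨a, ha⟩ := IsPGroup.iff_card.1 hT2
    obtain ⟨b, hb⟩ := IsPGroup.iff_card.1 hT'2
    have hcop1 : Nat.Coprime (Nat.card T) (T'.relIndex L) := by
      rw [ha]
      exact Nat.Coprime.pow_left _ ((Nat.Prime.coprime_iff_not_dvd Nat.prime_two).2 hT'syl)
    have hcop2 : Nat.Coprime (Nat.card T') (T.relIndex L) := by
      rw [hb]
      exact Nat.Coprime.pow_left _ ((Nat.Prime.coprime_iff_not_dvd Nat.prime_two).2 hTsyl)
    have hd1 : Nat.card T ∣ Nat.card T' :=
      hcop1.dvd_of_dvd_mul_right ⟨T.relIndex L, by rw [e5, e4]⟩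
    have hd2 : Nat.card T' ∣ Nat.card T :=
      hcop2.dvd_of_dvd_mul_right ⟨T'.relIndex L, by rw [e5, e4]⟩
    have hcc : Nat.card T' = Nat.card T := Nat.dvd_antisymm hd2 hd1
    have e6 : T'.relIndex K = T.relIndex K := by
      apply Nat.eq_of_mul_eq_mul_left (hcardpos T)
      rw [e2, ← hcc, e3]
    rw [e6, e1]
    exact hodd

end Cfsg.Agent.Lib.TDih
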