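import Mathlib
import Cfsg.Agent.Lib.H1Frat
set_option autoImplicit false

/-! Taussky: a finite 2-group with commutator subgroup of index 4 has a cyclic subgroup of index 2. -/

namespace Cfsg.Agent.Lib.Taussky
open Subgroup
open scoped commutatorElement
universe u

theorem comm_le_of {S : Type*} [Group S] (L : Subgroup S) [hL : L.Normal] (A : Subgroup S)
    (hA : ∀ x ∈ A, ∀ y ∈ A, x * y = y * x) (g : S) (hform : ∀ u, u ∈ A ∨ g⁻¹ * u ∈ A)
    (hg : ∀ x ∈ A, x * g * x⁻¹ * g⁻¹ ∈ L) : commutator S ≤ L := by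
  let π := QuotientGroup.mk' L
  have h1 : ∀ x ∈ A, Commute (π x) (π g) := by
    intro x hx
    have h2 : π (x * g * x⁻¹ * g⁻¹) = 1 := by
      rw [QuotientGroup.mk'_apply, QuotientGroup.eq_one_iff]; exact hg x hx
    simp only [map_mul, map_inv] at h2
    have h3 : π x * π g * (π x)⁻¹ * (π g)⁻¹ = 1 := h2
    show π x * π g = π g * π x
    have h4 : π x * π g * (π x)⁻¹ = π g := by
      rw [mul_inv_eq_one] at h3; exact h3
    rw [mul_inv_eq_iff_eq_mul] at h4
    exact h4
  have h2 : ∀ x ∈ A, ∀ y ∈ A, Commute (π x) (π y) := by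
    intro x hx y hy
    show π x * π y = π y * π x
    rw [← map_mul, ← map_mul, hA x hx y hy]
  have h3 : ∀ u, (u ∈ A) ∨ ∃ x ∈ A, u = g * x := by
    intro u
    rcases hform u with h | h
    · exact Or.inl h
    · exact Or.inr ⟨_, h, by group⟩
  rw [_root_.commutator_def, Subgroup.commutator_le]
  intro u _ v _
  have hc : Commute (π u) (π v) := by
    rcases h3 u with hu | ⟨x, hx, rfl⟩ <;> rcases h3 v with hv | ⟨y, hy, rfl⟩
    · exact h2 _ hu _ hv
    · rw [map_mul]; exact (h1 _ hu).mul_right (h2 _ hu _ hy)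
    · rw [map_mul]; exact ((h1 _ hv).symm).mul_left (h2 _ hx _ hv)
    · rw [map_mul, map_mul]
      exact ((Commute.refl _).mul_right (h1 _ hy).symm).mul_left
        ((h1 _ hx).mul_right (h2 _ hx _ hy))
  have h4 : π ⁅u, v⁆ = 1 := by
    rw [map_commutatorElement, commutatorElement_eq_one_iff_mul_comm]
    exact hc
  rw [QuotientGroup.mk'_apply, QuotientGroup.eq_one_iff] at h4
  exact h4

/-- the heart of the argument. -/
theorem no_noncyclic {S : Type*} [Group S] [Finite S] (A : Subgroup S) (hAi : A.index = 2)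
    (hA : ∀ x ∈ A, ∀ y ∈ A, x * y = y * x) (h4 : (commutator S).index = 4)
    (z t : S) (hzA : z ∈ A) (htA : t ∈ A) (hz1 : z ≠ 1) (ht1 : t ≠ 1) (hzt : z ≠ t)
    (hzc : ∀ g, g * z = z * g) (htc : ∀ g, g * t = t * g) : False := by
  classical
  haveI hAn : A.Normal := Subgroup.normal_of_index_eq_two hAi
  obtain ⟨g, hg⟩ : ∃ g, g ∉ A := by
    by_contra h
    push_neg at h
    have : A = ⊤ := Subgroup.eq_top_iff' A |>.mpr h
    rw [this, Subgroup.index_top] at hAi
    omega
  have hform : ∀ u, u ∈ A ∨ g⁻¹ * u ∈ A := by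
    intro u
    by_cases hu : u ∈ A
    · exact Or.inl hu
    · right
      rw [Subgroup.mul_mem_iff_of_index_two hAi]
      have : g⁻¹ ∉ A := fun h => hg (by simpa using inv_mem h)
      tauto
  have hfA : ∀ x ∈ A, x * g * x⁻¹ * g⁻¹ ∈ A := by
    intro x hx
    have h1 : g * x⁻¹ * g⁻¹ ∈ A := hAn.conj_mem _ (inv_mem hx) g
    have h2 := mul_mem hx h1
    convert h2 using 1
    group
  let f : A →* A := MonoidHom.mk' (fun x => ⟨(x : S) * g * (x : S)⁻¹ * g⁻¹, hfA x x.2⟩) (by
    intro x y
    apply Subtype.ext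
    have h1 : g * (x : S)⁻¹ * g⁻¹ ∈ A := hAn.conj_mem _ (inv_mem x.2) g
    have h2 := hfA y y.2
    show ((x * y : A) : S) * g * ((x * y : A) : S)⁻¹ * g⁻¹ =
      ((x : S) * g * (x : S)⁻¹ * g⁻¹) * ((y : S) * g * (y : S)⁻¹ * g⁻¹)
    calc ((x * y : A) : S) * g * ((x * y : A) : S)⁻¹ * g⁻¹
        = ((x : S) * ((y : S) * g * (y : S)⁻¹ * g⁻¹)) * (g * (x : S)⁻¹ * g⁻¹) := by
          simp only [Subgroup.coe_mul]; group
      _ = (((y : S) * g * (y : S)⁻¹ * g⁻¹) * (x : S)) * (g * (x : S)⁻¹ * g⁻¹) := by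
          rw [hA _ x.2 _ h2]
      _ = ((y : S) * g * (y : S)⁻¹ * g⁻¹) * ((x : S) * g * (x : S)⁻¹ * g⁻¹) := by group
      _ = _ := hA _ h2 _ (hfA x x.2))
  have hfapp : ∀ x : A, ((f x : A) : S) = (x : S) * g * (x : S)⁻¹ * g⁻¹ := fun x => rfl
  let L : Subgroup S := (f.range).map A.subtype
  have hLmem : ∀ x ∈ A, x * g * x⁻¹ * g⁻¹ ∈ L := by
    intro x hx
    exact ⟨f ⟨x, hx⟩, ⟨⟨x, hx⟩, rfl⟩, rfl⟩
  have hLA : L ≤ A := by
    rintro _ ⟨w, -, rfl⟩
    exact w.2
  have hLn : L.Normal := by
    constructor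
    have hconjA : ∀ n ∈ L, ∀ x ∈ A, x * n * x⁻¹ = n := by
      intro n hn x hx
      rw [hA x hx n (hLA hn)]; group
    have hconjg : ∀ n ∈ L, g * n * g⁻¹ ∈ L := by
      rintro _ ⟨_, ⟨y, rfl⟩, rfl⟩ 
      have hy : g * (y : S) * g⁻¹ ∈ A := hAn.conj_mem _ y.2 g
      have := hLmem _ hy
      convert this using 1
      simp only [Subgroup.subtype_apply, hfapp]
      group
    intro n hn u
    rcases hform u with h | h
    · rw [hconjA n hn u h]; exact hn
    · have e : u = g * (g⁻¹ * u) := by group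
      rw [e]
      have e2 : g * (g⁻¹ * u) * n * (g * (g⁻¹ * u))⁻¹ = g * ((g⁻¹ * u) * n * (g⁻¹ * u)⁻¹) * g⁻¹ := by
        group
      rw [e2, hconjA n hn _ h]
      exact hconjg n hn
  have hcomm : commutator S ≤ L := comm_le_of L A hA g hform hLmem
  have hker : 3 ≤ Nat.card f.ker := by
    have hm : ∀ (w : S) (hw : w ∈ A), (∀ g, g * w = w * g) → (⟨w, hw⟩ : A) ∈ f.ker := by
      intro w hw hc
      rw [MonoidHom.mem_ker]
      apply Subtype.ext
      show w * g * w⁻¹ * g⁻¹ = 1
      rw [← hc g]; group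
    let s : Finset f.ker := {1, ⟨⟨z, hzA⟩, hm z hzA hzc⟩, ⟨⟨t, htA⟩, hm t htA htc⟩}
    haveI : Fintype f.ker := Fintype.ofFinite _
    have hs : s.card = 3 := by
      rw [Finset.card_eq_three]
      refine ⟨_, _, _, ?_, ?_, ?_, rfl⟩
      · intro h
        apply hz1
        have := congrArg (fun w : f.ker => ((w : A) : S)) h
        simpa using this.symm
      · intro h
        apply ht1
        have := congrArg (fun w : f.ker => ((w : A) : S)) h
        simpa using this.symm
      · intro h
        apply hzt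
        have := congrArg (fun w : f.ker => ((w : A) : S)) h
        simpa using this
    rw [Nat.card_eq_fintype_card, ← hs]
    exact Finset.card_le_univ s
  have e1 : Nat.card f.ker * Nat.card f.range = Nat.card A := by
    have := Subgroup.card_mul_index f.ker
    rwa [Subgroup.index_ker] at this
  have e2 : Nat.card L = Nat.card f.range :=
    (Nat.card_congr (f.range.equivMapOfInjective _ A.subtype_injective).toEquiv).symm
  have e3 : Nat.card A * 2 = Nat.card S := by
    have := Subgroup.card_mul_index A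
    rwa [hAi] at this
  have e4 : Nat.card (commutator S) * 4 = Nat.card S := by
    have := Subgroup.card_mul_index (commutator S)
    rwa [h4] at this
  have e5 : Nat.card (commutator S) ≤ Nat.card L := Subgroup.card_le_of_le hcomm
  have hpos : 0 < Nat.card (commutator S) := Nat.card_pos
  rw [← e2] at e1
  nlinarith

theorem exists_order4 {S : Type*} [Group S] [Finite S] (hS : IsPGroup 2 S)
    (hna : ∃ x y : S, x * y ≠ y * x) : ∃ x : S, orderOf x = 4 := by
  have h1 : ∃ x : S, x ^ 2 ≠ 1 := by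
    by_contra h
    push_neg at h
    obtain ⟨x, y, hxy⟩ := hna
    apply hxy
    have hx : x * x = 1 := by rw [← pow_two]; exact h x
    have hy : y * y = 1 := by rw [← pow_two]; exact h y
    have hxy2 : (x * y) * (x * y) = 1 := by rw [← pow_two]; exact h _
    calc x * y = x * y * ((x * y) * (y * x)) := by
          have : (x * y) * (y * x) = 1 := by
            calc (x * y) * (y * x) = x * (y * y) * x := by group
              _ = 1 := by rw [hy, mul_one, hx]
          rw [this, mul_one]
      _ = ((x * y) * (x * y)) * (y * x) := by group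
      _ = y * x := by rw [hxy2, one_mul]
  obtain ⟨x, hx⟩ := h1
  obtain ⟨k, hk⟩ := (IsPGroup.iff_orderOf.mp hS) x
  have hk2 : 2 ≤ k := by
    by_contra h
    apply hx
    have h2 : orderOf x ∣ 2 := by
      rw [hk]
      exact pow_dvd_pow 2 (by omega : k ≤ 1) |>.trans (by norm_num)
    exact orderOf_dvd_iff_pow_eq_one.mp h2
  obtain ⟨l, rfl⟩ : ∃ l, k = l + 2 := ⟨k - 2, by omega⟩
  refine ⟨x ^ (2 ^ l), ?_⟩
  rw [orderOf_pow_of_dvd (by positivity) (by rw [hk]; exact pow_dvd_pow 2 (by omega)), hk]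
  rw [pow_add]
  simp

theorem taussky : ∀ (n : ℕ) (S : Type u) [Group S] [Finite S], Nat.card S = n → IsPGroup 2 S →
    (commutator S).index = 4 → ∃ x : S, (zpowers x).index = 2 := by
  intro n
  induction n using Nat.strong_induction_on with
  | _ n ih =>
  intro S _ _ hcard hS h4
  classical
  have e4 : Nat.card (commutator S) * 4 = Nat.card S := by
    have := Subgroup.card_mul_index (commutator S)
    rwa [h4] at this
  have hindex : ∀ x : S, (zpowers x).index * orderOf x = Nat.card S := by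
    intro x
    rw [← Nat.card_zpowers, mul_comm]
    exact Subgroup.card_mul_index _
  by_cases hbot : commutator S = ⊥
  · -- order 4
    rw [hbot, Subgroup.card_bot] at e4
    have h2d : 2 ∣ Nat.card S := by rw [← e4]; norm_num
    obtain ⟨x, hx⟩ := exists_prime_orderOf_dvd_card' (G := S) 2 h2d
    refine ⟨x, ?_⟩
    have := hindex x
    rw [hx, ← e4] at this
    omega
  -- `S'` is nontrivial
  have hna : ∃ x y : S, x * y ≠ y * x := by
    by_contra h
    push_neg at h
    apply hbot
    rw [eq_bot_iff, _root_.commutator_def, Subgroup.commutator_le]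
    intro x _ y _
    rw [Subgroup.mem_bot, commutatorElement_eq_one_iff_mul_comm]
    exact h x y
  by_cases h8 : Nat.card S ≤ 8
  · -- order 8
    obtain ⟨x, hx⟩ := exists_order4 hS hna
    refine ⟨x, ?_⟩
    have h5 := hindex x
    rw [hx] at h5
    have h6 : Nat.card (commutator S) ≠ 1 := by
      intro h
      exact hbot (Subgroup.eq_bot_of_card_eq _ h)
    have h7 : 1 ≤ Nat.card (commutator S) := Nat.card_pos
    omega
  -- the general case
  haveI : Group.IsNilpotent S := hS.isNilpotent
  haveI hSn : (commutator S).Normal := inferInstance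
  have hint := Lib.H1Frat.normal_inf_center_ne_bot (commutator S) hbot
  obtain ⟨w, hw, hw1⟩ := (Subgroup.bot_or_exists_ne_one _).resolve_left hint
  -- an involution in `S' ∩ Z(S)`
  obtain ⟨k, hk⟩ := (IsPGroup.iff_orderOf.mp hS) w
  have hk1 : k ≠ 0 := by
    rintro rfl
    exact hw1 (orderOf_eq_one_iff.mp (by simpa using hk))
  obtain ⟨l, rfl⟩ : ∃ l, k = l + 1 := ⟨k - 1, by omega⟩
  set z := w ^ (2 ^ l) with hz
  have hzo : orderOf z = 2 := by
    rw [hz, orderOf_pow_of_dvd (by positivity) (by rw [hk]; exact pow_dvd_pow 2 (by omega)), hk, pow_succ]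
    simp
  have hz1 : z ≠ 1 := by
    intro h; rw [h, orderOf_one] at hzo; omega
  have hz2 : z ^ 2 = 1 := by rw [← hzo]; exact pow_orderOf_eq_one z
  have hzS' : z ∈ commutator S := pow_mem hw.1 _
  have hzC : z ∈ center S := pow_mem hw.2 _
  have hzc : ∀ g, g * z = z * g := fun g => (Subgroup.mem_center_iff.mp hzC g)
  set Z := zpowers z with hZ
  haveI hZn : Z.Normal := by
    constructor
    intro y hy g
    obtain ⟨i, rfl⟩ := mem_zpowers_iff.mp hy
    have : g * z ^ i * g⁻¹ = z ^ i := by
      have h1 : Commute g (z ^ i) := (Commute.zpow_right (hzc g) i)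
      rw [h1.eq]; group
    rw [this]; exact zpow_mem (mem_zpowers z) i
  have hZcard : Nat.card Z = 2 := by rw [hZ, Nat.card_zpowers, hzo]
  have hZS' : Z ≤ commutator S := (Subgroup.zpowers_le).mpr hzS'
  let Q := S ⧸ Z
  let π : S →* Q := QuotientGroup.mk' Z
  have hπ : Function.Surjective π := QuotientGroup.mk'_surjective Z
  have hQcard : Nat.card Q * 2 = Nat.card S := by
    have := Subgroup.card_mul_index Z
    rw [hZcard, mul_comm] at this
    exact this
  have hQc : (commutator Q).index = 4 := by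
    have h1 : commutator Q = (commutator S).map π := by
      rw [_root_.commutator_def, _root_.commutator_def, Subgroup.map_commutator,
        Subgroup.map_top_of_surjective π hπ]
    rw [h1, Subgroup.index_map, MonoidHom.range_eq_top.mpr hπ, Subgroup.index_top, mul_one]
    have h2 : π.ker = Z := QuotientGroup.ker_mk' Z
    rw [h2, sup_eq_left.mpr hZS', h4]
  have hQp : IsPGroup 2 Q := hS.to_quotient Z
  obtain ⟨ā, hā⟩ := ih (Nat.card Q) (by rw [← hcard]; have : 0 < Nat.card Q := Nat.card_pos; omega)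
    Q rfl hQp hQc
  obtain ⟨a, rfl⟩ := hπ ā
  set A := (zpowers (π a)).comap π with hAdef
  have hAi : A.index = 2 := by
    rw [hAdef, Subgroup.index_comap_of_surjective _ hπ]; exact hā
  have haA : a ∈ A := by
    rw [hAdef, Subgroup.mem_comap]; exact mem_zpowers _
  have hzA : z ∈ A := by
    rw [hAdef, Subgroup.mem_comap]
    have : π z = 1 := by
      show (QuotientGroup.mk' Z) z = 1
      rw [QuotientGroup.mk'_apply, QuotientGroup.eq_one_iff]
      exact mem_zpowers z
    rw [this]; exact one_mem _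
  have hZform : ∀ y ∈ Z, y = 1 ∨ y = z := by
    intro y hy
    obtain ⟨i, rfl⟩ : ∃ i : ℕ, z ^ i = y :=
      (Submonoid.mem_powers_iff _ _).mp (mem_powers_iff_mem_zpowers.mpr hy)
    rw [pow_eq_pow_mod i hz2]
    have h3 : i % 2 < 2 := Nat.mod_lt _ (by norm_num)
    interval_cases h : i % 2
    · left; simp
    · right; simp
  have hAform : ∀ x ∈ A, ∃ k : ℕ, x = a ^ k ∨ x = a ^ k * z := by
    intro x hx
    rw [hAdef, Subgroup.mem_comap] at hx
    obtain ⟨k, hk⟩ : ∃ k : ℕ, (π a) ^ k = π x :=
      (Submonoid.mem_powers_iff _ _).mp (mem_powers_iff_mem_zpowers.mpr hx)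
    refine ⟨k, ?_⟩
    rw [← map_pow] at hk
    have h1 : (a ^ k)⁻¹ * x ∈ Z := QuotientGroup.eq.mp hk
    rcases hZform _ h1 with h2 | h2
    · left
      rw [inv_mul_eq_one] at h2
      exact h2.symm
    · right
      rw [← h2]; group
  have hAab : ∀ x ∈ A, ∀ y ∈ A, x * y = y * x := by
    intro x hx y hy
    have hcz : ∀ i : ℕ, Commute (a ^ i) z := fun i => (hzc _)
    have hca : ∀ i j : ℕ, Commute (a ^ i) (a ^ j) := fun i j => Commute.pow_pow_self a i j
    obtain ⟨i, hi⟩ := hAform x hx
    obtain ⟨j, hj⟩ := hAform y hy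
    show Commute x y
    rcases hi with rfl | rfl <;> rcases hj with rfl | rfl
    · exact hca i j
    · exact (hca i j).mul_right (hcz i)
    · exact ((hca i j).mul_left (hcz j).symm)
    · exact ((hca i j).mul_right (hcz i)).mul_left ((hcz j).symm.mul_right (Commute.refl z))
  by_cases hza : z ∈ zpowers a
  · refine ⟨a, ?_⟩
    have : zpowers a = A := by
      apply le_antisymm
      · rw [Subgroup.zpowers_le]; exact haA
      · intro x hx
        obtain ⟨k, rfl | rfl⟩ := hAform x hx
        · exact pow_mem (mem_zpowers a) k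
        · exact mul_mem (pow_mem (mem_zpowers a) k) hza
    rw [this]; exact hAi
  exfalso
  obtain ⟨m, hm⟩ := (IsPGroup.iff_orderOf.mp hS) a
  obtain ⟨r, hr⟩ := (IsPGroup.iff_card.mp hS)
  have h16 : 16 ≤ Nat.card S := by
    rw [hr] at h8 ⊢
    by_contra h
    push_neg at h
    have hr4 : r < 4 := by
      by_contra h'
      have := Nat.pow_le_pow_right (by norm_num : 0 < 2) (not_lt.mp h')
      omega
    interval_cases r <;> omega
  have hoq : orderOf (π a) * 2 = Nat.card Q := by
    have := Subgroup.card_mul_index (zpowers (π a))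
    rwa [Nat.card_zpowers, hā] at this
  have hoa : orderOf (π a) ∣ orderOf a := orderOf_map_dvd π a
  have h4a : 4 ≤ orderOf a := by
    have := Nat.le_of_dvd (orderOf_pos a) hoa
    omega
  have hm2 : 2 ≤ m := by
    by_contra h
    have h1 : m = 0 ∨ m = 1 := by omega
    rcases h1 with rfl | rfl <;> simp [hm] at h4a
  obtain ⟨m', rfl⟩ : ∃ m', m = m' + 2 := ⟨m - 2, by omega⟩
  set N := 2 ^ (m' + 1) with hN
  set t := a ^ N with ht
  have ht1 : t ≠ 1 := by
    intro h
    have h1 := orderOf_dvd_of_pow_eq_one h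
    rw [hm, hN] at h1
    have h2 := (Nat.pow_dvd_pow_iff_le_right (by norm_num : 1 < 2)).mp h1
    omega
  have ht2 : t ^ 2 = 1 := by
    rw [ht, ← pow_mul, hN, ← pow_succ, ← hm]
    exact pow_orderOf_eq_one a
  have htA : t ∈ A := pow_mem haA _
  have hzt : z ≠ t := by
    intro h
    apply hza
    rw [h]
    exact pow_mem (mem_zpowers a) _
  have hAn : A.Normal := Subgroup.normal_of_index_eq_two hAi
  have htc : ∀ g, g * t = t * g := by
    intro g
    by_cases hg : g ∈ A
    · exact hAab g hg t htA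
    · have h1 : g * a * g⁻¹ ∈ A := hAn.conj_mem _ haA g
      have h2 : g * t * g⁻¹ = (g * a * g⁻¹) ^ N := by rw [conj_pow]
      have hz2N : z ^ N = 1 := by
        rw [hN, pow_succ, mul_comm, pow_mul, hz2, one_pow]
      have h3 : ∃ k : ℕ, g * t * g⁻¹ = t ^ k := by
        obtain ⟨k, hk⟩ := hAform _ h1
        refine ⟨k, ?_⟩
        rw [h2]
        rcases hk with hk | hk
        · rw [hk, ht, ← pow_mul, ← pow_mul, mul_comm]
        · have hcc : Commute (a ^ k) z := hzc _
          rw [hk, hcc.mul_pow, hz2N, mul_one, ht, ← pow_mul, ← pow_mul, mul_comm]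
      obtain ⟨k, hk⟩ := h3
      rw [pow_eq_pow_mod k ht2] at hk
      have h3 : k % 2 < 2 := Nat.mod_lt _ (by norm_num)
      interval_cases h : k % 2
      · exfalso
        apply ht1
        rw [pow_zero] at hk
        have : g * t = g := by rwa [mul_inv_eq_one] at hk
        simpa using this
      · rw [pow_one] at hk
        rwa [mul_inv_eq_iff_eq_mul] at hk
  exact no_noncyclic A hAi hAab h4 z t hzA htA hz1 ht1 hzt hzc htc

end Cfsg.Agent.Lib.Taussky
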