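import Mathlib
import Cfsg.Agent.Lib.Taussky
import Cfsg.Agent.Lib.H1TwoClass
import Cfsg.Agent.Lib.H1TwoClass2
set_option autoImplicit false

/-! Consequences of Taussky's theorem. -/

namespace Cfsg.Agent.Lib.Taussky2
open Subgroup
universe u

theorem form_of_index {S : Type*} [Group S] {A : Subgroup S} (hAi : A.index = 2) {g : S} (hg : g ∉ A) :
    ∀ u, u ∈ A ∨ g⁻¹ * u ∈ A := by
  intro u
  by_cases hu : u ∈ A
  · exact Or.inl hu
  · right
    rw [Subgroup.mul_mem_iff_of_index_two hAi]
    have : g⁻¹ ∉ A := fun h => hg (by simpa using inv_mem h)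
    tauto

theorem two_class {S : Type u} [Group S] [Finite S] (h2 : IsPGroup 2 S)
    (h4 : (commutator S).index = 4) (hbot : commutator S ≠ ⊥) :
    H1TwoClass2.TwoClassConcl' S := by
  classical
  obtain ⟨x, hx⟩ := Lib.Taussky.taussky _ S rfl h2 h4
  have e4 : Nat.card (commutator S) * 4 = Nat.card S := by
    have := Subgroup.card_mul_index (commutator S)
    rwa [h4] at this
  have e2 : orderOf x * 2 = Nat.card S := by
    have := Subgroup.card_mul_index (zpowers x)
    rwa [Nat.card_zpowers, hx] at this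
  have h1 : Nat.card (commutator S) ≠ 1 := fun h => hbot (Subgroup.eq_bot_of_card_eq _ h)
  have h0 : 0 < Nat.card (commutator S) := Nat.card_pos
  obtain ⟨n, hn⟩ := (IsPGroup.iff_orderOf.mp h2) x
  have hn2 : 2 ≤ n := by
    by_contra h
    have h3 : n = 0 ∨ n = 1 := by omega
    rcases h3 with rfl | rfl <;> simp [hn] at e2 <;> omega
  have hUn : (zpowers x).Normal := Subgroup.normal_of_index_eq_two hx
  refine H1TwoClass2.idx2 hn2 hn hUn hx ?_ ?_
  · intro y hy hxy
    apply hbot
    rw [eq_bot_iff]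
    have hc : ∀ u ∈ zpowers x, u * y = y * u := by
      intro u hu
      obtain ⟨i, rfl⟩ := mem_zpowers_iff.mp hu
      have h5 : Commute y x := by
        show y * x = x * y
        rw [mul_inv_eq_iff_eq_mul] at hxy
        exact hxy
      exact (h5.zpow_right i).eq.symm
    refine Lib.Taussky.comm_le_of ⊥ (zpowers x) ?_ y (form_of_index hx hy) ?_
    · intro u hu v hv
      obtain ⟨i, rfl⟩ := mem_zpowers_iff.mp hu
      obtain ⟨j, rfl⟩ := mem_zpowers_iff.mp hv
      exact (Commute.refl x).zpow_zpow i j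
    · intro u hu
      rw [Subgroup.mem_bot, hc u hu]
      group
  · intro y hy hn3 hyx
    have hn1 : 1 ≤ n := by omega
    set M := 2 ^ (n - 1) with hM
    set w := x ^ M with hw
    have hwc : ∀ g : S, g * w * g⁻¹ = w := fun g => H1TwoClass.z_central hn1 hn hUn g
    have hw2 : w * w = 1 := H1TwoClass.z_sq hn1 hn
    haveI hLn : (zpowers w).Normal := by
      constructor
      intro u hu g
      obtain ⟨i, rfl⟩ := mem_zpowers_iff.mp hu
      rw [← conj_zpow, hwc g]
      exact zpow_mem (mem_zpowers w) i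
    have hle : commutator S ≤ zpowers w := by
      refine Lib.Taussky.comm_le_of _ (zpowers x) ?_ y (form_of_index hx hy) ?_
      · intro u hu v hv
        obtain ⟨i, rfl⟩ := mem_zpowers_iff.mp hu
        obtain ⟨j, rfl⟩ := mem_zpowers_iff.mp hv
        exact (Commute.refl x).zpow_zpow i j
      · intro u hu
        obtain ⟨i, rfl⟩ : ∃ i : ℕ, x ^ i = u :=
          (Submonoid.mem_powers_iff _ _).mp (mem_powers_iff_mem_zpowers.mpr hu)
        have h5 : y * x ^ i * y⁻¹ = x ^ ((M + 1) * i) := by
          rw [← conj_pow, hyx, pow_mul]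
        have h6 : x ^ i * y * (x ^ i)⁻¹ * y⁻¹ = x ^ i * (y * x ^ i * y⁻¹)⁻¹ := by group
        rw [h6, h5, add_mul, one_mul, pow_add, mul_inv_rev, ← mul_assoc, mul_inv_cancel, one_mul,
          pow_mul]
        exact inv_mem (pow_mem (mem_zpowers w) i)
    have hcardw : Nat.card (zpowers w) ≤ 2 := by
      rw [Nat.card_zpowers]
      apply Nat.le_of_dvd (by norm_num)
      apply orderOf_dvd_of_pow_eq_one
      rw [pow_two]; exact hw2
    have h5 := Subgroup.card_le_of_le hle
    have h6 : 2 ^ 3 ≤ 2 ^ n := Nat.pow_le_pow_right (by norm_num) hn3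
    omega

end Cfsg.Agent.Lib.Taussky2
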