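import Mathlib.GroupTheory.Transfer
import Mathlib.GroupTheory.Sylow
import Mathlib.GroupTheory.Abelianization.Defs

/-! A transfer argument: `P/P'` elementary abelian from `Q/Q'` and `P/QP'`. -/

set_option autoImplicit false

namespace Cfsg.Agent.Lib.TrAb

open Subgroup
open scoped commutatorElement Pointwise

universe u

/-- The square of the transfer of an element of `H`, when `X = K H` and `ϕ` has square-trivial
values on `H ∩ K`. -/
theorem transfer_sq {X : Type u} [Group X] [Finite X] (K H : Subgroup X) [hK : K.Normal]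
    (hX : ∀ g : X, ∃ k ∈ K, ∃ h ∈ H, g = k * h) {A : Type*} [CommGroup A] (ϕ : H →* A)
    (ha : ∀ w : H, (w : X) ∈ K → ϕ w ^ 2 = 1) (x : H) :
    (ϕ.transfer (x : X)) ^ 2 = ϕ x ^ (2 * H.index) := by
  classical
  letI := H.fintypeQuotientOfFiniteIndex
  letI : Fintype (Quotient (MulAction.orbitRel (zpowers (x : X)) (X ⧸ H))) := Fintype.ofFinite _
  rw [MonoidHom.transfer_eq_prod_quotient_orbitRel_zpowers_quot, ← Finset.prod_pow]
  rw [Subgroup.index_eq_sum_minimalPeriod H (x : X), Finset.mul_sum, ← Finset.prod_pow_eq_pow_sum]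
  refine Finset.prod_congr rfl fun q _ => ?_
  set n := Function.minimalPeriod ((x : X) • ·) q.out with hn
  set g := q.out.out with hg
  have hz := QuotientGroup.out_conj_pow_minimalPeriod_mem H (x : X) q.out
  obtain ⟨k, hk, h, hh, hgkh⟩ := hX g
  -- the conjugate of `x^n` under `h`
  let u : H := ⟨h, hh⟩⁻¹ * x ^ n * ⟨h, hh⟩
  let z : H := ⟨g⁻¹ * (x : X) ^ n * g, hz⟩
  have hw : ((z * u⁻¹ : H) : X) ∈ K := by
    have h1 : ((z * u⁻¹ : H) : X) = h⁻¹ * (k⁻¹ * ((x : X) ^ n * k * ((x : X) ^ n)⁻¹)) * h := by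
      simp only [z, u, Subgroup.coe_mul, Subgroup.coe_inv, Subgroup.coe_pow, hgkh]
      group
    rw [h1]
    have h2 : k⁻¹ * ((x : X) ^ n * k * ((x : X) ^ n)⁻¹) ∈ K :=
      K.mul_mem (K.inv_mem hk) (hK.conj_mem k hk _)
    have h3 := hK.conj_mem _ h2 h⁻¹
    simpa using h3
  have h2 := ha _ hw
  have h3 : ϕ u = ϕ x ^ n := by
    simp only [u, map_mul, map_inv, map_pow]
    rw [mul_comm (ϕ ⟨h, hh⟩)⁻¹, mul_assoc, inv_mul_cancel, mul_one]
  rw [map_mul, map_inv, mul_pow, inv_pow, mul_inv_eq_one, h3] at h2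
  show ϕ z ^ 2 = _
  rw [h2, ← pow_mul, mul_comm]

theorem s4582 {G : Type u} [Group G] [Finite G] (N : Subgroup G) [hN : N.Normal] (P : Sylow 2 G)
    (hP : ∀ x ∈ (P : Subgroup G), x ^ 2 ∈ ((P : Subgroup G) ⊓ N) ⊔ ⁅(P : Subgroup G), (P : Subgroup G)⁆)
    (hQ : ∀ x ∈ (P : Subgroup G) ⊓ N, x ^ 2 ∈ ⁅(P : Subgroup G) ⊓ N, (P : Subgroup G) ⊓ N⁆)
    (hodd : Odd (Nat.card (Abelianization N))) :
    ∀ x ∈ (P : Subgroup G), x ^ 2 ∈ ⁅(P : Subgroup G), (P : Subgroup G)⁆ := by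
  classical
  intro x hx
  let Y : Subgroup G := N ⊔ (P : Subgroup G)
  have hNY : N ≤ Y := le_sup_left
  have hPY : (P : Subgroup G) ≤ Y := le_sup_right
  let X := ↥Y
  let H : Subgroup X := (P : Subgroup G).subgroupOf Y
  let K : Subgroup X := N.subgroupOf Y
  haveI hK : K.Normal := Subgroup.Normal.subgroupOf hN Y
  have hX : ∀ g : X, ∃ k ∈ K, ∃ h ∈ H, g = k * h := by
    intro g
    have h1 : (g : G) ∈ ((N : Set G) * ((P : Subgroup G) : Set G)) := by
      rw [← Subgroup.normal_mul]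
      exact g.2
    obtain ⟨a, ha, b, hb, hab⟩ := Set.mem_mul.mp h1
    refine ⟨⟨a, hNY ha⟩, Subgroup.mem_subgroupOf.mpr ha, ⟨b, hPY hb⟩, Subgroup.mem_subgroupOf.mpr hb,
      Subtype.ext hab.symm⟩
  let e : H →* ↥(P : Subgroup G) := (Subgroup.subgroupOfEquivOfLe hPY).toMonoidHom
  have he : ∀ w : H, ((e w : ↥(P : Subgroup G)) : G) = ((w : X) : G) := fun w => rfl
  let of' : ↥(P : Subgroup G) →* Abelianization ↥(P : Subgroup G) := Abelianization.of
  let ϕ : H →* Abelianization ↥(P : Subgroup G) := of'.comp e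
  have hof : ∀ y : ↥(P : Subgroup G), (y : G) ∈ ⁅(P : Subgroup G), (P : Subgroup G)⁆ ↔ of' y = 1 := by
    intro y
    have h1 : of' y = 1 ↔ y ∈ commutator ↥(P : Subgroup G) := QuotientGroup.eq_one_iff y
    rw [h1, ← Subgroup.map_subtype_commutator (P : Subgroup G)]
    constructor
    · rintro ⟨c, hc, hcy⟩
      have : c = y := Subtype.ext hcy
      rwa [← this]
    · intro h
      exact ⟨y, h, rfl⟩
  have ha : ∀ w : H, (w : X) ∈ K → ϕ w ^ 2 = 1 := by
    intro w hw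
    have h1 : ((w : X) : G) ∈ (P : Subgroup G) ⊓ N := ⟨Subgroup.mem_subgroupOf.mp w.2, Subgroup.mem_subgroupOf.mp hw⟩
    have h2 := hQ _ h1
    have h3 : ((w : X) : G) ^ 2 ∈ ⁅(P : Subgroup G), (P : Subgroup G)⁆ :=
      Subgroup.commutator_mono inf_le_left inf_le_left h2
    have h4 := (hof (e w ^ 2)).mp (by rw [Subgroup.coe_pow]; exact h3)
    rw [map_pow] at h4
    exact h4
  -- the transfer
  let T : X →* Abelianization ↥(P : Subgroup G) := ϕ.transfer
  have hTc : commutator X ≤ T.ker := Abelianization.commutator_subset_ker T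
  let L : Subgroup G := (commutator X).map Y.subtype
  have hPL : ⁅(P : Subgroup G), (P : Subgroup G)⁆ ≤ L := by
    rw [Subgroup.commutator_le]
    intro a ha' b hb
    exact ⟨⁅(⟨a, hPY ha'⟩ : X), (⟨b, hPY hb⟩ : X)⁆,
      Subgroup.commutator_mem_commutator (Subgroup.mem_top _) (Subgroup.mem_top _), rfl⟩
  have hNL : ⁅N, N⁆ ≤ L := by
    rw [Subgroup.commutator_le]
    intro a ha' b hb
    exact ⟨⁅(⟨a, hNY ha'⟩ : X), (⟨b, hNY hb⟩ : X)⁆,
      Subgroup.commutator_mem_commutator (Subgroup.mem_top _) (Subgroup.mem_top _), rfl⟩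
  have hQN : (P : Subgroup G) ⊓ N ≤ ⁅N, N⁆ := by
    intro y hy
    have hy2 : IsPGroup 2 (P : Subgroup G) := P.2
    obtain ⟨j, hj⟩ := hy2 ⟨y, hy.1⟩
    have hj' : y ^ 2 ^ j = 1 := by simpa using congrArg Subtype.val hj
    let yn : N := ⟨y, hy.2⟩
    have hyn : yn ^ 2 ^ j = 1 := Subtype.ext (by simpa using hj')
    let a : Abelianization N := Abelianization.of yn
    have h1 : a ^ 2 ^ j = 1 := by
      show (Abelianization.of yn) ^ 2 ^ j = 1
      rw [← map_pow, hyn, map_one]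
    have h2 : a ^ Nat.card (Abelianization N) = 1 := pow_card_eq_one'
    have h3 : Nat.Coprime (2 ^ j) (Nat.card (Abelianization N)) :=
      Nat.Coprime.pow_left _ (Nat.coprime_two_left.mpr hodd)
    have h4 : a = 1 := by
      have h5 := Nat.eq_one_of_dvd_coprimes h3 (orderOf_dvd_of_pow_eq_one h1)
        (orderOf_dvd_of_pow_eq_one h2)
      exact orderOf_eq_one_iff.mp h5
    have h5 : yn ∈ commutator N := (QuotientGroup.eq_one_iff yn).mp h4
    rw [← Subgroup.map_subtype_commutator N]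
    exact ⟨yn, h5, rfl⟩
  have hx2L : x ^ 2 ∈ L := by
    have h1 := hP x hx
    exact (sup_le (hQN.trans hNL) hPL) h1
  obtain ⟨c, hc, hcx⟩ := hx2L
  let xX : X := ⟨x, hPY hx⟩
  have hcx' : c = xX ^ 2 := Subtype.ext hcx
  have hT1 : T (xX ^ 2) = 1 := by
    rw [← hcx']
    exact hTc hc
  let xH : H := ⟨xX, Subgroup.mem_subgroupOf.mpr hx⟩
  have hcore := transfer_sq K H hX ϕ ha xH
  have hT2 : (T xX) ^ 2 = 1 := by rw [← map_pow]; exact hT1
  have hcore' : ϕ xH ^ (2 * H.index) = 1 := by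
    rw [← hcore]
    exact hT2
  -- the square of `of(x^2)` is trivial
  have hsq : (ϕ xH ^ 2) ^ 2 = 1 := by
    let κ : ↥(P : Subgroup G) →* Abelianization ↥(P : Subgroup G) := (powMonoidHom 2).comp of'
    let S : Subgroup G := κ.ker.map (P : Subgroup G).subtype
    have hS1 : (P : Subgroup G) ⊓ N ≤ S := by
      intro y hy
      have hyP : y ∈ (P : Subgroup G) := (Subgroup.mem_inf.mp hy).1
      refine ⟨⟨y, hyP⟩, MonoidHom.mem_ker.mpr ?_, rfl⟩
      show (of' ⟨y, hyP⟩) ^ 2 = 1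
      have h3 : y ^ 2 ∈ ⁅(P : Subgroup G), (P : Subgroup G)⁆ :=
        Subgroup.commutator_mono inf_le_left inf_le_left (hQ y hy)
      have h4 := (hof (⟨y, hyP⟩ ^ 2)).mp (by simpa using h3)
      rwa [map_pow] at h4
    have hS2 : ⁅(P : Subgroup G), (P : Subgroup G)⁆ ≤ S := by
      intro y hy
      have hyP : y ∈ (P : Subgroup G) := by
        have h5 : ⁅(P : Subgroup G), (P : Subgroup G)⁆ ≤ P :=
          (Subgroup.commutator_le).mpr (fun a ha b hb =>
            (P : Subgroup G).mul_mem ((P : Subgroup G).mul_mem ((P : Subgroup G).mul_mem ha hb)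
              ((P : Subgroup G).inv_mem ha)) ((P : Subgroup G).inv_mem hb))
        exact h5 hy
      refine ⟨⟨y, hyP⟩, MonoidHom.mem_ker.mpr ?_, rfl⟩
      show (of' ⟨y, hyP⟩) ^ 2 = 1
      rw [(hof ⟨y, hyP⟩).mp hy, one_pow]
    obtain ⟨z, hz, hzx⟩ := (sup_le hS1 hS2) (hP x hx)
    have hz' : z = ⟨x, hx⟩ ^ 2 := Subtype.ext hzx
    have hz2 : κ z = 1 := hz
    rw [hz'] at hz2
    have h6 : κ (⟨x, hx⟩ ^ 2) = (of' ⟨x, hx⟩ ^ 2) ^ 2 := by
      show (of' (⟨x, hx⟩ ^ 2)) ^ 2 = _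
      rw [map_pow]
    rw [h6] at hz2
    exact hz2
  -- oddness of the index
  have hidx : Odd H.index := by
    have h1 : H.index ∣ (P : Subgroup G).index := by
      have h2 := Subgroup.relIndex_mul_index hPY
      exact ⟨Y.index, h2.symm⟩
    have h2 : ¬ 2 ∣ (P : Subgroup G).index := P.not_dvd_index
    rw [← Nat.not_even_iff_odd, even_iff_two_dvd]
    exact fun h3 => h2 (h3.trans h1)
  obtain ⟨m, hm⟩ := hidx
  have hfin : ϕ xH ^ 2 = 1 := by
    have h1 : ϕ xH ^ (2 * H.index) = (ϕ xH ^ 2) ^ (2 * m + 1) := by rw [hm, pow_mul]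
    rw [h1, pow_succ, pow_mul, hsq, one_pow, one_mul] at hcore'
    exact hcore'
  have h2 : of' (⟨x, hx⟩ ^ 2) = 1 := by
    rw [map_pow]
    exact hfin
  have h3 := (hof _).mpr h2
  simpa using h3

end Cfsg.Agent.Lib.TrAb
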