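import Cfsg.Agent.Lib.FormVec
import Cfsg.Agent.Lib.Rank1
import Cfsg.Agent.Lib.TvGL

set_option autoImplicit false

namespace Cfsg.Agent.Lib.TvConj

open Matrix Cfsg.Agent.Lib.FormVec Cfsg.Agent.Lib.TvGL

variable {ι : Type} [Fintype ι] [DecidableEq ι] {F : Type*} [Field F]

/-- Two pairs are related by an element of `SL`. -/
def Rel (a φ a' φ' : ι → F) : Prop :=
  ∃ g : SpecialLinearGroup ι F, (g : Matrix ι ι F) *ᵥ a = a' ∧ φ' ᵥ* (g : Matrix ι ι F) = φ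

theorem Rel.trans {a φ a' φ' a'' φ'' : ι → F} (h1 : Rel a φ a' φ') (h2 : Rel a' φ' a'' φ'') : Rel a φ a'' φ'' := by
  obtain ⟨g₁, h1a, h1b⟩ := h1
  obtain ⟨g₂, h2a, h2b⟩ := h2
  refine ⟨g₂ * g₁, ?_, ?_⟩
  · show ((g₂ : Matrix ι ι F) * (g₁ : Matrix ι ι F)) *ᵥ a = a''
    rw [← Matrix.mulVec_mulVec, h1a, h2a]
  · show φ'' ᵥ* ((g₂ : Matrix ι ι F) * (g₁ : Matrix ι ι F)) = φ
    rw [← Matrix.vecMul_vecMul, h2b, h1b]

theorem exists_dot_ne {a : ι → F} (ha : a ≠ 0) : ∃ ψ : ι → F, ψ ⬝ᵥ a ≠ 0 := by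
  obtain ⟨i, hi⟩ := Function.ne_iff.1 ha
  refine ⟨Pi.single i 1, ?_⟩
  simpa [single_one_dotProduct] using hi

theorem exists_ker2 (h3 : 3 ≤ Fintype.card ι) (φ ψ : ι → F) : ∃ c : ι → F, c ≠ 0 ∧ φ ⬝ᵥ c = 0 ∧ ψ ⬝ᵥ c = 0 := by
  let L : (ι → F) →ₗ[F] (Fin 2 → F) :=
    { toFun := fun x => ![φ ⬝ᵥ x, ψ ⬝ᵥ x]
      map_add' := by
        intro x y
        ext i
        fin_cases i <;> simp [dotProduct_add]
      map_smul' := by
        intro c x
        ext i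
        fin_cases i <;> simp [dotProduct_smul] }
  have hker : LinearMap.ker L ≠ ⊥ := by
    apply LinearMap.ker_ne_bot_of_finrank_lt
    simp only [Module.finrank_fintype_fun_eq_card, Fintype.card_fin]
    omega
  obtain ⟨c, hc, hc0⟩ := (Submodule.ne_bot_iff _).1 hker
  have h0 := congrFun (LinearMap.mem_ker.1 hc) 0
  have h1 := congrFun (LinearMap.mem_ker.1 hc) 1
  exact ⟨c, hc0, by simpa [L] using h0, by simpa [L] using h1⟩

theorem vecMul_one_add (φ u ψ : ι → F) : φ ᵥ* (1 + vecMulVec u ψ) = φ + (φ ⬝ᵥ u) • ψ := by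
  rw [Matrix.vecMul_add, Matrix.vecMul_one]
  congr 1
  ext j
  simp only [Matrix.vecMul, dotProduct, vecMulVec_apply, Pi.smul_apply, smul_eq_mul, Finset.sum_mul]
  refine Finset.sum_congr rfl fun i _ => ?_
  ring

theorem rel_indep {a a' φ : ι → F} (hφa : φ ⬝ᵥ a = 0) (hφa' : φ ⬝ᵥ a' = 0)
    (h : a ∉ Submodule.span F {a'}) (h' : a' ∉ Submodule.span F {a}) : Rel a φ a' φ := by
  obtain ⟨ψ₁, h11, h12⟩ := exists_dot_sep h
  obtain ⟨ψ₂, h21, h22⟩ := exists_dot_sep h'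
  have hψa : (ψ₁ + ψ₂) ⬝ᵥ a = 1 := by rw [add_dotProduct, h11, h22, add_zero]
  have hψa' : (ψ₁ + ψ₂) ⬝ᵥ a' = 1 := by rw [add_dotProduct, h12, h21, zero_add]
  have hψ : (ψ₁ + ψ₂) ⬝ᵥ (a' - a) = 0 := by rw [dotProduct_sub, hψa, hψa', sub_self]
  refine ⟨⟨_, tv_det (a' - a) (ψ₁ + ψ₂) hψ⟩, ?_, ?_⟩
  · show ((tv (a' - a) (ψ₁ + ψ₂) hψ : GL ι F) : Matrix ι ι F) *ᵥ a = a'
    rw [tv_mulVec, hψa, one_smul]
    abel
  · show φ ᵥ* ((tv (a' - a) (ψ₁ + ψ₂) hψ : GL ι F) : Matrix ι ι F) = φ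
    rw [tv_val, vecMul_one_add, dotProduct_sub, hφa, hφa', sub_self, zero_smul, add_zero]

theorem rel_same_phi (h3 : 3 ≤ Fintype.card ι) {a a' φ : ι → F} (ha : a ≠ 0) (ha' : a' ≠ 0)
    (hφa : φ ⬝ᵥ a = 0) (hφa' : φ ⬝ᵥ a' = 0) : Rel a φ a' φ := by
  by_cases hdep : a ∉ Submodule.span F {a'} ∧ a' ∉ Submodule.span F {a}
  · exact rel_indep hφa hφa' hdep.1 hdep.2
  · -- a' is a non-zero multiple of a
    obtain ⟨l, hl0, hl⟩ : ∃ l : F, l ≠ 0 ∧ a' = l • a := by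
      by_cases h1 : a ∉ Submodule.span F {a'}
      · have h2 : a' ∈ Submodule.span F {a} := by
          by_contra h
          exact hdep ⟨h1, h⟩
        obtain ⟨l, hl⟩ := Submodule.mem_span_singleton.1 h2
        refine ⟨l, ?_, hl.symm⟩
        rintro rfl
        rw [zero_smul] at hl
        exact ha' hl.symm
      · have h2 : a ∈ Submodule.span F {a'} := not_not.1 h1
        obtain ⟨l, hl⟩ := Submodule.mem_span_singleton.1 h2
        have hl0 : l ≠ 0 := by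
          rintro rfl
          rw [zero_smul] at hl
          exact ha hl.symm
        refine ⟨l⁻¹, inv_ne_zero hl0, ?_⟩
        rw [← hl, smul_smul, inv_mul_cancel₀ hl0, one_smul]
    obtain ⟨ψ, hψ⟩ := exists_dot_ne ha
    obtain ⟨c, hc0, hφc, hψc⟩ := exists_ker2 h3 φ ψ
    have hca : c ∉ Submodule.span F {a} := by
      intro h
      obtain ⟨k, rfl⟩ := Submodule.mem_span_singleton.1 h
      rw [dotProduct_smul, smul_eq_mul] at hψc
      have hk : k = 0 := (mul_eq_zero.1 hψc).resolve_right hψ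
      rw [hk, zero_smul] at hc0
      exact hc0 rfl
    have hac : a ∉ Submodule.span F {c} := by
      intro h
      obtain ⟨k, hk⟩ := Submodule.mem_span_singleton.1 h
      apply hψ
      rw [← hk, dotProduct_smul, hψc, smul_zero]
    have hca' : c ∉ Submodule.span F {a'} := by
      intro h
      apply hca
      obtain ⟨k, hk⟩ := Submodule.mem_span_singleton.1 h
      rw [hl] at hk
      rw [← hk, smul_smul]
      exact Submodule.smul_mem _ _ (Submodule.mem_span_singleton_self a)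
    have hac' : a' ∉ Submodule.span F {c} := by
      intro h
      apply hac
      obtain ⟨k, hk⟩ := Submodule.mem_span_singleton.1 h
      rw [hl] at hk
      have : a = (l⁻¹ * k) • c := by
        rw [mul_smul, hk, smul_smul, inv_mul_cancel₀ hl0, one_smul]
      rw [this]
      exact Submodule.smul_mem _ _ (Submodule.mem_span_singleton_self c)
    exact (rel_indep hφa hφc hac hca).trans (rel_indep hφc hφa' hca' hac')

theorem rel_same_a (h3 : 3 ≤ Fintype.card ι) {a φ φ' : ι → F} (hφ : φ ≠ 0) (hφ' : φ' ≠ 0)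
    (hφa : φ ⬝ᵥ a = 0) (hφa' : φ' ⬝ᵥ a = 0) : Rel a φ a φ' := by
  obtain ⟨g, h1, h2⟩ := rel_same_phi (a := φ') (a' := φ) (φ := a) h3 hφ' hφ
    (by rw [dotProduct_comm]; exact hφa') (by rw [dotProduct_comm]; exact hφa)
  refine ⟨⟨(g : Matrix ι ι F)ᵀ, by rw [Matrix.det_transpose]; exact g.2⟩, ?_, ?_⟩
  · show (g : Matrix ι ι F)ᵀ *ᵥ a = a
    rw [Matrix.mulVec_transpose]
    exact h2
  · show φ' ᵥ* (g : Matrix ι ι F)ᵀ = φ
    rw [Matrix.vecMul_transpose]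
    exact h1

theorem rel_all (h3 : 3 ≤ Fintype.card ι) {a φ a' φ' : ι → F} (ha : a ≠ 0) (ha' : a' ≠ 0) (hφ : φ ≠ 0) (hφ' : φ' ≠ 0)
    (hφa : φ ⬝ᵥ a = 0) (hφa' : φ' ⬝ᵥ a' = 0) : Rel a φ a' φ' := by
  obtain ⟨c, hc0, h1, h2⟩ := exists_ker2 h3 φ φ'
  exact (rel_same_phi h3 ha hc0 hφa h1).trans ((rel_same_a h3 hφ hφ' h1 h2).trans (rel_same_phi h3 hc0 ha' h2 hφa'))

/-- Decomposition of a transvection. -/
theorem exists_pair {t : Matrix ι ι F} (ht : Cfsg.IsTransvection t) :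
    ∃ a φ : ι → F, a ≠ 0 ∧ φ ≠ 0 ∧ φ ⬝ᵥ a = 0 ∧ t = 1 + vecMulVec a φ := by
  obtain ⟨a, φ, ha, hφ, h⟩ := Cfsg.Agent.Lib.Rank1.exists_vecMulVec ht.1
  refine ⟨a, φ, ha, hφ, ?_, ?_⟩
  · have h2 := ht.2
    rw [h, Matrix.vecMulVec_mul_vecMulVec] at h2
    obtain ⟨i, hi⟩ := Function.ne_iff.1 ha
    obtain ⟨j, hj⟩ := Function.ne_iff.1 hφ
    have h3 := congrFun (congrFun h2 i) j
    simp only [vecMulVec_apply, Matrix.zero_apply, Pi.smul_apply, smul_eq_mul] at h3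
    by_contra hne
    exact (mul_ne_zero (mul_ne_zero hi hne) hj) (by simpa [mul_assoc] using h3)
  · rw [← h]
    abel

/-- Conjugacy equation for `1 + a φ`. -/
theorem mul_tv_eq {g : Matrix ι ι F} {a φ a' φ' : ι → F} (h1 : g *ᵥ a = a') (h2 : φ' ᵥ* g = φ) :
    g * (1 + vecMulVec a φ) = (1 + vecMulVec a' φ') * g := by
  rw [mul_add, add_mul, mul_one, one_mul]
  congr 1
  ext i j
  simp only [Matrix.mul_apply, vecMulVec_apply]
  rw [← h1, ← h2]
  simp only [Matrix.mulVec, Matrix.vecMul, dotProduct, Finset.sum_mul, Finset.mul_sum]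
  rw [Finset.sum_comm]
  refine Finset.sum_congr rfl fun k _ => Finset.sum_congr rfl fun l _ => ?_
  ring

theorem isConj_SL (h3 : 3 ≤ Fintype.card ι) (s t : SpecialLinearGroup ι F)
    (hs : Cfsg.IsTransvection (s : Matrix ι ι F)) (ht : Cfsg.IsTransvection (t : Matrix ι ι F)) : IsConj s t := by
  obtain ⟨a, φ, ha, hφ, hφa, hs'⟩ := exists_pair hs
  obtain ⟨a', φ', ha', hφ', hφa', ht'⟩ := exists_pair ht
  obtain ⟨g, h1, h2⟩ := rel_all h3 ha ha' hφ hφ' hφa hφa'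
  rw [isConj_iff]
  refine ⟨g, ?_⟩
  have : g * s = t * g := by
    apply Subtype.ext
    show (g : Matrix ι ι F) * (s : Matrix ι ι F) = (t : Matrix ι ι F) * (g : Matrix ι ι F)
    rw [hs', ht']
    exact mul_tv_eq h1 h2
  rw [this]
  group

end Cfsg.Agent.Lib.TvConj
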