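import Mathlib
import Cfsg.Prelude.Def_Balance
import Cfsg.Agent.Lib.Comp3
import Cfsg.Agent.Lib.PNilp
import Cfsg.Agent.Lib.InvolSylow

/-!
# The extended 2-layer
-/

set_option autoImplicit false
set_option linter.style.haveILetI false
set_option linter.unusedSectionVars false

namespace Cfsg.Agent.Lib.TwoLayer

open Cfsg Cfsg.Agent.Lib.H1Core Cfsg.Agent.Lib.H1Fit Cfsg.Agent.Lib.Comp Cfsg.Agent.Lib.Comp2

universe u

theorem pPrimeCore_map_le {A B : Type*} [Group A] [Group B] [Finite A] [Finite B] (e : A ≃* B) (q : ℕ)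
    [Fact q.Prime] : (pPrimeCore q A).map e.toMonoidHom ≤ pPrimeCore q B := by
  apply le_sSup
  refine ⟨Subgroup.Normal.map (pPrimeCore_normal q A) _ e.surjective, ?_⟩
  rw [Subgroup.card_map_of_injective e.injective]
  exact pPrimeCore_coprime q

theorem pPrimeCore_map_equiv {A B : Type*} [Group A] [Group B] [Finite A] [Finite B] (e : A ≃* B) (q : ℕ)
    [Fact q.Prime] : (pPrimeCore q A).map e.toMonoidHom = pPrimeCore q B := by
  apply le_antisymm (pPrimeCore_map_le e q)
  have h := Subgroup.map_mono (f := e.toMonoidHom) (pPrimeCore_map_le e.symm q)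
  refine le_trans ?_ h
  intro x hx
  exact ⟨e.symm x, ⟨x, hx, rfl⟩, by simp⟩

variable {X : Type u} [Group X] [Finite X] {p : ℕ} [Fact p.Prime]

theorem pcomp_map_equiv (e : X ≃* X) {K : Subgroup X} (hK : IsPComponent p K) :
    IsPComponent p (K.map e.toMonoidHom) := by
  set Z := pPrimeCore p X with hZ
  have hZe : Z.map e.toMonoidHom = Z := by
    have h1 := (pPrimeCore_char (G := X) p)
    exact (Subgroup.characteristic_iff_map_eq.mp h1) e
  let ebar : (X ⧸ Z) ≃* (X ⧸ Z) := QuotientGroup.congr Z Z e hZe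
  have hbar : ∀ x : X, QuotientGroup.mk' Z (e x) = ebar (QuotientGroup.mk' Z x) := fun x => rfl
  have himg : ∀ J : Subgroup X, (J.map e.toMonoidHom).map (QuotientGroup.mk' Z) =
      (J.map (QuotientGroup.mk' Z)).map ebar.toMonoidHom := by
    intro J
    ext y
    constructor
    · rintro ⟨_, ⟨j, hj, rfl⟩, rfl⟩
      exact ⟨_, ⟨j, hj, rfl⟩, rfl⟩
    · rintro ⟨_, ⟨j, hj, rfl⟩, rfl⟩
      exact ⟨_, ⟨j, hj, rfl⟩, rfl⟩
  refine ⟨hK.1.map e.surjective, ?_, ?_⟩
  · rw [himg]
    exact isComponent_map_equiv hK.2.1 ebar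
  · intro H hH hle him
    have hH' : H.map e.symm.toMonoidHom ≤ K := by
      rintro _ ⟨h, hh, rfl⟩
      obtain ⟨k, hk, rfl⟩ := hle hh
      simpa using hk
    have hcomp : (H.map e.symm.toMonoidHom).map e.toMonoidHom = H := by
      ext x
      constructor
      · rintro ⟨_, ⟨h, hh, rfl⟩, rfl⟩
        simpa using hh
      · intro hx
        exact ⟨e.symm x, ⟨x, hx, rfl⟩, by simp⟩
    have h1 : (H.map e.symm.toMonoidHom).map (QuotientGroup.mk' Z) = K.map (QuotientGroup.mk' Z) := by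
      apply Subgroup.map_injective (f := ebar.toMonoidHom) ebar.injective
      rw [← himg, ← himg, hcomp]
      exact him
    have h2 := hK.2.2 (H.map e.symm.toMonoidHom) (hH.map e.symm.surjective) hH' h1
    rw [← h2, hcomp]

theorem pLayer_char : (pLayer p X).Characteristic := by
  apply sSup_characteristic
  intro φ N hN
  exact pcomp_map_equiv φ hN

instance pLayer_normal : (pLayer p X).Normal := by
  haveI := pLayer_char (p := p) (X := X)
  infer_instance

instance pPrimePCore_normal : (pPrimePCore p X).Normal :=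
  Subgroup.Normal.comap (pCore_normal p _) _

/-- the "piece" `O(C_X(R))` of the extended layer. -/
def piece (R : Subgroup X) : Subgroup X :=
  (oddCore ↥(Subgroup.centralizer (R : Set X))).map (Subgroup.centralizer (R : Set X)).subtype

theorem map_centralizer_conj (R : Subgroup X) (g : X) :
    (Subgroup.centralizer (R : Set X)).map (MulAut.conj g).toMonoidHom =
      Subgroup.centralizer ((R.map (MulAut.conj g).toMonoidHom : Subgroup X) : Set X) := by
  ext x
  constructor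
  · rintro ⟨c, hc, rfl⟩
    refine Subgroup.mem_centralizer_iff.mpr ?_
    rintro _ ⟨r, hr, rfl⟩
    have h1 := (Subgroup.mem_centralizer_iff.mp hc) r hr
    change g * r * g⁻¹ * (g * c * g⁻¹) = g * c * g⁻¹ * (g * r * g⁻¹)
    calc _ = g * (r * c) * g⁻¹ := by group
      _ = g * (c * r) * g⁻¹ := by rw [h1]
      _ = _ := by group
  · intro hx
    refine ⟨g⁻¹ * x * g, ?_, by
      change g * (g⁻¹ * x * g) * g⁻¹ = x
      group⟩
    refine Subgroup.mem_centralizer_iff.mpr ?_
    intro r hr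
    have h1 := (Subgroup.mem_centralizer_iff.mp hx) (g * r * g⁻¹) ⟨r, hr, rfl⟩
    have h2 : g⁻¹ * (g * r * g⁻¹ * x) * g = g⁻¹ * (x * (g * r * g⁻¹)) * g := by rw [h1]
    calc r * (g⁻¹ * x * g) = g⁻¹ * (g * r * g⁻¹ * x) * g := by group
      _ = g⁻¹ * (x * (g * r * g⁻¹)) * g := h2
      _ = _ := by group

theorem map_core_conj (A : Subgroup X) (g : X) {B : Subgroup X} (h : A.map (MulAut.conj g).toMonoidHom = B) :
    ((oddCore ↥A).map A.subtype).map (MulAut.conj g).toMonoidHom = (oddCore ↥B).map B.subtype := by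
  subst h
  haveI : Fact (Nat.Prime 2) := ⟨Nat.prime_two⟩
  set e := A.equivMapOfInjective (MulAut.conj g).toMonoidHom (MulAut.conj g).injective with he
  have h1 : oddCore ↥(A.map (MulAut.conj g).toMonoidHom) = (oddCore ↥A).map e.toMonoidHom :=
    (pPrimeCore_map_equiv e 2).symm
  rw [h1]
  ext x
  constructor
  · rintro ⟨_, ⟨a, ha, rfl⟩, rfl⟩
    exact ⟨e a, ⟨a, ha, rfl⟩, rfl⟩
  · rintro ⟨_, ⟨a, ha, rfl⟩, rfl⟩
    exact ⟨_, ⟨a, ha, rfl⟩, rfl⟩

theorem piece_conj (R : Subgroup X) (g : X) :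
    (piece R).map (MulAut.conj g).toMonoidHom = piece (R.map (MulAut.conj g).toMonoidHom) :=
  map_core_conj _ g (map_centralizer_conj R g)

abbrev Mgrp (X : Type u) [Group X] : Subgroup X := pLayer 2 X ⊔ pPrimePCore 2 X

instance Mgrp_normal [Fact (Nat.Prime 2)] : (Mgrp X).Normal := Subgroup.sup_normal _ _

/-- image in `X` of a Sylow subgroup of `M`. -/
abbrev hat (T : Sylow 2 ↥(Mgrp X)) : Subgroup X := (T : Subgroup ↥(Mgrp X)).map (Mgrp X).subtype

theorem exists_sylow_conj [Fact (Nat.Prime 2)] (T : Sylow 2 ↥(Mgrp X)) (g : X) :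
    ∃ T' : Sylow 2 ↥(Mgrp X), hat T' = (hat T).map (MulAut.conj g).toMonoidHom := by
  set φ : ↥(Mgrp X) ≃* ↥(Mgrp X) := MulAut.conjNormal g with hφ
  have hc : Nat.card ((T : Subgroup ↥(Mgrp X)).map φ.toMonoidHom) =
      2 ^ (Nat.card ↥(Mgrp X)).factorization 2 := by
    have hinj : Function.Injective φ.toMonoidHom := φ.injective
    rw [Subgroup.card_map_of_injective hinj]
    exact T.card_eq_multiplicity
  refine ⟨Sylow.ofCard _ hc, ?_⟩
  ext x
  unfold hat
  rw [Sylow.coe_ofCard]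
  constructor
  · rintro ⟨_, ⟨m, hm, rfl⟩, rfl⟩
    exact ⟨(m : X), ⟨m, hm, rfl⟩, rfl⟩
  · rintro ⟨_, ⟨m, hm, rfl⟩, rfl⟩
    exact ⟨φ m, ⟨m, hm, rfl⟩, rfl⟩

theorem extendedTwoLayer_eq : extendedTwoLayer X = pLayer 2 X ⊔ oddCore X ⊔ ⨆ T : Sylow 2 ↥(Mgrp X), piece (hat T) :=
  rfl

theorem extendedTwoLayer_normal [Fact (Nat.Prime 2)] : (extendedTwoLayer X).Normal := by
  rw [extendedTwoLayer_eq]
  haveI hL : (pLayer 2 X).Normal := pLayer_normal
  have hle : ∀ g : X, (pLayer 2 X ⊔ oddCore X ⊔ ⨆ T : Sylow 2 ↥(Mgrp X), piece (hat T)).map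
      (MulAut.conj g).toMonoidHom ≤ pLayer 2 X ⊔ oddCore X ⊔ ⨆ T : Sylow 2 ↥(Mgrp X), piece (hat T) := by
    intro g
    rw [Subgroup.map_sup, Subgroup.map_sup, Subgroup.map_iSup]
    apply sup_le_sup
    · apply sup_le_sup
      · rintro _ ⟨x, hx, rfl⟩
        exact hL.conj_mem x hx g
      · rintro _ ⟨x, hx, rfl⟩
        exact (pPrimeCore_normal 2 X).conj_mem x hx g
    · apply iSup_le
      intro T
      obtain ⟨T', hT'⟩ := exists_sylow_conj T g
      rw [piece_conj, ← hT']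
      exact le_iSup (fun T : Sylow 2 ↥(Mgrp X) => piece (hat T)) T'
  exact ⟨fun n hn g => hle g ⟨n, hn, rfl⟩⟩

theorem exists_conj_in_K [Fact (Nat.Prime 2)] (T T' : Sylow 2 ↥(Mgrp X)) :
    ∃ k ∈ pLayer 2 X ⊔ oddCore X, hat T' = (hat T).map (MulAut.conj k).toMonoidHom := by
  haveI hL : (pLayer 2 X).Normal := pLayer_normal
  haveI hO : (oddCore X).Normal := pPrimeCore_normal 2 X
  haveI hP : (pPrimePCore 2 X).Normal := pPrimePCore_normal
  set K := pLayer 2 X ⊔ oddCore X with hK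
  haveI hKn : K.Normal := Subgroup.sup_normal _ _
  set K₀ := K.subgroupOf (Mgrp X) with hK₀
  haveI hK₀n : K₀.Normal := Subgroup.Normal.subgroupOf hKn _
  have hres : pResidual 2 ↥(Mgrp X) ≤ K₀ := by
    unfold pResidual
    rw [Subgroup.closure_le]
    intro m hm
    have hmc : (orderOf m).Coprime 2 := hm
    rw [SetLike.mem_coe, hK₀, Subgroup.mem_subgroupOf]
    obtain ⟨l, hl, w, hw, hlw⟩ := Subgroup.mem_sup_of_normal_right.mp m.2
    have hw' : QuotientGroup.mk' (pPrimeCore 2 X) w ∈ pCore 2 (X ⧸ pPrimeCore 2 X) := hw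
    obtain ⟨a, ha⟩ := (pCore_isPGroup (G := X ⧸ pPrimeCore 2 X) 2) ⟨_, hw'⟩
    have ha' : (QuotientGroup.mk' (pPrimeCore 2 X) w) ^ 2 ^ a = 1 := congrArg Subtype.val ha
    have hwa : w ^ 2 ^ a ∈ K := by
      apply (le_sup_right : oddCore X ≤ K)
      rw [← map_pow] at ha'
      exact (QuotientGroup.eq_one_iff _).mp ha'
    have h1 : QuotientGroup.mk' K (m : X) = QuotientGroup.mk' K w := by
      rw [← hlw, map_mul]
      have : QuotientGroup.mk' K l = 1 :=
        (QuotientGroup.eq_one_iff _).mpr ((le_sup_left : pLayer 2 X ≤ K) hl)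
      rw [this, one_mul]
    have h2 : (QuotientGroup.mk' K (m : X)) ^ 2 ^ a = 1 := by
      rw [h1, ← map_pow]
      exact (QuotientGroup.eq_one_iff _).mpr hwa
    have h3 : (QuotientGroup.mk' K (m : X)) ^ orderOf m = 1 := by
      rw [← map_pow]
      have : (m : X) ^ orderOf m = 1 := by
        have h4 := pow_orderOf_eq_one m
        exact congrArg Subtype.val h4
      rw [this, map_one]
    have h5 := Cfsg.Agent.Lib.Comp2.eq_one_of_pow_of_coprime h2 h3 hmc
    exact (QuotientGroup.eq_one_iff _).mp h5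
  have htop : (T : Subgroup ↥(Mgrp X)) ⊔ K₀ = ⊤ := by
    rw [eq_top_iff, ← Cfsg.Agent.Lib.PNilp.sylow_sup_pResidual T]
    exact sup_le_sup_left hres _
  obtain ⟨m, rfl⟩ := MulAction.exists_smul_eq ↥(Mgrp X) T T'
  have hm : m⁻¹ ∈ (T : Subgroup ↥(Mgrp X)) ⊔ K₀ := by rw [htop]; trivial
  obtain ⟨t, ht, k, hk, htk⟩ := Subgroup.mem_sup_of_normal_right.mp hm
  have hm2 : m = k⁻¹ * t⁻¹ := by
    rw [← mul_inv_rev, htk, inv_inv]
  have hkK : ((k⁻¹ : ↥(Mgrp X)) : X) ∈ K := by
    have := inv_mem hk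
    exact Subgroup.mem_subgroupOf.mp this
  refine ⟨_, hkK, ?_⟩
  ext x
  constructor
  · rintro ⟨y, hy, rfl⟩
    have h1 := Cfsg.Agent.Lib.InvolSylow.mem_sylow_smul_iff.mp hy
    rw [hm2] at h1
    have h2 : k * y * k⁻¹ ∈ (T : Subgroup ↥(Mgrp X)) := by
      have h3 : (k⁻¹ * t⁻¹)⁻¹ * y * (k⁻¹ * t⁻¹) = t * (k * y * k⁻¹) * t⁻¹ := by group
      rw [h3] at h1
      have h4 : k * y * k⁻¹ = t⁻¹ * (t * (k * y * k⁻¹) * t⁻¹) * t := by group
      rw [h4]
      exact mul_mem (mul_mem (inv_mem ht) h1) ht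
    refine ⟨_, ⟨_, h2, rfl⟩, ?_⟩
    change ((k⁻¹ : ↥(Mgrp X)) : X) * ((k * y * k⁻¹ : ↥(Mgrp X)) : X) * ((k⁻¹ : ↥(Mgrp X)) : X)⁻¹ = (y : X)
    have h5 : k⁻¹ * (k * y * k⁻¹) * (k⁻¹)⁻¹ = y := by group
    exact congrArg Subtype.val h5
  · rintro ⟨_, ⟨u, hu, rfl⟩, rfl⟩
    refine ⟨k⁻¹ * u * k, ?_, ?_⟩
    · refine Cfsg.Agent.Lib.InvolSylow.mem_sylow_smul_iff.mpr ?_
      rw [hm2]
      have h3 : (k⁻¹ * t⁻¹)⁻¹ * (k⁻¹ * u * k) * (k⁻¹ * t⁻¹) = t * u * t⁻¹ := by group
      rw [h3]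
      exact mul_mem (mul_mem ht hu) (inv_mem ht)
    · change ((k⁻¹ * u * k : ↥(Mgrp X)) : X) = ((k⁻¹ : ↥(Mgrp X)) : X) * (u : X) * ((k⁻¹ : ↥(Mgrp X)) : X)⁻¹
      have h5 : k⁻¹ * u * k = k⁻¹ * u * (k⁻¹)⁻¹ := by group
      exact congrArg Subtype.val h5

theorem extendedTwoLayer_eq_of [Fact (Nat.Prime 2)] (T : Sylow 2 ↥(Mgrp X)) :
    extendedTwoLayer X = pLayer 2 X ⊔ oddCore X ⊔ piece (hat T) := by
  rw [extendedTwoLayer_eq]
  apply le_antisymm
  · apply sup_le le_sup_left
    apply iSup_le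
    intro T'
    obtain ⟨k, hk, hk'⟩ := exists_conj_in_K T T'
    rw [hk', ← piece_conj]
    rintro _ ⟨y, hy, rfl⟩
    have h1 : y ∈ pLayer 2 X ⊔ oddCore X ⊔ piece (hat T) := (le_sup_right : piece (hat T) ≤ _) hy
    have h2 : k ∈ pLayer 2 X ⊔ oddCore X ⊔ piece (hat T) :=
      (le_sup_left : pLayer 2 X ⊔ oddCore X ≤ _) hk
    exact mul_mem (mul_mem h2 h1) (inv_mem h2)
  · apply sup_le_sup_left
    exact le_iSup (fun T : Sylow 2 ↥(Mgrp X) => piece (hat T)) T

theorem perfect_central_sylow {Y : Type*} [Group Y] [Finite Y] (hperf : commutator Y = ⊤) {q : ℕ}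
    [Fact q.Prime] (P : Sylow q Y) (hP : (P : Subgroup Y) ≤ Subgroup.center Y) : (P : Subgroup Y) = ⊥ := by
  have hcomm : IsMulCommutative (P : Subgroup Y) := by
    refine ⟨⟨?_⟩⟩
    rintro ⟨a, ha⟩ ⟨b, hb⟩
    apply Subtype.ext
    exact (Subgroup.mem_center_iff.mp (hP hb)) a
  haveI : IsMulCommutative (P : Subgroup Y) := hcomm
  have hN : Subgroup.normalizer ((P : Subgroup Y) : Set Y) ≤ Subgroup.centralizer ((P : Subgroup Y) : Set Y) := by
    intro g _
    rw [Subgroup.mem_centralizer_iff]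
    intro h hh
    exact ((Subgroup.mem_center_iff.mp (hP hh)) g).symm
  have hc := MonoidHom.ker_transferSylow_isComplement' P hN
  have hker : (MonoidHom.transferSylow P hN).ker = ⊤ := by
    rw [eq_top_iff, ← hperf]
    rw [commutator_eq_closure, Subgroup.closure_le]
    rintro _ ⟨a, b, rfl⟩
    rw [SetLike.mem_coe, MonoidHom.mem_ker, map_commutatorElement]
    rw [commutatorElement_eq_one_iff_mul_comm]
    exact hcomm.is_comm.comm _ _
  rw [hker] at hc
  exact top_disjoint.mp hc.disjoint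

theorem relIndex_subnormal {G : Type*} [Group G] [Finite G] {q : ℕ} [Fact q.Prime] (R : Subgroup G)
    (hR : ¬ q ∣ R.index) {K : Subgroup G} (hK : K.IsSubnormal) : ¬ q ∣ R.relIndex K := by
  induction hK with
  | top => simpa using hR
  | step H K' hle _ hN ih =>
    intro hd
    apply ih
    have e1 : R.relIndex H = (R.subgroupOf K').relIndex (H.subgroupOf K') :=
      (Subgroup.relIndex_subgroupOf hle).symm
    have e2 : (R.subgroupOf K').relIndex (H.subgroupOf K') ∣ (R.subgroupOf K').index := by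
      haveI := hN
      rw [Cfsg.Agent.Lib.PNilp.relIndex_eq_relIndex_sup_of_normal]
      exact Subgroup.relIndex_dvd_index_of_le le_sup_left
    rw [e1] at hd
    exact hd.trans e2

/-- Main step of S1344: `O(C(T))` normalizes a 2-component. -/
theorem piece_le_normalizer [Fact (Nat.Prime 2)] (T : Sylow 2 ↥(Mgrp X)) {K : Subgroup X}
    (hK : IsPComponent 2 K) : piece (hat T) ≤ Subgroup.normalizer (K : Set X) := by
  set Z := pPrimeCore 2 X with hZ
  set π := QuotientGroup.mk' Z with hπ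
  have hKL : K ≤ pLayer 2 X := le_sSup hK
  have hKM : K ≤ Mgrp X := hKL.trans le_sup_left
  rintro _ ⟨⟨d, hdC⟩, -, rfl⟩
  change d ∈ Subgroup.normalizer (K : Set X)
  have hdcomm : ∀ x ∈ hat T, d * x = x * d := fun x hx =>
    ((Subgroup.mem_centralizer_iff.mp hdC) x hx).symm
  obtain ⟨hM₀, hM₀K⟩ := pcomp_normal_preimage hK
  set Kb := K.map π with hKb
  have hKbcomp : IsComponent Kb := hK.2.1
  by_cases hfix : Kb.map (MulAut.conj (π d)).toMonoidHom = Kb
  · -- `d` normalizes the preimage, hence `K`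
    have h1 : d ∈ Subgroup.normalizer ((Kb.comap π : Subgroup X) : Set X) := by
      rw [Subgroup.mem_normalizer_iff]
      intro x
      have h2 := (Subgroup.mem_normalizer_iff.mp (mem_normalizer_iff_map.mpr hfix)) (π x)
      rw [Subgroup.mem_comap, Subgroup.mem_comap, map_mul, map_mul, map_inv]
      exact h2
    have h3 := normalizer_le_normalizer_pGen 2 (Kb.comap π) h1
    rwa [hM₀K] at h3
  · exfalso
    have hKb' : IsComponent (Kb.map (MulAut.conj (π d)).toMonoidHom) :=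
      isComponent_map_equiv hKbcomp (MulAut.conj (π d))
    have hcomm := comp_comm_comp hKbcomp hKb' (fun h => hfix h.symm)
    rw [comm_iff] at hcomm
    -- the Sylow subgroup of `Kb`
    have hsub : (K.subgroupOf (Mgrp X)).IsSubnormal := hK.1.comap (Mgrp X).subtype
    have h1 := relIndex_subnormal (T : Subgroup ↥(Mgrp X)) T.not_dvd_index hsub
    have h2 : (T : Subgroup ↥(Mgrp X)) = (hat T).subgroupOf (Mgrp X) :=
      (Subgroup.comap_map_eq_self_of_injective (Mgrp X).subtype_injective _).symm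
    rw [h2, Subgroup.relIndex_subgroupOf hKM] at h1
    -- pass to `K`
    set f : K →* Kb := π.subgroupMap K with hf
    have hfs : Function.Surjective f := π.subgroupMap_surjective K
    set B := (hat T).subgroupOf K with hB
    have hBindex : ¬ 2 ∣ B.index := h1
    have hBp : IsPGroup 2 B := by
      have h3 : IsPGroup 2 (hat T) := T.2.map (Mgrp X).subtype
      exact h3.comap_subtype
    have hP₁p : IsPGroup 2 (B.map f) := hBp.map f
    have hP₁i : ¬ 2 ∣ (B.map f).index := fun h => hBindex (h.trans (Subgroup.index_map_dvd B hfs))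
    let P₁ : Sylow 2 Kb := hP₁p.toSylow hP₁i
    have hcen : (P₁ : Subgroup Kb) ≤ Subgroup.center Kb := by
      rintro _ ⟨⟨x, hxK⟩, hx, rfl⟩
      have hxT : x ∈ hat T := Subgroup.mem_subgroupOf.mp hx
      refine Subgroup.mem_center_iff.mpr ?_
      rintro ⟨y, hy⟩
      apply Subtype.ext
      have h4 : π x ∈ Kb.map (MulAut.conj (π d)).toMonoidHom := by
        refine ⟨π x, ⟨x, hxK, rfl⟩, ?_⟩
        change π d * π x * (π d)⁻¹ = π x
        rw [← map_mul, hdcomm x hxT, map_mul, mul_inv_cancel_right]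
      exact hcomm y hy _ h4
    have hP₁ := perfect_central_sylow (qs_commutator hKbcomp.2) P₁ hcen
    have hcop : (Nat.card Kb).Coprime 2 := by
      rw [Nat.coprime_two_right, ← Nat.not_even_iff_odd, even_iff_two_dvd]
      intro h
      apply hP₁i
      have h5 : (B.map f) = ⊥ := hP₁
      rw [h5, Subgroup.index_bot]
      exact h
    have h6 := coprime_subnormal_le hKbcomp.1 hcop
    rw [pPrimeCore_quotient 2, le_bot_iff] at h6
    exact comp_ne_bot hKbcomp h6

theorem pcomp_normal_extended [Fact (Nat.Prime 2)] {K : Subgroup X} (hK : IsPComponent 2 K) :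
    K ≤ extendedTwoLayer X ∧ (K.subgroupOf (extendedTwoLayer X)).Normal := by
  obtain ⟨T⟩ : Nonempty (Sylow 2 ↥(Mgrp X)) := inferInstance
  have hKL : K ≤ pLayer 2 X := le_sSup hK
  rw [extendedTwoLayer_eq_of T]
  refine ⟨hKL.trans (le_sup_left.trans le_sup_left), ?_⟩
  apply Subgroup.normal_subgroupOf_of_le_normalizer
  apply sup_le (sup_le ?_ ?_) (piece_le_normalizer T hK)
  · apply sSup_le
    intro L hL
    exact pcomp_normalizes hK hL
  · refine le_trans ?_ (pcomp_normal_preimage hK).1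
    intro z hz
    change QuotientGroup.mk' (pPrimeCore 2 X) z ∈ K.map (QuotientGroup.mk' (pPrimeCore 2 X))
    have h : QuotientGroup.mk' (pPrimeCore 2 X) z = 1 := (QuotientGroup.eq_one_iff z).mpr hz
    rw [h]
    exact one_mem _

theorem extended_eq_sup_odd [Fact (Nat.Prime 2)] : ∃ F : Subgroup X, Odd (Nat.card ↥F) ∧
    (∃ S : Sylow 2 X, (S : Subgroup X) ≤ Subgroup.normalizer (F : Set X)) ∧
      extendedTwoLayer X = pLayer 2 X ⊔ F := by
  obtain ⟨S⟩ : Nonempty (Sylow 2 X) := inferInstance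
  set T : Sylow 2 ↥(Mgrp X) := Cfsg.Agent.Lib.PNilp.sylowOfNormal S (Mgrp X) with hT
  have hMn : (Mgrp X).Normal := inferInstance
  have hR : ∀ x, x ∈ hat T ↔ x ∈ (S : Subgroup X) ∧ x ∈ Mgrp X := by
    intro x
    constructor
    · rintro ⟨y, hy, rfl⟩
      exact ⟨hy, y.2⟩
    · rintro ⟨h1, h2⟩
      exact ⟨⟨x, h2⟩, h1, rfl⟩
  have hSR : ∀ s ∈ (S : Subgroup X), (hat T).map (MulAut.conj s).toMonoidHom = hat T := by
    intro s hs
    rw [← mem_normalizer_iff_map, Subgroup.mem_normalizer_iff]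
    intro x
    rw [hR, hR]
    have h1 : x ∈ (S : Subgroup X) ↔ s * x * s⁻¹ ∈ (S : Subgroup X) := by
      constructor
      · intro h
        exact mul_mem (mul_mem hs h) (inv_mem hs)
      · intro h
        have e : x = s⁻¹ * (s * x * s⁻¹) * s := by group
        rw [e]
        exact mul_mem (mul_mem (inv_mem hs) h) hs
    have h2 : x ∈ Mgrp X ↔ s * x * s⁻¹ ∈ Mgrp X := by
      constructor
      · intro h
        exact hMn.conj_mem x h s
      · intro h
        have := hMn.conj_mem _ h s⁻¹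
        simpa [mul_assoc] using this
    rw [h1, h2]
  refine ⟨oddCore X ⊔ piece (hat T), ?_, ⟨S, ?_⟩, ?_⟩
  · have hn : piece (hat T) ≤ Subgroup.normalizer ((oddCore X : Subgroup X) : Set X) := by
      rw [Subgroup.normalizer_eq_top_iff.mpr (pPrimeCore_normal 2 X)]
      exact le_top
    have h1 := Cfsg.Agent.Lib.H1Cop.card_sup_mul_inf_of_normalizes hn
    have h2 : (Nat.card (oddCore X)).Coprime 2 := pPrimeCore_coprime 2
    have h3 : (Nat.card (piece (hat T))).Coprime 2 := by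
      unfold piece
      rw [card_map_subtype]
      exact pPrimeCore_coprime 2
    rw [Nat.coprime_two_right] at h2 h3
    have h4 : Odd (Nat.card (piece (hat T)) * Nat.card (oddCore X)) := h3.mul h2
    rw [← h1] at h4
    rw [sup_comm]
    exact (Nat.odd_mul.mp h4).1
  · intro s hs
    rw [mem_normalizer_iff_map, Subgroup.map_sup, piece_conj, hSR s hs]
    congr 1
    exact mem_normalizer_iff_map.mp (by
      rw [Subgroup.normalizer_eq_top_iff.mpr (pPrimeCore_normal 2 X)]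
      trivial)
  · rw [extendedTwoLayer_eq_of T, sup_assoc]

end Cfsg.Agent.Lib.TwoLayer
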