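import Cfsg.Agent.Lib.UnitSimple
import Cfsg.Agent.Lib.Frob72

set_option autoImplicit false

namespace Cfsg.Agent.Lib.U32

open Matrix Cfsg Cfsg.Agent.Lib.HermStd Cfsg.Agent.Lib.HermForm Cfsg.Agent.Lib.HermCount Cfsg.Agent.Lib.HermBasic
  Cfsg.Agent.Lib.UnitBasic Cfsg.Agent.Lib.SUBasic Cfsg.Agent.Lib.SUCenter Cfsg.Agent.Lib.UnitCount Cfsg.Agent.Lib.UnitE Cfsg.Agent.Lib.UnitGen Cfsg.Agent.Lib.UnitGen2 Cfsg.Agent.Lib.UnitConj Cfsg.Agent.Lib.UnitPrim Cfsg.Agent.Lib.UnitSimple
open MulAction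

variable {F : Type*} [Field F] [Fintype F] {q n : ℕ}

/-- A matrix with orthonormal columns preserves the form. -/
theorem isom_of_unitary (hF : Fintype.card F = q ^ 2) (M : Matrix (Fin n) (Fin n) F) (hU : Mᵀ * M.map (sig hF) = 1) (u v : Fin n → F) :
    hermForm n F q (M *ᵥ u) (M *ᵥ v) = hermForm n F q u v := by
  have e1 : ∀ x y : Fin n → F, hermForm n F q x y = x ⬝ᵥ (fun i => sig hF (y i)) := fun x y => rfl
  rw [e1, e1]
  have e2 : (fun i => sig hF ((M *ᵥ v) i)) = (M.map (sig hF)) *ᵥ (fun i => sig hF (v i)) := by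
    have := RingHom.map_mulVec (sig hF) M v
    ext i
    exact this i
  rw [e2]
  have e3 : ∀ y : Fin n → F, (M *ᵥ u) ⬝ᵥ y = u ⬝ᵥ (Mᵀ *ᵥ y) := fun y => by
    rw [Matrix.dotProduct_mulVec u Mᵀ y, Matrix.vecMul_transpose]
  rw [e3, Matrix.mulVec_mulVec, hU, Matrix.one_mulVec]

/-- Elements of `SU` from unitary matrices. -/
def mkSU (hF : Fintype.card F = q ^ 2) (M : Matrix (Fin n) (Fin n) F) (hdet : M.det = 1) (hU : Mᵀ * M.map (sig hF) = 1) : SU n F q :=
  ⟨⟨M, hdet⟩, fun u v => isom_of_unitary hF M hU u v⟩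

theorem mkSU_val (hF : Fintype.card F = q ^ 2) (M : Matrix (Fin n) (Fin n) F) (hdet : M.det = 1) (hU : Mᵀ * M.map (sig hF) = 1) :
    ((mkSU hF M hdet hU).1 : Matrix (Fin n) (Fin n) F) = M := rfl

/-- Counting isotropic lines. -/
theorem card_lines_mul (hF : Fintype.card F = q ^ 2) (n : ℕ) :
    Nat.card (IsoLine n F q) * (q ^ 2 - 1) + 1 = Nat.card {v : Fin n → F // hermForm n F q v v = 0} := by
  classical
  let V := {v : Fin n → F // v ≠ 0 ∧ hermForm n F q v v = 0}
  let f : V → IsoLine n F q := fun v => mkL v.1 v.2.1 v.2.2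
  have hf : Function.Surjective f := by
    intro L
    induction L using ind_L with
    | H v hv0 hv => exact ⟨⟨v, hv0, hv⟩, rfl⟩
  haveI : Finite (IsoLine n F q) := Finite.of_surjective f hf
  haveI : Fintype (IsoLine n F q) := Fintype.ofFinite _
  have hfib : ∀ L : IsoLine n F q, Nat.card {v : V // f v = L} = q ^ 2 - 1 := by
    intro L
    induction L using ind_L with
    | H u hu0 hu =>
      have hcard : Nat.card Fˣ = q ^ 2 - 1 := by
        rw [Nat.card_eq_fintype_card, Fintype.card_units, hF]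
      rw [← hcard]
      symm
      have hiso : ∀ a : F, hermForm n F q (a • u) (a • u) = 0 := by
        intro a
        rw [hf_smul_left, hf_smul_right hF, hu, mul_zero, mul_zero]
      let φ : Fˣ → {v : V // f v = mkL u hu0 hu} := fun a => ⟨⟨(a : F) • u, smul_ne_zero a.ne_zero hu0, hiso _⟩, by
        show mkL _ _ _ = mkL u hu0 hu
        rw [mkL_eq_iff]
        refine ⟨(a : F)⁻¹, inv_ne_zero a.ne_zero, ?_⟩
        rw [smul_smul, inv_mul_cancel₀ a.ne_zero, one_smul]⟩
      apply Nat.card_congr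
      apply Equiv.ofBijective φ
      constructor
      · intro a b hab
        have h1 : (a : F) • u = (b : F) • u := congrArg (fun x : {v : V // f v = mkL u hu0 hu} => x.1.1) hab
        apply Units.ext
        exact smul_left_injective F hu0 h1
      · rintro ⟨⟨v, hv0, hv⟩, hv'⟩
        obtain ⟨a, ha0, ha⟩ := mkL_eq_iff.1 hv'
        refine ⟨Units.mk0 a⁻¹ (inv_ne_zero ha0), ?_⟩
        apply Subtype.ext
        apply Subtype.ext
        show a⁻¹ • u = v
        rw [ha, smul_smul, inv_mul_cancel₀ ha0, one_smul]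
  have h1 : Nat.card V = Nat.card (IsoLine n F q) * (q ^ 2 - 1) := by
    have e := Nat.card_congr (Equiv.sigmaFiberEquiv f)
    rw [Nat.card_sigma] at e
    rw [← e, Finset.sum_congr rfl (fun L _ => hfib L), Finset.sum_const, Finset.card_univ, smul_eq_mul, Nat.card_eq_fintype_card (α := IsoLine n F q)]
  rw [← h1]
  simp only [V]
  rw [Nat.card_eq_fintype_card, Nat.card_eq_fintype_card, Fintype.card_subtype, Fintype.card_subtype]
  have e : (Finset.univ.filter (fun v : Fin n → F => hermForm n F q v v = 0)) = insert 0 (Finset.univ.filter (fun v : Fin n → F => v ≠ 0 ∧ hermForm n F q v v = 0)) := by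
    ext v
    simp only [Finset.mem_filter, Finset.mem_univ, true_and, Finset.mem_insert]
    constructor
    · intro hv
      by_cases h0 : v = 0
      · exact Or.inl h0
      · exact Or.inr ⟨h0, hv⟩
    · rintro (rfl | h)
      · exact hf_zero_left _
      · exact h.2
  rw [e, Finset.card_insert_of_notMem (by simp)]

section concrete

variable (hF : Fintype.card F = 4)

include hF

theorem hF' : Fintype.card F = 2 ^ 2 := by rw [hF]; norm_num

theorem two_zero : (2 : F) = 0 := by
  have h1 : ((Fintype.card F : ℕ) : F) = 0 := Nat.cast_card_eq_zero F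
  rw [hF] at h1
  have h2 : (2 : F) * 2 = 0 := by
    have : (2 : F) * 2 = ((4 : ℕ) : F) := by norm_num
    rw [this, h1]
  rcases mul_eq_zero.1 h2 with h | h <;> exact h

theorem pow_three {x : F} (hx : x ≠ 0) : x ^ 3 = 1 := by
  have := FiniteField.pow_card_sub_one_eq_one x hx
  rwa [hF] at this

theorem exists_omega : ∃ ω : F, ω ^ 2 + ω + 1 = 0 := by
  classical
  obtain ⟨x, hx⟩ : ∃ x : F, x ∉ ({0, 1} : Finset F) := by
    by_contra hcon
    push Not at hcon
    have h1 : (Finset.univ : Finset F).card ≤ ({0, 1} : Finset F).card := Finset.card_le_card (fun x _ => hcon x)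
    rw [Finset.card_univ, hF] at h1
    have h2 : ({0, 1} : Finset F).card ≤ 2 := Finset.card_le_two
    omega
  simp only [Finset.mem_insert, Finset.mem_singleton, not_or] at hx
  refine ⟨x, ?_⟩
  have h3 := pow_three hF hx.1
  have h4 : (x - 1) * (x ^ 2 + x + 1) = 0 := by linear_combination h3
  exact (mul_eq_zero.1 h4).resolve_left (sub_ne_zero.2 hx.2)

theorem card_SU : Nat.card (SU 3 F 2) = 216 := by
  have h1 := card_GU_eq (hF' hF) 3 (by norm_num)
  rw [card_GU (hF' hF)] at h1
  simp only [Finset.prod_range_succ, Finset.prod_range_zero] at h1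
  norm_num [Nat.even_iff] at h1
  omega

theorem card_PSU : Nat.card (PSU 3 F 2) = 72 := by
  have h1 := Subgroup.card_eq_card_quotient_mul_card_subgroup (Subgroup.center (SU 3 F 2))
  rw [card_SU hF, card_center (hF' hF) (by norm_num)] at h1
  have h2 : Nat.gcd 3 (2 + 1) = 3 := by norm_num
  rw [h2] at h1
  show Nat.card (SU 3 F 2 ⧸ Subgroup.center (SU 3 F 2)) = 72
  omega

theorem card_X : Nat.card (IsoLine 3 F 2) = 9 := by
  have h1 := card_lines_mul (hF' hF) 3
  rw [card_isotropic (hF' hF)] at h1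
  norm_num [Nat.even_iff] at h1
  omega

/-- The action of `PSU` on lines. -/
noncomputable def rho : PSU 3 F 2 →* Equiv.Perm (IsoLine 3 F 2) :=
  QuotientGroup.lift _ (MulAction.toPermHom (SU 3 F 2) (IsoLine 3 F 2)) (by
    intro z hz
    ext1 L
    exact (mem_center_iff (hF' hF) (le_refl _) z).1 hz L)

theorem rho_mk (g : SU 3 F 2) (L : IsoLine 3 F 2) : rho hF (QuotientGroup.mk g) L = g • L := rfl

/-- The main structure theorem for `PSU_3(2)`. -/
theorem exists_normal : ∃ N : Subgroup (PSU 3 F 2), N.Normal ∧ Nat.card N = 9 ∧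
    ∀ g : SU 3 F 2, (QuotientGroup.mk g : PSU 3 F 2) ∈ N ↔ ((QuotientGroup.mk g : PSU 3 F 2) = 1 ∨ ∀ L : IsoLine 3 F 2, g • L ≠ L) := by
  letI : MulAction (PSU 3 F 2) (IsoLine 3 F 2) := MulAction.compHom _ (rho hF)
  have hsm : ∀ (g : SU 3 F 2) (L : IsoLine 3 F 2), (QuotientGroup.mk g : PSU 3 F 2) • L = g • L := fun g L => rfl
  have hT := hasTriple (F := F) (hF' hF) 0
  have htrS := pretrans (hF' hF) hT
  have hfin : Finite (IsoLine 3 F 2) := by
    have h9 := card_X hF
    exact Nat.finite_of_card_ne_zero (by omega)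
  have htr : IsPretransitive (PSU 3 F 2) (IsoLine 3 F 2) := by
    constructor
    intro x y
    obtain ⟨g, hg⟩ := htrS.exists_smul_eq x y
    exact ⟨QuotientGroup.mk g, hg⟩
  have h2 : ∀ a b c : IsoLine 3 F 2, a ≠ b → a ≠ c → ∃ g : PSU 3 F 2, g • a = a ∧ g • b = c := by
    intro a b c hab hac
    have hno : ∀ x y : IsoLine 3 F 2, x ≠ y → ¬ Orth x y := by
      intro x y hxy
      induction x using ind_L with | H u hu0 hu => ?_
      induction y using ind_L with | H v hv0 hv => ?_
      rw [orth_mk_iff (hF' hF)]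
      intro h0
      obtain ⟨t, ht0, ht⟩ := no_orth_three (hF' hF) hu hv (herm_comm (hF' hF) h0) hu0 hv0
      exact hxy (mkL_eq_iff.2 ⟨t, ht0, ht⟩)
    obtain ⟨g, h1, h3⟩ := exists_fix_move (hF' hF) 0 a b c hab hac ⟨fun h => absurd h (hno a b hab), fun h => absurd h (hno a c hac)⟩
    exact ⟨QuotientGroup.mk g, h1, h3⟩
  have hfree := Cfsg.Agent.Lib.Frob72.two_free (card_PSU hF) (card_X hF) htr h2
  obtain ⟨N, hN, h9, hmem⟩ := Cfsg.Agent.Lib.Frob72.frob72 (card_PSU hF) (card_X hF) htr hfree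
  exact ⟨N, hN, h9, fun g => hmem _⟩

end concrete

end Cfsg.Agent.Lib.U32
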