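import Cfsg.Agent.Lib.U32

set_option autoImplicit false

namespace Cfsg.Agent.Lib.U32b

open Matrix Cfsg Cfsg.Agent.Lib.HermStd Cfsg.Agent.Lib.HermForm Cfsg.Agent.Lib.HermCount Cfsg.Agent.Lib.HermBasic
  Cfsg.Agent.Lib.UnitBasic Cfsg.Agent.Lib.SUBasic Cfsg.Agent.Lib.SUCenter Cfsg.Agent.Lib.UnitCount Cfsg.Agent.Lib.UnitE Cfsg.Agent.Lib.UnitGen Cfsg.Agent.Lib.UnitGen2 Cfsg.Agent.Lib.UnitConj Cfsg.Agent.Lib.UnitPrim Cfsg.Agent.Lib.UnitSimple Cfsg.Agent.Lib.U32
open MulAction

variable {F : Type*} [Field F] [Fintype F]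

/-- Explicit matrices over the field with four elements. -/
def Ma (ω : F) : Matrix (Fin 3) (Fin 3) F := !![1,1,1;1,ω,ω^2;1,ω^2,ω]
def Mb (ω : F) : Matrix (Fin 3) (Fin 3) F := !![1,ω,ω;ω^2,ω,ω^2;ω^2,ω^2,ω]
def Mp : Matrix (Fin 3) (Fin 3) F := !![1,0,0;0,0,1;0,1,0]
def Mt1 (ω : F) : Matrix (Fin 3) (Fin 3) F := !![1,0,0;0,ω,0;0,0,ω^2]
def Mt2 : Matrix (Fin 3) (Fin 3) F := !![0,1,0;0,0,1;1,0,0]

section
variable (hF : Fintype.card F = 4) {ω : F} (hω : ω ^ 2 + ω + 1 = 0)
include hF hω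

theorem Ma_det : (Ma ω).det = 1 := by
  have h2 := two_zero hF
  rw [Matrix.det_fin_three]
  simp [Ma] <;> grind

theorem Ma_unit : (Ma ω)ᵀ * (Ma ω).map (sig (hF' hF)) = 1 := by
  have h2 := two_zero hF
  ext i j
  fin_cases i <;> fin_cases j <;> simp [Ma, Matrix.mul_apply, Fin.sum_univ_three, sig_apply] <;> grind

theorem Mb_det : (Mb ω).det = 1 := by
  have h2 := two_zero hF
  rw [Matrix.det_fin_three]
  simp [Mb] <;> grind

theorem Mb_unit : (Mb ω)ᵀ * (Mb ω).map (sig (hF' hF)) = 1 := by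
  have h2 := two_zero hF
  ext i j
  fin_cases i <;> fin_cases j <;> simp [Mb, Matrix.mul_apply, Fin.sum_univ_three, sig_apply] <;> grind

theorem Mt1_det : (Mt1 ω).det = 1 := by
  have h2 := two_zero hF
  rw [Matrix.det_fin_three]
  simp [Mt1] <;> grind

theorem Mt1_unit : (Mt1 ω)ᵀ * (Mt1 ω).map (sig (hF' hF)) = 1 := by
  have h2 := two_zero hF
  ext i j
  fin_cases i <;> fin_cases j <;> simp [Mt1, Matrix.mul_apply, Fin.sum_univ_three, sig_apply] <;> grind

theorem Mt2_det : ((Mt2 : Matrix (Fin 3) (Fin 3) F)).det = 1 := by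
  have h2 := two_zero hF
  rw [Matrix.det_fin_three]
  simp [Mt2] <;> grind

theorem Mt2_unit : ((Mt2 : Matrix (Fin 3) (Fin 3) F))ᵀ * ((Mt2 : Matrix (Fin 3) (Fin 3) F)).map (sig (hF' hF)) = 1 := by
  have h2 := two_zero hF
  ext i j
  fin_cases i <;> fin_cases j <;> simp [Mt2, Matrix.mul_apply, Fin.sum_univ_three, sig_apply] <;> grind

theorem Ma_sq : Ma ω * Ma ω = Mp := by
  have h2 := two_zero hF
  ext i j
  fin_cases i <;> fin_cases j <;> simp [Ma, Mp, Matrix.mul_apply, Fin.sum_univ_three, Matrix.one_apply] <;> grind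

theorem Mb_sq : Mb ω * Mb ω = Mp := by
  have h2 := two_zero hF
  ext i j
  fin_cases i <;> fin_cases j <;> simp [Mb, Mp, Matrix.mul_apply, Fin.sum_univ_three, Matrix.one_apply] <;> grind

theorem Mp_sq : (Mp : Matrix (Fin 3) (Fin 3) F) * Mp = 1 := by
  have h2 := two_zero hF
  ext i j
  fin_cases i <;> fin_cases j <;> simp [Mp, Matrix.mul_apply, Fin.sum_univ_three, Matrix.one_apply] <;> grind

theorem Mab : Ma ω * Mb ω * Ma ω = Mb ω := by
  have h2 := two_zero hF
  ext i j
  fin_cases i <;> fin_cases j <;> simp [Ma, Mb, Matrix.mul_apply, Fin.sum_univ_three, Matrix.one_apply] <;> grind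

theorem Mt1_cube : Mt1 ω * Mt1 ω * Mt1 ω = 1 := by
  have h2 := two_zero hF
  ext i j
  fin_cases i <;> fin_cases j <;> simp [Mt1, Matrix.mul_apply, Fin.sum_univ_three, Matrix.one_apply] <;> grind

theorem Mt2_cube : (Mt2 : Matrix (Fin 3) (Fin 3) F) * Mt2 * Mt2 = 1 := by
  have h2 := two_zero hF
  ext i j
  fin_cases i <;> fin_cases j <;> simp [Mt2, Matrix.mul_apply, Fin.sum_univ_three, Matrix.one_apply] <;> grind


end

/-- Fixed-point-freeness of `t₁`. -/
theorem t1_fpf (hF : Fintype.card F = 4) {ω : F} (hω : ω ^ 2 + ω + 1 = 0) (v : Fin 3 → F) (a : F) (hv : hermForm 3 F 2 v v = 0)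
    (he : v = a • (Mt1 ω *ᵥ v)) : v = 0 := by
  have h2 := two_zero hF
  have e0 : v 0 = a * v 0 := by
    have := congrFun he 0
    simpa [Mt1, Matrix.mulVec, dotProduct, Fin.sum_univ_three] using this
  have e1 : v 1 = a * (ω * v 1) := by
    have := congrFun he 1
    simpa [Mt1, Matrix.mulVec, dotProduct, Fin.sum_univ_three] using this
  have e2 : v 2 = a * (ω ^ 2 * v 2) := by
    have := congrFun he 2
    simpa [Mt1, Matrix.mulVec, dotProduct, Fin.sum_univ_three] using this
  have hh : v 0 * v 0 ^ 2 + v 1 * v 1 ^ 2 + v 2 * v 2 ^ 2 = 0 := by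
    have := hv
    simpa [hermForm, Fin.sum_univ_three] using this
  have hω1 : ω ≠ 1 := by
    rintro rfl
    have : (1 : F) = 0 := by
      linear_combination hω - h2
    exact one_ne_zero this
  have hω2 : ω ^ 2 ≠ 1 := by
    intro h
    apply hω1
    grind
  have hω3 : ω ^ 3 = 1 := by
    linear_combination (ω - 1) * hω
  -- at most one coordinate survives
  have h01 : v 0 = 0 ∨ v 1 = 0 := by
    by_contra hcon
    push Not at hcon
    have ha : a = 1 := by
      have := mul_right_cancel₀ hcon.1 (show a * v 0 = 1 * v 0 by rw [← e0, one_mul])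
      exact this
    subst ha
    apply hω1
    have : ω * v 1 = 1 * v 1 := by
      rw [one_mul]
      linear_combination -e1
    exact mul_right_cancel₀ hcon.2 this
  have h02 : v 0 = 0 ∨ v 2 = 0 := by
    by_contra hcon
    push Not at hcon
    have ha : a = 1 := by
      have := mul_right_cancel₀ hcon.1 (show a * v 0 = 1 * v 0 by rw [← e0, one_mul])
      exact this
    subst ha
    apply hω2
    have : ω ^ 2 * v 2 = 1 * v 2 := by
      rw [one_mul]
      linear_combination -e2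
    exact mul_right_cancel₀ hcon.2 this
  have h12 : v 1 = 0 ∨ v 2 = 0 := by
    by_contra hcon
    push Not at hcon
    have h3 : a * ω = 1 := by
      have := mul_right_cancel₀ hcon.1 (show (a * ω) * v 1 = 1 * v 1 by
        rw [one_mul]
        linear_combination -e1)
      exact this
    apply hω1
    have h4 : a * ω ^ 2 * v 2 = 1 * v 2 := by
      rw [one_mul]
      linear_combination -e2
    have h5 := mul_right_cancel₀ hcon.2 h4
    linear_combination h5 - ω * h3
  have hz : ∀ x : F, x * x ^ 2 = 0 → x = 0 := by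
    intro x hx
    have h3 : x ^ 3 = 0 := by rw [← hx]; ring
    exact pow_eq_zero_iff (by norm_num) |>.1 h3
  have all : v 0 = 0 ∧ v 1 = 0 ∧ v 2 = 0 := by
    rcases h01 with h | h
    · rcases h12 with h' | h'
      · rw [h, h'] at hh
        simp only [zero_mul, zero_add, ne_eq, OfNat.ofNat_ne_zero, not_false_eq_true, zero_pow, mul_zero] at hh
        exact ⟨h, h', hz _ hh⟩
      · rw [h, h'] at hh
        simp only [zero_mul, zero_add, add_zero, ne_eq, OfNat.ofNat_ne_zero, not_false_eq_true, zero_pow, mul_zero] at hh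
        exact ⟨h, hz _ hh, h'⟩
    · rcases h02 with h' | h'
      · rw [h, h'] at hh
        simp only [zero_mul, zero_add, add_zero, ne_eq, OfNat.ofNat_ne_zero, not_false_eq_true, zero_pow, mul_zero] at hh
        exact ⟨h', h, hz _ hh⟩
      · rw [h, h'] at hh
        simp only [zero_mul, zero_add, add_zero, ne_eq, OfNat.ofNat_ne_zero, not_false_eq_true, zero_pow, mul_zero] at hh
        exact ⟨hz _ hh, h, h'⟩
  funext i
  fin_cases i
  · exact all.1
  · exact all.2.1
  · exact all.2.2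

/-- Fixed-point-freeness of `t₂`. -/
theorem t2_fpf (hF : Fintype.card F = 4) (v : Fin 3 → F) (a : F) (ha0 : a ≠ 0) (hv : hermForm 3 F 2 v v = 0)
    (he : v = a • (Mt2 *ᵥ v)) : v = 0 := by
  have h2 := two_zero hF
  have e0 : v 0 = a * v 1 := by
    have := congrFun he 0
    simpa [Mt2, Matrix.mulVec, dotProduct, Fin.sum_univ_three] using this
  have e1 : v 1 = a * v 2 := by
    have := congrFun he 1
    simpa [Mt2, Matrix.mulVec, dotProduct, Fin.sum_univ_three] using this
  have e2 : v 2 = a * v 0 := by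
    have := congrFun he 2
    simpa [Mt2, Matrix.mulVec, dotProduct, Fin.sum_univ_three] using this
  have hh : v 0 * v 0 ^ 2 + v 1 * v 1 ^ 2 + v 2 * v 2 ^ 2 = 0 := by
    have := hv
    simpa [hermForm, Fin.sum_univ_three] using this
  have ha3 : a ^ 3 = 1 := pow_three hF ha0
  have h00 : v 0 = 0 := by
    have e3 : v 1 = a ^ 2 * v 0 := by
      rw [e1, e2]
      ring
    have e4 : v 0 ^ 3 = 0 := by
      rw [e2, e3] at hh
      have e5 : a ^ 6 = 1 := by
        have : a ^ 6 = (a ^ 3) ^ 2 := by ring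
        rw [this, ha3, one_pow]
      linear_combination hh - v 0 ^ 3 * e5 - v 0 ^ 3 * ha3 - (v 0 ^ 3) * h2
    exact pow_eq_zero_iff (by norm_num) |>.1 e4
  have h22 : v 2 = 0 := by rw [e2, h00, mul_zero]
  have h11 : v 1 = 0 := by rw [e1, h22, mul_zero]
  funext i
  fin_cases i
  · exact h00
  · exact h11
  · exact h22

end Cfsg.Agent.Lib.U32b
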