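import Cfsg.Agent.Lib.U32b

set_option autoImplicit false

namespace Cfsg.Agent.Lib.U32c

open Matrix Cfsg Cfsg.Agent.Lib.HermStd Cfsg.Agent.Lib.HermForm Cfsg.Agent.Lib.HermCount Cfsg.Agent.Lib.HermBasic
  Cfsg.Agent.Lib.UnitBasic Cfsg.Agent.Lib.SUBasic Cfsg.Agent.Lib.SUCenter Cfsg.Agent.Lib.UnitCount Cfsg.Agent.Lib.UnitE Cfsg.Agent.Lib.UnitGen Cfsg.Agent.Lib.UnitGen2 Cfsg.Agent.Lib.UnitConj Cfsg.Agent.Lib.UnitPrim Cfsg.Agent.Lib.UnitSimple Cfsg.Agent.Lib.U32 Cfsg.Agent.Lib.U32b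
open MulAction

variable {F : Type*} [Field F] [Fintype F]

theorem su_eq {a b : SU 3 F 2} (h : (a.1 : Matrix (Fin 3) (Fin 3) F) = (b.1 : Matrix (Fin 3) (Fin 3) F)) : a = b :=
  Subtype.ext (Subtype.ext h)

/-- Structure of `PSU_3(2)`. -/
theorem main (hF : Fintype.card F = 4) : ∃ (N : Subgroup (PSU 3 F 2)) (_ : N.Normal), Nat.card N = 9 ∧ (∀ x ∈ N, x ^ 3 = 1) ∧ Nonempty (PSU 3 F 2 ⧸ N ≃* QuaternionGroup 2) := by
  classical
  obtain ⟨ω, hω⟩ := exists_omega hF
  obtain ⟨N, hN, h9, hmem⟩ := exists_normal hF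
  have h2 := two_zero hF
  have hF2 := hF' hF
  refine ⟨N, hN, h9, ?_, ?_⟩
  · -- the exponent
    let t1 : SU 3 F 2 := mkSU hF2 (Mt1 ω) (Mt1_det hF hω) (Mt1_unit hF hω)
    let t2 : SU 3 F 2 := mkSU hF2 Mt2 (Mt2_det hF hω) (Mt2_unit hF hω)
    have ht1 : ∀ L : IsoLine 3 F 2, t1 • L ≠ L := by
      intro L
      induction L using ind_L with | H v hv0 hv => ?_
      rw [smul_mkL, Ne, mkL_eq_iff]
      rintro ⟨a, ha0, ha⟩
      exact hv0 (t1_fpf hF hω v a hv ha)
    have ht2 : ∀ L : IsoLine 3 F 2, t2 • L ≠ L := by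
      intro L
      induction L using ind_L with | H v hv0 hv => ?_
      rw [smul_mkL, Ne, mkL_eq_iff]
      rintro ⟨a, ha0, ha⟩
      exact hv0 (t2_fpf hF v a ha0 hv ha)
    let x1 : PSU 3 F 2 := QuotientGroup.mk t1
    let x2 : PSU 3 F 2 := QuotientGroup.mk t2
    have hx1N : x1 ∈ N := (hmem t1).2 (Or.inr ht1)
    have hx2N : x2 ∈ N := (hmem t2).2 (Or.inr ht2)
    have ht1c : t1 ^ 3 = 1 := by
      rw [pow_three']
      apply su_eq
      exact Mt1_cube hF hω
    have ht2c : t2 ^ 3 = 1 := by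
      rw [pow_three']
      apply su_eq
      exact Mt2_cube hF hω
    have hx1c : x1 ^ 3 = 1 := by
      show (QuotientGroup.mk t1 : PSU 3 F 2) ^ 3 = 1
      rw [← QuotientGroup.mk_pow, ht1c]
      rfl
    have hx2c : x2 ^ 3 = 1 := by
      show (QuotientGroup.mk t2 : PSU 3 F 2) ^ 3 = 1
      rw [← QuotientGroup.mk_pow, ht2c]
      rfl
    have hX : Nonempty (IsoLine 3 F 2) := by
      obtain ⟨a, ha⟩ := exists_a hF2
      exact ⟨mkL (vv a 1) (vv_ne a _) (herm_vv_self hF2 ha _)⟩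
    have hx1ne : x1 ≠ 1 := by
      intro h
      have h1 : t1 ∈ Subgroup.center (SU 3 F 2) := (QuotientGroup.eq_one_iff t1).1 h
      obtain ⟨L⟩ := hX
      exact ht1 L ((mem_center_iff hF2 (le_refl _) t1).1 h1 L)
    -- the elements of exponent three
    have hcomm : ∀ x ∈ N, ∀ y ∈ N, x * y = y * x := by
      intro x hx y hy
      have := IsPGroup.commutative_of_card_eq_prime_sq (p := 3) (G := N) (by rw [h9]; norm_num) ⟨x, hx⟩ ⟨y, hy⟩
      exact congrArg Subtype.val this
    let E : Subgroup (PSU 3 F 2) :=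
      { carrier := {z | z ∈ N ∧ z ^ 3 = 1}
        mul_mem' := by
          rintro a b ⟨ha, ha3⟩ ⟨hb, hb3⟩
          refine ⟨N.mul_mem ha hb, ?_⟩
          have hc : Commute a b := hcomm a ha b hb
          rw [hc.mul_pow, ha3, hb3, one_mul]
        one_mem' := ⟨N.one_mem, one_pow _⟩
        inv_mem' := by
          rintro a ⟨ha, ha3⟩
          exact ⟨N.inv_mem ha, by rw [inv_pow, ha3, inv_one]⟩ }
    have hEN : E ≤ N := fun z hz => hz.1
    have hEdvd : Nat.card E ∣ 9 := by
      rw [← h9]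
      exact Subgroup.card_dvd_of_le hEN
    have hx1E : x1 ∈ E := ⟨hx1N, hx1c⟩
    have hx2E : x2 ∈ E := ⟨hx2N, hx2c⟩
    have hord : orderOf x1 = 3 := orderOf_eq_prime hx1c hx1ne
    have hzp : Nat.card (Subgroup.zpowers x1) = 3 := by
      rw [Nat.card_zpowers, hord]
    have hzpE : Subgroup.zpowers x1 ≤ E := by
      rw [Subgroup.zpowers_le]
      exact hx1E
    have hdvd3 : 3 ∣ Nat.card E := by
      have := Subgroup.card_dvd_of_le hzpE
      rwa [hzp] at this
    have hE9 : Nat.card E = 9 := by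
      have hcases : Nat.card E = 1 ∨ Nat.card E = 3 ∨ Nat.card E = 9 := by
        have : Nat.card E ∈ Nat.divisors 9 := Nat.mem_divisors.2 ⟨hEdvd, by norm_num⟩
        have h3 : Nat.divisors 9 = {1, 3, 9} := by decide
        rw [h3] at this
        simpa using this
      rcases hcases with h | h | h
      · rw [h] at hdvd3
        norm_num at hdvd3
      · exfalso
        have hzE : Subgroup.zpowers x1 = E := Subgroup.eq_of_le_of_card_ge hzpE (by rw [h, hzp])
        have hm : x2 ∈ Subgroup.zpowers x1 := by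
          rw [hzE]
          exact hx2E
        rw [← mem_powers_iff_mem_zpowers] at hm
        obtain ⟨k, hk⟩ := hm
        have hk' : (QuotientGroup.mk (t1 ^ k) : PSU 3 F 2) = QuotientGroup.mk t2 := by
          rw [QuotientGroup.mk_pow]
          exact hk
        have hcen : (t1 ^ k)⁻¹ * t2 ∈ Subgroup.center (SU 3 F 2) := QuotientGroup.eq.1 hk'
        obtain ⟨l, hl⟩ := center_scalar hF2 (by norm_num) hcen
        -- evaluate at the first basis vector
        let e₀ : Fin 3 → F := ![1, 0, 0]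
        have he1 : ∀ m : ℕ, ((t1 ^ m).1 : Matrix (Fin 3) (Fin 3) F) *ᵥ e₀ = e₀ := by
          intro m
          induction m with
          | zero =>
            rw [pow_zero]
            exact su_one_mulVec _
          | succ m ih =>
            rw [pow_succ, su_mul_mulVec, show ((t1).1 : Matrix (Fin 3) (Fin 3) F) = Mt1 ω from rfl]
            have : Mt1 ω *ᵥ e₀ = e₀ := by
              funext i
              fin_cases i <;> simp [Mt1, e₀, Matrix.mulVec, dotProduct, Fin.sum_univ_three]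
            rw [this, ih]
        have he2 : ((t2).1 : Matrix (Fin 3) (Fin 3) F) *ᵥ e₀ = ![0, 0, 1] := by
          show Mt2 *ᵥ e₀ = _
          funext i
          fin_cases i <;> simp [Mt2, e₀, Matrix.mulVec, dotProduct, Fin.sum_univ_three]
        have h5 : (((t1 ^ k)⁻¹ * t2).1 : Matrix (Fin 3) (Fin 3) F) *ᵥ e₀ = l • e₀ := by
          rw [hl, Matrix.smul_mulVec, Matrix.one_mulVec]
        rw [su_mul_mulVec, he2] at h5
        have h6 := su_mulVec_inv (t1 ^ k) (![0, 0, 1] : Fin 3 → F)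
        rw [h5, Matrix.mulVec_smul, he1] at h6
        have h8 := congrFun h6 2
        simp [e₀] at h8
      · exact h
    intro x hx
    have hEeq : E = N := Subgroup.eq_of_le_of_card_ge hEN (by rw [hE9, h9])
    rw [← hEeq] at hx
    exact hx.2
  · -- the quotient
    have hcardQ : Nat.card (PSU 3 F 2 ⧸ N) = 8 := by
      have h1 := Subgroup.card_eq_card_quotient_mul_card_subgroup N
      rw [card_PSU hF, h9] at h1
      omega
    let a0 : SU 3 F 2 := mkSU hF2 (Ma ω) (Ma_det hF hω) (Ma_unit hF hω)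
    let b0 : SU 3 F 2 := mkSU hF2 (Mb ω) (Mb_det hF hω) (Mb_unit hF hω)
    have ha2b2 : a0 * a0 = b0 * b0 := by
      apply su_eq
      show Ma ω * Ma ω = Mb ω * Mb ω
      rw [Ma_sq hF hω, Mb_sq hF hω]
    have ha4 : a0 ^ 4 = 1 := by
      rw [show (4 : ℕ) = 2 * 2 by norm_num, pow_mul, sq, sq]
      apply su_eq
      show (Ma ω * Ma ω) * (Ma ω * Ma ω) = 1
      rw [Ma_sq hF hω, Mp_sq hF hω]
    have haba : a0 * b0 * a0 = b0 := by
      apply su_eq
      exact Mab hF hω
    have ha2ne : ¬ (a0 * a0) ∈ Subgroup.center (SU 3 F 2) := by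
      intro hc
      obtain ⟨l, hl⟩ := center_scalar hF2 (by norm_num) hc
      have h1 : Ma ω * Ma ω = l • 1 := hl
      rw [Ma_sq hF hω] at h1
      have h3 := congrFun (congrFun h1 1) 2
      simp [Mp] at h3
    let π : SU 3 F 2 →* (PSU 3 F 2 ⧸ N) := (QuotientGroup.mk' N).comp (QuotientGroup.mk' (Subgroup.center (SU 3 F 2)))
    refine Cfsg.Agent.Lib.Frob72.q8_iso hcardQ (π a0) (π b0) ?_ ?_ ?_ ?_
    · rw [← map_pow, ha4, map_one]
    · rw [sq, sq, ← map_mul, ← map_mul, ha2b2]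
    · have h1 : π a0 * π b0 * π a0 = π b0 := by
        rw [← map_mul, ← map_mul, haba]
      have h3 : π b0 * π a0 = (π a0)⁻¹ * π b0 := by
        rw [eq_inv_mul_iff_mul_eq, ← mul_assoc]
        exact h1
      rw [h3, mul_inv_cancel_right]
    · intro h
      rw [sq, ← map_mul] at h
      have hyN : (QuotientGroup.mk (a0 * a0) : PSU 3 F 2) ∈ N := (QuotientGroup.eq_one_iff _).1 h
      obtain ⟨y, hy⟩ : ∃ y : PSU 3 F 2, y = QuotientGroup.mk (a0 * a0) := ⟨_, rfl⟩
      rw [← hy] at hyN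
      have hy2 : y ^ 2 = 1 := by
        rw [hy, ← QuotientGroup.mk_pow]
        have : (a0 * a0) ^ 2 = 1 := by
          rw [← sq, ← pow_mul]
          exact ha4
        rw [this]
        rfl
      have hy9 : y ^ 9 = 1 := by
        have := pow_card_eq_one' (G := N) (x := ⟨y, hyN⟩)
        rw [h9] at this
        exact congrArg Subtype.val this
      have hy1 : y = 1 := by
        have e : y ^ 9 = (y ^ 2) ^ 4 * y := by group
        rw [e, hy2, one_pow, one_mul] at hy9
        exact hy9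
      apply ha2ne
      rw [← QuotientGroup.eq_one_iff, ← hy, hy1]

end Cfsg.Agent.Lib.U32c
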