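import Cfsg.Agent.Lib.SUCenter

set_option autoImplicit false

namespace Cfsg.Agent.Lib.UnitComm

open Matrix Cfsg Cfsg.Agent.Lib.HermStd Cfsg.Agent.Lib.HermForm Cfsg.Agent.Lib.HermCount Cfsg.Agent.Lib.HermBasic
  Cfsg.Agent.Lib.UnitBasic Cfsg.Agent.Lib.SUBasic Cfsg.Agent.Lib.SUCenter

variable {F : Type*} [Field F] [Fintype F] {q n : ℕ}

local notation "h" => hermForm n F q

/-- A matrix commuting with all unitary transvections has isotropic vectors as eigenvectors. -/
theorem eigen' (hF : Fintype.card F = q ^ 2) {A : Matrix (Fin n) (Fin n) F}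
    (hA : ∀ (v : Fin n → F) (c : F), h v v = 0 → c ^ q = -c → unitaryTransvection n q v c * A = A * unitaryTransvection n q v c)
    {v : Fin n → F} (hv0 : v ≠ 0) (hv : h v v = 0) :
    ∃ l : F, A *ᵥ v = l • v := by
  obtain ⟨t, ht0, ht⟩ := exists_t hF
  obtain ⟨x, hx⟩ := hf_nondeg_left hF hv0
  have h1 : (unitaryTransvection n q v t * A) *ᵥ x = (A * unitaryTransvection n q v t) *ᵥ x := by
    rw [hA v t hv ht]
  rw [← Matrix.mulVec_mulVec, ← Matrix.mulVec_mulVec, ut_mulVec, ut_mulVec, Matrix.mulVec_add, Matrix.mulVec_smul] at h1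
  have h2 := add_left_cancel h1
  refine ⟨(h (A *ᵥ x) v) / h x v, ?_⟩
  have h3 : (t * h x v) • (A *ᵥ v) = (t * h (A *ᵥ x) v) • v := h2.symm
  have h4 := congrArg (fun y => (t * h x v)⁻¹ • y) h3
  simp only [smul_smul] at h4
  rw [inv_mul_cancel₀ (mul_ne_zero ht0 hx), one_smul] at h4
  rw [h4]
  congr 1
  field_simp

/-- A matrix commuting with all unitary transvections is scalar. -/
theorem scalar_of_comm (hF : Fintype.card F = q ^ 2) (hn : 2 ≤ n) {A : Matrix (Fin n) (Fin n) F}
    (hA : ∀ (v : Fin n → F) (c : F), h v v = 0 → c ^ q = -c → unitaryTransvection n q v c * A = A * unitaryTransvection n q v c) :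
    ∃ l : F, A = l • 1 := by
  classical
  obtain ⟨a, b, ha0, hb0, hab, ha, hb⟩ := exists_pair_iso hF
  let i₀ : Fin n := ⟨0, by omega⟩
  let i₁ : Fin n := ⟨1, by omega⟩
  have h01 : i₀ ≠ i₁ := by
    intro h1
    have := congrArg Fin.val h1
    simp [i₀, i₁] at this
  have hsingle_ne : ∀ {i j : Fin n}, i ≠ j → ∀ c : F, (Pi.single i 1 : Fin n → F) + c • Pi.single j 1 ≠ 0 := by
    intro i j hij c h1
    have := congrFun h1 i
    simp [Pi.single_apply, hij] at this
  let v₀ : Fin n → F := (Pi.single i₀ 1 : Fin n → F) + a • Pi.single i₁ 1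
  have hv₀0 : v₀ ≠ 0 := hsingle_ne h01 a
  have hv₀ : h v₀ v₀ = 0 := iso_single hF h01 ha
  obtain ⟨l, hl⟩ := eigen' hF hA hv₀0 hv₀
  -- every isotropic vector has eigenvalue l
  have hall : ∀ v : Fin n → F, h v v = 0 → A *ᵥ v = l • v := by
    intro v hv
    by_cases hv0 : v = 0
    · subst hv0
      simp
    by_cases hdep : v ∈ Submodule.span F {v₀}
    · obtain ⟨s, rfl⟩ := Submodule.mem_span_singleton.1 hdep
      rw [Matrix.mulVec_smul, hl, smul_comm]
    · obtain ⟨m, hm⟩ := eigen' hF hA hv0 hv
      obtain ⟨s, hs0, hs⟩ := exists_isotropic_comb hF v₀ v hv₀ hv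
      by_cases hz : v₀ + s • v = 0
      · exfalso
        apply hdep
        have : v = (-s⁻¹) • v₀ := by
          have h3 : s • v = (-1 : F) • v₀ := by
            rw [neg_smul, one_smul]
            exact eq_neg_of_add_eq_zero_right hz
          calc v = s⁻¹ • (s • v) := by rw [smul_smul, inv_mul_cancel₀ hs0, one_smul]
            _ = _ := by rw [h3, smul_smul]; congr 1; ring
        rw [this]
        exact Submodule.smul_mem _ _ (Submodule.mem_span_singleton_self v₀)
      obtain ⟨r, hr⟩ := eigen' hF hA hz hs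
      rw [Matrix.mulVec_add, Matrix.mulVec_smul, hl, hm] at hr
      -- compare using independence
      have h5 : (l - r) • v₀ + (s * (m - r)) • v = 0 := by
        have : (l - r) • v₀ + (s * (m - r)) • v = (l • v₀ + s • m • v) - r • (v₀ + s • v) := by
          simp only [smul_add, smul_smul, sub_smul, mul_sub]
          rw [mul_comm s m, mul_comm s r, mul_comm r s]
          abel_nf
        rw [this, hr, sub_self]
      have h6 : s * (m - r) = 0 := by
        by_contra h7
        apply hdep
        have : v = (-(s * (m - r))⁻¹ * (l - r)) • v₀ := by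
          have h8 : (s * (m - r)) • v = (-(l - r)) • v₀ := by
            rw [neg_smul]
            exact eq_neg_of_add_eq_zero_right h5
          calc v = (s * (m - r))⁻¹ • ((s * (m - r)) • v) := by rw [smul_smul, inv_mul_cancel₀ h7, one_smul]
            _ = _ := by rw [h8, smul_smul]; congr 1; ring
        rw [this]
        exact Submodule.smul_mem _ _ (Submodule.mem_span_singleton_self v₀)
      rw [h6, zero_smul, add_zero] at h5
      have h9 : l = r := sub_eq_zero.1 ((smul_eq_zero.1 h5).resolve_right hv₀0)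
      have h10 : m = r := sub_eq_zero.1 ((mul_eq_zero.1 h6).resolve_left hs0)
      rw [hm, h10, h9]
  -- every basis vector has eigenvalue l
  have hbasis : ∀ j : Fin n, A *ᵥ (Pi.single j 1) = l • (Pi.single j 1 : Fin n → F) := by
    intro j
    obtain ⟨i, hij⟩ : ∃ i, i ≠ j := by
      by_cases hj : j = i₀
      · exact ⟨i₁, by rw [hj]; exact h01.symm⟩
      · exact ⟨i₀, fun e => hj e.symm⟩
    have h1 := hall _ (iso_single hF hij ha)
    have h2 := hall _ (iso_single hF hij hb)
    rw [Matrix.mulVec_add, Matrix.mulVec_smul, smul_add, smul_comm] at h1 h2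
    have h3 : (a - b) • (A *ᵥ (Pi.single j 1) - l • (Pi.single j 1 : Fin n → F)) = 0 := by
      have h4 := sub_eq_zero.2 h1
      have h5 := sub_eq_zero.2 h2
      have h6 := sub_eq_zero.2 (h4.trans h5.symm)
      rw [← h6]
      simp only [smul_sub, sub_smul]
      abel
    have h7 := (smul_eq_zero.1 h3).resolve_left (sub_ne_zero.2 hab)
    exact sub_eq_zero.1 h7
  refine ⟨l, ?_⟩
  ext i j
  have h1 := congrFun (hbasis j) i
  rw [Matrix.mulVec_single_one] at h1
  simp only [Matrix.col_apply, Pi.smul_apply, smul_eq_mul, Matrix.smul_apply, Matrix.one_apply, Pi.single_apply] at h1 ⊢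
  exact h1


end Cfsg.Agent.Lib.UnitComm
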