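import Cfsg.Agent.Lib.UnitGen2
import Cfsg.Agent.Lib.TvConj

set_option autoImplicit false

namespace Cfsg.Agent.Lib.UnitConj

open Matrix Cfsg Cfsg.Agent.Lib.HermStd Cfsg.Agent.Lib.HermForm Cfsg.Agent.Lib.HermCount Cfsg.Agent.Lib.HermBasic
  Cfsg.Agent.Lib.UnitBasic Cfsg.Agent.Lib.SUBasic Cfsg.Agent.Lib.SUCenter Cfsg.Agent.Lib.UnitCount Cfsg.Agent.Lib.UnitE Cfsg.Agent.Lib.UnitGen Cfsg.Agent.Lib.UnitGen2

variable {F : Type*} [Field F] [Fintype F] {q n : ℕ}

local notation "h" => hermForm n F q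

/-- A transvection in the unitary group is a unitary transvection. -/
theorem tv_form (hF : Fintype.card F = q ^ 2) (t : SU n F q) (ht : IsTransvection (t.1 : Matrix (Fin n) (Fin n) F)) :
    ∃ (v : Fin n → F) (c : F), h v v = 0 ∧ v ≠ 0 ∧ c ≠ 0 ∧ c ^ q = -c ∧ (t.1 : Matrix (Fin n) (Fin n) F) = unitaryTransvection n q v c := by
  classical
  obtain ⟨a, φ, ha, hφ, hφa, e⟩ := Cfsg.Agent.Lib.TvConj.exists_pair ht
  have hq := one_lt_q hF
  have ht1 : ∀ x, (t.1 : Matrix (Fin n) (Fin n) F) *ᵥ x = x + (φ ⬝ᵥ x) • a := by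
    intro x
    rw [e, Matrix.add_mulVec, Matrix.one_mulVec, Matrix.vecMulVec_mulVec]
    ext i
    simp [mul_comm]
  -- functional takes the value one
  obtain ⟨y₀, hy₀⟩ : ∃ y : Fin n → F, φ ⬝ᵥ y = 1 := by
    obtain ⟨j, hj⟩ := Function.ne_iff.1 hφ
    refine ⟨Pi.single j (φ j)⁻¹, ?_⟩
    rw [dotProduct_single]
    exact mul_inv_cancel₀ hj
  have hiso : ∀ x y, (φ ⬝ᵥ x) * h a y + (φ ⬝ᵥ y) ^ q * h x a + (φ ⬝ᵥ x) * (φ ⬝ᵥ y) ^ q * h a a = 0 := by
    intro x y
    have h1 := su_isom t x y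
    rw [ht1, ht1] at h1
    simp only [hf_add_left, hf_add_right hF, hf_smul_left, hf_smul_right hF] at h1
    linear_combination h1
  set κ := h a y₀ + h a a with hκ
  have h1 : ∀ x, (φ ⬝ᵥ x) * κ + h x a = 0 := by
    intro x
    have := hiso x y₀
    rw [hy₀, one_pow] at this
    rw [hκ]
    linear_combination this
  obtain ⟨x₀, hx₀⟩ := hf_nondeg_left hF ha
  have hκ0 : κ ≠ 0 := by
    intro h0
    have := h1 x₀
    rw [h0, mul_zero, zero_add] at this
    exact hx₀ this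
  have haa : h a a = 0 := by
    have := h1 a
    rw [hφa, zero_mul, zero_add] at this
    exact this
  have hform : ∀ x, φ ⬝ᵥ x = (-κ⁻¹) * h x a := by
    intro x
    have := h1 x
    field_simp
    linear_combination this
  set c := -κ⁻¹ with hc
  have hc0 : c ≠ 0 := neg_ne_zero.2 (inv_ne_zero hκ0)
  have hcc : c ^ q = -c := by
    have h2 := hiso x₀ x₀
    simp only [haa, mul_zero, add_zero] at h2
    rw [hform x₀, mul_pow] at h2
    have e1 : h a x₀ = (h x₀ a) ^ q := hf_conj hF x₀ a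
    rw [e1] at h2
    have h3 : (c + c ^ q) * ((h x₀ a) ^ q * h x₀ a) = 0 := by
      linear_combination h2
    have h4 : (h x₀ a) ^ q * h x₀ a ≠ 0 := mul_ne_zero (pow_ne_zero _ hx₀) hx₀
    have h5 := (mul_eq_zero.1 h3).resolve_right h4
    linear_combination h5
  refine ⟨a, c, haa, ha, hc0, hcc, ?_⟩
  apply ext_mulVec
  intro x
  rw [ht1, hform, ut_mulVec]

/-- Conjugates of a transvection. -/
theorem conj_ut (g t t' : SU n F q) {v v' : Fin n → F} {c : F} (ht : (t.1 : Matrix (Fin n) (Fin n) F) = unitaryTransvection n q v c)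
    (ht' : (t'.1 : Matrix (Fin n) (Fin n) F) = unitaryTransvection n q v' c) (hg : (g.1 : Matrix (Fin n) (Fin n) F) *ᵥ v = v') :
    g * t * g⁻¹ = t' := by
  rw [mul_inv_eq_iff_eq_mul]
  apply su_ext
  intro x
  rw [su_mul_mulVec, su_mul_mulVec, ht, ht', ut_mulVec, ut_mulVec, ← hg, su_isom, Matrix.mulVec_add, Matrix.mulVec_smul]

/-- Two unitary transvections are conjugate. -/
theorem isConj_ut (hF : Fintype.card F = q ^ 2) (hT : HasTriple n F q) (s t : SU n F q) {v v' : Fin n → F} {c c' : F}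
    (hv : h v v = 0) (hv' : h v' v' = 0) (hv0 : v ≠ 0) (hv'0 : v' ≠ 0) (hc0 : c ≠ 0) (hc'0 : c' ≠ 0) (hc : c ^ q = -c) (hc' : c' ^ q = -c')
    (hs : (s.1 : Matrix (Fin n) (Fin n) F) = unitaryTransvection n q v c) (ht : (t.1 : Matrix (Fin n) (Fin n) F) = unitaryTransvection n q v' c') :
    IsConj s t := by
  have hμ : (sig hF) (c' / c) = c' / c := by
    rw [sig_apply, div_pow, hc, hc', neg_div_neg_eq]
  obtain ⟨a, ha0, ha⟩ := norm_surj (sig hF) (sig_ne hF) (sig_sig hF) (c' / c) hμ (div_ne_zero hc'0 hc0)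
  rw [sig_apply] at ha
  have hav : h (a • v') (a • v') = 0 := by
    rw [hf_smul_left, hf_smul_right hF, hv']
    ring
  obtain ⟨g, -, hg⟩ := trans_vec hF hT hv hav hv0 (smul_ne_zero ha0 hv'0)
  have ht' : (t.1 : Matrix (Fin n) (Fin n) F) = unitaryTransvection n q (a • v') c := by
    rw [ht]
    apply ext_mulVec
    intro x
    rw [ut_mulVec, ut_mulVec, hf_smul_right hF, smul_smul]
    congr 2
    have : c' = c * (a * a ^ q) := by
      rw [ha]
      field_simp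
    rw [this]
    ring
  rw [isConj_iff]
  exact ⟨g, conj_ut g s t hs ht' hg⟩

theorem isConj_tv (hF : Fintype.card F = q ^ 2) (hT : HasTriple n F q) (s t : SU n F q) (hs : IsTransvection (s.1 : Matrix (Fin n) (Fin n) F))
    (ht : IsTransvection (t.1 : Matrix (Fin n) (Fin n) F)) : IsConj s t := by
  obtain ⟨v, c, hv, hv0, hc0, hc, e⟩ := tv_form hF s hs
  obtain ⟨v', c', hv', hv'0, hc'0, hc', e'⟩ := tv_form hF t ht
  exact isConj_ut hF hT s t hv hv' hv0 hv'0 hc0 hc'0 hc hc' e e'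

end Cfsg.Agent.Lib.UnitConj
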