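import Cfsg.Agent.Lib.UnitCount

set_option autoImplicit false

namespace Cfsg.Agent.Lib.UnitE

open Matrix Cfsg Cfsg.Agent.Lib.HermStd Cfsg.Agent.Lib.HermForm Cfsg.Agent.Lib.HermCount Cfsg.Agent.Lib.HermBasic
  Cfsg.Agent.Lib.UnitBasic Cfsg.Agent.Lib.SUBasic Cfsg.Agent.Lib.SUCenter Cfsg.Agent.Lib.UnitCount

variable {F : Type*} [Field F] [Fintype F] {q n : ℕ}

local notation "h" => hermForm n F q

/-- The conjugate vector. -/
def cj (q : ℕ) (v : Fin n → F) : Fin n → F := fun j => v j ^ q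

theorem cj_dot (x v : Fin n → F) : cj q v ⬝ᵥ x = h x v := by
  simp only [dotProduct, hermForm, cj]
  exact Finset.sum_congr rfl fun j _ => mul_comm (v j ^ q) (x j)

/-- The Eichler-Siegel transformation. -/
def EE (q : ℕ) (v u : Fin n → F) (c : F) : Matrix (Fin n) (Fin n) F :=
  1 + vecMulVec u (cj q v) - vecMulVec v (cj q u) + c • vecMulVec v (cj q v)

theorem EE_mulVec (v u x : Fin n → F) (c : F) :
    EE q v u c *ᵥ x = x + h x v • u - h x u • v + (c * h x v) • v := by
  unfold EE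
  rw [Matrix.add_mulVec, Matrix.sub_mulVec, Matrix.add_mulVec, Matrix.one_mulVec, Matrix.smul_mulVec, Matrix.vecMulVec_mulVec,
    Matrix.vecMulVec_mulVec, Matrix.vecMulVec_mulVec, cj_dot, cj_dot]
  ext i
  simp only [Pi.add_apply, Pi.sub_apply, Pi.smul_apply, smul_eq_mul, MulOpposite.smul_eq_mul_unop, MulOpposite.unop_op]
  ring

/-- Admissible triple for the transformation. -/
structure Adm (q : ℕ) (v u : Fin n → F) (c : F) : Prop where
  hv : hermForm n F q v v = 0
  hu : hermForm n F q u v = 0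
  hc : c + c ^ q + hermForm n F q u u = 0

theorem ext_mulVec {A B : Matrix (Fin n) (Fin n) F} (hAB : ∀ x, A *ᵥ x = B *ᵥ x) : A = B :=
  Matrix.mulVec_injective (funext hAB)

theorem herm_comm (hF : Fintype.card F = q ^ 2) {x y : Fin n → F} (hxy : h x y = 0) : h y x = 0 := by
  rw [hf_conj hF, hxy, zero_pow (by have := one_lt_q hF; omega)]

theorem hf_sub_right (hF : Fintype.card F = q ^ 2) (u v w : Fin n → F) :
    h u (v - w) = h u v - h u w := by
  simp only [hermForm, Pi.sub_apply, ← sig_apply hF, map_sub, mul_sub, Finset.sum_sub_distrib]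

theorem hf_neg_right (hF : Fintype.card F = q ^ 2) (u v : Fin n → F) : h u (-v) = - h u v := by
  simp only [hermForm, Pi.neg_apply, ← sig_apply hF, map_neg, mul_neg, Finset.sum_neg_distrib]

theorem hf_neg_left (u v : Fin n → F) : h (-u) v = - h u v := by
  simp only [hermForm, Pi.neg_apply, neg_mul, Finset.sum_neg_distrib]

theorem hf_zero_left (v : Fin n → F) : h 0 v = 0 := by
  simp [hermForm]

theorem hf_zero_right (hF : Fintype.card F = q ^ 2) (v : Fin n → F) : h v 0 = 0 := by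
  have hq := one_lt_q hF
  simp [hermForm, zero_pow (show q ≠ 0 by omega)]

theorem pow_pow_q (hF : Fintype.card F = q ^ 2) (a : F) : (a ^ q) ^ q = a := by
  rw [← pow_mul, ← sq, ← hF, FiniteField.pow_card]

theorem add_pow_q (hF : Fintype.card F = q ^ 2) (a b : F) : (a + b) ^ q = a ^ q + b ^ q := by
  rw [← sig_apply hF, map_add, sig_apply, sig_apply]

theorem sub_pow_q (hF : Fintype.card F = q ^ 2) (a b : F) : (a - b) ^ q = a ^ q - b ^ q := by
  rw [← sig_apply hF, map_sub, sig_apply, sig_apply]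

theorem neg_pow_q (hF : Fintype.card F = q ^ 2) (a : F) : (-a) ^ q = - a ^ q := by
  rw [← sig_apply hF, map_neg, sig_apply]

theorem EE_isom (hF : Fintype.card F = q ^ 2) {v u : Fin n → F} {c : F} (hA : Adm q v u c) (x y : Fin n → F) :
    h (EE q v u c *ᵥ x) (EE q v u c *ᵥ y) = h x y := by
  have hvu : h v u = 0 := herm_comm hF hA.hu
  rw [EE_mulVec, EE_mulVec]
  simp only [hf_add_left, hf_sub_left, hf_add_right hF, hf_sub_right hF, hf_smul_left, hf_smul_right hF, hA.hv, hA.hu, hvu]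
  rw [hf_conj hF y u, hf_conj hF y v, mul_pow]
  have h1 := hA.hc
  linear_combination (h x v * (h y v) ^ q) * h1

theorem EE_det (hF : Fintype.card F = q ^ 2) {v u : Fin n → F} {c : F} (hA : Adm q v u c) : (EE q v u c).det = 1 := by
  have hvu : h v u = 0 := herm_comm hF hA.hu
  let X : Matrix (Fin n) (Fin 2) F := Matrix.of fun i j => ![u i, v i] j
  let Y : Matrix (Fin 2) (Fin n) F := Matrix.of fun i j => ![cj q v j, c * cj q v j - cj q u j] i
  have e : EE q v u c = 1 + X * Y := by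
    unfold EE
    ext i j
    simp [Matrix.mul_apply, Fin.sum_univ_two, X, Y, vecMulVec_apply]
    ring
  have e2 : Y * X = !![0, 0; - h u u, 0] := by
    have d1 : ∑ k, cj q v k * u k = h u v := by rw [← cj_dot]; rfl
    have d2 : ∑ k, cj q v k * v k = h v v := by rw [← cj_dot]; rfl
    have d3 : ∑ k, cj q u k * u k = h u u := by rw [← cj_dot]; rfl
    have d4 : ∑ k, cj q u k * v k = h v u := by rw [← cj_dot]; rfl
    ext i j
    fin_cases i <;> fin_cases j <;> simp [Matrix.mul_apply, X, Y]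
    · rw [d1, hA.hu]
    · rw [d2, hA.hv]
    · have : ∑ k, (c * cj q v k - cj q u k) * u k = c * h u v - h u u := by
        rw [← d1, ← d3, Finset.mul_sum, ← Finset.sum_sub_distrib]
        exact Finset.sum_congr rfl fun k _ => by ring
      rw [this, hA.hu]
      ring
    · have : ∑ k, (c * cj q v k - cj q u k) * v k = c * h v v - h v u := by
        rw [← d2, ← d4, Finset.mul_sum, ← Finset.sum_sub_distrib]
        exact Finset.sum_congr rfl fun k _ => by ring
      rw [this, hA.hv, hvu]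
      ring
  rw [e, Matrix.det_one_add_mul_comm, e2, Matrix.det_fin_two]
  simp

/-- The transformation as an element of `SU`. -/
def Eg (hF : Fintype.card F = q ^ 2) {v u : Fin n → F} {c : F} (hA : Adm q v u c) : SU n F q :=
  ⟨⟨EE q v u c, EE_det hF hA⟩, fun x y => EE_isom hF hA x y⟩

@[simp] theorem Eg_val (hF : Fintype.card F = q ^ 2) {v u : Fin n → F} {c : F} (hA : Adm q v u c) :
    ((Eg hF hA).1 : Matrix (Fin n) (Fin n) F) = EE q v u c := rfl

theorem Eg_mulVec (hF : Fintype.card F = q ^ 2) {v u : Fin n → F} {c : F} (hA : Adm q v u c) (x : Fin n → F) :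
    ((Eg hF hA).1 : Matrix (Fin n) (Fin n) F) *ᵥ x = x + h x v • u - h x u • v + (c * h x v) • v := EE_mulVec v u x c

theorem su_ext {a b : SU n F q} (hab : ∀ x, (a.1 : Matrix (Fin n) (Fin n) F) *ᵥ x = (b.1 : Matrix (Fin n) (Fin n) F) *ᵥ x) : a = b := by
  apply Subtype.ext
  apply Subtype.ext
  exact ext_mulVec hab

theorem su_mul_mulVec (a b : SU n F q) (x : Fin n → F) :
    ((a * b).1 : Matrix (Fin n) (Fin n) F) *ᵥ x = (a.1 : Matrix (Fin n) (Fin n) F) *ᵥ ((b.1 : Matrix (Fin n) (Fin n) F) *ᵥ x) := by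
  show ((a.1 : Matrix (Fin n) (Fin n) F) * (b.1 : Matrix (Fin n) (Fin n) F)) *ᵥ x = _
  rw [Matrix.mulVec_mulVec]

theorem su_one_mulVec (x : Fin n → F) : ((1 : SU n F q).1 : Matrix (Fin n) (Fin n) F) *ᵥ x = x := by
  show (1 : Matrix (Fin n) (Fin n) F) *ᵥ x = x
  rw [Matrix.one_mulVec]

theorem su_inv_mulVec (a : SU n F q) (x : Fin n → F) :
    ((a⁻¹).1 : Matrix (Fin n) (Fin n) F) *ᵥ ((a.1 : Matrix (Fin n) (Fin n) F) *ᵥ x) = x := by
  rw [← su_mul_mulVec, inv_mul_cancel, su_one_mulVec]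

theorem su_mulVec_inv (a : SU n F q) (x : Fin n → F) :
    (a.1 : Matrix (Fin n) (Fin n) F) *ᵥ (((a⁻¹).1 : Matrix (Fin n) (Fin n) F) *ᵥ x) = x := by
  rw [← su_mul_mulVec, mul_inv_cancel, su_one_mulVec]

theorem su_isom (a : SU n F q) (x y : Fin n → F) :
    h ((a.1 : Matrix (Fin n) (Fin n) F) *ᵥ x) ((a.1 : Matrix (Fin n) (Fin n) F) *ᵥ y) = h x y := a.2 x y

/-- Composition law. -/
theorem Eg_mul (hF : Fintype.card F = q ^ 2) {v u u' : Fin n → F} {c c' c'' : F} (hA : Adm q v u c) (hA' : Adm q v u' c') (hA'' : Adm q v (u + u') c'')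
    (hc : c'' = c + c' - h u' u) : Eg hF hA * Eg hF hA' = Eg hF hA'' := by
  have hvu : h v u = 0 := herm_comm hF hA.hu
  have hvu' : h v u' = 0 := herm_comm hF hA'.hu
  apply su_ext
  intro x
  rw [su_mul_mulVec, Eg_mulVec, Eg_mulVec, Eg_mulVec, hc]
  simp only [hf_add_left, hf_sub_left, hf_add_right hF, hf_smul_left, hA.hv, hA.hu, hA'.hu, hvu, hvu']
  module

theorem Adm.zero {v : Fin n → F} (hv : h v v = 0) {c : F} (hc : c ^ q = -c) : Adm q v (0 : Fin n → F) c := ⟨hv, hf_zero_left v, by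
  rw [hc, hf_zero_left]
  ring⟩

theorem Eg_zero (hF : Fintype.card F = q ^ 2) {v : Fin n → F} {c : F} (hA : Adm q v 0 c) :
    ((Eg hF hA).1 : Matrix (Fin n) (Fin n) F) = unitaryTransvection n q v c := by
  apply ext_mulVec
  intro x
  rw [Eg_mulVec, ut_mulVec, hf_zero_right hF]
  simp

/-- Conjugation of the transformation. -/
theorem EE_conj (hF : Fintype.card F = q ^ 2) (g : GL (Fin n) F) (hg : g ∈ GU n F q) (v u : Fin n → F) (c : F) :
    (g : Matrix (Fin n) (Fin n) F) * EE q v u c * ((g⁻¹ : GL (Fin n) F) : Matrix (Fin n) (Fin n) F) =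
      EE q ((g : Matrix (Fin n) (Fin n) F) *ᵥ v) ((g : Matrix (Fin n) (Fin n) F) *ᵥ u) c := by
  apply ext_mulVec
  intro x
  have hinv : (g : Matrix (Fin n) (Fin n) F) *ᵥ (((g⁻¹ : GL (Fin n) F) : Matrix (Fin n) (Fin n) F) *ᵥ x) = x := by
    rw [Matrix.mulVec_mulVec, ← Units.val_mul, mul_inv_cancel, Units.val_one, Matrix.one_mulVec]
  set y := ((g⁻¹ : GL (Fin n) F) : Matrix (Fin n) (Fin n) F) *ᵥ x with hy
  rw [← Matrix.mulVec_mulVec, ← Matrix.mulVec_mulVec, ← hy, EE_mulVec, EE_mulVec, ← hinv]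
  have e : ∀ a b, h ((g : Matrix (Fin n) (Fin n) F) *ᵥ a) ((g : Matrix (Fin n) (Fin n) F) *ᵥ b) = h a b := (mem_GU_iff g).1 hg
  rw [e, e]
  simp only [Matrix.mulVec_add, Matrix.mulVec_sub, Matrix.mulVec_smul]

theorem Adm.conj (hF : Fintype.card F = q ^ 2) (g : GL (Fin n) F) (hg : g ∈ GU n F q) {v u : Fin n → F} {c : F} (hA : Adm q v u c) :
    Adm q ((g : Matrix (Fin n) (Fin n) F) *ᵥ v) ((g : Matrix (Fin n) (Fin n) F) *ᵥ u) c := by
  have e : ∀ a b, h ((g : Matrix (Fin n) (Fin n) F) *ᵥ a) ((g : Matrix (Fin n) (Fin n) F) *ᵥ b) = h a b := (mem_GU_iff g).1 hg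
  exact ⟨by rw [e]; exact hA.hv, by rw [e]; exact hA.hu, by rw [e]; exact hA.hc⟩

/-- The group generated by the transformations. -/
def T0 (hF : Fintype.card F = q ^ 2) (n : ℕ) : Subgroup (SU n F q) :=
  Subgroup.closure {g | ∃ (v u : Fin n → F) (c : F) (hA : Adm q v u c), g = Eg hF hA}

/-- The group generated by the transvections. -/
def T1 (n : ℕ) (F : Type*) [Field F] (q : ℕ) : Subgroup (SU n F q) :=
  Subgroup.closure {A : ↥(SU n F q) | ∃ (v : Fin n → F) (c : F), hermForm n F q v v = 0 ∧ ((A : Matrix.SpecialLinearGroup (Fin n) F) : Matrix (Fin n) (Fin n) F) = unitaryTransvection n q v c}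

theorem Eg_mem (hF : Fintype.card F = q ^ 2) {v u : Fin n → F} {c : F} (hA : Adm q v u c) : Eg hF hA ∈ T0 hF n :=
  Subgroup.subset_closure ⟨v, u, c, hA, rfl⟩

/-- A scalar making a pair hyperbolic. -/
theorem exists_scale (hF : Fintype.card F = q ^ 2) {r : F} (hr : r ≠ 0) : ∃ s : F, s ≠ 0 ∧ s ^ q * r = 1 := by
  have hq := one_lt_q hF
  refine ⟨r⁻¹ ^ q, pow_ne_zero _ (inv_ne_zero hr), ?_⟩
  rw [pow_pow_q hF, inv_mul_cancel₀ hr]

/-- The transformations act transitively on vectors with a given value against `y`. -/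
theorem exists_E_map (hF : Fintype.card F = q ^ 2) {x x' y : Fin n → F} (hx : h x x = 0) (hx' : h x' x' = 0) (hy : h y y = 0)
    (hxy : h x' y = h x y) (h0 : h x y ≠ 0) :
    ∃ g ∈ T0 hF n, (g.1 : Matrix (Fin n) (Fin n) F) *ᵥ x = x' ∧ (g.1 : Matrix (Fin n) (Fin n) F) *ᵥ y = y := by
  obtain ⟨s, hs0, hs⟩ := exists_scale hF h0
  set y' := s • y with hy'
  have h1 : h x y' = 1 := by rw [hy', hf_smul_right hF, hs]
  have h1' : h x' y' = 1 := by rw [hy', hf_smul_right hF, hxy, hs]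
  have hy'y' : h y' y' = 0 := by rw [hy', hf_smul_left, hf_smul_right hF, hy]; ring
  set u := x' - x with hu
  have hxu : h x u + h u x + h u u = 0 := by
    have e : h (x + u) (x + u) = h x x + h x u + h u x + h u u := by
      rw [hf_add_left, hf_add_right hF, hf_add_right hF]
      ring
    have e2 : x + u = x' := by rw [hu]; abel
    rw [e2, hx', hx] at e
    linear_combination -e
  have hA : Adm q y' u (h x u) := by
    refine ⟨hy'y', by rw [hu, hf_sub_left, h1, h1', sub_self], ?_⟩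
    rw [← hf_conj hF x u]
    exact hxu
  refine ⟨Eg hF hA, Eg_mem hF hA, ?_, ?_⟩
  · rw [Eg_mulVec, h1, one_smul, mul_one, hu]
    module
  · rw [Eg_mulVec]
    have e1 : h y y' = 0 := by rw [hy', hf_smul_right hF, hy, mul_zero]
    have e2 : h y u = 0 := by
      have h5 : h u y' = 0 := by rw [hu, hf_sub_left, h1, h1', sub_self]
      have h6 : h u y = 0 := by
        rw [hy', hf_smul_right hF] at h5
        exact (mul_eq_zero.1 h5).resolve_left (pow_ne_zero _ hs0)
      exact herm_comm hF h6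
    rw [e1, e2]
    simp

end Cfsg.Agent.Lib.UnitE
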