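import Cfsg.Agent.Lib.UnitE

set_option autoImplicit false

namespace Cfsg.Agent.Lib.UnitGen

open Matrix Cfsg Cfsg.Agent.Lib.HermStd Cfsg.Agent.Lib.HermForm Cfsg.Agent.Lib.HermCount Cfsg.Agent.Lib.HermBasic
  Cfsg.Agent.Lib.UnitBasic Cfsg.Agent.Lib.SUBasic Cfsg.Agent.Lib.SUCenter Cfsg.Agent.Lib.UnitCount Cfsg.Agent.Lib.UnitE

variable {F : Type*} [Field F] [Fintype F] {q n : ℕ}

local notation "h" => hermForm n F q

/-- A matrix in `GU` fixing the first vector is a block matrix. -/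
theorem eq_M1 (hF : Fintype.card F = q ^ 2) {m : ℕ} {g : GL (Fin (m + 1)) F} (hg : g ∈ GU (m + 1) F q)
    (hs' : (g : Matrix (Fin (m + 1)) (Fin (m + 1)) F) *ᵥ (Pi.single 0 1) = Pi.single 0 1) :
    ∃ g' : GL (Fin m) F, g' ∈ GU m F q ∧ (g : Matrix (Fin (m + 1)) (Fin (m + 1)) F) = M1 (g' : Matrix (Fin m) (Fin m) F) := by
  have hsinv : ((g⁻¹ : GL (Fin (m + 1)) F) : Matrix (Fin (m + 1)) (Fin (m + 1)) F) *ᵥ (Pi.single 0 1) = Pi.single 0 1 := by
    conv_lhs => rw [← hs']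
    rw [Matrix.mulVec_mulVec, ← Units.val_mul, inv_mul_cancel, Units.val_one, Matrix.one_mulVec]
  have hcol : ∀ {y : GL (Fin (m + 1)) F}, (y : Matrix (Fin (m + 1)) (Fin (m + 1)) F) *ᵥ (Pi.single 0 1) = Pi.single 0 1 →
      ∀ i : Fin m, (y : Matrix (Fin (m + 1)) (Fin (m + 1)) F) i.succ 0 = 0 := by
    intro y hy i
    have h1 := congrFun hy i.succ
    rw [Matrix.mulVec_single_one] at h1
    simpa [Fin.succ_ne_zero] using h1
  have hrow : ∀ {y : GL (Fin (m + 1)) F}, y ∈ GU (m + 1) F q → (y : Matrix (Fin (m + 1)) (Fin (m + 1)) F) *ᵥ (Pi.single 0 1) = Pi.single 0 1 →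
      ∀ j : Fin m, (y : Matrix (Fin (m + 1)) (Fin (m + 1)) F) 0 j.succ = 0 := by
    intro y hy hy' j
    have h1 := hy (Pi.single j.succ 1) (Pi.single 0 1)
    simp only [Units.coeHom_apply] at h1
    rw [hy'] at h1
    have h2 := hf_single_right hF (n := m + 1) 0 ((y : Matrix (Fin (m + 1)) (Fin (m + 1)) F) *ᵥ (Pi.single j.succ 1))
    rw [h1, Matrix.mulVec_single_one, hf_single_right hF] at h2
    simpa [Fin.succ_ne_zero] using h2.symm
  have hg0 : (g : Matrix (Fin (m + 1)) (Fin (m + 1)) F) 0 0 = 1 := by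
    have h1 := congrFun hs' 0
    rw [Matrix.mulVec_single_one] at h1
    simpa using h1
  let a : Matrix (Fin m) (Fin m) F := fun i j => (g : Matrix (Fin (m + 1)) (Fin (m + 1)) F) i.succ j.succ
  let b : Matrix (Fin m) (Fin m) F := fun i j => ((g⁻¹ : GL (Fin (m + 1)) F) : Matrix (Fin (m + 1)) (Fin (m + 1)) F) i.succ j.succ
  have hab : a * b = 1 := by
    ext i j
    have h1 : ((g : Matrix (Fin (m + 1)) (Fin (m + 1)) F) * ((g⁻¹ : GL (Fin (m + 1)) F) : Matrix (Fin (m + 1)) (Fin (m + 1)) F)) i.succ j.succ = (1 : Matrix (Fin (m + 1)) (Fin (m + 1)) F) i.succ j.succ := by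
      rw [← Units.val_mul, mul_inv_cancel, Units.val_one]
    rw [Matrix.mul_apply, Fin.sum_univ_succ, hcol hs' i, zero_mul, zero_add] at h1
    rw [Matrix.mul_apply]
    simp only [Matrix.one_apply, Fin.succ_inj] at h1 ⊢
    exact h1
  have hba : b * a = 1 := by
    ext i j
    have h1 : (((g⁻¹ : GL (Fin (m + 1)) F) : Matrix (Fin (m + 1)) (Fin (m + 1)) F) * (g : Matrix (Fin (m + 1)) (Fin (m + 1)) F)) i.succ j.succ = (1 : Matrix (Fin (m + 1)) (Fin (m + 1)) F) i.succ j.succ := by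
      rw [← Units.val_mul, inv_mul_cancel, Units.val_one]
    rw [Matrix.mul_apply, Fin.sum_univ_succ, hcol hsinv i, zero_mul, zero_add] at h1
    rw [Matrix.mul_apply]
    simp only [Matrix.one_apply, Fin.succ_inj] at h1 ⊢
    exact h1
  let g' : GL (Fin m) F := ⟨a, b, hab, hba⟩
  have hM : M1 a = (g : Matrix (Fin (m + 1)) (Fin (m + 1)) F) := by
    ext i j
    refine Fin.cases ?_ (fun i' => ?_) i <;> refine Fin.cases ?_ (fun j' => ?_) j
    · simp [hg0]
    · simp [hrow hg hs']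
    · simp [hcol hs']
    · rfl
  refine ⟨g', ?_, hM.symm⟩
  rw [mem_GU_iff]
  intro u v
  have h1 := hg (Fin.cons 0 u) (Fin.cons 0 v)
  simp only [Units.coeHom_apply] at h1
  rw [← hM, M1_mulVec, M1_mulVec] at h1
  simp only [hermForm, Fin.sum_univ_succ, Fin.cons_zero, Fin.cons_succ, Fin.tail_cons, zero_mul, zero_add] at h1
  exact h1

theorem det_M1 {m : ℕ} (a : Matrix (Fin m) (Fin m) F) : (M1 a).det = a.det := by
  rw [Matrix.det_succ_row_zero, Fin.sum_univ_succ]
  simp only [M1_zero_zero, M1_zero_succ, mul_zero, zero_mul, Finset.sum_const_zero, add_zero, Fin.val_zero, pow_zero, one_mul,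
    Fin.succAbove_zero]
  congr 1

theorem M1_isom {m : ℕ} {a : Matrix (Fin m) (Fin m) F} (ha : ∀ u v, hermForm m F q (a *ᵥ u) (a *ᵥ v) = hermForm m F q u v) (u v : Fin (m + 1) → F) :
    hermForm (m + 1) F q (M1 a *ᵥ u) (M1 a *ᵥ v) = hermForm (m + 1) F q u v := by
  rw [M1_mulVec, M1_mulVec]
  simp only [hermForm, Fin.sum_univ_succ, Fin.cons_zero, Fin.cons_succ]
  congr 1
  exact ha _ _

/-- The block embedding of `SU`. -/
def SM (m : ℕ) (F : Type*) [Field F] [Fintype F] (q : ℕ) : SU m F q →* SU (m + 2) F q where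
  toFun g := ⟨⟨M1 (M1 (g.1 : Matrix (Fin m) (Fin m) F)), by
      rw [det_M1, det_M1]
      exact g.1.2⟩, fun u v => M1_isom (M1_isom (fun u v => g.2 u v)) u v⟩
  map_one' := by
    apply Subtype.ext
    apply Subtype.ext
    show M1 (M1 (1 : Matrix (Fin m) (Fin m) F)) = 1
    rw [M1_one, M1_one]
  map_mul' a b := by
    apply Subtype.ext
    apply Subtype.ext
    show M1 (M1 ((a.1 : Matrix (Fin m) (Fin m) F) * (b.1 : Matrix (Fin m) (Fin m) F))) = M1 (M1 (a.1 : Matrix (Fin m) (Fin m) F)) * M1 (M1 (b.1 : Matrix (Fin m) (Fin m) F))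
    rw [M1_mul, M1_mul]

theorem SM_val {m : ℕ} (g : SU m F q) : (((SM m F q g).1 : Matrix.SpecialLinearGroup (Fin (m + 2)) F) : Matrix (Fin (m + 2)) (Fin (m + 2)) F) = M1 (M1 (g.1 : Matrix (Fin m) (Fin m) F)) := rfl

/-- Embedding of vectors. -/
def iota {m : ℕ} (x : Fin m → F) : Fin (m + 1) → F := Fin.cons 0 x

theorem cons_eta {m : ℕ} (x : Fin (m + 1) → F) : (Fin.cons (x 0) (Fin.tail x) : Fin (m + 1) → F) = x := Fin.cons_self_tail x

theorem herm_iota {m : ℕ} (hF : Fintype.card F = q ^ 2) (x : Fin (m + 1) → F) (v : Fin m → F) :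
    hermForm (m + 1) F q x (iota v) = hermForm m F q (Fin.tail x) v := by
  have hq := one_lt_q hF
  conv_lhs => rw [← cons_eta x, iota, herm_cons]
  simp [zero_pow (show q ≠ 0 by omega)]

theorem herm_iota_iota {m : ℕ} (hF : Fintype.card F = q ^ 2) (u v : Fin m → F) :
    hermForm (m + 1) F q (iota u) (iota v) = hermForm m F q u v := by
  rw [herm_iota hF]
  rfl

theorem M1_EE {m : ℕ} (hF : Fintype.card F = q ^ 2) (v u : Fin m → F) (c : F) : M1 (EE q v u c) = EE q (iota v) (iota u) c := by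
  apply ext_mulVec
  intro x
  rw [M1_mulVec, EE_mulVec, EE_mulVec, herm_iota hF, herm_iota hF]
  funext i
  refine Fin.cases ?_ (fun i' => ?_) i
  · simp [iota]
  · simp [iota, Fin.tail]

theorem SM_mem_T0 (hF : Fintype.card F = q ^ 2) {m : ℕ} {g : SU m F q} (hg : g ∈ T0 hF m) : SM m F q g ∈ T0 hF (m + 2) := by
  have key : (T0 hF m).map (SM m F q) ≤ T0 hF (m + 2) := by
    unfold T0
    rw [MonoidHom.map_closure, Subgroup.closure_le]
    rintro _ ⟨_, ⟨v, u, c, hA, rfl⟩, rfl⟩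
    have hA' : Adm q (iota (iota v)) (iota (iota u)) c := by
      refine ⟨?_, ?_, ?_⟩
      · rw [herm_iota_iota hF, herm_iota_iota hF]
        exact hA.hv
      · rw [herm_iota_iota hF, herm_iota_iota hF]
        exact hA.hu
      · rw [herm_iota_iota hF, herm_iota_iota hF]
        exact hA.hc
    apply Subgroup.subset_closure
    refine ⟨_, _, _, hA', ?_⟩
    apply Subtype.ext
    apply Subtype.ext
    show M1 (M1 (EE q v u c)) = EE q (iota (iota v)) (iota (iota u)) c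
    rw [M1_EE hF, M1_EE hF]
  exact key (Subgroup.mem_map_of_mem _ hg)

/-- The standard hyperbolic pair. -/
theorem exists_std (hF : Fintype.card F = q ^ 2) (m : ℕ) :
    ∃ (a b s : F), a ≠ b ∧ s ≠ 0 ∧ a * a ^ q = -1 ∧ b * b ^ q = -1 ∧
      hermForm (m + 2) F q (vv a m) (s • vv b m) = 1 ∧
      hermForm (m + 2) F q (vv b m) (vv b m) = 0 := by
  obtain ⟨a, b, ha0, hb0, hab, ha, hb⟩ := exists_pair_iso hF
  have hr : hermForm (m + 2) F q (vv a m) (vv b m) ≠ 0 := by
    rw [herm_vv_right hF]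
    have e0 : (vv a m) 0 = 1 := rfl
    have e1 : (vv a m) 1 = a := rfl
    rw [e0, e1]
    intro h0
    apply hab
    have h1 : a * b ^ q = b * b ^ q := by
      rw [hb]
      linear_combination h0
    exact mul_right_cancel₀ (pow_ne_zero _ hb0) h1
  obtain ⟨s, hs0, hs⟩ := exists_scale hF hr
  refine ⟨a, b, s, hab, hs0, ha, hb, ?_, herm_vv_self hF hb m⟩
  rw [hf_smul_right hF, hs]

/-- A common non-orthogonal isotropic vector. -/
theorem exists_common (hF : Fintype.card F = q ^ 2) {x x' : Fin n → F} (hx : h x x = 0) (hx' : h x' x' = 0) (hx0 : x ≠ 0) (hx'0 : x' ≠ 0) :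
    ∃ y, h y y = 0 ∧ h x y ≠ 0 ∧ h x' y ≠ 0 := by
  by_cases hxx' : h x x' = 0
  · have hx'x : h x' x = 0 := herm_comm hF hxx'
    -- a vector non-orthogonal to both
    obtain ⟨p, hp1, hp2⟩ : ∃ p, h p x ≠ 0 ∧ h p x' ≠ 0 := by
      obtain ⟨p₁, hp₁⟩ := hf_nondeg_left hF hx0
      obtain ⟨p₂, hp₂⟩ := hf_nondeg_left hF hx'0
      by_cases h1 : h p₁ x' = 0
      · by_cases h2 : h p₂ x = 0
        · refine ⟨p₁ + p₂, ?_, ?_⟩
          · rw [hf_add_left, h2, add_zero]
            exact hp₁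
          · rw [hf_add_left, h1, zero_add]
            exact hp₂
        · exact ⟨p₂, h2, hp₂⟩
      · exact ⟨p₁, hp₁, h1⟩
    have hp1' : h x p ≠ 0 := by
      intro h0
      exact hp1 (herm_comm hF h0)
    have hp2' : h x' p ≠ 0 := by
      intro h0
      exact hp2 (herm_comm hF h0)
    have hσ : sig hF (- h p p) = - h p p := by
      rw [map_neg, sig_apply, ← hf_conj hF]
    obtain ⟨A, hA⟩ := trace_surj (sig hF) (sig_ne hF) (sig_sig hF) (- h p p) hσ
    rw [sig_apply] at hA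
    set μ := A / h x p with hμ
    have hμA : μ * h x p = A := by
      rw [hμ]
      field_simp
    refine ⟨p + μ • x, ?_, ?_, ?_⟩
    · rw [hf_add_left, hf_add_right hF, hf_add_right hF, hf_smul_left, hf_smul_left, hf_smul_right hF, hf_smul_right hF, hx]
      have e : μ ^ q * h p x = A ^ q := by
        rw [← hμA, mul_pow, ← hf_conj hF x p]
      rw [e, hμA]
      linear_combination hA
    · rw [hf_add_right hF, hf_smul_right hF, hx, mul_zero, add_zero]
      exact hp1'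
    · rw [hf_add_right hF, hf_smul_right hF, hx'x, mul_zero, add_zero]
      exact hp2'
  · obtain ⟨s, hs0, hs⟩ := exists_isotropic_comb hF x x' hx hx'
    refine ⟨x + s • x', hs, ?_, ?_⟩
    · rw [hf_add_right hF, hf_smul_right hF, hx, zero_add]
      exact mul_ne_zero (pow_ne_zero _ hs0) hxx'
    · rw [hf_add_right hF, hf_smul_right hF, hx', mul_zero, add_zero]
      intro h0
      exact hxx' (herm_comm hF h0)

/-- The existence of a hyperbolic partner and an orthogonal unit vector. -/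
def HasTriple (n : ℕ) (F : Type*) [Field F] (q : ℕ) : Prop :=
  ∀ v : Fin n → F, v ≠ 0 → hermForm n F q v v = 0 → ∃ w u₀ : Fin n → F, hermForm n F q w w = 0 ∧ hermForm n F q v w = 1 ∧
    hermForm n F q u₀ u₀ = 1 ∧ hermForm n F q u₀ v = 0 ∧ hermForm n F q u₀ w = 0

theorem hasTriple (hF : Fintype.card F = q ^ 2) (m : ℕ) : HasTriple (m + 3) F q := by
  classical
  intro v hv0 hv
  obtain ⟨a, b, s, hab, hs0, ha, hb, hab1, hbb⟩ := exists_std hF (m + 1)
  have hq := one_lt_q hF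
  obtain ⟨g, hg, hgv⟩ := exists_isom hF (u := vv a (m + 1)) (v := v) (by rw [hv, herm_vv_self hF ha]) (vv_ne a _) hv0
  have e := (mem_GU_iff g).1 hg
  let e₂ : Fin (m + 3) → F := Fin.cons 0 (Fin.cons 0 (Pi.single 0 1))
  have h1 : hermForm (m + 3) F q e₂ e₂ = 1 := by
    simp only [e₂]
    rw [herm_cons, herm_cons, hf_single_left]
    simp [zero_pow (show q ≠ 0 by omega)]
  have h2 : ∀ c : F, hermForm (m + 3) F q e₂ (vv c (m + 1)) = 0 := by
    intro c
    rw [herm_vv_right hF]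
    simp [e₂]
  refine ⟨(g : Matrix (Fin (m + 3)) (Fin (m + 3)) F) *ᵥ (s • vv b (m + 1)), (g : Matrix (Fin (m + 3)) (Fin (m + 3)) F) *ᵥ e₂, ?_, ?_, ?_, ?_, ?_⟩
  · rw [e, hf_smul_left, hf_smul_right hF, hbb]
    ring
  · rw [← hgv, e]
    exact hab1
  · rw [e]
    exact h1
  · rw [← hgv, e]
    exact h2 a
  · rw [e, hf_smul_right hF, h2 b, mul_zero]

/-- Scaling an isotropic vector. -/
theorem exists_scale_E (hF : Fintype.card F = q ^ 2) {v w u₀ : Fin n → F} (hv : h v v = 0) (hw : h w w = 0) (hvw : h v w = 1)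
    (hu : h u₀ u₀ = 1) (huv : h u₀ v = 0) (huw : h u₀ w = 0) {l : F} (hl : l ≠ 0) :
    ∃ g ∈ T0 hF n, (g.1 : Matrix (Fin n) (Fin n) F) *ᵥ v = l • v := by
  have hq := one_lt_q hF
  have hwv : h w v = 1 := by
    rw [hf_conj hF v w, hvw, one_pow]
  have hvu : h v u₀ = 0 := herm_comm hF huv
  have hwu : h w u₀ = 0 := herm_comm hF huw
  have h1σ : sig hF (-1 : F) = -1 := by
    rw [map_neg, map_one]
  obtain ⟨β', hβ'⟩ := trace_surj (sig hF) (sig_ne hF) (sig_sig hF) (-1 : F) h1σ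
  rw [sig_apply] at hβ'
  have hβ'0 : β' ≠ 0 := by
    rintro rfl
    rw [zero_pow (by omega), add_zero] at hβ'
    exact neg_ne_zero.2 one_ne_zero hβ'.symm
  have hβ'q : β' ^ q ≠ 0 := pow_ne_zero _ hβ'0
  set κ := (l - 1) * β' ^ q + ((l - 1) * β' ^ q) ^ q with hκ
  have hκσ : sig hF (1 - κ) = 1 - κ := by
    rw [map_sub, map_one, hκ, map_add, sig_apply, sig_apply, pow_pow_q hF]
    ring
  obtain ⟨ξ, hξ⟩ : ∃ ξ : F, ξ * ξ ^ q = 1 - κ := by
    by_cases h0 : 1 - κ = 0
    · exact ⟨0, by rw [zero_mul, h0]⟩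
    · obtain ⟨ξ, -, hξ⟩ := norm_surj (sig hF) (sig_ne hF) (sig_sig hF) (1 - κ) hκσ h0
      exact ⟨ξ, by rw [← sig_apply hF]; exact hξ⟩
  set γ := ξ + 1 with hγ
  set β := (l - 1) * β' ^ q - γ with hβ
  have hγq : γ ^ q = ξ ^ q + 1 := by
    rw [hγ, add_pow_q hF, one_pow]
  have hβq : β ^ q = ((l - 1) * β' ^ q) ^ q - γ ^ q := by
    rw [hβ, sub_pow_q hF]
  let z := v + β • w + γ • u₀
  let y₂ := v + β' • w + u₀
  have hzz : h z z = 0 := by
    simp only [z, hf_add_left, hf_add_right hF, hf_smul_left, hf_smul_right hF, hv, hw, hvw, hwv, hu, huv, huw, hvu, hwu]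
    rw [hβq, hγq]
    have e1 : ξ * ξ ^ q = 1 - ((l - 1) * β' ^ q + ((l - 1) * β' ^ q) ^ q) := hξ
    rw [hγ, hβ]
    linear_combination e1
  have hzw : h z w = h v w := by
    simp only [z, hf_add_left, hf_smul_left, hw, huw]
    ring
  have hy₂ : h y₂ y₂ = 0 := by
    simp only [y₂, hf_add_left, hf_add_right hF, hf_smul_left, hf_smul_right hF, hv, hw, hvw, hwv, hu, huv, huw, hvu, hwu]
    linear_combination hβ'
  have hzy : h z y₂ = (l * β' ^ q) := by
    simp only [z, y₂, hf_add_left, hf_add_right hF, hf_smul_left, hf_smul_right hF, hv, hw, hvw, hwv, hu, huv, huw, hvu, hwu]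
    rw [hβ]
    ring
  have hly : h (l • v) y₂ = h z y₂ := by
    rw [hzy, hf_smul_left]
    simp only [y₂, hf_add_right hF, hf_smul_right hF, hv, hvw, hvu]
    ring
  have hly0 : h z y₂ ≠ 0 := by
    rw [hzy]
    exact mul_ne_zero hl hβ'q
  have hlv : h (l • v) (l • v) = 0 := by
    rw [hf_smul_left, hf_smul_right hF, hv]
    ring
  obtain ⟨g₁, hg₁, hg₁v, -⟩ := exists_E_map hF hv hzz hw hzw (by rw [hvw]; exact one_ne_zero)
  obtain ⟨g₂, hg₂, hg₂z, -⟩ := exists_E_map hF hzz hlv hy₂ hly hly0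
  refine ⟨g₂ * g₁, Subgroup.mul_mem _ hg₂ hg₁, ?_⟩
  rw [su_mul_mulVec, hg₁v, hg₂z]

/-- Transitivity on non-zero isotropic vectors. -/
theorem trans_vec (hF : Fintype.card F = q ^ 2) (hT : HasTriple n F q) {x x' : Fin n → F} (hx : h x x = 0) (hx' : h x' x' = 0) (hx0 : x ≠ 0) (hx'0 : x' ≠ 0) :
    ∃ g ∈ T0 hF n, (g.1 : Matrix (Fin n) (Fin n) F) *ᵥ x = x' := by
  obtain ⟨y, hy, h1, h2⟩ := exists_common hF hx hx' hx0 hx'0
  set l := h x y / h x' y with hl
  have hl0 : l ≠ 0 := div_ne_zero h1 h2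
  have hlx : h (l • x') (l • x') = 0 := by
    rw [hf_smul_left, hf_smul_right hF, hx']
    ring
  have hly : h (l • x') y = h x y := by
    rw [hf_smul_left, hl]
    field_simp
  obtain ⟨g₁, hg₁, hg₁x, -⟩ := exists_E_map hF hx hlx hy hly h1
  obtain ⟨w, u₀, hw, hvw, hu, huv, huw⟩ := hT (l • x') (smul_ne_zero hl0 hx'0) hlx
  obtain ⟨g₂, hg₂, hg₂x⟩ := exists_scale_E hF hlx hw hvw hu huv huw (inv_ne_zero hl0)
  refine ⟨g₂ * g₁, Subgroup.mul_mem _ hg₂ hg₁, ?_⟩
  rw [su_mul_mulVec, hg₁x, hg₂x, smul_smul, inv_mul_cancel₀ hl0, one_smul]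

/-- Transitivity on hyperbolic pairs. -/
theorem trans_hyp (hF : Fintype.card F = q ^ 2) (hT : HasTriple n F q) {v w v' w' : Fin n → F} (hv : h v v = 0) (hw : h w w = 0) (hvw : h v w = 1)
    (hv' : h v' v' = 0) (hw' : h w' w' = 0) (hvw' : h v' w' = 1) :
    ∃ g ∈ T0 hF n, (g.1 : Matrix (Fin n) (Fin n) F) *ᵥ v = v' ∧ (g.1 : Matrix (Fin n) (Fin n) F) *ᵥ w = w' := by
  have hne : ∀ {a b : Fin n → F}, h a b = 1 → a ≠ 0 := by
    rintro a b hab rfl
    rw [hf_zero_left] at hab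
    exact zero_ne_one hab
  obtain ⟨g₁, hg₁, hg₁v⟩ := trans_vec hF hT hv hv' (hne hvw) (hne hvw')
  have e := su_isom g₁
  have h1 : h ((g₁.1 : Matrix (Fin n) (Fin n) F) *ᵥ w) ((g₁.1 : Matrix (Fin n) (Fin n) F) *ᵥ w) = 0 := by
    rw [e]
    exact hw
  have h2 : h ((g₁.1 : Matrix (Fin n) (Fin n) F) *ᵥ w) v' = 1 := by
    rw [← hg₁v, e, hf_conj hF v w, hvw, one_pow]
  have h3 : h w' v' = 1 := by
    rw [hf_conj hF v' w', hvw', one_pow]
  obtain ⟨g₂, hg₂, hg₂1, hg₂2⟩ := exists_E_map hF h1 hw' hv' (by rw [h2, h3]) (by rw [h2]; exact one_ne_zero)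
  refine ⟨g₂ * g₁, Subgroup.mul_mem _ hg₂ hg₁, ?_, ?_⟩
  · rw [su_mul_mulVec, hg₁v, hg₂2]
  · rw [su_mul_mulVec, hg₂1]

/-- An element fixing the standard hyperbolic pair is a block element. -/
theorem eq_SM (hF : Fintype.card F = q ^ 2) {m : ℕ} {a b s : F} (hab : a ≠ b) (hs : s ≠ 0) (g : SU (m + 2) F q)
    (h1 : (g.1 : Matrix (Fin (m + 2)) (Fin (m + 2)) F) *ᵥ vv a m = vv a m)
    (h2 : (g.1 : Matrix (Fin (m + 2)) (Fin (m + 2)) F) *ᵥ (s • vv b m) = s • vv b m) :
    ∃ g' : SU m F q, g = SM m F q g' := by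
  classical
  have hq := one_lt_q hF
  rw [Matrix.mulVec_smul] at h2
  have h2' : (g.1 : Matrix (Fin (m + 2)) (Fin (m + 2)) F) *ᵥ vv b m = vv b m := smul_right_injective _ hs h2
  let e₀ : Fin (m + 2) → F := Pi.single 0 1
  let e₁ : Fin (m + 2) → F := Pi.single 1 1
  have hvv : ∀ c : F, vv c m = e₀ + c • e₁ := by
    intro c
    funext i
    refine Fin.cases ?_ (fun i' => ?_) i
    · simp [vv, e₀, e₁]
    · refine Fin.cases ?_ (fun i'' => ?_) i'
      · simp [vv, e₀, e₁]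
      · have h5 : (Fin.succ (Fin.succ i'') : Fin (m + 2)) ≠ 1 := by
          intro h6
          have := congrArg Fin.val h6
          simp at this
        simp [vv, e₀, e₁, h5, Fin.succ_ne_zero]
  have hsub : (a - b) • ((g.1 : Matrix (Fin (m + 2)) (Fin (m + 2)) F) *ᵥ e₁ - e₁) = 0 := by
    have h3 := sub_eq_zero.2 h1
    have h4 := sub_eq_zero.2 h2'
    rw [hvv, Matrix.mulVec_add, Matrix.mulVec_smul] at h3 h4
    have h5 := sub_eq_zero.2 (h3.trans h4.symm)
    rw [← h5]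
    simp only [smul_sub, sub_smul]
    abel
  have he₁ : (g.1 : Matrix (Fin (m + 2)) (Fin (m + 2)) F) *ᵥ e₁ = e₁ :=
    sub_eq_zero.1 ((smul_eq_zero.1 hsub).resolve_left (sub_ne_zero.2 hab))
  have he₀ : (g.1 : Matrix (Fin (m + 2)) (Fin (m + 2)) F) *ᵥ e₀ = e₀ := by
    have h3 := h1
    rw [hvv, Matrix.mulVec_add, Matrix.mulVec_smul, he₁] at h3
    exact add_right_cancel h3
  -- first reduction
  have hg : Matrix.SpecialLinearGroup.toGL g.1 ∈ GU (m + 2) F q := fun x y => g.2 x y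
  obtain ⟨g₁, hg₁, hg₁M⟩ := eq_M1 hF hg he₀
  have hg₁e : (g₁ : Matrix (Fin (m + 1)) (Fin (m + 1)) F) *ᵥ (Pi.single 0 1) = Pi.single 0 1 := by
    have h3 : M1 (g₁ : Matrix (Fin (m + 1)) (Fin (m + 1)) F) *ᵥ e₁ = e₁ := by
      rw [← hg₁M]
      exact he₁
    rw [M1_mulVec] at h3
    funext i
    have h5 := congrFun h3 i.succ
    have e5 : Fin.tail e₁ = (Pi.single 0 1 : Fin (m + 1) → F) := by
      funext x
      simp only [Fin.tail, e₁]
      refine Fin.cases ?_ (fun x' => ?_) x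
      · simp
      · have : (Fin.succ (Fin.succ x') : Fin (m + 2)) ≠ 1 := by
          intro h6
          have := congrArg Fin.val h6
          simp at this
        simp [this, Fin.succ_ne_zero]
    rw [Fin.cons_succ, e5] at h5
    rw [h5]
    refine Fin.cases ?_ (fun i' => ?_) i
    · simp [e₁]
    · have : (Fin.succ (Fin.succ i') : Fin (m + 2)) ≠ 1 := by
        intro h6
        have := congrArg Fin.val h6
        simp at this
      simp [e₁, this, Fin.succ_ne_zero]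
  obtain ⟨g₂, hg₂, hg₂M⟩ := eq_M1 hF hg₁ hg₁e
  have hdet : (g₂ : Matrix (Fin m) (Fin m) F).det = 1 := by
    have h3 : (g.1 : Matrix (Fin (m + 2)) (Fin (m + 2)) F).det = 1 := g.1.2
    have h4 : (g.1 : Matrix (Fin (m + 2)) (Fin (m + 2)) F) = M1 (M1 (g₂ : Matrix (Fin m) (Fin m) F)) := by
      rw [← hg₂M]
      exact hg₁M
    rw [h4, det_M1, det_M1] at h3
    exact h3
  refine ⟨⟨⟨(g₂ : Matrix (Fin m) (Fin m) F), hdet⟩, fun x y => hg₂ x y⟩, ?_⟩
  apply Subtype.ext
  apply Subtype.ext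
  show (g.1 : Matrix (Fin (m + 2)) (Fin (m + 2)) F) = M1 (M1 (g₂ : Matrix (Fin m) (Fin m) F))
  rw [← hg₂M]
  exact hg₁M

/-- The induction step of the generation theorem. -/
theorem gen_step (hF : Fintype.card F = q ^ 2) (m : ℕ) (hT : HasTriple (m + 2) F q) (hIH : T0 hF m = ⊤) : T0 hF (m + 2) = ⊤ := by
  rw [eq_top_iff]
  rintro g -
  obtain ⟨a, b, s, hab, hs0, ha, hb, hab1, hbb⟩ := exists_std hF m
  have hv := herm_vv_self hF ha m
  have hw : hermForm (m + 2) F q (s • vv b m) (s • vv b m) = 0 := by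
    rw [hf_smul_left, hf_smul_right hF, hbb]
    ring
  have e := su_isom g
  obtain ⟨τ, hτ, hτ1, hτ2⟩ := trans_hyp hF hT (v := (g.1 : Matrix (Fin (m + 2)) (Fin (m + 2)) F) *ᵥ vv a m) (w := (g.1 : Matrix (Fin (m + 2)) (Fin (m + 2)) F) *ᵥ (s • vv b m))
    (v' := vv a m) (w' := s • vv b m) (by rw [e]; exact hv) (by rw [e]; exact hw) (by rw [e]; exact hab1) hv hw hab1
  obtain ⟨g', hg'⟩ := eq_SM hF hab hs0 (τ * g) (by rw [su_mul_mulVec]; exact hτ1) (by rw [su_mul_mulVec]; exact hτ2)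
  have h1 : g = τ⁻¹ * SM m F q g' := by
    rw [← hg']
    group
  rw [h1]
  exact Subgroup.mul_mem _ (Subgroup.inv_mem _ hτ) (SM_mem_T0 hF (by rw [hIH]; trivial))

/-- The base case of the generation theorem. -/
theorem gen_two (hF : Fintype.card F = q ^ 2) : T0 hF 2 = ⊤ := by
  classical
  have hq := one_lt_q hF
  obtain ⟨a, b, s, hab, hs0, ha, hb, hab1, hbb⟩ := exists_std hF 0
  set v₀ : Fin 2 → F := vv a 0 with hv₀def
  set w₀ : Fin 2 → F := s • vv b 0 with hw₀def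
  have hv₀ : hermForm 2 F q v₀ v₀ = 0 := herm_vv_self hF ha 0
  have hw₀ : hermForm 2 F q w₀ w₀ = 0 := by
    rw [hw₀def, hf_smul_left, hf_smul_right hF, hbb]
    ring
  have hvw : hermForm 2 F q v₀ w₀ = 1 := hab1
  have hwv : hermForm 2 F q w₀ v₀ = 1 := by
    rw [hf_conj hF v₀ w₀, hvw, one_pow]
  have hv0 : (v₀ 0 : F) = 1 := rfl
  have hv1 : (v₀ 1 : F) = a := rfl
  have hw0 : (w₀ 0 : F) = s := by
    simp [hw₀def, vv]
  have hw1 : (w₀ 1 : F) = s * b := by
    simp [hw₀def, vv]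
  -- the basis expansion
  have hbasis : ∀ z : Fin 2 → F, z = hermForm 2 F q z w₀ • v₀ + hermForm 2 F q z v₀ • w₀ := by
    intro z
    set r := z - (hermForm 2 F q z w₀ • v₀ + hermForm 2 F q z v₀ • w₀) with hr
    have hr1 : hermForm 2 F q r v₀ = 0 := by
      rw [hr, hf_sub_left, hf_add_left, hf_smul_left, hf_smul_left, hv₀, hwv]
      ring
    have hr2 : hermForm 2 F q r w₀ = 0 := by
      rw [hr, hf_sub_left, hf_add_left, hf_smul_left, hf_smul_left, hvw, hw₀]
      ring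
    have hr3 : hermForm 2 F q r (vv b 0) = 0 := by
      rw [hw₀def, hf_smul_right hF] at hr2
      exact (mul_eq_zero.1 hr2).resolve_left (pow_ne_zero _ hs0)
    rw [hv₀def, herm_vv_right hF] at hr1
    rw [herm_vv_right hF] at hr3
    have h4 : r 1 * (a ^ q - b ^ q) = 0 := by
      linear_combination hr1 - hr3
    have h5 : a ^ q ≠ b ^ q := by
      intro h6
      apply hab
      have := congrArg (fun t => t ^ q) h6
      simpa [pow_pow_q hF] using this
    have h6 : r 1 = 0 := (mul_eq_zero.1 h4).resolve_right (sub_ne_zero.2 h5)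
    have h7 : r 0 = 0 := by
      rw [h6, zero_mul, add_zero] at hr1
      exact hr1
    have h8 : r = 0 := by
      funext i
      fin_cases i
      · exact h7
      · exact h6
    exact sub_eq_zero.1 h8
  -- transvections
  have tv : ∀ {y : Fin 2 → F} (_ : hermForm 2 F q y y = 0) {c : F} (_ : c ^ q = -c), ∃ t ∈ T0 hF 2, ∀ z,
      (t.1 : Matrix (Fin 2) (Fin 2) F) *ᵥ z = z + (c * hermForm 2 F q z y) • y := by
    intro y hy c hc
    refine ⟨Eg hF (Adm.zero hy hc), Eg_mem hF _, fun z => ?_⟩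
    rw [Eg_mulVec, hf_zero_right hF]
    simp
  -- the case of non-zero beta
  have main : ∀ g : SU 2 F q, hermForm 2 F q ((g.1 : Matrix (Fin 2) (Fin 2) F) *ᵥ v₀) v₀ ≠ 0 → g ∈ T0 hF 2 := by
    intro g hβ0
    set x := (g.1 : Matrix (Fin 2) (Fin 2) F) *ᵥ v₀ with hx
    set y := (g.1 : Matrix (Fin 2) (Fin 2) F) *ᵥ w₀ with hy
    set α := hermForm 2 F q x w₀ with hα
    set β := hermForm 2 F q x v₀ with hβ
    set B := hermForm 2 F q y w₀ with hB
    set D := hermForm 2 F q y v₀ with hD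
    have hxe : x = α • v₀ + β • w₀ := hbasis x
    have hye : y = B • v₀ + D • w₀ := hbasis y
    have e := su_isom g
    have hxx : hermForm 2 F q x x = 0 := by rw [hx, e]; exact hv₀
    have hxy : hermForm 2 F q x y = 1 := by rw [hx, hy, e]; exact hvw
    have i1 : α * β ^ q + β * α ^ q = 0 := by
      have h1 := hxx
      rw [hxe] at h1
      simp only [hf_add_left, hf_add_right hF, hf_smul_left, hf_smul_right hF, hv₀, hw₀, hvw, hwv] at h1
      linear_combination h1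
    have i3 : α * D ^ q + β * B ^ q = 1 := by
      have h1 := hxy
      rw [hxe, hye] at h1
      simp only [hf_add_left, hf_add_right hF, hf_smul_left, hf_smul_right hF, hv₀, hw₀, hvw, hwv] at h1
      linear_combination h1
    have i3' : α ^ q * D + β ^ q * B = 1 := by
      have h1 := congrArg (fun t => t ^ q) i3
      simp only [add_pow_q hF, mul_pow, pow_pow_q hF, one_pow] at h1
      exact h1
    have i4 : α * D - β * B = 1 := by
      let P : Matrix (Fin 2) (Fin 2) F := !![v₀ 0, w₀ 0; v₀ 1, w₀ 1]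
      let G : Matrix (Fin 2) (Fin 2) F := !![α, B; β, D]
      have hP : P.det ≠ 0 := by
        rw [Matrix.det_fin_two_of, hv0, hv1, hw0, hw1]
        have : 1 * (s * b) - s * a = s * (b - a) := by ring
        rw [this]
        exact mul_ne_zero hs0 (sub_ne_zero.2 hab.symm)
      have hgP : (g.1 : Matrix (Fin 2) (Fin 2) F) * P = P * G := by
        ext i j
        have hcol : ∀ z : Fin 2 → F, ∀ i : Fin 2, ((g.1 : Matrix (Fin 2) (Fin 2) F) *ᵥ z) i = ∑ k, (g.1 : Matrix (Fin 2) (Fin 2) F) i k * z k := fun z i => rfl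
        fin_cases j
        · have h2 := congrFun hxe i
          rw [hx, hcol, Fin.sum_univ_two] at h2
          fin_cases i <;> simp [P, G, Matrix.mul_apply, Fin.sum_univ_two] <;> simp at h2 <;> rw [h2] <;> ring
        · have h2 := congrFun hye i
          rw [hy, hcol, Fin.sum_univ_two] at h2
          fin_cases i <;> simp [P, G, Matrix.mul_apply, Fin.sum_univ_two] <;> simp at h2 <;> rw [h2] <;> ring
      have hd := congrArg Matrix.det hgP
      rw [Matrix.det_mul, Matrix.det_mul] at hd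
      have hg1 : (g.1 : Matrix (Fin 2) (Fin 2) F).det = 1 := g.1.2
      rw [hg1, one_mul] at hd
      have h3 := mul_left_cancel₀ hP (by rw [mul_one]; exact hd : P.det * 1 = P.det * G.det)
      rw [Matrix.det_fin_two_of] at h3
      linear_combination -h3 
    have tz : β ^ q = -β := by
      linear_combination (-(β ^ q)) * i4 + D * i1 + (-β) * i3'
    have ak : α ^ q = α := by
      linear_combination (-(α ^ q)) * i4 - B * i1 + α * i3'
    -- build the element
    have hc₁ : (-(α / β)) ^ q = - (-(α / β)) := by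
      rw [neg_pow_q hF, ← sig_apply hF, map_div₀, sig_apply, sig_apply, ak, tz]
      field_simp
    have hc₂ : (β⁻¹) ^ q = - β⁻¹ := by
      rw [inv_pow, tz, inv_neg]
    have hc₃ : (-β) ^ q = - (-β) := by
      rw [neg_pow_q hF, tz]
    obtain ⟨t₁, ht₁, ht₁'⟩ := tv hv₀ hc₁
    obtain ⟨t₂, ht₂, ht₂'⟩ := tv hv₀ hc₂
    obtain ⟨t₃, ht₃, ht₃'⟩ := tv hw₀ hc₃
    have hx1 : (t₁.1 : Matrix (Fin 2) (Fin 2) F) *ᵥ x = β • w₀ := by
      rw [ht₁', ← hβ]
      conv_lhs => rw [hxe]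
      have : -(α / β) * β = -α := by field_simp
      rw [this]
      module
    have hx2 : (t₂.1 : Matrix (Fin 2) (Fin 2) F) *ᵥ (β • w₀) = β • w₀ + v₀ := by
      rw [ht₂', hf_smul_left, hwv, mul_one, inv_mul_cancel₀ hβ0, one_smul]
    have hx3 : (t₃.1 : Matrix (Fin 2) (Fin 2) F) *ᵥ (β • w₀ + v₀) = v₀ := by
      rw [ht₃', hf_add_left, hf_smul_left, hw₀, hvw]
      simp
    set τ := t₃ * (t₂ * t₁) with hτ
    have hτm : τ ∈ T0 hF 2 := Subgroup.mul_mem _ ht₃ (Subgroup.mul_mem _ ht₂ ht₁)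
    have hτx : (τ.1 : Matrix (Fin 2) (Fin 2) F) *ᵥ x = v₀ := by
      rw [hτ, su_mul_mulVec, su_mul_mulVec, hx1, hx2, hx3]
    set g₁ := τ * g with hg₁
    have hg₁v : (g₁.1 : Matrix (Fin 2) (Fin 2) F) *ᵥ v₀ = v₀ := by
      rw [hg₁, su_mul_mulVec]
      exact hτx
    set y₁ := (g₁.1 : Matrix (Fin 2) (Fin 2) F) *ᵥ w₀ with hy₁
    have e₁ := su_isom g₁
    have hC : hermForm 2 F q y₁ v₀ = 1 := by
      conv_lhs => rw [← hg₁v, hy₁, e₁]
      exact hwv
    have hy₁y₁ : hermForm 2 F q y₁ y₁ = 0 := by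
      rw [hy₁, e₁]
      exact hw₀
    set A := hermForm 2 F q y₁ w₀ with hA
    have hy₁e : y₁ = A • v₀ + w₀ := by
      have := hbasis y₁
      rw [hC, one_smul] at this
      exact this
    have hAtr : A ^ q = -A := by
      have h1 := hy₁y₁
      rw [hy₁e] at h1
      simp only [hf_add_left, hf_add_right hF, hf_smul_left, hf_smul_right hF, hv₀, hw₀, hvw, hwv] at h1
      linear_combination h1
    obtain ⟨t, ht, ht'⟩ := tv hv₀ hAtr
    have hg₁t : g₁ = t := by
      apply su_ext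
      intro z
      rw [ht', hbasis z]
      generalize hermForm 2 F q z w₀ = p
      generalize hermForm 2 F q z v₀ = r
      rw [Matrix.mulVec_add, Matrix.mulVec_smul, Matrix.mulVec_smul, hg₁v, ← hy₁, hy₁e, hf_add_left, hf_smul_left, hf_smul_left, hv₀, hwv]
      module
    have h1 : g = τ⁻¹ * t := by
      rw [← hg₁t, hg₁]
      group
    rw [h1]
    exact Subgroup.mul_mem _ (Subgroup.inv_mem _ hτm) ht
  rw [eq_top_iff]
  rintro g -
  by_cases hβ : hermForm 2 F q ((g.1 : Matrix (Fin 2) (Fin 2) F) *ᵥ v₀) v₀ = 0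
  · obtain ⟨c, hc0, hc⟩ := exists_t hF
    obtain ⟨t, ht, ht'⟩ := tv hw₀ hc
    have hx0 : (g.1 : Matrix (Fin 2) (Fin 2) F) *ᵥ v₀ ≠ 0 := by
      intro h0
      have h1 := su_isom g v₀ w₀
      rw [h0, hf_zero_left, hvw] at h1
      exact zero_ne_one h1
    have hα : hermForm 2 F q ((g.1 : Matrix (Fin 2) (Fin 2) F) *ᵥ v₀) w₀ ≠ 0 := by
      intro h0
      apply hx0
      rw [hbasis ((g.1 : Matrix (Fin 2) (Fin 2) F) *ᵥ v₀), h0, hβ]
      simp
    have h1 : t * g ∈ T0 hF 2 := by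
      apply main
      rw [su_mul_mulVec, ht', hf_add_left, hβ, hf_smul_left, hwv, zero_add, mul_one]
      exact mul_ne_zero hc0 hα
    have h2 : g = t⁻¹ * (t * g) := by group
    rw [h2]
    exact Subgroup.mul_mem _ (Subgroup.inv_mem _ ht) h1
  · exact main g hβ

theorem gen_one (hF : Fintype.card F = q ^ 2) : T0 hF 1 = ⊤ := by
  rw [eq_top_iff]
  rintro g -
  have : g = 1 := by
    apply Subtype.ext
    apply Subtype.ext
    ext i j
    have h1 : (g.1 : Matrix (Fin 1) (Fin 1) F).det = 1 := g.1.2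
    rw [Matrix.det_fin_one] at h1
    rw [Subsingleton.elim i 0, Subsingleton.elim j 0, h1]
    rfl
  rw [this]
  exact Subgroup.one_mem _

/-- Generation of `SU_n` by the Eichler-Siegel transformations. -/
theorem gen_all (hF : Fintype.card F = q ^ 2) (n : ℕ) : T0 hF n = ⊤ := by
  induction n using Nat.strong_induction_on with
  | _ n ih =>
    rcases n with _ | _ | _ | m
    · rw [eq_top_iff]
      rintro g -
      have : g = 1 := by
        apply Subtype.ext
        apply Subtype.ext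
        ext i
        exact i.elim0
      rw [this]
      exact Subgroup.one_mem _
    · exact gen_one hF
    · exact gen_two hF
    · exact gen_step hF (m + 1) (hasTriple hF m) (ih (m + 1) (by omega))

end Cfsg.Agent.Lib.UnitGen
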