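import Cfsg.Agent.Lib.UnitGen

set_option autoImplicit false

namespace Cfsg.Agent.Lib.UnitGen2

open Matrix Cfsg Cfsg.Agent.Lib.HermStd Cfsg.Agent.Lib.HermForm Cfsg.Agent.Lib.HermCount Cfsg.Agent.Lib.HermBasic
  Cfsg.Agent.Lib.UnitBasic Cfsg.Agent.Lib.SUBasic Cfsg.Agent.Lib.SUCenter Cfsg.Agent.Lib.UnitCount Cfsg.Agent.Lib.UnitE Cfsg.Agent.Lib.UnitGen

variable {F : Type*} [Field F] [Fintype F] {q n : ℕ}

local notation "h" => hermForm n F q

/-- Trace zero elements give transvections in `T1`. -/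
theorem tv_mem (hF : Fintype.card F = q ^ 2) {v : Fin n → F} {c : F} (hA : Adm q v 0 c) : Eg hF hA ∈ T1 n F q :=
  Subgroup.subset_closure ⟨v, c, hA.hv, Eg_zero hF hA⟩

/-- A transformation with the same data but different constant. -/
theorem Eg_of_adm (hF : Fintype.card F = q ^ 2) {v u : Fin n → F} {c c' : F} (hA : Adm q v u c) (hA' : Adm q v u c') (hm : Eg hF hA ∈ T1 n F q) :
    Eg hF hA' ∈ T1 n F q := by
  have hzc : Adm q v 0 (c' - c) := by
    refine ⟨hA.hv, hf_zero_left v, ?_⟩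
    have h1 := hA.hc
    have h2 := hA'.hc
    rw [sub_pow_q hF, hf_zero_left]
    linear_combination h2 - h1
  have hzu : Adm q v (0 + u) c' := by
    rw [zero_add]
    exact hA'
  have e := Eg_mul hF hzc hA hzu (by rw [hf_zero_right hF]; ring)
  have e2 : Eg hF hzu = Eg hF hA' := by
    apply su_ext
    intro x
    rw [Eg_mulVec, Eg_mulVec, zero_add]
  rw [← e2, ← e]
  exact Subgroup.mul_mem _ (tv_mem hF hzc) hm

/-- Existence of a constant. -/
theorem exists_const (hF : Fintype.card F = q ^ 2) {v u : Fin n → F} (hv : h v v = 0) (hu : h u v = 0) : ∃ c, Adm q v u c := by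
  have hσ : sig hF (- h u u) = - h u u := by
    rw [map_neg, sig_apply, ← hf_conj hF]
  obtain ⟨c, hc⟩ := trace_surj (sig hF) (sig_ne hF) (sig_sig hF) (- h u u) hσ
  rw [sig_apply] at hc
  exact ⟨c, hv, hu, by rw [hc]; ring⟩

/-- The case of an isotropic vector. -/
theorem iso_case (hF : Fintype.card F = q ^ 2) {v u : Fin n → F} {c : F} (hA : Adm q v u c) (huu : h u u = 0) : Eg hF hA ∈ T1 n F q := by
  have hvu : h v u = 0 := herm_comm hF hA.hu
  obtain ⟨θ, hθ0, hθ⟩ := exists_t hF
  have hv := hA.hv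
  have huv := hA.hu
  have hcc : c ^ q = -c := by
    have := hA.hc
    rw [huu] at this
    linear_combination this
  have hinv : (θ⁻¹) ^ q = - θ⁻¹ := by
    rw [inv_pow, hθ, inv_neg]
  have hz : h (v + θ • u) (v + θ • u) = 0 := by
    simp only [hf_add_left, hf_add_right hF, hf_smul_left, hf_smul_right hF, hv, huu, huv, hvu]
    ring
  have hc' : (c - θ⁻¹) ^ q = - (c - θ⁻¹) := by
    rw [sub_pow_q hF, hcc, hinv]
    ring
  let t₁ := Eg hF (Adm.zero hz hinv)
  let t₂ := Eg hF (Adm.zero hv hc')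
  let t₃ := Eg hF (Adm.zero huu hθ)
  have e : Eg hF hA = t₁ * (t₂ * t₃) := by
    apply su_ext
    intro x
    rw [su_mul_mulVec, su_mul_mulVec]
    simp only [t₁, t₂, t₃, Eg_mulVec, hf_zero_right hF, hf_add_left, hf_sub_left, hf_add_right hF, hf_smul_left, hf_smul_right hF, hv, huu, huv, hvu, hf_zero_left, hθ]
    simp only [smul_zero, zero_smul, add_zero, sub_zero, mul_zero, zero_add]
    rw [smul_add, smul_smul]
    have h1 : (θ⁻¹ * (h x v + -θ * h x u)) = θ⁻¹ * h x v - h x u := by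
      field_simp
      ring
    have h2 : (θ⁻¹ * (h x v + -θ * h x u) * θ) = h x v - θ * h x u := by
      field_simp
      ring
    rw [h2, h1]
    module
  rw [e]
  exact Subgroup.mul_mem _ (tv_mem hF _) (Subgroup.mul_mem _ (tv_mem hF _) (tv_mem hF _))

theorem sum_single_eq (u : Fin n → F) : ∑ i, u i • (Pi.single i 1 : Fin n → F) = u := by
  classical
  funext x
  simp [Finset.sum_apply, Pi.single_apply]

/-- Isotropic vectors span, in dimension at least two. -/
theorem iso_span (hF : Fintype.card F = q ^ 2) (hn : 2 ≤ n) (x : Fin n → F) :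
    x ∈ Submodule.span F {z : Fin n → F | h z z = 0} := by
  classical
  obtain ⟨a, b, ha0, hb0, hab, ha, hb⟩ := exists_pair_iso hF
  set S := Submodule.span F {z : Fin n → F | h z z = 0} with hS
  have hsingle : ∀ j : Fin n, (Pi.single j 1 : Fin n → F) ∈ S := by
    intro j
    obtain ⟨i, hij⟩ : ∃ i : Fin n, i ≠ j := by
      by_cases hj : (j : ℕ) = 0
      · exact ⟨⟨1, by omega⟩, fun e => by
          have := congrArg Fin.val e
          simp at this
          omega⟩
      · exact ⟨⟨0, by omega⟩, fun e => by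
          have := congrArg Fin.val e
          simp at this
          omega⟩
    have h1 : (Pi.single i 1 : Fin n → F) + a • Pi.single j 1 ∈ S := Submodule.subset_span (iso_single hF hij ha)
    have h2 : (Pi.single i 1 : Fin n → F) + b • Pi.single j 1 ∈ S := Submodule.subset_span (iso_single hF hij hb)
    have h3 := S.sub_mem h1 h2
    have e : (Pi.single i 1 : Fin n → F) + a • Pi.single j 1 - ((Pi.single i 1 : Fin n → F) + b • Pi.single j 1) = (a - b) • (Pi.single j 1 : Fin n → F) := by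
      module
    rw [e] at h3
    have h4 := S.smul_mem (a - b)⁻¹ h3
    rwa [smul_smul, inv_mul_cancel₀ (sub_ne_zero.2 hab), one_smul] at h4
  rw [← sum_single_eq x]
  exact S.sum_mem fun i _ => S.smul_mem _ (hsingle i)

/-- The perp of an isotropic vector is spanned by isotropic vectors (dimension at least four). -/
theorem perp_span (hF : Fintype.card F = q ^ 2) (m : ℕ) {v u : Fin (m + 4) → F} (hv0 : v ≠ 0) (hv : hermForm (m + 4) F q v v = 0)
    (hu : hermForm (m + 4) F q u v = 0) :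
    u ∈ Submodule.span F {z : Fin (m + 4) → F | hermForm (m + 4) F q z z = 0 ∧ hermForm (m + 4) F q z v = 0} := by
  classical
  have hq := one_lt_q hF
  obtain ⟨a, ha⟩ := exists_a hF
  obtain ⟨g, hg, hgv⟩ := exists_isom hF (u := vv a (m + 2)) (v := v) (by rw [hv, herm_vv_self hF ha]) (vv_ne a _) hv0
  have e := (mem_GU_iff g).1 hg
  have hginv : (g : Matrix (Fin (m + 4)) (Fin (m + 4)) F) *ᵥ (((g⁻¹ : GL (Fin (m + 4)) F) : Matrix (Fin (m + 4)) (Fin (m + 4)) F) *ᵥ u) = u := by
    rw [Matrix.mulVec_mulVec, ← Units.val_mul, mul_inv_cancel, Units.val_one, Matrix.one_mulVec]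
  set u' := ((g⁻¹ : GL (Fin (m + 4)) F) : Matrix (Fin (m + 4)) (Fin (m + 4)) F) *ᵥ u with hu'
  have hu'v : hermForm (m + 4) F q u' (vv a (m + 2)) = 0 := by
    rw [← e, hginv, hgv]
    exact hu
  set S₀ := Submodule.span F {z : Fin (m + 4) → F | hermForm (m + 4) F q z z = 0 ∧ hermForm (m + 4) F q z (vv a (m + 2)) = 0} with hS₀
  -- the embedding of the complement
  let L : (Fin (m + 2) → F) →ₗ[F] (Fin (m + 4) → F) :=
    { toFun := fun t => iota (iota t)
      map_add' := by
        intro x y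
        funext i
        refine Fin.cases ?_ (fun i' => ?_) i
        · simp [iota]
        · refine Fin.cases ?_ (fun i'' => ?_) i'
          · simp [iota]
          · simp [iota]
      map_smul' := by
        intro c x
        funext i
        refine Fin.cases ?_ (fun i' => ?_) i
        · simp [iota]
        · refine Fin.cases ?_ (fun i'' => ?_) i'
          · simp [iota]
          · simp [iota] }
  have hLmem : ∀ t : Fin (m + 2) → F, L t ∈ S₀ := by
    intro t
    have h1 : t ∈ Submodule.span F {z : Fin (m + 2) → F | hermForm (m + 2) F q z z = 0} := iso_span hF (by omega) t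
    have h2 : L t ∈ (Submodule.span F {z : Fin (m + 2) → F | hermForm (m + 2) F q z z = 0}).map L := Submodule.mem_map_of_mem h1
    rw [Submodule.map_span] at h2
    refine (Submodule.span_le.2 ?_) h2
    rintro _ ⟨z, hz, rfl⟩
    apply Submodule.subset_span
    constructor
    · show hermForm (m + 4) F q (iota (iota z)) (iota (iota z)) = 0
      rw [herm_iota_iota hF, herm_iota_iota hF]
      exact hz
    · show hermForm (m + 4) F q (iota (iota z)) (vv a (m + 2)) = 0
      rw [herm_vv_right hF]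
      simp [iota]
  have hv₀S : vv a (m + 2) ∈ S₀ := Submodule.subset_span ⟨herm_vv_self hF ha _, herm_vv_self hF ha _⟩
  have hu'S : u' ∈ S₀ := by
    rw [herm_vv_right hF] at hu'v
    have h3 : u' 0 = -(u' 1 * a ^ q) := by
      have e0 : vv a (m + 2) 0 = 1 := rfl
      linear_combination hu'v
    have h4 : u' = (-(u' 1 * a ^ q)) • vv a (m + 2) + L (Fin.tail (Fin.tail u')) := by
      funext i
      refine Fin.cases ?_ (fun i' => ?_) i
      · simp [L, iota, vv, h3]
      · refine Fin.cases ?_ (fun i'' => ?_) i'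
        · show u' 1 = _
          simp [L, iota, vv]
          show u' 1 = -(u' 1 * a ^ q * a)
          linear_combination (u' 1) * ha
        · simp [L, iota, vv, Fin.tail]
    rw [h4]
    exact S₀.add_mem (S₀.smul_mem _ hv₀S) (hLmem _)
  -- transport
  have h5 : u ∈ S₀.map (Matrix.mulVecLin (g : Matrix (Fin (m + 4)) (Fin (m + 4)) F)) := ⟨u', hu'S, hginv⟩
  rw [hS₀, Submodule.map_span] at h5
  refine (Submodule.span_le.2 ?_) h5
  rintro _ ⟨z, ⟨hz1, hz2⟩, rfl⟩
  apply Submodule.subset_span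
  simp only [Matrix.mulVecLin_apply]
  constructor
  · rw [e]
    exact hz1
  · rw [← hgv, e]
    exact hz2

/-- In dimension at least four the Eichler-Siegel transformations are products of transvections. -/
theorem T0_le_T1_four (hF : Fintype.card F = q ^ 2) (m : ℕ) : T0 hF (m + 4) ≤ T1 (m + 4) F q := by
  unfold T0
  rw [Subgroup.closure_le]
  rintro _ ⟨v, u, c, hA, rfl⟩
  by_cases hv0 : v = 0
  · subst hv0
    have : Eg hF hA = 1 := by
      apply su_ext
      intro x
      rw [Eg_mulVec, su_one_mulVec, hf_zero_right hF]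
      simp
    rw [this]
    exact Subgroup.one_mem _
  have hspan := perp_span hF m hv0 hA.hv hA.hu
  have hperp : ∀ y ∈ Submodule.span F {z : Fin (m + 4) → F | hermForm (m + 4) F q z z = 0 ∧ hermForm (m + 4) F q z v = 0}, hermForm (m + 4) F q y v = 0 := by
    intro y hy
    induction hy using Submodule.span_induction with
    | mem y hy => exact hy.2
    | zero => exact hf_zero_left v
    | add a b _ _ ha hb => rw [hf_add_left, ha, hb, add_zero]
    | smul r a _ ha => rw [hf_smul_left, ha, mul_zero]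
  have key : ∀ y ∈ Submodule.span F {z : Fin (m + 4) → F | hermForm (m + 4) F q z z = 0 ∧ hermForm (m + 4) F q z v = 0},
      ∀ s : F, ∀ c' : F, ∀ hA' : Adm q v (s • y) c', Eg hF hA' ∈ T1 (m + 4) F q := by
    intro y hy
    induction hy using Submodule.span_induction with
    | mem y hy =>
      intro s c' hA'
      apply iso_case hF hA'
      rw [hf_smul_left, hf_smul_right hF, hy.1]
      ring
    | zero =>
      intro s c' hA'
      have e : s • (0 : Fin (m + 4) → F) = 0 := smul_zero s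
      have hA'' : Adm q v 0 c' := by
        rw [e] at hA'
        exact hA'
      have : Eg hF hA' = Eg hF hA'' := by
        apply su_ext
        intro x
        rw [Eg_mulVec, Eg_mulVec, e]
      rw [this]
      exact tv_mem hF hA''
    | add a b ha hb iha ihb =>
      intro s c' hA'
      have haa := hperp a ha
      have hbb := hperp b hb
      have h1 : hermForm (m + 4) F q (s • a) v = 0 := by rw [hf_smul_left, haa, mul_zero]
      have h2 : hermForm (m + 4) F q (s • b) v = 0 := by rw [hf_smul_left, hbb, mul_zero]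
      obtain ⟨c₁, hc₁⟩ := exists_const hF hA'.hv h1
      obtain ⟨c₂, hc₂⟩ := exists_const hF hA'.hv h2
      have hab : Adm q v (s • a + s • b) (c₁ + c₂ - hermForm (m + 4) F q (s • b) (s • a)) := by
        refine ⟨hA'.hv, by rw [hf_add_left, h1, h2, add_zero], ?_⟩
        have h3 := hc₁.hc
        have h5 := hc₂.hc
        rw [sub_pow_q hF, add_pow_q hF, ← hf_conj hF, hf_add_left, hf_add_right hF, hf_add_right hF]
        linear_combination h3 + h5
      have e := Eg_mul hF hc₁ hc₂ hab rfl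
      have hmem : Eg hF hab ∈ T1 (m + 4) F q := by
        rw [← e]
        exact Subgroup.mul_mem _ (iha s c₁ hc₁) (ihb s c₂ hc₂)
      have e5 : s • (a + b) = s • a + s • b := smul_add s a b
      have hA'' : Adm q v (s • a + s • b) c' := by
        rw [← e5]
        exact hA'
      have h6 := Eg_of_adm hF hab hA'' hmem
      have : Eg hF hA' = Eg hF hA'' := by
        apply su_ext
        intro x
        rw [Eg_mulVec, Eg_mulVec, e5]
      rw [this]
      exact h6
    | smul r a _ iha =>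
      intro s c' hA'
      have e : s • r • a = (s * r) • a := smul_smul s r a
      have hA'' : Adm q v ((s * r) • a) c' := by
        rw [← e]
        exact hA'
      have : Eg hF hA' = Eg hF hA'' := by
        apply su_ext
        intro x
        rw [Eg_mulVec, Eg_mulVec, e]
      rw [this]
      exact iha _ _ _
  have hA1 : Adm q v ((1 : F) • u) c := by
    rw [one_smul]
    exact hA
  have : Eg hF hA = Eg hF hA1 := by
    apply su_ext
    intro x
    rw [Eg_mulVec, Eg_mulVec, one_smul]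
  rw [this]
  exact key u hspan 1 c hA1

/-- Conjugates of transvections are transvections. -/
theorem T1_conj (g : SU n F q) {a : SU n F q} (ha : a ∈ T1 n F q) : g * a * g⁻¹ ∈ T1 n F q := by
  induction ha using Subgroup.closure_induction with
  | mem x hx =>
    obtain ⟨v, c, hv, hx'⟩ := hx
    apply Subgroup.subset_closure
    refine ⟨(g.1 : Matrix (Fin n) (Fin n) F) *ᵥ v, c, by rw [su_isom]; exact hv, ?_⟩
    apply ext_mulVec
    intro y
    have e1 : ((g * x * g⁻¹ : SU n F q).1 : Matrix (Fin n) (Fin n) F) *ᵥ y = (g.1 : Matrix (Fin n) (Fin n) F) *ᵥ ((x.1 : Matrix (Fin n) (Fin n) F) *ᵥ (((g⁻¹).1 : Matrix (Fin n) (Fin n) F) *ᵥ y)) := by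
      rw [su_mul_mulVec, su_mul_mulVec]
    rw [show (↑(g * x * g⁻¹ : SU n F q).1 : Matrix (Fin n) (Fin n) F) *ᵥ y = _ from e1, hx', ut_mulVec, ut_mulVec, Matrix.mulVec_add, Matrix.mulVec_smul, su_mulVec_inv]
    congr 2
    conv_rhs => rw [← su_mulVec_inv g y]
    rw [su_isom]
  | one => simp [Subgroup.one_mem]
  | mul x y _ _ hx hy =>
    have : g * (x * y) * g⁻¹ = (g * x * g⁻¹) * (g * y * g⁻¹) := by group
    rw [this]
    exact Subgroup.mul_mem _ hx hy
  | inv x _ hx =>
    have : g * x⁻¹ * g⁻¹ = (g * x * g⁻¹)⁻¹ := by group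
    rw [this]
    exact Subgroup.inv_mem _ hx

/-- Explicit transvection. -/
theorem tvv_mulVec (hF : Fintype.card F = q ^ 2) {v : Fin n → F} {c : F} (hv : h v v = 0) (hc : c ^ q = -c) (x : Fin n → F) :
    ((Eg hF (Adm.zero hv hc)).1 : Matrix (Fin n) (Fin n) F) *ᵥ x = x + (c * h x v) • v := by
  rw [Eg_mulVec, hf_zero_right hF]
  simp

/-- A Weyl element. -/
theorem exists_weyl (hF : Fintype.card F = q ^ 2) {v w : Fin n → F} (hv : h v v = 0) (hw : h w w = 0) (hvw : h v w = 1) {c : F} (hc0 : c ≠ 0) (hc : c ^ q = -c) :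
    ∃ N ∈ T1 n F q, (N.1 : Matrix (Fin n) (Fin n) F) *ᵥ v = (-c⁻¹) • w ∧ (N.1 : Matrix (Fin n) (Fin n) F) *ᵥ w = c • v ∧
      ∀ z, h z v = 0 → h z w = 0 → (N.1 : Matrix (Fin n) (Fin n) F) *ᵥ z = z := by
  have hwv : h w v = 1 := by rw [hf_conj hF, hvw, one_pow]
  have hd : (-c⁻¹) ^ q = - (-c⁻¹) := by
    rw [neg_pow_q hF, inv_pow, hc, inv_neg]
  refine ⟨Eg hF (Adm.zero hv hc) * (Eg hF (Adm.zero hw hd) * Eg hF (Adm.zero hv hc)),
    Subgroup.mul_mem _ (tv_mem hF _) (Subgroup.mul_mem _ (tv_mem hF _) (tv_mem hF _)), ?_, ?_, ?_⟩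
  · rw [su_mul_mulVec, su_mul_mulVec, tvv_mulVec hF hv hc, tvv_mulVec hF hw hd, tvv_mulVec hF hv hc]
    simp only [hf_add_left, hf_smul_left, hv, hvw, hwv, hw]
    have h1 : c * c⁻¹ = 1 := mul_inv_cancel₀ hc0
    have e : v + (c * (0 : F)) • v + (-c⁻¹ * (1 + c * 0 * 1)) • w + (c * (0 + c * 0 * 0 + -c⁻¹ * (1 + c * 0 * 1) * 1)) • v = (-c⁻¹) • w := by
      have : c * (0 + c * 0 * 0 + -c⁻¹ * (1 + c * 0 * 1) * 1) = -1 := by
        linear_combination -h1
      rw [this]
      have e2 : -c⁻¹ * (1 + c * 0 * 1) = -c⁻¹ := by ring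
      rw [e2]
      module
    convert e using 2
  · rw [su_mul_mulVec, su_mul_mulVec, tvv_mulVec hF hv hc, tvv_mulVec hF hw hd, tvv_mulVec hF hv hc]
    simp only [hf_add_left, hf_smul_left, hv, hvw, hwv, hw]
    have h1 : c * c⁻¹ = 1 := mul_inv_cancel₀ hc0
    have e1 : -c⁻¹ * (0 + c * 1 * 1) = -1 := by linear_combination -h1
    simp only [mul_one, mul_zero, add_zero, zero_add]
    have e3 : -c⁻¹ * c = -1 := by linear_combination -h1
    rw [e3]
    simp only [neg_mul, one_mul, neg_smul, one_smul]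
    have e4 : -1 * (0 : F) = 0 := by ring
    have h5 : (c * (1 + c * 0 + -1 * 1)) = 0 := by ring
    first
      | (simp [e4, h5]; done)
      | (simp; module)
  · intro z hz1 hz2
    rw [su_mul_mulVec, su_mul_mulVec, tvv_mulVec hF hv hc, tvv_mulVec hF hw hd, tvv_mulVec hF hv hc]
    simp [hf_add_left, hf_smul_left, hz1, hz2]

/-- The toral element. -/
theorem exists_torus (hF : Fintype.card F = q ^ 2) {v w : Fin n → F} (hv : h v v = 0) (hw : h w w = 0) (hvw : h v w = 1) {μ : F} (hμ0 : μ ≠ 0) (hμ : μ ^ q = μ) :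
    ∃ τ ∈ T1 n F q, (τ.1 : Matrix (Fin n) (Fin n) F) *ᵥ v = μ • v ∧ ∀ z, h z v = 0 → h z w = 0 → (τ.1 : Matrix (Fin n) (Fin n) F) *ᵥ z = z := by
  obtain ⟨c, hc0, hc⟩ := exists_t hF
  have h1 : (μ * c) ^ q = - (μ * c) := by
    rw [mul_pow, hμ, hc]
    ring
  have h2 : (-c) ^ q = - (-c) := by
    rw [neg_pow_q hF, hc]
  obtain ⟨N₁, hN₁, a1, a2, a3⟩ := exists_weyl hF hv hw hvw (mul_ne_zero hμ0 hc0) h1
  obtain ⟨N₂, hN₂, b1, b2, b3⟩ := exists_weyl hF hv hw hvw (neg_ne_zero.2 hc0) h2
  refine ⟨N₁ * N₂, Subgroup.mul_mem _ hN₁ hN₂, ?_, ?_⟩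
  · rw [su_mul_mulVec, b1, Matrix.mulVec_smul, a2, smul_smul]
    congr 1
    field_simp
  · intro z hz1 hz2
    rw [su_mul_mulVec, b3 z hz1 hz2, a3 z hz1 hz2]

/-- For `q ≥ 3` the Eichler-Siegel transformations are products of transvections. -/
theorem T0_le_T1_q (hF : Fintype.card F = q ^ 2) (hT : HasTriple n F q) (hq3 : 3 ≤ q) : T0 hF n ≤ T1 n F q := by
  classical
  unfold T0
  rw [Subgroup.closure_le]
  rintro _ ⟨v, u, c, hA, rfl⟩
  by_cases hv0 : v = 0
  · subst hv0
    have : Eg hF hA = 1 := by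
      apply su_ext
      intro x
      rw [Eg_mulVec, su_one_mulVec, hf_zero_right hF]
      simp
    rw [this]
    exact Subgroup.one_mem _
  -- the scalar
  obtain ⟨μ, hμK, hμ1⟩ : ∃ μ ∈ K' F q, μ ≠ 1 := by
    have hc := card_K' hF
    have : 1 < (K' F q).card := by omega
    exact Finset.exists_mem_ne this 1
  obtain ⟨hμ0, hμ⟩ := mem_K'.1 hμK
  obtain ⟨w, u₀, hw, hvw, -, -, -⟩ := hT v hv0 hA.hv
  have hwv : h w v = 1 := by rw [hf_conj hF, hvw, one_pow]
  obtain ⟨τ, hτ, hτv, hτz⟩ := exists_torus hF hA.hv hw hvw hμ0 hμ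
  have hv := hA.hv
  -- the projection
  set r := h u w with hr
  set z₀ := u - r • v with hz₀
  have hz₀v : h z₀ v = 0 := by
    rw [hz₀, hf_sub_left, hf_smul_left, hv, hA.hu]
    ring
  have hz₀w : h z₀ w = 0 := by
    rw [hz₀, hf_sub_left, hf_smul_left, hvw, ← hr]
    ring
  have hμ1' : μ - 1 ≠ 0 := sub_ne_zero.2 hμ1
  -- the key claim
  have hmain : ∀ (z : Fin n → F) (hzv : h z v = 0) (hzw : h z w = 0) (c' : F) (hB : Adm q v z c'), Eg hF hB ∈ T1 n F q := by
    intro z hzv hzw c' hB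
    obtain ⟨zh, hzh⟩ : ∃ zh : Fin n → F, zh = (μ - 1)⁻¹ • z := ⟨_, rfl⟩
    have hzhv : h zh v = 0 := by rw [hzh, hf_smul_left, hzv, mul_zero]
    have hzhw : h zh w = 0 := by rw [hzh, hf_smul_left, hzw, mul_zero]
    obtain ⟨c₁, hc₁⟩ := exists_const hF hv hzhv
    have hinv : Adm q v (-zh) (c₁ ^ q) := by
      refine ⟨hv, by rw [hf_neg_left, hzhv, neg_zero], ?_⟩
      have h1 := hc₁.hc
      rw [pow_pow_q hF, hf_neg_left, hf_neg_right hF]
      linear_combination h1
    have hE1 : Eg hF hc₁ * Eg hF hinv = 1 := by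
      have h0 : Adm q v (zh + -zh) 0 := by
        rw [add_neg_cancel]
        refine Adm.zero hv ?_
        rw [zero_pow (by omega)]
        simp
      apply su_ext
      intro x
      rw [su_mul_mulVec, Eg_mulVec, Eg_mulVec, su_one_mulVec]
      simp only [hf_add_left, hf_sub_left, hf_neg_right hF, hf_smul_left, hv, hzhv, herm_comm hF hzhv, hf_neg_left]
      have h1 := hc₁.hc
      have e : c₁ ^ q = - c₁ - h zh zh := by linear_combination h1
      rw [e]
      simp only [mul_zero, add_zero, zero_mul, neg_zero, sub_zero, zero_sub]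
      module
    have hinvE : (Eg hF hc₁)⁻¹ = Eg hF hinv := inv_eq_of_mul_eq_one_right hE1
    -- the conjugate
    have hB2 : Adm q v (μ • zh) (μ ^ 2 * c₁) := by
      refine ⟨hv, by rw [hf_smul_left, hzhv, mul_zero], ?_⟩
      have h1 := hc₁.hc
      rw [hf_smul_left, hf_smul_right hF, hμ, mul_pow, ← pow_mul, mul_comm 2 q, pow_mul, hμ]
      linear_combination μ ^ 2 * h1
    have hconj : τ * Eg hF hc₁ * τ⁻¹ = Eg hF hB2 := by
      have : τ * Eg hF hc₁ = Eg hF hB2 * τ := by
        apply su_ext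
        intro x
        have hτ1 : h ((τ.1 : Matrix (Fin n) (Fin n) F) *ᵥ x) v = μ⁻¹ * h x v := by
          have : v = (τ.1 : Matrix (Fin n) (Fin n) F) *ᵥ (μ⁻¹ • v) := by
            rw [Matrix.mulVec_smul, hτv, smul_smul, inv_mul_cancel₀ hμ0, one_smul]
          conv_lhs => rw [this]
          rw [su_isom, hf_smul_right hF, inv_pow, hμ]
        have hτ2 : h ((τ.1 : Matrix (Fin n) (Fin n) F) *ᵥ x) zh = h x zh := by
          conv_lhs => rw [← hτz zh hzhv hzhw]
          rw [su_isom]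
        rw [su_mul_mulVec, su_mul_mulVec, Eg_mulVec, Eg_mulVec, Matrix.mulVec_add, Matrix.mulVec_sub, Matrix.mulVec_add, Matrix.mulVec_smul, Matrix.mulVec_smul, Matrix.mulVec_smul,
          hτv, hτz zh hzhv hzhw, hf_smul_right hF, hτ1, hτ2, hμ]
        have e1 : μ⁻¹ * h x v * μ = h x v := by field_simp
        have e2 : μ ^ 2 * c₁ * (μ⁻¹ * h x v) = μ * (c₁ * h x v) := by field_simp
        rw [smul_smul, smul_smul, e2]
        have e3 : (μ⁻¹ * h x v) • μ • zh = h x v • zh := by
          rw [smul_smul, e1]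
        rw [e3]
        module
      rw [this]
      group
    have hG : τ * Eg hF hc₁ * τ⁻¹ * (Eg hF hc₁)⁻¹ ∈ T1 n F q := by
      have : τ * Eg hF hc₁ * τ⁻¹ * (Eg hF hc₁)⁻¹ = τ * (Eg hF hc₁ * τ⁻¹ * (Eg hF hc₁)⁻¹) := by group
      rw [this]
      exact Subgroup.mul_mem _ hτ (T1_conj _ (Subgroup.inv_mem _ hτ))
    rw [hconj, hinvE] at hG
    have hfin : Adm q v (μ • zh + -zh) (μ ^ 2 * c₁ + c₁ ^ q - h (-zh) (μ • zh)) := by
      refine ⟨hv, by rw [hf_add_left, hf_neg_left, hf_smul_left, hzhv]; simp, ?_⟩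
      have h1 := hB2.hc
      have h2 := hinv.hc
      rw [sub_pow_q hF, add_pow_q hF, ← hf_conj hF, hf_add_left, hf_add_right hF, hf_add_right hF]
      linear_combination h1 + h2
    rw [Eg_mul hF hB2 hinv hfin rfl] at hG
    have e5 : μ • zh + -zh = z := by
      rw [hzh, smul_smul]
      have : μ * (μ - 1)⁻¹ = 1 + (μ - 1)⁻¹ := by
        field_simp
        ring
      rw [this, add_smul, one_smul]
      abel
    have hfin2 : Adm q v (μ • zh + -zh) c' := by
      rw [e5]
      exact hB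
    have h7 := Eg_of_adm hF hfin hfin2 hG
    have : Eg hF hB = Eg hF hfin2 := by
      apply su_ext
      intro x
      rw [Eg_mulVec, Eg_mulVec, e5]
    rw [this]
    exact h7
  -- assembling
  have h3 : h (r • v) v = 0 := by rw [hf_smul_left, hv, mul_zero]
  obtain ⟨c₃, hc₃⟩ := exists_const hF hv h3
  obtain ⟨c₄, hc₄⟩ := exists_const hF hv hz₀v
  have hpart1 : Eg hF hc₃ ∈ T1 n F q := by
    apply Subgroup.subset_closure
    refine ⟨v, r - r ^ q + c₃, hv, ?_⟩
    apply ext_mulVec
    intro x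
    rw [Eg_mulVec, ut_mulVec, hf_smul_right hF]
    module
  have hsum : Adm q v (r • v + z₀) c := by
    have : r • v + z₀ = u := by rw [hz₀]; abel
    rw [this]
    exact hA
  have hsum' : Adm q v (r • v + z₀) (c₃ + c₄ - h z₀ (r • v)) := by
    refine ⟨hv, by rw [hf_add_left, h3, hz₀v, add_zero], ?_⟩
    have h1 := hc₃.hc
    have h2 := hc₄.hc
    rw [sub_pow_q hF, add_pow_q hF, ← hf_conj hF, hf_add_left, hf_add_right hF, hf_add_right hF]
    linear_combination h1 + h2
  have e := Eg_mul hF hc₃ hc₄ hsum' rfl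
  have hmem : Eg hF hsum' ∈ T1 n F q := by
    rw [← e]
    exact Subgroup.mul_mem _ hpart1 (hmain z₀ hz₀v hz₀w c₄ hc₄)
  have h8 := Eg_of_adm hF hsum' hsum hmem
  have : Eg hF hA = Eg hF hsum := by
    apply su_ext
    intro x
    have : r • v + z₀ = u := by rw [hz₀]; abel
    rw [Eg_mulVec, Eg_mulVec, this]
  rw [this]
  exact h8

/-- Generation by unitary transvections. -/
theorem T1_eq_top (hF : Fintype.card F = q ^ 2) (n : ℕ) (hn : 3 ≤ n) (h32 : ¬ (n = 3 ∧ q = 2)) : T1 n F q = ⊤ := by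
  have hq := one_lt_q hF
  rw [eq_top_iff, ← gen_all hF n]
  obtain ⟨m, rfl⟩ : ∃ m, n = m + 3 := ⟨n - 3, by omega⟩
  by_cases hm : m = 0
  · subst hm
    exact T0_le_T1_q hF (hasTriple hF 0) (by
      by_contra hlt
      exact h32 ⟨rfl, by omega⟩)
  · obtain ⟨k, rfl⟩ : ∃ k, m = k + 1 := ⟨m - 1, by omega⟩
    exact T0_le_T1_four hF k

/-- Every transvection is a commutator. -/
theorem tv_commutator (hF : Fintype.card F = q ^ 2) (hT : HasTriple n F q) (A : SU n F q) {v : Fin n → F} {c : F} (hv : h v v = 0)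
    (hA : (A.1 : Matrix (Fin n) (Fin n) F) = unitaryTransvection n q v c) : ∃ B C : SU n F q, B * C * B⁻¹ * C⁻¹ = A := by
  classical
  by_cases hv0 : v = 0
  · subst hv0
    have : A = 1 := by
      apply su_ext
      intro x
      rw [su_one_mulVec, hA, ut_mulVec, hf_zero_right hF]
      simp
    exact ⟨1, 1, by simp [this]⟩
  obtain ⟨w, u₀, hw, hvw, hu₀, hu₀v, hu₀w⟩ := hT v hv0 hv
  have hq := one_lt_q hF
  -- c has trace zero
  have hwv : h w v = 1 := by rw [hf_conj hF, hvw, one_pow]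
  have hcc : c ^ q = -c := by
    have h1 : h ((A.1 : Matrix (Fin n) (Fin n) F) *ᵥ w) ((A.1 : Matrix (Fin n) (Fin n) F) *ᵥ w) = h w w := su_isom A w w
    rw [hA, ut_mulVec] at h1
    simp only [hf_add_left, hf_add_right hF, hf_smul_left, hf_smul_right hF, hv, hw, hvw, hwv] at h1
    simp only [mul_one, mul_zero, add_zero, zero_add] at h1
    linear_combination h1
  -- the trace element
  have hσ : sig hF (1 : F) = 1 := by rw [map_one]
  obtain ⟨θ, hθ⟩ := trace_surj (sig hF) (sig_ne hF) (sig_sig hF) (1 : F) hσ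
  rw [sig_apply] at hθ
  set s := c * θ with hs
  have hs1 : s - s ^ q = c := by
    rw [hs, mul_pow, hcc]
    linear_combination c * hθ
  have h1 : h (s • u₀) v = 0 := by rw [hf_smul_left, hu₀v, mul_zero]
  obtain ⟨c₁, hc₁⟩ := exists_const hF hv h1
  obtain ⟨c₂, hc₂⟩ := exists_const hF hv hu₀v
  have hsw : h u₀ (s • u₀) = s ^ q := by rw [hf_smul_right hF, hu₀, mul_one]
  have hws : h (s • u₀) u₀ = s := by rw [hf_smul_left, hu₀, mul_one]
  have hA12 : Adm q v (s • u₀ + u₀) (c₁ + c₂ - h u₀ (s • u₀)) := by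
    refine ⟨hv, by rw [hf_add_left, h1, hu₀v, add_zero], ?_⟩
    have h3 := hc₁.hc
    have h5 := hc₂.hc
    rw [sub_pow_q hF, add_pow_q hF, ← hf_conj hF, hf_add_left, hf_add_right hF, hf_add_right hF]
    linear_combination h3 + h5
  have hA21 : Adm q v (u₀ + s • u₀) (c₂ + c₁ - h (s • u₀) u₀) := by
    refine ⟨hv, by rw [hf_add_left, h1, hu₀v, add_zero], ?_⟩
    have h3 := hc₁.hc
    have h5 := hc₂.hc
    rw [sub_pow_q hF, add_pow_q hF, ← hf_conj hF, hf_add_left, hf_add_right hF, hf_add_right hF]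
    linear_combination h3 + h5
  have e12 := Eg_mul hF hc₁ hc₂ hA12 rfl
  have e21 := Eg_mul hF hc₂ hc₁ hA21 rfl
  refine ⟨Eg hF hc₁, Eg hF hc₂, ?_⟩
  have key : Eg hF hc₁ * Eg hF hc₂ = A * (Eg hF hc₂ * Eg hF hc₁) := by
    rw [e12, e21]
    apply su_ext
    intro x
    rw [su_mul_mulVec, hA, ut_mulVec, Eg_mulVec, Eg_mulVec, hsw, hws]
    simp only [hf_add_left, hf_add_right hF, hf_smul_left, hf_sub_left, hf_smul_right hF, hv, herm_comm hF h1, herm_comm hF hu₀v, hu₀v, h1, add_comm u₀ (s • u₀)]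
    rw [← hs1]
    module
  calc Eg hF hc₁ * Eg hF hc₂ * (Eg hF hc₁)⁻¹ * (Eg hF hc₂)⁻¹ = (A * (Eg hF hc₂ * Eg hF hc₁)) * (Eg hF hc₁)⁻¹ * (Eg hF hc₂)⁻¹ := by rw [key]
    _ = A := by group

end Cfsg.Agent.Lib.UnitGen2
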