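import Cfsg.Agent.Lib.UnitConj
import Cfsg.Agent.Lib.UnitComm
import Cfsg.Agent.Lib.IwasawaQuot

set_option autoImplicit false

namespace Cfsg.Agent.Lib.UnitPrim

open Matrix Cfsg Cfsg.Agent.Lib.HermStd Cfsg.Agent.Lib.HermForm Cfsg.Agent.Lib.HermCount Cfsg.Agent.Lib.HermBasic
  Cfsg.Agent.Lib.UnitBasic Cfsg.Agent.Lib.SUBasic Cfsg.Agent.Lib.SUCenter Cfsg.Agent.Lib.UnitCount Cfsg.Agent.Lib.UnitE Cfsg.Agent.Lib.UnitGen Cfsg.Agent.Lib.UnitGen2 Cfsg.Agent.Lib.UnitConj
open MulAction
open scoped Pointwise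

variable {F : Type*} [Field F] [Fintype F] {q n : ℕ}

local notation "h" => hermForm n F q

theorem hf_sum_left (s : Finset (Fin n)) (a : Fin n → F) (u : Fin n → (Fin n → F)) (y : Fin n → F) :
    h (∑ i ∈ s, a i • u i) y = ∑ i ∈ s, a i * h (u i) y := by
  classical
  induction s using Finset.induction_on with
  | empty => simp [hf_zero_left]
  | insert x s hx ih => rw [Finset.sum_insert hx, Finset.sum_insert hx, hf_add_left, hf_smul_left, ih]

/-- Witt's lemma for pairs of vectors. -/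
theorem witt_pair (hF : Fintype.card F = q ^ 2) {u v u' v' : Fin n → F} (hli : LinearIndependent F ![u, v]) (hli' : LinearIndependent F ![u', v'])
    (h1 : h u u = h u' u') (h2 : h u v = h u' v') (h3 : h v v = h v' v') :
    ∃ g : GL (Fin n) F, g ∈ GU n F q ∧ (g : Matrix (Fin n) (Fin n) F) *ᵥ u = u' ∧ (g : Matrix (Fin n) (Fin n) F) *ᵥ v = v' := by
  classical
  have h4 : h v u = h v' u' := by
    rw [hf_conj hF u v, hf_conj hF u' v', h2]
  let P : (Fin 2 → F) →ₗ[F] (Fin n → F) := Fintype.linearCombination F ![u, v]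
  let P' : (Fin 2 → F) →ₗ[F] (Fin n → F) := Fintype.linearCombination F ![u', v']
  have hP : Function.Injective P := (injective_iff_map_eq_zero P).2 (fun a ha =>
    funext (Fintype.linearIndependent_iff.1 hli a (by simpa [P, Fintype.linearCombination_apply] using ha)))
  have hP' : Function.Injective P' := (injective_iff_map_eq_zero P').2 (fun a ha =>
    funext (Fintype.linearIndependent_iff.1 hli' a (by simpa [P', Fintype.linearCombination_apply] using ha)))
  have hPa : ∀ a : Fin 2 → F, P a = a 0 • u + a 1 • v := fun a => by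
    simp [P, Fintype.linearCombination_apply, Fin.sum_univ_two]
  have hPa' : ∀ a : Fin 2 → F, P' a = a 0 • u' + a 1 • v' := fun a => by
    simp [P', Fintype.linearCombination_apply, Fin.sum_univ_two]
  let e : (Fin 2 → F) ≃ₗ[F] LinearMap.range P := LinearEquiv.ofInjective P hP
  let φ : (LinearMap.range P) →ₗ[F] (Fin n → F) := P' ∘ₗ e.symm.toLinearMap
  have hφe : ∀ a, φ (e a) = P' a := fun a => by
    show P' (e.symm (e a)) = P' a
    rw [LinearEquiv.symm_apply_apply]
  have hee : ∀ a, ((e a : LinearMap.range P) : Fin n → F) = P a := fun a => rfl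
  have hinj : Function.Injective φ := by
    intro x y hxy
    obtain ⟨a, rfl⟩ := e.surjective x
    obtain ⟨b, rfl⟩ := e.surjective y
    rw [hφe, hφe] at hxy
    rw [hP' hxy]
  obtain ⟨g, hg, hgφ⟩ := witt hF (LinearMap.range P) φ hinj (by
    intro x x'
    obtain ⟨a, rfl⟩ := e.surjective x
    obtain ⟨b, rfl⟩ := e.surjective x'
    rw [hφe, hφe, hee, hee, hPa, hPa, hPa', hPa']
    simp only [hf_add_left, hf_add_right hF, hf_smul_left, hf_smul_right hF, h1, h2, h3, h4])
  refine ⟨g, hg, ?_, ?_⟩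
  · have := hgφ (e ![1, 0])
    rw [hφe, hee, hPa, hPa'] at this
    simpa using this
  · have := hgφ (e ![0, 1])
    rw [hφe, hee, hPa, hPa'] at this
    simpa using this

/-- The isotropic lines. -/
def IsoLine (n : ℕ) (F : Type*) [Field F] (q : ℕ) : Type _ :=
  {S : Submodule F (Fin n → F) // ∃ v : Fin n → F, v ≠ 0 ∧ hermForm n F q v v = 0 ∧ S = Submodule.span F {v}}

/-- The line of a vector. -/
def mkL (v : Fin n → F) (hv0 : v ≠ 0) (hv : h v v = 0) : IsoLine n F q := ⟨Submodule.span F {v}, v, hv0, hv, rfl⟩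

theorem ind_L {P : IsoLine n F q → Prop} (H : ∀ v hv0 hv, P (mkL v hv0 hv)) (x : IsoLine n F q) : P x := by
  obtain ⟨S, v, hv0, hv, rfl⟩ := x
  exact H v hv0 hv

theorem mkL_eq_iff {v w : Fin n → F} {hv0 : v ≠ 0} {hv : h v v = 0} {hw0 : w ≠ 0} {hw : h w w = 0} :
    mkL v hv0 hv = mkL w hw0 hw ↔ ∃ a : F, a ≠ 0 ∧ w = a • v := by
  constructor
  · intro he
    have h1 : Submodule.span F {v} = Submodule.span F {w} := congrArg Subtype.val he
    have h2 : w ∈ Submodule.span F {v} := by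
      rw [h1]
      exact Submodule.mem_span_singleton_self w
    obtain ⟨a, ha⟩ := Submodule.mem_span_singleton.1 h2
    refine ⟨a, ?_, ha.symm⟩
    rintro rfl
    rw [zero_smul] at ha
    exact hw0 ha.symm
  · rintro ⟨a, ha, rfl⟩
    apply Subtype.ext
    show Submodule.span F {v} = Submodule.span F {a • v}
    exact (Submodule.span_singleton_smul_eq (Ne.isUnit ha) v).symm

theorem su_ne_zero (g : SU n F q) {v : Fin n → F} (hv : v ≠ 0) : (g.1 : Matrix (Fin n) (Fin n) F) *ᵥ v ≠ 0 := by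
  intro h0
  apply hv
  have := su_inv_mulVec g v
  rw [h0, Matrix.mulVec_zero] at this
  exact this.symm

theorem su_iso (g : SU n F q) {v : Fin n → F} (hv : h v v = 0) : h ((g.1 : Matrix (Fin n) (Fin n) F) *ᵥ v) ((g.1 : Matrix (Fin n) (Fin n) F) *ᵥ v) = 0 := by
  rw [su_isom]
  exact hv

instance : MulAction (SU n F q) (IsoLine n F q) where
  smul g S := ⟨S.1.map (Matrix.mulVecLin (g.1 : Matrix (Fin n) (Fin n) F)), by
    obtain ⟨v, hv0, hv, hS⟩ := S.2
    refine ⟨(g.1 : Matrix (Fin n) (Fin n) F) *ᵥ v, su_ne_zero g hv0, su_iso g hv, ?_⟩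
    rw [hS, Submodule.map_span, Set.image_singleton, Matrix.mulVecLin_apply]⟩
  one_smul S := by
    apply Subtype.ext
    show S.1.map (Matrix.mulVecLin (1 : Matrix (Fin n) (Fin n) F)) = S.1
    rw [Matrix.mulVecLin_one, Submodule.map_id]
  mul_smul a b S := by
    apply Subtype.ext
    show S.1.map (Matrix.mulVecLin ((a.1 : Matrix (Fin n) (Fin n) F) * (b.1 : Matrix (Fin n) (Fin n) F))) = (S.1.map (Matrix.mulVecLin (b.1 : Matrix (Fin n) (Fin n) F))).map (Matrix.mulVecLin (a.1 : Matrix (Fin n) (Fin n) F))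
    rw [Matrix.mulVecLin_mul, Submodule.map_comp]

theorem smul_mkL (g : SU n F q) (v : Fin n → F) (hv0 : v ≠ 0) (hv : h v v = 0) :
    g • mkL v hv0 hv = mkL ((g.1 : Matrix (Fin n) (Fin n) F) *ᵥ v) (su_ne_zero g hv0) (su_iso g hv) := by
  apply Subtype.ext
  show (Submodule.span F {v}).map (Matrix.mulVecLin (g.1 : Matrix (Fin n) (Fin n) F)) = Submodule.span F {(g.1 : Matrix (Fin n) (Fin n) F) *ᵥ v}
  rw [Submodule.map_span, Set.image_singleton, Matrix.mulVecLin_apply]

/-- The orthogonality relation on lines. -/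
def Orth (S T : IsoLine n F q) : Prop := ∀ x ∈ S.1, ∀ y ∈ T.1, h x y = 0

theorem orth_mk_iff (hF : Fintype.card F = q ^ 2) {v w : Fin n → F} {hv0 : v ≠ 0} {hv : h v v = 0} {hw0 : w ≠ 0} {hw : h w w = 0} :
    Orth (mkL v hv0 hv) (mkL w hw0 hw) ↔ h v w = 0 := by
  constructor
  · intro H
    exact H v (Submodule.mem_span_singleton_self v) w (Submodule.mem_span_singleton_self w)
  · intro H x hx y hy
    obtain ⟨a, rfl⟩ := Submodule.mem_span_singleton.1 hx
    obtain ⟨b, rfl⟩ := Submodule.mem_span_singleton.1 hy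
    rw [hf_smul_left, hf_smul_right hF, H]
    ring

/-- Separating two independent vectors. -/
theorem exists_sep (hF : Fintype.card F = q ^ 2) {u w : Fin n → F} (hli : LinearIndependent F ![u, w]) :
    ∃ y, h y u = 1 ∧ h y w = 0 := by
  classical
  have hw0 : w ≠ 0 := by
    have := hli.ne_zero 1
    simpa using this
  have hpair := LinearIndependent.pair_iff.1 hli
  obtain ⟨y, hy1, hy2⟩ : ∃ y, h y u ≠ 0 ∧ h y w = 0 := by
    by_contra hcon
    push Not at hcon
    obtain ⟨y₂, hy₂⟩ := hf_nondeg_left hF hw0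
    set c := h y₂ u / h y₂ w with hc
    have hall : ∀ x, h x u = c * h x w := by
      intro x
      have h1 : h (x - (h x w / h y₂ w) • y₂) w = 0 := by
        rw [hf_sub_left, hf_smul_left]
        field_simp
        ring
      have h2 := by_contra (fun h3 : ¬ h (x - (h x w / h y₂ w) • y₂) u = 0 => hcon _ h3 h1) 
      rw [hf_sub_left, hf_smul_left] at h2
      rw [hc]
      field_simp
      field_simp at h2
      linear_combination h2
    have h0 : u - c ^ q • w = 0 := by
      by_contra hne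
      obtain ⟨x, hx⟩ := hf_nondeg_left hF hne
      apply hx
      rw [hf_sub_right hF, hf_smul_right hF, pow_pow_q hF, hall x]
      ring
    have := hpair 1 (-(c ^ q)) (by
      rw [one_smul, neg_smul, ← sub_eq_add_neg]
      exact h0)
    exact one_ne_zero this.1
  refine ⟨(h y u)⁻¹ • y, ?_, ?_⟩
  · rw [hf_smul_left, inv_mul_cancel₀ hy1]
  · rw [hf_smul_left, hy2, mul_zero]

/-- The diagonal correction of the determinant. -/
theorem exists_det_fix (hF : Fintype.card F = q ^ 2) {u w : Fin n → F} (hu : h u u = 0) (huw : h u w = 0)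
    (hli : LinearIndependent F ![u, w]) (d : F) (hd : d ^ (q + 1) = 1) :
    ∃ g : GL (Fin n) F, g ∈ GU n F q ∧ (g : Matrix (Fin n) (Fin n) F).det = d ∧ (∃ a : F, a ≠ 0 ∧ (g : Matrix (Fin n) (Fin n) F) *ᵥ u = a • u) ∧ (g : Matrix (Fin n) (Fin n) F) *ᵥ w = w := by
  classical
  have hq := one_lt_q hF
  obtain ⟨y, hy1, hy2⟩ := exists_sep hF hli
  -- make it isotropic
  have hσ : sig hF (- h y y) = - h y y := by
    rw [map_neg, sig_apply, ← hf_conj hF]
  obtain ⟨t, ht⟩ := trace_surj (sig hF) (sig_ne hF) (sig_sig hF) (- h y y) hσ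
  rw [sig_apply] at ht
  have huy : h u y = 1 := by rw [hf_conj hF y u, hy1, one_pow]
  obtain ⟨u', hu'⟩ : ∃ u', u' = y + t • u := ⟨_, rfl⟩
  have h1 : h u' u = 1 := by
    rw [hu', hf_add_left, hf_smul_left, hu, hy1]
    ring
  have h2 : h u' w = 0 := by
    rw [hu', hf_add_left, hf_smul_left, huw, hy2]
    ring
  have h3 : h u' u' = 0 := by
    rw [hu', hf_add_left, hf_add_right hF, hf_add_right hF, hf_smul_left, hf_smul_left, hf_smul_right hF, hf_smul_right hF, hu, hy1, huy]
    linear_combination ht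
  have h4 : h u u' = 1 := by rw [hf_conj hF u' u, h1, one_pow]
  have h5 : h w u' = 0 := herm_comm hF h2
  have h6 : h w u = 0 := herm_comm hF huw
  -- Hilbert 90
  have hd' : d * (sig hF) d = 1 := by
    rw [sig_apply, ← pow_succ']
    exact hd
  obtain ⟨α, hα0, hα⟩ := hilbert90 (sig hF) (sig_ne hF) (sig_sig hF) d hd'
  rw [sig_apply] at hα
  have hαq : α ^ q ≠ 0 := pow_ne_zero _ hα0
  set α' := (α ^ q)⁻¹ with hα'
  have hαα : α' * α ^ q = 1 := inv_mul_cancel₀ hαq
  have hαα2 : α * α' ^ q = 1 := by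
    rw [hα', inv_pow, pow_pow_q hF, mul_inv_cancel₀ hα0]
  have hdα : d = α * α' := by
    rw [hα']
    field_simp
    exact hα
  obtain ⟨A, hA⟩ : ∃ A, A = α - 1 := ⟨_, rfl⟩
  obtain ⟨B, hB⟩ : ∃ B, B = α' - 1 := ⟨_, rfl⟩
  have hAq : A ^ q = α ^ q - 1 := by
    rw [hA, sub_pow_q hF, one_pow]
  have hBq : B ^ q = α' ^ q - 1 := by
    rw [hB, sub_pow_q hF, one_pow]
  let E : Matrix (Fin n) (Fin n) F := 1 + vecMulVec (A • u) (cj q u') + vecMulVec (B • u') (cj q u)
  have hE : ∀ x, E *ᵥ x = x + (A * h x u') • u + (B * h x u) • u' := by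
    intro x
    simp only [E]
    rw [Matrix.add_mulVec, Matrix.add_mulVec, Matrix.one_mulVec, Matrix.vecMulVec_mulVec, Matrix.vecMulVec_mulVec, cj_dot, cj_dot]
    ext i
    simp only [Pi.add_apply, Pi.smul_apply, smul_eq_mul, MulOpposite.smul_eq_mul_unop, MulOpposite.unop_op]
    ring
  have hiso : ∀ x y', h (E *ᵥ x) (E *ᵥ y') = h x y' := by
    intro x y'
    rw [hE, hE]
    simp only [hf_add_left, hf_add_right hF, hf_smul_left, hf_smul_right hF, hu, h1, h3, h4]
    rw [hf_conj hF y' u, hf_conj hF y' u', mul_pow, mul_pow, hAq, hBq]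
    obtain ⟨a, ha⟩ : ∃ a, a = h x u' := ⟨_, rfl⟩
    obtain ⟨b, hb⟩ : ∃ b, b = h x u := ⟨_, rfl⟩
    obtain ⟨c, hc⟩ : ∃ c, c = h y' u' ^ q := ⟨_, rfl⟩
    obtain ⟨e, he⟩ : ∃ e, e = h y' u ^ q := ⟨_, rfl⟩
    rw [← ha, ← hb, ← hc, ← he, hA, hB]
    linear_combination (a * e) * hαα2 + (b * c) * hαα
  have hdet : E.det = d := by
    let X : Matrix (Fin n) (Fin 2) F := Matrix.of fun i j => ![u i, u' i] j
    let Y : Matrix (Fin 2) (Fin n) F := Matrix.of fun i j => ![A * cj q u' j, B * cj q u j] i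
    have e : E = 1 + X * Y := by
      simp only [E]
      ext i j
      simp [Matrix.mul_apply, Fin.sum_univ_two, X, Y, vecMulVec_apply]
      ring
    have e2 : Y * X = !![A, 0; 0, B] := by
      have d1 : ∑ k, cj q u' k * u k = h u u' := by rw [← cj_dot]; rfl
      have d2 : ∑ k, cj q u' k * u' k = h u' u' := by rw [← cj_dot]; rfl
      have d3 : ∑ k, cj q u k * u k = h u u := by rw [← cj_dot]; rfl
      have d4 : ∑ k, cj q u k * u' k = h u' u := by rw [← cj_dot]; rfl
      ext i j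
      fin_cases i <;> fin_cases j <;> simp [Matrix.mul_apply, X, Y, mul_assoc, ← Finset.mul_sum]
      · rw [d1, h4, mul_one]
      · rw [d2, h3]
        simp
      · rw [d3, hu]
        simp
      · rw [d4, h1, mul_one]
    rw [e, Matrix.det_one_add_mul_comm, e2, Matrix.det_fin_two, hdα, hA, hB]
    simp
  have hd0 : d ≠ 0 := by
    rintro rfl
    rw [zero_pow (by omega)] at hd
    exact zero_ne_one hd
  have hdetne : E.det ≠ 0 := by
    rw [hdet]
    exact hd0
  refine ⟨Matrix.GeneralLinearGroup.mkOfDetNeZero E hdetne, ?_, hdet, ⟨α, hα0, ?_⟩, ?_⟩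
  · rw [mem_GU_iff]
    exact hiso
  · show E *ᵥ u = _
    rw [hE, hu, h4, hA, mul_one, mul_zero, zero_smul, add_zero, sub_smul, one_smul]
    abel
  · show E *ᵥ w = _
    rw [hE, h5, h6, mul_zero, mul_zero, zero_smul, zero_smul, add_zero, add_zero]

/-- Witt-type transitivity in `SU`: fixing a line and moving an orthogonal isotropic vector. -/
theorem exists_su_pair (hF : Fintype.card F = q ^ 2) {u v w : Fin n → F} (hu : h u u = 0) (hv : h v v = 0) (hw : h w w = 0) (huv : h u v = 0) (huw : h u w = 0)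
    (hli : LinearIndependent F ![u, v]) (hli' : LinearIndependent F ![u, w]) :
    ∃ g : SU n F q, (∃ a : F, a ≠ 0 ∧ (g.1 : Matrix (Fin n) (Fin n) F) *ᵥ u = a • u) ∧ (g.1 : Matrix (Fin n) (Fin n) F) *ᵥ v = w := by
  classical
  obtain ⟨g₁, hg₁, h1, h2⟩ := witt_pair hF hli hli' rfl (by rw [huv, huw]) (by rw [hv, hw])
  have hdet := det_pow hF hg₁
  -- the inverse determinant
  have hdu : (g₁ : Matrix (Fin n) (Fin n) F).det ≠ 0 := by
    intro h0
    rw [h0, zero_pow (by omega)] at hdet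
    exact zero_ne_one hdet
  obtain ⟨g₂, hg₂, hd₂, ⟨a, ha0, ha⟩, hw₂⟩ := exists_det_fix hF hu huw hli' ((g₁ : Matrix (Fin n) (Fin n) F).det)⁻¹ (by
    rw [inv_pow, hdet, inv_one])
  have hmem : g₂ * g₁ ∈ GU n F q := Subgroup.mul_mem _ hg₂ hg₁
  have hdd : ((g₂ * g₁ : GL (Fin n) F) : Matrix (Fin n) (Fin n) F).det = 1 := by
    rw [Units.val_mul, Matrix.det_mul, hd₂, inv_mul_cancel₀ hdu]
  let s : SU n F q := ⟨⟨_, hdd⟩, (mem_GU_iff _).1 hmem⟩
  refine ⟨s, ⟨a, ha0, ?_⟩, ?_⟩
  · show ((g₂ * g₁ : GL (Fin n) F) : Matrix (Fin n) (Fin n) F) *ᵥ u = _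
    rw [Units.val_mul, ← Matrix.mulVec_mulVec, h1, ha]
  · show ((g₂ * g₁ : GL (Fin n) F) : Matrix (Fin n) (Fin n) F) *ᵥ v = _
    rw [Units.val_mul, ← Matrix.mulVec_mulVec, h2, hw₂]

/-- A matrix with all isotropic vectors as eigenvectors is scalar. -/
theorem scalar_of_eigen' (hF : Fintype.card F = q ^ 2) (hn : 2 ≤ n) {A : Matrix (Fin n) (Fin n) F}
    (hE : ∀ (v : Fin n → F), v ≠ 0 → h v v = 0 → ∃ l : F, A *ᵥ v = l • v) :
    ∃ l : F, A = l • 1 := by
  classical
  obtain ⟨a, b, ha0, hb0, hab, ha, hb⟩ := exists_pair_iso hF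
  let i₀ : Fin n := ⟨0, by omega⟩
  let i₁ : Fin n := ⟨1, by omega⟩
  have h01 : i₀ ≠ i₁ := by
    intro h1
    have := congrArg Fin.val h1
    simp [i₀, i₁] at this
  have hsingle_ne : ∀ {i j : Fin n}, i ≠ j → ∀ c : F, (Pi.single i 1 : Fin n → F) + c • Pi.single j 1 ≠ 0 := by
    intro i j hij c h1
    have := congrFun h1 i
    simp [Pi.single_apply, hij] at this
  let v₀ : Fin n → F := (Pi.single i₀ 1 : Fin n → F) + a • Pi.single i₁ 1
  have hv₀0 : v₀ ≠ 0 := hsingle_ne h01 a
  have hv₀ : h v₀ v₀ = 0 := iso_single hF h01 ha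
  obtain ⟨l, hl⟩ := hE _ hv₀0 hv₀
  -- every isotropic vector has eigenvalue l
  have hall : ∀ v : Fin n → F, h v v = 0 → A *ᵥ v = l • v := by
    intro v hv
    by_cases hv0 : v = 0
    · subst hv0
      simp
    by_cases hdep : v ∈ Submodule.span F {v₀}
    · obtain ⟨s, rfl⟩ := Submodule.mem_span_singleton.1 hdep
      rw [Matrix.mulVec_smul, hl, smul_comm]
    · obtain ⟨m, hm⟩ := hE _ hv0 hv
      obtain ⟨s, hs0, hs⟩ := exists_isotropic_comb hF v₀ v hv₀ hv
      by_cases hz : v₀ + s • v = 0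
      · exfalso
        apply hdep
        have : v = (-s⁻¹) • v₀ := by
          have h3 : s • v = (-1 : F) • v₀ := by
            rw [neg_smul, one_smul]
            exact eq_neg_of_add_eq_zero_right hz
          calc v = s⁻¹ • (s • v) := by rw [smul_smul, inv_mul_cancel₀ hs0, one_smul]
            _ = _ := by rw [h3, smul_smul]; congr 1; ring
        rw [this]
        exact Submodule.smul_mem _ _ (Submodule.mem_span_singleton_self v₀)
      obtain ⟨r, hr⟩ := hE _ hz hs
      rw [Matrix.mulVec_add, Matrix.mulVec_smul, hl, hm] at hr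
      -- compare using independence
      have h5 : (l - r) • v₀ + (s * (m - r)) • v = 0 := by
        have : (l - r) • v₀ + (s * (m - r)) • v = (l • v₀ + s • m • v) - r • (v₀ + s • v) := by
          simp only [smul_add, smul_smul, sub_smul, mul_sub]
          rw [mul_comm s m, mul_comm s r, mul_comm r s]
          abel_nf
        rw [this, hr, sub_self]
      have h6 : s * (m - r) = 0 := by
        by_contra h7
        apply hdep
        have : v = (-(s * (m - r))⁻¹ * (l - r)) • v₀ := by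
          have h8 : (s * (m - r)) • v = (-(l - r)) • v₀ := by
            rw [neg_smul]
            exact eq_neg_of_add_eq_zero_right h5
          calc v = (s * (m - r))⁻¹ • ((s * (m - r)) • v) := by rw [smul_smul, inv_mul_cancel₀ h7, one_smul]
            _ = _ := by rw [h8, smul_smul]; congr 1; ring
        rw [this]
        exact Submodule.smul_mem _ _ (Submodule.mem_span_singleton_self v₀)
      rw [h6, zero_smul, add_zero] at h5
      have h9 : l = r := sub_eq_zero.1 ((smul_eq_zero.1 h5).resolve_right hv₀0)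
      have h10 : m = r := sub_eq_zero.1 ((mul_eq_zero.1 h6).resolve_left hs0)
      rw [hm, h10, h9]
  -- every basis vector has eigenvalue l
  have hbasis : ∀ j : Fin n, A *ᵥ (Pi.single j 1) = l • (Pi.single j 1 : Fin n → F) := by
    intro j
    obtain ⟨i, hij⟩ : ∃ i, i ≠ j := by
      by_cases hj : j = i₀
      · exact ⟨i₁, by rw [hj]; exact h01.symm⟩
      · exact ⟨i₀, fun e => hj e.symm⟩
    have h1 := hall _ (iso_single hF hij ha)
    have h2 := hall _ (iso_single hF hij hb)
    rw [Matrix.mulVec_add, Matrix.mulVec_smul, smul_add, smul_comm] at h1 h2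
    have h3 : (a - b) • (A *ᵥ (Pi.single j 1) - l • (Pi.single j 1 : Fin n → F)) = 0 := by
      have h4 := sub_eq_zero.2 h1
      have h5 := sub_eq_zero.2 h2
      have h6 := sub_eq_zero.2 (h4.trans h5.symm)
      rw [← h6]
      simp only [smul_sub, sub_smul]
      abel
    have h7 := (smul_eq_zero.1 h3).resolve_left (sub_ne_zero.2 hab)
    exact sub_eq_zero.1 h7
  refine ⟨l, ?_⟩
  ext i j
  have h1 := congrFun (hbasis j) i
  rw [Matrix.mulVec_single_one] at h1
  simp only [Matrix.col_apply, Pi.smul_apply, smul_eq_mul, Matrix.smul_apply, Matrix.one_apply, Pi.single_apply] at h1 ⊢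
  exact h1



theorem ne_of_indep {u v : Fin n → F} (hu : u ≠ 0) (hne : ¬ ∃ a : F, a ≠ 0 ∧ v = a • u) (hv : v ≠ 0) : LinearIndependent F ![u, v] := by
  rw [LinearIndependent.pair_iff]
  intro s t hst
  by_cases ht : t = 0
  · subst ht
    rw [zero_smul, add_zero] at hst
    exact ⟨(smul_eq_zero.1 hst).resolve_right hu, rfl⟩
  · exfalso
    apply hne
    have e : v = (-(t⁻¹ * s)) • u := by
      have h1 : t • v = (-s) • u := by
        rw [neg_smul]
        exact eq_neg_of_add_eq_zero_right hst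
      calc v = t⁻¹ • (t • v) := by rw [smul_smul, inv_mul_cancel₀ ht, one_smul]
        _ = _ := by rw [h1, smul_smul]; congr 1; ring
    refine ⟨_, ?_, e⟩
    intro h0
    rw [h0, zero_smul] at e
    exact hv e

/-- An isotropic vector orthogonal to a hyperbolic pair. -/
theorem exists_iso_perp (hF : Fintype.card F = q ^ 2) (m : ℕ) {u w : Fin (m + 4) → F} (hu : hermForm (m + 4) F q u u = 0) (hw : hermForm (m + 4) F q w w = 0)
    (huw : hermForm (m + 4) F q u w ≠ 0) : ∃ z : Fin (m + 4) → F, z ≠ 0 ∧ hermForm (m + 4) F q z z = 0 ∧ hermForm (m + 4) F q z u = 0 ∧ hermForm (m + 4) F q z w = 0 := by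
  classical
  obtain ⟨s, hs0, hs⟩ := exists_scale hF huw
  have hw' : hermForm (m + 4) F q (s • w) (s • w) = 0 := by
    rw [hf_smul_left, hf_smul_right hF, hw]
    ring
  have huw' : hermForm (m + 4) F q u (s • w) = 1 := by
    rw [hf_smul_right hF]
    exact hs
  obtain ⟨a, b, t, hab, ht0, ha, hb, hab1, hbb⟩ := exists_std hF (m + 2)
  obtain ⟨g, -, hg1, hg2⟩ := trans_hyp hF (hasTriple hF (m + 1)) (v := vv a (m + 2)) (w := t • vv b (m + 2)) (v' := u) (w' := s • w) (herm_vv_self hF ha _)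
    (by rw [hf_smul_left, hf_smul_right hF, hbb]; ring) hab1 hu hw' huw'
  obtain ⟨a₀, ha₀⟩ := exists_a hF
  let z₀ : Fin (m + 4) → F := iota (iota (vv a₀ m))
  have hz₀0 : z₀ ≠ 0 := by
    intro h0
    have h1 := congrFun h0 2
    have h2 : z₀ 2 = 1 := rfl
    rw [h2] at h1
    exact one_ne_zero h1
  have hz₀ : hermForm (m + 4) F q z₀ z₀ = 0 := by
    simp only [z₀]
    rw [herm_iota_iota hF, herm_iota_iota hF]
    exact herm_vv_self hF ha₀ _
  have hz₁ : ∀ c, hermForm (m + 4) F q z₀ (vv c (m + 2)) = 0 := by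
    intro c
    rw [herm_vv_right hF]
    simp [z₀, iota]
  refine ⟨(g.1 : Matrix (Fin (m + 4)) (Fin (m + 4)) F) *ᵥ z₀, su_ne_zero g hz₀0, su_iso g hz₀, ?_, ?_⟩
  · rw [← hg1, su_isom]
    exact hz₁ a
  · have h3 : hermForm (m + 4) F q ((g.1 : Matrix (Fin (m + 4)) (Fin (m + 4)) F) *ᵥ z₀) (s • w) = 0 := by
      rw [← hg2, su_isom, hf_smul_right hF, hz₁, mul_zero]
    rw [hf_smul_right hF] at h3
    exact (mul_eq_zero.1 h3).resolve_left (pow_ne_zero _ hs0)

/-- In dimension three there are no orthogonal distinct isotropic lines. -/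
theorem no_orth_three (hF : Fintype.card F = q ^ 2) {u v : Fin 3 → F} (hu : hermForm 3 F q u u = 0) (hv : hermForm 3 F q v v = 0) (huv : hermForm 3 F q v u = 0) (hu0 : u ≠ 0) (hv0 : v ≠ 0) :
    ∃ a : F, a ≠ 0 ∧ v = a • u := by
  classical
  have hq := one_lt_q hF
  obtain ⟨a, ha⟩ := exists_a hF
  obtain ⟨g, hg, hgv⟩ := exists_isom hF (u := vv a 1) (v := u) (by rw [hu]; exact herm_vv_self hF ha 1) (vv_ne a 1) hu0
  have e := (mem_GU_iff g).1 hg
  have hginv : (g : Matrix (Fin 3) (Fin 3) F) *ᵥ (((g⁻¹ : GL (Fin 3) F) : Matrix (Fin 3) (Fin 3) F) *ᵥ v) = v := by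
    rw [Matrix.mulVec_mulVec, ← Units.val_mul, mul_inv_cancel, Units.val_one, Matrix.one_mulVec]
  obtain ⟨v', hv'⟩ : ∃ v', v' = ((g⁻¹ : GL (Fin 3) F) : Matrix (Fin 3) (Fin 3) F) *ᵥ v := ⟨_, rfl⟩
  rw [← hv'] at hginv
  have h1 : hermForm 3 F q v' (vv a 1) = 0 := by
    rw [← e, hginv, hgv]
    exact huv
  have h2 : hermForm 3 F q v' v' = 0 := by
    rw [← e, hginv]
    exact hv
  rw [show hermForm 3 F q v' (vv a 1) = v' 0 + v' 1 * a ^ q from herm_vv_right hF a 1 v'] at h1
  have h3 : v' 0 = -(v' 1 * a ^ q) := by linear_combination h1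
  have haq : a ^ q * a = -1 := by rw [mul_comm]; exact ha
  have h0q : (v' 0) ^ q = - (v' 1 ^ q * a) := by
    rw [h3, neg_pow_q hF, mul_pow, pow_pow_q hF]
  have h4 : hermForm 3 F q v' v' = v' 0 * v' 0 ^ q + v' 1 * v' 1 ^ q + v' 2 * v' 2 ^ q := by
    simp [hermForm, Fin.sum_univ_three]
  rw [h4, h0q, h3] at h2
  have h5 : v' 2 * v' 2 ^ q = 0 := by
    linear_combination h2 - (v' 1 * v' 1 ^ q) * haq
  have h6 : v' 2 = 0 := by
    rcases mul_eq_zero.1 h5 with h7 | h7
    · exact h7
    · exact pow_eq_zero_iff (by omega) |>.1 h7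
  have h7 : v' = (-(v' 1 * a ^ q)) • vv a 1 := by
    funext i
    fin_cases i
    · show v' 0 = (-(v' 1 * a ^ q)) * (vv a 1 0)
      rw [h3]
      show _ = (-(v' 1 * a ^ q)) * 1
      rw [mul_one]
    · show v' 1 = (-(v' 1 * a ^ q)) * a
      linear_combination (v' 1) * haq
    · show v' 2 = (-(v' 1 * a ^ q)) * 0
      rw [h6, mul_zero]
  obtain ⟨c, hc⟩ : ∃ c, c = -(v' 1 * a ^ q) := ⟨_, rfl⟩
  rw [← hc] at h7
  have h8 : v = c • u := by
    rw [← hginv, h7, Matrix.mulVec_smul, hgv]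
  refine ⟨_, ?_, h8⟩
  intro h0
  rw [h0, zero_smul] at h8
  exact hv0 h8

/-- Isotropic lines are permuted transitively. -/
theorem pretrans (hF : Fintype.card F = q ^ 2) (hT : HasTriple n F q) : IsPretransitive (SU n F q) (IsoLine n F q) := by
  constructor
  intro x y
  induction x using ind_L with | H u hu0 hu => ?_
  induction y using ind_L with | H v hv0 hv => ?_
  obtain ⟨g, -, hg⟩ := trans_vec hF hT hu hv hu0 hv0
  refine ⟨g, ?_⟩
  rw [smul_mkL, mkL_eq_iff]
  exact ⟨1, one_ne_zero, by rw [hg, one_smul]⟩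

/-- Two-point moves: lines in the same relation to a given line are permuted by its stabiliser. -/
theorem exists_fix_move (hF : Fintype.card F = q ^ 2) (m' : ℕ) (p₁ p₂ p₃ : IsoLine (m' + 3) F q) : p₁ ≠ p₂ → p₁ ≠ p₃ → (Orth p₁ p₂ ↔ Orth p₁ p₃) →
    ∃ g : SU (m' + 3) F q, g • p₁ = p₁ ∧ g • p₂ = p₃ := by
  induction p₁ using ind_L with | H u hu0 hu => ?_
  induction p₂ using ind_L with | H v hv0 hv => ?_
  induction p₃ using ind_L with | H w hw0 hw => ?_
  intro h12 h13 hR
  rw [orth_mk_iff hF, orth_mk_iff hF] at hR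
  have hne1 : ¬ ∃ a : F, a ≠ 0 ∧ v = a • u := fun H => h12 (mkL_eq_iff.2 H)
  have hne2 : ¬ ∃ a : F, a ≠ 0 ∧ w = a • u := fun H => h13 (mkL_eq_iff.2 H)
  by_cases huv : hermForm (m' + 3) F q u v = 0
  · obtain ⟨g, ⟨a, ha0, ha⟩, hgv⟩ := exists_su_pair hF hu hv hw huv (hR.1 huv) (ne_of_indep hu0 hne1 hv0) (ne_of_indep hu0 hne2 hw0)
    refine ⟨g, ?_, ?_⟩
    · rw [smul_mkL, mkL_eq_iff]
      refine ⟨a⁻¹, inv_ne_zero ha0, ?_⟩
      rw [ha, smul_smul, inv_mul_cancel₀ ha0, one_smul]
    · rw [smul_mkL, mkL_eq_iff]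
      exact ⟨1, one_ne_zero, by rw [hgv, one_smul]⟩
  · have huw : hermForm (m' + 3) F q u w ≠ 0 := fun h0 => huv (hR.2 h0)
    have hvu : hermForm (m' + 3) F q v u ≠ 0 := fun h0 => huv (herm_comm hF h0)
    have hwu : hermForm (m' + 3) F q w u ≠ 0 := fun h0 => huw (herm_comm hF h0)
    have e1 : hermForm (m' + 3) F q ((hermForm (m' + 3) F q v u)⁻¹ • v) u = 1 := by
      rw [hf_smul_left, inv_mul_cancel₀ hvu]
    have e2 : hermForm (m' + 3) F q ((hermForm (m' + 3) F q w u)⁻¹ • w) u = 1 := by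
      rw [hf_smul_left, inv_mul_cancel₀ hwu]
    have i1 : hermForm (m' + 3) F q ((hermForm (m' + 3) F q v u)⁻¹ • v) ((hermForm (m' + 3) F q v u)⁻¹ • v) = 0 := by
      rw [hf_smul_left, hf_smul_right hF, hv]
      ring
    have i2 : hermForm (m' + 3) F q ((hermForm (m' + 3) F q w u)⁻¹ • w) ((hermForm (m' + 3) F q w u)⁻¹ • w) = 0 := by
      rw [hf_smul_left, hf_smul_right hF, hw]
      ring
    obtain ⟨g, -, hg1, hg2⟩ := exists_E_map hF i1 i2 hu (by rw [e1, e2]) (by rw [e1]; exact one_ne_zero)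
    refine ⟨g, ?_, ?_⟩
    · rw [smul_mkL, mkL_eq_iff]
      exact ⟨1, one_ne_zero, by rw [hg2, one_smul]⟩
    · rw [smul_mkL, mkL_eq_iff]
      refine ⟨hermForm (m' + 3) F q w u * (hermForm (m' + 3) F q v u)⁻¹, mul_ne_zero hwu (inv_ne_zero hvu), ?_⟩
      rw [Matrix.mulVec_smul] at hg1
      have h5 := congrArg (fun y => (hermForm (m' + 3) F q v u) • y) hg1
      simp only [smul_smul, mul_inv_cancel₀ hvu, one_smul] at h5
      rw [h5, smul_smul]
      have e3 : hermForm (m' + 3) F q w u * (hermForm (m' + 3) F q v u)⁻¹ * (hermForm (m' + 3) F q v u * (hermForm (m' + 3) F q w u)⁻¹) = 1 := by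
        field_simp
      rw [e3, one_smul]

/-- The action on isotropic lines is primitive. -/
theorem preprim (hF : Fintype.card F = q ^ 2) (hn : 3 ≤ n) : IsPreprimitive (SU n F q) (IsoLine n F q) := by
  classical
  obtain ⟨m', rfl⟩ : ∃ m', n = m' + 3 := ⟨n - 3, by omega⟩
  have hT := hasTriple (F := F) hF m'
  haveI := pretrans hF hT
  haveI : Nonempty (IsoLine (m' + 3) F q) := by
    obtain ⟨a, ha⟩ := exists_a hF
    exact ⟨mkL (vv a (m' + 1)) (vv_ne a _) (herm_vv_self hF ha _)⟩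
  apply Cfsg.Agent.Lib.IwasawaQuot.preprimitive_of_relation Orth
  · intro p₁ p₂
    induction p₁ using ind_L with | H u hu0 hu => ?_
    induction p₂ using ind_L with | H v hv0 hv => ?_
    rw [orth_mk_iff hF, orth_mk_iff hF]
    exact herm_comm hF
  · exact exists_fix_move hF m'
  · intro p₁ p₂
    induction p₁ using ind_L with | H u hu0 hu => ?_
    induction p₂ using ind_L with | H v hv0 hv => ?_
    obtain ⟨y, hy, h1, h2⟩ := exists_common hF hu hv hu0 hv0
    have hy0 : y ≠ 0 := by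
      rintro rfl
      exact h1 (hf_zero_right hF u)
    refine ⟨mkL y hy0 hy, ?_, ?_, ?_, ?_⟩
    · intro he
      obtain ⟨a, -, ha⟩ := mkL_eq_iff.1 he
      apply h1
      rw [ha, hf_smul_left, hy, mul_zero]
    · intro he
      obtain ⟨a, -, ha⟩ := mkL_eq_iff.1 he
      apply h2
      rw [ha, hf_smul_left, hy, mul_zero]
    · rw [orth_mk_iff hF]
      exact h1
    · rw [orth_mk_iff hF]
      intro h0
      exact h2 (herm_comm hF h0)
  · intro p₁ p₂ p₃
    induction p₁ using ind_L with | H u hu0 hu => ?_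
    induction p₂ using ind_L with | H v hv0 hv => ?_
    induction p₃ using ind_L with | H w hw0 hw => ?_
    intro h21 hR h31
    rw [orth_mk_iff hF] at hR
    by_cases huw : hermForm (m' + 3) F q u w = 0
    · have hwu : hermForm (m' + 3) F q w u = 0 := herm_comm hF huw
      have hne : ¬ ∃ a : F, a ≠ 0 ∧ w = a • u := fun H => h31 (mkL_eq_iff.2 H).symm
      have hiso : hermForm (m' + 3) F q (u + w) (u + w) = 0 := by
        rw [hf_add_left, hf_add_right hF, hf_add_right hF, hu, hw, huw, hwu]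
        ring
      have hsum : u + w ≠ 0 := by
        intro h0
        apply hne
        refine ⟨-1, neg_ne_zero.2 one_ne_zero, ?_⟩
        rw [neg_smul, one_smul]
        exact eq_neg_of_add_eq_zero_right h0
      refine ⟨mkL (u + w) hsum hiso, ?_, ?_, ?_, ?_⟩
      · intro he
        obtain ⟨a, ha0, ha⟩ := mkL_eq_iff.1 he
        -- `u = a (u + w)`
        apply hne
        have h1a : a ≠ 1 := by
          rintro rfl
          rw [one_smul] at ha
          have : w = 0 := by
            have := congrArg (fun y => y - u) ha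
            simpa using this.symm
          exact hw0 this
        have e : w = (a⁻¹ - 1) • u := by
          have h7 : a⁻¹ • u = u + w := by
            rw [ha, smul_smul, inv_mul_cancel₀ ha0, one_smul]
            rw [← ha]
          rw [sub_smul, h7, one_smul]
          abel
        refine ⟨a⁻¹ - 1, ?_, e⟩
        intro h0
        rw [h0, zero_smul] at e
        exact hw0 e
      · intro he
        obtain ⟨a, ha0, ha⟩ := mkL_eq_iff.1 he
        -- `w = a (u + w)`
        apply hne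
        have h1a : a ≠ 1 := by
          rintro rfl
          rw [one_smul] at ha
          have : u = 0 := by
            have := congrArg (fun y => y - w) ha
            simpa using this.symm
          exact hu0 this
        have hau : a • u = (1 - a) • w := by
          have h8 : w = a • u + a • w := by rw [← smul_add]; exact ha
          rw [sub_smul, one_smul, eq_sub_iff_add_eq]
          exact h8.symm
        have e : w = ((1 - a)⁻¹ * a) • u := by
          rw [← smul_smul, hau, smul_smul, inv_mul_cancel₀ (sub_ne_zero.2 h1a.symm), one_smul]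
        refine ⟨_, mul_ne_zero (inv_ne_zero (sub_ne_zero.2 h1a.symm)) ha0, e⟩
      · rw [orth_mk_iff hF, hf_add_right hF, hu, huw, add_zero]
      · rw [orth_mk_iff hF, hf_add_left, huw, hw, add_zero]
    · have hne' : hermForm (m' + 3) F q w u ≠ 0 := fun h0 => huw (herm_comm hF h0)
      -- the dimension is at least four
      have hne1 : ¬ ∃ a : F, a ≠ 0 ∧ v = a • u := fun H => h21 (mkL_eq_iff.2 H).symm
      obtain ⟨k, rfl⟩ : ∃ k, m' = k + 1 := by
        by_cases hm : m' = 0
        · exfalso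
          subst hm
          exact hne1 (no_orth_three hF hu hv (herm_comm hF hR) hu0 hv0)
        · exact ⟨m' - 1, by omega⟩
      obtain ⟨z, hz0, hz, hzu, hzw⟩ := exists_iso_perp hF k hu hw huw
      refine ⟨mkL z hz0 hz, ?_, ?_, ?_, ?_⟩
      · intro he
        obtain ⟨a, ha0, ha⟩ := mkL_eq_iff.1 he
        apply hne'
        have h3 : hermForm (k + 1 + 3) F q u w = a * hermForm (k + 1 + 3) F q z w := by
          rw [ha, hf_smul_left]
        rw [hzw, mul_zero] at h3
        exact absurd h3 huw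
      · intro he
        obtain ⟨a, ha0, ha⟩ := mkL_eq_iff.1 he
        apply hne'
        rw [ha, hf_smul_left, hzu, mul_zero]
      · rw [orth_mk_iff hF]
        exact herm_comm hF hzu
      · rw [orth_mk_iff hF]
        exact hzw

end Cfsg.Agent.Lib.UnitPrim
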