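import Cfsg.Agent.Lib.UnitPrim

set_option autoImplicit false

namespace Cfsg.Agent.Lib.UnitSimple

open Matrix Cfsg Cfsg.Agent.Lib.HermStd Cfsg.Agent.Lib.HermForm Cfsg.Agent.Lib.HermCount Cfsg.Agent.Lib.HermBasic
  Cfsg.Agent.Lib.UnitBasic Cfsg.Agent.Lib.SUBasic Cfsg.Agent.Lib.SUCenter Cfsg.Agent.Lib.UnitCount Cfsg.Agent.Lib.UnitE Cfsg.Agent.Lib.UnitGen Cfsg.Agent.Lib.UnitGen2 Cfsg.Agent.Lib.UnitConj Cfsg.Agent.Lib.UnitPrim
open MulAction
open scoped Pointwise commutatorElement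

variable {F : Type*} [Field F] [Fintype F] {q n : ℕ}

local notation "h" => hermForm n F q

/-- A unitary transvection in the group has an admissible constant. -/
theorem ut_admissible (hF : Fintype.card F = q ^ 2) (A : SU n F q) {v : Fin n → F} {c : F} (hv0 : v ≠ 0) (hv : h v v = 0)
    (hA : (A.1 : Matrix (Fin n) (Fin n) F) = unitaryTransvection n q v c) : c ^ q = -c := by
  obtain ⟨x, hx⟩ := hf_nondeg_left hF hv0
  have h1 := su_isom A x x
  have hxv : h x v = (h v x) ^ q := hf_conj hF v x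
  have hy : h v x ≠ 0 := fun h0 => hx (by rw [hxv, h0, zero_pow (by have := one_lt_q hF; omega)])
  rw [hA, ut_mulVec, hf_add_left, hf_add_right hF, hf_add_right hF, hf_smul_left, hf_smul_left, hf_smul_right hF, hf_smul_right hF, hv,
    mul_pow, hxv, pow_pow_q hF] at h1
  have h0 : (c ^ q + c) * (h v x * h v x ^ q) = 0 := by
    linear_combination h1
  have hne : h v x * h v x ^ q ≠ 0 := mul_ne_zero hy (pow_ne_zero _ hy)
  have := (mul_eq_zero.1 h0).resolve_right hne
  exact eq_neg_of_add_eq_zero_left this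

/-- The root group of an isotropic vector. -/
def rootGroup (hF : Fintype.card F = q ^ 2) (v : Fin n → F) (hv : h v v = 0) : Subgroup (SU n F q) where
  carrier := {A | ∃ c : F, c ^ q = -c ∧ (A.1 : Matrix (Fin n) (Fin n) F) = unitaryTransvection n q v c}
  mul_mem' := by
    rintro A B ⟨a, ha, hA⟩ ⟨b, hb, hB⟩
    refine ⟨a + b, by rw [add_pow_q hF, ha, hb]; ring, ?_⟩
    apply ext_mulVec
    intro x
    rw [su_mul_mulVec, hA, hB, ut_mulVec, ut_mulVec, ut_mulVec, hf_add_left, hf_smul_left, hv]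
    module
  one_mem' := by
    refine ⟨0, by rw [zero_pow (by have := one_lt_q hF; omega)]; simp, ?_⟩
    apply ext_mulVec
    intro x
    rw [su_one_mulVec, ut_mulVec]
    simp
  inv_mem' := by
    rintro A ⟨a, ha, hA⟩
    refine ⟨-a, by rw [neg_pow_q hF, ha], ?_⟩
    apply ext_mulVec
    intro x
    rw [ut_mulVec]
    have h1 : (A.1 : Matrix (Fin n) (Fin n) F) *ᵥ (x + (-a * h x v) • v) = x := by
      rw [hA, ut_mulVec, hf_add_left, hf_smul_left, hv]
      module
    conv_lhs => rw [← h1]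
    exact su_inv_mulVec A _

theorem mem_rootGroup {hF : Fintype.card F = q ^ 2} {v : Fin n → F} {hv : h v v = 0} {A : SU n F q} :
    A ∈ rootGroup hF v hv ↔ ∃ c : F, c ^ q = -c ∧ (A.1 : Matrix (Fin n) (Fin n) F) = unitaryTransvection n q v c := Iff.rfl

theorem ut_smul (hF : Fintype.card F = q ^ 2) (v : Fin n → F) (a c : F) :
    unitaryTransvection n q (a • v) c = unitaryTransvection n q v (c * (a * a ^ q)) := by
  apply ext_mulVec
  intro x
  rw [ut_mulVec, ut_mulVec, hf_smul_right hF, smul_smul]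
  congr 2
  ring

theorem rootGroup_smul_le (hF : Fintype.card F = q ^ 2) {v : Fin n → F} (hv : h v v = 0) {a : F} (hav : h (a • v) (a • v) = 0) :
    rootGroup hF (a • v) hav ≤ rootGroup hF v hv := by
  rintro A ⟨c, hc, hA⟩
  refine ⟨c * (a * a ^ q), ?_, by rw [hA, ut_smul hF]⟩
  rw [mul_pow, mul_pow, pow_pow_q hF, hc]
  ring

theorem rootGroup_eq (hF : Fintype.card F = q ^ 2) {v w : Fin n → F} (hv : h v v = 0) (hw : h w w = 0) {a : F} (ha : a ≠ 0) (e : w = a • v) :
    rootGroup hF w hw = rootGroup hF v hv := by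
  subst e
  apply le_antisymm (rootGroup_smul_le hF hv hw)
  have e2 : v = a⁻¹ • (a • v) := by rw [smul_smul, inv_mul_cancel₀ ha, one_smul]
  have hv' : h (a⁻¹ • (a • v)) (a⁻¹ • (a • v)) = 0 := by rw [← e2]; exact hv
  intro A hA
  have := rootGroup_smul_le hF hw hv' (a := a⁻¹)
  apply this
  rcases hA with ⟨c, hc, hA⟩
  exact ⟨c, hc, by rw [hA, ← e2]⟩

theorem rootGroup_comm (hF : Fintype.card F = q ^ 2) {v : Fin n → F} {hv : h v v = 0} {A B : SU n F q} (hA : A ∈ rootGroup hF v hv) (hB : B ∈ rootGroup hF v hv) :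
    A * B = B * A := by
  obtain ⟨a, -, hA⟩ := hA
  obtain ⟨b, -, hB⟩ := hB
  apply su_ext
  intro x
  rw [su_mul_mulVec, su_mul_mulVec, hA, hB, ut_mulVec, ut_mulVec, ut_mulVec, ut_mulVec, hf_add_left, hf_add_left, hf_smul_left, hf_smul_left, hv]
  module

theorem rootGroup_conj (hF : Fintype.card F = q ^ 2) (g : SU n F q) {v : Fin n → F} (hv : h v v = 0) (hgv : h ((g.1 : Matrix (Fin n) (Fin n) F) *ᵥ v) ((g.1 : Matrix (Fin n) (Fin n) F) *ᵥ v) = 0) :
    rootGroup hF ((g.1 : Matrix (Fin n) (Fin n) F) *ᵥ v) hgv = MulAut.conj g • rootGroup hF v hv := by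
  ext A
  rw [Subgroup.mem_smul_pointwise_iff_exists]
  constructor
  · rintro ⟨c, hc, hA⟩
    refine ⟨UT hF hv hc, ⟨c, hc, rfl⟩, ?_⟩
    rw [MulAut.smul_def, MulAut.conj_apply]
    exact conj_ut g _ A rfl hA rfl
  · rintro ⟨B, ⟨c, hc, hB⟩, rfl⟩
    refine ⟨c, hc, ?_⟩
    rw [MulAut.smul_def, MulAut.conj_apply]
    have := conj_ut g B (UT hF hgv hc) hB rfl rfl
    rw [this]
    rfl

/-- Isotropic representative. -/
theorem exists_rep (S : IsoLine n F q) : ∃ (v : Fin n → F) (hv0 : v ≠ 0) (hv : h v v = 0), S = mkL v hv0 hv := by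
  induction S using ind_L with
  | H v hv0 hv => exact ⟨v, hv0, hv, rfl⟩

noncomputable def rep (S : IsoLine n F q) : Fin n → F := (exists_rep S).choose
theorem rep_ne (S : IsoLine n F q) : rep S ≠ 0 := (exists_rep S).choose_spec.choose
theorem rep_iso (S : IsoLine n F q) : h (rep S) (rep S) = 0 := (exists_rep S).choose_spec.choose_spec.choose
theorem rep_spec (S : IsoLine n F q) : S = mkL (rep S) (rep_ne S) (rep_iso S) := (exists_rep S).choose_spec.choose_spec.choose_spec

theorem rep_rootGroup (hF : Fintype.card F = q ^ 2) {v : Fin n → F} (hv0 : v ≠ 0) (hv : h v v = 0) :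
    rootGroup hF (rep (mkL v hv0 hv)) (rep_iso _) = rootGroup hF v hv := by
  have := rep_spec (mkL v hv0 hv)
  obtain ⟨a, ha, e⟩ := mkL_eq_iff.1 this
  exact rootGroup_eq hF hv (rep_iso _) ha e

/-- The Iwasawa structure on isotropic lines. -/
noncomputable def suIwasawa (hF : Fintype.card F = q ^ 2) (hn : 3 ≤ n) (h32 : ¬ (n = 3 ∧ q = 2)) : IwasawaStructure (SU n F q) (IsoLine n F q) where
  T S := rootGroup hF (rep S) (rep_iso S)
  is_comm S := by
    constructor
    constructor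
    rintro ⟨A, hA⟩ ⟨B, hB⟩
    apply Subtype.ext
    exact rootGroup_comm hF hA hB
  is_conj g S := by
    induction S using ind_L with | H v hv0 hv => ?_
    rw [smul_mkL, rep_rootGroup, rep_rootGroup, rootGroup_conj hF g hv]
  is_generator := by
    rw [eq_top_iff, ← T1_eq_top hF n hn h32, T1, Subgroup.closure_le]
    rintro A ⟨v, c, hv, hA⟩
    by_cases hv0 : v = 0
    · have : A = 1 := by
        apply su_ext
        intro x
        rw [su_one_mulVec, hA, ut_mulVec, hv0]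
        simp
      rw [this]
      exact Subgroup.one_mem _
    · apply Subgroup.mem_iSup_of_mem (mkL v hv0 hv)
      rw [rep_rootGroup]
      exact ⟨c, ut_admissible hF A hv0 hv hA, hA⟩

theorem mem_center_iff (hF : Fintype.card F = q ^ 2) (hn : 3 ≤ n) (z : SU n F q) :
    z ∈ Subgroup.center (SU n F q) ↔ ∀ S : IsoLine n F q, z • S = S := by
  constructor
  · intro hz S
    induction S using ind_L with | H v hv0 hv => ?_
    obtain ⟨l, hl⟩ := center_scalar hF (by omega) hz
    rw [smul_mkL, mkL_eq_iff]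
    have e : (z.1 : Matrix (Fin n) (Fin n) F) *ᵥ v = l • v := by
      rw [hl, Matrix.smul_mulVec, Matrix.one_mulVec]
    have hne := su_ne_zero z hv0
    have hl0 : l ≠ 0 := by
      rintro rfl
      rw [e, zero_smul] at hne
      exact hne rfl
    refine ⟨l⁻¹, inv_ne_zero hl0, ?_⟩
    rw [e, smul_smul, inv_mul_cancel₀ hl0, one_smul]
  · intro hfix
    obtain ⟨l, hl⟩ := scalar_of_eigen' hF (by omega) (A := (z.1 : Matrix (Fin n) (Fin n) F)) (fun v hv0 hv => by
      have h1 := hfix (mkL v hv0 hv)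
      rw [smul_mkL, mkL_eq_iff] at h1
      obtain ⟨a, ha, e⟩ := h1
      have e2 : (z.1 : Matrix (Fin n) (Fin n) F) *ᵥ v = a⁻¹ • v := by
        conv_rhs => rw [e]
        rw [smul_smul, inv_mul_cancel₀ ha, one_smul]
      exact ⟨a⁻¹, e2⟩)
    rw [Subgroup.mem_center_iff]
    intro g
    apply su_ext
    intro x
    rw [su_mul_mulVec, su_mul_mulVec, hl, Matrix.smul_mulVec, Matrix.smul_mulVec, Matrix.one_mulVec, Matrix.one_mulVec, Matrix.mulVec_smul]

theorem exists_not_center (hF : Fintype.card F = q ^ 2) (hn : 3 ≤ n) : ∃ g : SU n F q, g ∉ Subgroup.center (SU n F q) := by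
  obtain ⟨m, rfl⟩ : ∃ m, n = m + 3 := ⟨n - 3, by omega⟩
  obtain ⟨a, ha⟩ := exists_a hF
  obtain ⟨c, hc0, hc⟩ := exists_t hF
  have hv0 := vv_ne a (m + 1)
  have hv := herm_vv_self hF ha (m + 1)
  obtain ⟨w, u₀, hw, hvw, -, -, -⟩ := hasTriple hF m (vv a (m + 1)) hv0 hv
  refine ⟨UT hF hv hc, ?_⟩
  intro hz
  obtain ⟨l, hl⟩ := center_scalar hF (by omega) hz
  have e1 : ((UT hF hv hc).1 : Matrix (Fin (m + 3)) (Fin (m + 3)) F) *ᵥ (vv a (m + 1)) = vv a (m + 1) := by
    rw [UT_val, ut_mulVec, hv]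
    simp
  rw [hl, Matrix.smul_mulVec, Matrix.one_mulVec] at e1
  have hl1 : l = 1 := by
    have : (l - 1) • vv a (m + 1) = 0 := by
      rw [sub_smul, one_smul, e1, sub_self]
    have h2 := (smul_eq_zero.1 this).resolve_right hv0
    exact sub_eq_zero.1 h2
  have e2 : ((UT hF hv hc).1 : Matrix (Fin (m + 3)) (Fin (m + 3)) F) *ᵥ w = w := by
    rw [hl, hl1, one_smul, Matrix.one_mulVec]
  rw [UT_val, ut_mulVec] at e2
  have e3 : (c * hermForm (m + 3) F q w (vv a (m + 1))) • vv a (m + 1) = 0 := by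
    simpa using e2
  have hwv : hermForm (m + 3) F q w (vv a (m + 1)) ≠ 0 := by
    rw [hf_conj hF (vv a (m + 1)) w, hvw, one_pow]
    exact one_ne_zero
  exact (smul_ne_zero (mul_ne_zero hc0 hwv) hv0) e3

/-- `PSU_n(q)` is simple. -/
theorem PSU_isSimple (hF : Fintype.card F = q ^ 2) (hn : 3 ≤ n) (h32 : ¬ (n = 3 ∧ q = 2)) : IsSimpleGroup (Cfsg.PSU n F q) := by
  haveI : IsPreprimitive (SU n F q) (IsoLine n F q) := preprim hF hn
  have hperf : commutator (SU n F q) = ⊤ := by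
    rw [eq_top_iff, ← T1_eq_top hF n hn h32, T1, Subgroup.closure_le]
    rintro A ⟨v, c, hv, hA⟩
    obtain ⟨m, rfl⟩ : ∃ m, n = m + 3 := ⟨n - 3, by omega⟩
    obtain ⟨B, C, e⟩ := tv_commutator hF (hasTriple hF m) A hv hA
    have : A = ⁅B, C⁆ := by
      rw [← e, commutatorElement_def]
    rw [this]
    exact Subgroup.commutator_mem_commutator (Subgroup.mem_top _) (Subgroup.mem_top _)
  exact Cfsg.Agent.Lib.IwasawaQuot.isSimpleGroup_quotient (suIwasawa hF hn h32) hperf (Subgroup.center (SU n F q))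
    (mem_center_iff hF hn) (exists_not_center hF hn)

end Cfsg.Agent.Lib.UnitSimple
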