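import Mathlib
import Cfsg.Prelude.Def_ConjugacyFunctors
import Cfsg.Agent.Lib.PNilp

set_option autoImplicit false
set_option linter.style.haveILetI false
set_option linter.unusedSectionVars false

/-! Towers of conjugacy functors and well-placed subgroups. -/

namespace Cfsg.Agent.Lib.WellPlaced

open Cfsg Cfsg.Agent.Lib.PNilp

section Main

variable {G : Type*} [Group G] [Finite G] {p : ℕ} [Fact p.Prime]

/-- short for conjugate -/
abbrev cc (x : G) (U : Subgroup G) : Subgroup G := U.map (MulAut.conj x).toMonoidHom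

theorem cc_cc (x y : G) (U : Subgroup G) : cc x (cc y U) = cc (x * y) U := by
  unfold cc
  rw [Subgroup.map_map]
  congr 1
  ext z
  simp [mul_assoc]

theorem cc_one (U : Subgroup G) : cc (1 : G) U = U := by
  ext z
  simp [cc, Subgroup.mem_map]

theorem cc_mono {x : G} {U V : Subgroup G} (h : U ≤ V) : cc x U ≤ cc x V := Subgroup.map_mono h

theorem normalizer_cc (x : G) (U : Subgroup G) :
    Subgroup.normalizer ((cc x U : Subgroup G) : Set G) = cc x (Subgroup.normalizer (U : Set G)) :=
  (map_conj_normalizer x U).symm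

theorem inf_cc (x : G) (U V : Subgroup G) : cc x (U ⊓ V) = cc x U ⊓ cc x V :=
  Subgroup.map_inf _ _ _ (MulAut.conj x).injective

theorem relIndex_cc (x : G) (U V : Subgroup G) : (cc x U).relIndex (cc x V) = U.relIndex V :=
  Subgroup.relIndex_map_map_of_injective _ _ (MulAut.conj x).injective

/-- a `p`-subgroup containing a subgroup of index prime to `p` equals it. -/
theorem eq_of_index_coprime {A A' B : Subgroup G} (hAA' : A ≤ A') (hA'B : A' ≤ B)
    (hA' : IsPGroup p ↥A') (hi : ¬ p ∣ A.relIndex B) : A' ≤ A := by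
  have h1 : A.relIndex A' * A'.relIndex B = A.relIndex B := Subgroup.relIndex_mul_relIndex _ _ _ hAA' hA'B
  have h2 : A.relIndex A' ∣ A.relIndex B := ⟨_, h1.symm⟩
  have h3 : A.relIndex A' ∣ Nat.card A' := Subgroup.relIndex_dvd_card _ _
  obtain ⟨k, hk⟩ := IsPGroup.iff_card.mp hA'
  rw [hk] at h3
  obtain ⟨j, -, hj⟩ := (Nat.dvd_prime_pow Fact.out).mp h3
  cases j with
  | zero =>
    rw [pow_zero] at hj
    exact Subgroup.relIndex_eq_one.mp hj
  | succ j =>
    exfalso
    apply hi
    refine dvd_trans ?_ h2
    rw [hj]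
    exact dvd_pow_self p (Nat.succ_ne_zero j)

variable (W : Subgroup G → Subgroup G) (S : Subgroup G)

/-- the terms of the normalizer chain. -/
abbrev PP (T : Subgroup G) (i : ℕ) : Subgroup G :=
  S ⊓ Subgroup.normalizer ((functorTower W S T i : Subgroup G) : Set G)

theorem tower_succ (T : Subgroup G) (i : ℕ) : functorTower W S T (i + 1) = W (PP W S T i) := rfl

variable {W S} (hW : IsConjugacyFunctor p W) (hS : IsPGroup p ↥S)

include hS in
theorem PP_isPGroup (T : Subgroup G) (i : ℕ) : IsPGroup p ↥(PP W S T i) := hS.to_le inf_le_left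

include hW in
theorem normalizes_W {P : Subgroup G} (hP : IsPGroup p ↥P) :
    P ≤ Subgroup.normalizer ((W P : Subgroup G) : Set G) := by
  intro g hg
  rw [mem_normalizer_iff_map']
  have h1 := (hW P hP).2.2 g
  have h2 : P.map (MulAut.conj g).toMonoidHom = P := mem_normalizer_iff_map'.mp (Subgroup.le_normalizer hg)
  rw [h2] at h1
  exact h1.symm

include hW hS in
theorem PP_le_succ (T : Subgroup G) (i : ℕ) : PP W S T i ≤ PP W S T (i + 1) := by
  refine le_inf inf_le_left ?_
  rw [tower_succ]
  exact normalizes_W hW (PP_isPGroup hS T i)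

include hW hS in
theorem PP_mono (T : Subgroup G) : Monotone (PP W S T) :=
  monotone_nat_of_le_succ (PP_le_succ hW hS T)

theorem le_PP_zero {T : Subgroup G} (hT : T ≤ S) : T ≤ PP W S T 0 :=
  le_inf hT Subgroup.le_normalizer

include hW hS in
theorem le_PP {T : Subgroup G} (hT : T ≤ S) (i : ℕ) : T ≤ PP W S T i :=
  (le_PP_zero hT).trans (PP_mono hW hS T (Nat.zero_le i))

include hW hS in
/-- the main step -/
theorem step (hconj : ∀ R : Subgroup G, IsPGroup p ↥R → ∃ x : G, cc x R ≤ S)
    {T : Subgroup G} (hT : T ≤ S) (k : ℕ)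
    (hgood : ∀ i < k, ¬ p ∣ (PP W S T i).relIndex
      (Subgroup.normalizer ((functorTower W S T i : Subgroup G) : Set G))) :
    ∃ x : G, cc x T ≤ S ∧ ∀ i ≤ k, ¬ p ∣ (PP W S (cc x T) i).relIndex
      (Subgroup.normalizer ((functorTower W S (cc x T) i : Subgroup G) : Set G)) := by
  classical
  set N := Subgroup.normalizer ((functorTower W S T k : Subgroup G) : Set G) with hN
  -- a Sylow subgroup of `N` containing `P_k`
  have hPk : IsPGroup p ↥((PP W S T k).subgroupOf N) :=
    (PP_isPGroup hS T k).comap_of_injective _ (Subgroup.subtype_injective N)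
  obtain ⟨R₀, hR₀⟩ := hPk.exists_le_sylow
  set R : Subgroup G := (R₀ : Subgroup ↥N).map N.subtype with hR
  have hRN : R ≤ N := Subgroup.map_subtype_le _
  have hRp : IsPGroup p ↥R := R₀.2.map _
  have hRidx : ¬ p ∣ R.relIndex N := by
    have : R.relIndex N = (R₀ : Subgroup ↥N).index := by
      rw [Subgroup.relIndex]
      congr 1
      exact Subgroup.comap_map_eq_self_of_injective (Subgroup.subtype_injective N) _
    rw [this]
    exact R₀.not_dvd_index
  have hPR : PP W S T k ≤ R := by
    intro y hy
    have hyN : y ∈ N := (Subgroup.mem_inf.mp hy).2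
    exact ⟨⟨y, hyN⟩, hR₀ (Subgroup.mem_subgroupOf.mpr hy), rfl⟩
  obtain ⟨x, hx⟩ := hconj R hRp
  have hTR : T ≤ R := (le_PP hW hS hT k).trans hPR
  refine ⟨x, (cc_mono hTR).trans hx, ?_⟩
  set T' := cc x T with hT'
  have key : ∀ i, i < k → functorTower W S T' i = cc x (functorTower W S T i) →
      PP W S T' i = cc x (PP W S T i) := by
    intro i hi hU
    have hP1 : PP W S T i ≤ R := (PP_mono hW hS T hi.le).trans hPR
    have hnorm : Subgroup.normalizer ((functorTower W S T' i : Subgroup G) : Set G) =
        cc x (Subgroup.normalizer ((functorTower W S T i : Subgroup G) : Set G)) := by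
      rw [hU]; exact normalizer_cc _ _
    have hle : cc x (PP W S T i) ≤ PP W S T' i := by
      refine le_inf ((cc_mono hP1).trans hx) ?_
      rw [hnorm]
      exact cc_mono inf_le_right
    refine le_antisymm (eq_of_index_coprime (p := p) hle inf_le_right (PP_isPGroup hS T' i) ?_) hle
    rw [hnorm, relIndex_cc]
    exact hgood i hi
  have hU : ∀ i ≤ k, functorTower W S T' i = cc x (functorTower W S T i) := by
    intro i
    induction i with
    | zero => intro _; rfl
    | succ i ih =>
      intro hi
      have h1 := ih (by omega)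
      have h2 := key i (by omega) h1
      rw [tower_succ, tower_succ, h2]
      exact (hW _ (PP_isPGroup hS T i)).2.2 x
  intro i hi
  rcases lt_or_eq_of_le hi with hlt | rfl
  · rw [key i hlt (hU i hi), hU i hi, normalizer_cc, relIndex_cc]
    exact hgood i hlt
  · have hnorm : Subgroup.normalizer ((functorTower W S T' i : Subgroup G) : Set G) = cc x N := by
      rw [hU i hi]; exact normalizer_cc _ _
    have hle : cc x R ≤ PP W S T' i := by
      refine le_inf hx ?_
      rw [hnorm]
      exact cc_mono hRN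
    have heq : PP W S T' i = cc x R :=
      le_antisymm (eq_of_index_coprime (p := p) hle inf_le_right (PP_isPGroup hS T' i)
        (by rw [hnorm, relIndex_cc]; exact hRidx)) hle
    rw [heq, hnorm, relIndex_cc]
    exact hRidx

include hW hS in
theorem exists_good (hconj : ∀ R : Subgroup G, IsPGroup p ↥R → ∃ x : G, cc x R ≤ S)
    {T : Subgroup G} (hT : T ≤ S) (k : ℕ) :
    ∃ g : G, cc g T ≤ S ∧ ∀ i < k, ¬ p ∣ (PP W S (cc g T) i).relIndex
      (Subgroup.normalizer ((functorTower W S (cc g T) i : Subgroup G) : Set G)) := by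
  induction k with
  | zero =>
    refine ⟨1, ?_, fun i hi => absurd hi (Nat.not_lt_zero i)⟩
    rw [cc_one]; exact hT
  | succ k ih =>
    obtain ⟨g, hg, hgood⟩ := ih
    obtain ⟨x, hx, hgood2⟩ := step hW hS hconj hg k hgood
    refine ⟨x * g, ?_, fun i hi => ?_⟩
    · rw [← cc_cc]; exact hx
    · rw [← cc_cc]; exact hgood2 i (by omega)

include hW hS in
/-- stabilization of the tower -/
theorem tower_stable (T : Subgroup G) : ∃ i₀ ≤ Nat.card S, ∀ j, i₀ + 1 ≤ j →
    functorTower W S T j = functorTower W S T (i₀ + 1) := by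
  classical
  have hex : ∃ i₀ ≤ Nat.card S, PP W S T i₀ = PP W S T (i₀ + 1) := by
    by_contra hcon
    push Not at hcon
    have hcard : ∀ i ≤ Nat.card S + 1, i + 1 ≤ Nat.card ↥(PP W S T i) := by
      intro i
      induction i with
      | zero =>
        intro _
        exact Nat.card_pos
      | succ i ih =>
        intro hi
        have h1 := ih (by omega)
        have hlt : PP W S T i < PP W S T (i + 1) :=
          lt_of_le_of_ne (PP_le_succ hW hS T i) (hcon i (by omega))
        have h2 : Nat.card ↥(PP W S T i) < Nat.card ↥(PP W S T (i + 1)) :=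
          lt_of_not_ge (fun h => hlt.ne (Subgroup.eq_of_le_of_card_ge hlt.le h))
        omega
    have h1 := hcard (Nat.card S) (by omega)
    have h2 : Nat.card ↥(PP W S T (Nat.card S)) ≤ Nat.card S :=
      Subgroup.card_le_of_le inf_le_left
    omega
  obtain ⟨i₀, hi₀, he⟩ := hex
  refine ⟨i₀, hi₀, ?_⟩
  intro j hj
  induction j, hj using Nat.le_induction with
  | base => rfl
  | succ j hj ih =>
    have h3 : PP W S T j = PP W S T (i₀ + 1) := by
      simp only [PP]; rw [ih]
    rw [tower_succ, h3, ← he]
    rfl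

include hW hS in
theorem exists_well_placed (hconj : ∀ R : Subgroup G, IsPGroup p ↥R → ∃ x : G, cc x R ≤ S)
    {T : Subgroup G} (hT : T ≤ S) : ∃ g : G, IsWellPlaced p W S (cc g T) := by
  obtain ⟨g, hg, hgood⟩ := exists_good hW hS hconj hT (Nat.card S + 2)
  refine ⟨g, hg, ?_⟩
  obtain ⟨i₀, hi₀, hstab⟩ := tower_stable hW hS (cc g T)
  intro j
  by_cases hj : j < Nat.card S + 2
  · exact hgood j hj
  · have h1 := hstab j (by omega)
    have h2 := hgood (i₀ + 1) (by omega)
    have h3 : PP W S (cc g T) j = PP W S (cc g T) (i₀ + 1) := by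
      simp only [PP]; rw [h1]
    show ¬ p ∣ (PP W S (cc g T) j).relIndex
      (Subgroup.normalizer ((functorTower W S (cc g T) j : Subgroup G) : Set G))
    rw [h3, h1]
    exact h2

end Main

end Cfsg.Agent.Lib.WellPlaced
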